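import Groth.Prelude.Def_FibClv
set_option autoImplicit false
set_option backward.isDefEq.respectTransparency false
set_option backward.isDefEq.respectTransparency.types false
universe v₁ v₂ v₃ u₁ u₂ u₃
open CategoryTheory CategoryTheory.Functor FibCat FibCat.Cleavage

namespace FC9
variable {𝒮 : Type u₁} {𝒳 : Type u₂} [Category.{v₁} 𝒮] [Category.{v₂} 𝒳] {p : 𝒳 ⥤ 𝒮} (K : FibCat.Cleavage p)

theorem congr_fac {R S : 𝒮} {f f' : R ⟶ S} (h : f = f') (a : p.Fiber S) :
    Fiber.fiberInclusion.map ((K.inverseImageCongr h).hom.app a) ≫ K.lift a.2 f' = K.lift a.2 f := by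
  subst h
  simp [Cleavage.inverseImageCongr]

theorem comp_fac {R S T : 𝒮} (f : T ⟶ S) (g : R ⟶ T) (a : p.Fiber S) :
    Fiber.fiberInclusion.map ((K.comp f g).app a) ≫ K.lift a.2 (g ≫ f) = K.lift (K.obj_proj a.2 f) g ≫ K.lift a.2 f := by
  rw [Cleavage.comp_app, IsCartesian.fac]

theorem r6014 (S T : 𝒮) (f : T ⟶ S) (a : p.Fiber S) :
    Functor.Fiber.fiberInclusion.map ((K.comp f (𝟙 T)).app a ≫ (K.inverseImageCongr (Category.id_comp f)).hom.app a) =
      (K.transport (𝟙 T)).app ((K.inverseImage f).obj a) := by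
  apply IsCartesian.ext p f (K.lift a.2 f)
  rw [Functor.map_comp, Category.assoc]
  erw [congr_fac, comp_fac]
  rfl

theorem r6015 (S T : 𝒮) (f : T ⟶ S) (a : p.Fiber S) :
    (K.comp (𝟙 S) f).app a ≫ (K.inverseImageCongr (Category.comp_id f)).hom.app a =
      (K.inverseImage f).map (Functor.Fiber.homMk p S (K.lift a.2 (𝟙 S))) := by
  apply Fiber.hom_ext
  apply IsCartesian.ext p f (K.lift a.2 f)
  rw [Functor.map_comp, Category.assoc]
  erw [congr_fac, comp_fac]
  rw [Cleavage.inverseImage_map, IsCartesian.fac]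
  rfl

theorem r6016 (S T U V : 𝒮) (f : T ⟶ S) (g : U ⟶ T) (h : V ⟶ U) :
    Functor.whiskerLeft (K.inverseImage f) (K.comp g h) ≫ K.comp f (h ≫ g) ≫ (K.inverseImageCongr (Category.assoc h g f)).hom =
      Functor.whiskerRight (K.comp f g) (K.inverseImage h) ≫ K.comp (g ≫ f) h := by
  ext a
  apply IsCartesian.ext p (h ≫ g ≫ f) (K.lift a.2 (h ≫ g ≫ f))
  simp only [NatTrans.comp_app, Functor.whiskerLeft_app, Functor.whiskerRight_app, Functor.map_comp, Category.assoc]
  erw [congr_fac, comp_fac]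
  have h1 := comp_fac K g h ((K.inverseImage f).obj a)
  have h2 : Fiber.fiberInclusion.map ((K.comp g h).app ((K.inverseImage f).obj a)) ≫ K.lift (K.obj_proj a.2 f) (h ≫ g) ≫ K.lift a.2 f = (K.lift (K.obj_proj (K.obj_proj a.2 f) g) h ≫ K.lift (K.obj_proj a.2 f) g) ≫ K.lift a.2 f := by
    rw [← Category.assoc]; exact congrArg (· ≫ K.lift a.2 f) h1
  erw [h2, comp_fac]
  rw [Cleavage.inverseImage_map]
  erw [IsCartesian.fac_assoc]
  rw [Category.assoc, Category.assoc]
  erw [comp_fac]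

theorem r6018 (C : Type u₃) [Category.{v₃} C] (F G : 𝒳 ⥤ C)
    (u : ∀ S : 𝒮, (Functor.Fiber.fiberInclusion ⋙ F : p.Fiber S ⥤ C) ⟶ Functor.Fiber.fiberInclusion ⋙ G)
    (hu : ∀ ⦃T S : 𝒮⦄ (f : T ⟶ S) (a : p.Fiber S),
      F.map ((K.transport f).app a) ≫ (u S).app a = (u T).app ((K.inverseImage f).obj a) ≫ G.map ((K.transport f).app a)) :
    ∃! v : F ⟶ G, ∀ (S : 𝒮) (a : p.Fiber S), v.app a.1 = (u S).app a := by
  refine ⟨{ app := fun x => (u (p.obj x)).app ⟨x, rfl⟩, naturality := ?_ }, ?_, ?_⟩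
  · intro x y φ
    -- factor φ through the lift of p.map φ
    let y' : p.Fiber (p.obj y) := ⟨y, rfl⟩
    let ψ : x ⟶ K.obj y'.2 (p.map φ) := IsCartesian.map p (p.map φ) (K.lift y'.2 (p.map φ)) φ
    have hψ : ψ ≫ K.lift y'.2 (p.map φ) = φ := IsCartesian.fac _ _ _ _
    let x' : p.Fiber (p.obj x) := ⟨x, rfl⟩
    have h1 := (u (p.obj x)).naturality (Fiber.homMk p (p.obj x) ψ : x' ⟶ (K.inverseImage (p.map φ)).obj y')
    have h2 := hu (p.map φ) y'
    have h1' : F.map ψ ≫ (u (p.obj x)).app ((K.inverseImage (p.map φ)).obj y') = (u (p.obj x)).app x' ≫ G.map ψ := h1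
    have h2' : F.map (K.lift y'.2 (p.map φ)) ≫ (u (p.obj y)).app y' = (u (p.obj x)).app ((K.inverseImage (p.map φ)).obj y') ≫ G.map (K.lift y'.2 (p.map φ)) := h2
    change F.map φ ≫ (u (p.obj y)).app y' = (u (p.obj x)).app x' ≫ G.map φ
    rw [← hψ, F.map_comp, G.map_comp, Category.assoc]
    erw [h2', reassoc_of% h1']
  · rintro S ⟨a, rfl⟩
    rfl
  · intro v hv
    ext x
    exact hv (p.obj x) ⟨x, rfl⟩

theorem r6019 [p.IsPreFibered] : ∃ K : FibCat.Cleavage p, K.IsNormalised := by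
  have key : ∀ (R S : 𝒮) (a : 𝒳) (ha : p.obj a = S) (f : R ⟶ S), ∃ (b : 𝒳) (φ : b ⟶ a), p.IsCartesian f φ ∧
      ∀ h : R = S, f = eqToHom h → ∃ hb : b = a, φ = eqToHom hb := by
    intro R S a ha f
    by_cases h : ∃ h : R = S, f = eqToHom h
    · obtain ⟨rfl, rfl⟩ := h
      subst ha
      refine ⟨a, 𝟙 a, ?_, fun _ _ => ⟨rfl, rfl⟩⟩
      rw [eqToHom_refl]
      infer_instance
    · exact ⟨_, IsPreFibered.pullbackMap ha f, inferInstance, fun h1 h2 => (h ⟨h1, h2⟩).elim⟩
  choose b φ h1 h2 using key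
  refine ⟨⟨fun {R S a} ha f => b R S a ha f, fun {R S a} ha f => φ R S a ha f, fun {R S a} ha f => h1 R S a ha f⟩, ?_⟩
  intro S a ha
  exact h2 S S a ha (𝟙 S) rfl (by simp)

theorem r6013 [p.IsFibered] (S T : 𝒮) (f : T ⟶ S) [IsIso f] : (K.inverseImage f).IsEquivalence := by
  have hiso : ∀ (a : p.Fiber S), IsIso (K.lift a.2 f) := fun a => IsStronglyCartesian.isIso_of_base_isIso p f _
  have hfac : ∀ {a b : p.Fiber S} (φ : a ⟶ b), Fiber.fiberInclusion.map ((K.inverseImage f).map φ) ≫ K.lift b.2 f = K.lift a.2 f ≫ Fiber.fiberInclusion.map φ := by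
    intro a b φ
    rw [Cleavage.inverseImage_map, IsCartesian.fac]
  have hfaith : (K.inverseImage f).Faithful := by
    constructor
    intro a b φ ψ h
    apply Fiber.hom_ext
    have h1 := hfac φ
    rw [h, hfac ψ] at h1
    have := hiso a
    exact ((cancel_epi (K.lift a.2 f)).1 h1).symm
  have hfull : (K.inverseImage f).Full := by
    constructor
    intro a b φ
    have := hiso a
    have := hiso b
    have hl : p.IsHomLift (𝟙 S) (inv (K.lift a.2 f) ≫ Fiber.fiberInclusion.map φ ≫ K.lift b.2 f) := by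
      have : p.IsHomLift (inv f ≫ 𝟙 T ≫ f) (inv (K.lift a.2 f) ≫ Fiber.fiberInclusion.map φ ≫ K.lift b.2 f) := inferInstance
      simpa using this
    refine ⟨Fiber.homMk p S (inv (K.lift a.2 f) ≫ Fiber.fiberInclusion.map φ ≫ K.lift b.2 f), ?_⟩
    apply Fiber.hom_ext
    apply IsCartesian.ext p f (K.lift b.2 f)
    rw [hfac, Fiber.fiberInclusion_homMk]
    erw [IsIso.hom_inv_id_assoc]
  have hess : (K.inverseImage f).EssSurj := by
    constructor
    intro c
    let a : p.Fiber S := (K.inverseImage (inv f)).obj c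
    have h1 : IsIso (K.lift c.2 (inv f)) := IsStronglyCartesian.isIso_of_base_isIso p (inv f) _
    have h2 : p.IsHomLift f (inv (K.lift c.2 (inv f))) := by
      have : p.IsHomLift (inv (inv f)) (inv (K.lift c.2 (inv f))) := inferInstance
      simpa using this
    have h3 : p.IsCartesian f (inv (K.lift c.2 (inv f))) := inferInstance
    let e : K.obj a.2 f ≅ c.1 := (IsCartesian.domainUniqueUpToIso p f (inv (K.lift c.2 (inv f))) (K.lift a.2 f))
    have e1 : p.IsHomLift (𝟙 T) e.hom := by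
      exact IsCartesian.domainUniqueUpToIso_inv_isHomLift p f (inv (K.lift c.2 (inv f))) (K.lift a.2 f)
    have e2 : p.IsHomLift (𝟙 T) e.inv := by
      exact IsCartesian.domainUniqueUpToIso_hom_isHomLift p f (inv (K.lift c.2 (inv f))) (K.lift a.2 f)
    refine ⟨a, ⟨⟨⟨e.hom, e1⟩, ⟨e.inv, e2⟩, ?_, ?_⟩⟩⟩
    · exact Subtype.ext e.hom_inv_id
    · exact Subtype.ext e.inv_hom_id
  exact { }


/-- isomorphisms in the fibre -/
theorem isIso_homMk {R : 𝒮} {a b : p.Fiber R} (φ : a ⟶ b) [IsIso (Fiber.fiberInclusion.map φ)] : IsIso φ := by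
  have h : p.IsHomLift (𝟙 R) (inv (Fiber.fiberInclusion.map φ)) := inferInstance
  refine ⟨⟨inv (Fiber.fiberInclusion.map φ), h⟩, ?_, ?_⟩
  · apply Fiber.hom_ext
    exact IsIso.hom_inv_id (Fiber.fiberInclusion.map φ)
  · apply Fiber.hom_ext
    exact IsIso.inv_hom_id (Fiber.fiberInclusion.map φ)

theorem isIso_map {R S : 𝒮} {a b a' : 𝒳} (f : R ⟶ S) (φ : a ⟶ b) [p.IsCartesian f φ] (φ' : a' ⟶ b) [p.IsCartesian f φ'] :
    IsIso (IsCartesian.map p f φ φ') := by
  exact (IsCartesian.domainUniqueUpToIso p f φ φ').isIso_hom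

theorem r6012 : p.IsFibered ↔ ∀ (R S T : 𝒮) (f : T ⟶ S) (g : R ⟶ T), IsIso (K.comp f g) := by
  constructor
  · intro hp R S T f g
    rw [NatTrans.isIso_iff_isIso_app]
    intro a
    have : IsIso (Fiber.fiberInclusion.map ((K.comp f g).app a)) := by
      rw [Cleavage.comp_app]
      exact isIso_map _ _ _
    exact isIso_homMk _
  · intro h
    have := K.isPreFibered
    refine { comp := ?_ }
    intro R S T f g a b c φ ψ h1 h2
    have hc : p.obj c = T := IsHomLift.codomain_eq p g ψ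
    let c' : p.Fiber T := ⟨c, hc⟩
    have e1 : IsIso (IsCartesian.map p g (K.lift hc g) ψ) := isIso_map _ _ _
    have h3 : IsCartesian.map p g (K.lift hc g) ψ ≫ K.lift hc g = ψ := IsCartesian.fac _ _ _ _
    have h4 : p.IsCartesian f (φ ≫ IsCartesian.map p g (K.lift hc g) ψ) := by
      have : p.IsHomLift (𝟙 S) (asIso (IsCartesian.map p g (K.lift hc g) ψ)).hom := by
        rw [asIso_hom]; infer_instance
      exact IsCartesian.of_comp_iso p f φ (asIso (IsCartesian.map p g (K.lift hc g) ψ))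
    have e2 : IsIso (IsCartesian.map p f (K.lift (K.obj_proj hc g) f) (φ ≫ IsCartesian.map p g (K.lift hc g) ψ)) := isIso_map _ _ _
    have h5 : IsCartesian.map p f (K.lift (K.obj_proj hc g) f) (φ ≫ IsCartesian.map p g (K.lift hc g) ψ) ≫ K.lift (K.obj_proj hc g) f = φ ≫ IsCartesian.map p g (K.lift hc g) ψ := IsCartesian.fac _ _ _ _
    have h6 := comp_fac K g f c'
    have h7 : IsIso ((K.comp g f).app c') := by
      have := h R T S g f
      infer_instance
    have h8 : IsIso (Fiber.fiberInclusion.map ((K.comp g f).app c')) := inferInstance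
    have h9 : φ ≫ ψ = (IsCartesian.map p f (K.lift (K.obj_proj hc g) f) (φ ≫ IsCartesian.map p g (K.lift hc g) ψ) ≫ Fiber.fiberInclusion.map ((K.comp g f).app c')) ≫ K.lift hc (f ≫ g) := by
      rw [Category.assoc]
      erw [h6]
      erw [reassoc_of% h5]
      rw [h3]
    rw [h9]
    have h10 : IsIso (IsCartesian.map p f (K.lift (K.obj_proj hc g) f) (φ ≫ IsCartesian.map p g (K.lift hc g) ψ) ≫ Fiber.fiberInclusion.map ((K.comp g f).app c')) := by
      exact IsIso.comp_isIso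
    have h11 : p.IsHomLift (𝟙 R) (IsCartesian.map p f (K.lift (K.obj_proj hc g) f) (φ ≫ IsCartesian.map p g (K.lift hc g) ψ) ≫ Fiber.fiberInclusion.map ((K.comp g f).app c')) := by
      exact IsHomLift.comp_of_lift_id p R _ _
    have h12 : p.IsHomLift (𝟙 R) (asIso (IsCartesian.map p f (K.lift (K.obj_proj hc g) f) (φ ≫ IsCartesian.map p g (K.lift hc g) ψ) ≫ Fiber.fiberInclusion.map ((K.comp g f).app c'))).hom := by
      rw [asIso_hom]; exact h11
    exact IsCartesian.of_iso_comp p (f ≫ g) (K.lift hc (f ≫ g)) (asIso (IsCartesian.map p f (K.lift (K.obj_proj hc g) f) (φ ≫ IsCartesian.map p g (K.lift hc g) ψ) ≫ Fiber.fiberInclusion.map ((K.comp g f).app c')))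
end FC9
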