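import Groth.Prelude.Def_EGA4Misc
import Mathlib.AlgebraicGeometry.Morphisms.UniversallyInjective
import Mathlib.RingTheory.RingHom.PurelyInseparable
set_option autoImplicit false
universe u
open CategoryTheory AlgebraicGeometry

namespace RP9

theorem bot {F E K : Type u} [Field F] [Field E] [Field K] {f : F →+* E} {g : E →+* K}
    (h : (g.comp f).IsPurelyInseparable) : f.IsPurelyInseparable := by
  algebraize [f, g, g.comp f]
  exact IsPurelyInseparable.tower_bot F E K

theorem top {F E K : Type u} [Field F] [Field E] [Field K] {f : F →+* E} {g : E →+* K}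
    (h : (g.comp f).IsPurelyInseparable) : g.IsPurelyInseparable := by
  algebraize [f, g, g.comp f]
  exact IsPurelyInseparable.tower_top F E K

theorem r5862 {X Y Z : Scheme.{u}} (f : X ⟶ Y) (g : Y ⟶ Z) (y : Y) :
    (RadPt.IsRadicialAt f y → RadPt.IsRadicialAt g (g y) → RadPt.IsRadicialAt (f ≫ g) (g y)) ∧
      (Surjective f → RadPt.IsRadicialAt (f ≫ g) (g y) →
        RadPt.IsRadicialAt f y ∧ RadPt.IsRadicialAt g (g y)) := by
  have hc : ∀ x : X, (f ≫ g) x = g (f x) := fun x => rfl
  have hr : ∀ x : X, ((f ≫ g).residueFieldMap x).hom = (f.residueFieldMap x).hom.comp (g.residueFieldMap (f x)).hom := by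
    intro x
    rw [Scheme.residueFieldMap_comp]; rfl
  constructor
  · rintro ⟨hf1, hf2⟩ ⟨hg1, hg2⟩
    have h1 : ∀ x : X, (f ≫ g) x = g y → f x = y := fun x hx => hg1 _ _ hx rfl
    refine ⟨fun x x' hx hx' => hf1 _ _ (h1 x hx) (h1 x' hx'), fun x hx => ?_⟩
    rw [hr]
    exact RingHom.IsPurelyInseparable.comp (hg2 (f x) hx) (hf2 x (h1 x hx))
  · rintro hs ⟨h1, h2⟩
    refine ⟨⟨fun x x' hx hx' => h1 _ _ (by rw [hc, hx]) (by rw [hc, hx']), fun x hx => ?_⟩,
      ⟨fun z z' hz hz' => ?_, fun z hz => ?_⟩⟩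
    · have h3 := h2 x (by rw [hc, hx])
      rw [hr] at h3
      exact top h3
    · obtain ⟨x, rfl⟩ := f.surjective z
      obtain ⟨x', rfl⟩ := f.surjective z'
      exact congrArg f (h1 x x' hz hz')
    · obtain ⟨x, rfl⟩ := f.surjective z
      have h3 := h2 x hz
      rw [hr] at h3
      exact bot h3
end RP9
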