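import Groth.Statements.S9277
import Mathlib

set_option autoImplicit false
universe u
open CAlgX

namespace Groth.Agent.S9277


open CAlgX

theorem mc1 {R : Type u} [CommRing R] (m n : ℕ) (A : Matrix (Fin n) (Fin m) R)
    (h : (minorIdeal A m).annihilator = ⊥) : Function.Injective (Matrix.mulVecLin A) := by
  rw [injective_iff_map_eq_zero]
  intro x hx
  rw [Matrix.mulVecLin_apply] at hx
  have hmin : ∀ (f : Fin m → Fin n) (j : Fin m), x j * (A.submatrix f id).det = 0 := by
    intro f j
    have h1 : (A.submatrix f id).mulVec x = 0 := by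
      funext i
      exact congrFun hx (f i)
    have h2 : ((A.submatrix f id).adjugate * (A.submatrix f id)).mulVec x = 0 := by
      rw [← Matrix.mulVec_mulVec, h1, Matrix.mulVec_zero]
    rw [Matrix.adjugate_mul, Matrix.smul_mulVec, Matrix.one_mulVec] at h2
    have h3 := congrFun h2 j
    rw [mul_comm]
    exact h3
  have hmem : ∀ j, x j ∈ (minorIdeal A m).annihilator := by
    intro j
    rw [Submodule.mem_annihilator]
    intro z hz
    refine Submodule.span_induction (p := fun z _ => x j • z = 0) ?_ (smul_zero _) ?_ ?_ hz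
    · rintro _ ⟨⟨f, g⟩, rfl⟩
      have h4 : A.submatrix f g = (A.submatrix f id) * ((1 : Matrix (Fin m) (Fin m) R).submatrix id g) := by
        ext i k
        simp [Matrix.mul_apply, Matrix.one_apply]
      show x j * Matrix.det (A.submatrix f g) = 0
      rw [h4, Matrix.det_mul, ← mul_assoc, hmin, zero_mul]
    · intro a b _ _ ha hb
      rw [smul_add, ha, hb, add_zero]
    · intro c a _ ha
      rw [smul_comm, ha, smul_zero]
  funext j
  have := hmem j
  rw [h] at this
  exact this

theorem mc2 {R : Type u} [CommRing R] (m n : ℕ) (A : Matrix (Fin n) (Fin m) R)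
    (hinj : Function.Injective (Matrix.mulVecLin A)) : (minorIdeal A m).annihilator = ⊥ := by
  classical
  rw [eq_bot_iff]
  intro a ha
  rw [Ideal.mem_bot]
  by_contra ha0
  let P : ℕ → Prop := fun r => ∃ (f : Fin r → Fin n) (g : Fin r → Fin m), a * (A.submatrix f g).det ≠ 0
  have hP0 : P 0 := by
    refine ⟨Fin.elim0, Fin.elim0, ?_⟩
    rw [Matrix.det_fin_zero, mul_one]
    exact ha0
  have hPm : ¬ P m := by
    rintro ⟨f, g, h⟩
    apply h
    exact (Submodule.mem_annihilator.1 ha) _ (Ideal.subset_span ⟨(f, g), rfl⟩)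
  have hex : ∃ r, ¬ P r := ⟨m, hPm⟩
  have hr1 := Nat.find_spec hex
  have hr2 : Nat.find hex ≤ m := Nat.find_min' hex hPm
  have hr3 : Nat.find hex ≠ 0 := by
    intro h
    rw [h] at hr1
    exact hr1 hP0
  obtain ⟨r, hr⟩ := Nat.exists_eq_succ_of_ne_zero hr3
  have hPr : P r := by
    by_contra h
    exact Nat.find_min hex (by omega) h
  rw [hr] at hr1 hr2
  obtain ⟨f, g, hfg⟩ := hPr
  have hall : ∀ (f' : Fin (r + 1) → Fin n) (g' : Fin (r + 1) → Fin m), a * (A.submatrix f' g').det = 0 := by
    intro f' g'
    by_contra h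
    exact hr1 ⟨f', g', h⟩
  have hg : Function.Injective g := by
    intro i j hij
    by_contra hne
    apply hfg
    rw [Matrix.det_zero_of_column_eq hne (fun k => by rw [Matrix.submatrix_apply, Matrix.submatrix_apply, hij]), mul_zero]
  obtain ⟨j0, hj0⟩ : ∃ j0, j0 ∉ Set.range g := by
    by_contra hcon
    push Not at hcon
    have hsurj : Function.Surjective g := hcon
    have := Fintype.card_le_of_surjective g hsurj
    rw [Fintype.card_fin, Fintype.card_fin] at this
    omega
  let g' : Fin (r + 1) → Fin m := Fin.cons j0 g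
  have hg' : Function.Injective g' := Fin.cons_injective_iff.2 ⟨hj0, hg⟩
  let y : Fin (r + 1) → R := fun k => a * ((-1) ^ (k : ℕ) * (A.submatrix f (g' ∘ k.succAbove)).det)
  let x : Fin m → R := ∑ k, y k • Pi.single (g' k) (1 : R)
  have hx : Matrix.mulVecLin A x = 0 := by
    rw [map_sum]
    funext i
    rw [Finset.sum_apply]
    have h1 := hall (Fin.cons i f) g'
    rw [Matrix.det_succ_row_zero, Finset.mul_sum] at h1
    rw [Pi.zero_apply, ← h1]
    refine Finset.sum_congr rfl fun k _ => ?_
    rw [map_smul, Pi.smul_apply, Matrix.mulVecLin_apply, Matrix.mulVec_single_one, smul_eq_mul]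
    have h2 : ((A.submatrix (Fin.cons i f) g').submatrix Fin.succ k.succAbove) = A.submatrix f (g' ∘ k.succAbove) := by
      ext a b
      simp
    rw [h2]
    simp only [Matrix.submatrix_apply, Fin.cons_zero, Matrix.col_apply, y]
    ring
  have hx0 : x = 0 := hinj (by rw [hx, map_zero])
  have h3 : (∑ k, y k • Pi.single (g' k) (1 : R) : Fin m → R) j0 = (0 : Fin m → R) j0 := congrFun hx0 j0
  rw [Finset.sum_apply, Finset.sum_eq_single 0] at h3
  · apply hfg
    have h4 : g' 0 = j0 := rfl
    have h5 : g' ∘ (0 : Fin (r+1)).succAbove = g := by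
      funext k
      simp [g']
    simp only [Pi.smul_apply, h4, Pi.single_eq_same, smul_eq_mul, mul_one, y, h5, Fin.val_zero, pow_zero, one_mul, Pi.zero_apply] at h3
    exact h3
  · intro k _ hk
    have : g' k ≠ j0 := fun h => hk (hg' h)
    rw [Pi.smul_apply, Pi.single_eq_of_ne this.symm, smul_zero]
  · intro h; exact absurd (Finset.mem_univ _) h

theorem rank_eq {R : Type u} [CommRing R] [Nontrivial R] (m n : ℕ) (A : Matrix (Fin n) (Fin m) R)
    (h : (minorIdeal A m).annihilator = ⊥) : matrixRank A = m := by
  have hne : minorIdeal A m ≠ ⊥ := by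
    intro h0
    rw [h0, Submodule.annihilator_bot] at h
    exact top_ne_bot h
  have hub : ∀ r ∈ {r : ℕ | minorIdeal A r ≠ ⊥}, r ≤ m := by
    intro r hr
    by_contra hlt
    push Not at hlt
    apply hr
    rw [eq_bot_iff, minorIdeal, Ideal.span_le]
    rintro _ ⟨⟨f, g⟩, rfl⟩
    have hg : ¬ Function.Injective g := by
      intro hinj
      have := Fintype.card_le_of_injective g hinj
      rw [Fintype.card_fin, Fintype.card_fin] at this
      omega
    rw [Function.Injective] at hg
    push Not at hg
    obtain ⟨i, j, hij, hne⟩ := hg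
    show Matrix.det (A.submatrix f g) ∈ (⊥ : Ideal R)
    rw [Matrix.det_zero_of_column_eq hne (fun k => by rw [Matrix.submatrix_apply, Matrix.submatrix_apply, hij])]
    exact Ideal.zero_mem _
  apply le_antisymm
  · exact csSup_le ⟨m, hne⟩ hub
  · exact le_csSup ⟨m, hub⟩ hne

/-- Let R be a local ring and φ : R^m → R^n a map of finite free modules with matrix M. Then φ is
injective if and only if the rank of M is m and the annihilator of the determinantal ideal I(M)
(generated by the minors of size the rank) is zero. -/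
theorem result (R : Type u) [CommRing R] [IsLocalRing R]
    (m n : ℕ) (M : Matrix (Fin n) (Fin m) R) :
    Function.Injective (Matrix.mulVecLin M) ↔
      CAlgX.matrixRank M = m ∧ (CAlgX.detIdeal M).annihilator = ⊥ := by
  constructor
  · intro h
    have h1 := mc2 m n M h
    have h2 := rank_eq m n M h1
    refine ⟨h2, ?_⟩
    rw [detIdeal, h2]
    exact h1
  · rintro ⟨h1, h2⟩
    rw [detIdeal, h1] at h2
    exact mc1 m n M h2

end Groth.Agent.S9277
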