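import Groth.Statements.S0063
import Groth.Agent.Lib.H1_Unram

set_option autoImplicit false
open CategoryTheory CategoryTheory.Limits AlgebraicGeometry Opposite
universe u
open EtBase

namespace Groth.Agent.S0063

/-- Rigidity of maps into an unramified separated scheme — two maps from a connected scheme over the
base that agree at one point, including on residue fields, coincide. -/
theorem result {X S Y : Scheme.{u}} (π : X ⟶ S)
    [FormallyUnramified π] [LocallyOfFiniteType π] [IsSeparated π]
    (h : Y ⟶ S) [ConnectedSpace Y] (f g : Y ⟶ X) (hf : f ≫ π = h) (hg : g ≫ π = h)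
    (y : Y) (hy : Y.fromSpecResidueField y ≫ f = Y.fromSpecResidueField y ≫ g) : f = g := by
  exact Groth.Agent.H1.Unram.S0063 π h f g hf hg y hy

end Groth.Agent.S0063
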