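import Groth.Statements.S0065
import Groth.Agent.Lib.H1_EtStalkB

set_option autoImplicit false
open CategoryTheory CategoryTheory.Limits AlgebraicGeometry Opposite
universe u
open EtBase

namespace Groth.Agent.S0065

/-- For an étale morphism X → Y with Y locally Noetherian and a point x of X, the local ring of X at x
is regular if and only if the local ring of Y at the image of x is regular. -/
theorem result {X Y : Scheme.{u}} (f : X ⟶ Y) [AlgebraicGeometry.Etale f]
    [IsLocallyNoetherian Y] (x : X) :
    IsRegularLocalRing (X.presheaf.stalk x) ↔ IsRegularLocalRing (Y.presheaf.stalk (f.base x)) := by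
  exact Groth.Agent.H1.EtStalk.S0065 f x

end Groth.Agent.S0065
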