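import Groth.Statements.S0079
import Groth.Agent.Lib.H1_Descent

set_option autoImplicit false
open CategoryTheory CategoryTheory.Limits AlgebraicGeometry Opposite
universe u
open EtBase

namespace Groth.Agent.S0079

/-- Quasi-compactness of a morphism descends along a quasi-compact flat surjective base change: if the
base change of a morphism g along a quasi-compact, flat, surjective morphism to its target is
quasi-compact, then g is quasi-compact. (Stated for a single quasi-compact faithfully flat cover;
combined with Zariski-locality on the target this gives the fpqc-local form.) -/
theorem result :
    MorphismProperty.DescendsAlong @QuasiCompact (@Surjective ⊓ @Flat ⊓ @QuasiCompact : MorphismProperty Scheme.{u}) := by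
  exact Groth.Agent.H1.Descent.S0079

end Groth.Agent.S0079
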