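import Groth.Statements.S0080
import Groth.Agent.Lib.H1_Descent

set_option autoImplicit false
open CategoryTheory CategoryTheory.Limits AlgebraicGeometry Opposite
universe u
open EtBase

namespace Groth.Agent.S0080

/-- Quasi-separatedness descends along a quasi-compact flat surjective base change: if the base change
of a morphism along a quasi-compact, flat, surjective morphism is quasi-separated, then the morphism
is quasi-separated. (The published statement is the fpqc-local form; stated here for a single
quasi-compact flat surjective base change, from which that form follows by Zariski-locality on the
target.) -/
theorem result :
    MorphismProperty.DescendsAlong @QuasiSeparated (@Surjective ⊓ @Flat ⊓ @QuasiCompact : MorphismProperty Scheme.{u}) := by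
  exact Groth.Agent.H1.Descent.S0080

end Groth.Agent.S0080
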