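import Groth.Statements.S0085
import Groth.Agent.Lib.H1_Descent

set_option autoImplicit false
open CategoryTheory CategoryTheory.Limits AlgebraicGeometry Opposite
universe u
open EtBase

namespace Groth.Agent.S0085

/-- Integrality of a morphism descends along a quasi-compact flat surjective base change: if the base
change of a morphism along a quasi-compact, flat, surjective morphism is integral, then so is the
morphism. (Stated for a single quasi-compact faithfully flat cover; combined with Zariski-locality
on the target this gives the fpqc-local statement.) -/
theorem result :
    MorphismProperty.DescendsAlong @IsIntegralHom (@Surjective ⊓ @Flat ⊓ @QuasiCompact : MorphismProperty Scheme.{u}) := by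
  exact Groth.Agent.H1.Descent.S0085

end Groth.Agent.S0085
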