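import Groth.Statements.S0086
import Groth.Agent.Lib.H1_Descent

set_option autoImplicit false
open CategoryTheory CategoryTheory.Limits AlgebraicGeometry Opposite
universe u
open EtBase

namespace Groth.Agent.S0086

/-- If the base change of a morphism of schemes along a quasi-compact, flat, surjective morphism is
proper, then the morphism itself is proper. (Stated for a single quasi-compact flat surjective base
change; together with Zariski-locality on the target this is fpqc descent for properness.) -/
theorem result :
    MorphismProperty.DescendsAlong @IsProper (@Surjective ⊓ @Flat ⊓ @QuasiCompact : MorphismProperty Scheme.{u}) := by
  exact Groth.Agent.H1.Descent.S0086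

end Groth.Agent.S0086
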