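import Groth.Statements.S0087
import Mathlib
import Groth.Agent.Lib.H1_Descent

set_option autoImplicit false
open CategoryTheory CategoryTheory.Limits AlgebraicGeometry Opposite
universe u
open EtBase

namespace Groth.Agent.S0087

open TensorProduct in
theorem qf_descent {R S T : Type u} [CommRing R] [CommRing S] [CommRing T] [Algebra R S] [Algebra R T]
    [Module.FaithfullyFlat R S] [h : Algebra.QuasiFinite S (S ⊗[R] T)] : Algebra.QuasiFinite R T := by
  refine ⟨fun p hp ↦ ?_⟩
  obtain ⟨⟨P, hP⟩, hPp⟩ := (PrimeSpectrum.comap_surjective_of_faithfullyFlat (A := R) (B := S)) ⟨p, hp⟩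
  have : P.LiesOver p := ⟨by simpa [PrimeSpectrum.ext_iff, eq_comm] using hPp⟩
  let := Localization.AtPrime.algebraOfLiesOver p P
  let e : P.Fiber (S ⊗[R] T) ≃ₐ[P.ResidueField] P.ResidueField ⊗[p.ResidueField] (p.Fiber T) :=
    (Algebra.TensorProduct.cancelBaseChange _ _ _ _ _).trans
      (Algebra.TensorProduct.cancelBaseChange _ _ _ _ _).symm
  have h1 : Module.Finite P.ResidueField (P.Fiber (S ⊗[R] T)) := h.finite_fiber P
  have h2 : Module.Finite P.ResidueField (P.ResidueField ⊗[p.ResidueField] (p.Fiber T)) :=
    .of_surjective e.toLinearMap e.surjective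
  exact Module.Finite.of_finite_tensorProduct_of_faithfullyFlat P.ResidueField


/-- Being locally quasi-finite (in the sense that includes being locally of finite type; encoded as the
conjunction of the two properties) descends along a quasi-compact flat surjective base change: if
the base change of a morphism g along a quasi-compact, flat, surjective morphism to its target is
locally quasi-finite and locally of finite type, then so is g. (Stated for a single quasi-compact
faithfully flat cover; combined with Zariski-locality on the target this gives the fpqc-local form.) -/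
theorem result :
    MorphismProperty.DescendsAlong (@LocallyQuasiFinite ⊓ @LocallyOfFiniteType : MorphismProperty Scheme.{u}) (@Surjective ⊓ @Flat ⊓ @QuasiCompact : MorphismProperty Scheme.{u}) := by
  have : MorphismProperty.DescendsAlong (@LocallyQuasiFinite : MorphismProperty Scheme.{u}) (@Surjective ⊓ @Flat ⊓ @QuasiCompact : MorphismProperty Scheme.{u}) := by
    refine HasRingHomProperty.descendsAlong_flat (P := @LocallyQuasiFinite) (Q := RingHom.QuasiFinite) ?_
    refine .mk _ RingHom.QuasiFinite.respectsIso fun R S T _ _ _ _ _ h h' ↦ ?_
    rw [RingHom.quasiFinite_algebraMap] at h' ⊢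
    rw [RingHom.faithfullyFlat_algebraMap_iff] at h
    exact qf_descent (S := S)
  infer_instance

end Groth.Agent.S0087
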