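import Groth.Statements.S0090
import Groth.Agent.Lib.H1_Normal2

set_option autoImplicit false
open CategoryTheory CategoryTheory.Limits AlgebraicGeometry Opposite
universe u
open EtBase

namespace Groth.Agent.S0090

/-- Part (2) — every local ring of an integral normal scheme with separably closed function field is
strictly henselian. -/
theorem result (X : Scheme.{u}) [IsIntegral X] (hN : ∀ x : X, IsIntegrallyClosed (X.presheaf.stalk x))
    [IsSepClosed X.functionField] (x : X) : EtCoh.IsStrictlyHenselianLocalRing (X.presheaf.stalk x) := by
  exact Groth.Agent.H1.Normal.S0090 X hN x

end Groth.Agent.S0090
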