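import Groth.Statements.S0119
import Groth.Agent.Lib.H1_EtStalkC

set_option autoImplicit false
open CategoryTheory CategoryTheory.Limits AlgebraicGeometry Opposite
universe u
open EtBase

namespace Groth.Agent.S0119

/-- Let f : X → Y be an étale morphism of schemes with Y locally Noetherian, and let x ∈ X. Then the
local ring O_{X,x} is reduced if and only if the local ring O_{Y,f(x)} is reduced. -/
theorem result {X Y : Scheme.{u}} (f : X ⟶ Y) [AlgebraicGeometry.Etale f]
    [IsLocallyNoetherian Y] (x : X) :
    _root_.IsReduced (X.presheaf.stalk x) ↔ _root_.IsReduced (Y.presheaf.stalk (f.base x)) := by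
  exact Groth.Agent.H1.EtStalk.S0119 f x

end Groth.Agent.S0119
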