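import Groth.Statements.S0237
import Groth.Agent.Lib.H1_Unram

set_option autoImplicit false
universe u
open Pi1

namespace Groth.Agent.S0237

open AlgebraicGeometry CategoryTheory in
/-- If a morphism of schemes has dense image, pulling back finite etale covers along it is faithful. -/
theorem result {X Y : Scheme.{u}} (f : X ⟶ Y)
    (h : DenseRange f.base) : (FEt.restrict f).Faithful := by
  exact Groth.Agent.H1.Unram.S0237 f h

end Groth.Agent.S0237
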