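import Groth.Statements.S0243
import Groth.Agent.Lib.H1_Unram

set_option autoImplicit false
universe u
open Pi1

namespace Groth.Agent.S0243

open AlgebraicGeometry CategoryTheory CategoryTheory.Limits in
/-- If a closed subscheme meets every connected component of the ambient scheme, restricting finite
etale covers to it is a faithful functor. -/
theorem result {X Y : Scheme.{u}} (i : Y ⟶ X) [IsClosedImmersion i]
    (h : ∀ x : X, (connectedComponent x ∩ Set.range i.base).Nonempty) :
    (FEt.restrict i).Faithful := by
  exact Groth.Agent.H1.Unram.S0243 i h

end Groth.Agent.S0243
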