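import Groth.Statements.S0249
import Groth.Agent.Lib.H1_Krull

set_option autoImplicit false
universe u
open Pi1

namespace Groth.Agent.S0249

open AlgebraicGeometry CategoryTheory CategoryTheory.Limits in
/-- Let A be a Noetherian local ring of dimension at least 1 and f an element of its maximal ideal. Then
some prime ideal of height exactly 1 contains f. -/
theorem result (A : Type u) [CommRing A] [IsNoetherianRing A] [IsLocalRing A]
    (h : (1 : WithBot ℕ∞) ≤ ringKrullDim A) (f : A) (hf : f ∈ IsLocalRing.maximalIdeal A) :
    ∃ p : Ideal A, p.IsPrime ∧ f ∈ p ∧ p.height = 1 := by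
  exact Groth.Agent.H1.Krull.S0249 A h f hf

end Groth.Agent.S0249
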