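import Groth.Statements.S0253
import Groth.Agent.Lib.H1_Normal

set_option autoImplicit false
universe u
open Pi1

namespace Groth.Agent.S0253

open AlgebraicGeometry CategoryTheory CategoryTheory.Limits in
/-- Let A be an integrally closed domain whose fraction field is separably closed. Then the residue
field at any nonzero prime ideal of A is algebraically closed. -/
theorem result (A : Type u) [CommRing A] [IsDomain A] [IsIntegrallyClosed A] [IsSepClosed (FractionRing A)]
    (p : Ideal A) [p.IsPrime] (hp : p ≠ ⊥) : IsAlgClosed p.ResidueField := by
  exact Groth.Agent.H1.Normal.S0253 A p hp

end Groth.Agent.S0253
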