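import Groth.Statements.S0254
import Groth.Agent.Lib.H1_Normal

set_option autoImplicit false
universe u
open Pi1

namespace Groth.Agent.S0254

open AlgebraicGeometry CategoryTheory CategoryTheory.Limits in
/-- An integrally closed local domain whose fraction field is separably closed is henselian with
separably closed residue field (i.e. strictly henselian). -/
theorem result (A : Type u) [CommRing A] [IsDomain A] [IsLocalRing A] [IsIntegrallyClosed A]
    [IsSepClosed (FractionRing A)] :
    HenselianLocalRing A ∧ IsSepClosed (IsLocalRing.ResidueField A) := by
  exact Groth.Agent.H1.Normal.S0254 A

end Groth.Agent.S0254
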