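import Groth.Statements.S0299
import Groth.Agent.Lib.H1_InjC

set_option autoImplicit false
universe u v
open InjHull

namespace Groth.Agent.S0299

/-- Every module over a commutative ring has an injective hull, i.e. an essential injection into an
injective module. -/
theorem result (R : Type u) [CommRing R] (M : Type u) [AddCommGroup M] [Module R M] : ∃ (E : Type u) (_ : AddCommGroup E) (_ : Module R E) (f : M →ₗ[R] E), InjHull.IsInjectiveHull f := by
  exact Groth.Agent.H1.Inj.S0299 R M

end Groth.Agent.S0299
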