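import Groth.Statements.S0300
import Groth.Agent.Lib.H1_InjB

set_option autoImplicit false
universe u v
open InjHull

namespace Groth.Agent.S0300

/-- Over a Noetherian ring, injectivity of modules is preserved under arbitrary direct sums. -/
theorem result (R : Type u) [CommRing R] [IsNoetherianRing R] {ι : Type u} (E : ι → Type u) [∀ i, AddCommGroup (E i)] [∀ i, Module R (E i)] (hE : ∀ i, Module.Injective R (E i)) : Module.Injective R (DirectSum ι E) := by
  exact Groth.Agent.H1.Inj.S0300 R E hE

end Groth.Agent.S0300
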