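import Groth.Statements.S0301
import Groth.Agent.Lib.H1_InjE

set_option autoImplicit false
universe u v
open InjHull

namespace Groth.Agent.S0301

/-- Over a Noetherian ring, the submodule of an injective module consisting of the elements killed by
some power of a given ideal is again injective. -/
theorem result (R : Type u) [CommRing R] [IsNoetherianRing R] (I : Type u) [AddCommGroup I] [Module R I] (hI : Module.Injective R I) (J : Ideal R) : Module.Injective R ↥(⨆ n : ℕ, Submodule.torsionBySet R I ((J ^ n : Ideal R) : Set R)) := by
  exact Groth.Agent.H1.Inj.S0301 R I hI J

end Groth.Agent.S0301
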