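import Groth.Statements.S0302
import Groth.Agent.Lib.H1_Inj

set_option autoImplicit false
universe u v
open InjHull

namespace Groth.Agent.S0302

/-- Two injective hulls of the same module are isomorphic by an isomorphism compatible with the two
embeddings. -/
theorem result (R : Type u) [CommRing R] (M : Type u) [AddCommGroup M] [Module R M] (E : Type u) [AddCommGroup E] [Module R E] (E' : Type u) [AddCommGroup E'] [Module R E'] (f : M →ₗ[R] E) (hf : InjHull.IsInjectiveHull f) (g : M →ₗ[R] E') (hg : InjHull.IsInjectiveHull g) : ∃ e : E ≃ₗ[R] E', e.toLinearMap ∘ₗ f = g := by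
  exact Groth.Agent.H1.Inj.S0302 R M E E' f hf g hg

end Groth.Agent.S0302
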