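import Groth.Statements.S0303
import Groth.Agent.Lib.H1_Inj

set_option autoImplicit false
universe u v
open InjHull

namespace Groth.Agent.S0303

/-- If M → E is an injective hull and M → I is any embedding into an injective module, then E embeds
into I compatibly with M and its image is a direct summand of I. -/
theorem result (R : Type u) [CommRing R] (M : Type u) [AddCommGroup M] [Module R M] (E : Type u) [AddCommGroup E] [Module R E] (I : Type u) [AddCommGroup I] [Module R I] (f : M →ₗ[R] E) (hf : InjHull.IsInjectiveHull f) (i : M →ₗ[R] I) (hi : Function.Injective i) (hI : Module.Injective R I) : ∃ α : E →ₗ[R] I, Function.Injective α ∧ α ∘ₗ f = i ∧ ∃ I' : Submodule R I, IsCompl (LinearMap.range α) I' := by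
  exact Groth.Agent.H1.Inj.S0303 R M E I f hf i hi hI

end Groth.Agent.S0303
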