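import Groth.Statements.S0304
import Groth.Agent.Lib.H1_InjD

set_option autoImplicit false
universe u v
open InjHull

namespace Groth.Agent.S0304

/-- Let R be a commutative ring and E an indecomposable injective R-module. Then any two nonzero
submodules of E have nonzero intersection, and the set of elements r ∈ R such that r·x = 0 for some
nonzero x ∈ E is a prime ideal of R. -/
theorem result (R : Type u) [CommRing R] (E : Type u) [AddCommGroup E] [Module R E] (hE : InjHull.IsIndecomposable R E) (hinj : Module.Injective R E) : (∀ N N' : Submodule R E, N ≠ ⊥ → N' ≠ ⊥ → N ⊓ N' ≠ ⊥) ∧ ∃ p : Ideal R, p.IsPrime ∧ (p : Set R) = {r : R | ∃ x : E, x ≠ 0 ∧ r • x = 0} := by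
  exact Groth.Agent.H1.Inj.S0304 R E hE hinj

end Groth.Agent.S0304
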