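import Groth.Statements.S0305
import Groth.Agent.Lib.H1_InjH

set_option autoImplicit false
universe u v
open InjHull

namespace Groth.Agent.S0305

/-- Let R be a commutative ring, p a prime ideal, and E an injective hull of R/p. Then E is
indecomposable, and E is also an injective hull of the residue field κ(p). -/
theorem result (R : Type u) [CommRing R] (p : Ideal R) [p.IsPrime] (E : Type u) [AddCommGroup E] [Module R E] (f : (R ⧸ p) →ₗ[R] E) (hf : InjHull.IsInjectiveHull f) : InjHull.IsIndecomposable R E ∧ ∃ g : p.ResidueField →ₗ[R] E, InjHull.IsInjectiveHull g := by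
  exact Groth.Agent.H1.Inj.S0305 R p E f hf

end Groth.Agent.S0305
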