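import Groth.Statements.S0306
import Groth.Agent.Lib.H1_InjI

set_option autoImplicit false
universe u v
open InjHull

namespace Groth.Agent.S0306

/-- Over a Noetherian ring every indecomposable injective module is an injective hull of the residue
field of some prime. -/
theorem result (R : Type u) [CommRing R] [IsNoetherianRing R] (E : Type u) [AddCommGroup E] [Module R E] (hE : InjHull.IsIndecomposable R E) (hinj : Module.Injective R E) : ∃ (p : Ideal R) (_ : p.IsPrime) (g : p.ResidueField →ₗ[R] E), InjHull.IsInjectiveHull g := by
  exact Groth.Agent.H1.Inj.S0306 R E hE hinj

end Groth.Agent.S0306
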