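import Groth.Statements.S0310
import Groth.Agent.Lib.H1_InjG

set_option autoImplicit false
universe u v
open Matlis

namespace Groth.Agent.S0310

/-- Over a local ring, a module killed elementwise by powers of the maximal ideal and whose socle has
finite dimension n over the residue field embeds into the n-fold sum of an injective hull of the
residue field. -/
theorem result (R : Type u) [CommRing R] [IsLocalRing R] (E : Type u) [AddCommGroup E] [Module R E] (f : IsLocalRing.ResidueField R →ₗ[R] E) (hf : InjHull.IsInjectiveHull f) (M : Type u) [AddCommGroup M] [Module R M] (hM : LocCoh.IsPowerTorsion (IsLocalRing.maximalIdeal R) M) (n : ℕ) [Module.Finite (R ⧸ IsLocalRing.maximalIdeal R) ↥(LocCoh.torsionBy (IsLocalRing.maximalIdeal R) M)] (hn : Module.finrank (R ⧸ IsLocalRing.maximalIdeal R) ↥(LocCoh.torsionBy (IsLocalRing.maximalIdeal R) M) = n) : ∃ g : M →ₗ[R] (Fin n → E), Function.Injective g := by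
  exact Groth.Agent.H1.Inj.S0310 R E f hf M hM n hn

end Groth.Agent.S0310
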