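import Groth.Statements.S0311
import Groth.Agent.Lib.H1_InjF

set_option autoImplicit false
universe u v
open Matlis

namespace Groth.Agent.S0311

/-- Over a Noetherian local ring, every element of an injective hull E of the residue field is killed by
some power of the maximal ideal (E is the union of the E[m^n]). (The source also identifies E[m^n]
with an injective hull of the residue field over R/m^n; not stated here.) -/
theorem result (R : Type u) [CommRing R] [IsLocalRing R] [IsNoetherianRing R] (E : Type u) [AddCommGroup E] [Module R E] (f : IsLocalRing.ResidueField R →ₗ[R] E) (hf : InjHull.IsInjectiveHull f) : LocCoh.IsPowerTorsion (IsLocalRing.maximalIdeal R) E := by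
  exact Groth.Agent.H1.Inj.S0311 R E f hf

end Groth.Agent.S0311
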