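import Groth.Statements.S0426
import Groth.Agent.Lib.H3WE

set_option autoImplicit false
universe u
open FlatMor

namespace Groth.Agent.S0426

/-- A field extension L/K such that L is weakly étale over K (equivalently the multiplication map of L
⊗_K L is flat) is algebraic and separable. -/
theorem result {K L : Type u} [Field K] [Field L] [Algebra K L] [Algebra.WeaklyEtale K L] : Algebra.IsSeparable K L := by
  exact Groth.Agent.H3WE.isSeparable_of_weaklyEtale L

end Groth.Agent.S0426
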