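import Groth.Statements.S0473
import Groth.Agent.Lib.Helper2_Brown2

set_option autoImplicit false
universe v u
open CategoryTheory
open CohDer

namespace Groth.Agent.S0473


open CategoryTheory.Limits CategoryTheory.Pretriangulated.Opposite in
/-- Assume D is triangulated, has all small coproducts, and admits a set of compact objects that
generates it. Any cohomological functor from D^op to abelian groups that turns coproducts of D into
products is of the form Hom(-, X) for some object X. -/
theorem result {D : Type u} [Category.{v} D] [Preadditive D] [Limits.HasZeroObject D] [HasShift D ℤ]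
    [∀ n : ℤ, (shiftFunctor D n).Additive] [Pretriangulated D] [IsTriangulated D] [HasCoproducts.{v} D]
    (hD : CohDer.IsCompactlyGenerated D) (H : Dᵒᵖ ⥤ AddCommGrpCat.{v}) [H.IsHomological]
    [∀ (ι : Type v), PreservesLimitsOfShape (Discrete ι) H] :
    (H ⋙ forget AddCommGrpCat.{v}).IsRepresentable := by
  have := Groth.Agent.H2.Brown.hasCoproducts_nat D
  exact Groth.Agent.H2.Brown.brown_compact H hD


end Groth.Agent.S0473
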