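import Groth.Statements.S0474
import Groth.Agent.Lib.Helper2_Brown2

set_option autoImplicit false
universe v u u'
open CategoryTheory
open CohDer

namespace Groth.Agent.S0474


open CategoryTheory.Limits in
/-- Let D be a compactly generated triangulated category with direct sums and F : D ⥤ D' an exact
functor of (pre)triangulated categories commuting with direct sums. Then F is a left adjoint. (The
source also shows the adjoint is exact; we only assert existence.) -/
theorem result {D : Type u} [Category.{v} D] [Preadditive D] [Limits.HasZeroObject D] [HasShift D ℤ]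
    [∀ n : ℤ, (shiftFunctor D n).Additive] [Pretriangulated D] [IsTriangulated D] [HasCoproducts.{v} D]
    {D' : Type u'} [Category.{v} D'] [Preadditive D'] [Limits.HasZeroObject D'] [HasShift D' ℤ]
    [∀ n : ℤ, (shiftFunctor D' n).Additive] [Pretriangulated D']
    (hD : CohDer.IsCompactlyGenerated D) (F : D ⥤ D') [F.CommShift ℤ] [F.IsTriangulated]
    [∀ (ι : Type v), PreservesColimitsOfShape (Discrete ι) F] : F.IsLeftAdjoint := by
  have := Groth.Agent.H2.Brown.hasCoproducts_nat D
  exact Groth.Agent.H2.Brown.isLeftAdjoint_of_brown
    (fun H _ _ => Groth.Agent.H2.Brown.brown_compact H hD) F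


end Groth.Agent.S0474
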