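import Groth.Statements.S0475
import Groth.Agent.Lib.Helper2_Compact

set_option autoImplicit false
universe v u
open CategoryTheory
open CohDer

namespace Groth.Agent.S0475


open CategoryTheory.Limits in
/-- In a pretriangulated category with direct sums the property of being a compact object contains zero,
is stable under all shifts and is closed under extensions in distinguished triangles (a triangulated
subcategory in Mathlib's sense). The source also shows it is Karoubian and saturated. -/
theorem result {D : Type u} [Category.{v} D] [Preadditive D] [Limits.HasZeroObject D] [HasShift D ℤ]
    [∀ n : ℤ, (shiftFunctor D n).Additive] [Pretriangulated D] [HasCoproducts.{v} D] :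
    ObjectProperty.IsTriangulated (fun K : D => CohDer.IsCompactObject K) := by
  exact Groth.Agent.H2.Cpt.isTriangulated_compact


end Groth.Agent.S0475
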