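import Groth.Statements.S0490
import Groth.Agent.Lib.Helper2_Tri
import Mathlib.CategoryTheory.Adjunction.PartialAdjoint

set_option autoImplicit false
universe v u
open CategoryTheory
open CohDer

namespace Groth.Agent.S0490

open CategoryTheory.Limits

open CategoryTheory.Pretriangulated in
/-- Let A be a full triangulated subcategory of a pretriangulated category D (an object property
containing zero, stable under shifts and closed under extensions). The inclusion A → D is a left
adjoint (i.e. has a right adjoint) if and only if every object X of D fits in a distinguished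
triangle A → X → B → A[1] with A in the subcategory and B right orthogonal to it. (The source's
further conclusions about saturation are not asserted.) -/
theorem result {D : Type u} [Category.{v} D] [Preadditive D] [Limits.HasZeroObject D] [HasShift D ℤ]
    [∀ n : ℤ, (shiftFunctor D n).Additive] [Pretriangulated D]
    (P : ObjectProperty D) [P.IsTriangulated] :
    P.ι.IsLeftAdjoint ↔ ∀ X : D, ∃ (A B : D) (f : A ⟶ X) (g : X ⟶ B) (h : B ⟶ (shiftFunctor D (1 : ℤ)).obj A),
      Triangle.mk f g h ∈ distinguishedTriangles ∧ P A ∧ P.rightOrthogonal B := by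
  constructor
  · intro hadj X
    let adj := Adjunction.ofIsLeftAdjoint P.ι
    let R := P.ι.rightAdjoint
    let A := (R.obj X).obj
    obtain ⟨B, g, h, hT⟩ := distinguished_cocone_triangle (adj.counit.app X : A ⟶ X)
    refine ⟨A, B, adj.counit.app X, g, h, hT, (R.obj X).property, ?_⟩
    refine (Groth.Agent.H2.Tri.rightOrthogonal_third_iff P _ hT).mpr ?_
    intro A'' hA''
    let A₀ : P.FullSubcategory := ⟨A'', hA''⟩
    refine ⟨fun u u' huu => ?_, fun v => ?_⟩
    · have := (adj.homEquiv A₀ X).symm.injective (a₁ := ObjectProperty.homMk u) (a₂ := ObjectProperty.homMk u') (by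
        rw [Adjunction.homEquiv_counit, Adjunction.homEquiv_counit]
        exact huu)
      exact congrArg (fun t => t.hom) this
    · refine ⟨((adj.homEquiv A₀ X) v).hom, ?_⟩
      have := (adj.homEquiv A₀ X).symm_apply_apply v
      rw [Adjunction.homEquiv_counit] at this
      exact this
  · intro h
    apply Functor.isLeftAdjoint_of_rightAdjointObjIsDefined_eq_top
    ext X
    simp only [Pi.top_apply, Prop.top_eq_true, iff_true]
    obtain ⟨A, B, f, g, c, hT, hA, hB⟩ := h X
    have hbij := (Groth.Agent.H2.Tri.rightOrthogonal_third_iff P _ hT).mp hB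
    refine ⟨⟨A, hA⟩, ⟨{ homEquiv := fun {A'} => Equiv.ofBijective (fun u => u.hom ≫ f) ?_, homEquiv_comp := ?_ }⟩⟩
    · refine ⟨fun u u' huu => ?_, fun v => ?_⟩
      · have := (hbij A'.obj A'.property).1 huu
        ext
        exact this
      · obtain ⟨u, hu⟩ := (hbij A'.obj A'.property).2 v
        exact ⟨ObjectProperty.homMk u, hu⟩
    · intro A' A'' u u'
      simp


end Groth.Agent.S0490
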