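import Groth.Statements.S0495
import Groth.Agent.Lib.H1_HenselD

set_option autoImplicit false
universe u
open Hensel

namespace Groth.Agent.S0495

/-- A local ring whose Krull dimension is zero is henselian. -/
theorem result (R : Type u) [CommRing R] [IsLocalRing R]
    (h : ringKrullDim R = 0) : HenselianLocalRing R := by
  exact Groth.Agent.H1.Hensel.S0495 R h

end Groth.Agent.S0495
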