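import Groth.Statements.S0496
import Groth.Agent.Lib.H1_HenselH

set_option autoImplicit false
universe u
open Hensel

namespace Groth.Agent.S0496

/-- If every factorization of the reduction of a monic polynomial into two coprime factors over the
residue field lifts to a factorization over the local ring, then the local ring is henselian. -/
theorem result (R : Type u) [CommRing R] [IsLocalRing R]
    (h : ∀ f : Polynomial R, f.Monic →
      ∀ g₀ h₀ : Polynomial (IsLocalRing.ResidueField R), IsCoprime g₀ h₀ →
      Polynomial.map (IsLocalRing.residue R) f = g₀ * h₀ →
      ∃ g h : Polynomial R, f = g * h ∧ Polynomial.map (IsLocalRing.residue R) g = g₀ ∧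
        Polynomial.map (IsLocalRing.residue R) h = h₀) :
    HenselianLocalRing R := by
  exact Groth.Agent.H1.Hensel.S0496 R h

end Groth.Agent.S0496
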