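import Groth.Statements.S0498
import Groth.Agent.Lib.H1_HenselD

set_option autoImplicit false
universe u
open Hensel

namespace Groth.Agent.S0498

/-- Over a henselian local ring, a simple root in the residue field of the reduction of an arbitrary
polynomial (monic or not) lifts to a root in the ring. -/
theorem result (R : Type u) [CommRing R] [HenselianLocalRing R]
    (f : Polynomial R) (a₀ : IsLocalRing.ResidueField R)
    (h₁ : Polynomial.eval₂ (IsLocalRing.residue R) a₀ f = 0)
    (h₂ : Polynomial.eval₂ (IsLocalRing.residue R) a₀ (Polynomial.derivative f) ≠ 0) :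
    ∃ a : R, Polynomial.IsRoot f a ∧ IsLocalRing.residue R a = a₀ := by
  exact Groth.Agent.H1.Hensel.S0498 R f a₀ h₁ h₂

end Groth.Agent.S0498
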