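import Groth.Statements.S0499
import Groth.Agent.Lib.H1_HenselG

set_option autoImplicit false
universe u
open Hensel

namespace Groth.Agent.S0499

/-- An algebra over a henselian local ring that is finitely generated as a module is isomorphic, as a
ring, to a finite product of local rings. -/
theorem result (R : Type u) [CommRing R]
    [HenselianLocalRing R] (S : Type u) [CommRing S] [Algebra R S] [Module.Finite R S] :
    ∃ (ι : Type u) (_ : Fintype ι) (A : ι → Type u) (_ : ∀ i, CommRing (A i)),
      (∀ i, IsLocalRing (A i)) ∧ Nonempty (S ≃+* (∀ i, A i)) := by
  exact Groth.Agent.H1.Hensel.S0499 R S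

end Groth.Agent.S0499
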