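import Groth.Statements.S0500
import Groth.Agent.Lib.H1_HenselG

set_option autoImplicit false
universe u
open Hensel

namespace Groth.Agent.S0500

/-- If every algebra over a local ring that is finitely generated as a module is ring-isomorphic to a
finite product of local rings, then the local ring is henselian. -/
theorem result (R : Type u) [CommRing R] [IsLocalRing R]
    (h : ∀ (S : Type u) [CommRing S] [Algebra R S], Module.Finite R S →
      ∃ (ι : Type u) (_ : Fintype ι) (A : ι → Type u) (_ : ∀ i, CommRing (A i)),
        (∀ i, IsLocalRing (A i)) ∧ Nonempty (S ≃+* (∀ i, A i))) :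
    HenselianLocalRing R := by
  exact Groth.Agent.H1.Hensel.S0500 R h

end Groth.Agent.S0500
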