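import Groth.Statements.S0501
import Groth.Agent.Lib.H1_HenselE

set_option autoImplicit false
universe u
open Hensel

namespace Groth.Agent.S0501

/-- Let `S` be a henselian local ring over a ring `R`, let `A` be an étale `R`-algebra with a prime `q`,
and let `τ` be a ring map from the residue field of `q` to the residue field of `S` compatible with
the two structure maps from `R`. Then there is exactly one `R`-algebra map from `A` to `S` pulling
the maximal ideal back to `q` and inducing `τ`. -/
theorem result (R : Type u) [CommRing R]
    (S : Type u) [CommRing S] [HenselianLocalRing S] [Algebra R S]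
    (A : Type u) [CommRing A] [Algebra R A] [Algebra.Etale R A] (q : Ideal A) [q.IsPrime]
    (τ : q.ResidueField →+* IsLocalRing.ResidueField S)
    (hτ : τ.comp (algebraMap R q.ResidueField) = (IsLocalRing.residue S).comp (algebraMap R S)) :
    ∃! f : A →ₐ[R] S, Ideal.comap f.toRingHom (IsLocalRing.maximalIdeal S) = q ∧
      ∀ a : A, IsLocalRing.residue S (f a) = τ (algebraMap A q.ResidueField a) := by
  exact Groth.Agent.H1.Hensel.S0501 R S A q τ hτ

end Groth.Agent.S0501
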