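import Groth.Statements.S0502
import Groth.Agent.Lib.H1_HenselE

set_option autoImplicit false
universe u
open Hensel

namespace Groth.Agent.S0502

/-- A local ring `R` is henselian as soon as every étale `R`-algebra having a prime over the maximal
ideal with trivial residue field extension admits an `R`-algebra retraction to `R`. -/
theorem result (R : Type u) [CommRing R] [IsLocalRing R]
    (h : ∀ (S : Type u) [CommRing S] [Algebra R S] [Algebra.Etale R S] (q : Ideal S) [q.IsPrime],
      q.LiesOver (IsLocalRing.maximalIdeal R) → Function.Surjective (algebraMap R q.ResidueField) →
      Nonempty (S →ₐ[R] R)) :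
    HenselianLocalRing R := by
  exact Groth.Agent.H1.Hensel.S0502 R h

end Groth.Agent.S0502
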