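import Groth.Statements.S0503
import Groth.Agent.Lib.H1_HenselI

set_option autoImplicit false
universe u
open Hensel

namespace Groth.Agent.S0503

/-- A finite-type quasi-finite algebra `S` over a henselian local ring `R` contains an idempotent `e`
such that `S/(1-e)` is finitely generated as an `R`-module and the maximal ideal of `R` generates
the unit ideal of `S/(e)`; in other words `S` is a product of a module-finite algebra and an algebra
whose fibre over the closed point is empty. -/
theorem result (R : Type u) [CommRing R] [HenselianLocalRing R]
    (S : Type u) [CommRing S] [Algebra R S] [Algebra.FiniteType R S] [Algebra.QuasiFinite R S] :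
    ∃ e : S, IsIdempotentElem e ∧ Module.Finite R (S ⧸ Ideal.span ({1 - e} : Set S)) ∧
      Ideal.map (algebraMap R (S ⧸ Ideal.span ({e} : Set S))) (IsLocalRing.maximalIdeal R) = ⊤ := by
  exact Groth.Agent.H1.Hensel.S0503 R S

end Groth.Agent.S0503
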