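import Groth.Statements.S0504
import Groth.Agent.Lib.H1_HenselI

set_option autoImplicit false
universe u
open Hensel

namespace Groth.Agent.S0504

/-- A finite-type algebra `S` over a henselian local ring `R` contains an idempotent `e` such that
`S/(1-e)` is finitely generated as an `R`-module and `R → S/(e)` is quasi-finite at no prime lying
over the maximal ideal of `R`. -/
theorem result (R : Type u) [CommRing R] [HenselianLocalRing R]
    (S : Type u) [CommRing S] [Algebra R S] [Algebra.FiniteType R S] :
    ∃ e : S, IsIdempotentElem e ∧ Module.Finite R (S ⧸ Ideal.span ({1 - e} : Set S)) ∧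
      ∀ (q : Ideal (S ⧸ Ideal.span ({e} : Set S))) [q.IsPrime],
        q.LiesOver (IsLocalRing.maximalIdeal R) → ¬ Algebra.QuasiFiniteAt R q := by
  exact Groth.Agent.H1.Hensel.S0504 R S

end Groth.Agent.S0504
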