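import Groth.Statements.S0505
import Groth.Agent.Lib.H1_HenselG

set_option autoImplicit false
universe u
open Hensel

namespace Groth.Agent.S0505

/-- A local ring which is finitely generated as a module over a henselian local ring is itself
henselian. -/
theorem result (R : Type u) [CommRing R] [HenselianLocalRing R]
    (S : Type u) [CommRing S] [IsLocalRing S] [Algebra R S] [Module.Finite R S] :
    HenselianLocalRing S := by
  exact Groth.Agent.H1.Hensel.S0505 R S

end Groth.Agent.S0505
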