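import Groth.Statements.S0510
import Groth.Agent.Lib.H1_HenselD

set_option autoImplicit false
universe u
open Hensel

namespace Groth.Agent.S0510

/-- For a local ring `R` with henselization `S` and every `n`, the natural map from `R` modulo the
`n`-th power of its maximal ideal to `S` modulo the extension of that power is a bijection. -/
theorem result (R : Type u) [CommRing R] [IsLocalRing R] (S : Type u) [CommRing S] [IsLocalRing S]
    [Algebra R S] [IsLocalHom (algebraMap R S)] [Hensel.IsHenselization R S] (n : ℕ) :
    Function.Bijective (Ideal.quotientMap
      (Ideal.map (algebraMap R S) (IsLocalRing.maximalIdeal R ^ n)) (algebraMap R S)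
      Ideal.le_comap_map) := by
  exact Groth.Agent.H1.Hensel.S0510 R S n

end Groth.Agent.S0510
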