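import Groth.Statements.S0516
import Groth.Agent.Lib.H1_HenselJ

set_option autoImplicit false
universe u
open Hensel

namespace Groth.Agent.S0516

/-- An unramified algebra `S` (formally unramified of finite type) over a strictly henselian local ring
`R` is isomorphic over `R` to a product of finitely many quotient rings of `R` and an `R`-algebra in
which the maximal ideal of `R` generates the unit ideal. -/
theorem result (R : Type u) [CommRing R]
    [HenselianLocalRing R] [IsSepClosed (IsLocalRing.ResidueField R)] (S : Type u) [CommRing S] [Algebra R S]
    [Algebra.Unramified R S] :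
    ∃ (ι : Type u) (_ : Fintype ι) (A : ι → Type u) (_ : ∀ i, CommRing (A i))
      (_ : ∀ i, Algebra R (A i)) (B : Type u) (_ : CommRing B) (_ : Algebra R B),
      (∀ i, Function.Surjective (algebraMap R (A i))) ∧
      Ideal.map (algebraMap R B) (IsLocalRing.maximalIdeal R) = ⊤ ∧
      Nonempty (S ≃ₐ[R] ((∀ i, A i) × B)) := by
  exact Groth.Agent.H1.Hensel.S0516 R S

end Groth.Agent.S0516
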