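import Groth.Statements.S0517
import Groth.Agent.Lib.H1_HenselJ

set_option autoImplicit false
universe u
open Hensel

namespace Groth.Agent.S0517

/-- Given strictly henselian local rings `R` and `S`, a local ring map `φ` between them, and a square
system of `n` polynomial equations in `n` unknowns over `R` whose quotient algebra is étale over
`R`, applying `φ` coordinatewise matches the solutions of the system in `Rⁿ` bijectively with the
solutions of the transported system in `Sⁿ`. -/
theorem result (R : Type u) [CommRing R]
    [HenselianLocalRing R] [IsSepClosed (IsLocalRing.ResidueField R)] (S : Type u) [CommRing S]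
    [HenselianLocalRing S] [IsSepClosed (IsLocalRing.ResidueField S)] (φ : R →+* S) [IsLocalHom φ] (n : ℕ)
    (P : Fin n → MvPolynomial (Fin n) R)
    [Algebra.Etale R (MvPolynomial (Fin n) R ⧸ Ideal.span (Set.range P))] :
    Set.BijOn (fun r : Fin n → R => φ ∘ r)
      {r : Fin n → R | ∀ i, MvPolynomial.eval r (P i) = 0}
      {s : Fin n → S | ∀ i, MvPolynomial.eval s (MvPolynomial.map φ (P i)) = 0} := by
  exact Groth.Agent.H1.Hensel.S0517 R S φ n P

end Groth.Agent.S0517
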