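import Groth.Statements.S0518
import Groth.Agent.Lib.H1_HenselL

set_option autoImplicit false
universe u
open Hensel

namespace Groth.Agent.S0518

/-- Over a henselian local ring `R` with residue field `κ`, every finite étale `κ`-algebra is the base
change of some finite étale `R`-algebra. -/
theorem result (R : Type u) [CommRing R]
    [HenselianLocalRing R] (A : Type u) [CommRing A] [Algebra (IsLocalRing.ResidueField R) A]
    [Module.Finite (IsLocalRing.ResidueField R) A] [Algebra.Etale (IsLocalRing.ResidueField R) A] :
    ∃ (S : Type u) (_ : CommRing S) (_ : Algebra R S), Module.Finite R S ∧ Algebra.Etale R S ∧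
      Nonempty (TensorProduct R (IsLocalRing.ResidueField R) S ≃ₐ[IsLocalRing.ResidueField R] A) := by
  exact Groth.Agent.H1.Hensel.S0518 R A

end Groth.Agent.S0518
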