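import Groth.Statements.S0519
import Groth.Agent.Lib.H1_HenselK

set_option autoImplicit false
universe u
open Hensel

namespace Groth.Agent.S0519

/-- Over a henselian local ring `R` with residue field `κ`, base change to `κ` gives a bijection between
`R`-algebra maps of two finite étale `R`-algebras and `κ`-algebra maps of their base changes. -/
theorem result (R : Type u) [CommRing R]
    [HenselianLocalRing R] (S₁ S₂ : Type u) [CommRing S₁] [CommRing S₂] [Algebra R S₁]
    [Algebra R S₂] [Module.Finite R S₁] [Algebra.Etale R S₁] [Module.Finite R S₂]
    [Algebra.Etale R S₂] :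
    Function.Bijective (fun φ : S₁ →ₐ[R] S₂ =>
      Algebra.TensorProduct.map (AlgHom.id (IsLocalRing.ResidueField R) (IsLocalRing.ResidueField R)) φ) := by
  exact Groth.Agent.H1.Hensel.S0519 R S₁ S₂

end Groth.Agent.S0519
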