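import Groth.Statements.S0524
import Groth.Agent.Lib.H1_Hensel

set_option autoImplicit false
universe u
open Hensel

namespace Groth.Agent.S0524

/-- (1) iff (5) with the uniqueness complement: `A` is Henselian at `I` exactly when `I` lies in the
Jacobson radical and, for every `n ≥ 1` and every polynomial `p` of degree at most `n` with all
coefficients in `I`, the polynomial `Tⁿ(T-1) + p` has exactly one root congruent to `1` modulo `I`. -/
theorem result (A : Type u) [CommRing A] (I : Ideal A) :
    HenselianRing A I ↔ (I ≤ Ideal.jacobson ⊥ ∧
      ∀ (n : ℕ), 0 < n → ∀ p : Polynomial A, p.natDegree ≤ n → (∀ i, p.coeff i ∈ I) →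
        ∃! α : A, α - 1 ∈ I ∧
          Polynomial.IsRoot (Polynomial.X ^ n * (Polynomial.X - 1) + p) α) := by
  exact Groth.Agent.H1.Hensel.henselianRing_iff_gabber A I

end Groth.Agent.S0524
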