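import Groth.Statements.S0527
import Groth.Agent.Lib.H1_HenselB

set_option autoImplicit false
universe u
open Hensel

namespace Groth.Agent.S0527

/-- A ring is Henselian at any locally nilpotent ideal, i.e. an ideal all of whose elements are
nilpotent. -/
theorem result (A : Type u) [CommRing A] (I : Ideal A) (hI : ∀ x ∈ I, IsNilpotent x) :
    HenselianRing A I := by
  exact Groth.Agent.H1.Hensel.henselian_of_nil I hI

end Groth.Agent.S0527
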