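import Groth.Statements.S0530
import Groth.Agent.Lib.H1_HenselC

set_option autoImplicit false
universe u
open Hensel

namespace Groth.Agent.S0530

/-- If `A` is Henselian at `I` and `p` is a prime ideal of `A`, then the spectrum of `A/(p + I)` is
connected. -/
theorem result (A : Type u) [CommRing A] (I : Ideal A) [HenselianRing A I]
    (p : Ideal A) [p.IsPrime] : ConnectedSpace (PrimeSpectrum (A ⧸ p ⊔ I)) := by
  exact Groth.Agent.H1.Hensel.S0530 A I p

end Groth.Agent.S0530
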