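import Groth.Statements.S0531
import Groth.Agent.Lib.H1_HenselC

set_option autoImplicit false
universe u
open Hensel

namespace Groth.Agent.S0531

/-- Every ring has a largest ideal at which it is Henselian. -/
theorem result (A : Type u) [CommRing A] :
    ∃ I : Ideal A, HenselianRing A I ∧ ∀ J : Ideal A, HenselianRing A J → J ≤ I := by
  exact Groth.Agent.H1.Hensel.S0531 A

end Groth.Agent.S0531
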