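import Groth.Statements.S0535
import Groth.Agent.Lib.H1_HenselC

set_option autoImplicit false
universe u
open Hensel

namespace Groth.Agent.S0535

/-- If `R` is Henselian at `I` and two finitely generated projective `R`-modules become isomorphic after
base change to `R/I`, then they are isomorphic. -/
theorem result (R : Type u) [CommRing R] (I : Ideal R)
    [HenselianRing R I] (P₁ P₂ : Type u) [AddCommGroup P₁] [Module R P₁] [AddCommGroup P₂]
    [Module R P₂] [Module.Finite R P₁] [Module.Projective R P₁] [Module.Finite R P₂]
    [Module.Projective R P₂]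
    (e : TensorProduct R (R ⧸ I) P₁ ≃ₗ[R ⧸ I] TensorProduct R (R ⧸ I) P₂) :
    Nonempty (P₁ ≃ₗ[R] P₂) := by
  exact Groth.Agent.H1.Hensel.S0535 R I P₁ P₂ e

end Groth.Agent.S0535
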