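import Groth.Statements.S0538
import Groth.Agent.Lib.H1_HenselM

set_option autoImplicit false
universe u
open Hensel

namespace Groth.Agent.S0538

/-- The maximal ideal of the strict henselization of a local ring `R` is generated by the maximal ideal
of `R`. -/
theorem result (R : Type u) [CommRing R] [IsLocalRing R] (S : Type u) [CommRing S] [IsLocalRing S]
    [Algebra R S] [IsLocalHom (algebraMap R S)] [Hensel.IsStrictHenselization R S] :
    Ideal.map (algebraMap R S) (IsLocalRing.maximalIdeal R) = IsLocalRing.maximalIdeal S := by
  exact Groth.Agent.H1.Hensel.S0538 R S

end Groth.Agent.S0538
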