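import Groth.Statements.S0643
import Mathlib

set_option autoImplicit false
universe u
open EtCore

namespace Groth.Agent.S0643

open Polynomial in
/-- Let A be a ring, assumed nonzero here (the published statement does not say so; over the zero ring
no polynomial has positive degree in Lean's sense), and a, b elements generating the unit ideal such
that some positive power of a is congruent to 1 modulo b. Then there is a monic polynomial P of
positive degree over A such that in B = A[y]/(P) the element a - b y is a unit. -/
theorem result (A : Type u) [CommRing A] [Nontrivial A] (a b : A) (hab : IsCoprime a b)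
    (hroot : ∃ n : ℕ, 0 < n ∧ a ^ n - 1 ∈ Ideal.span ({b} : Set A)) :
    ∃ P : A[X], P.Monic ∧ 0 < P.natDegree ∧
      IsUnit (algebraMap A (AdjoinRoot P) a - algebraMap A (AdjoinRoot P) b * AdjoinRoot.root P) := by
  obtain ⟨n, hn, hmem⟩ := hroot
  obtain ⟨c, hc⟩ := Ideal.mem_span_singleton'.mp hmem
  obtain ⟨w, v, huv⟩ := hab
  set Q : A[X] := C c * (C w * X + C v)^(n-1) with hQ
  have hdeg : Q.natDegree < n := by
    have h1 : Q.natDegree ≤ n - 1 := by
      refine (natDegree_C_mul_le _ _).trans ?_
      refine (natDegree_pow_le).trans ?_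
      have : (C w * X + C v).natDegree ≤ 1 := natDegree_linear_le
      calc (n - 1) * (C w * X + C v).natDegree ≤ (n-1) * 1 := Nat.mul_le_mul_left _ this
        _ = n - 1 := mul_one _
    omega
  have hnd : (X ^ n - Q).natDegree = n := by
    rw [natDegree_sub_eq_left_of_natDegree_lt]
    · simp
    · simpa using hdeg
  refine ⟨X ^ n - Q, ?_, by omega, ?_⟩
  · apply monic_X_pow_sub
    exact lt_of_le_of_lt degree_le_natDegree (by exact_mod_cast hdeg)
  · set P := X ^ n - Q with hP
    set t := AdjoinRoot.root P
    set α := algebraMap A (AdjoinRoot P) a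
    set β := algebraMap A (AdjoinRoot P) b
    have ht : t ^ n = algebraMap A (AdjoinRoot P) c * (algebraMap A (AdjoinRoot P) w * t + algebraMap A (AdjoinRoot P) v)^(n-1) := by
      have h := AdjoinRoot.eval₂_root P
      rw [hP, eval₂_sub, hQ] at h
      simp only [eval₂_pow, eval₂_X, eval₂_mul, eval₂_C, eval₂_add] at h
      exact sub_eq_zero.mp h
    have h1 : algebraMap A (AdjoinRoot P) w * α + algebraMap A (AdjoinRoot P) v * β = 1 := by
      rw [← map_mul, ← map_mul, ← map_add, huv, map_one]
    have h2 : algebraMap A (AdjoinRoot P) c * β = α ^ n - 1 := by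
      rw [← map_mul, hc, map_sub, map_pow, map_one]
    apply isUnit_of_dvd_one
    have e : (1 : AdjoinRoot P) = (α ^ n - (β * t) ^ n) - β * algebraMap A (AdjoinRoot P) c *
        ((algebraMap A (AdjoinRoot P) w * α + algebraMap A (AdjoinRoot P) v * β) ^ (n-1) -
          (algebraMap A (AdjoinRoot P) w * (β * t) + algebraMap A (AdjoinRoot P) v * β) ^ (n-1)) := by
      obtain ⟨m, rfl⟩ : ∃ m, n = m + 1 := ⟨n - 1, by omega⟩
      rw [h1, mul_pow, ht]
      simp only [Nat.add_sub_cancel]
      have : (algebraMap A (AdjoinRoot P) w * (β * t) + algebraMap A (AdjoinRoot P) v * β) = β * (algebraMap A (AdjoinRoot P) w * t + algebraMap A (AdjoinRoot P) v) := by ring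
      rw [this, mul_pow, one_pow, pow_succ]
      linear_combination h2
    rw [e]
    refine dvd_sub (sub_dvd_pow_sub_pow _ _ _) (Dvd.dvd.mul_left ?_ _)
    refine dvd_trans ?_ (sub_dvd_pow_sub_pow _ _ _)
    exact ⟨algebraMap A (AdjoinRoot P) w, by ring⟩

end Groth.Agent.S0643
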