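import Groth.Statements.S0787
import Groth.Agent.Lib.Helper2_Proper

set_option autoImplicit false
universe u
open Coherent

namespace Groth.Agent.S0787


open CategoryTheory AlgebraicGeometry in
/-- Let f : X → S be locally of finite type and Z ⊆ X a closed subset. Then Z with its reduced induced
structure is proper over S if and only if some closed subscheme of X with underlying set Z is proper
over S, if and only if every closed subscheme of X with underlying set Z is proper over S. -/
theorem result {X S : Scheme.{u}} (f : X ⟶ S) [LocallyOfFiniteType f]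
    (Z : Set X) (hZ : IsClosed Z) :
    (ClSub.IsProperOver f Z ↔ ∃ (T : Scheme.{u}) (i : T ⟶ X), IsClosedImmersion i ∧
        Set.range ⇑i = Z ∧ IsProper (i ≫ f)) ∧
    (ClSub.IsProperOver f Z ↔ ∀ (T : Scheme.{u}) (i : T ⟶ X), IsClosedImmersion i →
        Set.range ⇑i = Z → IsProper (i ≫ f)) := by
  constructor
  · refine ⟨fun h => H2.exists_of_isProperOver f h, ?_⟩
    rintro ⟨T, i, hi, hr, hp⟩
    exact (H2.isProperOver_iff f i hr).mpr hp
  · refine ⟨fun h T i hi hr => (H2.isProperOver_iff f i hr).mp h, fun h => ?_⟩
    refine ⟨hZ, h _ _ inferInstance ?_⟩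
    rw [Scheme.IdealSheafData.range_subschemeι, Scheme.IdealSheafData.coe_support_vanishingIdeal]
    rfl


end Groth.Agent.S0787
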