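import Groth.Statements.S0788
import Groth.Agent.Lib.Helper2_Proper

set_option autoImplicit false
universe u
open Coherent

namespace Groth.Agent.S0788


open CategoryTheory AlgebraicGeometry in
/-- Let X and Y be schemes locally of finite type over S, with Y separated over S, and f : X → Y a
morphism over S. If Z ⊆ X is closed and proper over S (reduced induced structure), its image f(Z) is
again closed in Y and proper over S. -/
theorem result {X Y S : Scheme.{u}} (p : X ⟶ S) (q : Y ⟶ S)
    [LocallyOfFiniteType p] [LocallyOfFiniteType q] [IsSeparated q] (f : X ⟶ Y) (w : f ≫ q = p)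
    (Z : Set X) (hZ : ClSub.IsProperOver p Z) : ClSub.IsProperOver q (⇑f '' Z) := by
  exact H2.isProperOver_image_of_isSeparated p q f w Z hZ


end Groth.Agent.S0788
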