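import Groth.Statements.S0790
import Groth.Agent.Lib.Helper2_Proper

set_option autoImplicit false
universe u
open Coherent

namespace Groth.Agent.S0790


open CategoryTheory AlgebraicGeometry in
/-- Let X and Y be schemes locally of finite type over S and f : X → Y a proper morphism over S. If Z ⊆
Y is closed and proper over S, its preimage in X is again closed and proper over S. -/
theorem result {X Y S : Scheme.{u}} (p : X ⟶ S) (q : Y ⟶ S)
    [LocallyOfFiniteType p] [LocallyOfFiniteType q] (f : X ⟶ Y) [IsProper f] (w : f ≫ q = p)
    (Z : Set Y) (hZ : ClSub.IsProperOver q Z) : ClSub.IsProperOver p (⇑f ⁻¹' Z) := by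
  exact H2.isProperOver_preimage_of_isProper p q f w Z hZ


end Groth.Agent.S0790
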