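import Groth.Statements.S0791
import Groth.Agent.Lib.Helper2_Proper

set_option autoImplicit false
universe u
open Coherent

namespace Groth.Agent.S0791

set_option backward.isDefEq.respectTransparency false
open CategoryTheory CategoryTheory.Limits AlgebraicGeometry

lemma isProper_coprodMap {X Y X' Y' : Scheme.{u}} (f : X ⟶ X') (g : Y ⟶ Y') [IsProper f]
    [IsProper g] : IsProper (coprod.map f g) := by
  rw [IsZariskiLocalAtTarget.iff_of_openCover (P := @IsProper) (coprodOpenCover.{_, 0} X' Y')]
  rintro (i | i)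
  · have h := (isPullback_inl_inl_coprodMap f g).flip
    change IsProper (pullback.snd (coprod.map f g) (coprod.inl : X' ⟶ X' ⨿ Y'))
    rw [← h.isoPullback_inv_snd]; infer_instance
  · have h := (isPullback_inr_inr_coprodMap f g).flip
    change IsProper (pullback.snd (coprod.map f g) (coprod.inr : Y' ⟶ X' ⨿ Y'))
    rw [← h.isoPullback_inv_snd]; infer_instance

lemma isProper_coprodDesc {X Y S : Scheme.{u}} (f : X ⟶ S) (g : Y ⟶ S) [IsProper f]
    [IsProper g] : IsProper (coprod.desc f g) := by
  have := isProper_coprodMap f g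
  have e : coprod.desc f g = coprod.map f g ≫ coprod.desc (𝟙 S) (𝟙 S) := by
    ext <;> simp
  rw [e]; infer_instance

lemma union {X S : Scheme.{u}} (f : X ⟶ S) [LocallyOfFiniteType f]
    {Z₁ Z₂ : Set X} (h₁ : ClSub.IsProperOver f Z₁) (h₂ : ClSub.IsProperOver f Z₂) :
    ClSub.IsProperOver f (Z₁ ∪ Z₂) := by
  obtain ⟨T₁, i₁, _, rfl, hi₁⟩ := H2.exists_of_isProperOver f h₁
  obtain ⟨T₂, i₂, _, rfl, hi₂⟩ := H2.exists_of_isProperOver f h₂
  have h3 : IsProper (coprod.desc i₁ i₂ ≫ f) := by
    have : coprod.desc i₁ i₂ ≫ f = coprod.desc (i₁ ≫ f) (i₂ ≫ f) := by ext <;> simp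
    rw [this]
    exact isProper_coprodDesc _ _
  have := H2.isProperOver_range (coprod.desc i₁ i₂) f
  convert this
  ext x
  constructor
  · rintro (⟨y, rfl⟩ | ⟨y, rfl⟩)
    · exact ⟨(coprod.inl : T₁ ⟶ T₁ ⨿ T₂) y, by rw [← Scheme.Hom.comp_apply, coprod.inl_desc]⟩
    · exact ⟨(coprod.inr : T₂ ⟶ T₁ ⨿ T₂) y, by rw [← Scheme.Hom.comp_apply, coprod.inr_desc]⟩
  · rintro ⟨y, rfl⟩
    obtain ⟨y | y, rfl⟩ := (coprodMk _ _).surjective y
    · left
      exact ⟨y, by rw [coprodMk_inl, ← Scheme.Hom.comp_apply, coprod.inl_desc]⟩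
    · right
      exact ⟨y, by rw [coprodMk_inr, ← Scheme.Hom.comp_apply, coprod.inr_desc]⟩

lemma empty {X S : Scheme.{u}} (f : X ⟶ S) [LocallyOfFiniteType f] :
    ClSub.IsProperOver f (∅ : Set X) := by
  have h1 : IsClosedImmersion (Scheme.emptyTo X) := inferInstance
  have h2 : IsClosedImmersion (Scheme.emptyTo X ≫ f) := inferInstance
  rw [H2.isProperOver_iff f (Scheme.emptyTo X)]
  · infer_instance
  · exact Set.range_eq_empty _


open CategoryTheory AlgebraicGeometry in
/-- Let f : X → S be locally of finite type. A finite union of closed subsets of X that are proper over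
S is again proper over S. -/
theorem result {X S : Scheme.{u}} (f : X ⟶ S) [LocallyOfFiniteType f]
    (ι : Type) [Finite ι] (Z : ι → Set X) (hZ : ∀ i, ClSub.IsProperOver f (Z i)) :
    ClSub.IsProperOver f (Set.iUnion Z) := by
  induction ι using Finite.induction_empty_option with
  | of_equiv e ih =>
    have := ih (Z ∘ e) (fun i => hZ _)
    convert this
    exact (e.surjective.iUnion_comp Z).symm
  | h_empty => simpa using empty f
  | h_option ih =>
    rw [Set.iUnion_option]
    exact union f (hZ _) (ih _ fun i => hZ _)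


end Groth.Agent.S0791
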