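import Groth.Statements.S0793
import Groth.Agent.Lib.Helper2_Proper

set_option autoImplicit false
universe u
open Coherent

namespace Groth.Agent.S0793


open CategoryTheory AlgebraicGeometry in
/-- Consider a cartesian square with X' = X ×_S S', projections g' : X' → X and f' : X' → S', where f :
X → S is locally of finite type. If Z ⊆ X is closed and proper over S, then its preimage under g' is
closed in X' and proper over S'. -/
theorem result {X S X' S' : Scheme.{u}} (f : X ⟶ S) [LocallyOfFiniteType f]
    (g : S' ⟶ S) (g' : X' ⟶ X) (f' : X' ⟶ S') (sq : IsPullback g' f' f g)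
    (Z : Set X) (hZ : ClSub.IsProperOver f Z) : ClSub.IsProperOver f' (⇑g' ⁻¹' Z) := by
  exact H2.isProperOver_preimage_of_isPullback f g g' f' sq Z hZ


end Groth.Agent.S0793
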