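import Groth.Statements.S0969
import Mathlib.CategoryTheory.Triangulated.Functor
import Mathlib.CategoryTheory.Adjunction.FullyFaithful

set_option autoImplicit false
universe v v' u u'
open CategoryTheory
open CohDer

namespace Groth.Agent.S0969

open CategoryTheory.Limits CategoryTheory.Pretriangulated

/-- Let F be an exact functor of triangulated categories which is fully faithful and has an exact right
adjoint G. If G kills only zero objects, then F is an equivalence of categories. -/
theorem result {D : Type u} [Category.{v} D] [Preadditive D] [Limits.HasZeroObject D] [HasShift D ℤ]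
    [∀ n : ℤ, (shiftFunctor D n).Additive] [Pretriangulated D]
    {D' : Type u'} [Category.{v'} D'] [Preadditive D'] [Limits.HasZeroObject D'] [HasShift D' ℤ]
    [∀ n : ℤ, (shiftFunctor D' n).Additive] [Pretriangulated D']
    [IsTriangulated D] [IsTriangulated D']
    (F : D ⥤ D') [F.CommShift ℤ] [F.IsTriangulated] (G : D' ⥤ D) [G.CommShift ℤ] [G.IsTriangulated]
    (adj : F ⊣ G) [F.Full] [F.Faithful] (hG : ∀ X : D', Limits.IsZero (G.obj X) → Limits.IsZero X) :
    F.IsEquivalence := by
  have hG' : ∀ X, IsIso (G.map (adj.counit.app X)) := by
    intro X
    have h1 := adj.right_triangle_components X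
    have : G.map (adj.counit.app X) = inv (adj.unit.app (G.obj X)) := by
      rw [← cancel_epi (adj.unit.app (G.obj X)), h1, IsIso.hom_inv_id]
      rfl
    rw [this]
    infer_instance
  have hc : ∀ X, IsIso (adj.counit.app X) := by
    intro X
    obtain ⟨C, g, c, hT⟩ := distinguished_cocone_triangle (adj.counit.app X)
    have hT' := G.map_distinguished _ hT
    have h2 : IsZero (G.obj C) := by
      have := hG' X
      exact (Triangle.isZero₃_iff_isIso₁ _ hT').mpr this
    exact (Triangle.isZero₃_iff_isIso₁ _ hT).mp (hG _ h2)
  have hcc : IsIso adj.counit := NatIso.isIso_of_isIso_app _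
  exact (adj.toEquivalence).isEquivalence_functor


end Groth.Agent.S0969
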