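import Groth.Statements.S0974
import Groth.Agent.Lib.Helper2_Brown3

set_option autoImplicit false
universe v u
open CategoryTheory
open CohDer

namespace Groth.Agent.S0974


open CategoryTheory.Limits CategoryTheory.Pretriangulated.Opposite in
/-- Let D be a triangulated category with all small direct sums and E a small family of objects such
that (1) every nonzero object receives a nonzero map from some member of E, and (2) every map from a
member of E to a countable direct sum ⨁ Xₙ factors as a map into a direct sum ⨁ Eₙ of members of E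
followed by a direct sum of maps Eₙ ⟶ Xₙ. Then every cohomological functor from Dᵒᵖ to abelian
groups that turns direct sums into products is representable. -/
theorem result {D : Type u} [Category.{v} D] [Preadditive D] [Limits.HasZeroObject D] [HasShift D ℤ]
    [∀ n : ℤ, (shiftFunctor D n).Additive] [Pretriangulated D] [IsTriangulated D] [HasCoproducts.{v} D]
    [HasColimitsOfShape (Discrete ℕ) D]
    {ι : Type v} (E : ι → D)
    (h1 : ∀ X : D, ¬ IsZero X → ∃ (i : ι) (f : E i ⟶ X), f ≠ 0)
    (h2 : ∀ (X : ℕ → D) (i : ι) (α : E i ⟶ ∐ X), ∃ (j : ℕ → ι) (β : ∀ n, E (j n) ⟶ X n)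
      (γ : E i ⟶ ∐ (fun n => E (j n))), α = γ ≫ Limits.Sigma.map β)
    (H : Dᵒᵖ ⥤ AddCommGrpCat.{v}) [H.IsHomological]
    [∀ (κ : Type v), PreservesLimitsOfShape (Discrete κ) H] :
    (H ⋙ forget AddCommGrpCat.{v}).IsRepresentable := by
  exact Groth.Agent.H2.Brown.brown_bis E h2 h1 H


end Groth.Agent.S0974
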