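import Groth.Statements.S0975
import Groth.Agent.Lib.Helper2_Brown3
import Groth.Agent.Lib.Helper2_Brown2

set_option autoImplicit false
universe v u u'
open CategoryTheory
open CohDer

namespace Groth.Agent.S0975


open CategoryTheory.Limits in
/-- Let D be a triangulated category with all small direct sums and E a small family of objects such
that (1) E detects nonzero objects: every nonzero object receives a nonzero map from some member of
E; and (2) every map from a member of E into a countable direct sum ⨁ X_n factors as a map into a
direct sum ⨁ E_(j_n) of members of E followed by a direct sum of maps E_(j_n) → X_n. Then every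
exact functor from D to a triangulated category which commutes with direct sums is a left adjoint.
(The published statement also proves that the right adjoint is exact; that is not asserted here.) -/
theorem result {D : Type u} [Category.{v} D] [Preadditive D] [Limits.HasZeroObject D] [HasShift D ℤ]
    [∀ n : ℤ, (shiftFunctor D n).Additive] [Pretriangulated D] [IsTriangulated D] [HasCoproducts.{v} D]
    [HasColimitsOfShape (Discrete ℕ) D]
    {D' : Type u'} [Category.{v} D'] [Preadditive D'] [Limits.HasZeroObject D'] [HasShift D' ℤ]
    [∀ n : ℤ, (shiftFunctor D' n).Additive] [Pretriangulated D']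
    [IsTriangulated D'] {ι : Type v} (E : ι → D)
    (h1 : ∀ X : D, ¬ IsZero X → ∃ (i : ι) (f : E i ⟶ X), f ≠ 0)
    (h2 : ∀ (X : ℕ → D) (i : ι) (α : E i ⟶ ∐ X), ∃ (j : ℕ → ι) (β : ∀ n, E (j n) ⟶ X n)
      (γ : E i ⟶ ∐ (fun n => E (j n))), α = γ ≫ Limits.Sigma.map β)
    (F : D ⥤ D') [F.CommShift ℤ] [F.IsTriangulated]
    [∀ (κ : Type v), PreservesColimitsOfShape (Discrete κ) F] : F.IsLeftAdjoint := by
  exact Groth.Agent.H2.Brown.isLeftAdjoint_of_brown
    (fun H _ _ => Groth.Agent.H2.Brown.brown_bis E h2 h1 H) F


end Groth.Agent.S0975
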