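import Groth.Statements.S0976
import Groth.Agent.Lib.Helper2_Tri2

set_option autoImplicit false
universe v u
open CategoryTheory
open CohDer

namespace Groth.Agent.S0976


open CategoryTheory.Pretriangulated in
/-- Let P be a triangulated subcategory of a triangulated category D (an object property containing
zero, stable under shifts, closed under extensions). Consider the class of objects X sitting in a
distinguished triangle A → X → B → A[1] with P A and B right orthogonal to P. This class is again
stable under shifts and closed under extensions, i.e. satisfies two-out-of-three in distinguished
triangles. -/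
theorem result {D : Type u} [Category.{v} D] [Preadditive D] [Limits.HasZeroObject D] [HasShift D ℤ]
    [∀ n : ℤ, (shiftFunctor D n).Additive] [Pretriangulated D] [IsTriangulated D]
    (P : ObjectProperty D) [P.IsTriangulated] :
    ObjectProperty.IsTriangulated (fun X : D => ∃ (A B : D) (f : A ⟶ X) (g : X ⟶ B) (h : B ⟶ (shiftFunctor D (1 : ℤ)).obj A),
      Triangle.mk f g h ∈ distinguishedTriangles ∧ P A ∧ P.rightOrthogonal B) := by
  exact Groth.Agent.H2.Tri.isTriangulated_extensionProduct P P.rightOrthogonal
    (fun A B hA hB f => hB f hA)


end Groth.Agent.S0976
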