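import Groth.Statements.S0977
import Groth.Agent.Lib.Helper2_Tri
import Mathlib.CategoryTheory.Localization.Triangulated

set_option autoImplicit false
universe v u
open CategoryTheory
open CohDer

namespace Groth.Agent.S0977

open CategoryTheory.Limits

open CategoryTheory.Pretriangulated in
/-- The equivalence A ≃ D/B: let A and B be strictly full triangulated subcategories of a triangulated
category D such that every morphism from an object of A to an object of B is zero and every object X
of D sits in a distinguished triangle a → X → b → a[1] with a in A and b in B. Then the composite of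
the inclusion of A with the Verdier quotient functor D → D/B (the localization at the morphisms
whose cone lies in B) is an equivalence. -/
theorem result {D : Type u} [Category.{v} D] [Preadditive D] [Limits.HasZeroObject D] [HasShift D ℤ]
    [∀ n : ℤ, (shiftFunctor D n).Additive] [Pretriangulated D] [IsTriangulated D]
    (A B : ObjectProperty D) [A.IsTriangulated] [A.IsClosedUnderIsomorphisms]
    [B.IsTriangulated] [B.IsClosedUnderIsomorphisms]
    (hAB : ∀ (a b : D), A a → B b → ∀ f : a ⟶ b, f = 0)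
    (hdec : ∀ X : D, ∃ (a b : D) (f : a ⟶ X) (g : X ⟶ b) (h : b ⟶ (shiftFunctor D (1 : ℤ)).obj a),
      Triangle.mk f g h ∈ distinguishedTriangles ∧ A a ∧ B b) :
    (A.ι ⋙ B.trW.Q).IsEquivalence := by
  have hbij : ∀ {Y Y' : D} (s : Y ⟶ Y'), B.trW s → ∀ a : D, A a →
      Function.Bijective (fun u : a ⟶ Y => u ≫ s) := by
    rintro Y Y' s ⟨b, g, h, hT, hb⟩ a ha
    exact (Groth.Agent.H2.Tri.rightOrthogonal_third_iff A _ hT).mp
      (fun X f hX => hAB X b hX hb f) a ha
  have hfull : (A.ι ⋙ B.trW.Q).Full := ⟨fun {X Y} f => by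
    obtain ⟨φ, hφ⟩ := Localization.exists_leftFraction B.trW.Q B.trW f
    obtain ⟨u, hu⟩ := (hbij φ.s φ.hs X.obj X.property).2 φ.f
    have hu' : u ≫ φ.s = φ.f := hu
    refine ⟨ObjectProperty.homMk u, ?_⟩
    show B.trW.Q.map u = f
    have : IsIso (B.trW.Q.map φ.s) := Localization.inverts B.trW.Q B.trW _ φ.hs
    rw [hφ, ← cancel_mono (B.trW.Q.map φ.s), ← Functor.map_comp, hu']
    exact (φ.map_comp_map_s B.trW.Q _).symm⟩
  have hfaith : (A.ι ⋙ B.trW.Q).Faithful := ⟨fun {X Y} g g' hgg => by
    have h1 : B.trW.Q.map g.hom = B.trW.Q.map g'.hom := hgg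
    obtain ⟨Z, s, hs, e⟩ := (MorphismProperty.map_eq_iff_postcomp B.trW.Q B.trW g.hom g'.hom).mp h1
    ext
    exact (hbij s hs X.obj X.property).1 e⟩
  have hess : (A.ι ⋙ B.trW.Q).EssSurj := ⟨fun X => by
    have := Localization.essSurj B.trW.Q B.trW
    let X₀ := B.trW.Q.objPreimage X
    obtain ⟨a, b, f, g, h, hT, ha, hb⟩ := hdec X₀
    have h1 : B.trW f := ⟨b, g, h, hT, hb⟩
    have : IsIso (B.trW.Q.map f) := Localization.inverts B.trW.Q B.trW _ h1
    exact ⟨⟨a, ha⟩, ⟨asIso (B.trW.Q.map f) ≪≫ B.trW.Q.objObjPreimageIso X⟩⟩⟩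
  exact { }


end Groth.Agent.S0977
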