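import Groth.Statements.S1076
import Groth.Agent.Lib.Helper2_Compact

set_option autoImplicit false
universe v u
open CategoryTheory
open DerLim

namespace Groth.Agent.S1076

open CategoryTheory.Limits CategoryTheory.Pretriangulated Groth.Agent.H2.Cpt

/-- the object property of being one of finitely many members -/
abbrev PS {D : Type u} [Category.{v} D] {ι : Type v} (E : ι → D) (s : Finset ι) :
    ObjectProperty D := fun Y : D => ∃ i ∈ s, Y = E i

theorem PS_mono {D : Type u} [Category.{v} D] {ι : Type v} (E : ι → D) {s t : Finset ι} (h : s ⊆ t) :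
    PS E s ≤ PS E t := fun _ ⟨i, hi, e⟩ => ⟨i, h hi, e⟩

theorem env_shift {D : Type u} [Category.{v} D] [Preadditive D] [Limits.HasZeroObject D] [HasShift D ℤ]
    [∀ n : ℤ, (shiftFunctor D n).Additive] [Pretriangulated D] {ι : Type v} (E : ι → D)
    (s : Finset ι) (n : ℤ) (X : D) (hX : PS E s X) :
    (PS E s).triangEnvelope ((shiftFunctor D n).obj X) :=
  (PS E s).triangEnvelope.le_shift n _ ((PS E s).le_triangEnvelope _ hX)


open CategoryTheory.Limits CategoryTheory.Pretriangulated in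
/-- Let D be a triangulated category with all small direct sums and E a small nonempty family of compact
objects (nonempty so that the envelope of a finite subfamily can contain a zero object). Let X₀ → X₁
→ … be a sequential system in which X₀ is a direct sum of shifts of members of E and each Xₙ → Xₙ₊₁
sits in a distinguished triangle Yₙ → Xₙ → Xₙ₊₁ → Yₙ[1] with Yₙ a direct sum of shifts of members of
E. Then every morphism from a compact object C to some Xₙ factors through an object of the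
triangulated envelope (closure under shifts, finite sums, summands and extensions) of finitely many
members of E. -/
theorem result {D : Type u} [Category.{v} D] [Preadditive D] [Limits.HasZeroObject D] [HasShift D ℤ]
    [∀ n : ℤ, (shiftFunctor D n).Additive] [Pretriangulated D] [IsTriangulated D] [HasCoproducts.{v} D]
    {ι : Type v} [Nonempty ι] (E : ι → D) (hc : ∀ i, CohDer.IsCompactObject (E i))
    (K : ℕ → D) (f : ∀ n, K n ⟶ K (n + 1))
    (h0 : ∃ (κ : Type v) (a : κ → ι) (m : κ → ℤ), Nonempty (K 0 ≅ ∐ (fun k => (shiftFunctor D (m k)).obj (E (a k)))))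
    (hstep : ∀ n, ∃ (κ : Type v) (a : κ → ι) (m : κ → ℤ) (y : (∐ fun k => (shiftFunctor D (m k)).obj (E (a k))) ⟶ K n)
      (z : K (n + 1) ⟶ (shiftFunctor D (1 : ℤ)).obj (∐ fun k => (shiftFunctor D (m k)).obj (E (a k)))),
      Triangle.mk y (f n) z ∈ distinguishedTriangles)
    (C : D) (hC : CohDer.IsCompactObject C) (n : ℕ) (φ : C ⟶ K n) :
    ∃ (s : Finset ι) (E' : D) (g : C ⟶ E') (h : E' ⟶ K n),
      ObjectProperty.triangEnvelope (fun Y : D => ∃ i ∈ s, Y = E i) E' ∧ g ≫ h = φ := by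
  classical
  obtain ⟨i₀⟩ := ‹Nonempty ι›
  -- the envelope of a finite family containing i₀
  have hne : ∀ s : Finset ι, i₀ ∈ s → (PS E s).Nonempty := fun s hs => ⟨E i₀, i₀, hs, rfl⟩
  have henvc : ∀ (s : Finset ι), (PS E s).triangEnvelope ≤ (fun K : D => CohDer.IsCompactObject K) := by
    intro s
    rw [ObjectProperty.triangEnvelope_le_iff]
    rintro Y ⟨i, _, rfl⟩
    exact hc i
  suffices H : ∀ (n : ℕ) (C : D) (hC : CohDer.IsCompactObject C) (φ : C ⟶ K n),
      ∃ (s : Finset ι) (E' : D) (g : C ⟶ E') (h : E' ⟶ K n), i₀ ∈ s ∧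
      ObjectProperty.triangEnvelope (PS E s) E' ∧ g ≫ h = φ by
    obtain ⟨s, E', g, h, _, h1, h2⟩ := H n C hC φ
    exact ⟨s, E', g, h, h1, h2⟩
  intro n
  induction n with
  | zero =>
    intro C hC φ
    obtain ⟨κ, a, m, ⟨e⟩⟩ := h0
    obtain ⟨s, hs⟩ := fac_finite (G := 𝟭 D) hC (fun k => (shiftFunctor D (m k)).obj (E (a k))) (φ ≫ e.hom)
    have := hne (insert i₀ (s.image a)) (Finset.mem_insert_self _ _)
    obtain ⟨E', q, t, hE', hqt⟩ := hs (ObjectProperty.triangEnvelope (PS E (insert i₀ (s.image a)))) (by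
      intro k hk
      exact env_shift E _ (m k) _ ⟨a k, Finset.mem_insert_of_mem (Finset.mem_image_of_mem a hk), rfl⟩)
    refine ⟨_, E', q, t ≫ e.inv, Finset.mem_insert_self _ _, hE', ?_⟩
    rw [← Category.assoc]
    have : q ≫ t = φ ≫ e.hom := hqt
    rw [this]; simp
  | succ n ih =>
    intro C hC φ
    obtain ⟨κ, a, m, y, z, hT⟩ := hstep n
    obtain ⟨s, hs⟩ := fac_finite (G := shiftFunctor D (1 : ℤ)) hC
      (fun k => (shiftFunctor D (m k)).obj (E (a k))) (φ ≫ z)
    have := hne (insert i₀ (s.image a)) (Finset.mem_insert_self _ _)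
    obtain ⟨E₁, q, t, hE₁, hqt⟩ := hs (ObjectProperty.triangEnvelope (PS E (insert i₀ (s.image a)))) (by
      intro k hk
      exact env_shift E _ (m k) _ ⟨a k, Finset.mem_insert_of_mem (Finset.mem_image_of_mem a hk), rfl⟩)
    obtain ⟨C', f₁, g₁, hT₁⟩ := distinguished_cocone_triangle₂ q
    have hC' : CohDer.IsCompactObject C' := compact_ext₂ _ hT₁ (henvc _ _ hE₁) hC
    obtain ⟨b, hb₁, hb₂⟩ := complete_distinguished_triangle_morphism₂ _ _ hT₁ hT t φ hqt
    dsimp only [Triangle.mk] at b hb₁ hb₂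
    obtain ⟨s₂, E₂, u, w, hs₂, hE₂, huw⟩ := ih C' hC' b
    obtain ⟨E₃, g₃, h₃, hT₃⟩ := distinguished_cocone_triangle (f₁ ≫ u)
    obtain ⟨c₁, hc₁, hc₂⟩ := complete_distinguished_triangle_morphism _ _ hT₁ hT₃ (𝟙 E₁) u
      (show f₁ ≫ u = 𝟙 E₁ ≫ (f₁ ≫ u) from (Category.id_comp _).symm)
    obtain ⟨d, hd₁, hd₂⟩ := complete_distinguished_triangle_morphism _ _ hT₃ hT t w
      (show (f₁ ≫ u) ≫ w = t ≫ y by rw [Category.assoc, huw]; exact hb₁)
    dsimp only [Triangle.mk] at c₁ hc₁ hc₂ d hd₁ hd₂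
    have hc₂' : c₁ ≫ h₃ = q := by
      have h5 : q ≫ (shiftFunctor D (1 : ℤ)).map (𝟙 E₁) = c₁ ≫ h₃ := hc₂
      rw [CategoryTheory.Functor.map_id, Category.comp_id] at h5
      exact h5.symm
    have hd₂' : h₃ ≫ (shiftFunctor D (1 : ℤ)).map t = d ≫ z := hd₂
    have hz : (φ - c₁ ≫ d) ≫ z = 0 := by
      rw [Preadditive.sub_comp, Category.assoc, ← hd₂', ← Category.assoc, hc₂', hqt, sub_self]
    obtain ⟨e, he⟩ := Triangle.coyoneda_exact₃ _ hT (φ - c₁ ≫ d) hz
    dsimp only [Triangle.mk] at e he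
    obtain ⟨s₄, E₄, u', w', hs₄, hE₄, huw'⟩ := ih C hC e
    let S := insert i₀ (s.image a) ∪ s₂ ∪ s₄
    have := hne S (by simp [S])
    have k₁ : (PS E S).triangEnvelope E₁ :=
      ObjectProperty.monotone_triangEnvelope (PS_mono E (by
        intro x hx; simp only [S, Finset.mem_union]; exact Or.inl (Or.inl hx))) _ hE₁
    have k₂ : (PS E S).triangEnvelope E₂ :=
      ObjectProperty.monotone_triangEnvelope (PS_mono E (by
        intro x hx; simp only [S, Finset.mem_union]; exact Or.inl (Or.inr hx))) _ hE₂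
    have k₄ : (PS E S).triangEnvelope E₄ :=
      ObjectProperty.monotone_triangEnvelope (PS_mono E (by
        intro x hx; simp only [S, Finset.mem_union]; exact Or.inr hx)) _ hE₄
    have k₃ : (PS E S).triangEnvelope E₃ :=
      ObjectProperty.ext_of_isTriangulatedClosed₃ _ _ hT₃ k₁ k₂
    refine ⟨S, E₃ ⊞ E₄, biprod.lift c₁ u', biprod.desc d (w' ≫ f n), by simp [S], ?_, ?_⟩
    · exact ObjectProperty.ext_of_isTriangulatedClosed₂ _ _
        (binaryBiproductTriangle_distinguished E₃ E₄) k₃ k₄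
    · rw [biprod.lift_desc, ← Category.assoc, huw', ← he]; abel


end Groth.Agent.S1076
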