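import Groth.Statements.S0978
import Groth.Agent.Lib.Helper2_Hocolim
import Groth.Agent.S1076

set_option autoImplicit false
universe v u
open CategoryTheory
open CohDer

namespace Groth.Agent.S0978

open CategoryTheory.Limits CategoryTheory.Pretriangulated Groth.Agent.H2.Cpt Groth.Agent.H2.Hoc


open CategoryTheory.Limits in
/-- Let D be a triangulated category with all small direct sums and E a compact object. Then E generates
D (an object admitting only zero maps from all shifts of E is zero) if and only if D is compactly
generated and every compact object lies in the triangulated envelope of E (objects reachable from E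
by shifts, finite sums, direct summands and extensions). -/
theorem result {D : Type u} [Category.{v} D] [Preadditive D] [Limits.HasZeroObject D] [HasShift D ℤ]
    [∀ n : ℤ, (shiftFunctor D n).Additive] [Pretriangulated D] [IsTriangulated D] [HasCoproducts.{v} D]
    [HasColimitsOfShape (Discrete ℕ) D]
    (E : D) (hE : CohDer.IsCompactObject E) :
    CohDer.Generates (fun _ : Unit => E) ↔
      (CohDer.IsCompactlyGenerated D ∧ ∀ X : D, CohDer.IsCompactObject X → ObjectProperty.triangEnvelope (fun Y : D => Y = E) X) := by
  constructor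
  · intro hg
    have hg' : CohDer.Generates (fun _ : PUnit.{v + 1} => E) := fun K hK => hg K (fun _ => hK PUnit.unit)
    refine ⟨⟨PUnit.{v + 1}, fun _ => E, fun _ => hE, hg'⟩, fun X hX => ?_⟩
    obtain ⟨K, f, i, hL, h0, hstep⟩ := presentation (fun _ : PUnit.{v + 1} => E) (fun _ => hE) hg' X
    obtain ⟨N, h, hh⟩ := hocolim_factors hL hX (𝟙 X)
    obtain ⟨s, E', g, t, hE', e⟩ := Groth.Agent.S1076.result (fun _ : PUnit.{v + 1} => E) (fun _ => hE)
      K f h0 hstep X hX N h
    have h1 : ObjectProperty.triangEnvelope (fun Y : D => Y = E) E' :=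
      ObjectProperty.monotone_triangEnvelope (by rintro Y ⟨_, _, rfl⟩; rfl) _ hE'
    let r : Retract X E' := ⟨g, t ≫ i N, by rw [← Category.assoc, e, hh]⟩
    exact ObjectProperty.IsStableUnderRetracts.of_retract r h1
  · rintro ⟨⟨ι, S, hS, hSg⟩, henv⟩ K hK
    apply hSg
    intro j n f
    let P : ObjectProperty D := fun X => ∀ (m : ℤ) (g : X ⟶ (shiftFunctor D m).obj K), g = 0
    have hPr : P.IsStableUnderRetracts := ⟨fun {X Y} r hY m g => by
      have := hY m (r.r ≫ g)
      have h2 := congrArg (fun t => r.i ≫ t) this
      simpa using h2⟩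
    have hPs : P.IsStableUnderShift ℤ := ⟨fun a => ⟨fun X hX => by
      show P _
      intro m g
      let adj := (shiftEquiv D a).toAdjunction
      have e : (shiftFunctor D (-a)).obj ((shiftFunctor D m).obj K) ≅ (shiftFunctor D (m + -a)).obj K :=
        ((shiftFunctorAdd D m (-a)).app K).symm
      let φ : X ⟶ (shiftFunctor D (-a)).obj ((shiftFunctor D m).obj K) :=
        (adj.homEquiv X ((shiftFunctor D m).obj K)) g
      have h1 : φ = 0 := by
        rw [← cancel_mono e.hom, zero_comp]
        exact hX _ _
      have h2 : (adj.homEquiv X ((shiftFunctor D m).obj K)).symm φ = (adj.homEquiv _ _).symm 0 :=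
        congrArg (adj.homEquiv X ((shiftFunctor D m).obj K)).symm h1
      have h3 : (adj.homEquiv X ((shiftFunctor D m).obj K)).symm φ = g := Equiv.symm_apply_apply _ _
      rw [h3] at h2
      rw [h2, Adjunction.homEquiv_counit]
      erw [Functor.map_zero, zero_comp]
      rfl⟩⟩
    have hPz : P.ContainsZero := ⟨_, isZero_zero D, fun m g => (isZero_zero D).eq_of_src _ _⟩
    have hPe : P.IsTriangulatedClosed₂ := .mk' fun T hT h1 h3 m g => by
      obtain ⟨k, hk⟩ := Triangle.yoneda_exact₂ T hT g (h1 m _)
      rw [hk, h3 m k, comp_zero]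
    have hPt : P.IsTriangulated := { }
    have := (ObjectProperty.triangEnvelope_le_iff (P := fun Y : D => Y = E) (Q := P)).mpr (by
      rintro Y rfl
      exact fun m g => hK () m g)
    exact this _ (henv (S j) (hS j)) n f


end Groth.Agent.S0978
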