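import Groth.Statements.S0984
import Groth.Agent.Lib.Helper2_Hocolim

set_option autoImplicit false
universe v u
open CategoryTheory
open DerLim

namespace Groth.Agent.S0984


open CategoryTheory.Limits CategoryTheory.Pretriangulated in
/-- Let D be a triangulated category with all small direct sums and E a small family of compact objects
which generates D. Every object X of D is a homotopy colimit of a sequential system X₀ → X₁ → X₂ → …
in which X₀ is a direct sum of shifts of members of E and each transition map Xₙ → Xₙ₊₁ sits in a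
distinguished triangle Yₙ → Xₙ → Xₙ₊₁ → Yₙ[1] with Yₙ a direct sum of shifts of members of E. -/
theorem result {D : Type u} [Category.{v} D] [Preadditive D] [Limits.HasZeroObject D] [HasShift D ℤ]
    [∀ n : ℤ, (shiftFunctor D n).Additive] [Pretriangulated D] [IsTriangulated D] [HasCoproducts.{v} D]
    [HasColimitsOfShape (Discrete ℕ) D]
    {ι : Type v} (E : ι → D) (hc : ∀ i, CohDer.IsCompactObject (E i)) (hg : CohDer.Generates E) (X : D) :
    ∃ (K : ℕ → D) (f : ∀ n, K n ⟶ K (n + 1)) (i : ∀ n, K n ⟶ X),
      DerLim.IsHocolim K f X i ∧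
      (∃ (κ : Type v) (a : κ → ι) (m : κ → ℤ), Nonempty (K 0 ≅ ∐ (fun k => (shiftFunctor D (m k)).obj (E (a k))))) ∧
      ∀ n, ∃ (κ : Type v) (a : κ → ι) (m : κ → ℤ) (y : (∐ fun k => (shiftFunctor D (m k)).obj (E (a k))) ⟶ K n)
        (z : K (n + 1) ⟶ (shiftFunctor D (1 : ℤ)).obj (∐ fun k => (shiftFunctor D (m k)).obj (E (a k)))),
        Triangle.mk y (f n) z ∈ distinguishedTriangles := by
  exact Groth.Agent.H2.Hoc.presentation E hc hg X


end Groth.Agent.S0984
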