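import Groth.Statements.S0986
import Groth.Agent.Lib.Helper2_Tele

set_option autoImplicit false
universe v u
open CategoryTheory CategoryTheory.Limits
open DerLim

namespace Groth.Agent.S0986


/-- Let A be an abelian category in which colimits of sequences ℕ ⥤ A exist and are exact, and F : ℕ ⥤ A
a sequence whose direct sum ⨁ Fₙ exists. Then the map 1 - shift on ⨁ Fₙ followed by the canonical
map ⨁ Fₙ → colim F is a short exact sequence 0 → ⨁ Fₙ → ⨁ Fₙ → colim F → 0. -/
theorem result {A : Type u} [Category.{v} A] [Abelian A]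
    [HasColimitsOfShape ℕ A] [HasExactColimitsOfShape ℕ A] (F : ℕ ⥤ A) [HasCoproduct F.obj] :
    ∃ w : (𝟙 (∐ F.obj) - DerLim.shiftMap F.obj (fun n => F.map (homOfLE (Nat.le_succ n)))) ≫
        Sigma.desc (fun n => colimit.ι F n) = 0,
      (ShortComplex.mk _ _ w).ShortExact := by
  exact ⟨Groth.Agent.H2.Tele.w_zero F, Groth.Agent.H2.Tele.shortExact F⟩


end Groth.Agent.S0986
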