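import Groth.Statements.S0989
import Mathlib.Algebra.Homology.DerivedCategory.HomologySequence
import Mathlib.CategoryTheory.Abelian.Refinements
import Mathlib.Algebra.Homology.ExactSequence

set_option autoImplicit false
universe w v u
open CategoryTheory CategoryTheory.Limits
open CohDer

namespace Groth.Agent.S0989


/-- Let P be a weak Serre class in an abelian category A: P is closed under isomorphisms, holds for a
zero object, and whenever X₀ → X₁ → X₂ → X₃ → X₄ is exact with P holding for X₀, X₁, X₃, X₄ it holds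
for X₂. Then the class of objects of the derived category all of whose cohomology objects satisfy P
is a triangulated subcategory (contains zero, stable under shifts, closed under extensions) which is
moreover closed under retracts (saturated). -/
theorem result {A : Type u} [Category.{v} A] [Abelian A] [HasDerivedCategory.{w} A]
    (P : ObjectProperty A) [P.IsClosedUnderIsomorphisms] (h0 : ∃ Z : A, IsZero Z ∧ P Z)
    (hP : ∀ S : ComposableArrows A 4, S.Exact → P (S.obj 0) → P (S.obj 1) → P (S.obj 3) → P (S.obj 4) → P (S.obj 2)) :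
    ObjectProperty.IsTriangulated (fun X : DerivedCategory A => ∀ n : ℤ, P ((DerivedCategory.homologyFunctor A n).obj X)) ∧
    ObjectProperty.IsStableUnderRetracts (fun X : DerivedCategory A => ∀ n : ℤ, P ((DerivedCategory.homologyFunctor A n).obj X)) := by
  have hz : ∀ X : A, IsZero X → P X := fun X hX => by
    obtain ⟨Z, hZ, hPZ⟩ := h0
    exact P.prop_of_iso (hZ.iso hX) hPZ
  have five : ∀ {X₀ X₁ X₂ X₃ X₄ : A} (f₀ : X₀ ⟶ X₁) (f₁ : X₁ ⟶ X₂) (f₂ : X₂ ⟶ X₃) (f₃ : X₃ ⟶ X₄)
      (w₀ : f₀ ≫ f₁ = 0) (w₁ : f₁ ≫ f₂ = 0) (w₂ : f₂ ≫ f₃ = 0)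
      (_ : (ShortComplex.mk _ _ w₀).Exact) (_ : (ShortComplex.mk _ _ w₁).Exact)
      (_ : (ShortComplex.mk _ _ w₂).Exact), P X₀ → P X₁ → P X₃ → P X₄ → P X₂ := by
    intro X₀ X₁ X₂ X₃ X₄ f₀ f₁ f₂ f₃ w₀ w₁ w₂ e₀ e₁ e₂ h0 h1 h3 h4
    exact hP (ComposableArrows.mk₄ f₀ f₁ f₂ f₃)
      (ComposableArrows.exact_of_δ₀ e₀.exact_toComposableArrows
        (ComposableArrows.exact_of_δ₀ e₁.exact_toComposableArrows e₂.exact_toComposableArrows)) h0 h1 h3 h4
  have hR : ObjectProperty.IsStableUnderRetracts (fun X : DerivedCategory A => ∀ n : ℤ, P ((DerivedCategory.homologyFunctor A n).obj X)) := by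
    refine ⟨fun {X Y} r hY n => ?_⟩
    let i := (DerivedCategory.homologyFunctor A n).map r.i
    let p := (DerivedCategory.homologyFunctor A n).map r.r
    have hip : i ≫ p = 𝟙 _ := by simp only [i, p, ← Functor.map_comp, r.retract, CategoryTheory.Functor.map_id]
    obtain ⟨Z, hZ, hPZ⟩ := h0
    have w2 : i ≫ (𝟙 _ - p ≫ i) = 0 := by
      rw [Preadditive.comp_sub, ← Category.assoc, hip, Category.comp_id, Category.id_comp, sub_self]
    refine five (0 : Z ⟶ Z) (0 : Z ⟶ _) i (𝟙 _ - p ≫ i) (by simp) (by simp) w2 ?_ ?_ ?_ hPZ hPZ (hY n) (hY n)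
    · exact ShortComplex.exact_of_isZero_X₂ _ hZ
    · rw [ShortComplex.exact_iff_exact_up_to_refinements]
      intro T x hx
      refine ⟨T, 𝟙 _, inferInstance, 0, ?_⟩
      have hx' : x ≫ i = 0 := hx
      have : x = 0 := by
        have h5 := congrArg (fun t => t ≫ p) hx'
        simpa only [Category.assoc, hip, Category.comp_id, zero_comp] using h5
      simp [this]
    · rw [ShortComplex.exact_iff_exact_up_to_refinements]
      intro T x hx
      refine ⟨T, 𝟙 _, inferInstance, x ≫ p, ?_⟩
      have hx' : x ≫ (𝟙 _ - p ≫ i) = 0 := hx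
      rw [Preadditive.comp_sub, Category.comp_id, sub_eq_zero] at hx'
      show 𝟙 T ≫ x = (x ≫ p) ≫ i
      rw [Category.id_comp, Category.assoc]
      exact hx'
  refine ⟨?_, hR⟩
  have hS : ObjectProperty.IsStableUnderShift (fun X : DerivedCategory A => ∀ n : ℤ, P ((DerivedCategory.homologyFunctor A n).obj X)) ℤ :=
    ⟨fun a => ⟨fun X hX n => P.prop_of_iso
      (((DerivedCategory.homologyFunctor A 0).shiftIso a n (a + n) rfl).app X).symm (hX (a + n))⟩⟩
  have hC : ObjectProperty.ContainsZero (fun X : DerivedCategory A => ∀ n : ℤ, P ((DerivedCategory.homologyFunctor A n).obj X)) :=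
    ⟨_, isZero_zero _, fun n => hz _ ((DerivedCategory.homologyFunctor A n).map_isZero (isZero_zero _))⟩
  have hE : ObjectProperty.IsTriangulatedClosed₂ (fun X : DerivedCategory A => ∀ n : ℤ, P ((DerivedCategory.homologyFunctor A n).obj X)) := by
    refine .mk' fun T hT h1 h3 n => ?_
    exact five _ _ _ _ _ _ _
      (DerivedCategory.HomologySequence.exact₁ T hT (n - 1) n (by lia))
      (DerivedCategory.HomologySequence.exact₂ T hT n)
      (DerivedCategory.HomologySequence.exact₃ T hT n (n + 1) (by lia))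
      (h3 (n - 1)) (h1 n) (h3 n) (h1 (n + 1))
  exact { }


end Groth.Agent.S0989
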