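import Groth.Statements.S10147
import Groth.Agent.Lib.Helper15LT

set_option autoImplicit false
universe u v w
open LinTop

namespace Groth.Agent.S10147

/-- Let M be a topological module over a ring R whose additive group is a topological group, and let
(M_i) be a family of submodules of M forming a fundamental system of neighbourhoods of 0. For every
submodule N of M, the closure of N is the intersection over i of the submodules N + M_i. -/
theorem result
    {R : Type u} [Ring R] {M : Type v} [AddCommGroup M] [Module R M] [TopologicalSpace M]
    [IsTopologicalAddGroup M] {ι : Type w} (B : ι → Submodule R M)
    (hB : (nhds (0 : M)).HasBasis (fun _ => True) (fun i => (B i : Set M)))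
    (N : Submodule R M) :
    closure (N : Set M) = ⋂ i, ((N ⊔ B i : Submodule R M) : Set M) := by
  exact Groth.Agent.H15LT.closure_eq B hB N

end Groth.Agent.S10147
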