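import Groth.Statements.S10148
import Groth.Agent.Lib.Helper15LT3

set_option autoImplicit false
universe u
open LinTop

namespace Groth.Agent.S10148

/-- Let A be a weakly admissible topological ring (linearly topologized, Hausdorff and complete, having
a weak ideal of definition) and let I be a weak ideal of definition of A, that is, an open ideal
consisting of topologically nilpotent elements. Then (A, I) is a henselian pair. -/
theorem result
    (A : Type u) [CommRing A] [UniformSpace A] [IsUniformAddGroup A] [IsTopologicalRing A]
    (hA : LinTop.IsWeaklyAdmissible A) (I : Ideal A) (hI : LinTop.IsWeakIdealOfDefinition A I) :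
    HenselianRing A I := by
  haveI := hA.1.1
  haveI := hA.2.1
  haveI := hA.2.2
  exact Groth.Agent.H15LT.hensel I hI

end Groth.Agent.S10148
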