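import Groth.Statements.S10150
import Groth.Agent.Lib.Helper15LT

set_option autoImplicit false
universe u v
open LinTop

namespace Groth.Agent.S10150

/-- Let φ : A → B be a continuous ring homomorphism between weakly pre-admissible linearly topologized
rings. Then φ is taut if and only if, for each weak ideal of definition I of A, the closure of the
ideal generated by φ(I) is again a weak ideal of definition, now of B, and every neighbourhood of 0
in B contains one of these closures. (The published statement takes A and B weakly admissible, that
is, moreover Hausdorff and complete; completeness plays no role and this row omits it.) -/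
theorem result
    (A : Type u) [CommRing A] [TopologicalSpace A] [IsTopologicalRing A] [IsLinearTopology A A]
    (B : Type v) [CommRing B] [TopologicalSpace B] [IsTopologicalRing B] [IsLinearTopology B B]
    (hA : LinTop.IsWeaklyPreadmissible A) (hB : LinTop.IsWeaklyPreadmissible B)
    (φ : A →+* B) (hφ : Continuous φ) :
    LinTop.IsTaut φ ↔
      ((∀ I : Ideal A, LinTop.IsWeakIdealOfDefinition A I →
          LinTop.IsWeakIdealOfDefinition B (I.map φ).closure) ∧
        ∀ U ∈ nhds (0 : B), ∃ I : Ideal A, LinTop.IsWeakIdealOfDefinition A I ∧
          ((I.map φ).closure : Set B) ⊆ U) := by
  exact Groth.Agent.H15LT.taut_iff_wid hA φ hφ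

end Groth.Agent.S10150
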