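import Groth.Statements.S10152
import Groth.Agent.Lib.Helper15LT

set_option autoImplicit false
universe u v
open LinTop

namespace Groth.Agent.S10152

/-- Let φ : A → B be a taut homomorphism of linearly topologized rings. If A has countably many open
ideals forming a fundamental system, then so does B (equivalently, the neighbourhood filters of 0
are countably generated). -/
theorem result
    (A : Type u) [CommRing A] [TopologicalSpace A] [IsTopologicalRing A] [IsLinearTopology A A]
    (B : Type v) [CommRing B] [TopologicalSpace B] [IsTopologicalRing B] [IsLinearTopology B B]
    (φ : A →+* B) (hφ : LinTop.IsTaut φ) (hA : (nhds (0 : A)).IsCountablyGenerated) :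
    (nhds (0 : B)).IsCountablyGenerated := by
  exact Groth.Agent.H15LT.taut_cg hφ hA

end Groth.Agent.S10152
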