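import Groth.Statements.S10154
import Groth.Agent.Lib.Helper15LT

set_option autoImplicit false
universe u v
open LinTop

namespace Groth.Agent.S10154

/-- Let φ : A → B be a taut homomorphism of linearly topologized rings. If A is pre-admissible, then B
is pre-admissible. -/
theorem result
    (A : Type u) [CommRing A] [TopologicalSpace A] [IsTopologicalRing A] [IsLinearTopology A A]
    (B : Type v) [CommRing B] [TopologicalSpace B] [IsTopologicalRing B] [IsLinearTopology B B]
    (φ : A →+* B) (hφ : LinTop.IsTaut φ) (hA : LinTop.IsPreadmissible A) :
    LinTop.IsPreadmissible B := by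
  exact Groth.Agent.H15LT.pa_of_taut hφ hA

end Groth.Agent.S10154
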