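import Groth.Statements.S10155
import Groth.Agent.Lib.Helper15LT2

set_option autoImplicit false
universe u v
open LinTop

namespace Groth.Agent.S10155

/-- Let φ : A → B be a taut homomorphism of linearly topologized rings with dense image. Assume A is
Hausdorff and complete with a countable fundamental system of open ideals and B is Hausdorff. Then φ
is surjective and open, so that B is the quotient of A by the closed ideal ker φ with the quotient
topology, and B is complete. -/
theorem result
    (A : Type u) [CommRing A] [UniformSpace A] [IsUniformAddGroup A] [IsTopologicalRing A]
    [IsLinearTopology A A] [T2Space A] [CompleteSpace A] (hA : (nhds (0 : A)).IsCountablyGenerated)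
    (B : Type v) [CommRing B] [UniformSpace B] [IsUniformAddGroup B] [IsTopologicalRing B]
    [IsLinearTopology B B] [T2Space B]
    (φ : A →+* B) (hφ : LinTop.IsTaut φ) (hd : DenseRange φ) :
    Function.Surjective φ ∧ IsOpenQuotientMap φ ∧ CompleteSpace B := by
  exact Groth.Agent.H15LT.surj_open hA φ hφ hd

end Groth.Agent.S10155
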