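import Groth.Statements.S10156
import Groth.Agent.Lib.Helper15LT

set_option autoImplicit false
universe u v w
open LinTop

namespace Groth.Agent.S10156

/-- Given pre-adic rings A, B, C and continuous ring maps ψ : B → C and φ : A → B, adicness of the
composite A → C implies that ψ is adic. -/
theorem result
    (A : Type u) [CommRing A] [TopologicalSpace A] [IsTopologicalRing A] (hA : LinTop.IsPreadic A)
    (B : Type v) [CommRing B] [TopologicalSpace B] [IsTopologicalRing B] (hB : LinTop.IsPreadic B)
    (C : Type w) [CommRing C] [TopologicalSpace C] [IsTopologicalRing C] (hC : LinTop.IsPreadic C)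
    (φ : A →+* B) (ψ : B →+* C) (hφ : Continuous φ) (hψ : Continuous ψ)
    (h : LinTop.IsAdicHom (ψ.comp φ)) : LinTop.IsAdicHom ψ := by
  exact Groth.Agent.H15LT.adic_comp hB φ ψ hφ hψ h

end Groth.Agent.S10156
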