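import Groth.Statements.S10157
import Groth.Agent.Lib.Helper15LT

set_option autoImplicit false
universe u v
open LinTop

namespace Groth.Agent.S10157

/-- A continuous adic homomorphism φ : A → B between pre-adic topological rings is taut. -/
theorem result
    (A : Type u) [CommRing A] [TopologicalSpace A] [IsTopologicalRing A] (hA : LinTop.IsPreadic A)
    (B : Type v) [CommRing B] [TopologicalSpace B] [IsTopologicalRing B] (hB : LinTop.IsPreadic B)
    (φ : A →+* B) (hφ : Continuous φ) (h : LinTop.IsAdicHom φ) : LinTop.IsTaut φ := by
  exact Groth.Agent.H15LT.taut_of_adic hA hB φ hφ h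

end Groth.Agent.S10157
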