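import Groth.Statements.S10158
import Groth.Agent.Lib.Helper15LT2

set_option autoImplicit false
universe u v
open LinTop

namespace Groth.Agent.S10158

/-- Let φ : A → B be a taut homomorphism of linearly topologized rings. Assume A is pre-adic with a
finitely generated ideal of definition I and B is Hausdorff and complete. Then the topology of B is
the φ(I)B-adic topology; in particular B is adic with a finitely generated ideal of definition and φ
is adic. -/
theorem result
    (A : Type u) [CommRing A] [TopologicalSpace A] [IsTopologicalRing A] (hA : LinTop.IsPreadic A)
    (I : Ideal A) (hI : LinTop.IsIdealOfDefinition A I) (hfg : I.FG)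
    (B : Type v) [CommRing B] [UniformSpace B] [IsUniformAddGroup B] [IsTopologicalRing B]
    [IsLinearTopology B B] [T2Space B] [CompleteSpace B]
    (φ : A →+* B) (hφ : LinTop.IsTaut φ) :
    IsAdic (I.map φ) := by
  exact Groth.Agent.H15LT.adic_map_of_taut hA I hI hfg φ hφ

end Groth.Agent.S10158
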