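import Groth.Statements.S10159
import Groth.Agent.Lib.Helper15LT

set_option autoImplicit false
universe u
open LinTop

namespace Groth.Agent.S10159

/-- For a ring A carrying a linear topology, the following four conditions are equivalent: (1) A is
weakly pre-adic; (2) there exist a pre-adic topological ring A' and a taut continuous ring
homomorphism A' → A (A' is taken in the universe of A, which suffices since A with an adic topology
serves); (3) A has an ideal of definition, and for at least one ideal of definition I every closure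
cl(I^n) with n ≥ 1 is open; (4) A has an ideal of definition, and for each of its ideals of
definition I every closure cl(I^n) with n ≥ 1 is open. -/
theorem result
    (A : Type u) [CommRing A] [TopologicalSpace A] [IsTopologicalRing A] [IsLinearTopology A A] :
    List.TFAE [LinTop.IsWeaklyPreadic A,
      ∃ (A' : Type u) (_ : CommRing A') (_ : TopologicalSpace A') (_ : IsTopologicalRing A')
        (φ : A' →+* A), LinTop.IsPreadic A' ∧ LinTop.IsTaut φ,
      LinTop.IsPreadmissible A ∧ ∃ I : Ideal A, LinTop.IsIdealOfDefinition A I ∧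
        ∀ n : ℕ, 0 < n → IsOpen (closure ((I ^ n : Ideal A) : Set A)),
      LinTop.IsPreadmissible A ∧ ∀ I : Ideal A, LinTop.IsIdealOfDefinition A I →
        ∀ n : ℕ, 0 < n → IsOpen (closure ((I ^ n : Ideal A) : Set A))] := by
  tfae_have 1 → 2 := fun h => Groth.Agent.H15LT.taut_of_wp_id h
  tfae_have 2 → 1 := by
    rintro ⟨A', _, _, _, φ, hp, ht⟩
    haveI := Groth.Agent.H15LT.isLinear_of_preadic hp
    exact Groth.Agent.H15LT.wp_of_taut ht (Groth.Agent.H15LT.preadic_wp hp)
  tfae_have 1 → 4 := fun h => ⟨(Groth.Agent.H15LT.wp_imp4 h).1, fun I hI n _ => (Groth.Agent.H15LT.wp_imp4 h).2 I hI n⟩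
  tfae_have 4 → 3 := by
    rintro ⟨⟨hl, I, hI⟩, h2⟩
    exact ⟨⟨hl, I, hI⟩, I, hI, h2 I hI⟩
  tfae_have 3 → 1 := by
    rintro ⟨_, I, hI, h2⟩
    exact Groth.Agent.H15LT.wp_of3 I hI h2
  tfae_finish

end Groth.Agent.S10159
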