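import Groth.Statements.S10160
import Groth.Agent.Lib.Helper15LT

set_option autoImplicit false
universe u
open LinTop

namespace Groth.Agent.S10160

/-- A weakly adic topological ring is admissible; moreover, countably many open ideals suffice to form a
fundamental system of neighbourhoods of 0. -/
theorem result
    (A : Type u) [CommRing A] [UniformSpace A] [IsUniformAddGroup A] [IsTopologicalRing A] (hA : LinTop.IsWeaklyAdic A) :
    LinTop.IsAdmissible A ∧ (nhds (0 : A)).IsCountablyGenerated := by
  exact ⟨⟨(Groth.Agent.H15LT.wp_imp4 hA.1).1, hA.2⟩, Groth.Agent.H15LT.wp_cg hA.1⟩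

end Groth.Agent.S10160
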