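import Groth.Statements.S10161
import Groth.Agent.Lib.Helper15LT2

set_option autoImplicit false
universe u
open LinTop

namespace Groth.Agent.S10161

/-- The (separated) completion of a weakly pre-adic linearly topologized ring is weakly adic. -/
theorem result
    (A : Type u) [CommRing A] [UniformSpace A] [IsUniformAddGroup A] [IsTopologicalRing A] [IsLinearTopology A A] (hA : LinTop.IsWeaklyPreadic A) :
    LinTop.IsWeaklyAdic (UniformSpace.Completion A) := by
  exact Groth.Agent.H15LT.weaklyAdic_completion hA

end Groth.Agent.S10161
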