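import Groth.Statements.S10162
import Groth.Agent.Lib.Helper15LT2

set_option autoImplicit false
universe u
open LinTop

namespace Groth.Agent.S10162

/-- For a linearly topologized ring A, the canonical map from A to its (separated) completion is taut. -/
theorem result
    (A : Type u) [CommRing A] [UniformSpace A] [IsUniformAddGroup A] [IsTopologicalRing A] [IsLinearTopology A A] :
    LinTop.IsTaut (UniformSpace.Completion.coeRingHom : A →+* UniformSpace.Completion A) := by
  exact Groth.Agent.H15LT.taut_completion

end Groth.Agent.S10162
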