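import Groth.Statements.S10163
import Groth.Agent.Lib.Helper15LT2

set_option autoImplicit false
universe u
open LinTop

namespace Groth.Agent.S10163

/-- Let A be Hausdorff, complete and linearly topologized, and I a finitely generated ideal whose powers
I^n all have open closures, these closures forming a basis of neighbourhoods of 0. Then A carries
the I-adic topology; in particular A is adic with I as a finitely generated ideal of definition. -/
theorem result
    (A : Type u) [CommRing A] [UniformSpace A] [IsUniformAddGroup A] [IsTopologicalRing A] [IsLinearTopology A A] [T2Space A] [CompleteSpace A]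
    (I : Ideal A) (hfg : I.FG) (hopen : ∀ n : ℕ, IsOpen (closure ((I ^ n : Ideal A) : Set A)))
    (hbasis : ∀ U ∈ nhds (0 : A), ∃ n : ℕ, closure ((I ^ n : Ideal A) : Set A) ⊆ U) :
    IsAdic I := by
  exact Groth.Agent.H15LT.isAdic_of_fg I hfg hopen hbasis

end Groth.Agent.S10163
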