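import Groth.Statements.S10164
import Groth.Agent.Lib.Helper15LT2

set_option autoImplicit false
universe u
open LinTop

namespace Groth.Agent.S10164

/-- Let A be weakly adic and I an ideal of definition of A with I/I₂ finitely generated, where I₂
denotes the closure of I^2 (here: I maps onto a finitely generated ideal of A/I₂). Then A is adic,
and some finitely generated ideal of A is an ideal of definition. -/
theorem result
    (A : Type u) [CommRing A] [UniformSpace A] [IsUniformAddGroup A] [IsTopologicalRing A] (hA : LinTop.IsWeaklyAdic A)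
    (I : Ideal A) (hI : LinTop.IsIdealOfDefinition A I)
    (hfg : (I.map (Ideal.Quotient.mk ((I ^ 2).closure))).FG) :
    LinTop.IsAdicRing A ∧ ∃ J : Ideal A, LinTop.IsIdealOfDefinition A J ∧ J.FG := by
  haveI := hA.1.1
  haveI := hA.2.1
  haveI := hA.2.2
  obtain ⟨J, h1, h2, h3⟩ := Groth.Agent.H15LT.adic_of_cotangent hA.1 I hI hfg
  exact ⟨⟨⟨J, h1⟩, hA.2⟩, J, h2, h3⟩

end Groth.Agent.S10164
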