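import Groth.Statements.S10165
import Groth.Agent.Lib.Helper15LT

set_option autoImplicit false
universe u v
open LinTop

namespace Groth.Agent.S10165

/-- Let φ : A → B be a taut homomorphism of linearly topologized rings. If A is weakly pre-adic, so is
B. -/
theorem result
    (A : Type u) [CommRing A] [TopologicalSpace A] [IsTopologicalRing A] [IsLinearTopology A A]
    (B : Type v) [CommRing B] [TopologicalSpace B] [IsTopologicalRing B] [IsLinearTopology B B]
    (φ : A →+* B) (hφ : LinTop.IsTaut φ) (hA : LinTop.IsWeaklyPreadic A) :
    LinTop.IsWeaklyPreadic B := by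
  exact Groth.Agent.H15LT.wp_of_taut hφ hA

end Groth.Agent.S10165
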