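import Groth.Statements.S10166
import Groth.Agent.Lib.Helper15LT

set_option autoImplicit false
universe u v
open LinTop

namespace Groth.Agent.S10166

/-- Let φ : A → B be a taut homomorphism of linearly topologized rings such that for every open ideal I
of A, with J the closure of φ(I)B, the induced map A/I → B/J is faithfully flat. Then A admits a
countable fundamental system of open ideals whenever B does. -/
theorem result
    (A : Type u) [CommRing A] [TopologicalSpace A] [IsTopologicalRing A] [IsLinearTopology A A]
    (B : Type v) [CommRing B] [TopologicalSpace B] [IsTopologicalRing B] [IsLinearTopology B B]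
    (φ : A →+* B) (hφ : LinTop.IsTautFFlat φ) (hB : (nhds (0 : B)).IsCountablyGenerated) :
    (nhds (0 : A)).IsCountablyGenerated := by
  exact Groth.Agent.H15LT.ff_cg hφ hB

end Groth.Agent.S10166
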