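import Groth.Statements.S10167
import Groth.Agent.Lib.Helper15LT

set_option autoImplicit false
universe u v
open LinTop

namespace Groth.Agent.S10167

/-- Let φ : A → B be a taut homomorphism of linearly topologized rings such that for every open ideal I
of A the induced ring map A/I → B/J, where J denotes the closure of φ(I)B, is faithfully flat. If B
has a weak ideal of definition (B is weakly pre-admissible), then so does A. -/
theorem result
    (A : Type u) [CommRing A] [TopologicalSpace A] [IsTopologicalRing A] [IsLinearTopology A A]
    (B : Type v) [CommRing B] [TopologicalSpace B] [IsTopologicalRing B] [IsLinearTopology B B]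
    (φ : A →+* B) (hφ : LinTop.IsTautFFlat φ) (hB : LinTop.IsWeaklyPreadmissible B) :
    LinTop.IsWeaklyPreadmissible A := by
  exact Groth.Agent.H15LT.ff_wpa hφ hB

end Groth.Agent.S10167
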