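import Groth.Statements.S10170
import Groth.Agent.Lib.Helper15LT2

set_option autoImplicit false
universe u v
open LinTop

namespace Groth.Agent.S10170

/-- Let φ : A → B be a taut homomorphism of linearly topologized rings such that for every open ideal I
of A the induced ring map A/I → B/J, where J denotes the closure of φ(I)B, is faithfully flat.
Suppose A is Hausdorff and complete, and B is adic with some finitely generated ideal of definition.
Then A is adic, and some finitely generated ideal of A is an ideal of definition. -/
theorem result
    (A : Type u) [CommRing A] [UniformSpace A] [IsUniformAddGroup A] [IsTopologicalRing A] [IsLinearTopology A A] [T2Space A] [CompleteSpace A]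
    (B : Type v) [CommRing B] [UniformSpace B] [IsUniformAddGroup B] [IsTopologicalRing B] (hB : LinTop.IsAdicRing B)
    (hJ : ∃ J : Ideal B, LinTop.IsIdealOfDefinition B J ∧ J.FG)
    (φ : A →+* B) (hφ : LinTop.IsTautFFlat φ) :
    LinTop.IsAdicRing A ∧ ∃ I : Ideal A, LinTop.IsIdealOfDefinition A I ∧ I.FG := by
  obtain ⟨I, h1, h2, h3⟩ := Groth.Agent.H15LT.ff_adic hB.1 hJ φ hφ
  exact ⟨⟨⟨I, h1⟩, inferInstance, inferInstance⟩, I, h2, h3⟩

end Groth.Agent.S10170
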