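import Groth.Statements.S10171
import Groth.Agent.Lib.Helper15LT3

set_option autoImplicit false
universe u v
open LinTop

namespace Groth.Agent.S10171

/-- Let M be a linearly topologized module over a ring R and N a submodule. Write M^ for the separated
completion of M and (M/N)^ for that of M/N (quotient topology, additive uniform structure). Then the
kernel of the induced map M^ → (M/N)^ is the closure of the image of N in M^; that closure is the
completion of N, so this is the exactness of 0 → N^ → M^ → (M/N)^ at M^. -/
theorem result
    {R : Type u} [Ring R] {M : Type v} [AddCommGroup M] [Module R M] [UniformSpace M]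
    [IsUniformAddGroup M] [IsLinearTopology R M] (N : Submodule R M) :
    (@UniformSpace.Completion.map M _ (M ⧸ N.toAddSubgroup)
        (IsTopologicalAddGroup.rightUniformSpace (M ⧸ N.toAddSubgroup))
        (QuotientAddGroup.mk' N.toAddSubgroup)) ⁻¹' {0} =
      closure (Set.range (fun n : N => ((n : M) : UniformSpace.Completion M))) := by
  exact Groth.Agent.H15LT.ker_eq N

end Groth.Agent.S10171
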