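import Groth.Statements.S10172
import Groth.Agent.Lib.Helper15LT3

set_option autoImplicit false
universe u v
open LinTop

namespace Groth.Agent.S10172

/-- Let M be a linearly topologized module over a ring R having a countable fundamental system of
neighbourhoods of 0, and N a submodule. With M^ and (M/N)^ the separated completions of M and of M/N
(quotient topology, additive uniform structure), the induced map M^ → (M/N)^ is surjective and open
(so, its kernel being the completion of N, the sequence 0 → N^ → M^ → (M/N)^ → 0 is exact). -/
theorem result
    {R : Type u} [Ring R] {M : Type v} [AddCommGroup M] [Module R M] [UniformSpace M]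
    [IsUniformAddGroup M] [IsLinearTopology R M] (hc : (nhds (0 : M)).IsCountablyGenerated)
    (N : Submodule R M) :
    Function.Surjective (@UniformSpace.Completion.map M _ (M ⧸ N.toAddSubgroup)
        (IsTopologicalAddGroup.rightUniformSpace (M ⧸ N.toAddSubgroup))
        (QuotientAddGroup.mk' N.toAddSubgroup)) ∧
      IsOpenMap (@UniformSpace.Completion.map M _ (M ⧸ N.toAddSubgroup)
        (IsTopologicalAddGroup.rightUniformSpace (M ⧸ N.toAddSubgroup))
        (QuotientAddGroup.mk' N.toAddSubgroup)) := by
  exact Groth.Agent.H15LT.compl_surj_open hc N

end Groth.Agent.S10172
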