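import Groth.Statements.S10177
import Groth.Agent.Lib.Helper15Pt2

set_option autoImplicit false
universe u
open CategoryTheory CategoryTheory.Limits AlgebraicGeometry Topology TopologicalSpace
open AlgSp AlgSp.Points

namespace Groth.Agent.S10177

/-- For an algebraic space X over a scheme S and a representable etale, representable surjective map p :
h_U ⟶ X from a scheme U over S, the induced map from the underlying space of U to the space of
points |X| is a quotient map of topological spaces (surjective, and a subset of |X| is open if and
only if its inverse image in U is open). -/
theorem result {S : Scheme.{u}} (X : AlgSp.Space S) {U : Over S}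
    (p : (AlgSp.yon S).obj U ⟶ X.obj) (hp : AlgSp.RepWith @Etale p) (hs : AlgSp.RepWith @Surjective p) :
    IsQuotientMap (AlgSp.Points.ofPt p) := by
  exact (Groth.Agent.H15Pt.isOpenMap_ofPt (Groth.Agent.H15Pt.isOpenMap_of_repWith hp
    (fun f hf => by have : Etale f := hf; exact f.isOpenMap))).isQuotientMap (AlgSp.Points.continuous_ofPt p)
    (Groth.Agent.H15Pt.surj_ofPt (Groth.Agent.H15Pt.surj_of_repWith hs))

end Groth.Agent.S10177
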