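import Groth.Statements.S1034
import Groth.Agent.Lib.Helper2_Tele
import Mathlib.CategoryTheory.Limits.Preserves.Shapes.Products
import Mathlib.CategoryTheory.Abelian.Refinements

set_option autoImplicit false
universe v v' u u'
open CategoryTheory CategoryTheory.Limits
open DerLim

namespace Groth.Agent.S1034

open CategoryTheory.Limits
open CategoryTheory.Pretriangulated Groth.Agent.H2.Tele

section
variable {D : Type u} [Category.{v} D] [Preadditive D] [HasColimitsOfShape (Discrete ℕ) D]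
    {A : Type u'} [Category.{v'} A] [Abelian A] [HasColimitsOfShape ℕ A] [HasExactColimitsOfShape ℕ A]
    (G : D ⥤ A) [G.Additive] [PreservesColimitsOfShape (Discrete ℕ) G]
    (K : ℕ → D) (f : ∀ n, K n ⟶ K (n + 1))

theorem hasCop : HasCoproduct (fun n => G.obj (K n)) :=
  ⟨⟨⟨_, isColimitCofanMkObjOfIsColimit G _ _ (coproductIsCoproduct K)⟩⟩⟩


/-- the system in `A` -/
abbrev Fs : ℕ ⥤ A := Functor.ofSequence (fun n => G.map (f n))

theorem hasCop' : HasCoproduct (Fs G K f).obj := hasCop G K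

noncomputable def cmpG [HasCoproduct (Fs G K f).obj] : (∐ (Fs G K f).obj) ⟶ G.obj (∐ K) :=
  Sigma.desc (fun n => G.map (Sigma.ι K n))

theorem ι_cmpG [HasCoproduct (Fs G K f).obj] (n : ℕ) :
    Sigma.ι (Fs G K f).obj n ≫ cmpG G K f = G.map (Sigma.ι K n) := by
  exact Sigma.ι_desc _ _

theorem isIso_cmpG [HasCoproduct (Fs G K f).obj] : IsIso (cmpG G K f) := by
  let hc := isColimitCofanMkObjOfIsColimit G _ _ (coproductIsCoproduct K)
  let iv : G.obj (∐ K) ⟶ ∐ (Fs G K f).obj :=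
    Cofan.IsColimit.desc hc (fun n => Sigma.ι (Fs G K f).obj n)
  have hiv : ∀ n, G.map (Sigma.ι K n) ≫ iv = Sigma.ι (Fs G K f).obj n := fun n =>
    Cofan.IsColimit.fac hc _ n
  refine ⟨⟨iv, ?_, ?_⟩⟩
  · apply Sigma.hom_ext
    intro n
    exact (Category.assoc _ _ _).symm.trans ((congrArg (fun t => t ≫ iv) (ι_cmpG G K f n)).trans
      ((hiv n).trans (Category.comp_id _).symm))
  · apply Cofan.IsColimit.hom_ext hc
    intro n
    exact (Category.assoc _ _ _).symm.trans ((congrArg (fun t => t ≫ cmpG G K f) (hiv n)).trans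
      ((ι_cmpG G K f n).trans (Category.comp_id _).symm))

theorem conj [HasCoproduct (Fs G K f).obj] :
    (𝟙 (∐ (Fs G K f).obj) - sh (Fs G K f)) ≫ cmpG G K f =
      cmpG G K f ≫ G.map (𝟙 (∐ K) - DerLim.shiftMap K f) := by
  apply Sigma.hom_ext
  intro n
  have e1 : Sigma.ι (Fs G K f).obj n ≫ (𝟙 (∐ (Fs G K f).obj) - sh (Fs G K f)) ≫ cmpG G K f =
      Sigma.ι (Fs G K f).obj n ≫ cmpG G K f -
        (Fs G K f).map (homOfLE (Nat.le_succ n)) ≫ Sigma.ι (Fs G K f).obj (n + 1) ≫ cmpG G K f := by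
    rw [← Category.assoc, Preadditive.comp_sub, Category.comp_id, ι_sh, Preadditive.sub_comp,
      Category.assoc]
  have e0 : (Fs G K f).map (homOfLE (Nat.le_succ n)) = G.map (f n) :=
    Functor.ofSequence_map_homOfLE_succ _ n
  have e3 : (Fs G K f).map (homOfLE (Nat.le_succ n)) ≫ Sigma.ι (Fs G K f).obj (n + 1) ≫ cmpG G K f =
      G.map (f n ≫ Sigma.ι K (n + 1)) := by
    rw [ι_cmpG, e0]
    exact (G.map_comp _ _).symm
  have e4 : Sigma.ι (Fs G K f).obj n ≫ cmpG G K f ≫ G.map (𝟙 (∐ K) - DerLim.shiftMap K f) =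
      G.map (Sigma.ι K n) - G.map (f n ≫ Sigma.ι K (n + 1)) := by
    have e5 : G.map (Sigma.ι K n) ≫ G.map (𝟙 (∐ K) - DerLim.shiftMap K f) =
        G.map (Sigma.ι K n) - G.map (f n ≫ Sigma.ι K (n + 1)) := by
      rw [← G.map_comp, ← G.map_sub, Preadditive.comp_sub, Category.comp_id]
      simp [DerLim.shiftMap]
    exact (Category.assoc _ _ _).symm.trans ((congrArg (fun t => t ≫
      G.map (𝟙 (∐ K) - DerLim.shiftMap K f)) (ι_cmpG G K f n)).trans e5)
  rw [e1, e4, e3, ι_cmpG]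
  rfl

theorem monoG : Mono (G.map (𝟙 (∐ K) - DerLim.shiftMap K f)) := by
  have := hasCop' G K f
  have := isIso_cmpG G K f
  have h1 : G.map (𝟙 (∐ K) - DerLim.shiftMap K f) = inv (cmpG G K f) ≫
      (𝟙 (∐ (Fs G K f).obj) - sh (Fs G K f)) ≫ cmpG G K f := by
    rw [conj, IsIso.inv_hom_id_assoc]
  have h2 : Mono (𝟙 (∐ (Fs G K f).obj) - sh (Fs G K f)) := mono_one_sub _
  rw [h1]
  infer_instance

end


open CategoryTheory.Pretriangulated in
/-- Let D be a triangulated category with countable direct sums, A an abelian category with exact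
colimits of shape ℕ, and H : D ⥤ A a homological functor that preserves countable direct sums. If L
(with maps iₙ : Kₙ ⟶ L) is a homotopy colimit of a system (Kₙ, fₙ), then H(L) is the colimit of the
H(Kₙ): there is an isomorphism colimₙ H(Kₙ) ≅ H(L) compatible with the maps H(iₙ). -/
theorem result {D : Type u} [Category.{v} D] [Preadditive D] [Limits.HasZeroObject D] [HasShift D ℤ]
    [∀ n : ℤ, (shiftFunctor D n).Additive] [Pretriangulated D] [IsTriangulated D] [HasColimitsOfShape (Discrete ℕ) D]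
    {A : Type u'} [Category.{v'} A] [Abelian A] [HasColimitsOfShape ℕ A] [HasExactColimitsOfShape ℕ A]
    (H : D ⥤ A) [H.IsHomological] [PreservesColimitsOfShape (Discrete ℕ) H]
    (K : ℕ → D) (f : ∀ n, K n ⟶ K (n + 1)) (L : D) (i : ∀ n, K n ⟶ L) (hL : DerLim.IsHocolim K f L i) :
    ∃ e : colimit (Functor.ofSequence (fun n => H.map (f n))) ≅ H.obj L,
      ∀ n : ℕ, colimit.ι (Functor.ofSequence (fun n => H.map (f n))) n ≫ e.hom = H.map (i n) := by
  obtain ⟨c, hT⟩ := hL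
  let F : ℕ ⥤ A := Fs H K f
  have hco : HasCoproduct F.obj := hasCop' H K f
  let q : (∐ F.obj) ⟶ colimit F := Sigma.desc (fun n => colimit.ι F n)
  let cmp : (∐ F.obj) ⟶ H.obj (∐ K) := cmpG H K f
  have hcmp : IsIso cmp := isIso_cmpG H K f
  have hconj : (𝟙 (∐ F.obj) - sh F) ≫ cmp = cmp ≫ H.map (𝟙 (∐ K) - DerLim.shiftMap K f) := conj H K f
  have hι : ∀ n, Sigma.ι F.obj n ≫ cmp = H.map (Sigma.ι K n) := fun n => ι_cmpG H K f n
  have hse := shortExact F
  have hq : Epi q := hse.epi_g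
  have h12 : (𝟙 (∐ K) - DerLim.shiftMap K f) ≫ Sigma.desc i = 0 := comp_distTriang_mor_zero₁₂ _ hT
  -- the map out of the colimit
  have hw : (𝟙 (∐ F.obj) - sh F) ≫ (cmp ≫ H.map (Sigma.desc i)) = 0 := by
    rw [← Category.assoc, hconj, Category.assoc, ← H.map_comp, h12, H.map_zero, comp_zero]
  let e' : colimit F ⟶ H.obj L := hse.exact.desc (cmp ≫ H.map (Sigma.desc i)) hw
  have he' : q ≫ e' = cmp ≫ H.map (Sigma.desc i) := hse.exact.g_desc _ hw
  have hmono1 : Mono (H.map ((shiftFunctor D (1 : ℤ)).map (𝟙 (∐ K) - DerLim.shiftMap K f))) :=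
    monoG (shiftFunctor D (1 : ℤ) ⋙ H) K f
  have hc0 : H.map c = 0 := by
    rw [← cancel_mono (H.map ((shiftFunctor D (1 : ℤ)).map (𝟙 (∐ K) - DerLim.shiftMap K f))),
      ← H.map_comp, zero_comp]
    have : c ≫ (shiftFunctor D (1 : ℤ)).map (𝟙 (∐ K) - DerLim.shiftMap K f) = 0 :=
      comp_distTriang_mor_zero₃₁ _ hT
    rw [this, H.map_zero]
  have hepi : Epi (H.map (Sigma.desc i)) := by
    have ex := H.map_distinguished_exact _ (rot_of_distTriang _ hT)
    exact ex.epi_f hc0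
  have hEpi : Epi e' := by
    have : Epi (q ≫ e') := by rw [he']; exact epi_comp _ _
    exact epi_of_epi q e'
  have hMono : Mono e' := by
    rw [Preadditive.mono_iff_cancel_zero]
    intro T x hx
    obtain ⟨T₁, π₁, hπ₁, y, hy⟩ := surjective_up_to_refinements_of_epi q x
    have h1 : (y ≫ cmp) ≫ H.map (Sigma.desc i) = 0 := by
      rw [Category.assoc, ← he', ← Category.assoc, ← hy, Category.assoc, hx, comp_zero]
    have ex := H.map_distinguished_exact _ hT
    obtain ⟨T₂, π₂, hπ₂, z, hz'⟩ : ∃ (T₂ : A) (π₂ : T₂ ⟶ T₁) (_ : Epi π₂) (z : T₂ ⟶ H.obj (∐ K)),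
        π₂ ≫ y ≫ cmp = z ≫ H.map (𝟙 (∐ K) - DerLim.shiftMap K f) :=
      ex.exact_up_to_refinements (y ≫ cmp) h1
    obtain ⟨ic, hic1, hic2⟩ := hcmp.out
    have h2 : π₂ ≫ y = (z ≫ ic) ≫ (𝟙 (∐ F.obj) - sh F) := by
      have h9 : (π₂ ≫ y) ≫ cmp = ((z ≫ ic) ≫ (𝟙 (∐ F.obj) - sh F)) ≫ cmp := by
        rw [Category.assoc, hz', Category.assoc _ _ cmp, hconj, Category.assoc, ← Category.assoc ic,
          hic2, Category.id_comp]
      have h10 := congrArg (fun t => t ≫ ic) h9
      simp only [Category.assoc, hic1, Category.comp_id] at h10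
      simp only [Category.assoc]
      exact h10
    have h3 : π₂ ≫ π₁ ≫ x = 0 := by
      rw [hy, ← Category.assoc, h2, Category.assoc]
      have := w_zero F
      show (z ≫ ic) ≫ (𝟙 (∐ F.obj) - sh F) ≫ q = 0
      rw [this, comp_zero]
    rw [← cancel_epi π₁, ← cancel_epi π₂, h3, comp_zero, comp_zero]
  have hIso : IsIso e' := isIso_of_mono_of_epi e'
  refine ⟨asIso e', fun n => ?_⟩
  show colimit.ι F n ≫ e' = H.map (i n)
  have h4 : colimit.ι F n = Sigma.ι F.obj n ≫ q := by simp [q]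
  have h5 : H.map (Sigma.ι K n) ≫ H.map (Sigma.desc i) = H.map (i n) := by
    rw [← H.map_comp]; simp
  rw [h4, Category.assoc, he', ← Category.assoc, hι]
  exact h5


end Groth.Agent.S1034
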