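import Groth.Statements.S1043
import Mathlib.CategoryTheory.Triangulated.Pretriangulated

set_option autoImplicit false
universe v u
open CategoryTheory
open CohDer

namespace Groth.Agent.S1043

open CategoryTheory.Limits

open CategoryTheory.Pretriangulated in
/-- Let φ, ψ : T ⟶ T' be two morphisms between distinguished triangles T = (X, Y, Z) and T' = (X', Y',
Z') of a pretriangulated category which agree on the first and third components. If one of the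
following holds — (1) Hom(Y, X') = 0; (2) Hom(Z, Y') = 0; (3) Hom(X, X') = 0 and Hom(Z, X') = 0; (4)
Hom(Z, X') = 0 and Hom(Z, Z') = 0; (5) Hom(X[1], Z') = 0 and Hom(Z, X') = 0 — then φ and ψ also
agree on the middle component. -/
theorem result {D : Type u} [Category.{v} D] [Preadditive D] [Limits.HasZeroObject D] [HasShift D ℤ]
    [∀ n : ℤ, (shiftFunctor D n).Additive] [Pretriangulated D]
    (T T' : Triangle D) (hT : T ∈ distinguishedTriangles) (hT' : T' ∈ distinguishedTriangles)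
    (φ ψ : T ⟶ T') (h₁ : φ.hom₁ = ψ.hom₁) (h₃ : φ.hom₃ = ψ.hom₃)
    (hc : (∀ u : T.obj₂ ⟶ T'.obj₁, u = 0) ∨ (∀ u : T.obj₃ ⟶ T'.obj₂, u = 0) ∨
      ((∀ u : T.obj₁ ⟶ T'.obj₁, u = 0) ∧ (∀ u : T.obj₃ ⟶ T'.obj₁, u = 0)) ∨
      ((∀ u : T.obj₃ ⟶ T'.obj₁, u = 0) ∧ (∀ u : T.obj₃ ⟶ T'.obj₃, u = 0)) ∨
      ((∀ u : (shiftFunctor D (1 : ℤ)).obj T.obj₁ ⟶ T'.obj₃, u = 0) ∧ (∀ u : T.obj₃ ⟶ T'.obj₁, u = 0))) :
    φ.hom₂ = ψ.hom₂ := by
  let d := φ.hom₂ - ψ.hom₂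
  have hd₁ : T.mor₁ ≫ d = 0 := by
    simp only [d, Preadditive.comp_sub, φ.comm₁, ψ.comm₁, h₁, sub_self]
  have hd₂ : d ≫ T'.mor₂ = 0 := by
    simp only [d, Preadditive.sub_comp, ← φ.comm₂, ← ψ.comm₂, h₃, sub_self]
  suffices d = 0 by exact sub_eq_zero.mp this
  obtain ⟨y, hy⟩ := Triangle.coyoneda_exact₂ T' hT' d hd₂
  obtain ⟨z, hz⟩ := Triangle.yoneda_exact₂ T hT d hd₁
  rcases hc with h | h | ⟨ha, hb⟩ | ⟨ha, hb⟩ | ⟨ha, hb⟩
  · rw [hy, h y, zero_comp]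
  · rw [hz, h z, comp_zero]
  · -- y : T.obj₂ ⟶ T'.obj₁, vanishes on obj₁
    obtain ⟨y', hy'⟩ := Triangle.yoneda_exact₂ T hT y (ha _)
    rw [hy, hy', hb y', comp_zero, zero_comp]
  · obtain ⟨z', hz'⟩ := Triangle.coyoneda_exact₂ T' hT' z (hb _)
    rw [hz, hz', ha z', zero_comp, comp_zero]
  · -- z ≫ T'.mor₂ : T.obj₃ ⟶ T'.obj₃ vanishes after precomposing mor₂
    have h0 : T.mor₂ ≫ (z ≫ T'.mor₂) = 0 := by rw [← Category.assoc, ← hz, hd₂]
    obtain ⟨w, hw⟩ := Triangle.yoneda_exact₃ T hT _ h0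
    rw [ha w, comp_zero] at hw
    obtain ⟨z', hz'⟩ := Triangle.coyoneda_exact₂ T' hT' z hw
    rw [hz, hz', hb z', zero_comp, comp_zero]


end Groth.Agent.S1043
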