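import Groth.Statements.S1079
import Mathlib.CategoryTheory.Triangulated.Pretriangulated
import Mathlib.CategoryTheory.Idempotents.Basic

set_option autoImplicit false
universe v u
open CategoryTheory CategoryTheory.Limits
open CohDer

namespace Groth.Agent.S1079

open CategoryTheory.Limits CategoryTheory.Pretriangulated

/-- the common abstract argument -/
theorem split_of_data {D : Type u} [Category.{v} D] [Preadditive D] [Limits.HasZeroObject D] [HasShift D ℤ]
    [∀ n : ℤ, (shiftFunctor D n).Additive] [Pretriangulated D] {X Y : D} (e : X ⟶ X)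
    (i₀ : X ⟶ Y) (p₀ : Y ⟶ X) (f g : Y ⟶ Y) (h1 : i₀ ≫ p₀ = 𝟙 X) (h2 : g ≫ f = 𝟙 Y)
    (h3 : f ≫ g = 𝟙 Y - p₀ ≫ e ≫ i₀) : ∃ (C : D) (i : C ⟶ X) (p : X ⟶ C), i ≫ p = 𝟙 C ∧ p ≫ i = e := by
  obtain ⟨C, q, c, hT⟩ := distinguished_cocone_triangle g
  have hgr : g ≫ (p₀ ≫ e ≫ i₀) = 0 := by
    have : p₀ ≫ e ≫ i₀ = 𝟙 Y - f ≫ g := by rw [h3]; abel
    rw [this, Preadditive.comp_sub, Category.comp_id, ← Category.assoc, h2, Category.id_comp, sub_self]
  obtain ⟨s, hs⟩ : ∃ s : C ⟶ Y, p₀ ≫ e ≫ i₀ = q ≫ s := Triangle.yoneda_exact₂ _ hT _ hgr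
  have hgq : g ≫ q = 0 := comp_distTriang_mor_zero₁₂ _ hT
  have hmono : Mono g := ⟨fun a b hab => by
    have := congrArg (fun t => t ≫ f) hab
    simpa only [Category.assoc, h2, Category.comp_id] using this⟩
  have hc0 : c = 0 := (Triangle.mor₃_eq_zero_iff_mono₁ _ hT).mpr hmono
  have hepi : Epi q := (Triangle.mor₃_eq_zero_iff_epi₂ _ hT).mp hc0
  have hsq : s ≫ q = 𝟙 C := by
    rw [← cancel_epi q, ← Category.assoc, ← hs, Category.comp_id]
    have : p₀ ≫ e ≫ i₀ = 𝟙 Y - f ≫ g := by rw [h3]; abel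
    rw [this, Preadditive.sub_comp, Category.id_comp, Category.assoc, hgq, comp_zero, sub_zero]
  refine ⟨C, s ≫ p₀, i₀ ≫ q, ?_, ?_⟩
  · have e1 : s = (s ≫ p₀) ≫ e ≫ i₀ := by
      rw [Category.assoc, hs, ← Category.assoc, hsq, Category.id_comp]
    have e2 : (s ≫ p₀) ≫ i₀ = s := by
      have : (s ≫ p₀) = (s ≫ p₀) ≫ e := by
        have h5 := congrArg (fun t => t ≫ p₀) e1
        simpa only [Category.assoc, h1, Category.comp_id] using h5
      rw [this, Category.assoc, ← e1]
    rw [← Category.assoc, e2, hsq]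
  · have : (i₀ ≫ q) ≫ s ≫ p₀ = i₀ ≫ (q ≫ s) ≫ p₀ := by simp only [Category.assoc]
    rw [this, ← hs]
    simp only [Category.assoc, h1, Category.comp_id]
    rw [← Category.assoc, h1, Category.id_comp]


/-- A pretriangulated category which has countable coproducts, or countable products, is Karoubian
(idempotent complete). -/
theorem result {D : Type u} [Category.{v} D] [Preadditive D] [Limits.HasZeroObject D] [HasShift D ℤ]
    [∀ n : ℤ, (shiftFunctor D n).Additive] [Pretriangulated D]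
    (h : HasColimitsOfShape (Discrete ℕ) D ∨ HasLimitsOfShape (Discrete ℕ) D) : IsIdempotentComplete D := by
  suffices H : ∀ (X : D) (e : X ⟶ X), e ≫ e = e → ∃ (C : D) (i : C ⟶ X) (p : X ⟶ C),
      i ≫ p = 𝟙 C ∧ p ≫ i = e by
    refine ⟨fun X e he => ?_⟩
    obtain ⟨C, i, p, h1, h2⟩ := H X e he
    exact ⟨C, i, p, h1, h2⟩
  intro X e he
  rcases h with hco | hli
  · let Y := ∐ (fun _ : ℕ => X)
    let ι : ℕ → (X ⟶ Y) := fun n => Sigma.ι (fun _ : ℕ => X) n
    let f : Y ⟶ Y := Sigma.desc (fun n => Nat.casesOn n ((𝟙 X - e) ≫ ι 0)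
      (fun m => (𝟙 X - e) ≫ ι (m + 1) + e ≫ ι m))
    let g : Y ⟶ Y := Sigma.desc (fun n => (𝟙 X - e) ≫ ι n + e ≫ ι (n + 1))
    let p₀ : Y ⟶ X := Sigma.desc (fun n => Nat.casesOn n (𝟙 X) (fun _ => 0))
    have hf0 : ι 0 ≫ f = (𝟙 X - e) ≫ ι 0 := by simp [ι, f]
    have hfs : ∀ m, ι (m + 1) ≫ f = (𝟙 X - e) ≫ ι (m + 1) + e ≫ ι m := by intro m; simp [ι, f]
    have hg : ∀ m, ι m ≫ g = (𝟙 X - e) ≫ ι m + e ≫ ι (m + 1) := by intro m; simp [ι, g]
    have hp0 : ι 0 ≫ p₀ = 𝟙 X := by simp [ι, p₀]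
    have hps : ∀ m, ι (m + 1) ≫ p₀ = 0 := by intro m; simp [ι, p₀]
    have k1 : (𝟙 X - e) ≫ (𝟙 X - e) = 𝟙 X - e := by simp [Preadditive.comp_sub, Preadditive.sub_comp, he]
    have k2 : e ≫ (𝟙 X - e) = 0 := by simp [Preadditive.comp_sub, he]
    have k3 : (𝟙 X - e) ≫ e = 0 := by simp [Preadditive.sub_comp, he]
    refine split_of_data e (ι 0) p₀ f g hp0 ?_ ?_
    · apply Sigma.hom_ext
      intro n
      show ι n ≫ g ≫ f = ι n ≫ 𝟙 Y
      rw [← Category.assoc, hg, Preadditive.add_comp, Category.assoc, Category.assoc, hfs]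
      cases n with
      | zero =>
        rw [hf0]
        simp only [Preadditive.comp_add, ← Category.assoc, k1, k2, he, zero_comp, Category.comp_id]
        simp [Preadditive.sub_comp]
      | succ m =>
        rw [hfs]
        simp only [Preadditive.comp_add, ← Category.assoc, k1, k2, k3, he, zero_comp, Category.comp_id]
        simp [Preadditive.sub_comp]
    · apply Sigma.hom_ext
      intro n
      show ι n ≫ f ≫ g = ι n ≫ (𝟙 Y - p₀ ≫ e ≫ ι 0)
      rw [Preadditive.comp_sub, Category.comp_id, ← Category.assoc]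
      cases n with
      | zero =>
        rw [hf0, Category.assoc, hg, ← Category.assoc (ι 0) p₀, hp0]
        simp only [Preadditive.comp_add, ← Category.assoc, k1, k2, k3, he, zero_comp]
        simp [Preadditive.sub_comp]
      | succ m =>
        rw [hfs, Preadditive.add_comp, Category.assoc, Category.assoc, hg, hg,
          ← Category.assoc (ι (m + 1)) p₀, hps]
        simp only [Preadditive.comp_add, ← Category.assoc, k1, k2, k3, he, zero_comp]
        simp [Preadditive.sub_comp]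
  · let Y := ∏ᶜ (fun _ : ℕ => X)
    let π : ℕ → (Y ⟶ X) := fun n => Pi.π (fun _ : ℕ => X) n
    let g : Y ⟶ Y := Pi.lift (fun n => Nat.casesOn n (π 0 ≫ (𝟙 X - e))
      (fun m => π (m + 1) ≫ (𝟙 X - e) + π m ≫ e))
    let f : Y ⟶ Y := Pi.lift (fun n => π n ≫ (𝟙 X - e) + π (n + 1) ≫ e)
    let i₀ : X ⟶ Y := Pi.lift (fun n => Nat.casesOn n (𝟙 X) (fun _ => 0))
    have hg0 : g ≫ π 0 = π 0 ≫ (𝟙 X - e) := by simp [π, g]
    have hgs : ∀ m, g ≫ π (m + 1) = π (m + 1) ≫ (𝟙 X - e) + π m ≫ e := by intro m; simp [π, g]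
    have hf : ∀ m, f ≫ π m = π m ≫ (𝟙 X - e) + π (m + 1) ≫ e := by intro m; simp [π, f]
    have hi0 : i₀ ≫ π 0 = 𝟙 X := by simp [π, i₀]
    have his : ∀ m, i₀ ≫ π (m + 1) = 0 := by intro m; simp [π, i₀]
    have k1 : (𝟙 X - e) ≫ (𝟙 X - e) = 𝟙 X - e := by simp [Preadditive.comp_sub, Preadditive.sub_comp, he]
    have k2 : e ≫ (𝟙 X - e) = 0 := by simp [Preadditive.comp_sub, he]
    have k3 : (𝟙 X - e) ≫ e = 0 := by simp [Preadditive.sub_comp, he]
    refine split_of_data e i₀ (π 0) f g hi0 ?_ ?_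
    · apply Pi.hom_ext
      intro n
      show (g ≫ f) ≫ π n = 𝟙 Y ≫ π n
      rw [Category.assoc, hf, Preadditive.comp_add, ← Category.assoc, ← Category.assoc, hgs]
      cases n with
      | zero =>
        rw [hg0]
        simp only [Preadditive.add_comp, Category.assoc, k1, k2, k3, he, comp_zero, Category.id_comp]
        simp [Preadditive.comp_sub]
      | succ m =>
        rw [hgs]
        simp only [Preadditive.add_comp, Category.assoc, k1, k2, k3, he, comp_zero, Category.id_comp]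
        simp [Preadditive.comp_sub]
    · apply Pi.hom_ext
      intro n
      show (f ≫ g) ≫ π n = (𝟙 Y - π 0 ≫ e ≫ i₀) ≫ π n
      rw [Preadditive.sub_comp, Category.id_comp, Category.assoc, Category.assoc, Category.assoc]
      cases n with
      | zero =>
        rw [hg0, ← Category.assoc, hf, hi0]
        simp only [Preadditive.add_comp, Category.assoc, k1, k2, k3, he, comp_zero, Category.comp_id]
        simp [Preadditive.comp_sub]
      | succ m =>
        rw [hgs, Preadditive.comp_add, ← Category.assoc, ← Category.assoc, hf, hf, his]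
        simp only [Preadditive.add_comp, Category.assoc, k1, k2, k3, he, comp_zero]
        simp [Preadditive.comp_sub]


end Groth.Agent.S1079
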