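import Groth.Statements.S1153
import Groth.Agent.Lib.Helper2_Proper
import Mathlib.AlgebraicGeometry.Morphisms.FlatDescent

set_option autoImplicit false
open CategoryTheory CategoryTheory.Limits AlgebraicGeometry Opposite
universe u
open Desc

namespace Groth.Agent.S1153

open CategoryTheory CategoryTheory.Limits AlgebraicGeometry

lemma isSeparated_iff_uc {X Y : Scheme.{u}} (f : X ⟶ Y) :
    IsSeparated f ↔ UniversallyClosed (pullback.diagonal f) := by
  refine ⟨fun _ => inferInstance, fun h => ?_⟩
  exact H2.isSeparated_of_isClosed_range f (pullback.diagonal f).isClosedMap.isClosed_range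

lemma isProper_of_isPullback {X Y X' Y' : Scheme.{u}} {g' : X' ⟶ X} {f' : X' ⟶ Y'} {f : X ⟶ Y} {g : Y' ⟶ Y}
    (sq : IsPullback g' f' f g) [LocallyOfFiniteType f] [QuasiCompact g] [Flat g] [Surjective g]
    [IsProper f'] : IsProper f := by
  have h1 : UniversallyClosed f := MorphismProperty.of_isPullback_of_descendsAlong
    (Q := @Surjective ⊓ @Flat ⊓ @QuasiCompact) (P := @UniversallyClosed) sq.flip
    ⟨⟨‹_›, ‹_›⟩, ‹_›⟩ inferInstance
  have h2 : IsSeparated f := by
    rw [isSeparated_iff_uc]
    exact MorphismProperty.of_isPullback_of_descendsAlong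
      (Q := @Surjective ⊓ @Flat ⊓ @QuasiCompact) (P := MorphismProperty.diagonal @UniversallyClosed) sq.flip
      ⟨⟨‹_›, ‹_›⟩, ‹_›⟩ ((isSeparated_iff_uc f').mp inferInstance)
  exact { }


/-- Let f : X ⟶ Y be locally of finite type, Z a closed subset of X and g : Y' ⟶ Y quasi-compact, flat
and surjective. If the preimage of Z in X ×_Y Y' is proper over Y', then Z is proper over Y. -/
theorem result {X Y Y' : Scheme.{u}} (f : X ⟶ Y) [LocallyOfFiniteType f] (Z : Set X) (hZ : IsClosed Z)
    (g : Y' ⟶ Y) [QuasiCompact g] [Flat g] [Surjective g]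
    (h : ClSub.IsProperOver (pullback.snd f g) ((pullback.fst f g).base ⁻¹' Z)) :
    ClSub.IsProperOver f Z := by
  obtain ⟨T, i, hi, hr, hp⟩ : ∃ (T : Scheme.{u}) (i : T ⟶ X), IsClosedImmersion i ∧ Set.range i = Z ∧
      True := ⟨_, (Scheme.IdealSheafData.vanishingIdeal ⟨Z, hZ⟩).subschemeι, inferInstance, by
        rw [Scheme.IdealSheafData.range_subschemeι, Scheme.IdealSheafData.coe_support_vanishingIdeal]
        rfl, trivial⟩
  rw [H2.isProperOver_iff f i hr]
  have hr' : Set.range (pullback.fst (pullback.fst f g) i) = (pullback.fst f g).base ⁻¹' Z := by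
    rw [Scheme.Pullback.range_fst, hr]
  rw [H2.isProperOver_iff (pullback.snd f g) (pullback.fst (pullback.fst f g) i) hr'] at h
  exact isProper_of_isPullback ((IsPullback.of_hasPullback (pullback.fst f g) i).flip.paste_vert (IsPullback.of_hasPullback f g))


end Groth.Agent.S1153
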