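import Groth.Statements.S12078
import Mathlib
-- import your own Groth.Agent.* helpers here

set_option autoImplicit false
universe u
open CAlg

namespace Groth.Agent.S12078

/-- An elementary divisor domain is Bézout. Here `R` is a domain such that for all `n, m ≥ 1` and every
`n × m` matrix `A` there are invertible matrices `U` (`n × n`) and `V` (`m × m`) with `U * A * V`
zero off the diagonal and with diagonal entries `f 0 ∣ f 1 ∣ f 2 ∣ …`; the conclusion is that every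
finitely generated ideal of `R` is principal. -/
theorem result (R : Type u) [CommRing R] [IsDomain R]
    (hR : ∀ n m : ℕ, 1 ≤ n → 1 ≤ m → ∀ A : Matrix (Fin n) (Fin m) R,
      ∃ (U : (Matrix (Fin n) (Fin n) R)ˣ) (V : (Matrix (Fin m) (Fin m) R)ˣ) (f : ℕ → R),
        (∀ k : ℕ, f k ∣ f (k + 1)) ∧
        ∀ (i : Fin n) (j : Fin m), ((U : Matrix (Fin n) (Fin n) R) * A * (V : Matrix (Fin m) (Fin m) R)) i j =
          if (i : ℕ) = (j : ℕ) then f i else 0) :
    IsBezout R := by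
  rw [IsBezout.iff_span_pair_isPrincipal]
  intro a b
  obtain ⟨U, V, f, -, hf⟩ := hR 1 2 le_rfl (by norm_num) (Matrix.of ![![a, b]])
  have h0 := hf 0 0
  have h1 := hf 0 1
  set A : Matrix (Fin 1) (Fin 2) R := Matrix.of ![![a, b]] with hA
  have hUV : A = (↑(U⁻¹) : Matrix (Fin 1) (Fin 1) R) * ((U : Matrix (Fin 1) (Fin 1) R) * A * (V : Matrix (Fin 2) (Fin 2) R)) * (↑(V⁻¹) : Matrix (Fin 2) (Fin 2) R) := by
    have e1 : (↑(U⁻¹) : Matrix (Fin 1) (Fin 1) R) * (U : Matrix (Fin 1) (Fin 1) R) = 1 := Units.inv_mul U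
    have e2 : (V : Matrix (Fin 2) (Fin 2) R) * (↑(V⁻¹) : Matrix (Fin 2) (Fin 2) R) = 1 := Units.mul_inv V
    calc A = (1 : Matrix (Fin 1) (Fin 1) R) * A * (1 : Matrix (Fin 2) (Fin 2) R) := by rw [Matrix.one_mul, Matrix.mul_one]
      _ = _ := by rw [← e1, ← e2]; simp only [Matrix.mul_assoc]
  refine ⟨⟨f 0, le_antisymm ?_ ?_⟩⟩
  · rw [Ideal.span_le]
    have hrow : ∀ j, A 0 j = f 0 * ((↑(U⁻¹) : Matrix (Fin 1) (Fin 1) R) 0 0 * (↑(V⁻¹) : Matrix (Fin 2) (Fin 2) R) 0 j) := by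
      intro j
      conv_lhs => rw [hUV]
      rw [Matrix.mul_apply, Fin.sum_univ_two, Matrix.mul_apply, Matrix.mul_apply, Fin.sum_univ_one, Fin.sum_univ_one, h0, h1]
      simp
      ring
    rintro x (rfl | rfl)
    · exact Ideal.mem_span_singleton'.2 ⟨_, by rw [mul_comm]; exact (hrow 0).symm⟩
    · exact Ideal.mem_span_singleton'.2 ⟨_, by rw [mul_comm]; exact (hrow 1).symm⟩
  · rw [Submodule.span_le]
    rintro x (rfl : x = f 0)
    have : f 0 = (U : Matrix (Fin 1) (Fin 1) R) 0 0 * (V : Matrix (Fin 2) (Fin 2) R) 0 0 * a + (U : Matrix (Fin 1) (Fin 1) R) 0 0 * (V : Matrix (Fin 2) (Fin 2) R) 1 0 * b := by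
      have h0' : (if ((0 : Fin 1) : ℕ) = ((0 : Fin 2) : ℕ) then f ((0 : Fin 1) : ℕ) else 0) = f 0 := by simp
      rw [← h0', ← h0, Matrix.mul_apply, Fin.sum_univ_two, Matrix.mul_apply, Matrix.mul_apply, Fin.sum_univ_one, Fin.sum_univ_one]
      simp [hA]
      ring
    rw [this]
    exact Submodule.add_mem _ (Ideal.mul_mem_left _ _ (Ideal.subset_span (by simp))) (Ideal.mul_mem_left _ _ (Ideal.subset_span (by simp)))
end Groth.Agent.S12078
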