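import Groth.Statements.S12079
import Mathlib
-- import your own Groth.Agent.* helpers here

set_option autoImplicit false
universe u
open TensorProduct
open CAlg

namespace Groth.Agent.S12079

def pr {R : Type*} [CommRing R] {P P' : Type*} (N : Type*) [AddCommGroup P] [Module R P] [AddCommGroup P'] [Module R P']
    [AddCommGroup N] [Module R N] (h : P →ₗ[R] P') : (P' →ₗ[R] N) →ₗ[R] (P →ₗ[R] N) where
  toFun φ := φ ∘ₗ h
  map_add' _ _ := LinearMap.add_comp _ _ _
  map_smul' _ _ := LinearMap.smul_comp _ _ _

theorem pr_nat {R : Type*} [CommRing R] {P P' : Type*} (N L : Type*) [AddCommGroup P] [Module R P] [AddCommGroup P'] [Module R P']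
    [AddCommGroup N] [Module R N] [AddCommGroup L] [Module R L] (h : P →ₗ[R] P') (x : TensorProduct R (P' →ₗ[R] N) L) :
    TensorProduct.rTensorHomToHomRTensor (RingHom.id R) P N L (LinearMap.rTensor L (pr N h) x) =
      pr (TensorProduct R N L) h (TensorProduct.rTensorHomToHomRTensor (RingHom.id R) P' N L x) := by
  induction x using TensorProduct.induction_on with
  | zero => simp only [map_zero]
  | add a b ha hb => simp only [map_add, ha, hb]
  | tmul φ l =>
    refine LinearMap.ext fun y => ?_
    rfl

/-- For a finitely presented `R`-module `M`, any `R`-module `N` and a flat `R`-module `L`, the canonical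
map `Hom_R(M, N) ⊗_R L → Hom_R(M, N ⊗_R L)` sending `f ⊗ l` to `m ↦ f m ⊗ l` is bijective. -/
theorem result (R : Type u) [CommRing R]
    (M N L : Type u) [AddCommGroup M] [Module R M] [AddCommGroup N] [Module R N] [AddCommGroup L] [Module R L]
    [Module.FinitePresentation R M] [Module.Flat R L] :
    Function.Bijective (TensorProduct.rTensorHomToHomRTensor (RingHom.id R) M N L) := by
  obtain ⟨n, K, e, hK⟩ := Module.FinitePresentation.exists_fin R M
  have : Module.Finite R K := Module.Finite.iff_fg.2 hK
  obtain ⟨m, g', hg'⟩ := Module.Finite.exists_fin' R K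
  let g : (Fin m → R) →ₗ[R] (Fin n → R) := K.subtype ∘ₗ g'
  let p : (Fin n → R) →ₗ[R] M := e.symm.toLinearMap ∘ₗ K.mkQ
  have hp : Function.Surjective p := e.symm.surjective.comp K.mkQ_surjective
  have hpi : ∀ (N' : Type u) [AddCommGroup N'] [Module R N'], Function.Injective (pr N' p) := by
    intro N' _ _ φ ψ h
    refine LinearMap.ext fun x => ?_
    obtain ⟨y, rfl⟩ := hp x
    exact LinearMap.congr_fun h y
  have hex : ∀ (N' : Type u) [AddCommGroup N'] [Module R N'], Function.Exact (pr N' p) (pr N' g) := by
    intro N' _ _ φ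
    constructor
    · intro h
      have hle : K ≤ LinearMap.ker φ := by
        intro x hx
        obtain ⟨y, hy⟩ := hg' ⟨x, hx⟩
        have h1 : φ (K.subtype (g' y)) = 0 := LinearMap.congr_fun h y
        rw [hy] at h1
        exact h1
      refine ⟨K.liftQ φ hle ∘ₗ e.toLinearMap, ?_⟩
      refine LinearMap.ext fun x => ?_
      change K.liftQ φ hle (e (e.symm (K.mkQ x))) = φ x
      rw [LinearEquiv.apply_symm_apply]
      rfl
    · rintro ⟨ψ, rfl⟩
      refine LinearMap.ext fun y => ?_
      change ψ (e.symm (K.mkQ (K.subtype (g' y)))) = 0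
      have : K.mkQ (K.subtype (g' y)) = 0 := (Submodule.Quotient.mk_eq_zero K).2 (g' y).2
      rw [this, map_zero, map_zero]
  have hθF : ∀ m : ℕ, Function.Bijective (TensorProduct.rTensorHomToHomRTensor (RingHom.id R) (Fin m → R) N L) := by
    intro m
    rw [← rTensorHomEquivHomRTensor_toLinearMap]
    exact LinearEquiv.bijective _
  have hpL : Function.Injective (LinearMap.rTensor L (pr N p)) := Module.Flat.rTensor_preserves_injective_linearMap _ (hpi N)
  have hexL : Function.Exact (LinearMap.rTensor L (pr N p)) (LinearMap.rTensor L (pr N g)) := Module.Flat.rTensor_exact L (hex N)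
  constructor
  · rw [injective_iff_map_eq_zero]
    intro x hx
    have h1 := pr_nat N L p x
    rw [hx, map_zero] at h1
    have h2 := (injective_iff_map_eq_zero _).1 (hθF n).1 _ h1
    exact (injective_iff_map_eq_zero _).1 hpL _ h2
  · intro y
    obtain ⟨z, hz⟩ := (hθF n).2 (pr (TensorProduct R N L) p y)
    have h1 := pr_nat N L g z
    rw [hz] at h1
    have h2 : pr (TensorProduct R N L) g (pr (TensorProduct R N L) p y) = 0 := ((hex _) _).2 ⟨y, rfl⟩
    rw [h2] at h1
    have h3 := (injective_iff_map_eq_zero _).1 (hθF m).1 _ h1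
    obtain ⟨x, hx⟩ := (hexL z).1 h3
    refine ⟨x, hpi _ ?_⟩
    rw [← pr_nat, hx, hz]
end Groth.Agent.S12079
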