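import Groth.Statements.S12081
import Mathlib
-- import your own Groth.Agent.* helpers here

set_option autoImplicit false
universe u
open TensorProduct
open EtAlg

namespace Groth.Agent.S12081

/-- Let `B' = B ×_A A'` be a fibre square of rings with `A' → A` surjective with kernel `I`, let `J =
Ker(B' → B)`, let `D'` be a `B'`-algebra and `C' = D' ⊗_{B'} A'`. Then the ideal `I C'` is, as a
subset of `C'`, the image of the ideal `J D'` under `D' → C'`; that is, the map `J D' → I C'` is
surjective. -/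
theorem result (B' B A' A : Type u) [CommRing B'] [CommRing B] [CommRing A'] [CommRing A]
    [Algebra B' B] [Algebra B' A'] [Algebra B A] [Algebra A' A] [Algebra B' A] [IsScalarTower B' B A] [IsScalarTower B' A' A]
    (hsq : EtMil.IsFibreSquare B' B A' A)
    (D' C' : Type u) [CommRing D'] [CommRing C'] [Algebra B' D'] [Algebra A' C']
    [Algebra D' C'] [Algebra B' C'] [IsScalarTower B' A' C'] [IsScalarTower B' D' C'] [Algebra.IsPushout B' A' D' C'] :
    (algebraMap D' C') '' ((RingHom.ker (algebraMap B' B)).map (algebraMap B' D') : Set D') =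
      ((RingHom.ker (algebraMap A' A)).map (algebraMap A' C') : Set C') := by
  obtain ⟨hsurj, hfib⟩ := hsq
  have hI : ∀ a' ∈ RingHom.ker (algebraMap A' A), ∃ b' ∈ RingHom.ker (algebraMap B' B), algebraMap B' A' b' = a' := by
    intro a' ha'
    obtain ⟨b', ⟨h1, h2⟩, -⟩ := hfib 0 a' (by rw [map_zero]; exact (RingHom.mem_ker.1 ha').symm)
    exact ⟨b', h1, h2⟩
  have hcomm : ∀ b' : B', algebraMap D' C' (algebraMap B' D' b') = algebraMap A' C' (algebraMap B' A' b') := by
    intro b'
    rw [← IsScalarTower.algebraMap_apply, ← IsScalarTower.algebraMap_apply]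
  have hkerle : ∀ b' ∈ RingHom.ker (algebraMap B' B), algebraMap B' A' b' ∈ RingHom.ker (algebraMap A' A) := by
    intro b hb
    rw [RingHom.mem_ker, ← IsScalarTower.algebraMap_apply, IsScalarTower.algebraMap_apply B' B A, RingHom.mem_ker.1 hb, map_zero]
  have lemA : ∀ (a' : A') (x : D'), x ∈ (RingHom.ker (algebraMap B' B)).map (algebraMap B' D') →
      ∃ y ∈ (RingHom.ker (algebraMap B' B)).map (algebraMap B' D'),
        algebraMap D' C' y = algebraMap A' C' a' * algebraMap D' C' x := by
    intro a' x hx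
    refine Submodule.span_induction (p := fun x _ => ∃ y ∈ (RingHom.ker (algebraMap B' B)).map (algebraMap B' D'),
        algebraMap D' C' y = algebraMap A' C' a' * algebraMap D' C' x) ?_ ?_ ?_ ?_ hx
    · rintro _ ⟨b, hb, rfl⟩
      obtain ⟨b', hb', hb''⟩ := hI (a' * algebraMap B' A' b) (Ideal.mul_mem_left _ _ (hkerle b hb))
      exact ⟨algebraMap B' D' b', Ideal.mem_map_of_mem _ hb', by rw [hcomm, hb'', map_mul, hcomm]⟩
    · exact ⟨0, Submodule.zero_mem _, by simp⟩
    · rintro _ _ _ _ ⟨u, hu, hu'⟩ ⟨v, hv, hv'⟩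
      exact ⟨u + v, Submodule.add_mem _ hu hv, by rw [map_add, hu', hv', map_add, mul_add]⟩
    · rintro d _ _ ⟨u, hu, hu'⟩
      exact ⟨d * u, Ideal.mul_mem_left _ _ hu, by rw [map_mul, hu', smul_eq_mul, map_mul]; ring⟩
  have hbc := (inferInstance : Algebra.IsPushout B' A' D' C').out
  have lemB : ∀ (c : C') (x : D'), x ∈ (RingHom.ker (algebraMap B' B)).map (algebraMap B' D') →
      ∃ y ∈ (RingHom.ker (algebraMap B' B)).map (algebraMap B' D'),
        algebraMap D' C' y = c * algebraMap D' C' x := by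
    intro c
    refine hbc.inductionOn c (fun c => ∀ (x : D'), x ∈ (RingHom.ker (algebraMap B' B)).map (algebraMap B' D') →
      ∃ y ∈ (RingHom.ker (algebraMap B' B)).map (algebraMap B' D'),
        algebraMap D' C' y = c * algebraMap D' C' x) ?_ ?_ ?_ ?_
    · intro x hx
      exact ⟨0, Submodule.zero_mem _, by simp⟩
    · intro d x hx
      exact ⟨d * x, Ideal.mul_mem_left _ _ hx, by rw [map_mul]; rfl⟩
    · intro a' c ih x hx
      obtain ⟨y, hy, hy'⟩ := ih x hx
      obtain ⟨z, hz, hz'⟩ := lemA a' y hy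
      exact ⟨z, hz, by rw [hz', hy', Algebra.smul_def]; ring⟩
    · intro c d hc hd x hx
      obtain ⟨y, hy, hy'⟩ := hc x hx
      obtain ⟨z, hz, hz'⟩ := hd x hx
      exact ⟨y + z, Submodule.add_mem _ hy hz, by rw [map_add, hy', hz', add_mul]⟩
  apply Set.Subset.antisymm
  · rintro _ ⟨d, hd, rfl⟩
    have hd' : d ∈ (RingHom.ker (algebraMap B' B)).map (algebraMap B' D') := hd
    have : (RingHom.ker (algebraMap B' B)).map (algebraMap B' D') ≤
        ((RingHom.ker (algebraMap A' A)).map (algebraMap A' C')).comap (algebraMap D' C') := by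
      rw [Ideal.map_le_iff_le_comap]
      intro b hb
      rw [Ideal.mem_comap, Ideal.mem_comap, hcomm]
      exact Ideal.mem_map_of_mem _ (hkerle b hb)
    exact this hd'
  · intro c hc
    have hc' : c ∈ (RingHom.ker (algebraMap A' A)).map (algebraMap A' C') := hc
    refine Submodule.span_induction (p := fun c _ => c ∈ (algebraMap D' C') '' ((RingHom.ker (algebraMap B' B)).map (algebraMap B' D') : Set D')) ?_ ?_ ?_ ?_ hc'
    · rintro _ ⟨a', ha', rfl⟩
      obtain ⟨b', hb', rfl⟩ := hI a' ha'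
      exact ⟨algebraMap B' D' b', Ideal.mem_map_of_mem _ hb', hcomm b'⟩
    · exact ⟨0, Submodule.zero_mem _, map_zero _⟩
    · rintro _ _ _ _ ⟨x, hx, rfl⟩ ⟨y, hy, rfl⟩
      exact ⟨x + y, Submodule.add_mem _ hx hy, map_add _ _ _⟩
    · rintro c _ _ ⟨x, hx, rfl⟩
      rw [smul_eq_mul]
      obtain ⟨y, hy, hy'⟩ := lemB c x hx
      exact ⟨y, hy, hy'⟩
end Groth.Agent.S12081
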