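import Groth.Statements.S12207
import Mathlib
-- import your own Groth.Agent.* helpers here

set_option autoImplicit false
universe u
open CAlg

namespace Groth.Agent.S12207

theorem coh_sub {R : Type u} [CommRing R] {M : Type u} [AddCommGroup M] [Module R M]
    (hM : ∀ P : Submodule R M, P.FG → Module.FinitePresentation R P) (Q : Submodule R M)
    (P : Submodule R Q) (hP : P.FG) : Module.FinitePresentation R P := by
  have h1 := hM (P.map Q.subtype) (hP.map _)
  have e : P ≃ₗ[R] P.map Q.subtype := Submodule.equivMapOfInjective _ Q.injective_subtype P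
  exact Module.FinitePresentation.of_equiv e.symm

theorem coh_quot {R : Type u} [CommRing R] {M : Type u} [AddCommGroup M] [Module R M]
    (hM : ∀ P : Submodule R M, P.FG → Module.FinitePresentation R P) (Q : Submodule R M) (hQ : Q.FG)
    (P : Submodule R (M ⧸ Q)) (hP : P.FG) : Module.FinitePresentation R P := by
  set P' := P.comap Q.mkQ with hP'
  have hmap : P'.map Q.mkQ = P := Submodule.map_comap_eq_of_surjective (Submodule.mkQ_surjective Q) P
  have hle : Q ≤ P' := by
    intro x hx
    rw [hP', Submodule.mem_comap]
    have : Q.mkQ x = 0 := (Submodule.Quotient.mk_eq_zero _).2 hx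
    rw [this]
    exact zero_mem _
  have hfg : P'.FG := by
    apply Submodule.fg_of_fg_map_of_fg_inf_ker Q.mkQ
    · rw [hmap]; exact hP
    · rw [Submodule.ker_mkQ, inf_eq_right.2 hle]
      exact hQ
  have := hM P' hfg
  let g : P' →ₗ[R] P := (Q.mkQ.restrict (p := P') (q := P) (fun x hx => hx))
  have hg : Function.Surjective g := by
    rintro ⟨y, hy⟩
    obtain ⟨x, rfl⟩ := Submodule.mkQ_surjective Q y
    exact ⟨⟨x, hy⟩, rfl⟩
  refine Module.finitePresentation_of_surjective g hg ?_
  have hker : (LinearMap.ker g).map P'.subtype = Q := by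
    ext x
    constructor
    · rintro ⟨⟨y, hy⟩, hy2, rfl⟩
      have : Q.mkQ y = 0 := congrArg Subtype.val hy2
      exact (Submodule.Quotient.mk_eq_zero _).1 this
    · intro hx
      exact ⟨⟨x, hle hx⟩, Subtype.ext ((Submodule.Quotient.mk_eq_zero _).2 hx), rfl⟩
  apply Submodule.fg_of_fg_map_injective P'.subtype P'.injective_subtype
  rw [hker]
  exact hQ

/-- Let φ : N → M be a linear map between coherent R-modules (finitely generated, every finitely
generated submodule finitely presented). Then the kernel of φ and the cokernel M/φ(N) are coherent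
R-modules. -/
theorem result (R : Type u) [CommRing R] {N M : Type u}
    [AddCommGroup N] [Module R N] [AddCommGroup M] [Module R M]
    (hN : Module.Finite R N ∧ ∀ P : Submodule R N, P.FG → Module.FinitePresentation R P)
    (hM : Module.Finite R M ∧ ∀ P : Submodule R M, P.FG → Module.FinitePresentation R P)
    (φ : N →ₗ[R] M) :
    (Module.Finite R (LinearMap.ker φ) ∧
      ∀ P : Submodule R (LinearMap.ker φ), P.FG → Module.FinitePresentation R P) ∧
    (Module.Finite R (M ⧸ LinearMap.range φ) ∧
      ∀ P : Submodule R (M ⧸ LinearMap.range φ), P.FG → Module.FinitePresentation R P) := by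
  have := hM.1
  have := hN.1
  have hfgr : (LinearMap.range φ).FG := by rw [← Submodule.map_top]; exact Submodule.FG.map _ Module.Finite.fg_top
  have hfp := hM.2 _ hfgr
  have hker : (LinearMap.ker φ).FG := by
    have := Module.FinitePresentation.fg_ker (φ.rangeRestrict) φ.surjective_rangeRestrict
    rwa [LinearMap.ker_rangeRestrict] at this
  exact ⟨⟨Module.Finite.iff_fg.2 hker, fun P hP => coh_sub hN.2 _ P hP⟩, ⟨inferInstance, fun P hP => coh_quot hM.2 _ hfgr P hP⟩⟩
end Groth.Agent.S12207
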