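import Groth.Statements.S12209
import Mathlib
-- import your own Groth.Agent.* helpers here

set_option autoImplicit false
universe u
open CAlg

namespace Groth.Agent.S12209

/-- Let (R_i) be a system of commutative rings over a nonempty directed preorder, with colimit R, and
let M be an R-module which is flat as an R_i-module for every i (the R_i-module structure being
restriction of scalars along R_i → R). Then M is flat as an R-module. -/
theorem result {ι : Type u} [Preorder ι] [Nonempty ι] [IsDirectedOrder ι]
    (G : ι → Type u) [∀ i, CommRing (G i)] (f : ∀ i j, i ≤ j → G i →+* G j)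
    [DirectedSystem G fun i j h => f i j h]
    (M : Type u) [AddCommGroup M] [Module (Ring.DirectLimit G fun i j h => f i j h) M]
    (hflat : ∀ i, letI : Module (G i) M := Module.compHom M (Ring.DirectLimit.of G (fun i j h => f i j h) i);
      Module.Flat (G i) M) :
    Module.Flat (Ring.DirectLimit G fun i j h => f i j h) M := by
  rw [Module.Flat.iff_forall_isTrivialRelation]
  classical
  intro l r x hr
  -- lift the scalars to a common stage
  have hlift : ∃ (i : ι) (g : Fin l → G i), ∀ t, Ring.DirectLimit.of G (fun i j h => f i j h) i (g t) = r t := by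
    have h1 : ∀ t, ∃ i, ∃ g : G i, Ring.DirectLimit.of G (fun i j h => f i j h) i g = r t := fun t =>
      Ring.DirectLimit.exists_of (r t)
    choose i g hg using h1
    obtain ⟨k, hk⟩ := Finset.exists_le (Finset.univ.image i)
    refine ⟨k, fun t => f (i t) k (hk _ (Finset.mem_image_of_mem _ (Finset.mem_univ t))) (g t), fun t => ?_⟩
    rw [← hg t]
    exact Ring.DirectLimit.of_f _ _
  obtain ⟨i, g, hg⟩ := hlift
  let inst : Module (G i) M := Module.compHom M (Ring.DirectLimit.of G (fun i j h => f i j h) i)
  have hfl : Module.Flat (G i) M := hflat i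
  rw [Module.Flat.iff_forall_isTrivialRelation] at hfl
  have hsm : ∀ (a : G i) (m : M), a • m = (Ring.DirectLimit.of G (fun i j h => f i j h) i a) • m := fun a m => rfl
  have h2 : ∑ t, g t • x t = 0 := by
    rw [← hr]
    exact Finset.sum_congr rfl fun t _ => by rw [hsm, hg]
  obtain ⟨k, a, y, hy, ha⟩ := hfl h2
  refine ⟨k, fun t s => Ring.DirectLimit.of G (fun i j h => f i j h) i (a t s), y, fun t => ?_, fun s => ?_⟩
  · rw [hy t]
    rfl
  · have := congrArg (Ring.DirectLimit.of G (fun i j h => f i j h) i) (ha s)
    rw [map_sum, map_zero] at this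
    rw [← this]
    exact Finset.sum_congr rfl fun t _ => by rw [map_mul, hg]
end Groth.Agent.S12209
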