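import Groth.Statements.S12227
import Mathlib
-- import your own Groth.Agent.* helpers here

set_option autoImplicit false
universe w v u
open CategoryTheory CategoryTheory.Limits
open CohDer

namespace Groth.Agent.S12227

/-- Full faithfulness of K⁻(A)[Qis⁻¹] → D⁻(A), written in terms of roofs. Let A be an abelian category
and K, L complexes which are zero above some degree, viewed in the homotopy category. Then every
morphism Qh(K) → Qh(L) in the derived category is Qh(s)⁻¹ ≫ Qh(f) for some quasi-isomorphism s : K'
→ K and map f : K' → L of K(A) with K' again zero above some degree; and two maps f₁, f₂ : K → L of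
K(A) become equal in D(A) only if s ≫ f₁ = s ≫ f₂ for some quasi-isomorphism s : K' → K with K' zero
above some degree. (That the kernel of K⁻(A) → D(A) consists of the acyclic complexes and that the
essential image is D⁻(A) are separate statements.) -/
theorem result {A : Type u} [Category.{v} A] [Abelian A] [HasDerivedCategory.{w} A]
    (K L : HomotopyCategory A (ComplexShape.up ℤ)) (a b : ℤ) [CochainComplex.IsStrictlyLE K.as a] [CochainComplex.IsStrictlyLE L.as b] :
    (∀ φ : DerivedCategory.Qh.obj K ⟶ DerivedCategory.Qh.obj L,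
      ∃ (K' : HomotopyCategory A (ComplexShape.up ℤ)) (n : ℤ) (_ : CochainComplex.IsStrictlyLE K'.as n) (s : K' ⟶ K) (f : K' ⟶ L),
        HomotopyCategory.quasiIso A (ComplexShape.up ℤ) s ∧ DerivedCategory.Qh.map s ≫ φ = DerivedCategory.Qh.map f) ∧
    (∀ f₁ f₂ : K ⟶ L, DerivedCategory.Qh.map f₁ = DerivedCategory.Qh.map f₂ →
      ∃ (K' : HomotopyCategory A (ComplexShape.up ℤ)) (n : ℤ) (_ : CochainComplex.IsStrictlyLE K'.as n) (s : K' ⟶ K),
        HomotopyCategory.quasiIso A (ComplexShape.up ℤ) s ∧ s ≫ f₁ = s ≫ f₂) := by
  obtain ⟨K, rfl⟩ := HomotopyCategory.quotient_obj_surjective K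
  obtain ⟨L, rfl⟩ := HomotopyCategory.quotient_obj_surjective L
  rename_i hK hL
  have hK' : CochainComplex.IsStrictlyLE K a := hK
  constructor
  · intro φ
    obtain ⟨X', hX', s, hs, g, h⟩ := DerivedCategory.right_fac_of_isStrictlyLE (X := K) (Y := L) φ a
    refine ⟨(HomotopyCategory.quotient _ _).obj X', a, hX', (HomotopyCategory.quotient _ _).map s, (HomotopyCategory.quotient _ _).map g, ?_, ?_⟩
    · exact (DerivedCategory.isIso_Qh_map_iff _).1 hs
    · change DerivedCategory.Q.map s ≫ φ = DerivedCategory.Q.map g
      rw [h]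
      exact IsIso.hom_inv_id_assoc (DerivedCategory.Q.map s) (DerivedCategory.Q.map g)
  · intro f₁ f₂ hf
    obtain ⟨Z, s, hs, h⟩ := (MorphismProperty.map_eq_iff_precomp DerivedCategory.Qh (HomotopyCategory.quasiIso A (ComplexShape.up ℤ)) f₁ f₂).1 hf
    obtain ⟨Z, rfl⟩ := HomotopyCategory.quotient_obj_surjective Z
    obtain ⟨s, rfl⟩ := (HomotopyCategory.quotient _ _).map_surjective s
    have hs2 : IsIso (DerivedCategory.Q.map s) := (DerivedCategory.isIso_Qh_map_iff _).2 hs
    have : IsIso (DerivedCategory.Q.map (CochainComplex.truncLEMap s a)) := by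
      rw [DerivedCategory.isIso_Q_map_iff_quasiIso, CochainComplex.quasiIso_truncLEMap_iff]
      rw [DerivedCategory.isIso_Q_map_iff_quasiIso] at hs2
      infer_instance
    have hiso : IsIso (DerivedCategory.Q.map (CochainComplex.truncLEMap s a ≫ CochainComplex.ιTruncLE K a)) := by
      rw [Functor.map_comp]
      infer_instance
    refine ⟨(HomotopyCategory.quotient _ _).obj (CochainComplex.truncLE Z a), a, (inferInstance : CochainComplex.IsStrictlyLE (CochainComplex.truncLE Z a) a),
      (HomotopyCategory.quotient _ _).map (CochainComplex.truncLEMap s a ≫ CochainComplex.ιTruncLE K a), ?_, ?_⟩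
    · exact (DerivedCategory.isIso_Qh_map_iff _).1 hiso
    · rw [CochainComplex.ιTruncLE_naturality, Functor.map_comp, Category.assoc, h, Category.assoc]
end Groth.Agent.S12227
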