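import Groth.Statements.S12228
import Mathlib
-- import your own Groth.Agent.* helpers here

set_option autoImplicit false
universe w v u
open CategoryTheory CategoryTheory.Limits
open CohDer

namespace Groth.Agent.S12228

theorem isIso_ιTruncLE_f {A : Type u} [Category.{v} A] [Abelian A] (M : CochainComplex A ℤ) (n j : ℤ) (hj : j < n) :
    IsIso ((M.ιTruncLE n).f j) := by
  have h1 : (ComplexShape.embeddingUpIntLE n).f (n - j).natAbs = j := by
    change n - ((n - j).natAbs : ℤ) = j
    omega
  have h2 : ¬ (ComplexShape.embeddingUpIntLE n).BoundaryLE (n - j).natAbs := by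
    rw [ComplexShape.boundaryLE_embeddingUpIntLE_iff, Int.natAbs_eq_zero]
    omega
  have h3 : IsIso ((HomologicalComplex.πTruncGE M.op (ComplexShape.embeddingUpIntLE n).op).f j) := by
    refine ((ComplexShape.embeddingUpIntLE n).op.isIso_liftExtend_f_iff _ _ h1).2 ?_
    exact HomologicalComplex.isIso_restrictionToTruncGE' _ _ _ (by simpa using h2)
  change IsIso ((HomologicalComplex.πTruncGE M.op (ComplexShape.embeddingUpIntLE n).op).f j).unop
  infer_instance

theorem homotopy_lift {A : Type u} [Category.{v} A] [Abelian A] (K M : CochainComplex A ℤ) (b n : ℤ)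
    [K.IsStrictlyLE b] (hbn : b < n) (g₁ g₂ : K ⟶ M.truncLE n)
    (h : Homotopy (g₁ ≫ CochainComplex.ιTruncLE M n) (g₂ ≫ CochainComplex.ιTruncLE M n)) : Nonempty (Homotopy g₁ g₂) := by
  classical
  have hiso : ∀ j, j < n → IsIso ((M.ιTruncLE n).f j) := fun j hj => isIso_ιTruncLE_f M n j hj
  let H : ∀ i j, K.X i ⟶ (CochainComplex.truncLE M n).X j := fun i j =>
    if hj : j < n then (haveI := hiso j hj; h.hom i j ≫ inv ((M.ιTruncLE n).f j)) else 0
  have hH : ∀ i j, j < n → H i j ≫ (M.ιTruncLE n).f j = h.hom i j := by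
    intro i j hj
    have := hiso j hj
    simp [H, hj]
  refine ⟨{ hom := H, zero := ?_, comm := ?_ }⟩
  · intro i j hij
    by_cases hj : j < n
    · have := hiso j hj
      simp [H, hj, h.zero i j hij]
    · simp [H, hj]
  · intro i
    by_cases hi : b < i
    · exact (K.isZero_of_isStrictlyLE b i hi).eq_of_src _ _
    · have hi' : i < n := by omega
      have := hiso i hi'
      rw [← cancel_mono ((M.ιTruncLE n).f i)]
      have hc := h.comm i
      rw [HomologicalComplex.comp_f, HomologicalComplex.comp_f] at hc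
      rw [hc, Preadditive.add_comp, Preadditive.add_comp]
      congr 2
      · rw [dNext_eq h.hom (show (ComplexShape.up ℤ).Rel i (i + 1) from rfl), dNext_eq H (show (ComplexShape.up ℤ).Rel i (i + 1) from rfl),
          Category.assoc, hH _ _ hi']
      · rw [prevD_eq h.hom (show (ComplexShape.up ℤ).Rel (i - 1) i by simp), prevD_eq H (show (ComplexShape.up ℤ).Rel (i - 1) i by simp),
          Category.assoc, ← HomologicalComplex.Hom.comm, ← Category.assoc, hH _ _ (by omega)]

/-- Full faithfulness of Kᵇ(A)[Qis⁻¹] → Dᵇ(A), written in terms of roofs. Let A be an abelian category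
and K, L bounded complexes (zero outside a finite range of degrees), viewed in the homotopy
category. Then every morphism Qh(K) → Qh(L) in the derived category is Qh(f) ≫ Qh(t)⁻¹ for some map
f : K → L' and quasi-isomorphism t : L → L' of K(A) with L' again bounded; and two maps f₁, f₂ : K →
L of K(A) become equal in D(A) only if f₁ ≫ t = f₂ ≫ t for some quasi-isomorphism t : L → L' with L'
bounded. -/
theorem result {A : Type u} [Category.{v} A] [Abelian A] [HasDerivedCategory.{w} A]
    (K L : HomotopyCategory A (ComplexShape.up ℤ)) (a b a' b' : ℤ) [CochainComplex.IsStrictlyGE K.as a] [CochainComplex.IsStrictlyLE K.as b]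
    [CochainComplex.IsStrictlyGE L.as a'] [CochainComplex.IsStrictlyLE L.as b'] :
    (∀ φ : DerivedCategory.Qh.obj K ⟶ DerivedCategory.Qh.obj L,
      ∃ (L' : HomotopyCategory A (ComplexShape.up ℤ)) (m n : ℤ) (_ : CochainComplex.IsStrictlyGE L'.as m) (_ : CochainComplex.IsStrictlyLE L'.as n) (f : K ⟶ L') (t : L ⟶ L'),
        HomotopyCategory.quasiIso A (ComplexShape.up ℤ) t ∧ φ ≫ DerivedCategory.Qh.map t = DerivedCategory.Qh.map f) ∧
    (∀ f₁ f₂ : K ⟶ L, DerivedCategory.Qh.map f₁ = DerivedCategory.Qh.map f₂ →
      ∃ (L' : HomotopyCategory A (ComplexShape.up ℤ)) (m n : ℤ) (_ : CochainComplex.IsStrictlyGE L'.as m) (_ : CochainComplex.IsStrictlyLE L'.as n) (t : L ⟶ L'),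
        HomotopyCategory.quasiIso A (ComplexShape.up ℤ) t ∧ f₁ ≫ t = f₂ ≫ t) := by
  obtain ⟨K, rfl⟩ := HomotopyCategory.quotient_obj_surjective K
  obtain ⟨L, rfl⟩ := HomotopyCategory.quotient_obj_surjective L
  rename_i hKa hKb hLa hLb
  have hKa' : CochainComplex.IsStrictlyGE K a := hKa
  have hKb' : CochainComplex.IsStrictlyLE K b := hKb
  have hLa' : CochainComplex.IsStrictlyGE L a' := hLa
  have hLb' : CochainComplex.IsStrictlyLE L b' := hLb
  have hK1 : CochainComplex.IsStrictlyLE K (max b b') := CochainComplex.isStrictlyLE_of_le K b _ (le_max_left _ _)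
  have hL1 : CochainComplex.IsStrictlyLE L (max b b') := CochainComplex.isStrictlyLE_of_le L b' _ (le_max_right _ _)
  constructor
  · intro φ
    obtain ⟨Y', h1, h2, g, s, hs, h⟩ := DerivedCategory.left_fac_of_isStrictlyLE_of_isStrictlyGE (X := K) (Y := L) a' (max b b') φ
    refine ⟨(HomotopyCategory.quotient _ _).obj Y', a', max b b', h1, h2, (HomotopyCategory.quotient _ _).map g, (HomotopyCategory.quotient _ _).map s, ?_, ?_⟩
    · exact (DerivedCategory.isIso_Qh_map_iff _).1 hs
    · change φ ≫ DerivedCategory.Q.map s = DerivedCategory.Q.map g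
      rw [h]
      exact (Category.assoc _ _ _).trans ((congrArg _ (@IsIso.inv_hom_id _ _ _ _ _ hs)).trans (Category.comp_id _))
  · intro f₁ f₂ hf
    obtain ⟨Z, t, ht, h⟩ := (MorphismProperty.map_eq_iff_postcomp DerivedCategory.Qh (HomotopyCategory.quasiIso A (ComplexShape.up ℤ)) f₁ f₂).1 hf
    obtain ⟨Z, rfl⟩ := HomotopyCategory.quotient_obj_surjective Z
    obtain ⟨t, rfl⟩ := (HomotopyCategory.quotient _ _).map_surjective t
    obtain ⟨f₁, rfl⟩ := (HomotopyCategory.quotient _ _).map_surjective f₁
    obtain ⟨f₂, rfl⟩ := (HomotopyCategory.quotient _ _).map_surjective f₂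
    have ht2 : IsIso (DerivedCategory.Q.map t) := (DerivedCategory.isIso_Qh_map_iff _).2 ht
    have ht3 : QuasiIso t := by rwa [DerivedCategory.isIso_Q_map_iff_quasiIso] at ht2
    -- truncate below
    have hq1 : QuasiIso (CochainComplex.truncGEMap t a') := by
      rw [CochainComplex.quasiIso_truncGEMap_iff]
      infer_instance
    have hq2 : QuasiIso (t ≫ CochainComplex.πTruncGE Z a') := by
      rw [← CochainComplex.πTruncGE_naturality]
      infer_instance
    set M := CochainComplex.truncGE Z a' with hM
    set t' : L ⟶ M := t ≫ CochainComplex.πTruncGE Z a' with ht'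
    set n := max b b' + 1 with hn
    have hLn : CochainComplex.IsStrictlyLE L n := CochainComplex.isStrictlyLE_of_le L b' _ (by omega)
    have hq3 : QuasiIso (CochainComplex.truncLEMap t' n) := by
      rw [CochainComplex.quasiIso_truncLEMap_iff]
      infer_instance
    let t'' : L ⟶ CochainComplex.truncLE M n := inv (CochainComplex.ιTruncLE L n) ≫ CochainComplex.truncLEMap t' n
    have hq4 : QuasiIso t'' := by
      infer_instance
    have ht'' : t'' ≫ CochainComplex.ιTruncLE M n = t' := by
      rw [Category.assoc, CochainComplex.ιTruncLE_naturality, IsIso.inv_hom_id_assoc]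
    refine ⟨(HomotopyCategory.quotient _ _).obj (CochainComplex.truncLE M n), a', n, (inferInstance : CochainComplex.IsStrictlyGE (CochainComplex.truncLE M n) a'),
      (inferInstance : CochainComplex.IsStrictlyLE (CochainComplex.truncLE M n) n), (HomotopyCategory.quotient _ _).map t'', ?_, ?_⟩
    · refine (DerivedCategory.isIso_Qh_map_iff _).1 ?_
      have : IsIso (DerivedCategory.Q.map t'') := by
        rw [DerivedCategory.isIso_Q_map_iff_quasiIso]
        exact hq4
      exact this
    · rw [← Functor.map_comp, ← Functor.map_comp]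
      have h5 : (HomotopyCategory.quotient A (ComplexShape.up ℤ)).map ((f₁ ≫ t'') ≫ CochainComplex.ιTruncLE M n) =
          (HomotopyCategory.quotient A (ComplexShape.up ℤ)).map ((f₂ ≫ t'') ≫ CochainComplex.ιTruncLE M n) := by
        rw [Category.assoc f₁ t'', Category.assoc f₂ t'', ht'', ht']
        simp only [Functor.map_comp] at h ⊢
        rw [reassoc_of% h]
      obtain ⟨hh⟩ := homotopy_lift K M b n (by omega) (f₁ ≫ t'') (f₂ ≫ t'') (HomotopyCategory.homotopyOfEq _ _ h5)
      exact HomotopyCategory.eq_of_homotopy _ _ hh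
end Groth.Agent.S12228
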