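import Groth.Statements.S1243
import Groth.Agent.Lib.Helper2_Proper

set_option autoImplicit false
universe u
open FlatMor

namespace Groth.Agent.S1243

set_option backward.isDefEq.respectTransparency false

open AlgebraicGeometry CategoryTheory in
/-- Let S be a quasi-compact and quasi-separated scheme, Y → S separated and of finite type, and X → Y a
morphism such that X has a compactification over S (a quasi-compact open immersion into a scheme
proper over S, compatible with the structure maps). Then X has a compactification over Y: the
morphism X → Y factors as a quasi-compact open immersion followed by a proper morphism. -/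
theorem result {S X Y Xb : Scheme.{u}} [CompactSpace S] [QuasiSeparatedSpace S]
    (g : Y ⟶ S) [IsSeparated g] [LocallyOfFiniteType g] [QuasiCompact g]
    (f : X ⟶ Y) (j : X ⟶ Xb) [IsOpenImmersion j] [QuasiCompact j] (b : Xb ⟶ S) [IsProper b] (hj : j ≫ b = f ≫ g) :
    ∃ (Xb' : Scheme.{u}) (j' : X ⟶ Xb') (b' : Xb' ⟶ Y), IsOpenImmersion j' ∧ QuasiCompact j' ∧ IsProper b' ∧ j' ≫ b' = f := by
  let a : X ⟶ Limits.pullback b g := Limits.pullback.lift j f hj
  have h1 : a ≫ Limits.pullback.fst b g = j := Limits.pullback.lift_fst _ _ _
  have h2 : a ≫ Limits.pullback.snd b g = f := Limits.pullback.lift_snd _ _ _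
  have h3 : IsImmersion (a ≫ Limits.pullback.fst b g) := by rw [h1]; infer_instance
  have h4 : IsImmersion a := IsImmersion.of_comp a (Limits.pullback.fst b g)
  have h5 : QuasiCompact (a ≫ Limits.pullback.fst b g) := by rw [h1]; infer_instance
  have h6 : QuasiCompact a := QuasiCompact.of_comp a (Limits.pullback.fst b g)
  refine ⟨a.image, a.toImage, a.imageι ≫ Limits.pullback.snd b g, inferInstance, inferInstance, inferInstance, ?_⟩
  rw [← Category.assoc, a.toImage_imageι, h2]


end Groth.Agent.S1243
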