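import Groth.Statements.S12442
import Mathlib
-- import your own Groth.Agent.* helpers here

set_option autoImplicit false
universe u
open Mor

namespace Groth.Agent.S12442

open AlgebraicGeometry CategoryTheory in
/-- Let f : X → Y and g : Y → S be morphisms of schemes. If the composite X → S is locally of finite
presentation and g is locally of finite type, then f is locally of finite presentation. -/
theorem result {X Y S : Scheme.{u}} (f : X ⟶ Y) (g : Y ⟶ S)
    [LocallyOfFinitePresentation (f ≫ g)] [LocallyOfFiniteType g] :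
    LocallyOfFinitePresentation f := by
  rw [HasRingHomProperty.iff_exists_appLE (P := @LocallyOfFinitePresentation) (by
    intro R S T _ _ _ _ r _ f hf
    exact RingHom.finitePresentation_stableUnderComposition _ _
      (RingHom.finitePresentation_holdsForLocalizationAway S r) hf)]
  intro x
  obtain ⟨W, hW, hxW, -⟩ := exists_isAffineOpen_mem_and_subset (X := S) (x := g (f x)) (U := ⊤) trivial
  obtain ⟨U, hU, hxU, hUW⟩ := exists_isAffineOpen_mem_and_subset (X := Y) (x := f x) (U := g ⁻¹ᵁ W) hxW
  obtain ⟨V, hV, hxV, hVU⟩ := exists_isAffineOpen_mem_and_subset (X := X) (x := x) (U := f ⁻¹ᵁ U) hxU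
  refine ⟨⟨U, hU⟩, ⟨V, hV⟩, hxV, hVU, ?_⟩
  have hVW : V ≤ (f ≫ g) ⁻¹ᵁ W := fun y hy => hUW (hVU hy)
  have h1 : ((f ≫ g).appLE W V hVW).hom.FinitePresentation :=
    HasRingHomProperty.appLE (P := @LocallyOfFinitePresentation) (f ≫ g) inferInstance ⟨W, hW⟩ ⟨V, hV⟩ hVW
  have h2 : (g.appLE W U hUW).hom.FiniteType :=
    HasRingHomProperty.appLE (P := @LocallyOfFiniteType) g inferInstance ⟨W, hW⟩ ⟨U, hU⟩ hUW
  have h3 : g.appLE W U hUW ≫ f.appLE U V hVU = (f ≫ g).appLE W V hVW := by
    rw [Scheme.Hom.appLE_comp_appLE]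
  rw [← h3, CommRingCat.hom_comp] at h1
  exact RingHom.FinitePresentation.of_comp_finiteType _ h1 h2
end Groth.Agent.S12442
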