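import Groth.Statements.S12443
import Mathlib
-- import your own Groth.Agent.* helpers here

set_option autoImplicit false
universe u
open CategoryTheory TopologicalSpace
open ShSp

namespace Groth.Agent.S12443

open Opposite in
theorem full_faithful {U X : TopCat.{u}} (j : U ⟶ X) (hj : Topology.IsOpenEmbedding j) :
    (TopCat.Sheaf.pushforward (Type u) j).Full ∧ (TopCat.Sheaf.pushforward (Type u) j).Faithful := by
  have e : ∀ V : Opens U, (Opens.map j).obj (hj.isOpenMap.functor.obj V) = V := by
    intro V
    apply Opens.ext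
    exact Set.preimage_image_eq _ hj.injective
  constructor
  · refine ⟨fun {F G} φ => ?_⟩
    let a : ∀ V : (Opens U)ᵒᵖ, F.1.obj V ⟶ G.1.obj V := fun V =>
      F.1.map (eqToHom (e V.unop)).op ≫ φ.1.app (op (hj.isOpenMap.functor.obj V.unop)) ≫ G.1.map (eqToHom (e V.unop).symm).op
    have hnat : ∀ {V V' : (Opens U)ᵒᵖ} (i : V ⟶ V'), F.1.map i ≫ a V' = a V ≫ G.1.map i := by
      intro V V' i
      let k : hj.isOpenMap.functor.obj V'.unop ⟶ hj.isOpenMap.functor.obj V.unop := hj.isOpenMap.functor.map i.unop
      have h1 : F.1.map i ≫ F.1.map (eqToHom (e V'.unop)).op = F.1.map (eqToHom (e V.unop)).op ≫ F.1.map ((Opens.map j).map k).op := by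
        rw [← Functor.map_comp, ← Functor.map_comp]
        rfl
      have h2 : F.1.map ((Opens.map j).map k).op ≫ φ.1.app (op (hj.isOpenMap.functor.obj V'.unop)) =
          φ.1.app (op (hj.isOpenMap.functor.obj V.unop)) ≫ G.1.map ((Opens.map j).map k).op := φ.1.naturality k.op
      have h3 : G.1.map ((Opens.map j).map k).op ≫ G.1.map (eqToHom (e V'.unop).symm).op = G.1.map (eqToHom (e V.unop).symm).op ≫ G.1.map i := by
        rw [← Functor.map_comp, ← Functor.map_comp]
        rfl
      simp only [a]
      rw [← Category.assoc, h1, Category.assoc, reassoc_of% h2]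
      simp only [Category.assoc]
      exact congrArg (fun t => F.1.map (eqToHom (e V.unop)).op ≫ φ.1.app (op (hj.isOpenMap.functor.obj V.unop)) ≫ t) h3
    refine ⟨⟨{ app := a, naturality := fun _ _ i => hnat i }⟩, ?_⟩
    apply Sheaf.hom_ext
    apply NatTrans.ext
    funext W
    change a (op ((Opens.map j).obj W.unop)) = φ.1.app W
    let k : hj.isOpenMap.functor.obj ((Opens.map j).obj W.unop) ⟶ W.unop := homOfLE (by
      rintro _ ⟨y, hy, rfl⟩
      exact hy)
    have h2 : F.1.map ((Opens.map j).map k).op ≫ φ.1.app (op (hj.isOpenMap.functor.obj ((Opens.map j).obj W.unop))) =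
        φ.1.app W ≫ G.1.map ((Opens.map j).map k).op := φ.1.naturality k.op
    have h3 : G.1.map ((Opens.map j).map k).op ≫ G.1.map (eqToHom (e ((Opens.map j).obj W.unop)).symm).op = 𝟙 _ := by
      have h6 : ((Opens.map j).map k).op ≫ (eqToHom (e ((Opens.map j).obj W.unop)).symm).op = 𝟙 _ := rfl
      exact (G.1.map_comp _ _).symm.trans ((congrArg G.1.map h6).trans (G.1.map_id _))
    have h4 : (eqToHom (e ((Opens.map j).obj W.unop))).op = ((Opens.map j).map k).op := rfl
    have h5 := congrArg (fun t => t ≫ G.1.map (eqToHom (e ((Opens.map j).obj W.unop)).symm).op) h2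
    exact (Category.assoc _ _ _).symm.trans (h5.trans ((Category.assoc _ _ _).trans ((congrArg (fun t => φ.1.app W ≫ t) h3).trans (Category.comp_id _))))
  · refine ⟨fun {F G} φ ψ h => ?_⟩
    apply Sheaf.hom_ext
    apply NatTrans.ext
    funext V
    obtain ⟨V⟩ := V
    obtain ⟨W, rfl⟩ : ∃ W, (Opens.map j).obj W = V := ⟨_, e V⟩
    have h1 := congrArg (fun t => t.1.app (op W)) h
    exact h1

/-- Let j : U → X be the inclusion of an open subset (an open embedding) and F a sheaf of sets on U.
Then the counit j⁻¹ j_* F → F is an isomorphism, i.e. j⁻¹ j_* is the identity on sheaves on U. -/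
theorem result {U X : TopCat.{u}} (j : U ⟶ X) (hj : Topology.IsOpenEmbedding j)
    (F : U.Sheaf (Type u)) :
    IsIso ((TopCat.Sheaf.pullbackPushforwardAdjunction (Type u) j).counit.app F) := by
  obtain ⟨h1, h2⟩ := full_faithful j hj
  infer_instance
end Groth.Agent.S12443
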