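import Groth.Statements.S12482

import Mathlib

set_option autoImplicit false
universe u
open Dual

namespace Groth.Agent.S12482
lemma aux {A : Type u} [CommRing A] : ∀ (p : ℕ) (x : Fin p → A),
    RingTheory.Sequence.IsWeaklyRegular A (List.ofFn x) → ∀ a : Fin p → A, ∑ i, a i * x i = 0 →
      ∀ i, a i ∈ Ideal.span (Set.range x) := by
  intro p
  induction p with
  | zero => intro x _ a _ i; exact i.elim0
  | succ p ih =>
    intro x hx a ha i
    rw [List.ofFn_succ', List.concat_eq_append, RingTheory.Sequence.isWeaklyRegular_append_iff] at hx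
    obtain ⟨hx1, hx2⟩ := hx
    rw [RingTheory.Sequence.isWeaklyRegular_singleton_iff] at hx2
    have hofl : (Ideal.ofList (List.ofFn fun i : Fin p => x i.castSucc) • ⊤ : Submodule A A) = Ideal.span (Set.range fun i : Fin p => x i.castSucc) := by
      rw [smul_eq_mul, Ideal.mul_top]
      unfold Ideal.ofList
      congr 1
      ext y; simp [List.mem_ofFn]
    have hle : Ideal.span (Set.range fun i : Fin p => x i.castSucc) ≤ Ideal.span (Set.range x) := by
      apply Ideal.span_mono
      rintro _ ⟨j, rfl⟩; exact ⟨_, rfl⟩
    rw [Fin.sum_univ_castSucc] at ha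
    have hlast : a (Fin.last p) ∈ Ideal.span (Set.range fun i : Fin p => x i.castSucc) := by
      rw [← hofl]
      rw [← Submodule.Quotient.mk_eq_zero]
      apply hx2
      show x (Fin.last p) • _ = x (Fin.last p) • _
      rw [smul_zero, ← Submodule.Quotient.mk_smul, Submodule.Quotient.mk_eq_zero, hofl]
      have : x (Fin.last p) • a (Fin.last p) = - ∑ i : Fin p, a i.castSucc * x i.castSucc := by
        rw [smul_eq_mul]; linear_combination ha
      rw [this]
      apply neg_mem
      apply Ideal.sum_mem
      intro j _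
      exact Ideal.mul_mem_left _ _ (Ideal.subset_span ⟨j, rfl⟩)
    obtain ⟨c, hc⟩ := (Ideal.mem_span_range_iff_exists_fun).mp hlast
    have h3 : ∑ i : Fin p, (a i.castSucc + c i * x (Fin.last p)) * x i.castSucc = 0 := by
      rw [← ha, ← hc, Finset.sum_mul, ← Finset.sum_add_distrib]
      apply Finset.sum_congr rfl
      intro j _; ring
    have h4 := ih _ hx1 _ h3
    refine Fin.lastCases ?_ (fun j => ?_) i
    · exact hle hlast
    · have h5 := hle (h4 j)
      have h6 : c j * x (Fin.last p) ∈ Ideal.span (Set.range x) := Ideal.mul_mem_left _ _ (Ideal.subset_span ⟨_, rfl⟩)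
      have : a j.castSucc = (a j.castSucc + c j * x (Fin.last p)) - c j * x (Fin.last p) := by ring
      rw [this]; exact sub_mem h5 h6

/-- Let `A` be a commutative ring, `x_1, …, x_p` a sequence of elements of `A` such that each `x_i` is a
non-zero-divisor on `A/(x_1, …, x_{i-1})`, and `J` the ideal generated by the `x_i`. Then `J/J²` is
a free `(A/J)`-module with basis the classes of the `x_i`: there is a basis of `J/J²` over `A/J`,
indexed by `1, …, p`, whose `i`-th vector is the class of `x_i`. (The other assertions of the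
published statement, on the Koszul complex and on Ext and Tor against `A/J`, are stated separately.) -/
theorem result (A : Type u) [CommRing A] (p : ℕ) (x : Fin p → A)
    (hreg : RingTheory.Sequence.IsWeaklyRegular A (List.ofFn x)) :
    ∃ b : Module.Basis (Fin p) (A ⧸ Ideal.span (Set.range x)) (Ideal.span (Set.range x)).Cotangent,
      ∀ i, b i = (Ideal.span (Set.range x)).toCotangent ⟨x i, Ideal.subset_span (Set.mem_range_self i)⟩ := by
  classical
  set I := Ideal.span (Set.range x) with hI
  let v : Fin p → I.Cotangent := fun i => I.toCotangent ⟨x i, Ideal.subset_span (Set.mem_range_self i)⟩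
  have hsmul : ∀ (a : A) (m : I.Cotangent), (Ideal.Quotient.mk I a) • m = a • m := fun a m => rfl
  have hli : LinearIndependent (A ⧸ I) v := by
    rw [Fintype.linearIndependent_iff]
    intro g hg i
    choose a ha using fun i => Ideal.Quotient.mk_surjective (g i)
    rw [← ha i, Ideal.Quotient.eq_zero_iff_mem]
    have h1 : I.toCotangent (∑ i, a i • ⟨x i, Ideal.subset_span (Set.mem_range_self i)⟩) = 0 := by
      rw [map_sum, ← hg]
      apply Finset.sum_congr rfl
      intro j _
      rw [← ha j, hsmul, map_smul]
    rw [Ideal.toCotangent_eq_zero] at h1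
    have h2 : ∑ i, a i * x i ∈ I ^ 2 := by
      convert h1 using 1
      simp
    rw [pow_two] at h2
    have h3 : ∃ b : Fin p → A, (∀ i, b i ∈ I) ∧ ∑ i, b i * x i = ∑ i, a i * x i := by
      have h4 : ∑ i, a i * x i ∈ I • Submodule.span A (Set.range x) := h2
      rw [Submodule.mem_ideal_smul_span_iff_exists_sum] at h4
      obtain ⟨b, hb, hbs⟩ := h4
      refine ⟨b, hb, ?_⟩
      rw [← hbs, Finsupp.sum_fintype _ _ (by simp)]
      simp
    obtain ⟨b, hb, hbs⟩ := h3
    have h5 := aux p x hreg (fun i => a i - b i) (by
      simp only [sub_mul, Finset.sum_sub_distrib, hbs, sub_self]) i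
    have : a i = (a i - b i) + b i := by ring
    rw [this]; exact add_mem h5 (hb i)
  have hsp : ⊤ ≤ Submodule.span (A ⧸ I) (Set.range v) := by
    rintro m -
    obtain ⟨⟨y, hy⟩, rfl⟩ := I.toCotangent_surjective m
    obtain ⟨c, hc⟩ := (Ideal.mem_span_range_iff_exists_fun).mp hy
    have h1 : (⟨y, hy⟩ : I) = ∑ i, c i • ⟨x i, Ideal.subset_span (Set.mem_range_self i)⟩ := by
      ext; simp [← hc]
    rw [h1, map_sum]
    apply Submodule.sum_mem
    intro i _
    rw [map_smul, ← hsmul]
    exact Submodule.smul_mem _ _ (Submodule.subset_span ⟨i, rfl⟩)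
  exact ⟨Module.Basis.mk hli hsp, fun i => by rw [Module.Basis.mk_apply]⟩

end Groth.Agent.S12482
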