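import Groth.Statements.S12707

import Mathlib
import Groth.Prelude.Def_ArtFun2
import Groth.Prelude.Def_ArtFun3

set_option autoImplicit false
universe u v
open CategoryTheory
open ArtFun ArtFun.Art

namespace Groth.Agent.S12707
section aux
variable {Λ : Type u} {k : Type u} [CommRing Λ] [Field k] [Algebra Λ k]

lemma isIso_of_bij {A B : ArtFun.Art Λ k} (f : A ⟶ B) (hf : Function.Bijective f) : IsIso f := by
  let e : A ≃ₐ[Λ] B := AlgEquiv.ofBijective f.toAlgHom hf
  refine ⟨⟨⟨(e.symm : B →ₐ[Λ] A), ?_⟩, ?_, ?_⟩⟩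
  · ext x
    obtain ⟨y, rfl⟩ := e.surjective x
    show A.res (e.symm (e y)) = B.res (e y)
    rw [e.symm_apply_apply]
    exact (ArtFun.Art.res_app f y).symm
  · apply ArtFun.Art.hom_ext
    ext x
    exact e.symm_apply_apply x
  · apply ArtFun.Art.hom_ext
    ext x
    exact e.apply_symm_apply x

lemma ker_le {B A : ArtFun.Art Λ k} (f : B ⟶ A) : RingHom.ker f.toAlgHom ≤ IsLocalRing.maximalIdeal B := by
  intro x hx
  rw [ArtFun.Art.mem_maximalIdeal_iff, ← ArtFun.Art.res_app f]
  have : f x = 0 := hx
  rw [this, map_zero]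

lemma exists_socle {B : ArtFun.Art Λ k} {I K : Ideal B} (hIK : I ≤ K) (hne : I ≠ K) :
    ∃ t ∈ K, t ∉ I ∧ ∀ m ∈ IsLocalRing.maximalIdeal B, m * t ∈ I := by
  classical
  have hnil : ∃ n : ℕ, IsLocalRing.maximalIdeal B ^ n * K ≤ I := by
    obtain ⟨n, hn⟩ := IsArtinianRing.isNilpotent_jacobson_bot (R := B)
    rw [IsLocalRing.jacobson_eq_maximalIdeal ⊥ bot_ne_top] at hn
    exact ⟨n, by rw [hn, zero_mul]; exact bot_le⟩
  have hmin := Nat.find_spec hnil
  have hpos : Nat.find hnil ≠ 0 := by
    intro h0
    rw [h0, pow_zero, one_mul] at hmin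
    exact hne (le_antisymm hIK hmin)
  obtain ⟨n, hn⟩ := Nat.exists_eq_succ_of_ne_zero hpos
  have hnot : ¬ (IsLocalRing.maximalIdeal B ^ n * K ≤ I) := Nat.find_min hnil (by omega)
  rw [hn, Nat.succ_eq_add_one] at hmin
  obtain ⟨t, ht, htI⟩ := Set.not_subset.mp hnot
  refine ⟨t, Ideal.mul_le_right ht, htI, fun m hm => ?_⟩
  apply hmin
  rw [pow_succ', mul_assoc]
  exact Ideal.mul_mem_mul hm ht

end aux

/-- In the category of Artinian local Λ-algebras with residue field k (Λ Noetherian, Λ → k finite),
every surjective morphism is a composite of small extensions. Stated as the equivalent induction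
principle: a property of morphisms that holds for isomorphisms and for small extensions and is
stable under composition holds for every surjective morphism. -/
theorem result {Λ : Type u} {k : Type u} [CommRing Λ] [Field k] [Algebra Λ k]
    [IsNoetherianRing Λ] [Module.Finite Λ k]
    (P : ∀ ⦃A B : ArtFun.Art Λ k⦄, (B ⟶ A) → Prop)
    (hiso : ∀ ⦃A B : ArtFun.Art Λ k⦄ (e : B ⟶ A), IsIso e → P e)
    (hsmall : ∀ ⦃A B : ArtFun.Art Λ k⦄ (p : B ⟶ A), ArtFun.Art.IsSmallExt p → P p)
    (hcomp : ∀ ⦃A B C : ArtFun.Art Λ k⦄ (p : C ⟶ B) (q : B ⟶ A), P p → P q → P (p ≫ q))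
    ⦃A B : ArtFun.Art Λ k⦄ (f : B ⟶ A) (hf : Function.Surjective f) : P f := by
  classical
  set K := RingHom.ker f.toAlgHom with hK
  have key : ∀ I : Ideal B, ∀ (hI : I ≤ K), P (ArtFun.Art.quotFactor (hI.trans (ker_le f)) f hI) := by
    intro I
    induction I using IsNoetherian.induction with
    | _ I ih =>
    intro hI
    by_cases hne : I = K
    · apply hiso
      apply isIso_of_bij
      constructor
      · intro x y hxy
        obtain ⟨x, rfl⟩ := Ideal.Quotient.mk_surjective x
        obtain ⟨y, rfl⟩ := Ideal.Quotient.mk_surjective y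
        have hxy' : f x = f y := hxy
        apply Ideal.Quotient.mk_eq_mk_iff_sub_mem x y |>.mpr
        rw [hne, hK]
        show f.toAlgHom (x - y) = 0
        rw [map_sub]
        exact sub_eq_zero.mpr hxy'
      · intro y
        obtain ⟨x, hx⟩ := hf y
        exact ⟨Ideal.Quotient.mk I x, hx⟩
    · obtain ⟨t, htK, htI, hmt⟩ := exists_socle hI hne
      let I' : Ideal B := I ⊔ Ideal.span {t}
      have hI' : I' ≤ K := sup_le hI (by rw [Ideal.span_le, Set.singleton_subset_iff]; exact htK)
      have hlt : I < I' := by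
        refine lt_of_le_of_ne le_sup_left (fun h => htI ?_)
        rw [h]; exact Ideal.mem_sup_right (Ideal.mem_span_singleton_self t)
      have h1 := ih I' hlt hI'
      have hkerI : I ≤ RingHom.ker (ArtFun.Art.quotMk B I' (hI'.trans (ker_le f))).toAlgHom := by
        intro x hx
        show Ideal.Quotient.mk I' x = 0
        rw [Ideal.Quotient.eq_zero_iff_mem]; exact hlt.le hx
      let p := ArtFun.Art.quotFactor (hI.trans (ker_le f)) (ArtFun.Art.quotMk B I' (hI'.trans (ker_le f))) hkerI
      have hp : ArtFun.Art.IsSmallExt p := by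
        have hpmk : ∀ x : B, p (Ideal.Quotient.mk I x) = Ideal.Quotient.mk I' x := fun x => rfl
        have hmemker : ∀ x : B, (Ideal.Quotient.mk I x : B ⧸ I) ∈ RingHom.ker p.toAlgHom ↔ x ∈ I' := by
          intro x
          rw [← Ideal.Quotient.eq_zero_iff_mem (I := I')]
          exact Iff.rfl
        refine ⟨?_, ?_, ?_, ?_⟩
        · intro y
          obtain ⟨x, rfl⟩ := Ideal.Quotient.mk_surjective y
          exact ⟨Ideal.Quotient.mk I x, rfl⟩
        · intro hbot
          have : (Ideal.Quotient.mk I t : B ⧸ I) ∈ RingHom.ker p.toAlgHom :=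
            (hmemker t).mpr (Ideal.mem_sup_right (Ideal.mem_span_singleton_self t))
          rw [hbot] at this
          exact htI (Ideal.Quotient.eq_zero_iff_mem.mp this)
        · refine ⟨Ideal.Quotient.mk I t, ?_⟩
          ext y
          obtain ⟨x, rfl⟩ := Ideal.Quotient.mk_surjective y
          constructor
          · intro hx
            have hx' := (hmemker x).mp hx
            obtain ⟨a, ha, b, hb, rfl⟩ := Submodule.mem_sup.mp hx'
            obtain ⟨c, rfl⟩ := Ideal.mem_span_singleton'.mp hb
            rw [map_add, Ideal.Quotient.eq_zero_iff_mem.mpr ha, zero_add, map_mul]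
            exact Submodule.smul_mem _ _ (Submodule.mem_span_singleton_self _)
          · intro hx
            obtain ⟨c, hc⟩ := Submodule.mem_span_singleton.mp hx
            obtain ⟨c, rfl⟩ := Ideal.Quotient.mk_surjective c
            rw [← hc]
            exact (hmemker (c * t)).mpr (Ideal.mul_mem_left _ _ (Ideal.mem_sup_right (Ideal.mem_span_singleton_self t)))
        · rw [eq_bot_iff, Ideal.mul_le]
          intro m hm y hy
          obtain ⟨m, rfl⟩ := Ideal.Quotient.mk_surjective m
          obtain ⟨x, rfl⟩ := Ideal.Quotient.mk_surjective y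
          have hm' : m ∈ IsLocalRing.maximalIdeal B := by
            rw [ArtFun.Art.mem_maximalIdeal_iff] at hm ⊢
            exact hm
          have hx' := (hmemker x).mp hy
          obtain ⟨a, ha, b, hb, rfl⟩ := Submodule.mem_sup.mp hx'
          obtain ⟨c, rfl⟩ := Ideal.mem_span_singleton'.mp hb
          show (Ideal.Quotient.mk I m * Ideal.Quotient.mk I (a + c * t) : B ⧸ I) ∈ (⊥ : Ideal (B ⧸ I))
          rw [Ideal.mem_bot, ← map_mul, Ideal.Quotient.eq_zero_iff_mem, mul_add]
          refine add_mem (Ideal.mul_mem_left _ _ ha) ?_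
          have : m * (c * t) = c * (m * t) := by ring
          rw [this]; exact Ideal.mul_mem_left _ _ (hmt m hm')
      have h2 := hcomp p _ (hsmall p hp) h1
      have heq : p ≫ ArtFun.Art.quotFactor (hI'.trans (ker_le f)) f hI' = ArtFun.Art.quotFactor (hI.trans (ker_le f)) f hI := by
        apply ArtFun.Art.hom_ext
        apply AlgHom.ext
        intro x
        obtain ⟨x, rfl⟩ := Ideal.Quotient.mk_surjective x
        rfl
      rw [heq] at h2
      exact h2
  have h0 := key ⊥ bot_le
  have hq : P (ArtFun.Art.quotMk B ⊥ (bot_le)) := by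
    apply hiso
    apply isIso_of_bij
    constructor
    · intro x y hxy
      have : (x - y) ∈ (⊥ : Ideal B) := (Ideal.Quotient.mk_eq_mk_iff_sub_mem x y).mp hxy
      rw [Ideal.mem_bot] at this
      exact sub_eq_zero.mp this
    · exact Ideal.Quotient.mk_surjective
  have h3 := hcomp _ _ hq h0
  rw [ArtFun.Art.quotMk_quotFactor] at h3
  exact h3

end Groth.Agent.S12707
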