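import Groth.Statements.S12711

import Mathlib

set_option autoImplicit false
universe u v
open CategoryTheory
open ArtFun ArtFun.Art

namespace Groth.Agent.S12711

/-- If B together with p₁ : B → A₁ and p₂ : B → A₂ is the fibre product A₁ ×_A A₂ in the category of
Artinian local Λ-algebras with residue field k (Λ Noetherian, Λ → k finite), and f₂ : A₂ → A is a
small extension, then the projection p₁ : B → A₁ is a small extension. -/
theorem result {Λ : Type u} {k : Type u} [CommRing Λ] [Field k] [Algebra Λ k]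
    [IsNoetherianRing Λ] [Module.Finite Λ k]
    {B A A₁ A₂ : ArtFun.Art Λ k} {p₁ : B ⟶ A₁} {p₂ : B ⟶ A₂} {f₁ : A₁ ⟶ A} {f₂ : A₂ ⟶ A}
    (h : ArtFun.Art.IsFibreProd p₁ p₂ f₁ f₂) (hf₂ : ArtFun.Art.IsSmallExt f₂) :
    ArtFun.Art.IsSmallExt p₁ := by
  obtain ⟨hs, hne, ⟨t, ht⟩, hm⟩ := hf₂
  have htk : t ∈ RingHom.ker f₂.toAlgHom := by rw [ht]; exact Submodule.mem_span_singleton_self t
  have ht0 : t ≠ 0 := by
    rintro rfl
    apply hne
    rw [ht]; exact Submodule.span_zero_singleton _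
  have hft : f₂ t = 0 := htk
  have hmt : ∀ m ∈ IsLocalRing.maximalIdeal A₂, m * t = 0 := by
    intro m hmm
    have : m * t ∈ IsLocalRing.maximalIdeal A₂ * RingHom.ker f₂.toAlgHom := Ideal.mul_mem_mul hmm htk
    rw [hm] at this
    exact this
  obtain ⟨s, hs1, hs2⟩ := h.surj 0 t (by rw [map_zero, hft])
  have hkey : ∀ b : B, p₁ b = 0 → ∃ b' : B, b = b' * s := by
    intro b hb
    have h1 : f₂ (p₂ b) = 0 := by rw [← h.w_apply b, hb, map_zero]
    have h2 : p₂ b ∈ RingHom.ker f₂.toAlgHom := h1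
    rw [ht] at h2
    obtain ⟨c, hc⟩ := Submodule.mem_span_singleton.mp h2
    obtain ⟨b', hb'⟩ := B.res_surjective (A₂.res c)
    refine ⟨b', h.inj _ _ ?_ ?_⟩
    · rw [map_mul, hs1, mul_zero, hb]
    · have h3 : c - p₂ b' ∈ IsLocalRing.maximalIdeal A₂ := by
        rw [ArtFun.Art.mem_maximalIdeal_iff, map_sub, ArtFun.Art.res_app p₂, hb', sub_self]
      have h4 := hmt _ h3
      rw [map_mul, hs2, ← hc, smul_eq_mul]
      linear_combination h4
  refine ⟨?_, ?_, ⟨s, ?_⟩, ?_⟩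
  · intro a₁
    obtain ⟨a₂, ha₂⟩ := hs (f₁ a₁)
    obtain ⟨b, hb, -⟩ := h.surj a₁ a₂ ha₂.symm
    exact ⟨b, hb⟩
  · intro h0
    have : s ∈ RingHom.ker p₁.toAlgHom := hs1
    rw [h0] at this
    have hs0 : s = 0 := this
    rw [hs0, map_zero] at hs2
    exact ht0 hs2.symm
  · apply le_antisymm
    · intro b hb
      obtain ⟨b', hb'⟩ := hkey b hb
      exact Submodule.mem_span_singleton.mpr ⟨b', by rw [hb', smul_eq_mul]⟩
    · rw [Submodule.span_singleton_le_iff_mem]
      exact hs1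
  · rw [eq_bot_iff, Ideal.mul_le]
    intro m hmB b hb
    obtain ⟨b', rfl⟩ := hkey b hb
    show m * (b' * s) = 0
    apply h.inj
    · rw [map_mul, map_mul, hs1, mul_zero, mul_zero, map_zero]
    · have h5 : p₂ m ∈ IsLocalRing.maximalIdeal A₂ := by
        rw [ArtFun.Art.mem_maximalIdeal_iff, ArtFun.Art.res_app p₂]
        exact (ArtFun.Art.mem_maximalIdeal_iff (a := m)).mp hmB
      rw [map_mul, map_mul, hs2, map_zero]
      linear_combination p₂ b' * hmt _ h5

end Groth.Agent.S12711
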