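import Groth.Statements.S12713

import Mathlib

set_option autoImplicit false
universe u v
open CategoryTheory
open ArtFun ArtFun.Art

namespace Groth.Agent.S12713

/-- A small extension f : B → A in the category of Artinian local Λ-algebras with residue field k (Λ
Noetherian, Λ → k finite) is not an essential surjection (some morphism g : C → B is non-surjective
although the composite C → A is surjective) if and only if f has a section A → B in the category. -/
theorem result {Λ : Type u} {k : Type u} [CommRing Λ] [Field k] [Algebra Λ k]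
    [IsNoetherianRing Λ] [Module.Finite Λ k]
    {A B : ArtFun.Art Λ k} (f : B ⟶ A) (hf : ArtFun.Art.IsSmallExt f) :
    (∃ (C : ArtFun.Art Λ k) (g : C ⟶ B), Function.Surjective (g ≫ f) ∧ ¬ Function.Surjective g) ↔
      ∃ s : A ⟶ B, s ≫ f = 𝟙 A := by
  obtain ⟨hs, hne, ⟨t, ht⟩, hm⟩ := hf
  have htk : t ∈ RingHom.ker f.toAlgHom := by rw [ht]; exact Submodule.mem_span_singleton_self t
  have hmt : ∀ m ∈ IsLocalRing.maximalIdeal B, m * t = 0 := by
    intro m hmm
    have : m * t ∈ IsLocalRing.maximalIdeal B * RingHom.ker f.toAlgHom := Ideal.mul_mem_mul hmm htk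
    rw [hm] at this
    exact this
  constructor
  · rintro ⟨C, g, hgf, hg⟩
    have hker : ∀ c : C, f (g c) = 0 → g c = 0 := by
      intro c hc
      by_contra hne0
      apply hg
      have hct : g c ∈ RingHom.ker f.toAlgHom := hc
      rw [ht] at hct
      obtain ⟨u, hu⟩ := Submodule.mem_span_singleton.mp hct
      have hu' : u * t = g c := hu
      have huunit : B.res u ≠ 0 := by
        intro h0
        apply hne0
        rw [← hu']
        exact hmt u ((ArtFun.Art.mem_maximalIdeal_iff (a := u)).mpr h0)
      intro b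
      obtain ⟨c1, hc1⟩ := hgf (f b)
      have hc1' : f (g c1) = f b := hc1
      have h2 : b - g c1 ∈ RingHom.ker f.toAlgHom := by
        show f (b - g c1) = 0
        rw [map_sub, hc1', sub_self]
      rw [ht] at h2
      obtain ⟨v, hv⟩ := Submodule.mem_span_singleton.mp h2
      have hv' : v * t = b - g c1 := hv
      obtain ⟨w, hw⟩ := C.res_surjective (B.res v / B.res u)
      have h3 : g w * u - v ∈ IsLocalRing.maximalIdeal B := by
        rw [ArtFun.Art.mem_maximalIdeal_iff, map_sub, map_mul, ArtFun.Art.res_app g, hw, div_mul_cancel₀ _ huunit, sub_self]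
      refine ⟨c1 + w * c, ?_⟩
      rw [map_add, map_mul]
      linear_combination hv' + hmt _ h3 - g w * hu'
    have hsurj : Function.Surjective (g ≫ f).toAlgHom := hgf
    let s0 : A →ₐ[Λ] B := (Ideal.Quotient.liftₐ (RingHom.ker (g ≫ f).toAlgHom) g.toAlgHom
      (fun c hc => hker c hc)).comp (Ideal.quotientKerAlgEquivOfSurjective hsurj).symm.toAlgHom
    have hs0 : ∀ c : C, s0 ((g ≫ f).toAlgHom c) = g c := by
      intro c
      show (Ideal.Quotient.liftₐ (RingHom.ker (g ≫ f).toAlgHom) g.toAlgHom (fun c hc => hker c hc))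
        ((Ideal.quotientKerAlgEquivOfSurjective hsurj).symm ((g ≫ f).toAlgHom c)) = g c
      rw [Ideal.quotientKerAlgEquivOfSurjective_symm_apply]
      rfl
    refine ⟨⟨s0, ?_⟩, ?_⟩
    · ext x
      obtain ⟨c, rfl⟩ := hsurj x
      show B.res (s0 ((g ≫ f).toAlgHom c)) = A.res ((g ≫ f).toAlgHom c)
      rw [hs0, ArtFun.Art.res_app g]
      exact (ArtFun.Art.res_app (g ≫ f) c).symm
    · apply ArtFun.Art.hom_ext
      ext x
      obtain ⟨c, rfl⟩ := hsurj x
      show f (s0 ((g ≫ f).toAlgHom c)) = (g ≫ f).toAlgHom c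
      rw [hs0]; rfl
  · rintro ⟨s, hsf⟩
    have h1 : ∀ a, f (s a) = a := fun a => congrArg (fun q : A ⟶ A => q a) hsf
    refine ⟨A, s, ?_, ?_⟩
    · intro a
      exact ⟨a, h1 a⟩
    · intro hss
      apply hne
      rw [eq_bot_iff]
      intro b hb
      obtain ⟨a, rfl⟩ := hss b
      have h2 : f (s a) = 0 := hb
      rw [h1] at h2
      rw [h2, map_zero]; exact Submodule.zero_mem _

end Groth.Agent.S12713
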