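import Groth.Statements.S12717

import Mathlib
import Groth.Prelude.Def_ArtFun2
import Groth.Prelude.Def_ArtFun3
import Groth.Agent.S12707

set_option autoImplicit false
universe u v
open CategoryTheory
open ArtFun

namespace Groth.Agent.S12717

/-- For functors, a morphism η : F → G of functors on the category of Artinian local Λ-algebras with
residue field k (Λ Noetherian, Λ → k finite) is smooth (F(B) → F(A) ×_{G(A)} G(B) surjective for
every surjection B → A) as soon as this lifting condition holds for all small extensions B → A. -/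
theorem result {Λ : Type u} {k : Type u} [CommRing Λ] [Field k] [Algebra Λ k]
    [IsNoetherianRing Λ] [Module.Finite Λ k]
    {F G : ArtFun.Art Λ k ⥤ Type v} (η : F ⟶ G)
    (h : ∀ ⦃B A : ArtFun.Art Λ k⦄ (μ : B ⟶ A), ArtFun.Art.IsSmallExt μ →
      Function.Surjective (ArtFun.relCmp η μ)) :
    ArtFun.IsSmooth η := by
  intro B A μ hμ
  refine Groth.Agent.S12707.result (fun A B (μ : B ⟶ A) => Function.Surjective (ArtFun.relCmp η μ)) ?_ (fun A B p hp => h p hp) ?_ μ hμ
  · intro A B e he
    rintro ⟨⟨x, z⟩, hxz⟩
    refine ⟨F.map (inv e) x, Subtype.ext (Prod.ext ?_ ?_)⟩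
    · show F.map e (F.map (inv e) x) = x
      rw [← FunctorToTypes.map_comp_apply, IsIso.inv_hom_id, FunctorToTypes.map_id_apply]
    · show η.app B (F.map (inv e) x) = z
      have h1 : η.app B (F.map (inv e) x) = G.map (inv e) (η.app A x) := NatTrans.naturality_apply η (inv e) x
      rw [h1]
      have h2 : η.app A x = G.map e z := hxz
      rw [h2, ← FunctorToTypes.map_comp_apply, IsIso.hom_inv_id, FunctorToTypes.map_id_apply]
  · intro A B C p q hp hq
    rintro ⟨⟨x, z⟩, hxz⟩
    have hxz' : η.app A x = G.map q (G.map p z) := by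
      rw [← FunctorToTypes.map_comp_apply]; exact hxz
    obtain ⟨y, hy⟩ := hq ⟨(x, G.map p z), hxz'⟩
    have hy' := congrArg Subtype.val hy
    have hy1 : F.map q y = x := congrArg Prod.fst hy'
    have hy2 : η.app B y = G.map p z := congrArg Prod.snd hy'
    obtain ⟨t, ht⟩ := hp ⟨(y, z), hy2⟩
    have ht' := congrArg Subtype.val ht
    have ht1 : F.map p t = y := congrArg Prod.fst ht'
    have ht2 : η.app C t = z := congrArg Prod.snd ht'
    refine ⟨t, Subtype.ext (Prod.ext ?_ ht2)⟩
    show F.map (p ≫ q) t = x
    rw [FunctorToTypes.map_comp_apply, ht1, hy1]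

end Groth.Agent.S12717
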