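import Groth.Statements.S12755

import Mathlib

set_option autoImplicit false
universe u v
open CategoryTheory
open ArtFun

namespace Groth.Agent.S12755

/-- For functors on Artinian local Λ-algebras with residue field k (Λ Noetherian, Λ → k finite), the
composite of two smooth morphisms φ : F → G and ψ : G → H is smooth. -/
theorem result {Λ : Type u} {k : Type u} [CommRing Λ] [Field k] [Algebra Λ k]
    [IsNoetherianRing Λ] [Module.Finite Λ k]
    {F G H : ArtFun.Art Λ k ⥤ Type v} (φ : F ⟶ G) (ψ : G ⟶ H)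
    (hφ : ArtFun.IsSmooth φ) (hψ : ArtFun.IsSmooth ψ) : ArtFun.IsSmooth (φ ≫ ψ) := by
  intro B A μ hμ y
  obtain ⟨⟨x, z⟩, hxz⟩ := y
  obtain ⟨w, hw⟩ := hψ μ hμ ⟨(φ.app A x, z), hxz⟩
  have hw' := congrArg Subtype.val hw
  have hw1 : G.map μ w = φ.app A x := congrArg Prod.fst hw'
  have hw2 : ψ.app B w = z := congrArg Prod.snd hw'
  obtain ⟨t, ht⟩ := hφ μ hμ ⟨(x, w), hw1.symm⟩
  have ht' := congrArg Subtype.val ht
  have ht1 : F.map μ t = x := congrArg Prod.fst ht'
  have ht2 : φ.app B t = w := congrArg Prod.snd ht'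
  refine ⟨t, Subtype.ext (Prod.ext ht1 ?_)⟩
  show ψ.app B (φ.app B t) = z
  rw [ht2, hw2]

end Groth.Agent.S12755
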