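import Groth.Statements.S12756

import Mathlib

set_option autoImplicit false
universe u v
open CategoryTheory
open ArtFun

namespace Groth.Agent.S12756

/-- For functors on Artinian local Λ-algebras with residue field k (Λ Noetherian, Λ → k finite), if φ :
F → G is surjective on every object and ψ ∘ φ : F → H is smooth, then ψ : G → H is smooth. -/
theorem result {Λ : Type u} {k : Type u} [CommRing Λ] [Field k] [Algebra Λ k]
    [IsNoetherianRing Λ] [Module.Finite Λ k]
    {F G H : ArtFun.Art Λ k ⥤ Type v} (φ : F ⟶ G) (ψ : G ⟶ H)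
    (hφ : ∀ A : ArtFun.Art Λ k, Function.Surjective (φ.app A)) (h : ArtFun.IsSmooth (φ ≫ ψ)) :
    ArtFun.IsSmooth ψ := by
  intro B A μ hμ y
  obtain ⟨⟨x, z⟩, hxz⟩ := y
  obtain ⟨x', hx'⟩ := hφ A x
  have h1 : (φ ≫ ψ).app A x' = H.map μ z := by
    show ψ.app A (φ.app A x') = _
    rw [hx']; exact hxz
  obtain ⟨t, ht⟩ := h μ hμ ⟨(x', z), h1⟩
  have ht' := congrArg Subtype.val ht
  have ht1 : F.map μ t = x' := congrArg Prod.fst ht'
  have ht2 : ψ.app B (φ.app B t) = z := congrArg Prod.snd ht'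
  refine ⟨φ.app B t, Subtype.ext (Prod.ext ?_ ht2)⟩
  show G.map μ (φ.app B t) = x
  rw [← hx', ← ht1]
  exact (NatTrans.naturality_apply φ μ t).symm

end Groth.Agent.S12756
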