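import Groth.Statements.S12925

import Mathlib

set_option autoImplicit false
universe u w
open HopfRep
open TensorProduct

namespace Groth.Agent.S12925

/-- Let `k` be a commutative ring, `M` a commutative group and `B` a commutative `k`-algebra with a
coaction of the group algebra `k[M]` that is an algebra map (an action of the diagonalizable group
scheme `D(M) = Spec k[M]` on `Spec B`). Then the action is tame: there is a comodule map `α : k[M] →
B`, for the regular coaction on `k[M]`, with `α 1 = 1`. -/
theorem result
    (k : Type u) [CommRing k] (M : Type u) [CommGroup M]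
    (B : Type w) [CommRing B] [Algebra k B] [HopfRep.Comod k (MonoidAlgebra k M) B]
    [GLin.IsCoactAlg k (MonoidAlgebra k M) B] :
    ∃ α : MonoidAlgebra k M →ₗ[k] B, Hoch.IsComodHom (MonoidAlgebra k M) α ∧ α 1 = 1 := by
  classical
  let φ : MonoidAlgebra k M →ₗ[k] k :=
    { toFun := fun f => f.coeff 1
      map_add' := fun f g => rfl
      map_smul' := fun r f => rfl }
  have hφ : ∀ m : M, ∀ r : k, φ (MonoidAlgebra.single m r) = if m = 1 then r else 0 := by
    intro m r
    show (MonoidAlgebra.single m r).coeff 1 = _
    rw [MonoidAlgebra.coeff_single, Finsupp.single_apply]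
  have hφ1 : φ 1 = 1 := by
    rw [MonoidAlgebra.one_def, hφ]; simp
  refine ⟨(Algebra.linearMap k B) ∘ₗ φ, ?_, by rw [LinearMap.comp_apply, hφ1, Algebra.linearMap_apply, map_one]⟩
  unfold Hoch.IsComodHom
  apply MonoidAlgebra.lhom_ext'
  intro m
  apply LinearMap.ext_ring
  show HopfRep.Comod.coact (k := k) (A := MonoidAlgebra k M) (algebraMap k B (φ (MonoidAlgebra.single m 1))) =
    ((Algebra.linearMap k B) ∘ₗ φ).rTensor (MonoidAlgebra k M) (Coalgebra.comul (R := k) (MonoidAlgebra.single m (1 : k)))
  rw [MonoidAlgebra.comul_single, CommSemiring.comul_apply, TensorProduct.map_tmul, LinearMap.rTensor_tmul]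
  show _ = algebraMap k B (φ (MonoidAlgebra.single m 1)) ⊗ₜ[k] (MonoidAlgebra.single m (1 : k))
  rw [hφ]
  by_cases hm : m = 1
  · subst hm
    rw [if_pos rfl, map_one, GLin.IsCoactAlg.coact_one (k := k) (A := MonoidAlgebra k M) (R := B)]; rfl
  · rw [if_neg hm, map_zero, map_zero, TensorProduct.zero_tmul]

end Groth.Agent.S12925
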