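import Groth.Statements.S12926

import Mathlib

set_option autoImplicit false
universe u v
open HopfRep
open TensorProduct

namespace Groth.Agent.S12926

/-- Let `k` be a commutative ring and `A` a commutative bialgebra over `k`, flat as a `k`-module. If the
submodule `k · 1` of the regular comodule `A` has a complement `H` which is a subcomodule — the case
used when `A` is cosemisimple, i.e. every subcomodule of every comodule is a direct summand as a
comodule — then the trivial action of `Spec A` on `Spec k` is tame: there is a comodule map `α : A →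
k`, for the regular coaction on `A` and the trivial coaction `r ↦ r ⊗ 1` on `k`, with `α 1 = 1`. -/
theorem result
    (k : Type u) [CommRing k] (A : Type v) [CommRing A] [Bialgebra k A] [Module.Flat k A]
    (H : Submodule k A) (hH : HopfRep.IsSubcomod (k := k) (A := A) H)
    (hc : IsCompl (Submodule.span k {(1 : A)}) H) :
    ∃ α : A →ₗ[k] k, @Hoch.IsComodHom k _ A _ _ _ A _ _ _ k _ _ (HopfRep.Comod.trivial k A k) α ∧ α 1 = 1 := by
  let π : A →ₗ[k] A := (Submodule.span k {(1 : A)}).subtype ∘ₗ Submodule.linearProjOfIsCompl _ _ hc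
  have hπ1 : π 1 = 1 := by
    have := Submodule.linearProjOfIsCompl_apply_left hc ⟨(1 : A), Submodule.mem_span_singleton_self 1⟩
    show ((Submodule.linearProjOfIsCompl _ _ hc (1 : A)) : A) = 1
    exact congrArg Subtype.val this
  have hπH : ∀ h ∈ H, π h = 0 := by
    intro h hh
    have := Submodule.linearProjOfIsCompl_apply_right hc ⟨h, hh⟩
    show ((Submodule.linearProjOfIsCompl _ _ hc h) : A) = 0
    exact congrArg Subtype.val this
  let α : A →ₗ[k] k := (Coalgebra.counit (R := k) (A := A)) ∘ₗ π
  have hα1 : α 1 = 1 := by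
    show Coalgebra.counit (R := k) (π 1) = 1
    rw [hπ1, Bialgebra.counit_one]
  have hαH : ∀ h ∈ H, α h = 0 := by
    intro h hh
    show Coalgebra.counit (R := k) (π h) = 0
    rw [hπH h hh, map_zero]
  refine ⟨α, ?_, hα1⟩
  unfold Hoch.IsComodHom
  apply LinearMap.ext
  intro a
  show (α a) ⊗ₜ[k] (1 : A) = α.rTensor A (Coalgebra.comul (R := k) (A := A) a)
  have ha : a ∈ (Submodule.span k {(1 : A)}) ⊔ H := by rw [hc.sup_eq_top]; trivial
  obtain ⟨y, hy, h, hh, rfl⟩ := Submodule.mem_sup.mp ha
  obtain ⟨r, rfl⟩ := Submodule.mem_span_singleton.mp hy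
  have e1 : α.rTensor A (Coalgebra.comul (R := k) (A := A) h) = 0 := by
    obtain ⟨z, hz⟩ := hH h hh
    have hz' : Coalgebra.comul (R := k) (A := A) h = H.subtype.rTensor A z := hz.symm
    rw [hz', ← LinearMap.comp_apply, ← LinearMap.rTensor_comp]
    have : α ∘ₗ H.subtype = 0 := by
      ext x
      exact hαH x.1 x.2
    rw [this, LinearMap.rTensor_zero, LinearMap.zero_apply]
  rw [map_add, map_add, map_add, e1, hαH h hh, add_zero, add_zero, map_smul, map_smul, map_smul, Bialgebra.comul_one,
    Algebra.TensorProduct.one_def, LinearMap.rTensor_tmul, hα1, TensorProduct.smul_tmul']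

end Groth.Agent.S12926
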