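import Groth.Statements.S12927

import Mathlib

set_option autoImplicit false
universe u v w
open HopfRep
open TensorProduct

namespace Groth.Agent.S12927

/-- Let `k` be a commutative ring, `A` a commutative bialgebra over `k`, flat as a `k`-module and `B` a
commutative `k`-algebra with a coaction of `A` that is an algebra map. If the trivial action of
`Spec A` on `Spec k` is tame — there is a comodule map `A → k` to the trivial comodule `k` (coaction
`r ↦ r ⊗ 1`) sending `1` to `1` — then the action on `Spec B` is tame: there is a comodule map `A →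
B` sending `1` to `1`. -/
theorem result
    (k : Type u) [CommRing k] (A : Type v) [CommRing A] [Bialgebra k A] [Module.Flat k A]
    (B : Type w) [CommRing B] [Algebra k B] [HopfRep.Comod k A B] [GLin.IsCoactAlg k A B]
    (htriv : ∃ α₀ : A →ₗ[k] k,
      @Hoch.IsComodHom k _ A _ _ _ A _ _ _ k _ _ (HopfRep.Comod.trivial k A k) α₀ ∧ α₀ 1 = 1) :
    ∃ α : A →ₗ[k] B, Hoch.IsComodHom A α ∧ α 1 = 1 := by
  obtain ⟨α₀, h0, h1⟩ := htriv
  refine ⟨(Algebra.linearMap k B) ∘ₗ α₀, ?_, ?_⟩
  · unfold Hoch.IsComodHom at h0 ⊢
    apply LinearMap.ext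
    intro a
    have h2 := LinearMap.congr_fun h0 a
    simp only [LinearMap.comp_apply] at h2 ⊢
    rw [LinearMap.rTensor_comp, LinearMap.comp_apply, ← h2]
    show HopfRep.Comod.coact (k := k) (A := A) (algebraMap k B (α₀ a)) = (LinearMap.rTensor A (Algebra.linearMap k B)) ((α₀ a) ⊗ₜ[k] (1 : A))
    rw [LinearMap.rTensor_tmul, Algebra.linearMap_apply, Algebra.algebraMap_eq_smul_one, map_smul,
      GLin.IsCoactAlg.coact_one (k := k) (A := A) (R := B), Algebra.TensorProduct.one_def, TensorProduct.smul_tmul']
  · rw [LinearMap.comp_apply, h1, Algebra.linearMap_apply, map_one]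

end Groth.Agent.S12927
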