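import Groth.Statements.S12931

import Mathlib

set_option autoImplicit false
universe u v w
open HopfRep

namespace Groth.Agent.S12931

/-- Let `R` be a commutative ring, `Γ` a finite set and `T` a commutative `R`-algebra which is
connected: nonzero, with no idempotents other than `0` and `1`. Then `γ ↦ (evaluation at γ : (Γ → R)
→ R → T)` is a bijection from `Γ` onto the `R`-algebra maps `(Γ → R) → T`: every such map sends
exactly one of the indicator functions to `1` and the others to `0`. (Only the bijection of sets is
stated; when `Γ` is a group, the compatibility with the group structures on both sides is not.) -/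
theorem result
    (R : Type u) [CommRing R] (Γ : Type v) [Finite Γ]
    (T : Type w) [CommRing T] [Algebra R T] [Nontrivial T]
    (hT : ∀ e : T, IsIdempotentElem e → e = 0 ∨ e = 1) :
    Function.Bijective (fun γ : Γ => (Algebra.ofId R T).comp (Pi.evalAlgHom R (fun _ : Γ => R) γ)) := by
  classical
  cases nonempty_fintype Γ
  constructor
  · intro γ δ h
    by_contra hne
    have := congrArg (fun f : (Γ → R) →ₐ[R] T => f (Pi.single γ 1)) h
    simp [Algebra.ofId_apply, Pi.single_eq_of_ne (Ne.symm hne)] at this
  · intro f
    have hsum : ∑ γ : Γ, f (Pi.single γ 1) = 1 := by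
      rw [← map_sum]
      have : ∑ γ : Γ, (Pi.single γ (1:R) : Γ → R) = 1 := by
        ext δ; simp [Finset.sum_apply]
      rw [this, map_one]
    have hid : ∀ γ, f (Pi.single γ 1) = 0 ∨ f (Pi.single γ 1) = 1 := by
      intro γ
      apply hT
      unfold IsIdempotentElem
      rw [← map_mul]
      congr 1
      ext δ
      by_cases h : δ = γ <;> simp [Pi.single_apply, h]
    have hex : ∃ γ, f (Pi.single γ 1) = 1 := by
      by_contra hcon
      push Not at hcon
      have : ∑ γ : Γ, f (Pi.single γ 1) = 0 :=
        Finset.sum_eq_zero (fun γ _ => (hid γ).resolve_right (hcon γ))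
      rw [hsum] at this
      exact one_ne_zero this
    obtain ⟨γ, hγ⟩ := hex
    refine ⟨γ, ?_⟩
    ext x
    · simp only [AlgHom.comp_apply, Pi.evalAlgHom_apply, Algebra.ofId_apply]
      have h1 : f x = f x * f (Pi.single γ 1) := by rw [hγ, mul_one]
      rw [h1, ← map_mul]
      have h2 : x * Pi.single γ 1 = algebraMap R (Γ → R) (x γ) * Pi.single γ 1 := by
        ext δ
        by_cases h : δ = γ
        · subst h; simp
        · simp [Pi.single_eq_of_ne h]
      rw [h2, map_mul, hγ, mul_one, AlgHom.commutes]

end Groth.Agent.S12931
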