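import Groth.Statements.S12932

import Mathlib

set_option autoImplicit false
universe u v
open scoped BigOperators
open InvTh

namespace Groth.Agent.S12932

/-- Let `B` be a commutative ring with an action of a finite group `Γ` by ring automorphisms, and call a
prime ideal `P` of `B` tame when the order of its inertia group `{γ | γ • x - x ∈ P for all x}` is
not divisible by the characteristic of `B/P` (its ramification group is trivial). Then every prime
of `B` is tame if and only if the trace `b ↦ Σ_γ γ • b`, which takes values in the invariant ring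
`B^Γ` and is `B^Γ`-linear, is onto `B^Γ` — equivalently, some element of `B` has trace `1`. -/
theorem result
    (B : Type u) [CommRing B] (Γ : Type v) [Group Γ] [Fintype Γ] [MulSemiringAction Γ B] :
    (∃ b : B, ∑ γ : Γ, γ • b = 1) ↔
      ∀ P : Ideal B, P.IsPrime → ((Nat.card (P.inertia Γ) : ℕ) : B ⧸ P) ≠ 0 := by
  classical
  -- the trace modulo P
  have key : ∀ (P : Ideal B) (b : B), Ideal.Quotient.mk P (∑ γ : Γ, γ • b) =
      ((Nat.card (P.inertia Γ) : ℕ) : B ⧸ P) * ∑ q : Quotient (QuotientGroup.rightRel (P.inertia Γ)), 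
        Ideal.Quotient.mk P (q.out • b) := by
    intro P b
    have hI : ∀ γ ∈ P.inertia Γ, ∀ x : B, Ideal.Quotient.mk P (γ • x) = Ideal.Quotient.mk P x := by
      intro γ hγ x
      rw [Ideal.Quotient.mk_eq_mk_iff_sub_mem]
      exact hγ x
    have hcls : ∀ γ : Γ, Ideal.Quotient.mk P (γ • b) = Ideal.Quotient.mk P ((Quotient.mk (QuotientGroup.rightRel (P.inertia Γ)) γ).out • b) := by
      intro γ
      have h := Quotient.mk_out (s := QuotientGroup.rightRel (P.inertia Γ)) γ
      have h2 := (QuotientGroup.rightRel_apply.mp h)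
      -- h2 : γ * out⁻¹ ∈ I
      have h3 := hI _ h2 ((Quotient.mk (QuotientGroup.rightRel (P.inertia Γ)) γ).out • b)
      rw [← mul_smul] at h3
      simpa using h3
    rw [map_sum]
    rw [Finset.sum_congr rfl (fun γ _ => hcls γ)]
    rw [← Finset.sum_fiberwise_of_maps_to (s := Finset.univ) (t := Finset.univ) (g := fun γ : Γ => Quotient.mk (QuotientGroup.rightRel (P.inertia Γ)) γ) (fun _ _ => Finset.mem_univ _)]
    rw [Finset.mul_sum]
    apply Finset.sum_congr rfl
    intro q _
    rw [Finset.sum_congr rfl (g := fun _ => Ideal.Quotient.mk P (q.out • b)) (by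
      intro γ hγ
      simp only [Finset.mem_filter, Finset.mem_univ, true_and] at hγ
      rw [hγ])]
    rw [Finset.sum_const, nsmul_eq_mul]
    congr 2
    rw [← Fintype.card_subtype, ← Nat.card_eq_fintype_card]
    refine Nat.card_congr ?_
    refine ⟨fun γ => ⟨γ.1 * q.out⁻¹, ?_⟩, fun i => ⟨i.1 * q.out, ?_⟩, ?_, ?_⟩
    · have h := γ.2
      have h2 : Quotient.mk (QuotientGroup.rightRel (P.inertia Γ)) q.out = Quotient.mk (QuotientGroup.rightRel (P.inertia Γ)) γ.1 := by
        rw [h]; exact Quotient.out_eq q
      exact QuotientGroup.rightRel_apply.mp (Quotient.exact h2)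
    · have : Quotient.mk (QuotientGroup.rightRel (P.inertia Γ)) q.out = Quotient.mk (QuotientGroup.rightRel (P.inertia Γ)) (i.1 * q.out) := by
        apply Quotient.sound
        apply QuotientGroup.rightRel_apply.mpr
        simpa using i.2
      rw [← this]; exact Quotient.out_eq q
    · intro γ; simp
    · intro i; simp
  constructor
  · rintro ⟨b, hb⟩ P hP h0
    have := key P b
    rw [hb, h0, zero_mul, map_one] at this
    exact one_ne_zero this
  · intro h
    let A : Subring B := FixedPoints.subring B Γ
    -- trace ideal in A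
    have htr : ∀ b : B, (∑ γ : Γ, γ • b) ∈ A := by
      intro b g
      rw [Finset.smul_sum]
      refine Fintype.sum_equiv (Equiv.mulLeft g) _ _ ?_
      intro γ; simp [mul_smul]
    let T : Ideal A :=
      { carrier := {a | ∃ b : B, ∑ γ : Γ, γ • b = (a : B)}
        add_mem' := by
          rintro a a' ⟨b, hb⟩ ⟨b', hb'⟩
          refine ⟨b + b', ?_⟩
          simp [smul_add, Finset.sum_add_distrib, hb, hb']
        zero_mem' := ⟨0, by simp⟩
        smul_mem' := by
          rintro c a ⟨b, hb⟩
          refine ⟨(c : B) * b, ?_⟩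
          have : ∀ γ : Γ, γ • ((c : B) * b) = (c : B) * γ • b := by
            intro γ; rw [smul_mul']; congr 1; exact c.2 γ
          simp only [this, ← Finset.mul_sum, hb]
          rfl }
    by_contra hcon
    have hT : T ≠ ⊤ := by
      intro hT
      have : (1 : A) ∈ T := by rw [hT]; trivial
      obtain ⟨b, hb⟩ := this
      exact hcon ⟨b, by simpa using hb⟩
    obtain ⟨m, hm, hTm⟩ := Ideal.exists_le_maximal T hT
    haveI : Algebra.IsInvariant A B Γ := ⟨fun b hb => ⟨⟨b, hb⟩, rfl⟩⟩
    haveI : Algebra.IsIntegral A B := Algebra.IsInvariant.isIntegral A B Γ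
    obtain ⟨P, hP, hPm⟩ := Ideal.exists_ideal_over_maximal_of_isIntegral (S := B) m (by
      have : RingHom.ker (algebraMap A B) = ⊥ := (RingHom.injective_iff_ker_eq_bot _).mp Subtype.val_injective
      rw [this]; exact bot_le)
    have hPp : P.IsPrime := hP.isPrime
    have hall : ∀ b : B, Ideal.Quotient.mk P (∑ γ : Γ, γ • b) = 0 := by
      intro b
      rw [Ideal.Quotient.eq_zero_iff_mem]
      have : (⟨_, htr b⟩ : A) ∈ m := hTm ⟨b, rfl⟩
      rw [← hPm] at this
      exact this
    have hcard := h P hPp
    have hzero : ∀ b : B, ∑ q : Quotient (QuotientGroup.rightRel (P.inertia Γ)), Ideal.Quotient.mk P (q.out • b) = 0 := by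
      intro b
      have := key P b
      rw [hall b] at this
      exact (mul_eq_zero.mp this.symm).resolve_left hcard
    -- independence of characters
    let χ : Quotient (QuotientGroup.rightRel (P.inertia Γ)) → (B →* (B ⧸ P)) := fun q =>
      ((Ideal.Quotient.mk P).comp (MulSemiringAction.toRingHom Γ B q.out)).toMonoidHom
    have hχ : Function.Injective χ := by
      intro q q' hqq
      rw [← Quotient.out_eq q, ← Quotient.out_eq q']
      apply Quotient.sound
      apply QuotientGroup.rightRel_apply.mpr
      intro x
      have := DFunLike.congr_fun hqq (q.out⁻¹ • x)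
      change Ideal.Quotient.mk P (q.out • (q.out⁻¹ • x)) = Ideal.Quotient.mk P (q'.out • (q.out⁻¹ • x)) at this
      rw [smul_inv_smul] at this
      change (q'.out * q.out⁻¹) • x - x ∈ P
      rw [mul_smul, ← Ideal.Quotient.mk_eq_mk_iff_sub_mem]
      exact this.symm
    have hli := (linearIndependent_monoidHom B (B ⧸ P)).comp χ hχ
    rw [Fintype.linearIndependent_iff] at hli
    have := hli (fun _ => 1) (by
      ext b
      simp only [Function.comp_apply, one_smul, Finset.sum_apply, Pi.zero_apply]
      exact hzero b) (Quotient.mk _ 1)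
    exact one_ne_zero this

end Groth.Agent.S12932
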