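import Groth.Statements.S12933

import Mathlib

set_option autoImplicit false
universe u v w w'
open TensorProduct
open InvTh

namespace Groth.Agent.S12933
open TensorProduct

/-- Let `R` be a commutative ring, `B` a commutative `R`-algebra with an action of a finite group `Γ` by
`R`-algebra automorphisms, and `R'` a flat commutative `R`-algebra; let `Γ` act on `R' ⊗_R B`
through the factor `B`. Then an element of `R' ⊗_R B` is fixed by every element of `Γ` if and only
if it lies in the `R'`-submodule spanned by the tensors `1 ⊗ b` with `b ∈ B^Γ`: taking invariants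
commutes with flat base change (the map `R' ⊗_R B^Γ → R' ⊗_R B` being moreover injective by
flatness). -/
theorem result
    (R : Type u) [CommRing R] (B : Type v) [CommRing B] [Algebra R B]
    (Γ : Type w) [Group Γ] [Finite Γ] [MulSemiringAction Γ B] [SMulCommClass Γ R B]
    (R' : Type w') [CommRing R'] [Algebra R R'] [Module.Flat R R']
    (x : R' ⊗[R] B) :
    (∀ γ : Γ, Algebra.TensorProduct.map (AlgHom.id R R') (MulSemiringAction.toAlgHom R B γ) x = x) ↔
      x ∈ Submodule.span R' ((fun b : B => (1 : R') ⊗ₜ[R] b) '' {b : B | ∀ γ : Γ, γ • b = b}) := by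
  classical
  haveI := Fintype.ofFinite Γ
  constructor
  · intro hx
    let ψ : B →ₗ[R] (Γ → B) := LinearMap.pi (fun γ => (MulSemiringAction.toAlgHom R B γ).toLinearMap - LinearMap.id)
    have hex : Function.Exact (LinearMap.ker ψ).subtype ψ := LinearMap.exact_subtype_ker_map ψ
    have hex' := Module.Flat.lTensor_exact R' hex
    have h0 : ψ.lTensor R' x = 0 := by
      apply (TensorProduct.piRight R R R' (fun _ : Γ => B)).injective
      rw [map_zero]
      funext γ
      have h1 : ∀ x : R' ⊗[R] B, (TensorProduct.piRight R R R' (fun _ : Γ => B)) (ψ.lTensor R' x) γ =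
          Algebra.TensorProduct.map (AlgHom.id R R') (MulSemiringAction.toAlgHom R B γ) x - x := by
        intro x
        induction x using TensorProduct.induction_on with
        | zero => simp
        | tmul a b => simp [ψ, TensorProduct.tmul_sub]
        | add a b ha hb => rw [map_add, map_add, Pi.add_apply, ha, hb, map_add]; abel
      rw [h1, hx γ, sub_self]; rfl
    obtain ⟨y, rfl⟩ := (hex' x).mp h0
    clear h0 hx
    induction y using TensorProduct.induction_on with
    | zero => rw [map_zero]; exact zero_mem _
    | tmul a b =>
      rw [LinearMap.lTensor_tmul]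
      have : a ⊗ₜ[R] ((LinearMap.ker ψ).subtype b) = a • ((1 : R') ⊗ₜ[R] (b : B)) := by
        rw [TensorProduct.smul_tmul', smul_eq_mul, mul_one]; rfl
      rw [this]
      refine Submodule.smul_mem _ _ (Submodule.subset_span ⟨b, ?_, rfl⟩)
      intro γ
      have h2 : ψ b = 0 := b.2
      have h3 := congrFun h2 γ
      exact sub_eq_zero.mp h3
    | add a b ha hb => rw [map_add]; exact add_mem ha hb
  · intro hx γ
    induction hx using Submodule.span_induction with
    | mem x hx =>
      obtain ⟨b, hb, rfl⟩ := hx
      simp only [Algebra.TensorProduct.map_tmul, AlgHom.id_apply]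
      congr 1
      exact hb γ
    | zero => rw [map_zero]
    | add x y _ _ hx hy => rw [map_add, hx, hy]
    | smul a x _ hx =>
      have h4 : a • x = (a ⊗ₜ[R] (1 : B)) * x := by
        rw [Algebra.smul_def]; rfl
      rw [h4, map_mul, hx, Algebra.TensorProduct.map_tmul, map_one]; rfl

end Groth.Agent.S12933
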