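import Groth.Statements.S12936

import Mathlib

set_option autoImplicit false
universe u v
open InvTh

namespace Groth.Agent.S12936

/-- Let `B` be a commutative ring with an action of a finite group `Γ` by ring automorphisms and `P` a
maximal ideal of `B`, with decomposition group `D_P = {γ | γP = P}` and decomposition ring `D =
B^{D_P}`. Then `D = B^Γ + (P ∩ D)`: every element of `B` fixed by `D_P` is congruent modulo `P` to a
`Γ`-invariant element. Hence the residue field of `D` at `P ∩ D` is that of `B^Γ` at `P ∩ B^Γ`; for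
an arbitrary prime `P` the same equality of residue fields follows by localising at `P ∩ B^Γ`. (The
published statement prints this residue field as `k(P)`; the proof establishes the equality with the
residue field of `B^Γ` stated here.) -/
theorem result
    (B : Type u) [CommRing B] (Γ : Type v) [Group Γ] [Finite Γ] [MulSemiringAction Γ B]
    (P : Ideal B) [P.IsMaximal] (x : B)
    (hx : ∀ γ : Γ, (∀ y : B, y ∈ P ↔ γ • y ∈ P) → γ • x = x) :
    ∃ c : B, (∀ γ : Γ, γ • c = c) ∧ x - c ∈ P := by
  classical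
  cases nonempty_fintype Γ
  -- decomposition group as a subgroup
  let D : Subgroup Γ :=
    { carrier := {γ | ∀ y : B, y ∈ P ↔ γ • y ∈ P}
      one_mem' := by intro y; simp
      mul_mem' := by
        intro a b ha hb y
        rw [mul_smul, ← ha, ← hb]
      inv_mem' := by
        intro a ha y
        rw [ha (a⁻¹ • y), smul_inv_smul] }
  have hmemD : ∀ γ, γ ∈ D ↔ ∀ y : B, y ∈ P ↔ γ • y ∈ P := fun γ => Iff.rfl
  -- translates of P: Q γ = {y | γ⁻¹ • y ∈ P}
  let Q : Γ → Ideal B := fun γ => P.comap (MulSemiringAction.toRingHom Γ B γ)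
  have hQ : ∀ γ y, y ∈ Q γ ↔ γ • y ∈ P := fun γ y => Iff.rfl
  have hQmax : ∀ γ, (Q γ).IsMaximal := fun γ =>
    Ideal.comap_isMaximal_of_surjective _ (MulAction.surjective γ)
  have hPQ : ∀ γ, γ ∉ D → IsCoprime P (Q γ) := by
    intro γ hγ
    rw [Ideal.isCoprime_iff_sup_eq]
    apply Ideal.IsMaximal.coprime_of_ne inferInstance (hQmax γ)
    intro h
    apply hγ
    intro y
    rw [← hQ γ, ← h]
  -- element e0
  have hcop : IsCoprime P (⨅ γ ∈ (Finset.univ.filter (fun γ : Γ => γ ∉ D)), Q γ) := by
    apply Ideal.isCoprime_biInf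
    intro γ hγ
    exact hPQ γ (by simpa using hγ)
  rw [Ideal.isCoprime_iff_add, Ideal.one_eq_top, Ideal.eq_top_iff_one, Ideal.add_eq_sup, Submodule.mem_sup] at hcop
  obtain ⟨p, hp, e0, he0, hpe⟩ := hcop
  have he0' : ∀ γ, γ ∉ D → γ • e0 ∈ P := by
    intro γ hγ
    have := (Ideal.mem_iInf.mp he0 γ)
    have := (Ideal.mem_iInf.mp this (by simpa using hγ))
    exact this
  have he01 : e0 - 1 ∈ P := by
    have : e0 - 1 = - p := by rw [← hpe]; ring
    rw [this]; exact P.neg_mem hp
  let e : B := ∏ δ : D, (δ : Γ) • e0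
  have heD : ∀ γ ∈ D, γ • e = e := by
    intro γ hγ
    simp only [e, Finset.smul_prod']
    refine Fintype.prod_equiv (Equiv.mulLeft (⟨γ, hγ⟩ : D)) _ _ ?_
    intro δ
    simp [mul_smul]
  have he1 : e - 1 ∈ P := by
    rw [← Ideal.Quotient.mk_eq_mk_iff_sub_mem, map_prod, map_one]
    apply Finset.prod_eq_one
    intro δ _
    rw [← map_one (Ideal.Quotient.mk P), Ideal.Quotient.mk_eq_mk_iff_sub_mem]
    have := (δ.2 (e0 - 1)).1 he01
    simpa [smul_sub] using this
  have heP : ∀ γ, γ ∉ D → γ • e ∈ P := by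
    intro γ hγ
    have : γ • e = ∏ δ : D, (γ * (δ : Γ)) • e0 := by
      simp only [e, Finset.smul_prod', mul_smul]
    rw [this]
    refine Ideal.mem_of_dvd P (Finset.dvd_prod_of_mem _ (Finset.mem_univ (1 : D))) ?_
    simpa using he0' γ hγ
  let y : B := x * e
  have hy : ∀ γ ∈ D, γ • y = y := by
    intro γ hγ
    simp only [y, smul_mul']
    rw [hx γ hγ, heD γ hγ]
  let f : Γ ⧸ D → B := fun q => Quotient.liftOn' q (fun γ => γ • y) (by
    intro a b hab
    rw [QuotientGroup.leftRel_apply] at hab
    have := hy _ hab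
    rw [mul_smul, inv_smul_eq_iff] at this
    exact this.symm)
  have hf : ∀ γ : Γ, f (γ : Γ ⧸ D) = γ • y := fun γ => rfl
  have : Fintype (Γ ⧸ D) := Fintype.ofFinite _
  refine ⟨∑ q : Γ ⧸ D, f q, ?_, ?_⟩
  · intro γ
    rw [Finset.smul_sum]
    refine Fintype.sum_equiv (MulAction.toPerm γ) _ _ ?_
    intro q
    induction q using QuotientGroup.induction_on with
    | H g => 
      show γ • f _ = f (γ • (g : Γ ⧸ D))
      rw [hf, ← mul_smul, ← hf]; rfl
  · rw [← Ideal.Quotient.mk_eq_mk_iff_sub_mem, map_sum]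
    rw [Finset.sum_eq_single ((1 : Γ) : Γ ⧸ D)]
    · rw [hf, one_smul]
      have : (Ideal.Quotient.mk P) e = 1 := by
        rw [← map_one (Ideal.Quotient.mk P), Ideal.Quotient.mk_eq_mk_iff_sub_mem]; exact he1
      simp only [y, map_mul, this, mul_one]
    · intro q _ hq
      induction q using QuotientGroup.induction_on with
      | H g =>
        rw [hf, Ideal.Quotient.eq_zero_iff_mem]
        simp only [y, smul_mul']
        apply P.mul_mem_left
        apply heP
        intro hg
        apply hq
        rw [QuotientGroup.eq]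
        simpa using D.inv_mem hg
    · intro h; exact absurd (Finset.mem_univ _) h

end Groth.Agent.S12936
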