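import Groth.Statements.S1304
import Groth.Agent.Lib.Helper2_Thick

set_option autoImplicit false
universe u
open FlatMor

namespace Groth.Agent.S1304


open AlgebraicGeometry CategoryTheory Limits in
/-- For a morphism of thickenings, that is a commutative square whose horizontal maps are thickenings
(closed immersions that are surjective on points), the morphism between the thin schemes is
universally closed if and only if the morphism between the thick ones is. -/
theorem result {X X' S S' : Scheme.{u}} (iX : X ⟶ X') (iS : S ⟶ S') (f : X ⟶ S) (f' : X' ⟶ S')
    (hX : MoreMor.IsThickening iX) (hS : MoreMor.IsThickening iS) (w : iX ≫ f' = f ≫ iS) :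
    UniversallyClosed f ↔ UniversallyClosed f' := by
  exact H2.thick_universallyClosed_iff iX iS f f' hX hS w


end Groth.Agent.S1304
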