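import Groth.Statements.S1306
import Groth.Agent.Lib.Helper2_Thick

set_option autoImplicit false
universe u
open FlatMor

namespace Groth.Agent.S1306


open AlgebraicGeometry CategoryTheory Limits in
/-- For a morphism of thickenings, that is a commutative square whose horizontal maps are thickenings
(closed immersions that are surjective on points), the morphism between the thin schemes is
quasi-separated if and only if the morphism between the thick ones is. -/
theorem result {X X' S S' : Scheme.{u}} (iX : X ⟶ X') (iS : S ⟶ S') (f : X ⟶ S) (f' : X' ⟶ S')
    (hX : MoreMor.IsThickening iX) (hS : MoreMor.IsThickening iS) (w : iX ≫ f' = f ≫ iS) :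
    QuasiSeparated f ↔ QuasiSeparated f' := by
  exact H2.thick_quasiSeparated_iff iX iS f f' hX hS w


end Groth.Agent.S1306
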