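import Groth.Statements.S13088

import Mathlib
import Groth.Agent.Lib.Helper19Lie3b

set_option autoImplicit false
universe u
open Lie3Mod

namespace Groth.Agent.S13088

/-- Let A be a commutative domain and D = A[a,b,c,d,e,f,g,h,i]. Then the ideal L = (a − i, b + f, d + h)
of D is minimal among the prime ideals of D containing the Jacobi ideal I = (Q1, Q2, Q3), where Q1 =
ah + di − fg − bg, Q2 = ie + bd − fh − ae, Q3 = hc + dc − af − bi. (The published statement is made
with a regular base ring in force, used there as a domain; the printed argument uses only that the
base ring is a domain, which is the hypothesis taken here.) -/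
theorem result (A : Type u) [CommRing A] [IsDomain A] :
    Lie3Mod.idL A ∈ (Lie3Mod.idI A).minimalPrimes := by
  exact Groth.Agent.H19Lie3.L_minimal A

end Groth.Agent.S13088
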