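import Groth.Statements.S13090

import Mathlib
import Groth.Agent.Lib.Helper19Lie3b

set_option autoImplicit false
universe u
open Lie3Mod

namespace Groth.Agent.S13090

/-- Let A be a regular commutative ring (Noetherian with regular localizations) and D =
A[a,b,c,d,e,f,g,h,i]. With I = (Q1, Q2, Q3) the Jacobi ideal (Q1 = ah + di − fg − bg, Q2 = ie + bd −
fh − ae, Q3 = hc + dc − af − bi), J = I + (det M) where det M = −ch² + gbf + ei² − gec + hbi − ihf,
and L = (a − i, b + f, d + h), the colon ideal (I : J) = {x ∈ D | xJ ⊆ I} equals L; in other words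
L/I is the annihilator of J/I in D/I. (The printed statement also says that D/J has Cohen–Macaulay
geometric fibres of dimension 6 over A; that clause is not restated here.) -/
theorem result (A : Type u) [CommRing A] [IsRegularRing A] :
    (Lie3Mod.idI A).colon (Lie3Mod.idJ A : Set (Lie3Mod.D A)) = Lie3Mod.idL A := by
  exact Groth.Agent.H19Lie3.colon_J_of_nzd A (Groth.Agent.H19Lie3.nzd_any A)

end Groth.Agent.S13090
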