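import Groth.Statements.S13091

import Mathlib
import Groth.Agent.Lib.Helper19Lie3b

set_option autoImplicit false
universe u
open Lie3Mod

namespace Groth.Agent.S13091

/-- Let A be a regular commutative ring (Noetherian with regular localizations) and D =
A[a,b,c,d,e,f,g,h,i]. Then the Jacobi ideal I = (Q1, Q2, Q3) (Q1 = ah + di − fg − bg, Q2 = ie + bd −
fh − ae, Q3 = hc + dc − af − bi) is the intersection of the two ideals J = I + (det M), det M = −ch²
+ gbf + ei² − gec + hbi − ihf, and L = (a − i, b + f, d + h). -/
theorem result (A : Type u) [CommRing A] [IsRegularRing A] :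
    Lie3Mod.idI A = Lie3Mod.idJ A ⊓ Lie3Mod.idL A := by
  exact Groth.Agent.H19Lie3.I_eq_of_nzd A (Groth.Agent.H19Lie3.nzd_any A)

end Groth.Agent.S13091
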