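import Groth.Statements.S13092
import Groth.Agent.Lib.Helper19Lie3

set_option autoImplicit false
universe u
open Lie3Mod

namespace Groth.Agent.S13092

/-- Let k be an algebraically closed field and D = k[a,b,c,d,e,f,g,h,i]. Then the ideal J = (Q1, Q2, Q3,
det M) of D, generated by the Jacobi polynomials Q1 = ah + di − fg − bg, Q2 = ie + bd − fh − ae, Q3
= hc + dc − af − bi and det M = −ch² + gbf + ei² − gec + hbi − ihf, is a prime ideal (so D/J is an
integral domain). -/
theorem result (k : Type u) [Field k] [IsAlgClosed k] :
    (Lie3Mod.idJ k).IsPrime := Groth.Agent.H19Lie3.idJ_isPrime k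

end Groth.Agent.S13092
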