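import Groth.Statements.S13093

import Mathlib
import Groth.Agent.Lib.Helper19Lie3b

set_option autoImplicit false
universe u
open Lie3Mod

namespace Groth.Agent.S13093

/-- Let k be an algebraically closed field and D = k[a,b,c,d,e,f,g,h,i]. Then the ideal J = (Q1, Q2, Q3,
det M) (Q1 = ah + di − fg − bg, Q2 = ie + bd − fh − ae, Q3 = hc + dc − af − bi, det M = −ch² + gbf +
ei² − gec + hbi − ihf) is minimal among the prime ideals of D containing the Jacobi ideal I = (Q1,
Q2, Q3). (The published statement is made with a regular base ring in force; primality of J is
established there over an algebraically closed field, which is the case stated here.) -/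
theorem result (k : Type u) [Field k] [IsAlgClosed k] :
    Lie3Mod.idJ k ∈ (Lie3Mod.idI k).minimalPrimes := by
  exact Groth.Agent.H19Lie3.J_minimal k

end Groth.Agent.S13093
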