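import Groth.Statements.S13094

import Mathlib
import Groth.Agent.Lib.Helper19Lie3b

set_option autoImplicit false
open Lie3Mod

namespace Groth.Agent.S13094

/-- The second component of the moduli scheme of based three-dimensional Lie algebras is flat over the
integers: the ring Z[a,b,c,d,e,f,g,h,i]/J, where J = (Q1, Q2, Q3, det M) with Q1 = ah + di − fg −
bg, Q2 = ie + bd − fh − ae, Q3 = hc + dc − af − bi and det M = −ch² + gbf + ei² − gec + hbi − ihf,
is a flat Z-module. -/
theorem result :
    Module.Flat ℤ (Lie3Mod.D ℤ ⧸ Lie3Mod.idJ ℤ) := by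
  apply Groth.Agent.H19Lie3.flat_of
  intro n x hn hx
  exact ((Groth.Agent.H19Lie3.idJ_isPrime ℤ).mem_or_mem hx).resolve_left
    (Groth.Agent.H19Lie3.const_notMem_of_le Groth.Agent.H19Lie3.J_le_ker n hn)

end Groth.Agent.S13094
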