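import Groth.Statements.S13095

import Mathlib
import Groth.Agent.Lib.Helper19Lie3b

set_option autoImplicit false
open Lie3Mod

namespace Groth.Agent.S13095

/-- The moduli scheme of based three-dimensional Lie algebras is flat over the integers and reduced:
with I = (Q1, Q2, Q3) the Jacobi ideal of Z[a,b,c,d,e,f,g,h,i] (Q1 = ah + di − fg − bg, Q2 = ie + bd
− fh − ae, Q3 = hc + dc − af − bi), the ring Z[a,b,c,d,e,f,g,h,i]/I is a flat Z-module and I is a
radical ideal. -/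
theorem result :
    Module.Flat ℤ (Lie3Mod.D ℤ ⧸ Lie3Mod.idI ℤ) ∧ (Lie3Mod.idI ℤ).IsRadical := by
  refine ⟨?_, Groth.Agent.H19Lie3.I_radical ℤ⟩
  apply Groth.Agent.H19Lie3.flat_of
  intro n x hn hx
  rw [Groth.Agent.H19Lie3.I_eq_of_nzd ℤ (Groth.Agent.H19Lie3.nzd_any ℤ)] at hx ⊢
  exact ⟨((Groth.Agent.H19Lie3.idJ_isPrime ℤ).mem_or_mem hx.1).resolve_left
    (Groth.Agent.H19Lie3.const_notMem_of_le Groth.Agent.H19Lie3.J_le_ker n hn),
    ((Groth.Agent.H19Lie3.L_isPrime ℤ).mem_or_mem hx.2).resolve_left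
    (Groth.Agent.H19Lie3.const_notMem_of_le Groth.Agent.H19Lie3.L_le_ker n hn)⟩

end Groth.Agent.S13095
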