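import Groth.Statements.S13098

import Mathlib

set_option autoImplicit false
universe u v
open Lie3Mod

namespace Groth.Agent.S13098

/-- Let R be a commutative ring, M an R-module with a basis x = bs 0, y = bs 1, z = bs 2 indexed by Fin
3, and B an R-bilinear alternating map on M (B m m = 0) with B x y = a x + b y + c z, B x z = d x +
e y + f z and B y z = g x + h y + i z. Then B satisfies the Jacobi identity for all triples if and
only if the three Jacobi polynomials vanish: ah + di − fg − bg = 0, ie + bd − fh − ae = 0 and hc +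
dc − af − bi = 0. (This is the statement that Lie brackets on a based free module of rank 3 are the
points of the closed subscheme of affine 9-space defined by these three equations.) -/
theorem result (R : Type u) [CommRing R] (M : Type v) [AddCommGroup M] [Module R M]
    (bs : Module.Basis (Fin 3) R M) (B : M →ₗ[R] M →ₗ[R] M) (halt : ∀ m : M, B m m = 0)
    (a b c d e f g h i : R)
    (hxy : B (bs 0) (bs 1) = a • bs 0 + b • bs 1 + c • bs 2)
    (hxz : B (bs 0) (bs 2) = d • bs 0 + e • bs 1 + f • bs 2)
    (hyz : B (bs 1) (bs 2) = g • bs 0 + h • bs 1 + i • bs 2) :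
    (∀ u v w : M, B u (B v w) + B v (B w u) + B w (B u v) = 0) ↔
      (a * h + d * i - f * g - b * g = 0 ∧ i * e + b * d - f * h - a * e = 0 ∧
        h * c + d * c - a * f - b * i = 0) := by
  have hskew : ∀ u v : M, B u v = - B v u := by
    intro u v
    have h1 := halt (u + v)
    simp only [map_add, LinearMap.add_apply, halt, zero_add, add_zero] at h1
    exact eq_neg_of_add_eq_zero_left (by rw [← h1]; abel)
  have hyx : B (bs 1) (bs 0) = -(a • bs 0 + b • bs 1 + c • bs 2) := by rw [hskew, hxy]
  have hzx : B (bs 2) (bs 0) = -(d • bs 0 + e • bs 1 + f • bs 2) := by rw [hskew, hxz]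
  have hzy : B (bs 2) (bs 1) = -(g • bs 0 + h • bs 1 + i • bs 2) := by rw [hskew, hyz]
  have hxx := halt (bs 0)
  have hyy := halt (bs 1)
  have hzz := halt (bs 2)
  have key : ∀ u v w : M, B u (B v w) + B v (B w u) + B w (B u v) =
      (bs.repr u 0 * (bs.repr v 1 * bs.repr w 2 - bs.repr v 2 * bs.repr w 1)
       - bs.repr u 1 * (bs.repr v 0 * bs.repr w 2 - bs.repr v 2 * bs.repr w 0)
       + bs.repr u 2 * (bs.repr v 0 * bs.repr w 1 - bs.repr v 1 * bs.repr w 0)) •
      ((a * h + d * i - f * g - b * g) • bs 0 + (-(a * e) + i * e + b * d - f * h) • bs 1 +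
        (h * c + d * c - a * f - b * i) • bs 2) := by
    intro u v w
    conv_lhs => rw [← bs.sum_repr u, ← bs.sum_repr v, ← bs.sum_repr w]
    simp only [Fin.sum_univ_three, map_add, map_smul, LinearMap.add_apply, LinearMap.smul_apply,
      hxy, hxz, hyz, hyx, hzx, hzy, hxx, hyy, hzz, map_neg, map_zero, smul_zero, zero_add, add_zero]
    module
  constructor
  · intro H
    have h1 := H (bs 0) (bs 1) (bs 2)
    rw [key] at h1
    simp only [Module.Basis.repr_self, Finsupp.single_eq_same] at h1
    have s01 : (Finsupp.single (0 : Fin 3) (1 : R)) 1 = 0 := by simp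
    have s02 : (Finsupp.single (0 : Fin 3) (1 : R)) 2 = 0 := by simp
    have s10 : (Finsupp.single (1 : Fin 3) (1 : R)) 0 = 0 := by simp
    have s12 : (Finsupp.single (1 : Fin 3) (1 : R)) 2 = 0 := by simp
    have s20 : (Finsupp.single (2 : Fin 3) (1 : R)) 0 = 0 := by simp
    have s21 : (Finsupp.single (2 : Fin 3) (1 : R)) 1 = 0 := by simp
    simp only [s01, s02, s10, s12, s20, s21, mul_zero, mul_one, sub_zero, zero_mul, add_zero, one_smul] at h1
    have h2 := bs.linearIndependent
    rw [Fintype.linearIndependent_iff] at h2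
    have h3 := h2 ![a * h + d * i - f * g - b * g, -(a * e) + i * e + b * d - f * h, h * c + d * c - a * f - b * i] (by
      rw [Fin.sum_univ_three]; exact h1)
    refine ⟨h3 0, ?_, h3 2⟩
    have h4 : -(a * e) + i * e + b * d - f * h = 0 := h3 1
    linear_combination h4
  · rintro ⟨h1, h2, h3⟩ u v w
    rw [key, h1, h3, show -(a * e) + i * e + b * d - f * h = 0 by linear_combination h2]
    simp

end Groth.Agent.S13098
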