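import Groth.Statements.S13100

import Mathlib

set_option autoImplicit false
universe u
open GrpSch

namespace Groth.Agent.S13100

/-- Let k be an algebraically closed field of characteristic different from 2 and K = k((t)) the field
of Laurent series over k. Then a non-zero Laurent series f is a square in K if and only if its order
in t is even; consequently the group Kˣ/Kˣ² of non-zero elements modulo squares has exactly two
elements, represented by 1 and t. -/
theorem result (k : Type u) [Field k] [IsAlgClosed k] (h2 : (2 : k) ≠ 0)
    (f : LaurentSeries k) (hf : f ≠ 0) : IsSquare f ↔ Even f.order := by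
  constructor
  · rintro ⟨g, rfl⟩
    have hg : g ≠ 0 := by rintro rfl; simp at hf
    rw [HahnSeries.order_mul hg hg]
    exact ⟨_, rfl⟩
  · rintro ⟨n, hn⟩
    -- f = X^(2n) * powerSeriesPart
    have hfs := LaurentSeries.single_order_mul_powerSeriesPart f
    have hcc : PowerSeries.constantCoeff f.powerSeriesPart ≠ 0 := by
      rw [← PowerSeries.coeff_zero_eq_constantCoeff_apply, LaurentSeries.powerSeriesPart_coeff]
      simp only [Nat.cast_zero, add_zero]
      rw [← HahnSeries.leadingCoeff_eq]
      exact HahnSeries.leadingCoeff_ne_zero.mpr hf
    obtain ⟨a, ha⟩ := IsAlgClosed.exists_eq_mul_self (PowerSeries.constantCoeff f.powerSeriesPart)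
    have ha0 : a ≠ 0 := by rintro rfl; simp at ha; exact hcc ha
    have hsq : ∃ g : PowerSeries k, g * g = f.powerSeriesPart := by
      have hH := (inferInstance : HenselianRing (PowerSeries k) (Ideal.span {(PowerSeries.X : PowerSeries k)}))
      obtain ⟨g, hg, _⟩ := hH.is_henselian (Polynomial.X ^ 2 - Polynomial.C f.powerSeriesPart) (Polynomial.monic_X_pow_sub_C _ (by norm_num)) (PowerSeries.C a) (by
          simp only [Polynomial.eval_sub, Polynomial.eval_pow, Polynomial.eval_X, Polynomial.eval_C]
          rw [Ideal.mem_span_singleton, PowerSeries.X_dvd_iff]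
          simp [ha, pow_two]) (by
          simp only [Polynomial.derivative_sub, Polynomial.derivative_X_pow, Polynomial.derivative_C, sub_zero]
          simp only [Nat.cast_ofNat, map_ofNat, Nat.add_one_sub_one, pow_one, Polynomial.eval_mul, Polynomial.eval_ofNat, Polynomial.eval_X]
          apply IsUnit.map
          rw [PowerSeries.isUnit_iff_constantCoeff, map_mul, map_ofNat, PowerSeries.constantCoeff_C]
          exact (mul_ne_zero h2 ha0).isUnit)
      refine ⟨g, ?_⟩
      rw [Polynomial.IsRoot.def] at hg
      simp only [Polynomial.eval_sub, Polynomial.eval_pow, Polynomial.eval_X, Polynomial.eval_C] at hg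
      rw [← pow_two]; exact sub_eq_zero.mp hg
    obtain ⟨g, hg⟩ := hsq
    refine ⟨HahnSeries.single n 1 * (g : LaurentSeries k), ?_⟩
    rw [← hfs, ← hg, hn]
    rw [PowerSeries.coe_mul]
    have : (HahnSeries.single (n + n) (1 : k) : LaurentSeries k) = HahnSeries.single n 1 * HahnSeries.single n 1 := by
      rw [HahnSeries.single_mul_single, one_mul]
    rw [this]; ring

end Groth.Agent.S13100
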