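import Groth.Statements.S13101

import Mathlib

set_option autoImplicit false
universe u v
open GrpSch

namespace Groth.Agent.S13101
section aux
variable {A : Type u} [CommRing A] {L : Type v} [AddCommGroup L] [Module A L] (bs : Module.Basis (Fin 3) A L)
  {L' : Type*} [AddCommGroup L'] [Module A L'] (bs' : Module.Basis (Fin 3) A L')

lemma coord_eq {a b c a' b' c' : A}
    (h : a • bs 0 + b • bs 1 + c • bs 2 = a' • bs 0 + b' • bs 1 + c' • bs 2) : a = a' ∧ b = b' ∧ c = c' := by
  have h2 := bs.linearIndependent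
  rw [Fintype.linearIndependent_iff] at h2
  have h3 := h2 ![a - a', b - b', c - c'] (by
    rw [Fin.sum_univ_three]
    show (a - a') • bs 0 + (b - b') • bs 1 + (c - c') • bs 2 = 0
    rw [← sub_eq_zero] at h
    rw [← h]; module)
  exact ⟨sub_eq_zero.mp (h3 0), sub_eq_zero.mp (h3 1), sub_eq_zero.mp (h3 2)⟩

lemma exists_coord (x : L) : ∃ a b c : A, x = a • bs 0 + b • bs 1 + c • bs 2 :=
  ⟨bs.repr x 0, bs.repr x 1, bs.repr x 2, by
    conv_lhs => rw [← bs.sum_repr x]
    rw [Fin.sum_univ_three]⟩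

lemma isUnit_det (φ : L ≃ₗ[A] L') {a b c d e f g h i : A}
    (e0 : φ (bs 0) = a • bs' 0 + b • bs' 1 + c • bs' 2)
    (e1 : φ (bs 1) = d • bs' 0 + e • bs' 1 + f • bs' 2)
    (e2 : φ (bs 2) = g • bs' 0 + h • bs' 1 + i • bs' 2) :
    IsUnit (a * (e * i - f * h) - b * (d * i - f * g) + c * (d * h - e * g)) := by
  have h1 := LinearEquiv.isUnit_det φ bs bs'
  rw [Matrix.det_fin_three] at h1
  simp only [LinearMap.toMatrix_apply, LinearEquiv.coe_coe, e0, e1, e2, map_add, map_smul, Module.Basis.repr_self,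
    Finsupp.add_apply, Finsupp.smul_apply, smul_eq_mul, Finsupp.single_eq_same] at h1
  have s01 : (Finsupp.single (0 : Fin 3) (1 : A)) 1 = 0 := by simp
  have s02 : (Finsupp.single (0 : Fin 3) (1 : A)) 2 = 0 := by simp
  have s10 : (Finsupp.single (1 : Fin 3) (1 : A)) 0 = 0 := by simp
  have s12 : (Finsupp.single (1 : Fin 3) (1 : A)) 2 = 0 := by simp
  have s20 : (Finsupp.single (2 : Fin 3) (1 : A)) 0 = 0 := by simp
  have s21 : (Finsupp.single (2 : Fin 3) (1 : A)) 1 = 0 := by simp
  simp only [s01, s02, s10, s12, s20, s21, mul_zero, mul_one, add_zero, zero_add] at h1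
  convert h1 using 1
  ring
end aux

/-- Let A be a commutative ring in which 2 is a unit, and L a Lie algebra over A, free as a module with
basis x = bs 0, y = bs 1, z = bs 2 and brackets [x,y] = y, [x,z] = y + z, [y,z] = 0. Then for every
Lie algebra automorphism φ of L over A there are b, c, h ∈ A and a unit i of A with φ(x) = x + b y +
c z, φ(y) = i y and φ(z) = h y + i z. Only the form of an automorphism is stated, not that every map
of this form is one. (The published statement identifies the automorphism group scheme with a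
semidirect product of two additive groups by the product of the multiplicative and additive group,
for algebras over a field of Laurent series of characteristic not 2, and deduces the vanishing of
its first cohomology; this row records the determination of the automorphisms, over any base ring
with 2 invertible; the cohomological consequence is not restated.) -/
theorem result (A : Type u) [CommRing A] (h2 : IsUnit (2 : A))
    (L : Type v) [LieRing L] [LieAlgebra A L] (bs : Module.Basis (Fin 3) A L)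
    (hxy : ⁅bs 0, bs 1⁆ = bs 1) (hxz : ⁅bs 0, bs 2⁆ = bs 1 + bs 2) (hyz : ⁅bs 1, bs 2⁆ = 0)
    (φ : L ≃ₗ⁅A⁆ L) :
    ∃ b c h i : A, IsUnit i ∧ φ (bs 0) = bs 0 + b • bs 1 + c • bs 2 ∧ φ (bs 1) = i • bs 1 ∧
      φ (bs 2) = h • bs 1 + i • bs 2 := by
  obtain ⟨a, b, c, e0⟩ := exists_coord bs (φ (bs 0))
  obtain ⟨d, e, f, e1⟩ := exists_coord bs (φ (bs 1))
  obtain ⟨g, h, i, e2⟩ := exists_coord bs (φ (bs 2))
  have hdet := isUnit_det bs bs φ.toLinearEquiv e0 e1 e2
  have hyx : ⁅bs 1, bs 0⁆ = - bs 1 := by rw [← lie_skew, hxy]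
  have hzx : ⁅bs 2, bs 0⁆ = - (bs 1 + bs 2) := by rw [← lie_skew, hxz]
  have hzy : ⁅bs 2, bs 1⁆ = 0 := by rw [← lie_skew, hyz, neg_zero]
  have br : ∀ p0 p1 p2 q0 q1 q2 : A, ⁅p0 • bs 0 + p1 • bs 1 + p2 • bs 2, q0 • bs 0 + q1 • bs 1 + q2 • bs 2⁆ =
      (0 : A) • bs 0 + ((p0 * q1 - p1 * q0) + (p0 * q2 - p2 * q0)) • bs 1 + (p0 * q2 - p2 * q0) • bs 2 := by
    intro p0 p1 p2 q0 q1 q2
    simp only [lie_add, add_lie, lie_smul, smul_lie, lie_self, hxy, hxz, hyz, hyx, hzx, hzy, smul_zero, add_zero, zero_add]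
    module
  have k1 := φ.map_lie (bs 0) (bs 1)
  rw [hxy, e0, e1, br] at k1
  obtain ⟨k1a, k1b, k1c⟩ := coord_eq bs k1
  have k2 := φ.map_lie (bs 0) (bs 2)
  rw [hxz, map_add, e0, e1, e2, br, show d • bs 0 + e • bs 1 + f • bs 2 + (g • bs 0 + h • bs 1 + i • bs 2) =
    (d + g) • bs 0 + (e + h) • bs 1 + (f + i) • bs 2 by module] at k2
  obtain ⟨k2a, k2b, k2c⟩ := coord_eq bs k2
  subst k1a
  have hg : g = 0 := by linear_combination k2a
  subst hg
  have hdet' : IsUnit (a * (e * i - f * h)) := by
    convert hdet using 1; ring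
  have hD := isUnit_of_mul_isUnit_right hdet'
  have c1 : (a-1)*f = 0 := by linear_combination -k1c
  have c2 : (a-1)*e = -(a*f) := by linear_combination -k1b
  have c3 : (a-1)*i = f := by linear_combination -k2c
  have c4 : (a-1)*h + a*i = e := by linear_combination -k2b
  have n2 : (a - 1) ^ 2 = 0 := by
    apply hD.mul_left_eq_zero.mp
    linear_combination i*((a-1)*c2 - a*c1) - h*(a-1)*c1
  have hf : 2 * f = 0 := by
    linear_combination (a-1)*c4 - a*c3 + c2 - h*n2 - 2*c1
  have hf0 : f = 0 := h2.mul_right_eq_zero.mp hf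
  have hn : a - 1 = 0 := by
    apply hD.mul_left_eq_zero.mp
    linear_combination i * c2 - h * c1 - i * a * hf0
  have ha : a = 1 := by linear_combination hn
  subst ha
  subst hf0
  have he : e = i := by linear_combination -c4
  subst he
  refine ⟨b, c, h, e, ?_, ?_, ?_, ?_⟩
  · have : IsUnit (e * e) := by convert hD using 1; ring
    exact isUnit_of_mul_isUnit_left this
  · rw [e0, one_smul]
  · rw [e1, zero_smul, zero_smul, zero_add, add_zero]
  · rw [e2, zero_smul, zero_add]

end Groth.Agent.S13101
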