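import Groth.Statements.S13102

import Mathlib
import Groth.Agent.S13101

set_option autoImplicit false
universe u v w
open GrpSch

namespace Groth.Agent.S13102

/-- Let K be a field, α ∈ K, A a commutative K-algebra and L a Lie algebra over A which is free as an
A-module with basis x = bs 0, y = bs 1, z = bs 2 and brackets [x,y] = y, [x,z] = α z, [y,z] = 0. If
α² ≠ 1 then every Lie algebra automorphism φ of L over A satisfies φ(x) = x + b y + c z, φ(y) = e y,
φ(z) = i z for some b, c ∈ A and units e, i of A. If α = 1 then every such φ satisfies φ(x) = x + b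
y + c z, φ(y) = e y + f z, φ(z) = h y + i z with e i − f h a unit of A. (The printed statement
identifies the automorphism group schemes with the corresponding semidirect products, treats also α
= −1 in characteristic not 2, and computes first cohomology over a field of Laurent series; those
clauses are not restated here.) -/
theorem result (K : Type u) [Field K] (α : K) (A : Type v) [CommRing A] [Algebra K A]
    (L : Type w) [LieRing L] [LieAlgebra A L] (bs : Module.Basis (Fin 3) A L)
    (hxy : ⁅bs 0, bs 1⁆ = bs 1) (hxz : ⁅bs 0, bs 2⁆ = algebraMap K A α • bs 2) (hyz : ⁅bs 1, bs 2⁆ = 0)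
    (φ : L ≃ₗ⁅A⁆ L) :
    (α ^ 2 ≠ 1 → ∃ b c e i : A, IsUnit e ∧ IsUnit i ∧ φ (bs 0) = bs 0 + b • bs 1 + c • bs 2 ∧
        φ (bs 1) = e • bs 1 ∧ φ (bs 2) = i • bs 2) ∧
    (α = 1 → ∃ b c e f h i : A, IsUnit (e * i - f * h) ∧ φ (bs 0) = bs 0 + b • bs 1 + c • bs 2 ∧
        φ (bs 1) = e • bs 1 + f • bs 2 ∧ φ (bs 2) = h • bs 1 + i • bs 2) := by
  obtain ⟨a, b, c, e0⟩ := Groth.Agent.S13101.exists_coord bs (φ (bs 0))
  obtain ⟨d, e, f, e1⟩ := Groth.Agent.S13101.exists_coord bs (φ (bs 1))
  obtain ⟨g, h, i, e2⟩ := Groth.Agent.S13101.exists_coord bs (φ (bs 2))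
  have hdet := Groth.Agent.S13101.isUnit_det bs bs φ.toLinearEquiv e0 e1 e2
  set α' := algebraMap K A α with hα'
  have hyx : ⁅bs 1, bs 0⁆ = - bs 1 := by rw [← lie_skew, hxy]
  have hzx : ⁅bs 2, bs 0⁆ = - (α' • bs 2) := by rw [← lie_skew, hxz]
  have hzy : ⁅bs 2, bs 1⁆ = 0 := by rw [← lie_skew, hyz, neg_zero]
  have br : ∀ p0 p1 p2 q0 q1 q2 : A, ⁅p0 • bs 0 + p1 • bs 1 + p2 • bs 2, q0 • bs 0 + q1 • bs 1 + q2 • bs 2⁆ =
      (0 : A) • bs 0 + (p0 * q1 - p1 * q0) • bs 1 + (α' * (p0 * q2 - p2 * q0)) • bs 2 := by
    intro p0 p1 p2 q0 q1 q2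
    simp only [lie_add, add_lie, lie_smul, smul_lie, lie_self, hxy, hxz, hyz, hyx, hzx, hzy, smul_zero, add_zero, zero_add]
    module
  have k1 := φ.map_lie (bs 0) (bs 1)
  rw [hxy, e0, e1, br] at k1
  obtain ⟨k1a, k1b, k1c⟩ := Groth.Agent.S13101.coord_eq bs k1
  have k2 := φ.map_lie (bs 0) (bs 2)
  rw [hxz, map_smul, e0, e2, br, show α' • (g • bs 0 + h • bs 1 + i • bs 2) =
    (α' * g) • bs 0 + (α' * h) • bs 1 + (α' * i) • bs 2 by module] at k2
  obtain ⟨k2a, k2b, k2c⟩ := Groth.Agent.S13101.coord_eq bs k2
  have k3 := φ.map_lie (bs 1) (bs 2)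
  rw [hyz, map_zero, e1, e2, br, show (0 : L) = (0 : A) • bs 0 + (0 : A) • bs 1 + (0 : A) • bs 2 by module] at k3
  obtain ⟨-, k3b, k3c⟩ := Groth.Agent.S13101.coord_eq bs k3
  subst k1a
  have c1 : (a - 1) * e = 0 := by linear_combination -k1b
  have c2 : f = α' * a * f := by linear_combination k1c
  have c3 : e * g = 0 := by linear_combination k3b
  constructor
  · intro hα
    by_cases h0 : α = 0
    · have hα0 : α' = 0 := by rw [hα', h0, map_zero]
      have hf : f = 0 := by rw [c2, hα0]; ring
      subst hf
      have hu : IsUnit (a * (e * i)) := by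
        convert hdet using 1; linear_combination c * c3
      have hau := isUnit_of_mul_isUnit_left hu
      have heu := isUnit_of_mul_isUnit_left (isUnit_of_mul_isUnit_right hu)
      have hiu := isUnit_of_mul_isUnit_right (isUnit_of_mul_isUnit_right hu)
      have hg : g = 0 := heu.mul_right_eq_zero.mp c3
      subst hg
      have ha : a = 1 := by
        have := heu.mul_left_eq_zero.mp c1
        linear_combination this
      subst ha
      have hh : h = 0 := by rw [hα0] at k2b; linear_combination -k2b
      subst hh
      exact ⟨b, c, e, i, heu, hiu, by rw [e0, one_smul], by rw [e1]; module, by rw [e2]; module⟩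
    · have hαu : IsUnit α' := (IsUnit.mk0 α h0).map (algebraMap K A)
      have hg : g = 0 := hαu.mul_right_eq_zero.mp k2a
      subst hg
      have c4 : (a - 1) * i = 0 := by
        apply hαu.mul_right_eq_zero.mp
        linear_combination -k2c
      have c5 : α' * h = a * h := by linear_combination k2b
      have hu1 : IsUnit (1 - α' ^ 2) := by
        have : IsUnit (1 - α ^ 2) := IsUnit.mk0 _ (fun h => hα (by linear_combination -h))
        have h2 := this.map (algebraMap K A)
        rwa [map_sub, map_one, map_pow] at h2
      have hfh : f * h = 0 := by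
        apply hu1.mul_right_eq_zero.mp
        linear_combination h * c2 - α' * f * c5
      have hu : IsUnit (a * (e * i)) := by
        convert hdet using 1; linear_combination a * hfh
      have heu := isUnit_of_mul_isUnit_left (isUnit_of_mul_isUnit_right hu)
      have hiu := isUnit_of_mul_isUnit_right (isUnit_of_mul_isUnit_right hu)
      have ha : a = 1 := by
        have := heu.mul_left_eq_zero.mp c1
        linear_combination this
      subst ha
      have hu2 : IsUnit (1 - α') := by
        have : IsUnit (1 - α) := IsUnit.mk0 _ (fun h => hα (by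
          have : α = 1 := by linear_combination -h
          rw [this, one_pow]))
        have h2 := this.map (algebraMap K A)
        rwa [map_sub, map_one] at h2
      have hf : f = 0 := by
        apply hu2.mul_right_eq_zero.mp
        linear_combination c2
      have hh : h = 0 := by
        apply hu2.mul_right_eq_zero.mp
        linear_combination -c5
      subst hf
      subst hh
      exact ⟨b, c, e, i, heu, hiu, by rw [e0, one_smul], by rw [e1]; module, by rw [e2]; module⟩
  · intro hα
    have hα1 : α' = 1 := by rw [hα', hα, map_one]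
    have hg : g = 0 := by rw [hα1] at k2a; linear_combination k2a
    subst hg
    have hu : IsUnit (a * (e * i - f * h)) := by
      convert hdet using 1; ring
    have hD := isUnit_of_mul_isUnit_right hu
    have ha : a = 1 := by
      have : a - 1 = 0 := by
        apply hD.mul_left_eq_zero.mp
        have c2' : f = a * f := by rw [hα1] at c2; linear_combination c2
        linear_combination i * c1 + h * c2'
      linear_combination this
    subst ha
    exact ⟨b, c, e, f, h, i, hD, by rw [e0, one_smul], by rw [e1, zero_smul, zero_add], by rw [e2, zero_smul, zero_add]⟩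

end Groth.Agent.S13102
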