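import Groth.Statements.S13103

import Mathlib

set_option autoImplicit false
universe u v
open GrpSch

namespace Groth.Agent.S13103

open TensorProduct in
/-- Let A be a commutative ring and H an algebra over the power series ring A[[t]] (not assumed
commutative) which is flat as an A[[t]]-module, as a finite locally free algebra is. If the base
change A((t)) ⊗ H of H to the ring of Laurent series is commutative, then H itself is commutative.
(The published statement says that prolongations over A[[t]] of a commutative finite Hopf algebra
over the Laurent series are commutative, and adds that taking spectra is then an equivalence of
categories between prolongations of the Hopf algebra and prolongations of the corresponding group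
scheme; this row states the commutativity only, for any flat algebra, the Hopf structure playing no
role; the equivalence of categories is not stated.) -/
theorem result (A : Type u) [CommRing A]
    (H : Type v) [Ring H] [Algebra (PowerSeries A) H] [Module.Flat (PowerSeries A) H]
    (hcomm : ∀ x y : LaurentSeries A ⊗[PowerSeries A] H, x * y = y * x) :
    ∀ x y : H, x * y = y * x := by
  have hinj : Function.Injective (algebraMap (PowerSeries A) (LaurentSeries A)) := by
    have := HahnSeries.ofPowerSeries_injective (Γ := ℤ) (R := A)
    exact this
  have hinj2 : Function.Injective (Algebra.TensorProduct.includeRight : H →ₐ[PowerSeries A] LaurentSeries A ⊗[PowerSeries A] H) :=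
    Algebra.TensorProduct.includeRight_injective hinj
  intro x y
  apply hinj2
  rw [map_mul, map_mul]
  exact hcomm _ _

end Groth.Agent.S13103
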