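import Groth.Statements.S13107

import Mathlib
import Groth.Agent.S13101

set_option autoImplicit false
universe u v w
open GrpSch

namespace Groth.Agent.S13107
lemma core {K : Type u} [Field K] (t : K) (hno : ∀ a : K, t * a ^ 2 ≠ 1)
    (F : Type v) [LieRing F] [LieAlgebra K F] (bF : Module.Basis (Fin 3) K F)
    (hF01 : ⁅bF 0, bF 1⁆ = bF 2) (hF02 : ⁅bF 0, bF 2⁆ = t • bF 1)
    (hF12 : ⁅bF 1, bF 2⁆ = 0)
    (L : Type w) [LieRing L] [LieAlgebra K L] (bL : Module.Basis (Fin 3) K L)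
    (hL01 : ⁅bL 0, bL 1⁆ = bL 1) (hL02 : ⁅bL 0, bL 2⁆ = -bL 2) (hL12 : ⁅bL 1, bL 2⁆ = 0) :
    IsEmpty (L ≃ₗ⁅K⁆ F) := by
  constructor
  intro φ
  obtain ⟨a, b, c, e0⟩ := Groth.Agent.S13101.exists_coord bF (φ (bL 0))
  obtain ⟨d, e, f, e1⟩ := Groth.Agent.S13101.exists_coord bF (φ (bL 1))
  obtain ⟨g, h, i, e2⟩ := Groth.Agent.S13101.exists_coord bF (φ (bL 2))
  have hdet := Groth.Agent.S13101.isUnit_det bL bF φ.toLinearEquiv e0 e1 e2
  have hF10 : ⁅bF 1, bF 0⁆ = - bF 2 := by rw [← lie_skew, hF01]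
  have hF20 : ⁅bF 2, bF 0⁆ = - (t • bF 1) := by rw [← lie_skew, hF02]
  have hF21 : ⁅bF 2, bF 1⁆ = 0 := by rw [← lie_skew, hF12, neg_zero]
  have br : ∀ p0 p1 p2 q0 q1 q2 : K, ⁅p0 • bF 0 + p1 • bF 1 + p2 • bF 2, q0 • bF 0 + q1 • bF 1 + q2 • bF 2⁆ =
      (0 : K) • bF 0 + (t * (p0 * q2 - p2 * q0)) • bF 1 + (p0 * q1 - p1 * q0) • bF 2 := by
    intro p0 p1 p2 q0 q1 q2
    simp only [lie_add, add_lie, lie_smul, smul_lie, lie_self, hF01, hF02, hF12, hF10, hF20, hF21, smul_zero, add_zero, zero_add]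
    module
  have k1 := φ.map_lie (bL 0) (bL 1)
  rw [hL01, e0, e1, br] at k1
  obtain ⟨k1a, k1b, k1c⟩ := Groth.Agent.S13101.coord_eq bF k1
  have k2 := φ.map_lie (bL 0) (bL 2)
  rw [hL02, map_neg, e0, e2, br, show -(g • bF 0 + h • bF 1 + i • bF 2) =
    (-g) • bF 0 + (-h) • bF 1 + (-i) • bF 2 by module] at k2
  obtain ⟨k2a, k2b, k2c⟩ := Groth.Agent.S13101.coord_eq bF k2
  subst k1a
  have hg : g = 0 := by linear_combination -k2a
  subst hg
  have c1 : f = a * e := by linear_combination k1c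
  have c2 : e = t * (a * f) := by linear_combination k1b
  apply hno a
  by_contra hne
  have hne' : (1 - t * a ^ 2) ≠ 0 := fun h => hne (by linear_combination -h)
  have he : e = 0 := by
    have : (1 - t * a ^ 2) * e = 0 := by
      linear_combination c2 + t * a * c1
    exact (mul_eq_zero.mp this).resolve_left hne'
  have hf : f = 0 := by rw [c1, he, mul_zero]
  apply hdet.ne_zero
  rw [he, hf]; ring

/-- Let k be a field, K = k((t)) the field of Laurent series over k, F a Lie algebra over K with a basis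
x' = bF 0, y' = bF 1, z' = bF 2 and brackets [x',y'] = z', [x',z'] = t y', [y',z'] = 0, and L a Lie
algebra over K with a basis x = bL 0, y = bL 1, z = bL 2 and brackets [x,y] = y, [x,z] = −z, [y,z] =
0. Then there is no K-linear isomorphism of Lie algebras between L and F. (The published result is
the classification of three-dimensional Lie algebras over k((t)) for k algebraically closed of
characteristic not 2, with F its only non-split entry; this row states the non-isomorphism of F and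
L over k((t)) for every field k.) -/
theorem result (k : Type u) [Field k]
    (F : Type v) [LieRing F] [LieAlgebra (LaurentSeries k) F] (bF : Module.Basis (Fin 3) (LaurentSeries k) F)
    (hF01 : ⁅bF 0, bF 1⁆ = bF 2) (hF02 : ⁅bF 0, bF 2⁆ = (HahnSeries.single 1 (1 : k) : LaurentSeries k) • bF 1)
    (hF12 : ⁅bF 1, bF 2⁆ = 0)
    (L : Type w) [LieRing L] [LieAlgebra (LaurentSeries k) L] (bL : Module.Basis (Fin 3) (LaurentSeries k) L)
    (hL01 : ⁅bL 0, bL 1⁆ = bL 1) (hL02 : ⁅bL 0, bL 2⁆ = -bL 2) (hL12 : ⁅bL 1, bL 2⁆ = 0) :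
    IsEmpty (L ≃ₗ⁅LaurentSeries k⁆ F) := by
  refine core (HahnSeries.single 1 (1 : k) : LaurentSeries k) ?_ F bF hF01 hF02 hF12 L bL hL01 hL02 hL12
  intro a hta
  have ha0 : a ≠ 0 := by
    rintro rfl
    rw [zero_pow two_ne_zero, mul_zero] at hta
    exact zero_ne_one hta
  have ht0 : (HahnSeries.single 1 (1 : k) : LaurentSeries k) ≠ 0 := by
    intro h0
    rw [h0, zero_mul] at hta
    exact zero_ne_one hta
  have ho := congrArg HahnSeries.order hta
  rw [pow_two, HahnSeries.order_mul ht0 (mul_ne_zero ha0 ha0), HahnSeries.order_mul ha0 ha0,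
    HahnSeries.order_single one_ne_zero, HahnSeries.order_one] at ho
  omega

end Groth.Agent.S13107
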