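import Groth.Statements.S13108

import Mathlib
import Groth.Agent.S13101

set_option autoImplicit false
universe u v w
open GrpSch

namespace Groth.Agent.S13108
section aux
lemma lieEquiv_of {k : Type u} [CommRing k] {L : Type v} [LieRing L] [LieAlgebra k L] (b : Module.Basis (Fin 3) k L)
    {L' : Type w} [LieRing L'] [LieAlgebra k L'] (φ : L ≃ₗ[k] L')
    (h01 : φ ⁅b 0, b 1⁆ = ⁅φ (b 0), φ (b 1)⁆) (h02 : φ ⁅b 0, b 2⁆ = ⁅φ (b 0), φ (b 2)⁆)
    (h12 : φ ⁅b 1, b 2⁆ = ⁅φ (b 1), φ (b 2)⁆) : Nonempty (L ≃ₗ⁅k⁆ L') := by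
  have h10 : φ ⁅b 1, b 0⁆ = ⁅φ (b 1), φ (b 0)⁆ := by rw [← lie_skew, map_neg, h01, lie_skew]
  have h20 : φ ⁅b 2, b 0⁆ = ⁅φ (b 2), φ (b 0)⁆ := by rw [← lie_skew, map_neg, h02, lie_skew]
  have h21 : φ ⁅b 2, b 1⁆ = ⁅φ (b 2), φ (b 1)⁆ := by rw [← lie_skew, map_neg, h12, lie_skew]
  have key : ∀ x y : L, φ ⁅x, y⁆ = ⁅φ x, φ y⁆ := by
    intro x y
    obtain ⟨p0, p1, p2, rfl⟩ := Groth.Agent.S13101.exists_coord b x
    obtain ⟨q0, q1, q2, rfl⟩ := Groth.Agent.S13101.exists_coord b y
    simp only [lie_add, add_lie, lie_smul, smul_lie, map_add, map_smul, lie_self, map_zero, h01, h02, h12, h10, h20, h21]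
  exact ⟨{ φ with map_lie' := fun {x y} => key x y }⟩
end aux

/-- Let k be a field and t, t' ∈ k both non-zero; let L be a Lie algebra over k with a basis x = b 0, y
= b 1, z = b 2 and brackets [x,y] = y, [x,z] = t z, [y,z] = 0, and L' a Lie algebra over k with a
basis x' = b' 0, y' = b' 1, z' = b' 2 and brackets [x',y'] = y', [x',z'] = t' z', [y',z'] = 0. Then
L and L' are isomorphic Lie algebras over k if and only if t' = t or t' = t⁻¹. -/
theorem result (k : Type u) [Field k] (t t' : k) (ht : t ≠ 0) (ht' : t' ≠ 0)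
    (L : Type v) [LieRing L] [LieAlgebra k L] (b : Module.Basis (Fin 3) k L)
    (h01 : ⁅b 0, b 1⁆ = b 1) (h02 : ⁅b 0, b 2⁆ = t • b 2) (h12 : ⁅b 1, b 2⁆ = 0)
    (L' : Type w) [LieRing L'] [LieAlgebra k L'] (b' : Module.Basis (Fin 3) k L')
    (h01' : ⁅b' 0, b' 1⁆ = b' 1) (h02' : ⁅b' 0, b' 2⁆ = t' • b' 2) (h12' : ⁅b' 1, b' 2⁆ = 0) :
    Nonempty (L ≃ₗ⁅k⁆ L') ↔ (t' = t ∨ t' = t⁻¹) := by
  constructor
  · rintro ⟨φ⟩
    obtain ⟨a, b1, c, e0⟩ := Groth.Agent.S13101.exists_coord b' (φ (b 0))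
    obtain ⟨d, e, f, e1⟩ := Groth.Agent.S13101.exists_coord b' (φ (b 1))
    obtain ⟨g, h, i, e2⟩ := Groth.Agent.S13101.exists_coord b' (φ (b 2))
    have hdet := Groth.Agent.S13101.isUnit_det b b' φ.toLinearEquiv e0 e1 e2
    have hF10 : ⁅b' 1, b' 0⁆ = - b' 1 := by rw [← lie_skew, h01']
    have hF20 : ⁅b' 2, b' 0⁆ = - (t' • b' 2) := by rw [← lie_skew, h02']
    have hF21 : ⁅b' 2, b' 1⁆ = 0 := by rw [← lie_skew, h12', neg_zero]
    have br : ∀ p0 p1 p2 q0 q1 q2 : k, ⁅p0 • b' 0 + p1 • b' 1 + p2 • b' 2, q0 • b' 0 + q1 • b' 1 + q2 • b' 2⁆ =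
        (0 : k) • b' 0 + (p0 * q1 - p1 * q0) • b' 1 + (t' * (p0 * q2 - p2 * q0)) • b' 2 := by
      intro p0 p1 p2 q0 q1 q2
      simp only [lie_add, add_lie, lie_smul, smul_lie, lie_self, h01', h02', h12', hF10, hF20, hF21, smul_zero, add_zero, zero_add]
      module
    have k1 := φ.map_lie (b 0) (b 1)
    rw [h01, e0, e1, br] at k1
    obtain ⟨k1a, k1b, k1c⟩ := Groth.Agent.S13101.coord_eq b' k1
    have k2 := φ.map_lie (b 0) (b 2)
    rw [h02, map_smul, e0, e2, br, show t • (g • b' 0 + h • b' 1 + i • b' 2) =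
      (t * g) • b' 0 + (t * h) • b' 1 + (t * i) • b' 2 by module] at k2
    obtain ⟨k2a, k2b, k2c⟩ := Groth.Agent.S13101.coord_eq b' k2
    subst k1a
    have hg : g = 0 := (mul_eq_zero.mp k2a).resolve_left ht
    subst hg
    have c1 : (a - 1) * e = 0 := by linear_combination -k1b
    have c2 : (1 - t' * a) * f = 0 := by linear_combination k1c
    have c3 : (t - a) * h = 0 := by linear_combination k2b
    have c4 : (t - t' * a) * i = 0 := by linear_combination k2c
    by_cases hei : e * i = 0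
    · have hfh : f * h ≠ 0 := by
        intro hfh
        apply hdet.ne_zero
        linear_combination a * hei - a * hfh
      have hf := left_ne_zero_of_mul hfh
      have hh := right_ne_zero_of_mul hfh
      have g1 := (mul_eq_zero.mp c2).resolve_right hf
      have g2 := (mul_eq_zero.mp c3).resolve_right hh
      right
      apply eq_inv_of_mul_eq_one_left
      linear_combination -g1 + t' * g2
    · have he := left_ne_zero_of_mul hei
      have hi := right_ne_zero_of_mul hei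
      have g1 := (mul_eq_zero.mp c1).resolve_right he
      have g2 := (mul_eq_zero.mp c4).resolve_right hi
      left
      linear_combination -g2 - t' * g1
  · rintro (rfl | rfl)
    · refine lieEquiv_of b (b.equiv b' (Equiv.refl _)) ?_ ?_ ?_
      · rw [h01]; simp only [Module.Basis.equiv_apply, Equiv.refl_apply]; rw [h01']
      · rw [h02, map_smul]; simp only [Module.Basis.equiv_apply, Equiv.refl_apply]; rw [h02']
      · rw [h12, map_zero]; simp only [Module.Basis.equiv_apply, Equiv.refl_apply]; rw [h12']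
    · let u : Fin 3 → kˣ := ![Units.mk0 t ht, 1, 1]
      let φ : L ≃ₗ[k] L' := b.equiv (b'.unitsSMul u) (Equiv.swap 1 2)
      have f0 : φ (b 0) = t • b' 0 := by
        simp only [φ, Module.Basis.equiv_apply]
        rw [Equiv.swap_apply_of_ne_of_ne (by decide) (by decide), Module.Basis.unitsSMul_apply]; rfl
      have f1 : φ (b 1) = b' 2 := by
        simp only [φ, Module.Basis.equiv_apply]
        rw [Equiv.swap_apply_left, Module.Basis.unitsSMul_apply]; exact one_smul _ _
      have f2 : φ (b 2) = b' 1 := by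
        simp only [φ, Module.Basis.equiv_apply]
        rw [Equiv.swap_apply_right, Module.Basis.unitsSMul_apply]; exact one_smul _ _
      refine lieEquiv_of b φ ?_ ?_ ?_
      · rw [h01, f0, f1, smul_lie, h02', smul_smul, mul_inv_cancel₀ ht, one_smul]
      · rw [h02, map_smul, f0, f2, smul_lie, h01']
      · rw [h12, map_zero, f1, f2, ← lie_skew, h12', neg_zero]

end Groth.Agent.S13108
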