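import Groth.Statements.S13114

import Mathlib

set_option autoImplicit false
universe u
open HilbChow

namespace Groth.Agent.S13114

/-- Let k be an algebraically closed field, A a commutative local k-algebra of finite dimension n over k
and u a unit of A. Then the determinant of multiplication by u on the k-vector space A, mapped to
the residue field of A, equals the n-th power of the residue class of u. -/
theorem result
    (k A : Type u) [Field k] [IsAlgClosed k] [CommRing A] [Algebra k A] [IsLocalRing A]
    [Module.Finite k A] (u : Aˣ) :
    algebraMap k (IsLocalRing.ResidueField A) (Algebra.norm k (u : A)) =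
      IsLocalRing.residue A (u : A) ^ Module.finrank k A := by
  haveI : Module.Finite k (IsLocalRing.ResidueField A) :=
    Module.Finite.of_surjective (IsScalarTower.toAlgHom k A (IsLocalRing.ResidueField A)).toLinearMap IsLocalRing.residue_surjective
  have hbij : Function.Bijective (algebraMap k (IsLocalRing.ResidueField A)) :=
    IsAlgClosed.algebraMap_bijective_of_isIntegral
  obtain ⟨c, hc⟩ := hbij.2 (IsLocalRing.residue A (u : A))
  haveI : IsArtinianRing A := IsArtinianRing.of_finite k A
  have hnil : IsNilpotent ((u : A) - algebraMap k A c) := by
    have hmem : (u : A) - algebraMap k A c ∈ IsLocalRing.maximalIdeal A := by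
      rw [← IsLocalRing.residue_eq_zero_iff, map_sub, ← hc]
      rw [sub_eq_zero]
      exact (IsScalarTower.algebraMap_apply k A (IsLocalRing.ResidueField A) c)
    obtain ⟨n, hn⟩ := IsArtinianRing.isNilpotent_jacobson_bot (R := A)
    rw [IsLocalRing.jacobson_eq_maximalIdeal ⊥ bot_ne_top] at hn
    refine ⟨n, ?_⟩
    have := Ideal.pow_mem_pow hmem n
    rw [hn] at this
    simpa using this
  have hdet : Algebra.norm k (u : A) = c ^ Module.finrank k A := by
    rw [Algebra.norm_apply]
    have h1 : Algebra.lmul k A (u : A) = algebraMap k (Module.End k A) c - (- Algebra.lmul k A ((u : A) - algebraMap k A c)) := by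
      rw [map_sub]
      ext x; simp [Algebra.smul_def]
    rw [h1]
    have h2 := LinearMap.eval_charpoly (- Algebra.lmul k A ((u : A) - algebraMap k A c)) c
    rw [← h2, IsNilpotent.charpoly_eq_X_pow_finrank ((hnil.map (Algebra.lmul k A)).neg : IsNilpotent (- (Algebra.lmul k A ((u : A) - algebraMap k A c)) : Module.End k A))]
    simp
  rw [hdet, map_pow, hc]

end Groth.Agent.S13114
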