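import Groth.Statements.S1312
import Groth.Agent.Lib.Helper2_Thick

set_option autoImplicit false
universe u
open FlatMor

namespace Groth.Agent.S1312


open AlgebraicGeometry CategoryTheory Limits in
/-- Let Y ⟶ Y' be a thickening, let X be the base change to Y of a scheme X' over Y', and assume both X
⟶ Y and X' ⟶ Y' are locally of finite type. Then X ⟶ Y is locally quasi-finite if and only if X' ⟶
Y' is. -/
theorem result {X X' Y Y' : Scheme.{u}} (iX : X ⟶ X') (iY : Y ⟶ Y') (f : X ⟶ Y) (f' : X' ⟶ Y')
    (hY : MoreMor.IsThickening iY) (hc : IsPullback iX f f' iY) [LocallyOfFiniteType f] [LocallyOfFiniteType f'] :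
    LocallyQuasiFinite f ↔ LocallyQuasiFinite f' := by
  exact H2.thick_locallyQuasiFinite_iff iX iY f f' (H2.thick_of_isPullback hc.flip hY) hY hc.w


end Groth.Agent.S1312
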