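import Groth.Statements.S13151
import Mathlib.RingTheory.IntegralClosure.IntegrallyClosed
import Mathlib.RingTheory.Localization.FractionRing

set_option autoImplicit false
universe u
open CAlg

namespace Groth.Agent.S13151

/-- Let A → B be an injective ring homomorphism of integral domains which is integral, with A integrally
closed, and let π be an element of A. Then the contraction to A of the ideal πB is πA, i.e. an
element of A which is a multiple of π in B is already a multiple of π in A; in particular if B/πB is
an integral domain then A/πA is an integral domain. (The published statement is for an integral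
dominant morphism of integral schemes flat over a discrete valuation ring, with normal target and π
a uniformizer; flatness and the valuation ring play no role, so π is an arbitrary element here.) -/
theorem result {A B : Type u} [CommRing A] [CommRing B]
    [IsDomain A] [IsDomain B] [IsIntegrallyClosed A] [Algebra A B] [Algebra.IsIntegral A B]
    (hinj : Function.Injective (algebraMap A B)) (π : A) :
    (Ideal.span {algebraMap A B π}).comap (algebraMap A B) = Ideal.span {π} ∧
      (IsDomain (B ⧸ Ideal.span {algebraMap A B π}) → IsDomain (A ⧸ Ideal.span {π})) := by
  have key : ∀ a : A, algebraMap A B π ∣ algebraMap A B a → π ∣ a := by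
    rintro a ⟨b, hb⟩
    by_cases hπ : π = 0
    · subst hπ
      rw [map_zero, zero_mul] at hb
      have : a = 0 := hinj (by rw [hb, map_zero])
      rw [this]
    · have hfs : FaithfulSMul A (FractionRing B) := by
        rw [faithfulSMul_iff_algebraMap_injective, IsScalarTower.algebraMap_eq A B (FractionRing B)]
        exact (IsFractionRing.injective B (FractionRing B)).comp hinj
      letI := FractionRing.liftAlgebra A (FractionRing B)
      have hAK : Function.Injective (algebraMap A (FractionRing A)) := IsFractionRing.injective A (FractionRing A)
      have hπK : algebraMap A (FractionRing A) π ≠ 0 := by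
        intro h
        exact hπ (hAK (by rw [h, map_zero]))
      have hx : IsIntegral A (algebraMap A (FractionRing A) a / algebraMap A (FractionRing A) π) := by
        have h1 : IsIntegral A (algebraMap B (FractionRing B) b) := (Algebra.IsIntegral.isIntegral (R := A) b).algebraMap
        have h2 : algebraMap (FractionRing A) (FractionRing B) (algebraMap A (FractionRing A) a / algebraMap A (FractionRing A) π) =
            algebraMap B (FractionRing B) b := by
          rw [map_div₀, ← IsScalarTower.algebraMap_apply, ← IsScalarTower.algebraMap_apply,
            IsScalarTower.algebraMap_apply A B (FractionRing B) a, IsScalarTower.algebraMap_apply A B (FractionRing B) π, hb, map_mul]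
          rw [mul_div_cancel_left₀]
          intro h
          exact hπ (hinj ((IsFractionRing.injective B (FractionRing B)) (by rw [h, map_zero, map_zero])))
        rw [← h2] at h1
        exact (isIntegral_algebraMap_iff (algebraMap (FractionRing A) (FractionRing B)).injective).1 h1
      obtain ⟨c, hc⟩ := IsIntegrallyClosed.isIntegral_iff.1 hx
      refine ⟨c, hAK ?_⟩
      rw [map_mul, hc, mul_div_cancel₀ _ hπK]
  have h1 : (Ideal.span {algebraMap A B π}).comap (algebraMap A B) = Ideal.span {π} := by
    ext a
    rw [Ideal.mem_comap, Ideal.mem_span_singleton, Ideal.mem_span_singleton]
    exact ⟨key a, fun h => map_dvd _ h⟩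
  refine ⟨h1, fun hB => ?_⟩
  rw [Ideal.Quotient.isDomain_iff_prime] at hB ⊢
  rw [← h1]
  exact Ideal.comap_isPrime _ _

end Groth.Agent.S13151
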