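import Groth.Statements.S1377
import Mathlib.AlgebraicGeometry.Normalization
import Mathlib.AlgebraicGeometry.IdealSheaf.Subscheme

set_option autoImplicit false
universe u
open FlatMor

namespace Groth.Agent.S1377

open AlgebraicGeometry CategoryTheory Limits in
theorem isPullback_normalization {S V : Scheme.{u}} (U : S.Opens) [QuasiCompact U.ι]
    (v : V ⟶ (U : Scheme.{u})) [IsIntegralHom v] [QuasiCompact (v ≫ U.ι)] [QuasiSeparated (v ≫ U.ι)] :
    IsPullback (v ≫ U.ι).toNormalization v (v ≫ U.ι).fromNormalization U.ι := by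
  have h1 : IsPullback (𝟙 V) v (v ≫ U.ι) U.ι := by
    refine ⟨⟨by simp⟩, ⟨PullbackCone.IsLimit.mk _ (fun s => s.fst) (by simp) ?_ ?_⟩⟩
    · intro s
      rw [← cancel_mono U.ι]
      simpa using s.condition
    · intro s m h1 h2
      simpa using h1
  have : IsIso (pullback.fst (v ≫ U.ι) U.ι) := by
    have h2 : h1.isoPullback.inv = pullback.fst (v ≫ U.ι) U.ι := by
      rw [← h1.isoPullback_inv_fst]; simp
    rw [← h2]; infer_instance
  have h4 : pullback.snd (v ≫ U.ι) U.ι = pullback.fst (v ≫ U.ι) U.ι ≫ v := by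
      rw [← cancel_mono U.ι, ← pullback.condition]; simp
  have h3 : IsIntegralHom (pullback.snd (v ≫ U.ι) U.ι) := by
    rw [h4]; infer_instance
  have key : IsIso ((pullback.snd (v ≫ U.ι) U.ι).toNormalization ≫
    (v ≫ U.ι).normalizationPullback U.ι) := inferInstance
  refine IsPullback.of_iso (IsPullback.of_hasPullback (v ≫ U.ι).fromNormalization U.ι)
    (asIso (inv (pullback.fst (v ≫ U.ι) U.ι) ≫ (pullback.snd (v ≫ U.ι) U.ι).toNormalization ≫
    (v ≫ U.ι).normalizationPullback U.ι)).symm (Iso.refl _) (Iso.refl _) (Iso.refl _) ?_ ?_ (by simp) (by simp)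
  · simp
  · simp only [Iso.refl_hom, asIso_inv, Iso.symm_hom, Category.comp_id]
    rw [IsIso.eq_inv_comp]
    simp [h4]

open AlgebraicGeometry CategoryTheory Limits in
theorem result {S V : Scheme.{u}} (U : S.Opens) [QuasiCompact U.ι]
    (v : V ⟶ (U : Scheme.{u})) [IsIntegralHom v] [Surjective v] :
    ∃ (V' : Scheme.{u}) (π : V' ⟶ S) (i : V ⟶ V'), Surjective π ∧ IsIntegralHom π ∧ IsPullback i v π U.ι := by
  have hp := isPullback_normalization U v
  let Z : TopologicalSpace.Closeds S := ⟨(U : Set S)ᶜ, U.isOpen.isClosed_compl⟩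
  let I := Scheme.IdealSheafData.vanishingIdeal Z
  have hI : (I.support : Set S) = (U : Set S)ᶜ := by
    simp [I, Z]
  have hr : Set.range I.subschemeι = (U : Set S)ᶜ := by
    rw [Scheme.IdealSheafData.range_subschemeι, hI]
  have hoi : IsOpenImmersion (v ≫ U.ι).toNormalization := 
    MorphismProperty.of_isPullback hp.flip inferInstance
  have hl : (coprod.inl : (v ≫ U.ι).normalization ⟶ (v ≫ U.ι).normalization ⨿ I.subscheme) ≫ coprod.desc (v ≫ U.ι).fromNormalization I.subschemeι = (v ≫ U.ι).fromNormalization := 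
    coprod.inl_desc _ _
  have hr' : (coprod.inr : I.subscheme ⟶ (v ≫ U.ι).normalization ⨿ I.subscheme) ≫ coprod.desc (v ≫ U.ι).fromNormalization I.subschemeι = I.subschemeι := 
    coprod.inr_desc _ _
  refine ⟨(v ≫ U.ι).normalization ⨿ I.subscheme, coprod.desc (v ≫ U.ι).fromNormalization I.subschemeι,
    (v ≫ U.ι).toNormalization ≫ coprod.inl, ?_, ?_, ?_⟩
  · refine ⟨fun s => ?_⟩
    by_cases hs : s ∈ U
    · obtain ⟨x, hx⟩ := v.surjective ⟨s, hs⟩
      refine ⟨((v ≫ U.ι).toNormalization ≫ coprod.inl) x, ?_⟩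
      rw [← Scheme.Hom.comp_apply, Category.assoc, hl]
      simp [hx]
    · have : s ∈ Set.range I.subschemeι := by rw [hr]; exact hs
      obtain ⟨x, hx⟩ := this
      refine ⟨(coprod.inr : I.subscheme ⟶ (v ≫ U.ι).normalization ⨿ I.subscheme) x, ?_⟩
      rw [← Scheme.Hom.comp_apply, hr', hx]
  · infer_instance
  · refine (IsOpenImmersion.isPullback v ((v ≫ U.ι).toNormalization ≫ coprod.inl) U.ι _ (by 
      rw [Category.assoc, hl]; simp) ?_).flip
    ext x
    obtain ⟨x | x, rfl⟩ := (coprodMk _ _).surjective x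
    · have e1 : (coprod.desc (v ≫ U.ι).fromNormalization I.subschemeι) ((coprod.inl : (v ≫ U.ι).normalization ⟶ (v ≫ U.ι).normalization ⨿ I.subscheme) x) = (v ≫ U.ι).fromNormalization x := by
        rw [← Scheme.Hom.comp_apply, hl]
      rw [coprodMk_inl]
      simp only [Scheme.Opens.opensRange_ι]
      change (coprod.desc (v ≫ U.ι).fromNormalization I.subschemeι) ((coprod.inl : (v ≫ U.ι).normalization ⟶ (v ≫ U.ι).normalization ⨿ I.subscheme) x) ∈ U ↔ ∃ y, _
      rw [e1]
      constructor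
      · intro hx
        obtain ⟨z, hz, -⟩ := Scheme.Pullback.exists_preimage_pullback (f := (v ≫ U.ι).fromNormalization)
          (g := U.ι) x ⟨_, hx⟩ rfl
        obtain ⟨y, hy⟩ : ∃ y, (v ≫ U.ι).toNormalization y = x :=
          ⟨hp.isoPullback.inv z, by rw [← Scheme.Hom.comp_apply, hp.isoPullback_inv_fst, hz]⟩
        refine ⟨y, ?_⟩
        rw [← hy, ← Scheme.Hom.comp_apply]
      · rintro ⟨y, hy⟩
        have : (coprod.inl : (v ≫ U.ι).normalization ⟶ (v ≫ U.ι).normalization ⨿ I.subscheme) ((v ≫ U.ι).toNormalization y) = (coprod.inl : (v ≫ U.ι).normalization ⟶ (v ≫ U.ι).normalization ⨿ I.subscheme) x := by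
          rw [← hy, ← Scheme.Hom.comp_apply]
        have h5 := (Scheme.Hom.isOpenEmbedding (coprod.inl : (v ≫ U.ι).normalization ⟶ (v ≫ U.ι).normalization ⨿ I.subscheme)).injective this
        rw [← h5, ← Scheme.Hom.comp_apply]
        simp
    · have e1 : (coprod.desc (v ≫ U.ι).fromNormalization I.subschemeι) ((coprod.inr : I.subscheme ⟶ (v ≫ U.ι).normalization ⨿ I.subscheme) x) = I.subschemeι x := by
        rw [← Scheme.Hom.comp_apply, hr']
      have e2 : I.subschemeι x ∉ U := by
        have : I.subschemeι x ∈ Set.range I.subschemeι := ⟨_, rfl⟩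
        rw [hr] at this
        exact this
      rw [coprodMk_inr]
      simp only [Scheme.Opens.opensRange_ι]
      change (coprod.desc (v ≫ U.ι).fromNormalization I.subschemeι) ((coprod.inr : I.subscheme ⟶ (v ≫ U.ι).normalization ⨿ I.subscheme) x) ∈ U ↔ ∃ y, _
      rw [e1]
      refine ⟨fun h => (e2 h).elim, ?_⟩
      rintro ⟨y, hy⟩
      exfalso
      refine inl_ne_inr _ _ ((v ≫ U.ι).toNormalization y) x ?_
      rw [← hy, ← Scheme.Hom.comp_apply]

end Groth.Agent.S1377
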