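import Groth.Statements.S13824
import Mathlib.RingTheory.LocalRing.ResidueField.Ideal
import Mathlib.Tactic

set_option autoImplicit false
set_option backward.isDefEq.respectTransparency false
set_option backward.isDefEq.respectTransparency.types false
universe u
open EtaPt

namespace Groth.Agent.S13824

theorem map_surj (η : EtaPt.FieldEndo.{u}) {K L : Type u} [Field K] [Field L] (f : K →+* L)
    (hf : Function.Bijective f) : Function.Surjective (η.map f) := by
  let e := RingEquiv.ofBijective f hf
  intro y
  refine ⟨η.map e.symm.toRingHom y, ?_⟩
  have h1 : f.comp e.symm.toRingHom = RingHom.id L := by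
    ext x
    exact e.apply_symm_apply x
  have h2 := (η.map_comp e.symm.toRingHom f).symm.trans ((congrArg (fun φ => η.map φ) h1).trans (η.map_id L))
  exact congrArg (fun φ => φ y) (congrArg DFunLike.coe h2)


/-- For a commutative ring A and f ∈ A, N_η(A)[1/t_A(f)] → N_η(A_f) is bijective: every element of
N_η(A_f) times a power of the image of f comes from N_η(A), and an element of N_η(A) dies in
N_η(A_f) only if a power of t_A(f) kills it. Here η is a natural transformation from the identity of
the category of fields to an endofunctor F with F(η_K) bijective and η_K purely inseparable for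
every field K, N_η(A) is the product of the F(k(p)) over the primes p of A with diagonal map t_A,
and M_η(A) ⊆ N_η(A) is the subring of elements sent into the range of t_R by every ring map from A
to a valuation ring R at whose fraction field η is bijective; q_A : A → M_η(A) is the corestriction
of t_A. -/
theorem result (η : EtaPt.FieldEndo.{u}) (A : Type u) [CommRing A] (f : A) :
    (∀ y : η.N (Localization.Away f), ∃ (x : η.N A) (n : ℕ),
        y * η.t (Localization.Away f) (algebraMap A (Localization.Away f) f) ^ n =
          η.Nmap (algebraMap A (Localization.Away f)) x) ∧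
      ∀ x : η.N A, η.Nmap (algebraMap A (Localization.Away f)) x = 0 → ∃ n : ℕ, η.t A f ^ n * x = 0 := by
  constructor
  · intro y
    have hinj : Function.Injective (PrimeSpectrum.comap (algebraMap A (Localization.Away f))) :=
      PrimeSpectrum.localization_comap_injective _ (Submonoid.powers f)
    have hst : (algebraMap A (Localization.Away f)).SurjectiveOnStalks :=
      RingHom.surjectiveOnStalks_of_isLocalization (Submonoid.powers f) _
    have key : ∀ p : PrimeSpectrum A, ∃ z : η.obj p.asIdeal.ResidueField,
        ∀ (q : PrimeSpectrum (Localization.Away f))
          (h : p.asIdeal = q.asIdeal.comap (algebraMap A (Localization.Away f))),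
          η.map (Ideal.ResidueField.map p.asIdeal q.asIdeal (algebraMap A (Localization.Away f)) h) z =
            y q := by
      intro p
      by_cases hp : ∃ q0, PrimeSpectrum.comap (algebraMap A (Localization.Away f)) q0 = p
      · obtain ⟨q0, rfl⟩ := hp
        obtain ⟨z, hz⟩ := map_surj η (Ideal.ResidueField.map
          (PrimeSpectrum.comap (algebraMap A (Localization.Away f)) q0).asIdeal q0.asIdeal
          (algebraMap A (Localization.Away f)) rfl) (hst.residueFieldMap_bijective _ _ rfl) (y q0)
        refine ⟨z, ?_⟩
        intro q h
        obtain rfl : q0 = q := hinj (PrimeSpectrum.ext h)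
        exact hz
      · exact ⟨0, fun q h => absurd ⟨q, (PrimeSpectrum.ext h).symm⟩ hp⟩
    choose x hx using key
    refine ⟨x, 0, ?_⟩
    rw [pow_zero, mul_one]
    funext q
    exact (hx (PrimeSpectrum.comap (algebraMap A (Localization.Away f)) q) q rfl).symm
  · intro x hx
    refine ⟨1, ?_⟩
    rw [pow_one]
    funext p
    by_cases hp : f ∈ p.asIdeal
    · have h1 : η.t A f p = 0 := by
        change η.eta _ (algebraMap A _ f) = 0
        rw [Ideal.algebraMap_residueField_eq_zero.2 hp, map_zero]
      change η.t A f p * x p = 0
      rw [h1, zero_mul]
    · have hr : p ∈ Set.range (PrimeSpectrum.comap (algebraMap A (Localization.Away f))) := by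
        rw [PrimeSpectrum.localization_away_comap_range (Localization.Away f) f]
        exact hp
      obtain ⟨q, rfl⟩ := hr
      have h2 := congrFun hx q
      have h3 : x (PrimeSpectrum.comap (algebraMap A (Localization.Away f)) q) = 0 :=
        (map_eq_zero_iff _ (RingHom.injective (η.map (Ideal.ResidueField.map
          (PrimeSpectrum.comap (algebraMap A (Localization.Away f)) q).asIdeal q.asIdeal
          (algebraMap A (Localization.Away f)) rfl)))).1 h2
      change _ * x _ = 0
      rw [h3, mul_zero]

end Groth.Agent.S13824
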