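import Groth.Statements.S13826
import Groth.Agent.Lib.H21SN4

set_option autoImplicit false
universe u
open EtaPt

namespace Groth.Agent.S13826

/-- For the identity endofunctor and a commutative ring A with finitely many minimal prime ideals, q_A :
A → M(A) is a seminormalization of A: Spec(q_A) is a universal homeomorphism with trivial residue
field extensions, final among ring maps out of A with these properties. Here M(A) ⊆ ∏_p k(p) is the
subring of families whose image in ∏_q k(q), for every ring map from A to a valuation ring R, is the
diagonal image of an element of R. -/
theorem result (A : Type u) [CommRing A] (hA : (minimalPrimes A).Finite) :
    HTop.IsRingSN (EtaPt.FieldEndo.ident.{u}.q A) := by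
  exact Groth.Agent.H21.ringSN A hA

end Groth.Agent.S13826
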