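import Groth.Statements.S13828
import Mathlib.Tactic

set_option autoImplicit false
set_option backward.isDefEq.respectTransparency false
set_option backward.isDefEq.respectTransparency.types false
universe u
open EtaPt

namespace Groth.Agent.S13828

theorem Nmap_comp (η : EtaPt.FieldEndo.{u}) {A B C : Type u} [CommRing A] [CommRing B] [CommRing C]
    (f : A →+* B) (g : B →+* C) (x : η.N A) : η.Nmap g (η.Nmap f x) = η.Nmap (g.comp f) x := by
  funext q
  have h : (Ideal.ResidueField.map (PrimeSpectrum.comap g q).asIdeal q.asIdeal g rfl).comp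
      (Ideal.ResidueField.map (PrimeSpectrum.comap f (PrimeSpectrum.comap g q)).asIdeal
      (PrimeSpectrum.comap g q).asIdeal f rfl) =
      Ideal.ResidueField.map (PrimeSpectrum.comap f (PrimeSpectrum.comap g q)).asIdeal q.asIdeal (g.comp f) rfl := by
    apply Ideal.ResidueField.ringHom_ext
    ext a
    simp only [RingHom.comp_apply, Ideal.ResidueField.map_algebraMap]
  have h2 := congrArg (fun φ => η.map φ) h
  have h3 := (η.map_comp _ _).symm.trans h2
  exact congrArg (fun φ => φ (x (PrimeSpectrum.comap f (PrimeSpectrum.comap g q)))) (congrArg DFunLike.coe h3)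

theorem Nmap_mem_M (η : EtaPt.FieldEndo.{u}) {A B : Type u} [CommRing A] [CommRing B]
    (f : A →+* B) (x : η.N A) (hx : x ∈ η.M A) : η.Nmap f x ∈ η.M B := by
  intro R _ _ _ hR g
  rw [Nmap_comp]
  exact hx R hR (g.comp f)


/-- Let a commutative square of rings j : A → B, f : A → A', g : B → B', j' : A' → B' be cartesian (A is
the fibre product of A' and B over B'), with A and A' having finitely many minimal prime ideals and
Spec(j), Spec(j') surjective. If q_{B'/A'} is bijective then q_{B/A} is bijective. Here η is a
natural transformation from the identity of the category of fields to an endofunctor F with F(η_K)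
bijective and η_K purely inseparable for every field K, N_η(A) is the product of the F(k(p)) over
the primes p of A with diagonal map t_A, and M_η(A) ⊆ N_η(A) is the subring of elements sent into
the range of t_R by every ring map from A to a valuation ring R at whose fraction field η is
bijective; q_A : A → M_η(A) is the corestriction of t_A. For a ring map f : A → B, (B/A)_η ⊆ B
denotes the subring of elements b with t_B(b) in N_η(f)(M_η(A)) (the image in B of the fibre product
of M_η(A) and B over M_η(B)), and q_{B/A} : A → (B/A)_η the corestriction of f. -/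
theorem result (η : EtaPt.FieldEndo.{u}) {A A' B B' : Type u} [CommRing A] [CommRing A'] [CommRing B] [CommRing B']
    (j : A →+* B) (f : A →+* A') (g : B →+* B') (j' : A' →+* B') (hcomm : j'.comp f = g.comp j)
    (hcart : ∀ (a' : A') (b : B), j' a' = g b → ∃! a : A, f a = a' ∧ j a = b)
    (hA : (minimalPrimes A).Finite) (hA' : (minimalPrimes A').Finite)
    (hj : Function.Surjective (PrimeSpectrum.comap j)) (hj' : Function.Surjective (PrimeSpectrum.comap j'))
    (h : Function.Bijective (η.qRel j')) : Function.Bijective (η.qRel j) := by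
  have hc : ∀ a, j' (f a) = g (j a) := fun a => congrArg (fun φ => φ a) (congrArg DFunLike.coe hcomm)
  have hj'inj : ∀ x y, j' x = j' y → x = y := fun x y hxy => h.1 (Subtype.ext hxy)
  constructor
  · intro a b hab
    have hab' : j a = j b := congrArg Subtype.val hab
    have h1 : f a = f b := hj'inj _ _ (by rw [hc, hc, hab'])
    obtain ⟨c, -, hc2⟩ := hcart (f a) (j a) (hc a)
    rw [hc2 a ⟨rfl, rfl⟩, hc2 b ⟨h1.symm, hab'.symm⟩]
  · rintro ⟨b, x, hx, hxb⟩
    have h2 : g b ∈ η.rel j' := by
      refine ⟨η.Nmap f x, Nmap_mem_M η f x hx, ?_⟩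
      have h3 : η.Nmap g (η.Nmap j x) = η.Nmap g (η.t B b) := congrArg _ hxb
      rw [Nmap_comp, ← hcomm, η.Nmap_t_apply] at h3
      rw [← h3, Nmap_comp]
    obtain ⟨a', ha'⟩ := h.2 ⟨g b, h2⟩
    obtain ⟨a, ⟨ha1, ha2⟩, -⟩ := hcart a' b (congrArg Subtype.val ha')
    exact ⟨a, Subtype.ext ha2⟩

end Groth.Agent.S13828
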