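import Groth.Statements.S13830
import Groth.Agent.Lib.H21SN4

set_option autoImplicit false
universe u
open AlgebraicGeometry
open EtaPt

namespace Groth.Agent.S13830

/-- For the identity endofunctor, a commutative ring A with finitely many minimal prime ideals and an
A-algebra B with Spec B → Spec A surjective, the subring (B/A) ⊆ B (elements b whose residue classes
(b mod q)_q come from a family in M(A) ⊆ ∏_p k(p), M(A) being the families that come from an element
of R after any base change to a valuation ring R) is the seminormalization of A in B: Spec (B/A) →
Spec A is a universal homeomorphism with trivial residue field extensions, and every A-subalgebra C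
of B with these two properties is contained in (B/A). -/
theorem result (A B : Type u) [CommRing A] [CommRing B] [Algebra A B] (hA : (minimalPrimes A).Finite)
    (hs : Function.Surjective (PrimeSpectrum.comap (algebraMap A B))) :
    (FlatMor.IsUnivHomeo (Spec.map (CommRingCat.ofHom (EtaPt.FieldEndo.ident.{u}.qRel (algebraMap A B)))) ∧
      HTop.ResidueFieldsIso (Spec.map (CommRingCat.ofHom (EtaPt.FieldEndo.ident.{u}.qRel (algebraMap A B))))) ∧
    ∀ C : Subalgebra A B,
      FlatMor.IsUnivHomeo (Spec.map (CommRingCat.ofHom (algebraMap A C))) →
      HTop.ResidueFieldsIso (Spec.map (CommRingCat.ofHom (algebraMap A C))) →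
      C.toSubring ≤ EtaPt.FieldEndo.ident.{u}.rel (algebraMap A B) := by
  exact Groth.Agent.H21.relSN A B hA hs

end Groth.Agent.S13830
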