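import Groth.Statements.S13835
import Groth.Agent.Lib.H21SN3

set_option autoImplicit false
set_option backward.isDefEq.respectTransparency.types false
universe u
open AlgebraicGeometry CategoryTheory
open ChowMon

open CategoryTheory.Limits

namespace Groth.Agent.S13835

/-- Let p : T' → T be a universal homeomorphism of separated schemes with T reduced and f' : T' → Y a
morphism (Y separated); if T has an open cover by affine opens U_i such that each restriction of f'
to p⁻¹(U_i) factors through p⁻¹(U_i) → U_i, then f' factors through p. -/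
theorem result {T' T Y : Scheme.{u}} (p : T' ⟶ T) (hp : FlatMor.IsUnivHomeo p) [IsReduced T]
    [T.IsSeparated] [T'.IsSeparated] [Y.IsSeparated] (f' : T' ⟶ Y)
    {ι : Type u} (U : ι → T.affineOpens) (hU : ⨆ i, (U i : T.Opens) = ⊤)
    (hloc : ∀ i, ∃ fi : ((U i : T.Opens) : Scheme.{u}) ⟶ Y, (p ⁻¹ᵁ (U i : T.Opens)).ι ≫ f' = (p ∣_ (U i : T.Opens)) ≫ fi) :
    ∃ f : T ⟶ Y, p ≫ f = f' := by
  choose fi hfi using hloc
  let 𝒰 : T.OpenCover := T.openCoverOfIsOpenCover (fun i => (U i : T.Opens)) hU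
  have key : ∀ (i : ι) {P' : Scheme.{u}} (a : P' ⟶ ((U i : T.Opens) : Scheme.{u})) (b : P' ⟶ T'),
      b ≫ p = a ≫ (U i : T.Opens).ι → a ≫ fi i = b ≫ f' := by
    intro i P' a b h
    have hpb := isPullback_morphismRestrict p (U i : T.Opens)
    have e1 : hpb.lift a b h.symm ≫ (p ∣_ (U i : T.Opens)) = a := hpb.lift_fst _ _ _
    have e2 : hpb.lift a b h.symm ≫ (p ⁻¹ᵁ (U i : T.Opens)).ι = b := hpb.lift_snd _ _ _
    rw [← e1, Category.assoc, ← hfi, ← Category.assoc, e2]
  let f : T ⟶ Y := 𝒰.glueMorphisms fi (by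
    intro i j
    have hred : IsReduced (pullback (𝒰.f i) (𝒰.f j)) :=
      isReduced_of_isOpenImmersion (pullback.fst (𝒰.f i) (𝒰.f j) ≫ 𝒰.f i)
    let P := pullback (𝒰.f i) (𝒰.f j)
    let q : P ⟶ T := pullback.fst (𝒰.f i) (𝒰.f j) ≫ 𝒰.f i
    have hs : Function.Surjective (pullback.snd p q) :=
      (hp _ _ _ (IsPullback.of_hasPullback p q).flip).surjective
    have hS : Surjective (pullback.snd p q) := ⟨hs⟩
    refine ext_of_isDominant (pullback.snd p q) ?_
    rw [← Category.assoc, ← Category.assoc]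
    have c0 : pullback.fst p q ≫ p = pullback.snd p q ≫ pullback.fst (𝒰.f i) (𝒰.f j) ≫ 𝒰.f i :=
      pullback.condition
    have c1 : pullback.fst p q ≫ p = (pullback.snd p q ≫ pullback.fst (𝒰.f i) (𝒰.f j)) ≫ 𝒰.f i :=
      c0.trans (Category.assoc _ _ _).symm
    have c2 : pullback.fst p q ≫ p = (pullback.snd p q ≫ pullback.snd (𝒰.f i) (𝒰.f j)) ≫ 𝒰.f j :=
      (c0.trans (congrArg (pullback.snd p q ≫ ·) pullback.condition)).trans (Category.assoc _ _ _).symm
    exact (key i (pullback.snd p q ≫ pullback.fst (𝒰.f i) (𝒰.f j)) (pullback.fst p q) c1).trans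
      (key j (pullback.snd p q ≫ pullback.snd (𝒰.f i) (𝒰.f j)) (pullback.fst p q) c2).symm)
  refine ⟨f, ?_⟩
  apply Scheme.Cover.hom_ext (𝒰.pullback₁ p)
  intro i
  have e1 : 𝒰.f i ≫ f = fi i := 𝒰.ι_glueMorphisms fi _ i
  have e2 := key i (pullback.snd p (𝒰.f i)) (pullback.fst p (𝒰.f i)) pullback.condition
  change pullback.fst p (𝒰.f i) ≫ p ≫ f = pullback.fst p (𝒰.f i) ≫ f'
  rw [← e2, ← Category.assoc, pullback.condition, Category.assoc, e1]
  rfl

end Groth.Agent.S13835
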