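import Groth.Statements.S13837
import Groth.Agent.Lib.H21UH

set_option autoImplicit false
universe u
open AlgebraicGeometry
open scoped TensorProduct
open HTop

namespace Groth.Agent.S13837

/-- Let A ⊆ B be an integral ring extension such that each of A and B has only finitely many minimal
primes; the weak normalization of A in B is then the equaliser of the two maps B ⇉ (B ⊗_A B)_red:
the A-subalgebra E of elements b with b ⊗ 1 − 1 ⊗ b nilpotent in B ⊗_A B has Spec E → Spec A a
universal homeomorphism, and every A-subalgebra C of B with Spec C → Spec A a universal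
homeomorphism is contained in E. -/
theorem result (A B : Type u) [CommRing A] [CommRing B] [Algebra A B] (hinj : Function.Injective (algebraMap A B))
    [Algebra.IsIntegral A B] (hA : (minimalPrimes A).Finite) (hB : (minimalPrimes B).Finite) :
    ∃ E : Subalgebra A B, (∀ b : B, b ∈ E ↔ IsNilpotent (b ⊗ₜ[A] (1 : B) - (1 : B) ⊗ₜ[A] b)) ∧
      FlatMor.IsUnivHomeo (Spec.map (CommRingCat.ofHom (algebraMap A E))) ∧
      ∀ C : Subalgebra A B, FlatMor.IsUnivHomeo (Spec.map (CommRingCat.ofHom (algebraMap A C))) → C ≤ E := by
  exact Groth.Agent.H21.weakNorm A B hinj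

end Groth.Agent.S13837
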