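import Groth.Statements.S13838
import Groth.Agent.Lib.H21UH2

set_option autoImplicit false
universe u
open AlgebraicGeometry
open HTop

namespace Groth.Agent.S13838

/-- Let A ⊆ B be an integral ring extension where A and B have finitely many minimal prime ideals, such
that every prime p of A has a prime q of B above it for which k(p) is closed under extracting
p-power roots inside k(q) (the purely inseparable closure of k(p) in k(q) is k(p)); then the weak
normalization of A in B equals its seminormalization: every A-subalgebra C of B with Spec C → Spec A
a universal homeomorphism already induces isomorphisms on residue fields. -/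
theorem result (A B : Type u) [CommRing A] [CommRing B] [Algebra A B] (hinj : Function.Injective (algebraMap A B))
    [Algebra.IsIntegral A B] (hA : (minimalPrimes A).Finite) (hB : (minimalPrimes B).Finite)
    (hpi : ∀ p : PrimeSpectrum A, ∃ q : PrimeSpectrum B, ∃ hq : p.asIdeal = Ideal.comap (algebraMap A B) q.asIdeal,
      ∀ x : q.asIdeal.ResidueField,
        (∃ n : ℕ, x ^ ringExpChar p.asIdeal.ResidueField ^ n ∈
            Set.range (Ideal.ResidueField.map p.asIdeal q.asIdeal (algebraMap A B) hq)) →
        x ∈ Set.range (Ideal.ResidueField.map p.asIdeal q.asIdeal (algebraMap A B) hq)) :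
    ∀ C : Subalgebra A B, FlatMor.IsUnivHomeo (Spec.map (CommRingCat.ofHom (algebraMap A C))) →
      HTop.ResidueFieldsIso (Spec.map (CommRingCat.ofHom (algebraMap A C))) := by
  exact Groth.Agent.H21.weak_eq_semi A B hinj hpi

end Groth.Agent.S13838
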