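import Groth.Statements.S1388
import Mathlib.AlgebraicGeometry.PullbackCarrier

set_option autoImplicit false
universe u
open FlatMor

namespace Groth.Agent.S1388


open AlgebraicGeometry CategoryTheory Limits in
/-- Given two étale neighbourhoods (U₁, u₁) and (U₂, u₂) of a point s of S (étale morphisms to S with
marked points over s), there is an étale neighbourhood (U, u) of s with morphisms to both, over S
and sending u to u₁ and u₂. -/
theorem result {S U₁ U₂ : Scheme.{u}} (s : S) (g₁ : U₁ ⟶ S) (g₂ : U₂ ⟶ S) [Etale g₁] [Etale g₂] (u₁ : U₁) (u₂ : U₂)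
    (h₁ : g₁ u₁ = s) (h₂ : g₂ u₂ = s) :
    ∃ (U : Scheme.{u}) (g : U ⟶ S) (u : U) (a : U ⟶ U₁) (b : U ⟶ U₂), Etale g ∧ g u = s ∧ a ≫ g₁ = g ∧ b ≫ g₂ = g ∧ a u = u₁ ∧ b u = u₂ := by
  obtain ⟨u, hu₁, hu₂⟩ := Scheme.Pullback.exists_preimage_pullback (f := g₁) (g := g₂) u₁ u₂ (by rw [h₁, h₂])
  refine ⟨pullback g₁ g₂, pullback.fst g₁ g₂ ≫ g₁, u, pullback.fst g₁ g₂, pullback.snd g₁ g₂, 
    inferInstance, ?_, rfl, pullback.condition.symm, hu₁, hu₂⟩
  rw [Scheme.Hom.comp_apply, hu₁, h₁]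


end Groth.Agent.S1388
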