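import Groth.Statements.S14115
import Mathlib.Tactic

set_option autoImplicit false
universe u v
open SuperComm

namespace Groth.Agent.S14115

/-- Let S be an associative unital algebra over a commutative ring R, x an element and y_0, …, y_n
elements such that the anticommutator x y_i + y_i x equals r_i · 1 for scalars r_i ∈ R. Then the
graded commutator of x with the ordered product y_0 ⋯ y_n, namely x (y_0 ⋯ y_n) + (-1)^n (y_0 ⋯ y_n)
x, equals the sum over p of (-1)^p r_p times the ordered product of the y_q with q ≠ p. (The
published statement takes x homogeneous of degree 1 and the y_i homogeneous of degree -1 in a graded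
algebra with unit in degree 0, the signs being those of the supercommutator; this row states the
identity for arbitrary elements satisfying the anticommutation relations, which is what the
computation proves.) -/
theorem result {R : Type u} {S : Type v} [CommRing R] [Ring S]
    [Algebra R S] (n : ℕ) (x : S) (y : Fin (n + 1) → S) (r : Fin (n + 1) → R)
    (h : ∀ i : Fin (n + 1), x * y i + y i * x = algebraMap R S (r i)) :
    x * (List.ofFn y).prod + (-1 : S) ^ n * ((List.ofFn y).prod * x) =
      ∑ p : Fin (n + 1), (-1 : S) ^ (p : ℕ) * (r p • (List.ofFn (fun q : Fin n => y (p.succAbove q))).prod) := by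
  induction n with
  | zero =>
    have h0 := h 0
    simp [List.ofFn_succ, h0, Algebra.algebraMap_eq_smul_one]
  | succ n ih =>
    have ih' := ih (fun i => y i.succ) (fun i => r i.succ) (fun i => h i.succ)
    have h0 := h 0
    rw [Fin.sum_univ_succ]
    have e1 : ∀ p : Fin (n + 1), (List.ofFn (fun q : Fin (n + 1) => y (p.succ.succAbove q))).prod =
        y 0 * (List.ofFn (fun q : Fin n => y (p.succAbove q).succ)).prod := by
      intro p
      rw [List.ofFn_succ, List.prod_cons, Fin.succ_succAbove_zero]
      simp only [Fin.succ_succAbove_succ]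
    have e2 : (List.ofFn y).prod = y 0 * (List.ofFn (fun i : Fin (n + 1) => y i.succ)).prod := by
      rw [List.ofFn_succ, List.prod_cons]
    simp only [e1, e2]
    set Y := (List.ofFn (fun i : Fin (n + 1) => y i.succ)).prod with hY
    have e3 : ∑ p : Fin (n + 1), (-1 : S) ^ ((p.succ : Fin (n + 2)) : ℕ) * (r p.succ • (y 0 *
        (List.ofFn (fun q : Fin n => y (p.succAbove q).succ)).prod)) =
        - (y 0 * ∑ p : Fin (n + 1), (-1 : S) ^ (p : ℕ) * (r p.succ •
        (List.ofFn (fun q : Fin n => y (p.succAbove q).succ)).prod)) := by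
      rw [Finset.mul_sum, ← Finset.sum_neg_distrib]
      refine Finset.sum_congr rfl fun p _ => ?_
      have hc : y 0 * (-1 : S) ^ (p : ℕ) = (-1 : S) ^ (p : ℕ) * y 0 :=
        ((Commute.neg_one_right (y 0)).pow_right _)
      rw [Fin.val_succ, pow_succ, ← mul_assoc (y 0), hc, mul_assoc, mul_smul_comm]
      simp [mul_assoc]
    rw [e3, ← ih']
    have h1 : x * y 0 = algebraMap R S (r 0) - y 0 * x := by rw [← h0]; abel
    have h2 : y 0 * ((-1 : S) ^ n * (Y * x)) = (-1 : S) ^ n * (y 0 * (Y * x)) := by
      have hc : y 0 * (-1 : S) ^ n = (-1 : S) ^ n * y 0 :=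
        ((Commute.neg_one_right (y 0)).pow_right _)
      rw [← mul_assoc, hc, mul_assoc]
    have e0 : (List.ofFn (fun q : Fin (n + 1) => y ((0 : Fin (n + 2)).succAbove q))).prod = Y := by
      simp only [Fin.zero_succAbove]; rfl
    rw [e0, mul_add, h2, ← mul_assoc x, h1, sub_mul, pow_succ, Algebra.smul_def]
    simp only [Fin.val_zero, pow_zero, one_mul, mul_assoc, mul_neg, neg_mul, mul_one]
    abel

end Groth.Agent.S14115
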