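import Groth.Statements.S14118
import Mathlib.Tactic
import Mathlib.LinearAlgebra.Trace
import Groth.Agent.S14117

set_option autoImplicit false
universe u v w
open SuperComm

namespace Groth.Agent.S14118

/-- Let R be a commutative ring and M a finitely ℤ-graded R-module with finitely many nonzero graded
pieces, each finite free, presented as a finite family of finite free R-modules M_i with integer
degrees deg i (the piece of degree n being the product of the M_i with deg i = n); an endomorphism φ
of the total module Π_i M_i has degree a when its (i, j) block vanishes unless deg j = deg i + a;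
the supertrace of an endomorphism is the trace of its composite with the grading involution ε = Σ_i
(-1)^{deg i} pr_i. If φ and ψ have degrees a and b, the supertrace of the supercommutator φψ -
(-1)^{ab} ψφ vanishes. (The published statement allows the graded pieces to be finitely generated
projective; this row takes them finite free, where the trace is the ordinary trace of a free
module.) -/
theorem result {R : Type u} [CommRing R] {ι : Type v} [Fintype ι] [DecidableEq ι]
    (deg : ι → ℤ) (M : ι → Type w) [∀ i, AddCommGroup (M i)] [∀ i, Module R (M i)]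
    [∀ i, Module.Free R (M i)] [∀ i, Module.Finite R (M i)]
    (a b : ℤ) (φ ψ : (Π k, M k) →ₗ[R] (Π k, M k))
    (hφ : ∀ i j : ι, deg j ≠ deg i + a → (LinearMap.proj j) ∘ₗ φ ∘ₗ (LinearMap.single R M i) = 0)
    (hψ : ∀ i j : ι, deg j ≠ deg i + b → (LinearMap.proj j) ∘ₗ ψ ∘ₗ (LinearMap.single R M i) = 0) :
    LinearMap.trace R (Π k, M k)
      ((∑ i : ι, (LinearMap.single R M i) ∘ₗ (((-1 : R) ^ (deg i).natAbs) • (LinearMap.proj i : (Π k, M k) →ₗ[R] M i))) ∘ₗ (φ ∘ₗ ψ - ((-1 : R) ^ (a * b).natAbs) • (ψ ∘ₗ φ))) = 0 := by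
  set ε : (Π k, M k) →ₗ[R] (Π k, M k) := (∑ i : ι, (LinearMap.single R M i) ∘ₗ (((-1 : R) ^ (deg i).natAbs) • (LinearMap.proj i : (Π k, M k) →ₗ[R] M i))) with hε
  have hεa : ∀ v j, ε v j = ((-1 : R) ^ (deg j).natAbs) • v j := by
    intro v j
    rw [hε, LinearMap.sum_apply, Finset.sum_apply, Finset.sum_eq_single j]
    · simp
    · intro i _ hij
      simp [Pi.single_eq_of_ne hij.symm]
    · intro h; exact absurd (Finset.mem_univ j) h
  have hψb : ∀ i j, deg j ≠ deg i + b → ∀ v : M i, ψ (Pi.single i v) j = 0 := fun i j hij v =>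
    congrArg (fun f => f v) (hψ i j hij)
  have hφb : ∀ i j, deg j ≠ deg i + a → ∀ v : M i, φ (Pi.single i v) j = 0 := fun i j hij v =>
    congrArg (fun f => f v) (hφ i j hij)
  have hεs : ∀ i (v : M i), ε (Pi.single i v) = ((-1 : R) ^ (deg i).natAbs) • Pi.single i v := by
    intro i v
    funext j
    rw [hεa]
    by_cases hij : j = i
    · subst hij; rfl
    · simp [Pi.single_eq_of_ne hij]
  have hcomm : ψ ∘ₗ ε = ((-1 : R) ^ b.natAbs) • (ε ∘ₗ ψ) := by
    apply LinearMap.pi_ext
    intro i v
    funext j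
    change ψ (ε (Pi.single i v)) j = ((-1 : R) ^ b.natAbs) • (ε (ψ (Pi.single i v))) j
    rw [hεs, map_smul, Pi.smul_apply, hεa, smul_smul]
    by_cases hij : deg j = deg i + b
    · congr 1
      rw [hij, ← pow_add]
      apply neg_one_pow_congr
      simp only [Nat.even_iff]
      omega
    · rw [hψb i j hij, smul_zero, smul_zero]
  have htr : LinearMap.trace R _ (ε ∘ₗ (φ ∘ₗ ψ)) = ((-1 : R) ^ b.natAbs) * LinearMap.trace R _ (ε ∘ₗ (ψ ∘ₗ φ)) := by
    rw [← LinearMap.comp_assoc, LinearMap.trace_comp_comm', ← LinearMap.comp_assoc, hcomm,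
      LinearMap.smul_comp, map_smul, smul_eq_mul, LinearMap.comp_assoc]
  have hsub : ε ∘ₗ (φ ∘ₗ ψ - ((-1 : R) ^ (a * b).natAbs) • (ψ ∘ₗ φ)) =
      ε ∘ₗ (φ ∘ₗ ψ) - ((-1 : R) ^ (a * b).natAbs) • (ε ∘ₗ (ψ ∘ₗ φ)) := by
    rw [LinearMap.comp_sub, LinearMap.comp_smul]
  rw [hsub, map_sub, map_smul, htr, smul_eq_mul, ← sub_mul]
  by_cases hab : a + b = 0
  · have : ((-1 : R) ^ b.natAbs) = ((-1 : R) ^ (a * b).natAbs) := by
      apply neg_one_pow_congr
      have ha : a = -b := by omega
      rw [ha, Int.natAbs_mul, Int.natAbs_neg, Nat.even_mul]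
      tauto
    rw [this, sub_self, zero_mul]
  · have hz : LinearMap.trace R _ (ε ∘ₗ (ψ ∘ₗ φ)) = 0 := by
      refine Groth.Agent.S14117.result deg M (a + b) hab (ψ ∘ₗ φ) ?_
      intro i j hij
      apply LinearMap.ext
      intro v
      change ψ (φ (Pi.single i v)) j = 0
      have hw : ψ (φ (Pi.single i v)) = ∑ k, ψ (Pi.single k (φ (Pi.single i v) k)) := by
        rw [← map_sum, Finset.univ_sum_single]
      rw [hw, Finset.sum_apply]
      apply Finset.sum_eq_zero
      intro k _
      by_cases hk : deg k = deg i + a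
      · exact hψb k j (by omega) _
      · rw [hφb i k hk, Pi.single_zero, map_zero]; rfl
    rw [hz, mul_zero]

end Groth.Agent.S14118
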