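import Groth.Statements.S1412
import Groth.Agent.Lib.H3WEStalk

set_option autoImplicit false
universe u
open FlatMor

namespace Groth.Agent.S1412

open AlgebraicGeometry CategoryTheory Limits in
/-- A morphism of schemes f : X → Y is weakly étale (flat with flat diagonal) if and only if for every
point x of X the local ring map O_{Y, f(x)} → O_{X, x} is weakly étale, that is, flat and with flat
multiplication map O_{X,x} ⊗_{O_{Y, f(x)}} O_{X,x} → O_{X,x}. -/
theorem result {X Y : Scheme.{u}} (f : X ⟶ Y) :
    WeaklyEtale f ↔ ∀ x : X, (f.stalkMap x).hom.Flat ∧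
      (letI := (f.stalkMap x).hom.toAlgebra
       (Algebra.TensorProduct.lmul' (S := ↑(X.presheaf.stalk x)) (↑(Y.presheaf.stalk (f x)))).toRingHom.Flat) := by
  exact Groth.Agent.H3WEStalk.t1412 f

end Groth.Agent.S1412
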