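import Groth.Statements.S1413
import Groth.Agent.Lib.H3Mor

set_option autoImplicit false
universe u
open FlatMor

namespace Groth.Agent.S1413

open AlgebraicGeometry CategoryTheory Limits in
/-- Let X → Y → Z be morphisms with X → Y flat and surjective and with the diagonal of X over Z flat.
Then the diagonal of Y over Z is flat. -/
theorem result {X Y Z : Scheme.{u}} (f : X ⟶ Y) (g : Y ⟶ Z) [Flat f] [Surjective f] [Flat (pullback.diagonal (f ≫ g))] :
    Flat (pullback.diagonal g) := by
  exact Groth.Agent.H3Mor.t1413 f g

end Groth.Agent.S1413
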