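import Groth.Statements.S1414
import Groth.Agent.Lib.H3Mor

set_option autoImplicit false
universe u
open FlatMor

namespace Groth.Agent.S1414

open AlgebraicGeometry CategoryTheory Limits in
/-- Let f : X → Y and g : Y → Z with f ≫ g smooth and g étale. Then f is smooth. -/
theorem result {X Y Z : Scheme.{u}} (f : X ⟶ Y) (g : Y ⟶ Z) [Smooth (f ≫ g)] [Etale g] : Smooth f := by
  exact Groth.Agent.H3Mor.t1414 f g

end Groth.Agent.S1414
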