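import Groth.Statements.S14227
import Groth.Agent.Lib.H21RootB

set_option autoImplicit false
universe u v w x
open RootCh

namespace Groth.Agent.S14227

/-- For a finite reduced crystallographic root system over a linearly ordered field and a base b, the
corners of the Weyl chamber of b, that is the fundamental weights (of any base) lying in the closed
chamber of b, are exactly the fundamental weights of b. -/
theorem result {ι : Type u} {R : Type v} {M : Type w} {N : Type x}
    [Field R] [LinearOrder R] [IsStrictOrderedRing R]
    [AddCommGroup M] [Module R M] [AddCommGroup N] [Module R N] [Finite ι]
    (P : RootPairing ι R M N) [P.IsRootSystem] [P.IsCrystallographic] [P.IsReduced] (b : P.Base) :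
    RootCh.baseCorners b = Set.range (RootCh.fundWeight b) := by
  exact Groth.Agent.H21.baseCorners_eq b

end Groth.Agent.S14227
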