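import Groth.Statements.S14228
import Groth.Agent.Lib.H21RootB

set_option autoImplicit false
universe u v w x
open RootCh RootCh.Facet

namespace Groth.Agent.S14228

/-- For a finite reduced crystallographic root system over a linearly ordered field and a facet F, the
corners of F, i.e. the fundamental weights lying in the closure of F, form a linearly independent
set. -/
theorem result {ι : Type u} {R : Type v} {M : Type w} {N : Type x}
    [Field R] [LinearOrder R] [IsStrictOrderedRing R]
    [AddCommGroup M] [Module R M] [AddCommGroup N] [Module R N] [Finite ι]
    (P : RootPairing ι R M N) [P.IsRootSystem] [P.IsCrystallographic] [P.IsReduced] (F : RootCh.Facet P) :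
    LinearIndepOn R (fun m : M => m) F.corners := by
  exact Groth.Agent.H21.linearIndepOn_corners F

end Groth.Agent.S14228
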