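import Groth.Statements.S14229
import Groth.Agent.Lib.H21RootB

set_option autoImplicit false
universe u v w x
open RootCh RootCh.Facet

namespace Groth.Agent.S14229

/-- For a finite reduced crystallographic root system over a linearly ordered field and a facet F, the
linear subspace spanned by the vectors of F (its affine support, F being a cone) is the span of the
corners of F. -/
theorem result {ι : Type u} {R : Type v} {M : Type w} {N : Type x}
    [Field R] [LinearOrder R] [IsStrictOrderedRing R]
    [AddCommGroup M] [Module R M] [AddCommGroup N] [Module R N] [Finite ι]
    (P : RootPairing ι R M N) [P.IsRootSystem] [P.IsCrystallographic] [P.IsReduced] (F : RootCh.Facet P) :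
    Submodule.span R F.carrier = Submodule.span R F.corners := by
  exact Groth.Agent.H21.span_carrier_eq F

end Groth.Agent.S14229
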