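import Groth.Statements.S14230
import Groth.Agent.Lib.H21RootB

set_option autoImplicit false
universe u v w x
open RootCh RootCh.Facet

namespace Groth.Agent.S14230

/-- For a finite reduced crystallographic root system over a linearly ordered field and a facet F, the
vectors of F are exactly the linear combinations of the corners of F in which every corner of F
occurs with a strictly positive coefficient (written with a finitely supported coefficient function
supported inside the set of corners). -/
theorem result {ι : Type u} {R : Type v} {M : Type w} {N : Type x}
    [Field R] [LinearOrder R] [IsStrictOrderedRing R]
    [AddCommGroup M] [Module R M] [AddCommGroup N] [Module R N] [Finite ι]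
    (P : RootPairing ι R M N) [P.IsRootSystem] [P.IsCrystallographic] [P.IsReduced] (F : RootCh.Facet P) :
    F.carrier = {ξ : M | ∃ c : M →₀ R, (c.support : Set M) ⊆ F.corners ∧
      (∀ m ∈ F.corners, 0 < c m) ∧ c.sum (fun m r => r • m) = ξ} := by
  exact Groth.Agent.H21.carrier_eq F

end Groth.Agent.S14230
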