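import Groth.Statements.S14231
import Groth.Agent.Lib.H21RootB

set_option autoImplicit false
universe u v w x
open RootCh RootCh.Facet

namespace Groth.Agent.S14231

/-- For a finite reduced crystallographic root system over a linearly ordered field and a facet F with
dual facet F̌ (the facet of the dual root system with the same sign vector), the corners of F̌ are
exactly the fundamental coweights corresponding to the corners of F, where a fundamental weight and
a fundamental coweight correspond when they are attached to the same simple root of the same base. -/
theorem result {ι : Type u} {R : Type v} {M : Type w} {N : Type x}
    [Field R] [LinearOrder R] [IsStrictOrderedRing R]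
    [AddCommGroup M] [Module R M] [AddCommGroup N] [Module R N] [Finite ι]
    (P : RootPairing ι R M N) [P.IsRootSystem] [P.IsCrystallographic] [P.IsReduced] (F : RootCh.Facet P) :
    F.dualCorners = {y : N | ∃ m ∈ F.corners, RootCh.Corr P m y} := by
  exact Groth.Agent.H21.dualCorners_eq F

end Groth.Agent.S14231
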