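import Groth.Statements.S14234
import Groth.Agent.Lib.H21RootC

set_option autoImplicit false
universe u v w x
open RootCh RootCh.Facet

namespace Groth.Agent.S14234

/-- For a finite reduced crystallographic root system over a linearly ordered field and a facet F, let
R(F) be the parabolic set of roots of F, the roots whose pairing with the vectors of F is not
negative (equivalently, the roots pairing non-negatively with the fundamental coweights
corresponding to the corners of F). Then a fundamental weight is a corner of F if and only if its
corresponding fundamental coweight pairs non-negatively with every root of R(F). -/
theorem result {ι : Type u} {R : Type v} {M : Type w} {N : Type x}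
    [Field R] [LinearOrder R] [IsStrictOrderedRing R]
    [AddCommGroup M] [Module R M] [AddCommGroup N] [Module R N] [Finite ι]
    (P : RootPairing ι R M N) [P.IsRootSystem] [P.IsCrystallographic] [P.IsReduced] (F : RootCh.Facet P) :
    F.corners = {m : M | m ∈ RootCh.fundWeights P ∧
      ∀ y : N, RootCh.Corr P m y → ∀ i ∈ F.parab, 0 ≤ P.root' i y} := by
  exact Groth.Agent.H21.corners_eq_parab F

end Groth.Agent.S14234
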