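import Groth.Statements.S14235
import Groth.Agent.Lib.H21RootC

set_option autoImplicit false
universe u v w x
open RootCh

namespace Groth.Agent.S14235

/-- For a finite reduced crystallographic root system over a linearly ordered field and a parabolic set
of roots S, let vert S be the set of fundamental weights whose corresponding fundamental coweight
pairs non-negatively with every root of S. Then there is a unique facet whose set of corners is vert
S, and the parabolic set of roots of this facet (the roots whose sign on it is not negative) is S.
(Here a parabolic set of roots is a set of roots closed under addition of roots and containing each
root or its negative; the published recall of the notion prints only the second condition, under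
which, in type A₂, the set of all roots but the highest would qualify without being the parabolic
set of any facet, and the published proof uses that the set contains the positive roots of some
chamber.) -/
theorem result {ι : Type u} {R : Type v} {M : Type w} {N : Type x}
    [Field R] [LinearOrder R] [IsStrictOrderedRing R]
    [AddCommGroup M] [Module R M] [AddCommGroup N] [Module R N] [Finite ι]
    (P : RootPairing ι R M N) [P.IsRootSystem] [P.IsCrystallographic] [P.IsReduced] (S : Set ι) (hS : RootCh.IsParabolicSubset P S) :
    ∃ F : RootCh.Facet P,
      (F.corners = {m : M | m ∈ RootCh.fundWeights P ∧ ∀ y : N, RootCh.Corr P m y → ∀ i ∈ S, 0 ≤ P.root' i y} ∧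
        F.parab = S) ∧
      ∀ G : RootCh.Facet P,
        G.corners = {m : M | m ∈ RootCh.fundWeights P ∧ ∀ y : N, RootCh.Corr P m y → ∀ i ∈ S, 0 ≤ P.root' i y} →
        G = F := by
  exact Groth.Agent.H21.parabolic_corners hS

end Groth.Agent.S14235
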