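import Groth.Statements.S14236
import Groth.Agent.Lib.H21RootC

set_option autoImplicit false
universe u v w x
open RootCh

namespace Groth.Agent.S14236

/-- For a finite reduced crystallographic root system over a linearly ordered field, the map sending a
facet F to its parabolic set of roots R(F) (the roots whose sign on F is not negative) is a
bijection from the set of facets onto the set of parabolic sets of roots: a set of roots S is
parabolic if and only if S = R(F) for exactly one facet F. Moreover the bijection is order
preserving: for facets F and G, G lies in the closure of F if and only if R(F) ⊆ R(G). (Here a
parabolic set of roots is a set of roots closed under addition of roots and containing each root or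
its negative; the published recall of the notion prints only the second condition, under which, in
type A₂, the set of all roots but the highest would qualify without being the parabolic set of any
facet, and the published proof uses that the set contains the positive roots of some chamber.) -/
theorem result {ι : Type u} {R : Type v} {M : Type w} {N : Type x}
    [Field R] [LinearOrder R] [IsStrictOrderedRing R]
    [AddCommGroup M] [Module R M] [AddCommGroup N] [Module R N] [Finite ι]
    (P : RootPairing ι R M N) [P.IsRootSystem] [P.IsCrystallographic] [P.IsReduced] :
    (∀ S : Set ι, RootCh.IsParabolicSubset P S ↔ ∃! F : RootCh.Facet P, F.parab = S) ∧
      ∀ F G : RootCh.Facet P, F ≤ G ↔ F.parab ⊆ G.parab := by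
  exact Groth.Agent.H21.parabolic_iff P

end Groth.Agent.S14236
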