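import Groth.Statements.S14238
import Groth.Agent.Lib.H21RootD

set_option autoImplicit false
universe u v w x
open RootCh

namespace Groth.Agent.S14238

/-- For a finite reduced crystallographic root system over a linearly ordered field with a complementary
convex solid d (d assigns to every Weyl chamber b a vector d(b) of N so that (B1) two chambers with
a common corner m satisfy ⟨m, d(b)⟩ = ⟨m, d(b')⟩ and (B2) across a wall the root changing sign from
positive to negative pairs no more with d on its positive side) and a facet F, the dual solid of F,
i.e. the convex hull of the d(b) over the chambers b whose closure contains F, equals the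
intersection of the hyperplanes H_m = {y | ⟨m, y⟩ = ⟨m, d(b)⟩, b any chamber with corner m} over the
corners m of F with the closed half-spaces {y | ⟨m, y⟩ ≥ ⟨m, d(b)⟩} over the corners m of the
chambers adjacent to F. In particular (F the origin) the solid itself, the convex hull of all d(b),
is the intersection of the closed half-spaces of all fundamental weights. -/
theorem result {ι : Type u} {R : Type v} {M : Type w} {N : Type x}
    [Field R] [LinearOrder R] [IsStrictOrderedRing R]
    [AddCommGroup M] [Module R M] [AddCommGroup N] [Module R N] [Finite ι]
    (P : RootPairing ι R M N) [P.IsRootSystem] [P.IsCrystallographic] [P.IsReduced] (d : P.Base → N) (hd : RootCh.IsCCS d) (F : RootCh.Facet P) :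
    RootCh.dualSolid d F = (⋂ m ∈ F.corners, RootCh.hyper d m) ∩ ⋂ m ∈ F.corners', RootCh.halfClosed d m := by
  exact Groth.Agent.H21.dualSolid_eq_inter hd F

end Groth.Agent.S14238
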