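import Groth.Statements.S14241
import Groth.Agent.Lib.H21RootE

set_option autoImplicit false
universe u v w x
open RootCh

namespace Groth.Agent.S14241

/-- (iii) ⇔ (iv): for a finite reduced crystallographic root system over a linearly ordered field with a
complementary convex solid d (a vector d(b) of N for every Weyl chamber b, subject to (B1): a common
corner of two chambers pairs equally with their d-values, and (B2): across a wall, the root that
changes sign from positive to negative does not pair more with d on the positive side): ⟨m, d(b)⟩ ≤
0 for every Weyl chamber b and every corner m of b (fundamental weight in the closed chamber of b)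
if and only if (Φ, d) is semi-stable, i.e. 0 lies in the convex hull of the d(b). -/
theorem result {ι : Type u} {R : Type v} {M : Type w} {N : Type x}
    [Field R] [LinearOrder R] [IsStrictOrderedRing R]
    [AddCommGroup M] [Module R M] [AddCommGroup N] [Module R N] [Finite ι]
    (P : RootPairing ι R M N) [P.IsRootSystem] [P.IsCrystallographic] [P.IsReduced] (d : P.Base → N) (hd : RootCh.IsCCS d) :
    (∀ (b : P.Base), ∀ m ∈ RootCh.baseCorners b, P.toLinearMap m (d b) ≤ 0) ↔ RootCh.IsSemistable d := by
  exact Groth.Agent.H21.corner_iff_semistable hd

end Groth.Agent.S14241
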