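import Groth.Statements.S14242
import Groth.Agent.Lib.H21RootC

set_option autoImplicit false
universe u v w x
open RootCh RootCh.Facet

namespace Groth.Agent.S14242

/-- For a finite reduced crystallographic root system over a linearly ordered field, a facet F and a
corner m of F, let Ψ(F, m) be the elementary set of roots of F at m: the roots pairing to 1 with the
fundamental coweight corresponding to m and to 0 with the fundamental coweights corresponding to the
other corners of F. Then the sum of the roots of Ψ(F, m) lies in the linear span of the corners of
F. -/
theorem result {ι : Type u} {R : Type v} {M : Type w} {N : Type x}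
    [Field R] [LinearOrder R] [IsStrictOrderedRing R]
    [AddCommGroup M] [Module R M] [AddCommGroup N] [Module R N] [Finite ι]
    (P : RootPairing ι R M N) [P.IsRootSystem] [P.IsCrystallographic] [P.IsReduced] (F : RootCh.Facet P) (m : M) (hm : m ∈ F.corners) :
    (∑ i ∈ (Set.toFinite (F.Psi m)).toFinset, P.root i) ∈ Submodule.span R F.corners := by
  exact Groth.Agent.H21.sum_Psi_mem_span F m hm

end Groth.Agent.S14242
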