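import Groth.Statements.S14243
import Groth.Agent.Lib.H21RootE

set_option autoImplicit false
universe u v w x
open RootCh

namespace Groth.Agent.S14243

/-- For a finite reduced crystallographic root system over a linearly ordered field with a complementary
convex solid d (a vector d(b) of N for every Weyl chamber b, subject to (B1): a common corner of two
chambers pairs equally with their d-values, and (B2): across a wall, the root that changes sign from
positive to negative does not pair more with d on the positive side) and a facet F with dual facet
F̌ in N and dual solid F(F), the convex hull of the d(b) over the chambers b adjacent to F: the two
conditions (S1) for every corner m of F the numerical invariant n(F, m), the sum of ⟨α, d(b)⟩ over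
the elementary set of roots Ψ(F, m) for b adjacent to F, is positive, and (S2) F(F) meets the linear
span of F̌ (equivalently, the reduced root system with convex solid attached to F is semi-stable),
hold together if and only if F̌ itself meets F(F). (The published text takes (S1) and (S2), the
latter through the reduced system, as the definition of a special facet; this row states their
equivalence with the condition F̌ ∩ F(F) ≠ ∅, the form in which specialness is expressed in the
companion results.) -/
theorem result {ι : Type u} {R : Type v} {M : Type w} {N : Type x}
    [Field R] [LinearOrder R] [IsStrictOrderedRing R]
    [AddCommGroup M] [Module R M] [AddCommGroup N] [Module R N] [Finite ι]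
    (P : RootPairing ι R M N) [P.IsRootSystem] [P.IsCrystallographic] [P.IsReduced] (d : P.Base → N) (hd : RootCh.IsCCS d) (F : RootCh.Facet P) :
    ((∀ m ∈ F.corners, ∀ b ∈ F.cham, 0 < F.numInv d m b) ∧
        (RootCh.dualSolid d F ∩ (Submodule.span R F.dualCarrier : Set N)).Nonempty) ↔
      RootCh.IsSpecial d F := by
  exact Groth.Agent.H21.numInv_iff_special hd F

end Groth.Agent.S14243
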