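import Groth.Statements.S14244
import Groth.Agent.Lib.H21RootE

set_option autoImplicit false
universe u v w x
open RootCh

namespace Groth.Agent.S14244

/-- For a finite reduced crystallographic root system over a linearly ordered field with a complementary
convex solid d (a vector d(b) of N for every Weyl chamber b, subject to (B1): a common corner of two
chambers pairs equally with their d-values, and (B2): across a wall, the root that changes sign from
positive to negative does not pair more with d on the positive side). Let B be a scalar product on N
compatible with the Weyl group: a symmetric bilinear form with B(y, y) > 0 for y ≠ 0 that is
invariant under every coreflection. If the facet F is special, then the intersection of the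
hyperplanes H_m = {y | ⟨m, y⟩ = ⟨m, d(b)⟩, b any chamber with corner m} over the corners m of F with
the span of the dual facet of F is a single point y(F), this point lies in the solid (the convex
hull of all the d(b)), and every other point y of the solid has B(y, y) > B(y(F), y(F)). Here a
facet is special when its dual facet (the corresponding facet of the dual root system, in N) meets
its dual solid, the convex hull of the values of d at the chambers adjacent to it. (The published
definition of a special facet asks instead that all its numerical invariants be positive and that
the reduced root system with convex solid attached to the facet be semi-stable; it is proved there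
to be equivalent to the condition used in this row.) -/
theorem result {ι : Type u} {R : Type v} {M : Type w} {N : Type x}
    [Field R] [LinearOrder R] [IsStrictOrderedRing R]
    [AddCommGroup M] [Module R M] [AddCommGroup N] [Module R N] [Finite ι]
    (P : RootPairing ι R M N) [P.IsRootSystem] [P.IsCrystallographic] [P.IsReduced] (d : P.Base → N) (hd : RootCh.IsCCS d)
    (B : LinearMap.BilinForm R N) (hBs : ∀ y z : N, B y z = B z y) (hBp : ∀ y : N, y ≠ 0 → 0 < B y y)
    (hBi : ∀ (i : ι) (y z : N), B (P.coreflection i y) (P.coreflection i z) = B y z)
    (F : RootCh.Facet P) (hF : RootCh.IsSpecial d F) :
    ∃ y₀ : N, RootCh.yLocus d F = {y₀} ∧ y₀ ∈ RootCh.solid d ∧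
      ∀ y ∈ RootCh.solid d, y ≠ y₀ → B y₀ y₀ < B y y := by
  exact Groth.Agent.H21.special_min hd B hBs hBp hBi F hF

end Groth.Agent.S14244
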