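import Groth.Statements.S14245
import Groth.Agent.Lib.H21RootE

set_option autoImplicit false
universe u v w x
open RootCh

namespace Groth.Agent.S14245

/-- For a finite reduced crystallographic root system over a linearly ordered field with a complementary
convex solid d (a vector d(b) of N for every Weyl chamber b, subject to (B1): a common corner of two
chambers pairs equally with their d-values, and (B2): across a wall, the root that changes sign from
positive to negative does not pair more with d on the positive side). Let B be a scalar product on N
compatible with the Weyl group: a symmetric bilinear form with B(y, y) > 0 for y ≠ 0 that is
invariant under every coreflection. If y₀ is a point of the solid (the convex hull of all the d(b))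
with B(y₀, y₀) ≤ B(y, y) for every point y of the solid, and F is the facet whose dual facet
contains y₀, then F is special and the intersection of the hyperplanes H_m over the corners m of F
with the span of the dual facet of F is exactly {y₀}. Here a facet is special when its dual facet
(the corresponding facet of the dual root system, in N) meets its dual solid, the convex hull of the
values of d at the chambers adjacent to it. (The published definition of a special facet asks
instead that all its numerical invariants be positive and that the reduced root system with convex
solid attached to the facet be semi-stable; it is proved there to be equivalent to the condition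
used in this row.) -/
theorem result {ι : Type u} {R : Type v} {M : Type w} {N : Type x}
    [Field R] [LinearOrder R] [IsStrictOrderedRing R]
    [AddCommGroup M] [Module R M] [AddCommGroup N] [Module R N] [Finite ι]
    (P : RootPairing ι R M N) [P.IsRootSystem] [P.IsCrystallographic] [P.IsReduced] (d : P.Base → N) (hd : RootCh.IsCCS d)
    (B : LinearMap.BilinForm R N) (hBs : ∀ y z : N, B y z = B z y) (hBp : ∀ y : N, y ≠ 0 → 0 < B y y)
    (hBi : ∀ (i : ι) (y z : N), B (P.coreflection i y) (P.coreflection i z) = B y z)
    (y₀ : N) (hy₀ : y₀ ∈ RootCh.solid d) (hmin : ∀ y ∈ RootCh.solid d, B y₀ y₀ ≤ B y y)
    (F : RootCh.Facet P) (hF : y₀ ∈ F.dualCarrier) :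
    RootCh.IsSpecial d F ∧ RootCh.yLocus d F = {y₀} := by
  exact Groth.Agent.H21.min_special hd B hBs hBp hBi y₀ hy₀ hmin F hF

end Groth.Agent.S14245
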