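import Groth.Statements.S14246
import Groth.Agent.Lib.H21RootE

set_option autoImplicit false
universe u v w x
open RootCh

namespace Groth.Agent.S14246

/-- A finite reduced crystallographic root system over a linearly ordered field endowed with a
complementary convex solid d (a vector d(b) of N for every Weyl chamber b, subject to (B1): a common
corner of two chambers pairs equally with their d-values, and (B2): across a wall, the root that
changes sign from positive to negative does not pair more with d on the positive side) has exactly
one special facet. Here a facet is special when its dual facet (the corresponding facet of the dual
root system, in N) meets its dual solid, the convex hull of the values of d at the chambers adjacent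
to it. (The published definition of a special facet asks instead that all its numerical invariants
be positive and that the reduced root system with convex solid attached to the facet be semi-stable;
it is proved there to be equivalent to the condition used in this row.) -/
theorem result {ι : Type u} {R : Type v} {M : Type w} {N : Type x}
    [Field R] [LinearOrder R] [IsStrictOrderedRing R]
    [AddCommGroup M] [Module R M] [AddCommGroup N] [Module R N] [Finite ι]
    (P : RootPairing ι R M N) [P.IsRootSystem] [P.IsCrystallographic] [P.IsReduced] (d : P.Base → N) (hd : RootCh.IsCCS d) :
    ∃! F : RootCh.Facet P, RootCh.IsSpecial d F := by
  exact Groth.Agent.H21.existsUnique_special hd

end Groth.Agent.S14246
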