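import Groth.Statements.S14247
import Groth.Agent.Lib.H21RootE

set_option autoImplicit false
universe u v w x
open RootCh

namespace Groth.Agent.S14247

/-- For a finite reduced crystallographic root system over a linearly ordered field with a complementary
convex solid d (a vector d(b) of N for every Weyl chamber b, subject to (B1): a common corner of two
chambers pairs equally with their d-values, and (B2): across a wall, the root that changes sign from
positive to negative does not pair more with d on the positive side), let F be a facet and b a
chamber adjacent to F such that the degree of F (the sum of ⟨α, d(b)⟩ over the roots α whose sign on
F is not negative) is at least the degree of every facet (computed at an adjacent chamber), and such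
that no facet of the same degree other than F lies in the closure of F. Then F is special. Here a
facet is special when its dual facet (the corresponding facet of the dual root system, in N) meets
its dual solid, the convex hull of the values of d at the chambers adjacent to it. (The published
definition of a special facet asks instead that all its numerical invariants be positive and that
the reduced root system with convex solid attached to the facet be semi-stable; it is proved there
to be equivalent to the condition used in this row.) -/
theorem result {ι : Type u} {R : Type v} {M : Type w} {N : Type x}
    [Field R] [LinearOrder R] [IsStrictOrderedRing R]
    [AddCommGroup M] [Module R M] [AddCommGroup N] [Module R N] [Finite ι]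
    (P : RootPairing ι R M N) [P.IsRootSystem] [P.IsCrystallographic] [P.IsReduced] (d : P.Base → N) (hd : RootCh.IsCCS d)
    (F : RootCh.Facet P) (b : P.Base) (hb : b ∈ F.cham)
    (hmax : ∀ (G : RootCh.Facet P) (c : P.Base), c ∈ G.cham → G.deg d c ≤ F.deg d b)
    (hmaxl : ∀ (G : RootCh.Facet P) (c : P.Base), c ∈ G.cham → G.deg d c = F.deg d b → F ≤ G → G = F) :
    RootCh.IsSpecial d F := by
  exact Groth.Agent.H21.special_of_maximal hd F b hb hmax hmaxl

end Groth.Agent.S14247
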