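import Groth.Statements.S14249
import Groth.Agent.Lib.H21RootC

set_option autoImplicit false
universe u v w x
open RootCh RootCh.Facet

namespace Groth.Agent.S14249

/-- For a finite reduced crystallographic root system over a linearly ordered field with a complementary
convex solid d (a vector d(b) of N for every Weyl chamber b, subject to (B1): a common corner of two
chambers pairs equally with their d-values, and (B2): across a wall, the root that changes sign from
positive to negative does not pair more with d on the positive side) and a facet F, the degree of F
computed at a chamber b whose closure contains F, namely the sum of ⟨α, d(b)⟩ over the roots α of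
the parabolic set of F (the roots whose sign on F is not negative), does not depend on the choice of
such a chamber b. -/
theorem result {ι : Type u} {R : Type v} {M : Type w} {N : Type x}
    [Field R] [LinearOrder R] [IsStrictOrderedRing R]
    [AddCommGroup M] [Module R M] [AddCommGroup N] [Module R N] [Finite ι]
    (P : RootPairing ι R M N) [P.IsRootSystem] [P.IsCrystallographic] [P.IsReduced] (d : P.Base → N) (hd : RootCh.IsCCS d) (F : RootCh.Facet P)
    (b b' : P.Base) (hb : b ∈ F.cham) (hb' : b' ∈ F.cham) :
    F.deg d b = F.deg d b' := by
  exact Groth.Agent.H21.deg_eq_deg hd F b b' hb hb'

end Groth.Agent.S14249
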