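import Groth.Statements.S14250
import Groth.Agent.Lib.H21RootC

set_option autoImplicit false
universe u v w x
open RootCh RootCh.Facet

namespace Groth.Agent.S14250

/-- For a finite reduced crystallographic root system over a linearly ordered field with a complementary
convex solid d (a vector d(b) of N for every Weyl chamber b, subject to (B1): a common corner of two
chambers pairs equally with their d-values, and (B2): across a wall, the root that changes sign from
positive to negative does not pair more with d on the positive side), a facet F and a corner m of F,
the numerical invariant n(F, m) computed at a chamber b whose closure contains F, namely the sum of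
⟨α, d(b)⟩ over the elementary set Ψ(F, m) (the roots pairing to 1 with the fundamental coweight
corresponding to m and to 0 with those corresponding to the other corners of F), does not depend on
the choice of such a chamber b. -/
theorem result {ι : Type u} {R : Type v} {M : Type w} {N : Type x}
    [Field R] [LinearOrder R] [IsStrictOrderedRing R]
    [AddCommGroup M] [Module R M] [AddCommGroup N] [Module R N] [Finite ι]
    (P : RootPairing ι R M N) [P.IsRootSystem] [P.IsCrystallographic] [P.IsReduced] (d : P.Base → N) (hd : RootCh.IsCCS d) (F : RootCh.Facet P) (m : M) (hm : m ∈ F.corners)
    (b b' : P.Base) (hb : b ∈ F.cham) (hb' : b' ∈ F.cham) :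
    F.numInv d m b = F.numInv d m b' := by
  exact Groth.Agent.H21.numInv_eq_numInv hd F m hm b b' hb hb'

end Groth.Agent.S14250
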