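import Groth.Statements.S14251
import Groth.Agent.Lib.H21RootE

set_option autoImplicit false
universe u v w x
open RootCh

namespace Groth.Agent.S14251

/-- For a finite reduced crystallographic root system over a linearly ordered field with a complementary
convex solid d (a vector d(b) of N for every Weyl chamber b, subject to (B1): a common corner of two
chambers pairs equally with their d-values, and (B2): across a wall, the root that changes sign from
positive to negative does not pair more with d on the positive side) and a special facet F, the
intersection of the hyperplanes H_m = {y | ⟨m, y⟩ = ⟨m, d(b)⟩, b any chamber with corner m} over the
corners m of F with the linear span of the dual facet F̌ is a single point y(F), and y(F) is the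
unique point of F̌ lying in the dual solid of F (the convex hull of the d(b) over the chambers b
adjacent to F). Here a facet is special when its dual facet (the corresponding facet of the dual
root system, in N) meets its dual solid, the convex hull of the values of d at the chambers adjacent
to it. (The published definition of a special facet asks instead that all its numerical invariants
be positive and that the reduced root system with convex solid attached to the facet be semi-stable;
it is proved there to be equivalent to the condition used in this row.) -/
theorem result {ι : Type u} {R : Type v} {M : Type w} {N : Type x}
    [Field R] [LinearOrder R] [IsStrictOrderedRing R]
    [AddCommGroup M] [Module R M] [AddCommGroup N] [Module R N] [Finite ι]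
    (P : RootPairing ι R M N) [P.IsRootSystem] [P.IsCrystallographic] [P.IsReduced] (d : P.Base → N) (hd : RootCh.IsCCS d) (F : RootCh.Facet P) (hF : RootCh.IsSpecial d F) :
    ∃ y₀ : N, RootCh.yLocus d F = {y₀} ∧ F.dualCarrier ∩ RootCh.dualSolid d F = {y₀} := by
  exact Groth.Agent.H21.special_yLocus hd F hF

end Groth.Agent.S14251
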