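import Groth.Statements.S14294
import Groth.Agent.Lib.H21PtDeg

set_option autoImplicit false
universe u v
open PtDeg

namespace Groth.Agent.S14294

/-- Let A and G be abelian groups, written additively, and f : A → G a map which is pointed of degree 2,
that is f(x+y+z) + f(x) + f(y) + f(z) = f(x+y) + f(x+z) + f(y+z) for all x, y, z in A. If an integer
n satisfies n·x = 0 for every x in A, then 2n·f(x) = 0 for every x in A, and if moreover n is odd
then n·f(x) = 0 for every x in A. -/
theorem result {A : Type u} {G : Type v} [AddCommGroup A] [AddCommGroup G]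
    (f : A → G) (hf : ∀ x y z : A, f (x + y + z) + f x + f y + f z = f (x + y) + f (x + z) + f (y + z))
    (n : ℤ) (hn : ∀ x : A, n • x = 0) :
    (∀ x : A, (2 * n) • f x = 0) ∧ (Odd n → ∀ x : A, n • f x = 0) := by
  have h1 : ∀ x, n • (f x + f (-x)) = 0 := Groth.Agent.H21.d2_two f hf n hn
  -- n (f x - f(-x)) = 0
  have h2 : ∀ x, n • f x - n • f (-x) = 0 := by
    intro x
    have e := Groth.Agent.H21.d2_zsmul f hf n x
    rw [hn, Groth.Agent.H21.d2_zero f hf] at e
    have hd1 : 2 * (n * (n + 1) / 2) = n * (n + 1) :=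
      Int.mul_ediv_cancel' (even_iff_two_dvd.1 (Int.even_mul_succ_self n))
    have hd2 : 2 * (n * (n - 1) / 2) = n * (n - 1) :=
      Int.mul_ediv_cancel' (even_iff_two_dvd.1 (by have := Int.even_mul_succ_self (n-1); rw [sub_add_cancel, mul_comm] at this; exact this))
    have e2 : (2 * (n * (n + 1) / 2)) • f x + (2 * (n * (n - 1) / 2)) • f (-x) = 0 := by
      rw [mul_smul, mul_smul, ← smul_add, ← e, smul_zero]
    rw [hd1, hd2] at e2
    have e3 : (n * (n + 1)) • f x + (n * (n - 1)) • f (-x) = n • (n • (f x + f (-x))) + (n • f x - n • f (-x)) := by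
      simp only [mul_smul, add_smul, sub_smul, one_smul, smul_add, smul_sub]
      abel
    rw [e3, h1, smul_zero, zero_add] at e2
    exact e2
  have h3 : ∀ x, (2 * n) • f x = 0 := by
    intro x
    have a := h1 x
    have b := h2 x
    rw [smul_add] at a
    have : (2 * n) • f x = (n • f x + n • f (-x)) + (n • f x - n • f (-x)) := by
      rw [mul_smul, two_smul]; abel
    rw [this, a, b, add_zero]
  refine ⟨h3, fun ⟨k, hk⟩ x => ?_⟩
  have e := Groth.Agent.H21.d2_zsmul f hf n x
  rw [hn, Groth.Agent.H21.d2_zero f hf] at e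
  have c1 : n * (n + 1) / 2 = n * (k + 1) := by
    apply Int.ediv_eq_of_eq_mul_right (by norm_num)
    rw [hk]; ring
  have c2 : n * (n - 1) / 2 = n * k := by
    apply Int.ediv_eq_of_eq_mul_right (by norm_num)
    rw [hk]; ring
  rw [c1, c2] at e
  have : n • f x = (n * (k + 1)) • f x + (n * k) • f (-x) - k • (n • (f x + f (-x))) := by
    rw [mul_comm n (k+1), mul_comm n k]
    simp only [mul_smul, add_smul, one_smul, smul_add]
    abel
  rw [this, ← e, h1, smul_zero, sub_zero]

end Groth.Agent.S14294
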