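import Groth.Statements.S14295
import Groth.Agent.Lib.H21PtDeg

set_option autoImplicit false
universe u v
open PtDeg

namespace Groth.Agent.S14295

/-- Let A and G be abelian groups, written additively, and f : A → G a map which is pointed of degree 2,
that is f(x+y+z) + f(x) + f(y) + f(z) = f(x+y) + f(x+z) + f(y+z) for all x, y, z in A. Then for
every integer n and every x in A one has f(n·x) = (n(n+1)/2)·f(x) + (n(n−1)/2)·f(−x) (the two
coefficients are the integers n(n+1)/2 and n(n−1)/2). -/
theorem result {A : Type u} {G : Type v} [AddCommGroup A] [AddCommGroup G]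
    (f : A → G) (hf : ∀ x y z : A, f (x + y + z) + f x + f y + f z = f (x + y) + f (x + z) + f (y + z))
    (n : ℤ) (x : A) :
    f (n • x) = (n * (n + 1) / 2) • f x + (n * (n - 1) / 2) • f (-x) := by
  exact Groth.Agent.H21.d2_zsmul f hf n x

end Groth.Agent.S14295
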