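import Groth.Statements.S14296
import Groth.Agent.Lib.H21PtDeg

set_option autoImplicit false
universe u v
open PtDeg

namespace Groth.Agent.S14296

/-- Let G and H be abelian groups, written additively, n an integer such that 2n²·x = 0 for every x in
G, and d : G → H a quadratic map, meaning that d is pointed of degree 2 (d(x+y+z) + d(x) + d(y) +
d(z) = d(x+y) + d(x+z) + d(y+z) for all x, y, z) and even (d(−x) = d(x) for all x). Then d(2n·x) = 0
for every x in G. -/
theorem result {G : Type u} {H : Type v} [AddCommGroup G] [AddCommGroup H]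
    (n : ℤ) (hn : ∀ x : G, (2 * n ^ 2) • x = 0)
    (d : G → H) (hd : ∀ x y z : G, d (x + y + z) + d x + d y + d z = d (x + y) + d (x + z) + d (y + z))
    (heven : ∀ x : G, d (-x) = d x) (x : G) :
    d ((2 * n) • x) = 0 := by
  have h2 : ∀ m : ℤ, ∀ x, d (m • x) = (m * m) • d x := by
    intro m x
    rw [Groth.Agent.H21.d2_zsmul d hd m x, heven, ← add_smul]
    congr 1
    have hd1 : 2 * (m * (m + 1) / 2) = m * (m + 1) :=
      Int.mul_ediv_cancel' (even_iff_two_dvd.1 (Int.even_mul_succ_self m))
    have hd2 : 2 * (m * (m - 1) / 2) = m * (m - 1) :=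
      Int.mul_ediv_cancel' (even_iff_two_dvd.1 (by have := Int.even_mul_succ_self (m-1); rw [sub_add_cancel, mul_comm] at this; exact this))
    nlinarith
  -- 2 d(x) = b(x,x), so 4 n^2 d(x) = b(x, 2n^2 x) = 0
  have h3 := Groth.Agent.H21.d2_b_smul d hd (2 * n ^ 2) x x
  rw [hn, add_zero, Groth.Agent.H21.d2_zero d hd, sub_self, sub_zero] at h3
  have h4 : d (x + x) = (4 : ℤ) • d x := by
    rw [← two_smul ℤ x, h2]; norm_num
  rw [h4] at h3
  rw [h2]
  have : (2 * n * (2 * n)) • d x = (2 * n ^ 2) • ((4 : ℤ) • d x - d x - d x) := by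
    have : (4 : ℤ) • d x - d x - d x = (2 : ℤ) • d x := by
      rw [show (4 : ℤ) = 2 + 1 + 1 by norm_num, add_smul, add_smul, one_smul]; abel
    rw [this, ← mul_smul]; congr 1; ring
  rw [this, ← h3]

end Groth.Agent.S14296
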