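import Groth.Statements.S14307
import Groth.Agent.Lib.H21PtDeg

set_option autoImplicit false
universe u v
open PtDeg

namespace Groth.Agent.S14307

/-- Let A and G be abelian groups, written additively, f : A → G a map and n ≥ 1. If a tuple x ∈ A^n has
some coordinate equal to 0, then the n-th deviation of f at x, namely Σ_{∅ ≠ I ⊆ {1,…,n}}
(−1)^{n+|I|} f(Σ_{i ∈ I} x_i), equals (−1)^{n+1} f(0). -/
theorem result {A : Type u} {G : Type v} [AddCommGroup A] [AddCommGroup G]
    (f : A → G) (n : ℕ) (hn : 1 ≤ n) (x : Fin n → A) (i : Fin n) (hx : x i = 0) :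
    ∑ I ∈ ((Finset.univ : Finset (Fin n)).powerset.erase ∅), ((-1 : ℤ) ^ (n + I.card)) • f (∑ j ∈ I, x j) =
      ((-1 : ℤ) ^ (n + 1)) • f 0 := by
  classical
  have key : ∑ I ∈ (Finset.univ : Finset (Fin n)).powerset, ((-1 : ℤ) ^ (n + I.card)) • f (∑ j ∈ I, x j) = 0 := by
    refine Finset.sum_involution (fun I _ => if i ∈ I then I.erase i else insert i I) ?_ ?_ ?_ ?_
    · intro I _
      by_cases h : i ∈ I
      · simp only [h, if_true]
        have e1 : ∑ j ∈ I, x j = ∑ j ∈ I.erase i, x j := by
          rw [← Finset.add_sum_erase I x h, hx, zero_add]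
        have e2 : I.card = (I.erase i).card + 1 := (Finset.card_erase_add_one h).symm
        rw [e1, e2, ← add_assoc, pow_succ]
        simp
      · simp only [h, if_false]
        have e1 : ∑ j ∈ insert i I, x j = ∑ j ∈ I, x j := by
          rw [Finset.sum_insert h, hx, zero_add]
        rw [e1, Finset.card_insert_of_notMem h, ← add_assoc, pow_succ]
        simp
    · intro I _ _ 
      by_cases h : i ∈ I
      · simp only [h, if_true]
        intro he
        have := Finset.notMem_erase i I
        rw [he] at this
        exact this h
      · simp only [h, if_false]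
        intro he
        apply h
        rw [← he]
        exact Finset.mem_insert_self _ _
    · intro I _
      simp
    · intro I _
      by_cases h : i ∈ I
      · simp [h, Finset.insert_erase]
      · simp [h, Finset.erase_insert]
  have h0 : ∅ ∈ (Finset.univ : Finset (Fin n)).powerset := Finset.empty_mem_powerset _
  rw [← Finset.add_sum_erase _ _ h0] at key
  simp only [Finset.card_empty, add_zero, Finset.sum_empty] at key
  rw [pow_succ, mul_neg, mul_one, neg_smul, eq_neg_iff_add_eq_zero, add_comm]
  exact key

end Groth.Agent.S14307
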