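import Groth.Statements.S1432
import Groth.Agent.Lib.H3Lift

set_option autoImplicit false
universe u
open FlatMor

namespace Groth.Agent.S1432

open AlgebraicGeometry CategoryTheory Limits in
/-- For a quasi-compact morphism f : X → Y, being a closed immersion is equivalent to the following
lifting property: for each injective ring map A → B and each commutative square with Spec B → X on
top and Spec A → Y at the bottom there is a lift Spec A → X making both triangles commute. -/
theorem result {X Y : Scheme.{u}} (f : X ⟶ Y) [QuasiCompact f] :
    IsClosedImmersion f ↔ ∀ (A B : Type u) [CommRing A] [CommRing B] (φ : A →+* B), Function.Injective φ →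
      ∀ (a : Spec (CommRingCat.of B) ⟶ X) (b : Spec (CommRingCat.of A) ⟶ Y), Spec.map (CommRingCat.ofHom φ) ≫ b = a ≫ f →
        ∃ l : Spec (CommRingCat.of A) ⟶ X, Spec.map (CommRingCat.ofHom φ) ≫ l = a ∧ l ≫ f = b := by
  exact Groth.Agent.H3Lift.t1432 f

end Groth.Agent.S1432
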