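import Groth.Statements.S1433


set_option autoImplicit false
universe u
open FlatMor

namespace Groth.Agent.S1433

open AlgebraicGeometry CategoryTheory Limits in
/-- If the canonical morphism X → Spec Γ(X, O_X) has a retraction, then X is affine. -/
theorem result (X : Scheme.{u}) (r : Spec Γ(X, ⊤) ⟶ X) (h : X.toSpecΓ ≫ r = 𝟙 X) : IsAffine X := by
  have h1 : r.appTop ≫ X.toSpecΓ.appTop = 𝟙 _ := by
    rw [← Scheme.Hom.comp_appTop, h]; rfl
  have h2 : r.appTop = (Scheme.ΓSpecIso Γ(X, ⊤)).inv := by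
    rw [Scheme.toSpecΓ_appTop] at h1
    exact (Iso.comp_hom_eq_id _).mp h1
  have h3 : r ≫ X.toSpecΓ = 𝟙 _ := by
    rw [Scheme.toSpecΓ_naturality, h2, toSpecΓ_SpecMap_ΓSpecIso_inv]
  exact ⟨⟨r, h, h3⟩⟩

end Groth.Agent.S1433
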