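import Groth.Statements.S1458
import Mathlib.LinearAlgebra.TensorProduct.Vanishing
import Mathlib.RingTheory.Finiteness.ModuleFinitePresentation

set_option autoImplicit false
universe u
open FlatMor

namespace Groth.Agent.S1458

open TensorProduct in
/-- Let A → B be a finite ring map of finite presentation. Then there are a finitely presented A-algebra
A_u and an idempotent e_u of B ⊗_A A_u such that for every A-algebra A' and every idempotent e of B
⊗_A A' there is an A-algebra map A_u → A' whose induced map B ⊗ A_u → B ⊗ A' sends e_u to e. -/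
theorem result {A B : Type u} [CommRing A] [CommRing B] [Algebra A B] [Module.Finite A B] [Algebra.FinitePresentation A B] :
    ∃ (Au : Type u) (_ : CommRing Au) (_ : Algebra A Au) (eu : B ⊗[A] Au), Algebra.FinitePresentation A Au ∧ IsIdempotentElem eu ∧
      ∀ (A' : Type u) [CommRing A'] [Algebra A A'] (e : B ⊗[A] A'), IsIdempotentElem e →
        ∃ φ : Au →ₐ[A] A', Algebra.TensorProduct.map (AlgHom.id A B) φ eu = e := by
  classical
  obtain ⟨n, b, hb⟩ := Module.Finite.exists_fin (R := A) (M := B)
  have hfp : Module.FinitePresentation A B :=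
    Module.FinitePresentation.of_finite_of_finitePresentation A B
  let L : (Fin n → A) →ₗ[A] B := Fintype.linearCombination A b
  have hL : Function.Surjective L := by
    rw [← LinearMap.range_eq_top, Fintype.range_linearCombination, hb]
  have hK : (LinearMap.ker L).FG := Module.FinitePresentation.fg_ker L hL
  obtain ⟨m, r, hr⟩ := Submodule.fg_iff_exists_fin_generating_family.mp hK
  have hr0 : ∀ l, ∑ k, r l k • b k = 0 := by
    intro l
    have : r l ∈ LinearMap.ker L := by rw [← hr]; exact Submodule.subset_span ⟨l, rfl⟩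
    exact this
  have hc : ∀ i j, ∃ c : Fin n → A, ∑ k, c k • b k = b i * b j := by
    intro i j
    obtain ⟨c, hc⟩ := hL (b i * b j)
    exact ⟨c, hc⟩
  choose c hc using hc
  let x : Fin n → MvPolynomial (Fin n ⊕ Fin m) A := fun i => MvPolynomial.X (Sum.inl i)
  let y : Fin m → MvPolynomial (Fin n ⊕ Fin m) A := fun i => MvPolynomial.X (Sum.inr i)
  let P : Fin n → MvPolynomial (Fin n ⊕ Fin m) A := fun k =>
    (∑ i, ∑ j, c i j k • (x i * x j)) - x k - ∑ l, r l k • y l
  let J := Ideal.span (Set.range P)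
  let Au := MvPolynomial (Fin n ⊕ Fin m) A ⧸ J
  let q : MvPolynomial (Fin n ⊕ Fin m) A →ₐ[A] Au := Ideal.Quotient.mkₐ A J
  -- expansion of e^2 - e
  have hexp : ∀ (A' : Type u) [CommRing A'] [Algebra A A'] (z : Fin n → A'),
      (∑ i, b i ⊗ₜ[A] z i) * (∑ i, b i ⊗ₜ[A] z i) - (∑ i, b i ⊗ₜ[A] z i) =
      ∑ k, b k ⊗ₜ[A] ((∑ i, ∑ j, c i j k • (z i * z j)) - z k) := by
    intro A' _ _ z
    have h1 : (∑ i, b i ⊗ₜ[A] z i) * (∑ i, b i ⊗ₜ[A] z i) =
        ∑ k, b k ⊗ₜ[A] (∑ i, ∑ j, c i j k • (z i * z j)) := by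
      rw [Finset.sum_mul_sum]
      have h2 : ∀ i j, (b i ⊗ₜ[A] z i) * (b j ⊗ₜ[A] z j) = ∑ k, b k ⊗ₜ[A] (c i j k • (z i * z j)) := by
        intro i j
        rw [Algebra.TensorProduct.tmul_mul_tmul, ← hc i j, TensorProduct.sum_tmul]
        refine Finset.sum_congr rfl fun k _ => ?_
        rw [TensorProduct.smul_tmul]
      simp_rw [h2, TensorProduct.tmul_sum]
      rw [Finset.sum_congr rfl fun i _ => Finset.sum_comm, Finset.sum_comm]
    rw [h1, ← Finset.sum_sub_distrib]
    refine Finset.sum_congr rfl fun k _ => ?_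
    rw [TensorProduct.tmul_sub]
  refine ⟨Au, inferInstance, inferInstance, ∑ i, b i ⊗ₜ[A] (q (x i)), ?_, ?_, ?_⟩
  · exact Algebra.FinitePresentation.quotient (Submodule.fg_span (Set.finite_range _))
  · change _ * _ = _
    rw [← sub_eq_zero, hexp]
    have h3 : ∀ k, (∑ i, ∑ j, c i j k • (q (x i) * q (x j))) - q (x k) = ∑ l, r l k • q (y l) := by
      intro k
      have h4 : q (P k) = 0 := Ideal.Quotient.eq_zero_iff_mem.mpr (Ideal.subset_span ⟨k, rfl⟩)
      have h5 : q (P k) = (∑ i, ∑ j, c i j k • (q (x i) * q (x j))) - q (x k) - ∑ l, r l k • q (y l) := by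
        simp only [P, map_sub, map_sum, map_smul, map_mul]
      rw [← sub_eq_zero, ← h5, h4]
    simp_rw [h3, TensorProduct.tmul_sum, ← TensorProduct.smul_tmul]
    rw [Finset.sum_comm]
    refine Finset.sum_eq_zero fun l _ => ?_
    rw [← TensorProduct.sum_tmul, hr0, TensorProduct.zero_tmul]
  · intro A' _ _ e he
    -- write e as a combination
    have hz : ∀ e : B ⊗[A] A', ∃ z : Fin n → A', ∑ i, b i ⊗ₜ[A] z i = e := by
      intro e
      induction e using TensorProduct.induction_on with
      | zero => exact ⟨0, by simp⟩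
      | tmul u v =>
        obtain ⟨w, rfl⟩ := hL u
        refine ⟨fun i => w i • v, ?_⟩
        simp only [L, Fintype.linearCombination_apply, TensorProduct.sum_tmul, TensorProduct.smul_tmul]
      | add u v hu hv =>
        obtain ⟨z1, rfl⟩ := hu
        obtain ⟨z2, rfl⟩ := hv
        exact ⟨z1 + z2, by simp [TensorProduct.tmul_add, Finset.sum_add_distrib]⟩
    obtain ⟨z, hz⟩ := hz e
    have h1 : ∑ k, b k ⊗ₜ[A] ((∑ i, ∑ j, c i j k • (z i * z j)) - z k) = 0 := by
      rw [← hexp A' z, hz, sub_eq_zero]; exact he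
    obtain ⟨k', a, y', hy', ha⟩ := TensorProduct.vanishesTrivially_of_sum_tmul_eq_zero A hb h1
    have hs : ∀ j, ∃ s : Fin m → A, ∑ l, s l • r l = fun i => a i j := by
      intro j
      have : (fun i => a i j) ∈ Submodule.span A (Set.range r) := by
        rw [hr]; exact ha j
      exact (Submodule.mem_span_range_iff_exists_fun A).mp this
    choose s hs using hs
    let w : Fin m → A' := fun l => ∑ j, s j l • y' j
    let φ0 : MvPolynomial (Fin n ⊕ Fin m) A →ₐ[A] A' := MvPolynomial.aeval (Sum.elim z w)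
    have hφ0 : ∀ u ∈ J, φ0 u = 0 := by
      have : J ≤ RingHom.ker φ0.toRingHom := by
        rw [Ideal.span_le]
        rintro _ ⟨k, rfl⟩
        change φ0 (P k) = 0
        have h5 : φ0 (P k) = (∑ i, ∑ j, c i j k • (z i * z j)) - z k - ∑ l, r l k • w l := by
          simp only [P, map_sub, map_sum, map_smul, map_mul, φ0, x, y, MvPolynomial.aeval_X, Sum.elim_inl, Sum.elim_inr]
        have hyk : (∑ i, ∑ j, c i j k • (z i * z j)) - z k = ∑ j, a k j • y' j := hy' k
        rw [h5, hyk, sub_eq_zero]
        simp only [w, Finset.smul_sum, smul_smul]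
        rw [Finset.sum_comm]
        refine Finset.sum_congr rfl fun j _ => ?_
        rw [← Finset.sum_smul]
        congr 1
        have := congrFun (hs j) k
        simp only [Finset.sum_apply, Pi.smul_apply, smul_eq_mul] at this
        rw [← this]
        exact Finset.sum_congr rfl fun l _ => mul_comm _ _
      intro u hu
      exact this hu
    let φ : Au →ₐ[A] A' := Ideal.Quotient.liftₐ J φ0 hφ0
    have hφq : ∀ u, φ (q u) = φ0 u := fun u => rfl
    refine ⟨φ, ?_⟩
    rw [map_sum, ← hz]
    refine Finset.sum_congr rfl fun i _ => ?_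
    rw [Algebra.TensorProduct.map_tmul, hφq]
    simp [φ0, x]

end Groth.Agent.S1458
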