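import Groth.Statements.S1460
import Mathlib.RingTheory.Extension.Presentation.Core
import Mathlib.AlgebraicGeometry.Morphisms.FinitePresentation

set_option autoImplicit false
universe u
open FlatMor

namespace Groth.Agent.S1460

open AlgebraicGeometry CategoryTheory Limits in
/-- Let f : X → S be a morphism of finite presentation between affine schemes. Then f is the base change
of a morphism of finite type f₀ : X₀ → S₀ between affine schemes with S₀ of finite type over ℤ. -/
theorem result {X S : Scheme.{u}} (f : X ⟶ S) [IsAffine X] [IsAffine S] [LocallyOfFinitePresentation f] :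
    ∃ (X₀ S₀ : Scheme.{u}) (f₀ : X₀ ⟶ S₀) (g : S ⟶ S₀) (g' : X ⟶ X₀), IsAffine X₀ ∧ IsAffine S₀ ∧ IsPullback g' f f₀ g ∧
      Algebra.FiniteType ℤ Γ(S₀, ⊤) ∧ LocallyOfFiniteType f₀ := by
  let R := Γ(S, ⊤)
  let A := Γ(X, ⊤)
  let _ : Algebra R A := (f.appTop).hom.toAlgebra
  have hfp : Algebra.FinitePresentation R A := by
    have h1 : (f.appTop).hom.FinitePresentation := by
      have := (HasRingHomProperty.iff_of_isAffine (P := @LocallyOfFinitePresentation) (f := f)).mp inferInstance
      exact this
    exact h1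
  let P := Algebra.Presentation.ofFinitePresentation R A
  let R₀ := P.Core
  let B₀ := P.ModelOfHasCoeffs R₀
  let e : TensorProduct R₀ R B₀ ≃ₐ[R] A := P.tensorModelOfHasCoeffsEquiv R₀
  let φ : CommRingCat.of R₀ ⟶ CommRingCat.of R := CommRingCat.ofHom (algebraMap R₀ R)
  let ψ : CommRingCat.of R₀ ⟶ CommRingCat.of B₀ := CommRingCat.ofHom (algebraMap R₀ B₀)
  have hpo : IsPushout φ ψ (CommRingCat.ofHom (algebraMap R (TensorProduct R₀ R B₀)))
      (CommRingCat.ofHom (Algebra.TensorProduct.includeRight (R := R₀) (A := R) (B := B₀)).toRingHom) :=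
    CommRingCat.isPushout_tensorProduct R₀ R B₀
  have h1 := (AlgebraicGeometry.isPullback_SpecMap_of_isPushout _ _ _ _ hpo).flip
  let eT : CommRingCat.of (TensorProduct R₀ R B₀) ≅ A := e.toRingEquiv.toCommRingCatIso
  let h : X ⟶ Spec (CommRingCat.of (TensorProduct R₀ R B₀)) := X.isoSpec.hom ≫ Spec.map eT.hom
  have hiso : IsIso h := inferInstance
  have hcomm : h ≫ Spec.map (CommRingCat.ofHom (algebraMap R (TensorProduct R₀ R B₀))) = f ≫ S.isoSpec.hom := by
    rw [← Scheme.isoSpec_hom_naturality, Category.assoc, ← Spec.map_comp]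
    congr 2
    ext x
    exact e.commutes x
  have h2 : IsPullback h f (Spec.map (CommRingCat.ofHom (algebraMap R (TensorProduct R₀ R B₀)))) S.isoSpec.hom :=
    IsPullback.of_horiz_isIso ⟨hcomm⟩
  have h3 := h2.paste_horiz h1
  refine ⟨Spec (CommRingCat.of B₀), Spec (CommRingCat.of R₀), Spec.map ψ, _, _, inferInstance, inferInstance, h3, ?_, ?_⟩
  · have hft : Algebra.FiniteType ℤ R₀ := inferInstance
    exact Algebra.FiniteType.equiv hft
      (Scheme.ΓSpecIso (CommRingCat.of R₀)).symm.commRingCatIsoToRingEquiv.toIntAlgEquiv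
  · rw [HasRingHomProperty.Spec_iff (P := @LocallyOfFiniteType)]
    have : Algebra.FiniteType R₀ B₀ := inferInstance
    exact (RingHom.finiteType_algebraMap).mpr this

end Groth.Agent.S1460
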