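import Groth.Statements.S14615
-- import your own Groth.Agent.* helpers here
import Mathlib

set_option autoImplicit false
universe u
open Formal2

namespace Groth.Agent.S14615

/-- Let … → G_2 → G_1 → G_0 be an inverse system of abelian groups with transition maps t_n : G_{n+1} →
G_n, and suppose that for every i there is j ≥ i such that the composite transition map G_j → G_i is
zero; this is expressed by asking that every sequence (x_n) ∈ ∏ G_n satisfying x_n = t_n(x_{n+1})
for i ≤ n < j has x_i = 0. Then both lim G_n and lim¹ G_n vanish: the map (x_n) ↦ (x_n −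
t_n(x_{n+1})) on ∏ G_n, whose kernel is lim and whose cokernel is lim¹, is injective and surjective. -/
theorem result (G : ℕ → Type u)
    [∀ n, AddCommGroup (G n)] (t : ∀ n, G (n + 1) →+ G n)
    (h : ∀ i : ℕ, ∃ j : ℕ, i ≤ j ∧
      ∀ x : ∀ n, G n, (∀ n, i ≤ n → n < j → x n = t n (x (n + 1))) → x i = 0) :
    Formal2.limZero G t = ⊥ ∧ Function.Surjective (Formal2.towerDiff G t) := by
  constructor
  · rw [eq_bot_iff]
    intro x hx
    have hx' : Formal2.towerDiff G t x = 0 := hx
    have h1 : ∀ n, x n = t n (x (n + 1)) := fun n => by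
      have := congrFun hx' n
      exact sub_eq_zero.1 this
    rw [AddSubgroup.mem_bot]
    funext i
    obtain ⟨j, hj, hj'⟩ := h i
    exact hj' x (fun n _ _ => h1 n)
  · intro y
    let s : ℕ → ∀ n, G n := fun m => Nat.rec (fun _ => 0) (fun _ f n => y n + t n (f (n + 1))) m
    have s0 : ∀ n, s 0 n = 0 := fun n => rfl
    have ss : ∀ m n, s (m + 1) n = y n + t n (s m (n + 1)) := fun m n => rfl
    have hD : ∀ m n, s (m + 2) n - s (m + 1) n = t n (s (m + 1) (n + 1) - s m (n + 1)) := by
      intro m n
      rw [ss (m + 1) n, ss m n, map_sub]; abel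
    choose j hj hj' using h
    have hz : ∀ i m, j i ≤ i + m → s (m + 1) i - s m i = 0 := by
      intro i m hm
      let x : ∀ n, G n := fun n => if n ≤ i + m then s (i + m - n + 1) n - s (i + m - n) n else 0
      have hx := hj' i x (by
        intro n hn hn'
        have e1 : n ≤ i + m := by omega
        have e2 : n + 1 ≤ i + m := by omega
        simp only [x, e1, e2, if_true]
        obtain ⟨k, hk⟩ : ∃ k, i + m - n = k + 1 := ⟨i + m - n - 1, by omega⟩
        have hk' : i + m - (n + 1) = k := by omega
        rw [hk, hk']
        exact hD k n)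
      have e3 : i + m - i = m := by omega
      simp only [x, Nat.le_add_right, if_true, e3] at hx
      exact hx
    have hstab : ∀ i m, j i ≤ m → s m i = s (j i) i := by
      intro i m hm
      induction m, hm using Nat.le_induction with
      | base => rfl
      | succ m hm ih => rw [← ih]; exact sub_eq_zero.1 (hz i m (by omega))
    refine ⟨fun i => s (j i) i, ?_⟩
    funext i
    show s (j i) i - t i (s (j (i + 1)) (i + 1)) = y i
    obtain ⟨M, hM⟩ : ∃ M, M = max (j i) (j (i + 1)) := ⟨_, rfl⟩
    rw [← hstab i (M + 1) (by omega), ← hstab (i + 1) M (by omega), ss]; abel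

end Groth.Agent.S14615
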