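import Groth.Statements.S14616
-- import your own Groth.Agent.* helpers here
import Mathlib

set_option autoImplicit false
universe u
open Formal2

namespace Groth.Agent.S14616
open CategoryTheory in
/-- composite transition maps -/
noncomputable def TT (G : ℕ → Type u) [∀ n, AddCommGroup (G n)] (t : ∀ n, G (n + 1) →+ G n) (i j : ℕ)
    (h : i ≤ j) : G j → G i := fun z => (ConcreteCategory.hom ((Functor.ofOpSequence (X := fun n => AddCommGrpCat.of (G n))
      (fun n => AddCommGrpCat.ofHom (t n))).map (homOfLE h).op) : G j → G i) z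

open CategoryTheory in
theorem TT_self (G : ℕ → Type u) [∀ n, AddCommGroup (G n)] (t : ∀ n, G (n + 1) →+ G n) (i : ℕ)
    (z : G i) : TT G t i i le_rfl z = z := by
  unfold TT
  have : (homOfLE (le_refl i)).op = 𝟙 (Opposite.op i) := rfl
  rw [this, CategoryTheory.Functor.map_id]
  rfl

open CategoryTheory in
theorem TT_succ (G : ℕ → Type u) [∀ n, AddCommGroup (G n)] (t : ∀ n, G (n + 1) →+ G n) (i : ℕ)
    (z : G (i + 1)) : TT G t i (i + 1) (Nat.le_add_right i 1) z = t i z := by
  unfold TT
  rw [Functor.ofOpSequence_map_homOfLE_succ]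
  rfl

open CategoryTheory in
theorem TT_comp (G : ℕ → Type u) [∀ n, AddCommGroup (G n)] (t : ∀ n, G (n + 1) →+ G n) (i j k : ℕ)
    (h : i ≤ j) (h' : j ≤ k) (z : G k) : TT G t i k (h.trans h') z = TT G t i j h (TT G t j k h' z) := by
  unfold TT
  have : (homOfLE (h.trans h')).op = (homOfLE h').op ≫ (homOfLE h).op := rfl
  rw [this, CategoryTheory.Functor.map_comp]
  rfl

/-- elements of `G i` which come from stage `j` -/
def R (G : ℕ → Type u) [∀ n, AddCommGroup (G n)] (t : ∀ n, G (n + 1) →+ G n) (i j : ℕ) : AddSubgroup (G i) where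
  carrier := {g | ∃ x : ∀ n, G n, (∀ n, i ≤ n → n < j → x n = t n (x (n + 1))) ∧ x i = g}
  zero_mem' := ⟨fun _ => 0, fun n _ _ => (map_zero _).symm, rfl⟩
  add_mem' := by
    rintro a b ⟨x, hx, rfl⟩ ⟨y, hy, rfl⟩
    refine ⟨fun n => x n + y n, fun n h1 h2 => ?_, rfl⟩
    show x n + y n = t n (x (n + 1) + y (n + 1))
    rw [map_add, ← hx n h1 h2, ← hy n h1 h2]
  neg_mem' := by
    rintro a ⟨x, hx, rfl⟩
    refine ⟨fun n => - x n, fun n h1 h2 => ?_, rfl⟩
    show - x n = t n (- x (n + 1))
    rw [map_neg, ← hx n h1 h2]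

theorem R_anti (G : ℕ → Type u) [∀ n, AddCommGroup (G n)] (t : ∀ n, G (n + 1) →+ G n) (i j k : ℕ) (h : j ≤ k) :
    R G t i k ≤ R G t i j := by
  rintro g ⟨x, hx, rfl⟩
  exact ⟨x, fun n h1 h2 => hx n h1 (by omega), rfl⟩

theorem seq_TT (G : ℕ → Type u) [∀ n, AddCommGroup (G n)] (t : ∀ n, G (n + 1) →+ G n) (i j : ℕ) (h : i ≤ j)
    (x : ∀ n, G n) (hx : ∀ n, i ≤ n → n < j → x n = t n (x (n + 1))) : TT G t i j h (x j) = x i := by
  induction j, h using Nat.le_induction with
  | base => exact TT_self G t i _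
  | succ j hj ih =>
    rw [TT_comp G t i j (j + 1) hj (Nat.le_add_right j 1), TT_succ, ← hx j hj (by omega)]
    exact ih (fun n h1 h2 => hx n h1 (by omega))

theorem TT_mem (G : ℕ → Type u) [∀ n, AddCommGroup (G n)] (t : ∀ n, G (n + 1) →+ G n) (i j : ℕ) (h : i ≤ j)
    (z : G j) : TT G t i j h z ∈ R G t i j := by
  classical
  refine ⟨fun n => if hn : n ≤ j then TT G t n j hn z else 0, ?_, ?_⟩
  · intro n h1 h2
    have e1 : n ≤ j := h2.le
    have e2 : n + 1 ≤ j := h2
    simp only [e1, e2, dif_pos]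
    rw [TT_comp G t n (n + 1) j (Nat.le_add_right n 1) e2, TT_succ]
  · simp only [h, dif_pos]

open CategoryTheory in
theorem stab (G : ℕ → Type u) [∀ n, AddCommGroup (G n)] (t : ∀ n, G (n + 1) →+ G n)
    (h : (Functor.ofOpSequence (X := fun n => AddCommGrpCat.of (G n))
      (fun n => AddCommGrpCat.ofHom (t n)) ⋙ forget AddCommGrpCat).IsMittagLeffler) (i : ℕ) :
    ∃ j, i ≤ j ∧ ∀ k, R G t i j ≤ R G t i k := by
  obtain ⟨⟨j⟩, f, hf⟩ := h (Opposite.op i)
  have hij : i ≤ j := leOfHom f.unop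
  refine ⟨j, hij, ?_⟩
  intro k
  refine le_trans ?_ (R_anti G t i k (max i k) (le_max_right _ _))
  rintro g ⟨x, hx, rfl⟩
  have h1 := seq_TT G t i j hij x hx
  have h2 := hf (homOfLE (le_max_left i k)).op
  have h3 : x i ∈ Set.range (TT G t i j hij) := ⟨x j, h1⟩
  have h4 : x i ∈ Set.range (TT G t i (max i k) (le_max_left i k)) := h2 h3
  obtain ⟨z, hz⟩ := h4
  rw [← hz]
  exact TT_mem G t i _ _ z

open CategoryTheory in
/-- Let … → G_2 → G_1 → G_0 be an inverse system of abelian groups with transition maps t_n : G_{n+1} →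
G_n which satisfies the Mittag-Leffler condition: for every i there is j ≥ i such that for all k ≥ j
the images of G_k → G_i and G_j → G_i coincide. Then lim¹ G_n = 0, i.e. the map (x_n) ↦ (x_n −
t_n(x_{n+1})) on ∏ G_n is surjective. -/
theorem result (G : ℕ → Type u) [∀ n, AddCommGroup (G n)]
    (t : ∀ n, G (n + 1) →+ G n)
    (h : (Functor.ofOpSequence (X := fun n => AddCommGrpCat.of (G n))
      (fun n => AddCommGrpCat.ofHom (t n)) ⋙ forget AddCommGrpCat).IsMittagLeffler) :
    Function.Surjective (Formal2.towerDiff G t) := by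
  intro y
  choose J hJ hJ' using stab G t h
  -- partial sums
  let s : ℕ → ∀ n, G n := fun m => Nat.rec (fun _ => 0) (fun _ f n => y n + t n (f (n + 1))) m
  have ss : ∀ m n, s (m + 1) n = y n + t n (s m (n + 1)) := fun m n => rfl
  have hD : ∀ m n, s (m + 2) n - s (m + 1) n = t n (s (m + 1) (n + 1) - s m (n + 1)) := by
    intro m n
    rw [ss (m + 1) n, ss m n, map_sub]; abel
  have hz : ∀ i m, s (m + 1) i - s m i ∈ R G t i (i + m) := by
    intro i m
    let x : ∀ n, G n := fun n => if n ≤ i + m then s (i + m - n + 1) n - s (i + m - n) n else 0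
    refine ⟨x, ?_, ?_⟩
    · intro n hn hn'
      have e1 : n ≤ i + m := by omega
      have e2 : n + 1 ≤ i + m := by omega
      simp only [x, e1, e2, if_true]
      obtain ⟨k, hk⟩ : ∃ k, i + m - n = k + 1 := ⟨i + m - n - 1, by omega⟩
      have hk' : i + m - (n + 1) = k := by omega
      rw [hk, hk']
      exact hD k n
    · have e3 : i + m - i = m := by omega
      simp only [x, Nat.le_add_right, if_true, e3]
  have hz2 : ∀ i m k, s (m + k) i - s m i ∈ R G t i (i + m) := by
    intro i m k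
    induction k with
    | zero => simp
    | succ k ih =>
      have h1 := R_anti G t i (i + m) (i + (m + k)) (by omega) (hz i (m + k))
      have := add_mem h1 ih
      have e : s (m + (k + 1)) i - s m i = (s (m + k + 1) i - s (m + k) i) + (s (m + k) i - s m i) := by
        rw [← add_assoc]; abel
      rw [e]; exact this
  -- monotone cutoffs
  let c : ℕ → ℕ := fun n => n + ∑ k ∈ Finset.range (n + 1), J k
  have hc1 : ∀ i, J i ≤ c i := by
    intro i
    have := Finset.single_le_sum (f := J) (fun k _ => Nat.zero_le _) (show i ∈ Finset.range (i + 1) from Finset.mem_range.2 (Nat.lt_succ_self i))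
    simp only [c]
    omega
  have hc2 : ∀ i, i ≤ c i := fun i => Nat.le_add_right _ _
  have hc3 : ∀ i, c i + 1 ≤ c (i + 1) := by
    intro i
    simp only [c]
    rw [Finset.sum_range_succ _ (i + 1)]
    omega
  let x : ∀ n, G n := fun i => s (c i - i) i
  have hx : ∀ i, y i - (x i - t i (x (i + 1))) ∈ R G t i (J i) := by
    intro i
    have h1 := hz2 i (c i - i) (c (i + 1) - c i)
    have e1 : c i - i + (c (i + 1) - c i) = (c (i + 1) - (i + 1)) + 1 := by
      have := hc1 i; have := hc2 i; have := hc3 i; have := hc2 (i + 1)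
      omega
    have e2 : i + (c i - i) = c i := by have := hc2 i; omega
    rw [e1, ss, e2] at h1
    have h2 := R_anti G t i (J i) (c i) (hc1 i) h1
    have e3 : y i - (x i - t i (x (i + 1))) = y i + t i (s (c (i + 1) - (i + 1)) (i + 1)) - s (c i - i) i := by
      simp only [x]; abel
    rw [e3]
    exact h2
  have hsurj : ∀ i (g : G i), g ∈ R G t i (J i) → ∃ g' : G (i + 1), g' ∈ R G t (i + 1) (J (i + 1)) ∧ t i g' = g := by
    intro i g hg
    obtain ⟨w, hw, rfl⟩ := hJ' i (max (J (i + 1)) (i + 1)) hg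
    refine ⟨w (i + 1), ⟨w, fun n h1 h2 => hw n (by omega) (lt_of_lt_of_le h2 (le_max_left _ _)), rfl⟩, ?_⟩
    exact (hw i le_rfl (lt_of_lt_of_le (Nat.lt_succ_self i) (le_max_right _ _))).symm
  choose! g' hg1 hg2 using hsurj
  let z : ∀ n, G n := fun n => Nat.rec (0 : G 0) (fun n a => g' n (a - (y n - (x n - t n (x (n + 1)))))) n
  have hzs : ∀ n, z (n + 1) = g' n (z n - (y n - (x n - t n (x (n + 1))))) := fun n => rfl
  have hzm : ∀ n, z n ∈ R G t n (J n) := by
    intro n
    induction n with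
    | zero => exact zero_mem _
    | succ n ih =>
      rw [hzs]
      exact hg1 n _ (sub_mem ih (hx n))
  refine ⟨fun n => x n + z n, ?_⟩
  funext n
  show (x n + z n) - t n (x (n + 1) + z (n + 1)) = y n
  rw [map_add, hzs, hg2 n _ (sub_mem (hzm n) (hx n))]
  abel

end Groth.Agent.S14616
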