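import Groth.Statements.S14676
-- import your own Groth.Agent.* helpers here
import Mathlib

set_option autoImplicit false
universe u
open CAlg

namespace Groth.Agent.S14676
open Polynomial in
theorem aux (A : Type u) [CommRing A] (I : Ideal A) [IsAdicComplete I A]
    (P : Polynomial A) (a₀ : A) (h₀ : P.eval a₀ ∈ I)
    (h₁ : IsUnit (Ideal.Quotient.mk I (P.derivative.eval a₀))) :
    ∃! a : A, a - a₀ ∈ I ∧ P.IsRoot a := by
  let R := A
  have main : ∃ a : A, P.IsRoot a ∧ a - a₀ ∈ I := by
    classical
    let f := P
    have h₂ := h₁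
    have h₁ := h₀
    let f' := derivative f
    -- we define a sequence `c n` by starting at `a₀` and then continually
    -- applying the function sending `b` to `b - f(b)/f'(b)` (Newton's method).
    -- Note that `f'.eval b` is a unit, because `b` has the same residue as `a₀` modulo `I`.
    let c : ℕ → A := fun n => Nat.recOn n a₀ fun _ b => b - f.eval b * Ring.inverse (f'.eval b)
    have hc : ∀ n, c (n + 1) = c n - f.eval (c n) * Ring.inverse (f'.eval (c n)) := by
      intro n
      simp only [c]
    -- we now spend some time determining properties of the sequence `c : ℕ → A`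
    -- `hc_mod`: for every `n`, we have `c n ≡ a₀ [SMOD I]`
    -- `hf'c`  : for every `n`, `f'.eval (c n)` is a unit
    -- `hfcI`  : for every `n`, `f.eval (c n)` is contained in `I ^ (n+1)`
    have hc_mod : ∀ n, c n ≡ a₀ [SMOD I] := by
      intro n
      induction n with
      | zero => rfl
      | succ n ih => ?_
      rw [hc, sub_eq_add_neg, ← add_zero a₀]
      refine ih.add ?_
      rw [SModEq.zero, Ideal.neg_mem_iff]
      refine I.mul_mem_right _ ?_
      rw [← SModEq.zero] at h₁ ⊢
      exact (ih.eval f).trans h₁
    have hf'c : ∀ n, IsUnit (f'.eval (c n)) := by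
      intro n
      have := isLocalHom_of_le_jacobson_bot I (IsAdicComplete.le_jacobson_bot I)
      apply IsUnit.of_map (Ideal.Quotient.mk I)
      convert! h₂ using 1
      exact SModEq.def.mp ((hc_mod n).eval _)
    have hfcI : ∀ n, f.eval (c n) ∈ I ^ (n + 1) := by
      intro n
      induction n with
      | zero => simpa only [Nat.rec_zero, zero_add, pow_one] using! h₁
      | succ n ih => ?_
      rw [← taylor_eval_sub (c n), hc, sub_eq_add_neg, sub_eq_add_neg,
        add_neg_cancel_comm]
      rw [eval_eq_sum, sum_over_range' _ _ _ (lt_add_of_pos_right _ zero_lt_two), ←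
        Finset.sum_range_add_sum_Ico _ (Nat.le_add_left _ _)]
      swap
      · intro i
        rw [zero_mul]
      refine Ideal.add_mem _ ?_ ?_
      · rw [← one_add_one_eq_two, Finset.sum_range_succ, Finset.range_one, Finset.sum_singleton,
          taylor_coeff_zero, taylor_coeff_one, pow_zero, pow_one, mul_one, mul_neg,
          mul_left_comm, Ring.mul_inverse_cancel _ (hf'c n), mul_one, add_neg_cancel]
        exact Ideal.zero_mem _
      · refine Submodule.sum_mem _ ?_
        simp only [Finset.mem_Ico]
        rintro i ⟨h2i, _⟩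
        have aux : n + 2 ≤ i * (n + 1) := by trans 2 * (n + 1) <;> nlinarith only [h2i]
        refine Ideal.mul_mem_left _ _ (Ideal.pow_le_pow_right aux ?_)
        rw [pow_mul']
        exact Ideal.pow_mem_pow ((Ideal.neg_mem_iff _).2 <| Ideal.mul_mem_right _ _ ih) _
    -- we are now in the position to show that `c : ℕ → A` is a Cauchy sequence
    have aux : ∀ m n, m ≤ n → c m ≡ c n [SMOD (I ^ m • ⊤ : Ideal A)] := by
      intro m n hmn
      rw [← Ideal.one_eq_top, Ideal.smul_eq_mul, mul_one]
      obtain ⟨k, rfl⟩ := Nat.exists_eq_add_of_le hmn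
      clear hmn
      induction k with
      | zero => rw [add_zero]
      | succ k ih => ?_
      rw [← add_assoc, hc, ← add_zero (c m), sub_eq_add_neg]
      refine ih.add ?_
      symm
      rw [SModEq.zero, Ideal.neg_mem_iff]
      refine Ideal.mul_mem_right _ _ (Ideal.pow_le_pow_right ?_ (hfcI _))
      rw [add_assoc]
      exact le_self_add
    -- hence the sequence converges to some limit point `a`, which is the `a` we are looking for
    obtain ⟨a, ha⟩ := IsPrecomplete.prec' c (aux _ _)
    refine ⟨a, ?_, ?_⟩
    · show f.IsRoot a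
      suffices ∀ n, f.eval a ≡ 0 [SMOD (I ^ n • ⊤ : Ideal A)] by exact IsHausdorff.haus' _ this
      intro n
      specialize ha n
      rw [← Ideal.one_eq_top, Ideal.smul_eq_mul, mul_one] at ha ⊢
      refine (ha.symm.eval f).trans ?_
      rw [SModEq.zero]
      exact Ideal.pow_le_pow_right le_self_add (hfcI _)
    · show a - a₀ ∈ I
      specialize ha (0 + 1)
      rw [hc, pow_one, ← Ideal.one_eq_top, Ideal.smul_eq_mul, mul_one, sub_eq_add_neg] at ha
      rw [← SModEq.sub_mem, ← add_zero a₀]
      refine ha.symm.trans (SModEq.rfl.add ?_)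
      rw [SModEq.zero, Ideal.neg_mem_iff]
      exact Ideal.mul_mem_right _ _ h₁

  obtain ⟨a, ha, ha'⟩ := main
  refine ⟨a, ⟨ha', ha⟩, ?_⟩
  rintro b ⟨hb', hb⟩
  obtain ⟨c, hc⟩ := Polynomial.exists_mul_sq_add_linear_part_eq_eval_add P a (b - a)
  have hba : b - a ∈ I := by
    have := I.sub_mem hb' ha'
    simpa using this
  have hu : IsUnit (c * (b - a) + P.derivative.eval a) := by
    have hloc := isLocalHom_of_le_jacobson_bot I (IsAdicComplete.le_jacobson_bot I)
    apply IsUnit.of_map (Ideal.Quotient.mk I)
    have h5 : Ideal.Quotient.mk I (c * (b - a) + P.derivative.eval a) = Ideal.Quotient.mk I (P.derivative.eval a₀) := by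
      rw [map_add, map_mul, Ideal.Quotient.eq_zero_iff_mem.2 hba, mul_zero, zero_add]
      rw [Ideal.Quotient.eq]
      exact Ideal.mem_of_dvd I (sub_dvd_eval_sub a a₀ P.derivative) ha'
    rw [h5]; exact h₁
  have hE : (c * (b - a) + P.derivative.eval a) * (b - a) = 0 := by
    have e1 : P.eval a = 0 := ha
    have e2 : P.eval b = 0 := hb
    have e3 : a + (b - a) = b := by ring
    rw [e3, e2, e1] at hc
    linear_combination hc
  have := (hu.mul_right_eq_zero).1 hE
  exact sub_eq_zero.1 this


/-- Let A be a commutative ring which is separated and complete for the I-adic topology of an ideal I,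
let P be any polynomial over A (not assumed monic) and a₀ an element of A such that P(a₀) lies in I
and P'(a₀) is a unit modulo I. Then there is a unique a in A congruent to a₀ modulo I with P(a) = 0. -/
theorem result (A : Type u) [CommRing A] (I : Ideal A) [IsAdicComplete I A]
    (P : Polynomial A) (a₀ : A) (h₀ : P.eval a₀ ∈ I)
    (h₁ : IsUnit (Ideal.Quotient.mk I (P.derivative.eval a₀))) :
    ∃! a : A, a - a₀ ∈ I ∧ P.IsRoot a := by
  exact aux A I P a₀ h₀ h₁

end Groth.Agent.S14676
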