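import Groth.Statements.S14799
-- import your own Groth.Agent.* helpers here
import Mathlib

set_option autoImplicit false
open HJFrac

namespace Groth.Agent.S14799
lemma hj_aux (l : ℕ) : ∀ (b : ℕ → ℤ), (∀ i, 1 ≤ i → i ≤ l → 2 ≤ b i) →
    ∃ N N' : ℤ, 0 ≤ N' ∧ N' < N ∧ IsCoprime N N' ∧
      HJFrac.hjVal ((List.range l).map fun i => b (i + 1)) = (N : ℚ) / N' ∧
      (1 ≤ l → 0 < N') ∧
      ∀ μ : ℕ → ℤ, (∀ i, 1 ≤ i → i ≤ l → b i * μ i = μ (i - 1) + μ (i + 1)) → N * μ 1 = N' * μ 0 + μ (l + 1) := by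
  induction l with
  | zero =>
    intro b _
    refine ⟨1, 0, le_rfl, zero_lt_one, isCoprime_one_left, ?_, by omega, ?_⟩
    · simp [HJFrac.hjVal]
    · intro μ _; simp
  | succ l ih =>
    intro b hb
    obtain ⟨N, N', h0, hlt, hco, hval, _, hμ⟩ := ih (fun i => b (i + 1)) (fun i hi hi' => hb (i + 1) (by omega) (by omega))
    have hb1 := hb 1 le_rfl (by omega)
    have hNpos : 0 < N := by omega
    refine ⟨b 1 * N - N', N, by omega, by nlinarith, ?_, ?_, fun _ => hNpos, ?_⟩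
    · obtain ⟨u, v, huv⟩ := hco
      exact ⟨-v, u + v * b 1, by linear_combination huv⟩
    · rw [List.range_succ_eq_map, List.map_cons, List.map_map]
      have : (List.range l).map ((fun i => b (i + 1)) ∘ Nat.succ) = (List.range l).map (fun i => (fun i => b (i + 1)) (i + 1)) := rfl
      rw [this, HJFrac.hjVal, hval]
      have hN0 : (N : ℚ) ≠ 0 := by exact_mod_cast hNpos.ne'
      push_cast
      rw [inv_div]
      field_simp
    · intro μ hs
      have h3 := hμ (fun i => μ (i + 1)) (by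
        intro i hi hi'
        have := hs (i + 1) (by omega) (by omega)
        have e : i + 1 - 1 = i - 1 + 1 := by omega
        rw [e] at this
        exact this)
      have h4 := hs 1 le_rfl (by omega)
      simp only [Nat.sub_self] at h4
      simp only [zero_add] at h3
      have h5 : (1 : ℕ) + 1 = 2 := rfl
      rw [h5] at h3 h4
      linear_combination h3 + N * h4


/-- Let 0 < r < n be coprime integers and n/r = b₁ - 1/(b₂ - 1/(⋯ - 1/b_λ)) the Hirzebruch–Jung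
expansion (λ ≥ 1, every b_i ≥ 2); let m₁, m₂ be positive integers prime to n with r m₂ + m₁ ≡ 0 mod
n, and let μ₁, …, μ_λ be positive integers with b_i μ_i = μ_{i-1} + μ_{i+1} for 1 ≤ i ≤ λ, where μ₀
= m₂ and μ_{λ+1} = m₁. Then gcd(m₁, μ₁, …, μ_λ, m₂) = gcd(m₁, m₂); equivalently gcd(m₁, m₂) divides
every μ_i. -/
theorem result (l : ℕ) (hl : 1 ≤ l) (b : ℕ → ℤ)
    (hb : ∀ i, 1 ≤ i → i ≤ l → 2 ≤ b i)
    (n r : ℕ) (hr : 0 < r) (hrn : r < n) (hcop : Nat.Coprime r n)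
    (hhj : (n : ℚ) / r = HJFrac.hjVal ((List.range l).map fun i => b (i + 1)))
    (m₁ m₂ : ℕ) (hm₁ : 0 < m₁) (hm₂ : 0 < m₂) (h₁ : Nat.Coprime m₁ n) (h₂ : Nat.Coprime m₂ n)
    (hdvd : (n : ℤ) ∣ r * m₂ + m₁)
    (μ : ℕ → ℤ) (hμ0 : μ 0 = m₂) (hμl : μ (l + 1) = m₁) (hμpos : ∀ i, i ≤ l + 1 → 0 < μ i)
    (hsys : ∀ i, 1 ≤ i → i ≤ l → b i * μ i = μ (i - 1) + μ (i + 1)) :
    ∀ i, i ≤ l + 1 → ((Nat.gcd m₁ m₂ : ℕ) : ℤ) ∣ μ i := by
  obtain ⟨N, N', h0, hlt, hco, hval, hpos, hμ⟩ := hj_aux l b hb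
  have hN' := hpos hl
  have hn0 : (0 : ℤ) < n := by omega
  have hr0 : (0 : ℤ) < r := by omega
  rw [← hhj] at hval
  have hval2 : (n : ℤ) * N' = N * r := by
    have h1 : (r : ℚ) ≠ 0 := by exact_mod_cast hr.ne'
    have h2 : (N' : ℚ) ≠ 0 := by exact_mod_cast hN'.ne'
    rw [div_eq_div_iff h1 h2] at hval
    exact_mod_cast hval
  have hcop' : IsCoprime (n : ℤ) (r : ℤ) := (Nat.isCoprime_iff_coprime.2 hcop).symm
  have hnN : (n : ℤ) = N := by
    apply Int.dvd_antisymm hn0.le (by omega)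
    · exact hcop'.dvd_of_dvd_mul_right ⟨N', hval2.symm⟩
    · exact hco.dvd_of_dvd_mul_right ⟨r, hval2⟩
  have hrN : (r : ℤ) = N' := by
    rw [← hnN] at hval2
    exact (mul_left_cancel₀ hn0.ne' hval2).symm
  have key := hμ μ hsys
  rw [← hnN, ← hrN, hμ0, hμl] at key
  have hg1 : ((Nat.gcd m₁ m₂ : ℕ) : ℤ) ∣ m₁ := by exact_mod_cast Nat.gcd_dvd_left m₁ m₂
  have hg2 : ((Nat.gcd m₁ m₂ : ℕ) : ℤ) ∣ m₂ := by exact_mod_cast Nat.gcd_dvd_right m₁ m₂
  have hgn : IsCoprime ((Nat.gcd m₁ m₂ : ℕ) : ℤ) (n : ℤ) := by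
    rw [Nat.isCoprime_iff_coprime]
    exact Nat.Coprime.coprime_dvd_left (Nat.gcd_dvd_left m₁ m₂) h₁
  have hμ1 : ((Nat.gcd m₁ m₂ : ℕ) : ℤ) ∣ μ 1 := by
    apply hgn.dvd_of_dvd_mul_left
    rw [key]
    exact dvd_add (Dvd.dvd.mul_left hg2 _) hg1
  have main : ∀ i, i ≤ l → ((Nat.gcd m₁ m₂ : ℕ) : ℤ) ∣ μ i ∧ ((Nat.gcd m₁ m₂ : ℕ) : ℤ) ∣ μ (i + 1) := by
    intro i
    induction i with
    | zero => intro _; exact ⟨by rw [hμ0]; exact hg2, hμ1⟩
    | succ i ih =>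
      intro hi
      obtain ⟨a1, a2⟩ := ih (by omega)
      refine ⟨a2, ?_⟩
      have := hsys (i + 1) (by omega) hi
      rw [Nat.add_sub_cancel] at this
      have h9 : μ (i + 1 + 1) = b (i + 1) * μ (i + 1) - μ i := by linear_combination -this
      rw [h9]
      exact dvd_sub (Dvd.dvd.mul_left a2 _) a1
  intro i hi
  rcases Nat.lt_or_ge i (l + 1) with h | h
  · exact (main i (by omega)).1
  · have : i = l + 1 := by omega
    rw [this]; exact (main l le_rfl).2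

end Groth.Agent.S14799
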