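import Groth.Statements.S14846
-- import your own Groth.Agent.* helpers here
import Mathlib

set_option autoImplicit false
universe u v w
open Brauer

namespace Groth.Agent.S14846

open TensorProduct in
/-- Let L/K be a Galois extension with group Γ = Aut_K(L), and A a K-algebra which is a simple ring. If
L ⊗_K A is semisimple, then Γ, acting on L ⊗_K A through the first tensor factor, permutes its
simple components, i.e. its minimal nonzero two-sided ideals, transitively: any minimal two-sided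
ideal is carried onto any other by some γ ⊗ id. -/
theorem result
    {K : Type u} {L : Type v} [Field K] [Field L] [Algebra K L] [IsGalois K L]
    {A : Type w} [Ring A] [Algebra K A] [IsSimpleRing A]
    [IsSemisimpleRing (L ⊗[K] A)]
    (I J : TwoSidedIdeal (L ⊗[K] A)) (hI : IsAtom I) (hJ : IsAtom J) :
    ∃ γ : L ≃ₐ[K] L, (J : Set (L ⊗[K] A)) =
      Algebra.TensorProduct.map (γ : L →ₐ[K] L) (AlgHom.id K A) '' (I : Set (L ⊗[K] A)) := by
  classical
  let e : (L ≃ₐ[K] L) → (L ⊗[K] A →ₐ[K] L ⊗[K] A) := fun γ => Algebra.TensorProduct.map (γ : L →ₐ[K] L) (AlgHom.id K A)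
  have emul : ∀ γ δ x, e γ (e δ x) = e (γ * δ) x := by
    intro γ δ x
    have : (e γ).comp (e δ) = e (γ * δ) := by
      apply Algebra.TensorProduct.ext
      · ext l; simp [e]
      · ext a; simp [e]
    exact DFunLike.congr_fun this x
  have eone : ∀ x, e 1 x = x := by
    intro x
    have : e 1 = AlgHom.id K _ := by
      apply Algebra.TensorProduct.ext
      · ext l; simp [e]
      · ext a; simp [e]
    rw [this]; rfl
  have einv : ∀ γ x, e γ (e γ⁻¹ x) = x := by intro γ x; rw [emul, mul_inv_cancel, eone]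
  have einv' : ∀ γ x, e γ⁻¹ (e γ x) = x := by intro γ x; rw [emul, inv_mul_cancel, eone]
  by_contra hcon
  push Not at hcon
  -- image ideals as comaps
  let Ig : (L ≃ₐ[K] L) → TwoSidedIdeal (L ⊗[K] A) := fun γ => I.comap (e γ⁻¹ : L ⊗[K] A →+* L ⊗[K] A)
  have hIg : ∀ γ x, x ∈ Ig γ ↔ e γ⁻¹ x ∈ I := fun γ x => TwoSidedIdeal.mem_comap _
  have hIgset : ∀ γ, (Ig γ : Set (L ⊗[K] A)) = e γ '' (I : Set (L ⊗[K] A)) := by
    intro γ
    ext x
    constructor
    · intro hx
      exact ⟨e γ⁻¹ x, (hIg γ x).1 hx, einv γ x⟩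
    · rintro ⟨y, hy, rfl⟩
      show e γ y ∈ Ig γ
      rw [hIg, einv']; exact hy
  have hJI : ∀ γ, J ⊓ Ig γ = ⊥ := by
    intro γ
    rcases hJ.le_iff.1 (inf_le_left : J ⊓ Ig γ ≤ J) with h | h
    · exact h
    · exfalso
      have hle : J ≤ Ig γ := by rw [← h]; exact inf_le_right
      -- Ig γ is an atom
      have h1 : J.comap (e γ : L ⊗[K] A →+* L ⊗[K] A) ≤ I := by
        intro x hx
        rw [TwoSidedIdeal.mem_comap] at hx
        have := hle hx
        rw [hIg] at this
        have h9 : e γ⁻¹ (e γ x) ∈ I := this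
        rwa [einv'] at h9
      rcases hI.le_iff.1 h1 with h2 | h2
      · apply hJ.1
        rw [eq_bot_iff]
        intro x hx
        have h3 : e γ⁻¹ x ∈ J.comap (e γ : L ⊗[K] A →+* L ⊗[K] A) := by
          rw [TwoSidedIdeal.mem_comap]
          show e γ (e γ⁻¹ x) ∈ J
          rw [einv]; exact hx
        rw [h2] at h3
        have h4 : e γ⁻¹ x = 0 := (TwoSidedIdeal.mem_bot _).1 h3
        have h5 : x = 0 := by rw [← einv γ x, h4, map_zero]
        rw [h5]; exact TwoSidedIdeal.zero_mem _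
      · apply hcon γ
        ext x
        constructor
        · intro hx
          rw [← hIgset]; exact hle hx
        · rintro ⟨y, hy, rfl⟩
          have hy' : y ∈ J.comap (e γ : L ⊗[K] A →+* L ⊗[K] A) := by rw [h2]; exact hy
          rw [TwoSidedIdeal.mem_comap] at hy'
          exact hy'
  -- the annihilator
  let N : Set (L ⊗[K] A) := {y | ∀ γ, ∀ x ∈ J, x * e γ y = 0}
  have hNadd : ∀ x y, x ∈ N → y ∈ N → x + y ∈ N := by
    intro x y hx hy γ z hz
    rw [map_add, mul_add, hx γ z hz, hy γ z hz, add_zero]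
  have hNsub : ∀ x y, x ∈ N → y ∈ N → x - y ∈ N := by
    intro x y hx hy γ z hz
    rw [map_sub, mul_sub, hx γ z hz, hy γ z hz, sub_zero]
  have hNl : ∀ z y, y ∈ N → z * y ∈ N := by
    intro z y hy γ x hx
    rw [map_mul, ← mul_assoc]
    exact hy γ _ (TwoSidedIdeal.mul_mem_right _ _ _ hx)
  have hNr : ∀ z y, y ∈ N → y * z ∈ N := by
    intro z y hy γ x hx
    rw [map_mul, ← mul_assoc, hy γ x hx, zero_mul]
  have hNe : ∀ δ y, y ∈ N → e δ y ∈ N := by
    intro δ y hy γ x hx
    rw [emul]; exact hy _ x hx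
  have hIN : ∀ y ∈ I, y ∈ N := by
    intro y hy γ x hx
    have h1 : x * e γ y ∈ J ⊓ Ig γ := by
      rw [TwoSidedIdeal.mem_inf]
      refine ⟨TwoSidedIdeal.mul_mem_right _ _ _ hx, ?_⟩
      apply TwoSidedIdeal.mul_mem_left
      rw [hIg, einv']; exact hy
    rw [hJI] at h1
    exact (TwoSidedIdeal.mem_bot _).1 h1
  have hIne : ∃ y ∈ I, y ≠ 0 := by
    by_contra h
    push Not at h
    apply hI.1
    rw [eq_bot_iff]
    intro x hx
    rw [h x hx]; exact TwoSidedIdeal.zero_mem _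
  obtain ⟨y₀, hy₀, hy₀0⟩ := hIne
  let b := Module.Basis.ofVectorSpace K A
  let B := Algebra.TensorProduct.basis L b
  have hex : ∃ n : ℕ, ∃ y ∈ N, y ≠ 0 ∧ (B.repr y).support.card = n := ⟨_, y₀, hIN y₀ hy₀, hy₀0, rfl⟩
  obtain ⟨y, hyN, hy0, hyc⟩ := Nat.find_spec hex
  have hymin : ∀ z ∈ N, (B.repr z).support.card < (B.repr y).support.card → z = 0 := by
    intro z hz hlt
    by_contra hz0
    rw [hyc] at hlt
    exact Nat.find_min hex hlt ⟨z, hz, hz0, rfl⟩
  have hsupp : (B.repr y).support.Nonempty := by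
    rw [Finsupp.support_nonempty_iff]
    intro h
    apply hy0
    exact B.repr.map_eq_zero_iff.1 h
  obtain ⟨i₀, hi₀⟩ := hsupp
  rw [Finsupp.mem_support_iff] at hi₀
  obtain ⟨c, hc⟩ : ∃ c, c = B.repr y i₀ := ⟨_, rfl⟩
  have hc0 : c ≠ 0 := hc ▸ hi₀
  obtain ⟨z, hz⟩ : ∃ z, z = c⁻¹ • y := ⟨_, rfl⟩
  have hzN : z ∈ N := by
    have : z = (c⁻¹ ⊗ₜ[K] (1 : A)) * y := by
      rw [hz]
      have h1 : (c⁻¹ ⊗ₜ[K] (1 : A)) = algebraMap L (L ⊗[K] A) c⁻¹ := rfl
      rw [h1, ← Algebra.smul_def]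
    rw [this]; exact hNl _ _ hyN
  have hz0 : z ≠ 0 := by rw [hz]; exact smul_ne_zero (inv_ne_zero hc0) hy0
  have hzrepr : ∀ i, B.repr z i = c⁻¹ * B.repr y i := by
    intro i; rw [hz, map_smul, Finsupp.smul_apply, smul_eq_mul]
  have hzi : B.repr z i₀ = 1 := by rw [hzrepr, ← hc, inv_mul_cancel₀ hc0]
  have hzsupp : (B.repr z).support = (B.repr y).support := by
    rw [hz, map_smul, Finsupp.support_smul_eq (inv_ne_zero hc0)]
  have erepr : ∀ γ w i, B.repr (e γ w) i = γ (B.repr w i) := by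
    intro γ w i
    induction w with
    | zero => simp
    | tmul l a =>
      simp only [e, B, Algebra.TensorProduct.map_tmul, Algebra.TensorProduct.basis_repr_tmul]
      simp [Finsupp.smul_apply, AlgEquiv.commutes]
    | add x y hx hy => rw [map_add, map_add, Finsupp.add_apply, hx, hy, map_add, Finsupp.add_apply, map_add]
  have hfix : ∀ γ, e γ z = z := by
    intro γ
    have h1 := hNsub _ _ (hNe γ z hzN) hzN
    have h2 : e γ z - z = 0 := by
      apply hymin _ h1
      apply Finset.card_lt_card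
      rw [← hzsupp]
      refine ⟨?_, ?_⟩
      · intro i hi
        rw [Finsupp.mem_support_iff] at hi ⊢
        intro h
        apply hi
        rw [map_sub, Finsupp.sub_apply, erepr, h, map_zero, sub_zero]
      · intro hcontra
        have h3 : i₀ ∈ (B.repr z).support := by rw [Finsupp.mem_support_iff, hzi]; exact one_ne_zero
        have h4 := hcontra h3
        rw [Finsupp.mem_support_iff] at h4
        apply h4
        rw [map_sub, Finsupp.sub_apply, erepr, hzi, map_one, sub_self]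
    exact sub_eq_zero.1 h2
  have hcoef : ∀ i, ∃ k : K, algebraMap K L k = B.repr z i := by
    intro i
    have h1 : ∀ γ : L ≃ₐ[K] L, γ (B.repr z i) = B.repr z i := by
      intro γ; rw [← erepr, hfix]
    exact (InfiniteGalois.mem_range_algebraMap_iff_fixed _).2 h1
  choose kf hkf using hcoef
  obtain ⟨a, ha⟩ : ∃ a : A, (1 : L) ⊗ₜ[K] a = z := by
    refine ⟨∑ i ∈ (B.repr z).support, kf i • b i, ?_⟩
    rw [TensorProduct.tmul_sum]
    conv_rhs => rw [← B.linearCombination_repr z, Finsupp.linearCombination_apply, Finsupp.sum]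
    apply Finset.sum_congr rfl
    intro i _
    rw [← hkf i, TensorProduct.tmul_smul]
    simp only [B, Algebra.TensorProduct.basis_apply]
    rw [algebraMap_smul]
  have ha0 : a ≠ 0 := by rintro rfl; apply hz0; rw [← ha, TensorProduct.tmul_zero]
  -- ideal of A
  let M : TwoSidedIdeal A := TwoSidedIdeal.mk' {t | (1 : L) ⊗ₜ[K] t ∈ N}
    (by show (1 : L) ⊗ₜ[K] (0 : A) ∈ N; rw [TensorProduct.tmul_zero]; intro γ x hx; rw [map_zero, mul_zero])
    (by intro x y hx hy; show (1 : L) ⊗ₜ[K] (x + y) ∈ N; rw [TensorProduct.tmul_add]; exact hNadd _ _ hx hy)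
    (by intro x hx; show (1 : L) ⊗ₜ[K] (-x) ∈ N; rw [TensorProduct.tmul_neg, ← zero_sub]; exact hNsub _ _ (by intro γ x hx; rw [map_zero, mul_zero]) hx)
    (by intro x y hy; show (1 : L) ⊗ₜ[K] (x * y) ∈ N
        have : (1 : L) ⊗ₜ[K] (x * y) = ((1 : L) ⊗ₜ[K] x) * ((1 : L) ⊗ₜ[K] y) := by rw [Algebra.TensorProduct.tmul_mul_tmul, one_mul]
        rw [this]; exact hNl _ _ hy)
    (by intro x y hx; show (1 : L) ⊗ₜ[K] (x * y) ∈ N
        have : (1 : L) ⊗ₜ[K] (x * y) = ((1 : L) ⊗ₜ[K] x) * ((1 : L) ⊗ₜ[K] y) := by rw [Algebra.TensorProduct.tmul_mul_tmul, one_mul]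
        rw [this]; exact hNr _ _ hx)
  have hM : ∀ t, t ∈ M ↔ (1 : L) ⊗ₜ[K] t ∈ N := by
    intro t; exact TwoSidedIdeal.mem_mk' _ _ _ _ _ _ _
  have hMtop : M = ⊤ := by
    rcases eq_bot_or_eq_top M with h | h
    · exfalso
      apply ha0
      have : a ∈ M := by rw [hM, ha]; exact hzN
      rw [h] at this
      exact (TwoSidedIdeal.mem_bot _).1 this
    · exact h
  have h1 : (1 : A) ∈ M := by rw [hMtop]; trivial
  rw [hM] at h1
  apply hJ.1
  rw [eq_bot_iff]
  intro x hx
  have h2 := h1 1 x hx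
  rw [eone] at h2
  have h3 : x = 0 := by
    have : (1 : L) ⊗ₜ[K] (1 : A) = 1 := rfl
    rw [this, mul_one] at h2; exact h2
  rw [h3]; exact TwoSidedIdeal.zero_mem _

end Groth.Agent.S14846
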