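import Groth.Statements.S14848
-- import your own Groth.Agent.* helpers here
import Mathlib
import Groth.Agent.Lib.H22_Mat

set_option autoImplicit false
universe u v
open McKay

namespace Groth.Agent.S14848

/-- Let K be a field of characteristic zero, L an extension field of K and ξ ∈ L a primitive n-th root
of unity (n ≥ 1) with ξ + ξ⁻¹ ∈ K, say ξ + ξ⁻¹ = 2c with c ∈ K (the character of the natural
two-dimensional representation of the cyclic group of order n takes values in K). Then the cyclic
group of order n is realisable over K as a subgroup of SL(2, K): there is an element of SL(2, K) of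
order n. -/
theorem result {K : Type u} {L : Type v} [Field K] [Field L]
    [CharZero K] [Algebra K L] (n : ℕ) (hn : 1 ≤ n) (ξ : L) (hξ : IsPrimitiveRoot ξ n) (c : K)
    (hc : algebraMap K L (2 * c) = ξ + ξ⁻¹) :
    ∃ M : Matrix.SpecialLinearGroup (Fin 2) K, orderOf M = n := by
  by_cases hne : ξ = ξ⁻¹
  · have hξ0 : ξ ≠ 0 := hξ.ne_zero (by omega)
    have h2 : ξ ^ 2 = 1 := by rw [sq]; nth_rewrite 2 [hne]; exact mul_inv_cancel₀ hξ0
    have h3 : n ∣ 2 := hξ.dvd_of_pow_eq_one 2 h2
    have h4 : n = 1 ∨ n = 2 := (Nat.dvd_prime Nat.prime_two).1 h3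
    rcases h4 with rfl | rfl
    · exact ⟨1, orderOf_one⟩
    · refine ⟨-1, ?_⟩
      apply orderOf_eq_prime
      · rw [neg_sq, one_pow]
      · intro h
        have := congrArg (fun M : Matrix.SpecialLinearGroup (Fin 2) K => (M : Matrix (Fin 2) (Fin 2) K) 0 0) h
        simp at this
        have h5 : (2 : K) = 0 := by linear_combination -this
        exact two_ne_zero h5
  · exact ⟨_, H22Mat.orderOf_T n hn ξ hξ c hc hne⟩

end Groth.Agent.S14848
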