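import Groth.Statements.S14849
-- import your own Groth.Agent.* helpers here
import Mathlib
import Groth.Agent.Lib.H22_Mat

set_option autoImplicit false
universe u v
open McKay

namespace Groth.Agent.S14849

/-- Let K be a field of characteristic zero, L an extension field of K, n ≥ 2, and ξ ∈ L a primitive
2n-th root of unity with ξ + ξ⁻¹ = 2c for some c ∈ K. If the Hilbert symbol of -1 and c² - 1 over K
equals 1, i.e. x² - (c² - 1) y² = -1 has a solution in K, then the binary dihedral group of order 4n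
(generators σ, τ with τ² = σⁿ = (τσ)²) is isomorphic to a subgroup of SL(2, K). (The published
statement is an equivalence; this row is the direction realising the group from a solution of the
conic.) -/
theorem result {K : Type u} {L : Type v}
    [Field K] [Field L] [CharZero K] [Algebra K L] (n : ℕ) (hn : 2 ≤ n) (ξ : L)
    (hξ : IsPrimitiveRoot ξ (2 * n)) (c : K) (hc : algebraMap K L (2 * c) = ξ + ξ⁻¹)
    (hsol : ∃ x y : K, x ^ 2 - (c ^ 2 - 1) * y ^ 2 = -1) :
    ∃ f : QuaternionGroup n →* Matrix.SpecialLinearGroup (Fin 2) K, Function.Injective f := by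
  obtain ⟨x, y, hxy⟩ := hsol
  have hξ0 : ξ ≠ 0 := hξ.ne_zero (by omega)
  have h1 : ξ * ξ⁻¹ = 1 := mul_inv_cancel₀ hξ0
  have hne : ξ ≠ ξ⁻¹ := by
    intro h
    have h2 : ξ ^ 2 = 1 := by rw [sq]; nth_rewrite 2 [h]; exact h1
    have := Nat.le_of_dvd (by norm_num) (hξ.dvd_of_pow_eq_one 2 h2)
    omega
  have hord := H22Mat.orderOf_T (2 * n) (by omega) ξ hξ c hc hne
  have hn1 : ξ ^ n = -1 := by
    have h2 : (ξ ^ n) ^ 2 = 1 := by rw [← pow_mul, mul_comm]; exact hξ.pow_eq_one
    rcases mul_self_eq_one_iff.1 ((sq (ξ ^ n)).symm.trans h2) with h | h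
    · exfalso
      have := Nat.le_of_dvd (by omega) (hξ.dvd_of_pow_eq_one n h)
      omega
    · exact h
  obtain ⟨k, hk⟩ : ∃ k, n = k + 1 := ⟨n - 1, by omega⟩
  have hTn : H22Mat.T c ^ n = -1 := by
    rw [hk]; exact H22Mat.pow_eq_neg_one c ξ ξ⁻¹ h1 hc hne k (hk ▸ hn1)
  let X : Matrix.SpecialLinearGroup (Fin 2) K := ⟨!![y, x + c * y; x - c * y, -y], by
    rw [Matrix.det_fin_two_of]; linear_combination -hxy⟩
  apply H22Mat.quat_hom n hn (H22Mat.T c) X hord
  · rw [hTn]
    apply Matrix.SpecialLinearGroup.ext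
    intro i j
    rw [Matrix.SpecialLinearGroup.coe_mul, Matrix.SpecialLinearGroup.coe_neg, Matrix.SpecialLinearGroup.coe_one]
    fin_cases i <;> fin_cases j <;> simp [X, Matrix.mul_apply, Fin.sum_univ_two]
    · linear_combination hxy
    · ring
    · ring
    · linear_combination hxy
  · apply Matrix.SpecialLinearGroup.ext
    intro i j
    rw [Matrix.SpecialLinearGroup.coe_mul, Matrix.SpecialLinearGroup.coe_mul]
    fin_cases i <;> fin_cases j <;> simp [X, H22Mat.T, Matrix.mul_apply, Fin.sum_univ_two]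
    all_goals ring

end Groth.Agent.S14849
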