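import Groth.Statements.S14870
-- import your own Groth.Agent.* helpers here
import Mathlib

set_option autoImplicit false
universe u v w
open PLie

namespace Groth.Agent.S14870

/-- Let `L` be a Lie algebra over a field of characteristic `p` equipped with a `p`-mapping `φ`, and let
`f : L → L'` be a surjective morphism of Lie algebras onto a Lie algebra with zero centre. Then the
kernel of `f` is stable under `φ`, i.e. it is a `p`-ideal. (The published statement is for
finite-dimensional Lie algebras; no finiteness is assumed in this row.) -/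
theorem result
    (k : Type u) [Field k] (p : ℕ) [Fact p.Prime] [CharP k p]
    (L : Type v) [LieRing L] [LieAlgebra k L] (L' : Type w) [LieRing L'] [LieAlgebra k L']
    (φ : PLie.PMap k p L) (f : L →ₗ⁅k⁆ L') (hf : Function.Surjective f)
    (hz : LieAlgebra.center k L' = ⊥) (x : L) (hx : f x = 0) :
    f (φ x) = 0 := by
  have hp : 0 < p := (Fact.out : p.Prime).pos
  have h1 : f (φ x) ∈ LieAlgebra.center k L' := by
    rw [LieModule.mem_maxTrivSubmodule]
    intro y'
    obtain ⟨y, rfl⟩ := hf y'
    have h2 : ⁅φ x, y⁆ = (LieAlgebra.ad k L x ^ p) y := by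
      rw [← φ.ad_map]; rfl
    have h3 : ∀ n : ℕ, 0 < n → f ((LieAlgebra.ad k L x ^ n) y) = 0 := by
      intro n hn
      obtain ⟨m, rfl⟩ : ∃ m, n = m + 1 := ⟨n - 1, by omega⟩
      rw [pow_succ', Module.End.mul_apply, LieAlgebra.ad_apply, LieHom.map_lie, hx, zero_lie]
    rw [← LieHom.map_lie, ← lie_skew, h2, map_neg, h3 p hp, neg_zero]
  rw [hz] at h1
  exact h1

end Groth.Agent.S14870
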