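import Groth.Statements.S14871
-- import your own Groth.Agent.* helpers here
import Mathlib

set_option autoImplicit false
universe u v
open PLie

namespace Groth.Agent.S14871

/-- Let `L` be a finite-dimensional Lie algebra over a field of characteristic `p` equipped with a
`p`-mapping `φ`. Then the solvable radical of `L` is stable under `φ` (it is a `p`-subalgebra). -/
theorem result
    (k : Type u) [Field k] (p : ℕ) [Fact p.Prime] [CharP k p]
    (L : Type v) [LieRing L] [LieAlgebra k L] [Module.Finite k L]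
    (φ : PLie.PMap k p L) (x : L) (hx : x ∈ LieAlgebra.radical k L) :
    φ x ∈ LieAlgebra.radical k L := by
  have hp : 0 < p := (Fact.out : p.Prime).pos
  obtain ⟨rad, hrad⟩ : ∃ I, I = LieAlgebra.radical k L := ⟨_, rfl⟩
  rw [← hrad] at hx ⊢
  let J : LieIdeal k L :=
    { carrier := {z | ∀ y : L, ⁅z, y⁆ ∈ rad}
      zero_mem' := fun y => by rw [zero_lie]; exact rad.zero_mem
      add_mem' := fun {a b} ha hb y => by rw [add_lie]; exact rad.add_mem (ha y) (hb y)
      smul_mem' := fun c a ha y => by rw [smul_lie]; exact rad.smul_mem c (ha y)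
      lie_mem := fun {w z} hz y => by
        rw [lie_lie]
        exact rad.sub_mem (rad.lie_mem (hz y)) (hz ⁅w, y⁆) }
  have hJ1 : LieAlgebra.derivedSeriesOfIdeal k L 1 J ≤ rad := by
    rw [LieAlgebra.derivedSeriesOfIdeal_succ, LieAlgebra.derivedSeriesOfIdeal_zero, LieSubmodule.lie_le_iff]
    intro x hx y hy
    exact hx y
  haveI hsol : LieAlgebra.IsSolvable rad := by rw [hrad]; infer_instance
  obtain ⟨n, hn⟩ := LieAlgebra.IsSolvable.solvable k rad
  rw [LieIdeal.derivedSeries_eq_bot_iff] at hn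
  have hJsol : LieAlgebra.IsSolvable J := by
    apply LieAlgebra.IsSolvable.mk (R := k) (k := n + 1)
    rw [LieIdeal.derivedSeries_eq_bot_iff, LieAlgebra.derivedSeriesOfIdeal_add, eq_bot_iff, ← hn]
    exact LieAlgebra.derivedSeriesOfIdeal_mono hJ1 n
  have hJle : J ≤ rad := by
    rw [hrad]; exact (LieAlgebra.LieIdeal.solvable_iff_le_radical k L J).1 hJsol
  apply hJle
  intro y
  have h2 : ⁅φ x, y⁆ = (LieAlgebra.ad k L x ^ p) y := by
    rw [← φ.ad_map]; rfl
  rw [h2]
  obtain ⟨m, hm⟩ : ∃ m, p = m + 1 := ⟨p - 1, by omega⟩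
  rw [hm, pow_succ', Module.End.mul_apply, LieAlgebra.ad_apply]
  exact lie_mem_left k L rad x _ hx

end Groth.Agent.S14871
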