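import Groth.Statements.S14983
-- import your own Groth.Agent.* helpers here
import Mathlib

set_option autoImplicit false
universe u v w w'
open HopfRep

namespace Groth.Agent.S14983

/-- Let `R` be a commutative ring, `S` a commutative `R`-algebra, `A` a commutative Hopf algebra over
`R`, flat as an `R`-module, and `B` a commutative `R`-algebra with a coaction of `A` that is an
algebra map (an action of `G = Spec A` on `X = Spec B`). If the action is tame, i.e. admits a total
integral (a comodule map `α : A → B` for the regular coaction on `A` with `α 1 = 1`), then so is its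
base change along `R → S`: there is an `S`-linear map `S ⊗ A → S ⊗ B` which is a comodule map for
the base-changed coactions (regular coaction of the `S`-Hopf algebra `S ⊗ A` on itself, base-changed
coaction on `S ⊗ B`) and sends `1` to `1`. -/
theorem result
    (R : Type u) (S : Type v) (A : Type w) (B : Type w')
    [CommRing R] [CommRing S] [Algebra R S] [CommRing A] [HopfAlgebra R A] [Module.Flat R A]
    [CommRing B] [Algebra R B] [HopfRep.Comod R A B] [GLin.IsCoactAlg R A B]
    (htame : ∃ α : A →ₗ[R] B, Hoch.IsComodHom A α ∧ α 1 = 1) :
    ∃ α' : TensorProduct R S A →ₗ[S] TensorProduct R S B,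
      @Hoch.IsComodHom S _ (TensorProduct R S A) _ _ _ (TensorProduct R S A) _ _
        (HopfRep.Comod.regular S (TensorProduct R S A)) (TensorProduct R S B) _ _
        (CoactBr.Comod.baseChange R S A B) α' ∧ α' 1 = 1 := by
  obtain ⟨α, hα, h1⟩ := htame
  refine ⟨α.baseChange S, ?_, ?_⟩
  · apply TensorProduct.AlgebraTensorModule.ext
    intro s a
    have key : ∀ z : TensorProduct R A A,
        TensorProduct.AlgebraTensorModule.tensorTensorTensorComm R S R S S S B A
          (((1 : S) ⊗ₜ[S] s) ⊗ₜ[R] (α.rTensor A z)) =
        (α.baseChange S).rTensor (TensorProduct R S A)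
          (TensorProduct.AlgebraTensorModule.tensorTensorTensorComm R S R S S S A A
            (((1 : S) ⊗ₜ[S] s) ⊗ₜ[R] z)) := by
      intro z
      induction z with
      | zero => simp only [map_zero, TensorProduct.tmul_zero]
      | tmul x y => rfl
      | add x y hx hy => simp only [map_add, TensorProduct.tmul_add, hx, hy]
    have h2 : HopfRep.Comod.coact (k := R) (A := A) (α a) =
        α.rTensor A (CoalgebraStruct.comul (R := R) a) := LinearMap.congr_fun hα a
    have h3 : TensorProduct.AlgebraTensorModule.tensorTensorTensorComm R S R S S S B A
          (((1 : S) ⊗ₜ[S] s) ⊗ₜ[R] (HopfRep.Comod.coact (k := R) (A := A) (α a))) =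
        (α.baseChange S).rTensor (TensorProduct R S A)
          (TensorProduct.AlgebraTensorModule.tensorTensorTensorComm R S R S S S A A
            (((1 : S) ⊗ₜ[S] s) ⊗ₜ[R] (CoalgebraStruct.comul (R := R) a))) := by
      rw [h2]
      exact key _
    exact h3
  · rw [Algebra.TensorProduct.one_def, LinearMap.baseChange_tmul, h1]
    rfl

end Groth.Agent.S14983
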