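import Groth.Statements.S14994
-- import your own Groth.Agent.* helpers here
import Mathlib

set_option autoImplicit false
universe u
open CAlg

namespace Groth.Agent.S14994

/-- Let A be a Noetherian integrally closed domain, M a finitely generated torsion-free A-module, N a
submodule of M and ι : M → M** the canonical map to the double dual. Write N** → M** for the double
dual of the inclusion N → M. Then every m ∈ M whose image ι(m) lies in the image of N** is a torsion
element modulo N: some nonzero a ∈ A satisfies a·m ∈ N. In other words the preimage of N** under ι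
is contained in the saturation of N in M (the preimage of the torsion submodule of M/N), and the two
coincide when M/N is torsion-free. (The published statement asserts equality of the preimage with
the saturation for every N; for N = xA inside M = A = k[x] the saturation is all of M while N** has
image xA = N under the identification M** = M, so only the inclusion stated here holds, and it is
the inclusion later used, for saturated N, where the two sides agree.) -/
theorem result (A : Type u) [CommRing A] [IsDomain A]
    [IsNoetherianRing A] [IsIntegrallyClosed A]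
    (M : Type u) [AddCommGroup M] [Module A M] [Module.Finite A M] [NoZeroSMulDivisors A M]
    (N : Submodule A M) :
    (LinearMap.range N.subtype.dualMap.dualMap).comap (Module.Dual.eval A M) ≤
      (Submodule.torsion A (M ⧸ N)).comap N.mkQ := by
  intro m hm
  rw [Submodule.mem_comap] at hm ⊢
  obtain ⟨ξ, hξ⟩ := hm
  by_contra hcon
  let K := FractionRing A
  let V := TensorProduct A K (M ⧸ N)
  let ι : (M ⧸ N) →ₗ[A] V := TensorProduct.mk A K (M ⧸ N) 1
  have hx : ι (N.mkQ m) ≠ 0 := by
    intro h0
    haveI : IsLocalizedModule (nonZeroDivisors A) ι :=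
      (isLocalizedModule_iff_isBaseChange (nonZeroDivisors A) K ι).2 (TensorProduct.isBaseChange A (M ⧸ N) K)
    rw [IsLocalizedModule.eq_zero_iff (nonZeroDivisors A) ι] at h0
    obtain ⟨c, hc⟩ := h0
    apply hcon
    rw [Submodule.mem_torsion_iff]
    exact ⟨c, hc⟩
  obtain ⟨ψ, hψ⟩ : ∃ ψ : V →ₗ[K] K, ψ (ι (N.mkQ m)) ≠ 0 := by
    by_contra h
    push Not at h
    exact hx ((Module.forall_dual_apply_eq_zero_iff K _).1 h)
  let ψ' : (M ⧸ N) →ₗ[A] K := (ψ.restrictScalars A) ∘ₗ ι
  obtain ⟨s, hs⟩ := (inferInstance : Module.Finite A (M ⧸ N)).fg_top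
  classical
  obtain ⟨b, hb⟩ := IsLocalization.exist_integer_multiples_of_finset (nonZeroDivisors A) (s.image ψ')
  have hint : ∀ q : M ⧸ N, ∃ a : A, algebraMap A K a = (b : A) • ψ' q := by
    intro q
    have hq : q ∈ Submodule.span A (s : Set (M ⧸ N)) := by rw [hs]; trivial
    induction hq using Submodule.span_induction with
    | mem x hx => 
      obtain ⟨a, ha⟩ := hb (ψ' x) (Finset.mem_image_of_mem _ hx)
      exact ⟨a, ha⟩
    | zero => exact ⟨0, by simp⟩
    | add x y _ _ hx hy =>
      obtain ⟨a, ha⟩ := hx
      obtain ⟨a', ha'⟩ := hy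
      exact ⟨a + a', by rw [map_add, ha, ha', map_add, smul_add]⟩
    | smul r x _ hx =>
      obtain ⟨a, ha⟩ := hx
      exact ⟨r * a, by rw [map_mul, ha, map_smul, smul_comm, Algebra.smul_def r]⟩
  choose φf hφf using hint
  have hinj : Function.Injective (algebraMap A K) := IsFractionRing.injective A K
  let φ : (M ⧸ N) →ₗ[A] A :=
    { toFun := φf
      map_add' := fun x y => by apply hinj; rw [hφf, map_add, map_add, smul_add, hφf, hφf]
      map_smul' := fun r x => by
        apply hinj; rw [hφf, map_smul, RingHom.id_apply, smul_eq_mul, map_mul, hφf, smul_comm, Algebra.smul_def r] }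
  have hφm : φ (N.mkQ m) ≠ 0 := by
    intro h
    have h1 := hφf (N.mkQ m)
    have h2 : φf (N.mkQ m) = 0 := h
    rw [h2, map_zero, Algebra.smul_def, eq_comm, mul_eq_zero] at h1
    rcases h1 with h1 | h1
    · have : (b : A) = 0 := by apply hinj; rw [h1, map_zero]
      exact nonZeroDivisors.ne_zero b.2 this
    · exact hψ h1
  have h3 := LinearMap.congr_fun hξ (φ ∘ₗ N.mkQ)
  rw [Module.Dual.eval_apply] at h3
  have h4 : N.subtype.dualMap (φ ∘ₗ N.mkQ) = 0 := by
    ext n
    simp only [LinearMap.dualMap_apply, LinearMap.comp_apply, Submodule.mkQ_apply, Submodule.subtype_apply, LinearMap.zero_apply]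
    rw [(Submodule.Quotient.mk_eq_zero N).2 n.2, map_zero]
  rw [LinearMap.dualMap_apply, h4, map_zero] at h3
  exact hφm h3.symm

end Groth.Agent.S14994
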