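import Groth.Statements.S15017
-- import your own Groth.Agent.* helpers here
import Mathlib
import Groth.Agent.Lib.H22_Semigroup

set_option autoImplicit false
open TFCurv

namespace Groth.Agent.S15017

/-- Let Γ be a numerical semigroup (a submonoid of (ℕ, +) with finite complement), Γ ≠ ℕ, with conductor
c (every n ≥ c lies in Γ, c − 1 does not). If Γ is symmetric (for x < c, x is a gap exactly when c −
1 − x ∈ Γ) and has multiplicity greater than 2 (neither 1 nor 2 lies in Γ), then Γ is generated by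
its elements smaller than c: every minimal generator of Γ is less than the conductor. -/
theorem result (Γ : AddSubmonoid ℕ) (c : ℕ) (hc : ∀ n : ℕ, c ≤ n → n ∈ Γ) (hc0 : c ≠ 0) (hc1 : c - 1 ∉ Γ) (hsymm : ∀ x : ℕ, x < c → (x ∉ Γ ↔ c - 1 - x ∈ Γ)) (he : (1 : ℕ) ∉ Γ ∧ (2 : ℕ) ∉ Γ) : AddSubmonoid.closure {γ : ℕ | γ ∈ Γ ∧ γ < c} = Γ := by
  exact (H22Sg.closure_lt_eq Γ c hc hc0 hc1 hsymm he)

end Groth.Agent.S15017
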