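import Groth.Statements.S15018
-- import your own Groth.Agent.* helpers here

set_option autoImplicit false
open TFCurv

namespace Groth.Agent.S15018

/-- Let Γ be a numerical semigroup (a submonoid of (ℕ, +) with finite complement), Γ ≠ ℕ, with conductor
c (every n ≥ c lies in Γ, c − 1 does not). Then Γ is symmetric (for x < c, x is a gap exactly when c
− 1 − x ∈ Γ) if and only if there is exactly one gap n of Γ such that Γ ∪ {n} is again stable under
adding elements of Γ, i.e. n + γ ∈ Γ for every nonzero γ ∈ Γ. -/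
theorem result (Γ : AddSubmonoid ℕ) (c : ℕ) (hc : ∀ n : ℕ, c ≤ n → n ∈ Γ) (hc0 : c ≠ 0) (hc1 : c - 1 ∉ Γ) : (∀ x : ℕ, x < c → (x ∉ Γ ↔ c - 1 - x ∈ Γ)) ↔ ∃! n : ℕ, n ∉ Γ ∧ ∀ γ : ℕ, γ ∈ Γ → γ ≠ 0 → n + γ ∈ Γ := by
  have hmem : ∀ n : ℕ, n ∉ Γ → n < c := fun n hn => by
    by_contra h; exact hn (hc n (not_lt.1 h))
  constructor
  · intro hs
    refine ⟨c - 1, ⟨hc1, fun γ hγ hγ0 => hc _ (by omega)⟩, ?_⟩
    rintro n ⟨hn, hn'⟩
    by_contra hne
    have hlt := hmem n hn
    have h1 := (hs n hlt).1 hn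
    have h2 := hn' (c - 1 - n) h1 (by omega)
    apply hc1
    have : n + (c - 1 - n) = c - 1 := by omega
    rwa [this] at h2
  · rintro ⟨n, ⟨hn, hn'⟩, huniq⟩ x hx
    have hnc : n = c - 1 := (huniq (c - 1) ⟨hc1, fun γ hγ hγ0 => hc _ (by omega)⟩).symm
    constructor
    · intro hxΓ
      by_contra hcon
      -- maximal gap of form x + γ
      classical
      let P : ℕ → Prop := fun y => y ∉ Γ ∧ ∃ γ ∈ Γ, y = x + γ
      have hP0 : P x := ⟨hxΓ, 0, Γ.zero_mem, by simp⟩
      have hPb : ∀ y, P y → y ≤ c := fun y hy => (hmem y hy.1).le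
      let y := Nat.findGreatest P c
      have hy : P y := Nat.findGreatest_spec (hPb x hP0) hP0
      have hmax : ∀ z, P z → z ≤ y := fun z hz => Nat.le_findGreatest (hPb z hz) hz
      obtain ⟨hyΓ, γ, hγ, hyx⟩ := hy
      have hyn : y = n := by
        apply huniq y ⟨hyΓ, ?_⟩
        intro γ' hγ' hγ'0
        by_contra h3
        have := hmax (y + γ') ⟨h3, γ + γ', Γ.add_mem hγ hγ', by omega⟩
        omega
      apply hcon
      have : c - 1 - x = γ := by omega
      rw [this]; exact hγ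
    · intro h1 h2
      apply hc1
      have := Γ.add_mem h2 h1
      have h3 : x + (c - 1 - x) = c - 1 := by omega
      rwa [h3] at this

end Groth.Agent.S15018
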