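import Groth.Statements.S15019
-- import your own Groth.Agent.* helpers here
import Mathlib

set_option autoImplicit false
open TFCurv

namespace Groth.Agent.S15019

/-- Let Γ be a numerical semigroup (a submonoid of (ℕ, +) with finite complement), Γ ≠ ℕ, with conductor
c (every n ≥ c lies in Γ, c − 1 does not), let e be its multiplicity (the least nonzero element of
Γ), and let S ⊆ ℕ be a Γ-module in normal form: 0 ∈ S and γ + s ∈ S for all γ ∈ Γ, s ∈ S. Then the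
set of gaps n of S with S ∪ {n} again a Γ-module (n + γ ∈ S for every nonzero γ ∈ Γ) has at most e −
1 elements, and so does the set of nonzero s ∈ S with S ∖ {s} again a Γ-module (s − γ ∉ S for every
nonzero γ ∈ Γ with γ ≤ s). -/
theorem result (Γ : AddSubmonoid ℕ) (c : ℕ) (hc : ∀ n : ℕ, c ≤ n → n ∈ Γ) (hc0 : c ≠ 0) (hc1 : c - 1 ∉ Γ) (e : ℕ) (he : e ∈ Γ) (he0 : e ≠ 0) (hemin : ∀ γ : ℕ, γ ∈ Γ → γ ≠ 0 → e ≤ γ) (S : Set ℕ) (hS0 : (0 : ℕ) ∈ S) (hS : ∀ γ : ℕ, γ ∈ Γ → ∀ s : ℕ, s ∈ S → γ + s ∈ S) : {n : ℕ | n ∉ S ∧ ∀ γ : ℕ, γ ∈ Γ → γ ≠ 0 → n + γ ∈ S}.encard ≤ ((e - 1 : ℕ) : ℕ∞) ∧ {s : ℕ | s ∈ S ∧ s ≠ 0 ∧ ∀ γ : ℕ, γ ∈ Γ → γ ≠ 0 → γ ≤ s → s - γ ∉ S}.encard ≤ ((e - 1 : ℕ) : ℕ∞) := by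
  classical
  have hΓS : ∀ γ ∈ Γ, γ ∈ S := fun γ hγ => by have := hS γ hγ 0 hS0; rwa [add_zero] at this
  have hmul : ∀ k : ℕ, e * k ∈ Γ := fun k => by
    rw [mul_comm, ← smul_eq_mul]; exact AddSubmonoid.nsmul_mem _ he k
  have hcardT : ((Finset.range e).erase 0).card = e - 1 := by
    rw [Finset.card_erase_of_mem (Finset.mem_range.2 (Nat.pos_of_ne_zero he0)), Finset.card_range]
  have main : ∀ T : Set ℕ, (∀ n ∈ T, n % e ≠ 0) → (∀ n ∈ T, ∀ m ∈ T, n < m → n % e = m % e → False) →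
      T.encard ≤ ((e - 1 : ℕ) : ℕ∞) := by
    intro T h0 h1
    have hinj : Set.InjOn (fun n => n % e) T := by
      intro n hn m hm hnm
      rcases lt_trichotomy n m with h | h | h
      · exact (h1 n hn m hm h hnm).elim
      · exact h
      · exact (h1 m hm n hn h hnm.symm).elim
    rw [← hinj.encard_image, ← hcardT, ← Set.encard_coe_eq_coe_finsetCard]
    apply Set.encard_le_encard
    rintro _ ⟨n, hn, rfl⟩
    simp only [Finset.coe_erase, Finset.coe_range, Set.mem_diff, Set.mem_Iio, Set.mem_singleton_iff]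
    exact ⟨Nat.mod_lt _ (Nat.pos_of_ne_zero he0), h0 n hn⟩
  constructor
  · apply main
    · rintro n ⟨hn, _⟩ h
      obtain ⟨k, rfl⟩ := Nat.dvd_of_mod_eq_zero h
      exact hn (hΓS _ (hmul k))
    · rintro n ⟨hn, hn'⟩ m ⟨hm, hm'⟩ hlt hmod
      obtain ⟨k, hk⟩ := (Nat.modEq_iff_dvd' hlt.le).1 hmod
      have h3 := hn' (e * k) (hmul k) (by omega)
      apply hm
      have : n + e * k = m := by omega
      rwa [this] at h3
  · apply main
    · rintro n ⟨hn, hn0, hn'⟩ h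
      obtain ⟨k, rfl⟩ := Nat.dvd_of_mod_eq_zero h
      have := hn' (e * k) (hmul k) hn0 le_rfl
      rw [Nat.sub_self] at this
      exact this hS0
    · rintro n ⟨hn, hn0, hn'⟩ m ⟨hm, hm0, hm'⟩ hlt hmod
      obtain ⟨k, hk⟩ := (Nat.modEq_iff_dvd' hlt.le).1 hmod
      have := hm' (e * k) (hmul k) (by omega) (by omega)
      apply this
      have h5 : m - e * k = n := by omega
      rwa [h5]

end Groth.Agent.S15019
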