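import Groth.Statements.S15021
-- import your own Groth.Agent.* helpers here

set_option autoImplicit false
open TFCurv

namespace Groth.Agent.S15021

/-- Let Γ be a numerical semigroup (a submonoid of (ℕ, +) with finite complement), Γ ≠ ℕ, with conductor
c (every n ≥ c lies in Γ, c − 1 does not). Every subset S of ℕ containing Γ is stable under adding
elements of Γ (so that the diagram of Γ-modules is a full cube on the gaps) if and only if every
nonzero element of Γ is at least c, i.e. Γ consists of 0 and all integers from c on. -/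
theorem result (Γ : AddSubmonoid ℕ) (c : ℕ) (hc : ∀ n : ℕ, c ≤ n → n ∈ Γ) (hc0 : c ≠ 0) (hc1 : c - 1 ∉ Γ) : (∀ S : Set ℕ, (↑Γ : Set ℕ) ⊆ S → ∀ γ : ℕ, γ ∈ Γ → ∀ s : ℕ, s ∈ S → γ + s ∈ S) ↔ ∀ γ : ℕ, γ ∈ Γ → γ ≠ 0 → c ≤ γ := by
  constructor
  · intro h γ hγ hγ0
    by_contra hlt
    push Not at hlt
    have h1 : c - 1 - γ ∉ Γ := by
      intro h2
      apply hc1
      have := Γ.add_mem h2 hγ
      have h3 : c - 1 - γ + γ = c - 1 := by omega
      rwa [h3] at this
    have h4 := h ((↑Γ : Set ℕ) ∪ {c - 1 - γ}) Set.subset_union_left γ hγ (c - 1 - γ) (Or.inr rfl)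
    have h3 : γ + (c - 1 - γ) = c - 1 := by omega
    rw [h3] at h4
    rcases h4 with h4 | h4
    · exact hc1 h4
    · have : c - 1 = c - 1 - γ := h4
      omega
  · intro h S hS γ hγ s hs
    by_cases h0 : γ = 0
    · rw [h0, zero_add]; exact hs
    · exact hS (hc _ (by have := h γ hγ h0; omega))

end Groth.Agent.S15021
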