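import Groth.Statements.S15036
-- import your own Groth.Agent.* helpers here
import Mathlib

set_option autoImplicit false
open TFCurv

namespace Groth.Agent.S15036

/-- Let Γ be a numerical semigroup (a submonoid of (ℕ, +) with finite complement), Γ ≠ ℕ, with conductor
c (every n ≥ c lies in Γ, c − 1 does not); let S ⊆ ℕ be a Γ-module in normal form (0 ∈ S, γ + s ∈ S
for γ ∈ Γ, s ∈ S) with conductor c(S) (all n ≥ c(S) in S, c(S) − 1 ∉ S), and let s be a gap of S
such that S ∪ {s} is again a Γ-module. Enumerate S increasingly as s_0 < s_1 < ⋯ and put τ_i(S) =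
s_i + ℓ(S), where ℓ counts the gaps of Γ filled; since ℓ(S ∪ {s}) = ℓ(S) + 1, the termwise
comparison τ(S) ≤ τ(S ∪ {s}) says that the i-th element of S is at most one more than the i-th
element of S ∪ {s} for every i. This holds if and only if s = c(S) − 1, the largest gap of S. -/
theorem result (Γ : AddSubmonoid ℕ) (c : ℕ) (hc : ∀ n : ℕ, c ≤ n → n ∈ Γ) (hc0 : c ≠ 0) (hc1 : c - 1 ∉ Γ) (S : Set ℕ) (hS0 : (0 : ℕ) ∈ S) (hS : ∀ γ : ℕ, γ ∈ Γ → ∀ s : ℕ, s ∈ S → γ + s ∈ S) (cS : ℕ) (hcS : ∀ n : ℕ, cS ≤ n → n ∈ S) (hcS0 : cS ≠ 0) (hcS1 : cS - 1 ∉ S) (s : ℕ) (hs : s ∉ S) (hs' : ∀ γ : ℕ, γ ∈ Γ → γ ≠ 0 → s + γ ∈ S) : (∀ i : ℕ, Nat.nth (fun m => m ∈ S) i ≤ Nat.nth (fun m => m ∈ insert s S) i + 1) ↔ s + 1 = cS := by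
  classical
  have hinf : (setOf (fun m => m ∈ S)).Infinite := by
    refine Set.infinite_of_not_bddAbove ?_
    rintro ⟨b, hb⟩
    have : (b + 1 + cS) ∈ S := hcS _ (by omega)
    have := hb this
    omega
  have hinf' : (setOf (fun m => m ∈ insert s S)).Infinite := by
    refine hinf.mono ?_
    intro m hm
    exact Set.mem_insert_of_mem _ hm
  have hcnt : ∀ k, Nat.count (fun m => m ∈ insert s S) k
      = Nat.count (fun m => m ∈ S) k + (if s < k then 1 else 0) := by
    intro k
    induction k with
    | zero => simp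
    | succ k ih =>
      rw [Nat.count_succ, Nat.count_succ, ih]
      by_cases hk : k = s
      · subst hk
        simp [hs]
      · by_cases hkS : k ∈ S
        · have h1 : k ∈ insert s S := Set.mem_insert_of_mem _ hkS
          simp only [h1, hkS, if_true]
          split_ifs <;> omega
        · have h1 : k ∉ insert s S := by
            simp [hk, hkS]
          simp only [h1, hkS, if_false]
          split_ifs <;> omega
  have key : (∀ i : ℕ, Nat.nth (fun m => m ∈ S) i ≤ Nat.nth (fun m => m ∈ insert s S) i + 1) ↔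
      ∀ k, s < k → k ∈ S := by
    constructor
    · intro H k hk
      by_contra hkS
      have hi := H (Nat.count (fun m => m ∈ S) k)
      have h1 : k + 1 ≤ Nat.nth (fun m => m ∈ S) (Nat.count (fun m => m ∈ S) k) := by
        rw [← Nat.count_le_iff_le_nth hinf, Nat.count_succ]
        simp [hkS]
      have h2 : k ≤ Nat.nth (fun m => m ∈ insert s S) (Nat.count (fun m => m ∈ S) k) := by omega
      rw [← Nat.count_le_iff_le_nth hinf', hcnt, if_pos hk] at h2
      omega
    · intro H i
      by_contra hlt
      push Not at hlt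
      obtain ⟨k, hk⟩ : ∃ k, Nat.nth (fun m => m ∈ S) i = k + 1 := ⟨Nat.nth (fun m => m ∈ S) i - 1, by omega⟩
      have h1 : ¬ (k ≤ Nat.nth (fun m => m ∈ insert s S) i) := by omega
      apply h1
      rw [← Nat.count_le_iff_le_nth hinf', hcnt]
      have h2 : Nat.count (fun m => m ∈ S) (k + 1) = i := by
        rw [← hk]
        exact Nat.count_nth_of_infinite hinf i
      rw [Nat.count_succ] at h2
      by_cases hsk : s < k
      · have := H k hsk
        simp only [this, if_true] at h2
        rw [if_pos hsk]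
        omega
      · rw [if_neg hsk]
        omega
  rw [key]
  constructor
  · intro H
    have h1 : s < cS := by
      by_contra hge
      exact hs (hcS s (by omega))
    by_contra hne
    exact hcS1 (H (cS - 1) (by omega))
  · intro H k hk
    exact hcS k (by omega)

end Groth.Agent.S15036
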