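import Groth.Statements.S15038
-- import your own Groth.Agent.* helpers here
import Mathlib
import Groth.Agent.Lib.H22_Semigroup

set_option autoImplicit false
open TFCurv

namespace Groth.Agent.S15038

/-- Let Γ be a numerical semigroup (a submonoid of (ℕ, +) with finite complement), Γ ≠ ℕ, with conductor
c (every n ≥ c lies in Γ, c − 1 does not). If Γ is symmetric (for x < c, x is a gap exactly when c −
1 − x ∈ Γ) and its multiplicity e, the least nonzero element of Γ, is greater than 2, then Γ is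
generated as an additive monoid by at most e − 1 elements. -/
theorem result (Γ : AddSubmonoid ℕ) (c : ℕ) (hc : ∀ n : ℕ, c ≤ n → n ∈ Γ) (hc0 : c ≠ 0) (hc1 : c - 1 ∉ Γ) (hsymm : ∀ x : ℕ, x < c → (x ∉ Γ ↔ c - 1 - x ∈ Γ)) (e : ℕ) (he : e ∈ Γ) (he0 : e ≠ 0) (hemin : ∀ γ : ℕ, γ ∈ Γ → γ ≠ 0 → e ≤ γ) (he2 : 2 < e) : ∃ G : Finset ℕ, G.card ≤ e - 1 ∧ AddSubmonoid.closure (↑G : Set ℕ) = Γ := by
  exact H22Sg.gens Γ c hc hc0 hc1 hsymm e he he0 hemin he2

end Groth.Agent.S15038
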