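import Groth.Statements.S15162
-- import your own Groth.Agent.* helpers here
import Mathlib

set_option autoImplicit false
open Matrix
open BddFin

namespace Groth.Agent.S15162
lemma eq_one_aux (M : Matrix (Fin 2) (Fin 2) ℤ) (hdet : M.det = 1) (hd : (M - 1).det = 0)
    (k : ℕ) (hk : 0 < k) (hM : M ^ k = 1) : M = 1 := by
  obtain ⟨N, hN⟩ : ∃ N, N = M - 1 := ⟨_, rfl⟩
  have hMN : M = 1 + N := by rw [hN]; abel
  have e1 : N 0 0 * N 1 1 - N 0 1 * N 1 0 = 0 := by
    rw [← hN, Matrix.det_fin_two] at hd; exact hd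
  have e2 : N 0 0 + N 1 1 = 0 := by
    rw [hMN, Matrix.det_fin_two] at hdet
    simp [Matrix.add_apply] at hdet
    linarith
  have hNN : N * N = 0 := by
    ext i j
    fin_cases i <;> fin_cases j <;> simp only [Matrix.mul_apply, Fin.sum_univ_two, Matrix.zero_apply, Fin.zero_eta, Fin.mk_one, Fin.isValue]
    · linear_combination N 0 0 * e2 - e1
    · linear_combination N 0 1 * e2
    · linear_combination N 1 0 * e2
    · linear_combination N 1 1 * e2 - e1
  have hpow : ∀ n : ℕ, M ^ n = 1 + (n : ℤ) • N := by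
    intro n
    induction n with
    | zero => simp
    | succ n ih =>
      rw [pow_succ, ih, hMN]
      have : (1 + (n : ℤ) • N) * (1 + N) = 1 + ((n : ℤ) + 1) • N + (n : ℤ) • (N * N) := by
        rw [add_mul, mul_add, mul_add, smul_mul_assoc, smul_mul_assoc, add_smul]; simp only [one_mul, mul_one, one_smul]; abel
      rw [this, hNN]; push_cast; simp
  have h1 := hpow k
  rw [hM] at h1
  have h2 : (k : ℤ) • N = 0 := by
    have := h1.symm
    rwa [add_eq_left] at this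
  have h3 : N = 0 := by
    ext i j
    have h4 := congrFun (congrFun h2 i) j
    rw [Matrix.smul_apply, Matrix.zero_apply, smul_eq_mul] at h4
    have h5 : (k : ℤ) ≠ 0 := by positivity
    simpa using (mul_eq_zero.1 h4).resolve_left h5
  rw [hMN, h3, add_zero]


/-- Let Γ be a finite subgroup of GL_2(ℤ) acting on ℤ² by matrix multiplication. If every element of Γ
has a non-zero fixed vector in ℤ², then there is a non-zero vector of ℤ² fixed by all of Γ. -/
theorem result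
    (Γ : Subgroup (Matrix.GeneralLinearGroup (Fin 2) ℤ)) [Finite Γ]
    (h : ∀ γ ∈ Γ, ∃ v : Fin 2 → ℤ, v ≠ 0 ∧ (γ : Matrix (Fin 2) (Fin 2) ℤ) *ᵥ v = v) :
    ∃ v : Fin 2 → ℤ, v ≠ 0 ∧ ∀ γ ∈ Γ, (γ : Matrix (Fin 2) (Fin 2) ℤ) *ᵥ v = v := by
  have hfin : ∀ γ ∈ Γ, ∃ k : ℕ, 0 < k ∧ (γ : Matrix (Fin 2) (Fin 2) ℤ) ^ k = 1 := by
    intro γ hγ
    have h1 : IsOfFinOrder (⟨γ, hγ⟩ : Γ) := isOfFinOrder_of_finite _
    obtain ⟨k, hk, hk'⟩ := h1.exists_pow_eq_one
    refine ⟨k, hk, ?_⟩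
    have h2 : γ ^ k = 1 := congrArg Subtype.val hk'
    have h3 := congrArg (fun g : Matrix.GeneralLinearGroup (Fin 2) ℤ => (g : Matrix (Fin 2) (Fin 2) ℤ)) h2
    simpa using h3
  have hdet : ∀ γ ∈ Γ, (γ : Matrix (Fin 2) (Fin 2) ℤ).det = 1 → γ = 1 := by
    intro γ hγ hd
    obtain ⟨k, hk, hk'⟩ := hfin γ hγ
    obtain ⟨v, hv, hv'⟩ := h γ hγ
    have h1 : ((γ : Matrix (Fin 2) (Fin 2) ℤ) - 1).det = 0 := by
      rw [← Matrix.exists_mulVec_eq_zero_iff]
      refine ⟨v, hv, ?_⟩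
      rw [Matrix.sub_mulVec, hv', Matrix.one_mulVec, sub_self]
    apply Units.ext
    exact eq_one_aux _ hd h1 k hk hk'
  by_cases hall : ∀ γ ∈ Γ, γ = 1
  · refine ⟨Pi.single 0 1, ?_, ?_⟩
    · intro h0
      have := congrFun h0 0
      simp at this
    · intro γ hγ
      rw [hall γ hγ, Units.val_one, Matrix.one_mulVec]
  · push Not at hall
    obtain ⟨γ₀, hγ₀, hne⟩ := hall
    obtain ⟨v, hv, hv'⟩ := h γ₀ hγ₀
    refine ⟨v, hv, ?_⟩
    intro γ hγ
    have hu : ∀ g : Matrix.GeneralLinearGroup (Fin 2) ℤ, (g : Matrix (Fin 2) (Fin 2) ℤ).det = 1 ∨ (g : Matrix (Fin 2) (Fin 2) ℤ).det = -1 := by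
      intro g
      have : IsUnit (g : Matrix (Fin 2) (Fin 2) ℤ).det := (Matrix.isUnit_iff_isUnit_det _).1 g.isUnit
      exact Int.isUnit_iff.1 this
    rcases hu γ with h1 | h1
    · rw [hdet γ hγ h1, Units.val_one, Matrix.one_mulVec]
    · have h0 : (γ₀ : Matrix (Fin 2) (Fin 2) ℤ).det = -1 := by
        rcases hu γ₀ with h2 | h2
        · exact absurd (hdet γ₀ hγ₀ h2) hne
        · exact h2
      have hinv : ((γ₀⁻¹ : Matrix.GeneralLinearGroup (Fin 2) ℤ) : Matrix (Fin 2) (Fin 2) ℤ).det = -1 := by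
        have h3 : ((γ₀⁻¹ : Matrix.GeneralLinearGroup (Fin 2) ℤ) : Matrix (Fin 2) (Fin 2) ℤ) * (γ₀ : Matrix (Fin 2) (Fin 2) ℤ) = 1 := by
          rw [← Units.val_mul, inv_mul_cancel]; rfl
        have h4 := congrArg Matrix.det h3
        rw [Matrix.det_mul, h0, Matrix.det_one] at h4
        linarith
      have h5 : γ₀⁻¹ * γ = 1 := by
        apply hdet _ (Γ.mul_mem (Γ.inv_mem hγ₀) hγ)
        rw [Units.val_mul, Matrix.det_mul, hinv, h1]; norm_num
      have h6 : γ = γ₀ := (inv_mul_eq_one.1 h5).symm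
      rw [h6]; exact hv'

end Groth.Agent.S15162
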