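import Groth.Statements.S15163
-- import your own Groth.Agent.* helpers here
import Mathlib
import Groth.Agent.S15162

set_option autoImplicit false
open Matrix
open BddFin

namespace Groth.Agent.S15163
lemma tr_bound_aux (M : Matrix (Fin 2) (Fin 2) ℤ) (hdet : M.det = 1)
    (k : ℕ) (hk : 0 < k) (hM : M ^ k = 1) : |M.trace| ≤ 2 := by
  by_contra hcon
  push Not at hcon
  have hCH : M * M = M.trace • M - 1 := by
    rw [Matrix.det_fin_two] at hdet
    obtain ⟨t, ht⟩ : ∃ t, t = M.trace := ⟨_, rfl⟩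
    rw [← ht]
    rw [Matrix.trace_fin_two] at ht
    ext i j
    fin_cases i <;> fin_cases j <;> simp only [Matrix.mul_apply, Fin.sum_univ_two, Matrix.sub_apply, Matrix.smul_apply, smul_eq_mul, Fin.zero_eta, Fin.mk_one, Fin.isValue, Matrix.one_apply_eq, ne_eq, one_ne_zero, zero_ne_one, not_false_eq_true, Matrix.one_apply_ne, ht]
    · linear_combination -hdet
    · ring
    · ring
    · linear_combination -hdet
  have hrec : ∀ n : ℕ, (M ^ (n + 2)).trace = M.trace * (M ^ (n + 1)).trace - (M ^ n).trace := by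
    intro n
    have : M ^ (n + 2) = M.trace • M ^ (n + 1) - M ^ n := by
      rw [pow_add, sq, hCH, mul_sub, mul_one, mul_smul_comm, ← pow_succ]
    rw [this, Matrix.trace_sub, Matrix.trace_smul, smul_eq_mul]
  have hgrow : ∀ n : ℕ, |(M ^ n).trace| + 1 ≤ |(M ^ (n + 1)).trace| := by
    intro n
    induction n with
    | zero =>
      simp only [pow_zero, zero_add, pow_one, Matrix.trace_one, Fintype.card_fin]
      norm_num
      omega
    | succ n ih =>
      rw [hrec n]
      have h1 : |M.trace * (M ^ (n + 1)).trace - (M ^ n).trace| ≥ |M.trace * (M ^ (n + 1)).trace| - |(M ^ n).trace| := abs_sub_abs_le_abs_sub _ _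
      rw [abs_mul] at h1
      have h2 : (3 : ℤ) * |(M ^ (n + 1)).trace| ≤ |M.trace| * |(M ^ (n + 1)).trace| :=
        mul_le_mul_of_nonneg_right (by omega) (abs_nonneg _)
      have h3 := abs_nonneg (M ^ n).trace
      omega
  have hgrow2 : ∀ n : ℕ, 2 + (n : ℤ) ≤ |(M ^ n).trace| := by
    intro n
    induction n with
    | zero => simp [Matrix.trace_one]
    | succ n ih => have := hgrow n; push_cast; omega
  have := hgrow2 k
  rw [hM, Matrix.trace_one] at this
  norm_num at this
  omega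

lemma det_sub_one_aux (M : Matrix (Fin 2) (Fin 2) ℤ) : (M - 1).det = M.det - M.trace + 1 := by
  rw [Matrix.det_fin_two, Matrix.det_fin_two, Matrix.trace_fin_two]
  simp
  ring


/-- Let Γ be a finite subgroup of GL_2(ℤ) and d > 6 an integer. Suppose some vector w of (ℤ/dℤ)², with
m·w ≠ 0 for all 0 < m < d, is fixed by the reduction modulo d of every element of Γ. Then some
non-zero vector of ℤ² is fixed by all of Γ. -/
theorem result
    (Γ : Subgroup (Matrix.GeneralLinearGroup (Fin 2) ℤ)) [Finite Γ] (d : ℕ) (hd : 6 < d)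
    (w : Fin 2 → ZMod d) (hw : ∀ m : ℕ, 0 < m → m < d → m • w ≠ 0)
    (hfix : ∀ γ ∈ Γ, ((γ : Matrix (Fin 2) (Fin 2) ℤ).map (Int.castRingHom (ZMod d))) *ᵥ w = w) :
    ∃ v : Fin 2 → ℤ, v ≠ 0 ∧ ∀ γ ∈ Γ, (γ : Matrix (Fin 2) (Fin 2) ℤ) *ᵥ v = v := by
  apply Groth.Agent.S15162.result Γ
  intro γ hγ
  obtain ⟨M, hMdef⟩ : ∃ M, M = (γ : Matrix (Fin 2) (Fin 2) ℤ) := ⟨_, rfl⟩
  rw [← hMdef]
  have hk : ∃ k : ℕ, 0 < k ∧ M ^ k = 1 := by
    have h1 : IsOfFinOrder (⟨γ, hγ⟩ : Γ) := isOfFinOrder_of_finite _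
    obtain ⟨k, hk, hk'⟩ := h1.exists_pow_eq_one
    refine ⟨k, hk, ?_⟩
    have h2 : γ ^ k = 1 := congrArg Subtype.val hk'
    have h3 := congrArg (fun g : Matrix.GeneralLinearGroup (Fin 2) ℤ => (g : Matrix (Fin 2) (Fin 2) ℤ)) h2
    rw [hMdef]
    simpa using h3
  obtain ⟨k, hk, hk'⟩ := hk
  have hu : M.det = 1 ∨ M.det = -1 := by
    have : IsUnit M.det := by rw [hMdef]; exact (Matrix.isUnit_iff_isUnit_det _).1 γ.isUnit
    exact Int.isUnit_iff.1 this
  have hbound : |(M - 1).det| ≤ 4 := by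
    rcases hu with h1 | h1
    · have := tr_bound_aux M h1 k hk hk'
      rw [det_sub_one_aux, h1]
      rw [abs_le] at this ⊢
      omega
    · have h2 : (M * M).det = 1 := by rw [Matrix.det_mul, h1]; norm_num
      have h3 : (M * M) ^ k = 1 := by
        rw [← sq, ← pow_mul, mul_comm, pow_mul, hk', one_pow]
      have h4 := tr_bound_aux _ h2 k hk h3
      have h5 : (M * M).trace = M.trace ^ 2 + 2 := by
        rw [Matrix.det_fin_two] at h1
        rw [Matrix.trace_fin_two, Matrix.trace_fin_two]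
        simp only [Matrix.mul_apply, Fin.sum_univ_two]
        linear_combination -2 * h1
      rw [h5, abs_le] at h4
      have h6 : M.trace = 0 := by
        have h7 : M.trace ^ 2 ≤ 0 := by omega
        have h8 : M.trace ^ 2 = 0 := le_antisymm h7 (sq_nonneg _)
        exact pow_eq_zero_iff (two_ne_zero) |>.1 h8
      rw [det_sub_one_aux, h1, h6]; norm_num
  have hdvd : (d : ℤ) ∣ (M - 1).det := by
    have hd0 : 0 < d := by omega
    have h0 : ((M - 1).map (Int.castRingHom (ZMod d))) *ᵥ w = 0 := by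
      have h1 := hfix γ hγ
      rw [← hMdef] at h1
      have h2 : (M - 1).map (Int.castRingHom (ZMod d)) = M.map (Int.castRingHom (ZMod d)) - 1 := by
        rw [Matrix.map_sub _ (by simp)]
        congr 1
        exact Matrix.map_one _ (by simp) (by simp)
      rw [h2, Matrix.sub_mulVec, h1, Matrix.one_mulVec, sub_self]
    have h1 : (((M - 1).det : ℤ) : ZMod d) • w = 0 := by
      have h2 : ((M - 1).map (Int.castRingHom (ZMod d))).det = (((M - 1).det : ℤ) : ZMod d) := by
        have := (RingHom.map_det (Int.castRingHom (ZMod d)) (M - 1)).symm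
        simpa using this
      have h3 := congrArg (fun v => Matrix.mulVec ((M - 1).map (Int.castRingHom (ZMod d))).adjugate v) h0
      simp only [Matrix.mulVec_mulVec, Matrix.adjugate_mul, Matrix.mulVec_zero] at h3
      rw [h2, Matrix.smul_mulVec, Matrix.one_mulVec] at h3
      exact h3
    obtain ⟨m, hm⟩ : ∃ m : ℕ, m = ((M - 1).det % d).toNat := ⟨_, rfl⟩
    have hmod : 0 ≤ (M - 1).det % d := Int.emod_nonneg _ (by omega)
    have hmlt : m < d := by
      have := Int.emod_lt_of_pos (M - 1).det (show (0 : ℤ) < d by omega)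
      omega
    have hmeq : ((m : ℕ) : ZMod d) = (((M - 1).det : ℤ) : ZMod d) := by
      have h4 : ((m : ℕ) : ℤ) = (M - 1).det % d := by rw [hm]; exact Int.toNat_of_nonneg hmod
      rw [← Int.cast_natCast, h4]
      rw [ZMod.intCast_mod]
    have hmw : m • w = 0 := by
      rw [← Nat.cast_smul_eq_nsmul (ZMod d), hmeq]; exact h1
    have hm0 : m = 0 := by
      by_contra hne
      exact hw m (Nat.pos_of_ne_zero hne) hmlt hmw
    rw [Int.dvd_iff_emod_eq_zero]
    omega
  have hzero : (M - 1).det = 0 := by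
    apply Int.eq_zero_of_abs_lt_dvd hdvd
    omega
  rw [← Matrix.exists_mulVec_eq_zero_iff] at hzero
  obtain ⟨v, hv, hv'⟩ := hzero
  refine ⟨v, hv, ?_⟩
  rw [Matrix.sub_mulVec, Matrix.one_mulVec, sub_eq_zero] at hv'
  exact hv'

end Groth.Agent.S15163
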