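import Groth.Statements.S15164
-- import your own Groth.Agent.* helpers here
import Mathlib

set_option autoImplicit false
universe u v
open BddFin

namespace Groth.Agent.S15164

/-- Let K be a field of characteristic p > 2, V a finite-dimensional K-vector space and q a quadratic
form on V that does not represent zero (q x = 0 only for x = 0). Then the group of K-linear
automorphisms of V preserving q has no element of order p: if g preserves q and g ^ p = 1 then g =
1. (Non-degeneracy of q, also assumed in the published statement, follows from anisotropy since 2 is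
invertible, so it is not repeated here.) -/
theorem result
    (K : Type u) [Field K] (p : ℕ) [Fact p.Prime] [CharP K p] (hp : p ≠ 2)
    (V : Type v) [AddCommGroup V] [Module K V] [FiniteDimensional K V]
    (q : QuadraticForm K V) (hq : q.Anisotropic)
    (g : V ≃ₗ[K] V) (hg : ∀ x : V, q (g x) = q x) (hgp : g ^ p = 1) : g = 1 := by
  have hprime : p.Prime := Fact.out
  rcases subsingleton_or_nontrivial V with hV | hV
  · ext x; exact Subsingleton.elim _ _
  by_contra hne
  obtain ⟨N, hN⟩ : ∃ N : Module.End K V, N = (g : V →ₗ[K] V) - 1 := ⟨_, rfl⟩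
  have hgp' : ((g : V →ₗ[K] V) : Module.End K V) ^ p = 1 := by
    ext x
    have h1 : ∀ (n : ℕ) (x : V), (((g : V →ₗ[K] V) : Module.End K V) ^ n) x = (g ^ n) x := by
      intro n
      induction n with
      | zero => intro x; simp
      | succ n ih => intro x; rw [pow_succ, pow_succ, Module.End.mul_apply, ih]; rfl
    rw [h1, hgp]; rfl
  have hNp : N ^ p = 0 := by
    have : CharP (Module.End K V) p := charP_of_injective_algebraMap (algebraMap K (Module.End K V)).injective p
    have h2 : ((g : V →ₗ[K] V) - 1 : Module.End K V) ^ p = ((g : V →ₗ[K] V) : Module.End K V) ^ p - 1 ^ p :=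
      sub_pow_char_of_commute p (Commute.one_right _)
    rw [hN, h2, hgp', one_pow, sub_self]
  have hex : ∃ n, N ^ n = 0 := ⟨p, hNp⟩
  classical
  obtain ⟨m, hm⟩ : ∃ m, m = Nat.find hex := ⟨_, rfl⟩
  have hm0 : N ^ m = 0 := by rw [hm]; exact Nat.find_spec hex
  have hmin : ∀ k < m, N ^ k ≠ 0 := fun k hk => Nat.find_min hex (hm ▸ hk)
  rcases m with _ | _ | m
  · simp at hm0
  · simp only [zero_add, pow_one] at hm0
    apply hne
    ext x
    have h3 : N x = 0 := by rw [hm0]; rfl
    rw [hN] at h3
    have h4 : g x - x = 0 := h3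
    rw [sub_eq_zero.1 h4]; rfl
  · have h5 := hmin (m + 1) (by omega)
    have h6 : ∃ x, (N ^ (m + 1)) x ≠ 0 := by
      by_contra hcon
      push Not at hcon
      exact h5 (LinearMap.ext hcon)
    obtain ⟨x, hx⟩ := h6
    obtain ⟨v, hv⟩ : ∃ v, v = (N ^ m) x := ⟨_, rfl⟩
    obtain ⟨u, hu⟩ : ∃ u, u = N v := ⟨_, rfl⟩
    have hu' : u = (N ^ (m + 1)) x := by rw [hu, hv, pow_succ', Module.End.mul_apply]
    have hu0 : u ≠ 0 := by rw [hu']; exact hx
    have hNu : N u = 0 := by
      rw [hu', ← Module.End.mul_apply, ← pow_succ', hm0]; rfl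
    have hgv : g v = v + u := by
      have : g v - v = u := by rw [hu, hN]; rfl
      rw [← this]; abel
    have hgu : g u = u := by
      have : g u - u = 0 := by rw [← hNu, hN]; rfl
      exact sub_eq_zero.1 this
    have hpol : QuadraticMap.polar q (g v) (g u) = QuadraticMap.polar q v u := by
      simp only [QuadraticMap.polar, ← map_add, hg]
    rw [hgv, hgu, QuadraticMap.polar_add_left] at hpol
    have h7 : QuadraticMap.polar q u u = 0 := by
      have := hpol
      rwa [add_eq_left] at this
    rw [QuadraticMap.polar_self] at h7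
    have h2K : (2 : K) ≠ 0 := by
      intro h8
      have h9 : ((2 : ℕ) : K) = 0 := by exact_mod_cast h8
      rw [CharP.cast_eq_zero_iff K p] at h9
      exact hp ((Nat.prime_dvd_prime_iff_eq hprime Nat.prime_two).1 h9)
    rw [two_smul, ← two_mul] at h7
    exact hu0 (hq u ((mul_eq_zero.1 h7).resolve_left h2K))

end Groth.Agent.S15164
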