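import Groth.Statements.S15165
-- import your own Groth.Agent.* helpers here
import Mathlib
import Groth.Agent.Lib.H22_Quad

set_option autoImplicit false
universe u v
open Polynomial
open BddFin

namespace Groth.Agent.S15165

/-- Let K be a field of characteristic different from 2 such that K contains all roots of unity (for
every n ≥ 1 the polynomial X^n − 1 splits into linear factors over K), V a finite-dimensional
K-vector space and q a quadratic form on V that does not represent zero. If a K-linear automorphism
g of V preserves q and has finite order (g ^ d = 1 for some d ≥ 1), then g ^ 2 = 1. (The published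
statement also covers perfect fields of characteristic 2; this row is the case of characteristic ≠
2.) -/
theorem result
    (K : Type u) [Field K] (hK : ∀ n : ℕ, 0 < n → (X ^ n - 1 : K[X]).Splits) (h2 : (2 : K) ≠ 0)
    (V : Type v) [AddCommGroup V] [Module K V] [FiniteDimensional K V]
    (q : QuadraticForm K V) (hq : q.Anisotropic)
    (g : V ≃ₗ[K] V) (hg : ∀ x : V, q (g x) = q x) (d : ℕ) (hd : 0 < d) (hgd : g ^ d = 1) :
    g ^ 2 = 1 := by
  exact H22Quad.sq_eq_one hK h2 q hq g hg d hd hgd

end Groth.Agent.S15165
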