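import Groth.Statements.S15166
-- import your own Groth.Agent.* helpers here
import Mathlib
import Groth.Agent.Lib.H22_Quad

set_option autoImplicit false
universe u v
open Polynomial
open BddFin

namespace Groth.Agent.S15166
lemma card_aux {K : Type u} [Field K] (h2 : (2 : K) ≠ 0) {G : Type v} [Group G] [Finite G] :
    ∀ (n : ℕ) (V : Type v) [AddCommGroup V] [Module K V] [FiniteDimensional K V], Module.finrank K V = n →
      ∀ ρ : G →* Module.End K V, (∀ g, ρ g * ρ g = 1) → (Set.range ρ).ncard ≤ 2 ^ n := by
  classical
  intro n
  induction n using Nat.strong_induction_on with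
  | _ n ih =>
    intro V _ _ _ hV ρ hρ
    by_cases hall : ∀ g, ρ g = 1 ∨ ρ g = -1
    · rcases Nat.eq_zero_or_pos n with h0 | hpos
      · subst h0
        haveI : Subsingleton V := Module.finrank_zero_iff.1 hV
        rw [pow_zero]
        exact (Set.ncard_le_one_iff (Set.toFinite _)).2 (fun {a b} _ _ => Subsingleton.elim _ _)
      · have hsub : Set.range ρ ⊆ {1, -1} := by
          rintro _ ⟨g, rfl⟩
          rcases hall g with h | h <;> simp [h]
        calc (Set.range ρ).ncard ≤ ({1, -1} : Set (Module.End K V)).ncard := Set.ncard_le_ncard hsub (Set.toFinite _)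
          _ ≤ 2 := by
            have h8 := Set.ncard_insert_le (1 : Module.End K V) {-1}
            rw [Set.ncard_singleton] at h8
            exact h8
          _ ≤ 2 ^ n := by
            calc 2 = 2 ^ 1 := (pow_one 2).symm
              _ ≤ 2 ^ n := Nat.pow_le_pow_right (by norm_num) hpos
    · push Not at hall
      obtain ⟨g, hg1, hg2⟩ := hall
      have hcomm : ∀ h, ρ g * ρ h = ρ h * ρ g := by
        intro h
        have h3 := hρ (g * h)
        rw [map_mul] at h3
        have h4 : ρ h * ρ g = ρ g * (ρ g * ρ h * (ρ g * ρ h)) * ρ h := by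
          calc ρ h * ρ g = 1 * (ρ h * ρ g) * 1 := by rw [one_mul, mul_one]
            _ = (ρ g * ρ g) * (ρ h * ρ g) * (ρ h * ρ h) := by rw [hρ, hρ]
            _ = ρ g * (ρ g * ρ h * (ρ g * ρ h)) * ρ h := by simp only [mul_assoc]
        rw [h4, h3, mul_one]
      let Vp : Submodule K V := LinearMap.ker (ρ g - 1)
      let Vm : Submodule K V := LinearMap.ker (ρ g + 1)
      have hgg : ∀ x, ρ g (ρ g x) = x := fun x => by
        have := LinearMap.congr_fun (hρ g) x
        simpa using this
      have memp : ∀ x, x ∈ Vp ↔ ρ g x = x := fun x => by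
        show (ρ g - 1) x = 0 ↔ _
        rw [LinearMap.sub_apply, sub_eq_zero]; rfl
      have memm : ∀ x, x ∈ Vm ↔ ρ g x = -x := fun x => by
        show (ρ g + 1) x = 0 ↔ _
        rw [LinearMap.add_apply, add_eq_zero_iff_eq_neg]; rfl
      have hp : ∀ h, ∀ x ∈ Vp, ρ h x ∈ Vp := by
        intro h x hx
        rw [memp] at hx ⊢
        have := LinearMap.congr_fun (hcomm h) x
        rw [Module.End.mul_apply, Module.End.mul_apply, hx] at this
        exact this
      have hm : ∀ h, ∀ x ∈ Vm, ρ h x ∈ Vm := by
        intro h x hx
        rw [memm] at hx ⊢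
        have := LinearMap.congr_fun (hcomm h) x
        rw [Module.End.mul_apply, Module.End.mul_apply, hx, map_neg] at this
        exact this
      let ρp : G →* Module.End K Vp :=
        { toFun := fun h => (ρ h).restrict (hp h)
          map_one' := by ext x; simp
          map_mul' := fun a b => by ext x; simp }
      let ρm : G →* Module.End K Vm :=
        { toFun := fun h => (ρ h).restrict (hm h)
          map_one' := by ext x; simp
          map_mul' := fun a b => by ext x; simp }
      have hρp : ∀ h, ρp h * ρp h = 1 := by
        intro h; ext x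
        have := LinearMap.congr_fun (hρ h) x
        exact this
      have hρm : ∀ h, ρm h * ρm h = 1 := by
        intro h; ext x
        have := LinearMap.congr_fun (hρ h) x
        exact this
      have hpn : Vp ≠ ⊤ := by
        intro h
        apply hg1
        ext x
        exact (memp x).1 (h ▸ Submodule.mem_top)
      have hmn : Vm ≠ ⊤ := by
        intro h
        apply hg2
        ext x
        exact (memm x).1 (h ▸ Submodule.mem_top)
      have hcompl : IsCompl Vp Vm := by
        constructor
        · rw [Submodule.disjoint_def]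
          intro x hx hx'
          rw [memp] at hx
          rw [memm, hx] at hx'
          have : (2 : K) • x = 0 := by rw [two_smul]; nth_rewrite 1 [hx']; exact neg_add_cancel x
          exact (smul_eq_zero.1 this).resolve_left h2
        · rw [codisjoint_iff, eq_top_iff]
          intro x _
          have h4 : x = (2 : K)⁻¹ • (x + ρ g x) + (2 : K)⁻¹ • (x - ρ g x) := by
            rw [← smul_add, add_add_sub_cancel, ← two_smul K x, smul_smul, inv_mul_cancel₀ h2, one_smul]
          rw [h4]
          apply Submodule.add_mem_sup
          · apply Submodule.smul_mem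
            rw [memp, map_add, hgg, add_comm]
          · apply Submodule.smul_mem
            rw [memm, map_sub, hgg, neg_sub]
      have hdim := Submodule.finrank_add_eq_of_isCompl hcompl
      have hpl : Module.finrank K Vp < n := hV ▸ Submodule.finrank_lt hpn
      have hml : Module.finrank K Vm < n := hV ▸ Submodule.finrank_lt hmn
      have c1 := ih _ hpl Vp rfl ρp hρp
      have c2 := ih _ hml Vm rfl ρm hρm
      have hpm : ∀ x, ((2 : K)⁻¹ • (1 + ρ g) : Module.End K V) x ∈ Vp := by
        intro x
        rw [memp]
        simp only [LinearMap.smul_apply, LinearMap.add_apply, Module.End.one_apply, map_smul, map_add, hgg]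
        rw [add_comm]
      have hmm : ∀ x, ((2 : K)⁻¹ • (1 - ρ g) : Module.End K V) x ∈ Vm := by
        intro x
        rw [memm]
        simp only [LinearMap.smul_apply, LinearMap.sub_apply, Module.End.one_apply, map_smul, map_sub, hgg]
        rw [← smul_neg, neg_sub]
      let πp : V →ₗ[K] Vp := LinearMap.codRestrict Vp _ hpm
      let πm : V →ₗ[K] Vm := LinearMap.codRestrict Vm _ hmm
      let F : Module.End K Vp × Module.End K Vm → Module.End K V := fun ab =>
        Vp.subtype ∘ₗ ab.1 ∘ₗ πp + Vm.subtype ∘ₗ ab.2 ∘ₗ πm
      have hF : ∀ h, ρ h = F (ρp h, ρm h) := by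
        intro h
        ext x
        have hx : x = (πp x : V) + (πm x : V) := by
          show x = (2 : K)⁻¹ • (x + ρ g x) + (2 : K)⁻¹ • (x - ρ g x)
          rw [← smul_add, add_add_sub_cancel, ← two_smul K x, smul_smul, inv_mul_cancel₀ h2, one_smul]
        conv_lhs => rw [hx, map_add]
        rfl
      have hsub : Set.range ρ ⊆ F '' ((Set.range ρp) ×ˢ (Set.range ρm)) := by
        rintro _ ⟨h, rfl⟩
        exact ⟨(ρp h, ρm h), ⟨⟨h, rfl⟩, ⟨h, rfl⟩⟩, (hF h).symm⟩
      have hfin : ((Set.range ρp) ×ˢ (Set.range ρm)).Finite := (Set.finite_range _).prod (Set.finite_range _)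
      calc (Set.range ρ).ncard ≤ (F '' ((Set.range ρp) ×ˢ (Set.range ρm))).ncard := Set.ncard_le_ncard hsub (hfin.image _)
        _ ≤ ((Set.range ρp) ×ˢ (Set.range ρm)).ncard := Set.ncard_image_le hfin
        _ = (Set.range ρp).ncard * (Set.range ρm).ncard := Set.ncard_prod
        _ ≤ 2 ^ Module.finrank K Vp * 2 ^ Module.finrank K Vm := Nat.mul_le_mul c1 c2
        _ = 2 ^ n := by rw [← pow_add, hdim, hV]


/-- Let K be a field of characteristic different from 2 such that K contains all roots of unity (for
every n ≥ 1 the polynomial X^n − 1 splits into linear factors over K), V a finite-dimensional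
K-vector space and q a quadratic form on V that does not represent zero. Then every finite subgroup
of the group of K-linear automorphisms of V preserving q is abelian and has order at most 2 ^ (dim
V). (The published statement also covers perfect fields of characteristic 2; this row is the case of
characteristic ≠ 2.) -/
theorem result
    (K : Type u) [Field K] (hK : ∀ n : ℕ, 0 < n → (X ^ n - 1 : K[X]).Splits) (h2 : (2 : K) ≠ 0)
    (V : Type v) [AddCommGroup V] [Module K V] [FiniteDimensional K V]
    (q : QuadraticForm K V) (hq : q.Anisotropic)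
    (G : Subgroup (V ≃ₗ[K] V)) [Finite G] (hG : ∀ g ∈ G, ∀ x : V, q (g x) = q x) :
    (∀ g ∈ G, ∀ h ∈ G, g * h = h * g) ∧ Nat.card G ≤ 2 ^ Module.finrank K V := by
  have hsq : ∀ g ∈ G, g * g = 1 := by
    intro g hg
    have h1 : IsOfFinOrder (⟨g, hg⟩ : G) := isOfFinOrder_of_finite _
    obtain ⟨d, hd, hd'⟩ := h1.exists_pow_eq_one
    have h3 : g ^ d = 1 := congrArg Subtype.val hd'
    have := H22Quad.sq_eq_one hK h2 q hq g (hG g hg) d hd h3
    rwa [sq] at this
  constructor
  · intro g hg h hh
    have h3 := hsq (g * h) (G.mul_mem hg hh)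
    have h4 := hsq g hg
    have h5 := hsq h hh
    calc g * h = (g * h)⁻¹ := by rw [eq_inv_iff_mul_eq_one]; exact h3
      _ = h⁻¹ * g⁻¹ := mul_inv_rev g h
      _ = h * g := by rw [inv_eq_of_mul_eq_one_left h4, inv_eq_of_mul_eq_one_left h5]
  · let ρ : G →* Module.End K V :=
      { toFun := fun g => ((g : V ≃ₗ[K] V) : V →ₗ[K] V)
        map_one' := rfl
        map_mul' := fun a b => rfl }
    have h3 := card_aux h2 (Module.finrank K V) V rfl ρ (by
      intro g
      have := hsq g.1 g.2
      have h4 : ρ g * ρ g = ((g.1 * g.1 : V ≃ₗ[K] V) : V →ₗ[K] V) := rfl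
      rw [h4, this]; rfl)
    have hinj : Function.Injective ρ := by
      intro a b hab
      apply Subtype.ext
      ext x
      exact LinearMap.congr_fun hab x
    rw [← Set.image_univ, Set.ncard_image_of_injective _ hinj, Set.ncard_univ] at h3
    exact h3

end Groth.Agent.S15166
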