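import Groth.Statements.S15169
-- import your own Groth.Agent.* helpers here
import Groth.Agent.Lib.H22_Div

set_option autoImplicit false
universe u v
open BddFin

namespace Groth.Agent.S15169

/-- (1) ⇒ (2): let K be a field with char K = p > 0 and A a central division K-algebra with dim_K A = p
^ 2. If some element of A is not separable over K, then there are v, u in A with v ^ p and u ^ p in
K and v * u - u * v = 1 which generate A as a K-algebra. -/
theorem result
    (K : Type u) [Field K] (p : ℕ) [Fact p.Prime] [CharP K p]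
    (A : Type v) [DivisionRing A] [Algebra K A] [Algebra.IsCentral K A] [FiniteDimensional K A]
    (hA : Module.finrank K A = p ^ 2) (h : ∃ v : A, ¬ IsSeparable K v) :
    ∃ v u : A, v ^ p ∈ (algebraMap K A).range ∧ u ^ p ∈ (algebraMap K A).range ∧ v * u - u * v = 1 ∧
      Algebra.adjoin K {v, u} = ⊤ := by
  classical
  obtain ⟨v, hv⟩ := h
  have hp : p.Prime := Fact.out
  haveI : CharP A p := charP_of_injective_algebraMap (algebraMap K A).injective p
  have hvK : v ∉ (algebraMap K A).range := by
    rintro ⟨c, rfl⟩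
    exact hv (isSeparable_algebraMap c)
  have hint : IsIntegral K v := IsIntegral.of_finite K v
  have hirr := minpoly.irreducible hint
  have hder : Polynomial.derivative (minpoly K v) = 0 := by
    by_contra hd
    exact hv ((Polynomial.separable_iff_derivative_ne_zero hirr).2 hd)
  have hdeg := H22Div.natDegree_minpoly hA hvK
  have hmon := minpoly.monic hint
  have hvp : v ^ p ∈ (algebraMap K A).range := by
    have h1 := minpoly.aeval K v
    rw [Polynomial.aeval_eq_sum_range, hdeg, Finset.sum_range_succ] at h1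
    have h2 : (minpoly K v).coeff p = 1 := by rw [← hdeg]; exact hmon
    rw [h2, one_smul] at h1
    have h3 : ∑ i ∈ Finset.range p, (minpoly K v).coeff i • v ^ i = algebraMap K A ((minpoly K v).coeff 0) := by
      rw [Finset.sum_eq_single 0]
      · simp [Algebra.smul_def]
      · intro i hi hi0
        have h4 : (Polynomial.derivative (minpoly K v)).coeff (i - 1) = 0 := by rw [hder]; simp
        rw [Polynomial.coeff_derivative] at h4
        have h5 : i - 1 + 1 = i := Nat.succ_pred_eq_of_pos (Nat.pos_of_ne_zero hi0)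
        rw [h5] at h4
        have h6 : ((i - 1 : ℕ) : K) + 1 ≠ 0 := by
          rw [← Nat.cast_succ]
          rw [Nat.succ_eq_add_one, h5]
          intro h7
          rw [CharP.cast_eq_zero_iff K p] at h7
          exact absurd (Nat.le_of_dvd (Nat.pos_of_ne_zero hi0) h7) (not_le.2 (Finset.mem_range.1 hi))
        rw [(mul_eq_zero.1 h4).resolve_right h6, zero_smul]
      · intro h; exact absurd (Finset.mem_range.2 hp.pos) h
    rw [h3] at h1
    refine ⟨-(minpoly K v).coeff 0, ?_⟩
    rw [map_neg]; exact neg_eq_of_add_eq_zero_right h1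
  -- ad v
  let D : Module.End K A := LinearMap.mulLeft K v - LinearMap.mulRight K v
  have hD : ∀ x, D x = v * x - x * v := fun x => rfl
  have hDp : D ^ p = 0 := by
    haveI : CharP (Module.End K A) p := charP_of_injective_algebraMap (algebraMap K (Module.End K A)).injective p
    have hc : Commute (LinearMap.mulLeft K v) (LinearMap.mulRight K v) := by
      ext x; simp [mul_assoc]
    have : D ^ p = LinearMap.mulLeft K v ^ p - LinearMap.mulRight K v ^ p := sub_pow_char_of_commute p hc
    rw [this, LinearMap.pow_mulLeft, LinearMap.pow_mulRight]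
    obtain ⟨c, hc⟩ := hvp
    ext x
    simp only [LinearMap.sub_apply, LinearMap.mulLeft_apply, LinearMap.mulRight_apply, LinearMap.zero_apply]
    rw [← hc, Algebra.commutes c x, sub_self]
  obtain ⟨y, hy⟩ := H22Div.exists_not_comm hvK
  have hex : ∃ n, (D ^ n) y = 0 := ⟨p, by rw [hDp]; rfl⟩
  obtain ⟨m, hm⟩ : ∃ m, m = Nat.find hex := ⟨_, rfl⟩
  have hm0 : (D ^ m) y = 0 := by rw [hm]; exact Nat.find_spec hex
  have hmin : ∀ k < m, (D ^ k) y ≠ 0 := fun k hk => Nat.find_min hex (hm ▸ hk)
  have hm2 : 2 ≤ m := by
    rcases m with _ | _ | m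
    · exfalso
      simp only [pow_zero, Module.End.one_apply] at hm0
      rw [hm0] at hy; simp at hy
    · exfalso
      simp only [zero_add, pow_one] at hm0
      rw [hD, sub_eq_zero] at hm0
      exact hy hm0.symm
    · omega
  obtain ⟨k, rfl⟩ : ∃ k, m = k + 2 := ⟨m - 2, by omega⟩
  obtain ⟨w, hw⟩ : ∃ w, w = (D ^ k) y := ⟨_, rfl⟩
  obtain ⟨z, hz⟩ : ∃ z, z = D w := ⟨_, rfl⟩
  have hz' : z = (D ^ (k + 1)) y := by rw [hz, hw, pow_succ', Module.End.mul_apply]
  have hz0 : z ≠ 0 := by rw [hz']; exact hmin _ (by omega)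
  have hDz : D z = 0 := by rw [hz', ← Module.End.mul_apply, ← pow_succ']; exact hm0
  have hvz : v * z = z * v := by rw [hD, sub_eq_zero] at hDz; exact hDz
  have hvzi : v * z⁻¹ = z⁻¹ * v := by
    have : Commute v z := hvz
    exact (this.inv_right₀).eq
  have hvu : v * (z⁻¹ * w) - (z⁻¹ * w) * v = 1 := by
    have : v * (z⁻¹ * w) - (z⁻¹ * w) * v = z⁻¹ * (v * w - w * v) := by
      rw [← mul_assoc, hvzi]; noncomm_ring
    rw [this, ← hD, ← hz, inv_mul_cancel₀ hz0]
  obtain ⟨u, hu⟩ : ∃ u, u = z⁻¹ * w := ⟨_, rfl⟩
  rw [← hu] at hvu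
  have hne : v * u ≠ u * v := by
    intro h; rw [h, sub_self] at hvu; exact one_ne_zero hvu.symm
  have hpow : ∀ n : ℕ, v * u ^ n = u ^ n * v + n * u ^ (n - 1) := by
    intro n
    induction n with
    | zero => simp
    | succ n ih =>
      rcases n with _ | n
      · simp; rw [← hvu]; abel
      · have h1 : v * u = u * v + 1 := by rw [← hvu]; abel
        have h2 : n + 1 - 1 = n := rfl
        have h3 : n + 1 + 1 - 1 = n + 1 := rfl
        rw [h2] at ih
        rw [h3, pow_succ, ← mul_assoc, ih, add_mul, mul_assoc, h1, mul_assoc, ← pow_succ]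
        push_cast
        noncomm_ring
  have hup : u ^ p ∈ (algebraMap K A).range := by
    apply H22Div.mem_range_of_comm_two hA hne
    · rw [hpow p, CharP.cast_eq_zero, zero_mul, add_zero]
    · exact pow_mul_comm' u p
  refine ⟨v, u, hvp, hup, hvu, ?_⟩
  exact H22Div.eq_top_of_not_comm hA _ (x := v) (y := u) (Algebra.subset_adjoin (by simp)) (Algebra.subset_adjoin (by simp)) hne

end Groth.Agent.S15169
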