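import Groth.Statements.S15170
-- import your own Groth.Agent.* helpers here
import Groth.Agent.Lib.H22_Div

set_option autoImplicit false
universe u v
open BddFin

namespace Groth.Agent.S15170

/-- (2) ⇒ (3): let K be a field with char K = p > 0 and A a central division K-algebra with dim_K A = p
^ 2. If v, u in A satisfy v ^ p ∈ K, u ^ p ∈ K and v * u - u * v = 1, then some Galois extension L
of K with [L : K] = p admits a K-algebra embedding into A (so A has a Galois subfield of degree p
over K). -/
theorem result
    (K : Type u) [Field K] (p : ℕ) [Fact p.Prime] [CharP K p]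
    (A : Type v) [DivisionRing A] [Algebra K A] [Algebra.IsCentral K A] [FiniteDimensional K A]
    (hA : Module.finrank K A = p ^ 2) (v u : A) (hv : v ^ p ∈ (algebraMap K A).range)
    (hu : u ^ p ∈ (algebraMap K A).range) (hvu : v * u - u * v = 1) :
    ∃ (L : Type v) (_ : Field L) (_ : Algebra K L), IsGalois K L ∧ Module.finrank K L = p ∧
      Nonempty (L →ₐ[K] A) := by
  have hp1 : (1 : A) ≠ 0 := one_ne_zero
  have hv0 : v ≠ 0 := by rintro rfl; simp at hvu
  have hu0 : u ≠ 0 := by rintro rfl; simp at hvu
  have hw : v * (u * v) * v⁻¹ = u * v + 1 := by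
    have h1 : v * u = u * v + 1 := by rw [← hvu]; abel
    rw [← mul_assoc, mul_assoc, mul_inv_cancel₀ hv0, mul_one, h1]
  have hne : u * v + 1 ≠ u * v := by
    intro h; exact hp1 (by simpa using h)
  apply H22Div.exists_galois_of_conj' hA (a := u * v) (b := u * v + 1)
  · rw [mul_add, add_mul, mul_one, one_mul]
  · exact hne
  · rintro ⟨k, hk⟩
    apply hne
    rw [← hw, ← hk, ← Algebra.commutes k v, mul_assoc, mul_inv_cancel₀ hv0, mul_one]
  · rw [← hw, H22Div.aeval_conj _ _ _ hv0, minpoly.aeval]; simp

end Groth.Agent.S15170
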