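import Groth.Statements.S15171
-- import your own Groth.Agent.* helpers here
import Groth.Agent.Lib.H22_Div

set_option autoImplicit false
universe u v w
open BddFin

namespace Groth.Agent.S15171

/-- (3) ⇒ (1): let K be a field with char K = p > 0 and A a central division K-algebra with dim_K A = p
^ 2. If some Galois extension L of K with [L : K] = p admits a K-algebra embedding into A, then some
element of A is not separable over K. -/
theorem result
    (K : Type u) [Field K] (p : ℕ) [Fact p.Prime] [CharP K p]
    (A : Type v) [DivisionRing A] [Algebra K A] [Algebra.IsCentral K A] [FiniteDimensional K A]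
    (hA : Module.finrank K A = p ^ 2) (L : Type w) [Field L] [Algebra K L] [IsGalois K L]
    (hL : Module.finrank K L = p) (ι : L →ₐ[K] A) :
    ∃ v : A, ¬ IsSeparable K v := by
  exact H22Div.exists_insep_of_galois hA L hL ι

end Groth.Agent.S15171
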