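import Groth.Statements.S15172
-- import your own Groth.Agent.* helpers here
import Mathlib

set_option autoImplicit false
universe u v
open Polynomial
open BddFin

namespace Groth.Agent.S15172

/-- Let L be a field of characteristic p > 0 and s a finite subset of L containing 0 and closed under
addition (a finite additive subgroup). Then the polynomial f = ∏_{a ∈ s} (X - a) is additive: f (x +
y) = f x + f y for all x, y in any commutative L-algebra (equivalently, as an identity of
polynomials in two variables). -/
theorem result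
    (L : Type u) [Field L] (p : ℕ) [Fact p.Prime] [CharP L p] (s : Finset L) (h0 : (0 : L) ∈ s)
    (hadd : ∀ a ∈ s, ∀ b ∈ s, a + b ∈ s) (R : Type v) [CommRing R] [Algebra L R] (x y : R) :
    aeval (x + y) (∏ a ∈ s, (X - C a)) = aeval x (∏ a ∈ s, (X - C a)) + aeval y (∏ a ∈ s, (X - C a)) := by
  classical
  have hbij : ∀ a ∈ s, s.image (fun b => b - a) = s := by
    intro a ha
    have h1 : s.image (fun b => b + a) = s := by
      apply Finset.eq_of_subset_of_card_le
      · intro x hx
        rw [Finset.mem_image] at hx
        obtain ⟨b, hb, rfl⟩ := hx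
        exact hadd b hb a ha
      · rw [Finset.card_image_of_injective _ (add_left_injective a)]
    conv_lhs => rw [← h1]
    rw [Finset.image_image]
    convert Finset.image_id using 1
    apply Finset.image_congr
    intro b _
    simp
  obtain ⟨f, hf⟩ : ∃ f : L[X], f = ∏ a ∈ s, (X - C a) := ⟨_, rfl⟩
  have hmon : f.Monic := by rw [hf]; exact monic_prod_of_monic _ _ (fun a _ => monic_X_sub_C a)
  have hdeg : f.natDegree = s.card := by
    rw [hf, natDegree_prod_of_monic _ _ (fun a _ => monic_X_sub_C a)]; simp
  have hf0 : ∀ a ∈ s, f.eval a = 0 := by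
    intro a ha
    rw [hf, eval_prod]
    exact Finset.prod_eq_zero ha (by simp)
  -- F(X) = f(X + Y) - f(X) - f(Y) in L[Y][X]
  obtain ⟨G, hG⟩ : ∃ G : L[X][X], G = (f.map C).comp (X + C X) - f.map C - C f := ⟨_, rfl⟩
  have htrans : ∀ a ∈ s, f.comp (X + C a) = f := by
    intro a ha
    conv_lhs => rw [hf]
    rw [prod_comp]
    have h2 : ∀ b ∈ s, (X - C b : L[X]).comp (X + C a) = X - C (b - a) := by
      intro b _
      simp; ring
    rw [Finset.prod_congr rfl h2, ← Finset.prod_image (g := fun b => b - a) (f := fun b => (X - C b : L[X])), hbij a ha, hf]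
    intro x _ y _ hxy
    exact sub_left_injective hxy
  have hGroot : ∀ a ∈ s, G.eval (C a) = 0 := by
    intro a ha
    rw [hG, eval_sub, eval_sub, eval_comp, eval_C, eval_add, eval_X, eval_C]
    have h3 : (f.map C).eval (C a) = 0 := by
      rw [eval_map, eval₂_at_apply, hf0 a ha, C_0]
    have h4 : (f.map C).eval (C a + X) = f := by
      have : (f.map C).eval (C a + X) = f.comp (C a + X) := by rw [eval_map, comp]
      rw [this, add_comm, htrans a ha]
    rw [h3, h4]; ring
  have hs0 : 0 < s.card := Finset.card_pos.2 ⟨0, h0⟩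
  have hGdeg : G.degree < s.card := by
    rw [hG]
    have hm1 : ((f.map C).comp (X + C X) : L[X][X]).Monic := (hmon.map _).comp_X_add_C _
    have hn1 : ((f.map C).comp (X + C X) : L[X][X]).natDegree = s.card := by
      rw [natDegree_comp, natDegree_X_add_C, mul_one, (hmon.natDegree_map), hdeg]
    have hm2 : (f.map C : L[X][X]).Monic := hmon.map _
    have hn2 : (f.map C : L[X][X]).natDegree = s.card := by rw [hmon.natDegree_map, hdeg]
    have h5 : ((f.map C).comp (X + C X) - f.map C : L[X][X]).degree < s.card := by
      have := degree_sub_lt_left (p := ((f.map C).comp (X + C X) : L[X][X])) (q := f.map C)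
        (by rw [degree_eq_natDegree hm1.ne_zero, degree_eq_natDegree hm2.ne_zero, hn1, hn2]) hm1.ne_zero
        (by rw [hm1.leadingCoeff, hm2.leadingCoeff])
      rwa [degree_eq_natDegree hm1.ne_zero, hn1] at this
    refine lt_of_le_of_lt (degree_sub_le _ _) (max_lt h5 ?_)
    refine lt_of_le_of_lt degree_C_le ?_
    exact_mod_cast hs0
  have hG0 : G = 0 := by
    by_contra hne
    have h6 : s.card ≤ G.roots.toFinset.card := by
      rw [← Finset.card_image_of_injective s (C_injective (R := L))]
      apply Finset.card_le_card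
      intro x hx
      rw [Finset.mem_image] at hx
      obtain ⟨a, ha, rfl⟩ := hx
      rw [Multiset.mem_toFinset, mem_roots hne]
      exact hGroot a ha
    have h7 : G.roots.toFinset.card ≤ G.natDegree := (Multiset.toFinset_card_le _).trans (card_roots' G)
    rw [degree_eq_natDegree hne] at hGdeg
    have : G.natDegree < s.card := by exact_mod_cast hGdeg
    omega
  rw [← hf]
  -- evaluate
  let φ : L[X] →ₐ[L] R := aeval y
  have h8 : eval₂ (φ : L[X] →+* R) x G = 0 := by rw [hG0, eval₂_zero]
  rw [hG, eval₂_sub, eval₂_sub, eval₂_comp, eval₂_C, eval₂_add, eval₂_X, eval₂_C, eval₂_map, eval₂_map] at h8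
  have h9 : (φ : L[X] →+* R).comp C = algebraMap L R := by
    ext r; simp [φ]
  rw [h9] at h8
  have h10 : (φ : L[X] →+* R) X = y := by simp [φ]
  rw [h10] at h8
  rw [aeval_def, aeval_def, aeval_def]
  have h11 : (φ : L[X] →+* R) f = eval₂ (algebraMap L R) y f := by simp [φ, aeval_def]
  rw [h11, sub_sub, sub_eq_zero] at h8
  exact h8

end Groth.Agent.S15172
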