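import Groth.Statements.S15184
-- import your own Groth.Agent.* helpers here
import Groth.Agent.Lib.H22_Div

set_option autoImplicit false
universe u v
open BddFin

namespace Groth.Agent.S15184

/-- Let K be a field with char K = p > 0 and A a central division K-algebra with dim_K A = p ^ 2. If p =
2 or p = 3, then some element of A is not separable over K. -/
theorem result
    (K : Type u) [Field K] (p : ℕ) [Fact p.Prime] [CharP K p]
    (A : Type v) [DivisionRing A] [Algebra K A] [Algebra.IsCentral K A] [FiniteDimensional K A]
    (hA : Module.finrank K A = p ^ 2) (hp : p = 2 ∨ p = 3) :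
    ∃ v : A, ¬ IsSeparable K v := by
  rcases hp with hp | hp
  · exact H22Div.insep_deg_two hA hp
  · exact H22Div.insep_deg_three hA hp

end Groth.Agent.S15184
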