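import Groth.Statements.S15224
import Mathlib.Tactic

set_option autoImplicit false
open Finset
open W4c2rk2extmaps

namespace Groth.Agent.S15224

/-- In a commutative ℚ-algebra R let y be an element and put c_k = y^k / k! for every k. Then for k ≥ 2,
Σ_{i=1}^{k-1} (-1)^(i-1) c_i c_(k-i) + (-1)^(k-1) c_k = c_k. (The published statement concerns the
Chern classes of a specific vector bundle on a Jacobian, which are of the form c_k = (4θ)^k / k!;
the printed argument establishes the identity for every sequence of this form in a commutative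
ℚ-algebra, which is the form stated here.) -/
theorem result (R : Type*) [CommRing R] [Algebra ℚ R] (y : R)
    (c : ℕ → R) (hc : ∀ k : ℕ, c k = ((Nat.factorial k : ℚ)⁻¹) • y ^ k)
    (k : ℕ) (hk : 2 ≤ k) :
    (∑ i ∈ Finset.Ico 1 k, (-1 : R) ^ (i - 1) * c i * c (k - i)) + (-1 : R) ^ (k - 1) * c k = c k := by
  have hcc : ∀ i ≤ k, c i * c (k - i) = (k.choose i : R) * c k := by
    intro i hi
    rw [hc, hc, hc, smul_mul_smul_comm, ← pow_add, Nat.add_sub_cancel' hi, mul_smul_comm]
    rw [show (k.choose i : R) * y ^ k = (k.choose i : ℚ) • y ^ k by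
      rw [Algebra.smul_def]; simp]
    rw [smul_smul]
    congr 1
    rw [Nat.choose_eq_factorial_div_factorial hi, Nat.cast_div (Nat.factorial_mul_factorial_dvd_factorial hi)
      (by positivity)]
    have h1 : (k.factorial : ℚ) ≠ 0 := by positivity
    have h2 : (i.factorial : ℚ) ≠ 0 := by positivity
    have h3 : ((k - i).factorial : ℚ) ≠ 0 := by positivity
    push_cast
    field_simp
  have h1 : ∀ i ∈ Finset.Ico 1 k, (-1 : R) ^ (i - 1) * c i * c (k - i) =
      -((-1 : R) ^ i * (k.choose i : R)) * c k := by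
    intro i hi
    rw [Finset.mem_Ico] at hi
    rw [mul_assoc, hcc i hi.2.le]
    obtain ⟨j, rfl⟩ : ∃ j, i = j + 1 := ⟨i - 1, by omega⟩
    rw [Nat.add_sub_cancel, pow_succ]
    ring
  rw [Finset.sum_congr rfl h1, ← Finset.sum_mul, Finset.sum_neg_distrib]
  have h2 : ∑ i ∈ Finset.range (k + 1), (-1 : R) ^ i * (k.choose i : R) = 0 := by
    have := Int.alternating_sum_range_choose_of_ne (n := k) (by omega)
    have h3 := congrArg (Int.cast : ℤ → R) this
    push_cast at h3
    exact h3
  rw [Finset.sum_range_succ, Finset.range_eq_Ico, Finset.sum_eq_sum_Ico_succ_bot (by omega)] at h2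
  simp only [pow_zero, Nat.choose_zero_right, Nat.cast_one, mul_one, Nat.choose_self] at h2
  rw [zero_add] at h2
  obtain ⟨j, rfl⟩ : ∃ j, k = j + 1 := ⟨k - 1, by omega⟩
  rw [Nat.add_sub_cancel]
  rw [pow_succ] at h2
  linear_combination (-(c (j + 1))) * h2

end Groth.Agent.S15224
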