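import Groth.Statements.S15229
import Mathlib.Tactic

set_option autoImplicit false
open Finset
open W4c2rk2extmaps

namespace Groth.Agent.S15229

theorem aux (R : Type*) [CommRing R] [Algebra ℚ R] (y : R)
    (c : ℕ → R) (hc : ∀ k : ℕ, c k = ((Nat.factorial k : ℚ)⁻¹) • y ^ k)
    (k : ℕ) (hk : 2 ≤ k) :
    (∑ i ∈ Finset.Ico 1 k, (-1 : R) ^ (i - 1) * c i * c (k - i)) + (-1 : R) ^ (k - 1) * c k = c k := by
  have hcc : ∀ i ≤ k, c i * c (k - i) = (k.choose i : R) * c k := by
    intro i hi
    rw [hc, hc, hc, smul_mul_smul_comm, ← pow_add, Nat.add_sub_cancel' hi, mul_smul_comm]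
    rw [show (k.choose i : R) * y ^ k = (k.choose i : ℚ) • y ^ k by
      rw [Algebra.smul_def]; simp]
    rw [smul_smul]
    congr 1
    rw [Nat.choose_eq_factorial_div_factorial hi, Nat.cast_div (Nat.factorial_mul_factorial_dvd_factorial hi)
      (by positivity)]
    have h1 : (k.factorial : ℚ) ≠ 0 := by positivity
    have h2 : (i.factorial : ℚ) ≠ 0 := by positivity
    have h3 : ((k - i).factorial : ℚ) ≠ 0 := by positivity
    push_cast
    field_simp
  have h1 : ∀ i ∈ Finset.Ico 1 k, (-1 : R) ^ (i - 1) * c i * c (k - i) =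
      -((-1 : R) ^ i * (k.choose i : R)) * c k := by
    intro i hi
    rw [Finset.mem_Ico] at hi
    rw [mul_assoc, hcc i hi.2.le]
    obtain ⟨j, rfl⟩ : ∃ j, i = j + 1 := ⟨i - 1, by omega⟩
    rw [Nat.add_sub_cancel, pow_succ]
    ring
  rw [Finset.sum_congr rfl h1, ← Finset.sum_mul, Finset.sum_neg_distrib]
  have h2 : ∑ i ∈ Finset.range (k + 1), (-1 : R) ^ i * (k.choose i : R) = 0 := by
    have := Int.alternating_sum_range_choose_of_ne (n := k) (by omega)
    have h3 := congrArg (Int.cast : ℤ → R) this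
    push_cast at h3
    exact h3
  rw [Finset.sum_range_succ, Finset.range_eq_Ico, Finset.sum_eq_sum_Ico_succ_bot (by omega)] at h2
  simp only [pow_zero, Nat.choose_zero_right, Nat.cast_one, mul_one, Nat.choose_self] at h2
  rw [zero_add] at h2
  obtain ⟨j, rfl⟩ : ∃ j, k = j + 1 := ⟨k - 1, by omega⟩
  rw [Nat.add_sub_cancel]
  rw [pow_succ] at h2
  linear_combination (-(c (j + 1))) * h2

/-- In a commutative ℚ-algebra R let θ, η be elements and g a natural number, and put c_k = (4θ)^k / k!.
Suppose θ^(g+1) = 0 and that η satisfies the relation η^(g+1) = Σ_{i=1}^{g+1} (-1)^(i-1) c_i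
η^(g+1-i). Then η^(g+k) θ^(g-k) = c_k η^g θ^(g-k) for every 1 ≤ k ≤ g. (The published statement
concerns the first Chern class η of the tautological line bundle on a projective bundle P(U) over a
g-dimensional Jacobian, with c_k the Chern classes of U, which are (4θ)^k / k!; there θ^(g+1)
vanishes for dimension reasons and the displayed relation is the projective-bundle relation, and the
printed argument derives the identity from exactly these three inputs, which is the form stated
here.) -/
theorem result (R : Type*) [CommRing R] [Algebra ℚ R]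
    (θ η : R) (g : ℕ) (c : ℕ → R) (hc : ∀ k : ℕ, c k = ((Nat.factorial k : ℚ)⁻¹) • ((4 : R) * θ) ^ k)
    (hθ : θ ^ (g + 1) = 0)
    (hrel : η ^ (g + 1) = ∑ i ∈ Finset.Ico 1 (g + 2), (-1 : R) ^ (i - 1) * c i * η ^ (g + 1 - i))
    (k : ℕ) (hk1 : 1 ≤ k) (hkg : k ≤ g) :
    η ^ (g + k) * θ ^ (g - k) = c k * η ^ g * θ ^ (g - k) := by
  have hc0 : c 0 = 1 := by rw [hc]; simp
  induction k using Nat.strong_induction_on with
  | _ k ih =>
    have e1 : η ^ (g + k) = η ^ (k - 1) * η ^ (g + 1) := by
      rw [← pow_add]; congr 1; omega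
    rw [e1, hrel, Finset.mul_sum, Finset.sum_mul]
    have hterm : ∀ i ∈ Finset.Ico 1 (g + 2), η ^ (k - 1) * ((-1 : R) ^ (i - 1) * c i * η ^ (g + 1 - i)) * θ ^ (g - k) =
        if i < k then ((-1 : R) ^ (i - 1) * c i * c (k - i)) * (η ^ g * θ ^ (g - k))
        else if i = k then ((-1 : R) ^ (k - 1) * c k) * (η ^ g * θ ^ (g - k)) else 0 := by
      intro i hi
      rw [Finset.mem_Ico] at hi
      have hci : c i = (algebraMap ℚ R ((Nat.factorial i : ℚ)⁻¹) * 4 ^ i) * θ ^ i := by
        rw [hc, mul_pow, Algebra.smul_def, mul_assoc]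
      split_ifs with h1 h2
      · have h3 := ih (k - i) (by omega) (by omega) (by omega)
        have e2 : g - (k - i) = (g - k) + i := by omega
        have e3 : g + (k - i) = (k - 1) + (g + 1 - i) := by omega
        rw [e2, e3, pow_add, pow_add] at h3
        rw [hci]
        linear_combination ((-1 : R) ^ (i - 1) * (algebraMap ℚ R ((Nat.factorial i : ℚ)⁻¹) * 4 ^ i)) * h3
      · subst h2
        have e4 : η ^ g = η ^ (i - 1) * η ^ (g + 1 - i) := by
          rw [← pow_add]; congr 1; omega
        rw [e4]; ring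
      · have e5 : θ ^ (g - k) * θ ^ i = 0 := by
          rw [← pow_add]
          exact pow_eq_zero_of_le (by omega) hθ
        rw [hci]
        linear_combination (η ^ (k - 1) * ((-1) ^ (i - 1) * η ^ (g + 1 - i)) * (algebraMap ℚ R ((Nat.factorial i : ℚ)⁻¹) * 4 ^ i)) * e5
    rw [Finset.sum_congr rfl hterm]
    have hsplit : Finset.Ico 1 (g + 2) = Finset.Ico 1 k ∪ ({k} ∪ Finset.Ico (k + 1) (g + 2)) := by
      ext i; simp only [Finset.mem_Ico, Finset.mem_union, Finset.mem_singleton]; omega
    have hs1 : ∑ i ∈ Finset.Ico 1 k, (if i < k then ((-1 : R) ^ (i - 1) * c i * c (k - i)) * (η ^ g * θ ^ (g - k))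
        else if i = k then ((-1 : R) ^ (k - 1) * c k) * (η ^ g * θ ^ (g - k)) else 0) =
        ∑ i ∈ Finset.Ico 1 k, ((-1 : R) ^ (i - 1) * c i * c (k - i)) * (η ^ g * θ ^ (g - k)) := by
      refine Finset.sum_congr rfl ?_
      intro i hi
      rw [Finset.mem_Ico] at hi
      rw [if_pos hi.2]
    have hs2 : ∑ i ∈ Finset.Ico (k + 1) (g + 2), (if i < k then ((-1 : R) ^ (i - 1) * c i * c (k - i)) * (η ^ g * θ ^ (g - k))
        else if i = k then ((-1 : R) ^ (k - 1) * c k) * (η ^ g * θ ^ (g - k)) else 0) = 0 := by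
      apply Finset.sum_eq_zero
      intro i hi
      rw [Finset.mem_Ico] at hi
      rw [if_neg (by omega), if_neg (by omega)]
    rw [hsplit, Finset.sum_union, Finset.sum_union]
    · rw [Finset.sum_singleton, hs1, hs2]
      rw [if_neg (lt_irrefl k), if_pos rfl, add_zero, ← Finset.sum_mul, ← add_mul]
      by_cases hk2 : 2 ≤ k
      · rw [aux R (4 * θ) c hc k hk2]
        ring
      · have : k = 1 := by omega
        subst this
        simp
        ring
    · rw [Finset.disjoint_left]
      intro i hi hi2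
      rw [Finset.mem_singleton] at hi
      rw [Finset.mem_Ico] at hi2
      omega
    · rw [Finset.disjoint_left]
      intro i hi hi2
      rw [Finset.mem_Ico] at hi
      rw [Finset.mem_union, Finset.mem_singleton, Finset.mem_Ico] at hi2
      omega

end Groth.Agent.S15229
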