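import Groth.Statements.S15490
import Mathlib.Tactic
import Mathlib.Algebra.MonoidAlgebra.Basic

set_option autoImplicit false
universe u
open IsoNat

namespace Groth.Agent.S15490

/-- Let f : G → G' be a group homomorphism, A a commutative ring and α an element of the regular
representation of G over A (a finitely supported function G → A). If the pushforward β = f_*α
(summing coefficients along f) is nonzero and is an eigenvector for the translation action of an
element g' of G' — β(g'⁻¹ k) = l β(k) for all k and some scalar l — then g' lies in the image of f.
(The published statement asks only α ≠ 0; when f is not injective the pushforward of a nonzero α can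
vanish, and the zero vector lies in every eigen-submodule, so the hypothesis is placed on f_*α,
which is how the result is used.) -/
theorem result
    {G G' : Type u} [Group G] [Group G'] (f : G →* G')
    (A : Type u) [CommRing A] (α : G →₀ A) (g' : G') (l : A)
    (hne : Finsupp.mapDomain f α ≠ 0)
    (he : ∀ k : G', Finsupp.mapDomain f α (g'⁻¹ * k) = l * Finsupp.mapDomain f α k) :
    g' ∈ f.range := by
  classical
  have hsupp : ∀ k : G', Finsupp.mapDomain f α k ≠ 0 → k ∈ f.range := by
    intro k hk
    have h1 : k ∈ (Finsupp.mapDomain f α).support := Finsupp.mem_support_iff.mpr hk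
    have h2 := Finsupp.mapDomain_support h1
    rw [Finset.mem_image] at h2
    obtain ⟨g, _, hg⟩ := h2
    exact ⟨g, hg⟩
  obtain ⟨k, hk⟩ := Finsupp.ne_iff.mp hne
  simp only [Finsupp.coe_zero, Pi.zero_apply] at hk
  have h1 := he (g' * k)
  rw [inv_mul_cancel_left] at h1
  have h2 : Finsupp.mapDomain f α (g' * k) ≠ 0 := by
    intro h
    rw [h, mul_zero] at h1
    exact hk h1
  have h3 := hsupp _ h2
  have h4 := hsupp _ hk
  have h5 := f.range.mul_mem h3 (f.range.inv_mem h4)
  rwa [mul_inv_cancel_right] at h5

end Groth.Agent.S15490
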