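import Groth.Statements.S15495
import Mathlib.Tactic
import Mathlib.RingTheory.Artinian.Ring
import Mathlib.RingTheory.Artinian.Module
import Mathlib.RingTheory.LocalRing.ResidueField.Basic

set_option autoImplicit false
universe u
open CAlg

namespace Groth.Agent.S15495

/-- In an Artinian local ring R whose maximal ideal m contains the prime number p, the multiplicative
group 1 + m is annihilated under some power of p: there is n with (1 + x)^(p^n) = 1 for every x in
m. (The published text makes this assertion inside a proof, for Artinian local algebras over the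
Witt ring of a perfect field of characteristic p; only p ∈ m and the nilpotence of m are used.) -/
theorem result
    (R : Type u) [CommRing R] [IsLocalRing R] [IsArtinianRing R]
    (p : ℕ) (hp : p.Prime) (hpm : (p : R) ∈ IsLocalRing.maximalIdeal R) :
    ∃ n : ℕ, ∀ x ∈ IsLocalRing.maximalIdeal R, (1 + x) ^ (p ^ n) = 1 := by
  obtain ⟨N, hN⟩ : ∃ N, (IsLocalRing.maximalIdeal R) ^ N = ⊥ := by
    have h := IsArtinianRing.isNilpotent_jacobson_bot (R := R)
    rw [IsLocalRing.jacobson_eq_maximalIdeal ⊥ bot_ne_top] at h
    obtain ⟨N, hN⟩ := h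
    exact ⟨N, hN⟩
  have key : ∀ j : ℕ, ∀ x ∈ IsLocalRing.maximalIdeal R,
      (1 + x) ^ (p ^ j) - 1 ∈ (IsLocalRing.maximalIdeal R) ^ (j + 1) := by
    intro j
    induction j with
    | zero => intro x hx; simpa using hx
    | succ j ih =>
      intro x hx
      have h1 := ih x hx
      set y := (1 + x) ^ (p ^ j) - 1 with hy
      have h2 : (1 + x) ^ (p ^ (j + 1)) = (1 + y) ^ p := by
        rw [hy, add_sub_cancel, ← pow_mul, pow_succ]
      rw [h2]
      obtain ⟨z, hz⟩ : ∃ z, (1 + y) ^ p = 1 + p * y + y ^ 2 * z := by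
        obtain ⟨z, hz⟩ := Polynomial.binomExpansion ((Polynomial.X : Polynomial R) ^ p) 1 y
        refine ⟨z, ?_⟩
        simp only [Polynomial.eval_pow, Polynomial.eval_X, Polynomial.derivative_X_pow, Polynomial.eval_mul,
          Polynomial.eval_natCast, one_pow, mul_one, Polynomial.eval_C, Polynomial.C_eq_natCast] at hz
        rw [hz]
        ring
      rw [hz]
      have h3 : 1 + (p : R) * y + y ^ 2 * z - 1 = p * y + y ^ 2 * z := by ring
      rw [h3]
      apply Ideal.add_mem
      · rw [pow_succ, mul_comm (p : R) y]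
        exact Ideal.mul_mem_mul h1 hpm
      · have h4 : y ^ 2 ∈ (IsLocalRing.maximalIdeal R) ^ (j + 1 + 1) := by
          have h5 : y ^ 2 ∈ ((IsLocalRing.maximalIdeal R) ^ (j + 1)) ^ 2 := Ideal.pow_mem_pow h1 2
          rw [← pow_mul] at h5
          exact Ideal.pow_le_pow_right (by omega) h5
        exact Ideal.mul_mem_right _ _ h4
  refine ⟨N, fun x hx => ?_⟩
  have h1 := Ideal.pow_le_pow_right (Nat.le_succ N) (key N x hx)
  rw [hN] at h1
  exact sub_eq_zero.mp ((Submodule.mem_bot R).mp h1)

end Groth.Agent.S15495
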