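import Groth.Statements.S15496
import Mathlib.Tactic
import Mathlib.RingTheory.LocalRing.ResidueField.Basic
import Mathlib.Algebra.CharP.Basic
import Mathlib.Algebra.CharP.Lemmas
import Mathlib.Algebra.CharP.Reduced

set_option autoImplicit false
universe u
open CAlg

namespace Groth.Agent.S15496

/-- Let R be a local ring with maximal ideal m, p a prime number lying in m, and suppose the residue
field of R is perfect, i.e. every element is a p-th power; let n ≥ 0. Then every unit of R is the
product of a p^n-th power of a unit and an element of 1 + m, and an element of 1 + m which is a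
p^n-th power of a unit is a p^n-th power of an element of 1 + m; so the inclusion of 1 + m in the
unit group induces a bijection between (1 + m)/(1 + m)^(p^n) and Rˣ/(Rˣ)^(p^n). (The published text
derives this equality of quotients, inside a proof, from perfectness of the base field K for all
Artinian local algebras over its Witt ring, whose residue fields need not be perfect; this row
assumes the residue field of R perfect of characteristic p, which the equality needs, and does not
assume R Artinian.) -/
theorem result
    (R : Type u) [CommRing R] [IsLocalRing R] (p : ℕ) (hp : p.Prime)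
    (hpm : (p : R) ∈ IsLocalRing.maximalIdeal R)
    (hperf : ∀ a : IsLocalRing.ResidueField R, ∃ b : IsLocalRing.ResidueField R, b ^ p = a)
    (n : ℕ) :
    (∀ u : Rˣ, ∃ v : Rˣ, ∃ x ∈ IsLocalRing.maximalIdeal R, (u : R) = (v : R) ^ (p ^ n) * (1 + x)) ∧
    (∀ x ∈ IsLocalRing.maximalIdeal R, (∃ v : Rˣ, (v : R) ^ (p ^ n) = 1 + x) →
      ∃ y ∈ IsLocalRing.maximalIdeal R, (1 + y) ^ (p ^ n) = 1 + x) := by
  have hp0 : p ≠ 0 := hp.ne_zero
  have hchar : CharP (IsLocalRing.ResidueField R) p := by
    have h1 : ((p : ℕ) : IsLocalRing.ResidueField R) = 0 := by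
      have := (IsLocalRing.residue_eq_zero_iff (p : R)).mpr hpm
      simpa using this
    exact (CharP.charP_iff_prime_eq_zero hp).mpr h1
  haveI : Fact p.Prime := ⟨hp⟩
  have hroot : ∀ (n : ℕ) (a : IsLocalRing.ResidueField R), ∃ b : IsLocalRing.ResidueField R, b ^ (p ^ n) = a := by
    intro n
    induction n with
    | zero => intro a; exact ⟨a, by simp⟩
    | succ n ih =>
      intro a
      obtain ⟨b, hb⟩ := hperf a
      obtain ⟨c, hc⟩ := ih b
      exact ⟨c, by rw [pow_succ, pow_mul, hc, hb]⟩
  constructor
  · intro u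
    obtain ⟨b, hb⟩ := hroot n (IsLocalRing.residue R u)
    obtain ⟨v, hv⟩ := IsLocalRing.residue_surjective b
    have hu0 : IsLocalRing.residue R (u : R) ≠ 0 := by
      intro h
      rw [IsLocalRing.residue_eq_zero_iff] at h
      exact (IsLocalRing.mem_maximalIdeal _).mp h u.isUnit
    have hvu : IsUnit v := by
      by_contra h
      have h2 : v ∈ IsLocalRing.maximalIdeal R := (IsLocalRing.mem_maximalIdeal _).mpr h
      have h3 := (IsLocalRing.residue_eq_zero_iff v).mpr h2
      rw [hv] at h3
      rw [h3, zero_pow (pow_ne_zero _ hp0)] at hb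
      exact hu0 hb.symm
    obtain ⟨v', rfl⟩ := hvu
    refine ⟨v', ((v' ^ (p ^ n))⁻¹ : Rˣ) * u - 1, ?_, ?_⟩
    · rw [← IsLocalRing.residue_eq_zero_iff, map_sub, map_mul, map_one, sub_eq_zero]
      have h4 : IsLocalRing.residue R (((v' ^ (p ^ n))⁻¹ : Rˣ) : R) * IsLocalRing.residue R ((v' : R) ^ (p ^ n)) = 1 := by
        rw [← map_mul, ← Units.val_pow_eq_pow_val, Units.inv_mul, map_one]
      rw [map_pow, hv, hb] at h4
      exact h4
    · rw [add_sub_cancel, ← Units.val_pow_eq_pow_val, ← mul_assoc, Units.mul_inv, one_mul]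
  · rintro x hx ⟨v, hv⟩
    have h1 : (IsLocalRing.residue R (v : R)) ^ (p ^ n) = 1 := by
      rw [← map_pow, hv, map_add, map_one, (IsLocalRing.residue_eq_zero_iff x).mpr hx, add_zero]
    have h2 : IsLocalRing.residue R (v : R) = 1 := by
      have h3 : (IsLocalRing.residue R (v : R) - 1) ^ (p ^ n) = 0 := by
        rw [sub_pow_char_pow, h1, one_pow, sub_self]
      have h4 := pow_eq_zero_iff (pow_ne_zero n hp0) |>.mp h3
      exact sub_eq_zero.mp h4
    refine ⟨(v : R) - 1, ?_, ?_⟩
    · rw [← IsLocalRing.residue_eq_zero_iff, map_sub, map_one, h2, sub_self]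
    · rw [add_sub_cancel, hv]

end Groth.Agent.S15496
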