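import Groth.Statements.S15497
import Mathlib.Tactic

set_option autoImplicit false
universe u v
open Dieud

namespace Groth.Agent.S15497

/-- Let W be a commutative ring, p ∈ W, m, n natural numbers with h = m + n, M a W-module and e_0, e_1,
… vectors of M with e_{i+h} = p e_i for all i ≥ 0, and let φ be a W-linear endomorphism of M with
φ(e_i) = e_{i+m} for 0 ≤ i < h. Then φ^h(e_i) = p^m e_i for every i ≥ 0; so when e_0, …, e_{h−1} is
a basis, φ^h = p^m · id. (The published text asserts φ^h = p^m · id for the free module with basis
e_0, …, e_{h−1} over the Witt ring of a perfect field, with p the residue characteristic; only the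
stated relations are used.) -/
theorem result
    (W : Type u) [CommRing W] (p : W) (m n : ℕ)
    (M : Type v) [AddCommGroup M] [Module W M] (e : ℕ → M)
    (he : ∀ i : ℕ, e (i + (m + n)) = p • e i)
    (φ : M →ₗ[W] M) (hφ : ∀ i : ℕ, i < m + n → φ (e i) = e (i + m)) (i : ℕ) :
    (φ ^ (m + n)) (e i) = p ^ m • e i := by
  rcases Nat.eq_zero_or_pos (m + n) with h0 | hpos
  · have hm : m = 0 := by omega
    subst hm
    simp [h0]
  have key : ∀ i : ℕ, φ (e i) = e (i + m) := by
    intro i
    induction i using Nat.strong_induction_on with
    | _ i ih =>
      by_cases hi : i < m + n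
      · exact hφ i hi
      · push Not at hi
        obtain ⟨j, rfl⟩ := Nat.exists_eq_add_of_le hi
        rw [add_comm (m + n) j, he j, map_smul, ih j (by omega), ← he]
        congr 1
        ring
  have key2 : ∀ k i : ℕ, (φ ^ k) (e i) = e (i + k * m) := by
    intro k
    induction k with
    | zero => intro i; simp
    | succ k ih =>
      intro i
      rw [pow_succ, Module.End.mul_apply, key, ih]
      congr 1
      ring
  have key3 : ∀ k i : ℕ, e (i + k * (m + n)) = p ^ k • e i := by
    intro k
    induction k with
    | zero => intro i; simp
    | succ k ih =>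
      intro i
      have : i + (k + 1) * (m + n) = (i + k * (m + n)) + (m + n) := by ring
      rw [this, he, ih, smul_smul, pow_succ, mul_comm]
  rw [key2, mul_comm, key3]

end Groth.Agent.S15497
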