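import Groth.Statements.S15542
import Groth.Agent.Lib.H5_ProConsT

set_option autoImplicit false
open CategoryTheory AlgebraicGeometry
universe u
open ProCons

namespace Groth.Agent.S15542

/-- The pro-constructible case. Let f : X ⟶ Y be any morphism of schemes and T a pro-constructible
subset of Y (locally on Y an intersection of locally constructible subsets). Then the preimage of T
under f is pro-constructible in X. -/
theorem result {X Y : Scheme.{u}} (f : X ⟶ Y) (T : Set Y)
    (hT : ProCons.IsProConstructible T) :
    ProCons.IsProConstructible (f.base ⁻¹' T) := by
  exact Groth.Agent.H5PC.pro_preimage f T hT

end Groth.Agent.S15542
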