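import Groth.Statements.S15543
import Groth.Agent.Lib.H5_ProConsT

set_option autoImplicit false
open CategoryTheory AlgebraicGeometry
universe u
open ProCons

namespace Groth.Agent.S15543

/-- The ind-constructible case. Let f : X ⟶ Y be any morphism of schemes and T an ind-constructible
subset of Y (locally on Y a union of locally constructible subsets). Then the preimage of T under f
is ind-constructible in X. -/
theorem result {X Y : Scheme.{u}} (f : X ⟶ Y) (T : Set Y)
    (hT : ProCons.IsIndConstructible T) :
    ProCons.IsIndConstructible (f.base ⁻¹' T) := by
  exact Groth.Agent.H5PC.ind_preimage f T hT

end Groth.Agent.S15543
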