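import Groth.Statements.S15545
import Groth.Agent.Lib.H5_ProConsT

set_option autoImplicit false
open CategoryTheory AlgebraicGeometry
universe u
open FDesc

namespace Groth.Agent.S15545

/-- Let f : X' ⟶ X be flat, quasi-compact and surjective, and Z a pro-constructible subset of X (locally
on X an intersection of locally constructible subsets) which is dense in X. Then the preimage of Z
under f is dense in X'. -/
theorem result {X' X : Scheme.{u}} (f : X' ⟶ X)
    [Flat f] [QuasiCompact f] [Surjective f] (Z : Set X) (hZ : ProCons.IsProConstructible Z)
    (hd : Dense Z) : Dense (f.base ⁻¹' Z) := by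
  exact Groth.Agent.H5PC.dense_preimage f Z hZ hd

end Groth.Agent.S15545
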