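import Groth.Statements.S15557
import Mathlib.CategoryTheory.Triangulated.Pretriangulated

set_option autoImplicit false
universe v u
open CategoryTheory
open CohDer

namespace Groth.Agent.S15557

open CategoryTheory.Limits

open CategoryTheory.Pretriangulated in
/-- Let T = (X, Y, Z) and T' = (X', Y', Z') be distinguished triangles in a pretriangulated category and
assume that every morphism X → Z' and every morphism X → Z'[-1] is zero. Then composing with the
first map X' → Y' of T' is a bijection Hom(X, X') → Hom(X, Y'), and composing with the second map Y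
→ Z of T is a bijection Hom(Z, Z') → Hom(Y, Z'). (The published lemma is for triangulated
categories; the octahedral axiom plays no role.) -/
theorem result {D : Type u} [Category.{v} D] [Preadditive D]
    [Limits.HasZeroObject D] [HasShift D ℤ] [∀ n : ℤ, (shiftFunctor D n).Additive] [Pretriangulated D]
    (T T' : Triangle D) (hT : T ∈ distinguishedTriangles) (hT' : T' ∈ distinguishedTriangles)
    (hXZ : ∀ u : T.obj₁ ⟶ T'.obj₃, u = 0)
    (hXZ' : ∀ u : T.obj₁ ⟶ (shiftFunctor D (-1 : ℤ)).obj T'.obj₃, u = 0) :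
    Function.Bijective (fun u : T.obj₁ ⟶ T'.obj₁ => u ≫ T'.mor₁) ∧
      Function.Bijective (fun w : T.obj₃ ⟶ T'.obj₃ => T.mor₂ ≫ w) := by
  have hrot : ∀ u : (shiftFunctor D (1 : ℤ)).obj T.obj₁ ⟶ T'.obj₃, u = 0 := by
    intro u
    let adj := (shiftEquiv D (1 : ℤ)).toAdjunction
    have h := hXZ' ((adj.homEquiv _ _) u)
    have h2 : (adj.homEquiv T.obj₁ T'.obj₃).symm ((adj.homEquiv _ _) u) = (adj.homEquiv _ _).symm 0 :=
      congrArg _ h
    have h3 : (adj.homEquiv T.obj₁ T'.obj₃).symm ((adj.homEquiv _ _) u) = u := Equiv.symm_apply_apply _ _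
    rw [h3] at h2
    rw [h2, Adjunction.homEquiv_counit]
    erw [Functor.map_zero, zero_comp]
    rfl
  refine ⟨⟨?_, ?_⟩, ⟨?_, ?_⟩⟩
  · intro u u' h
    rw [← sub_eq_zero]
    have h0 : (u - u') ≫ T'.mor₁ = 0 := by rw [Preadditive.sub_comp, sub_eq_zero]; exact h
    obtain ⟨w, hw⟩ := Triangle.coyoneda_exact₂ _ (inv_rot_of_distTriang _ hT') (u - u') h0
    have : w = 0 := hXZ' w
    rw [hw, this]
    exact zero_comp
  · intro v
    obtain ⟨w, hw⟩ := Triangle.coyoneda_exact₂ _ hT' v (hXZ _)
    exact ⟨w, hw.symm⟩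
  · intro w w' h
    rw [← sub_eq_zero]
    have h0 : T.mor₂ ≫ (w - w') = 0 := by rw [Preadditive.comp_sub, sub_eq_zero]; exact h
    obtain ⟨z, hz⟩ := Triangle.yoneda_exact₃ _ hT (w - w') h0
    rw [hz, hrot z, comp_zero]
  · intro v
    obtain ⟨w, hw⟩ := Triangle.yoneda_exact₂ _ hT v (hXZ _)
    exact ⟨w, hw.symm⟩


end Groth.Agent.S15557
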