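import Groth.Statements.S15560
import Mathlib.Tactic
import Groth.Agent.Lib.H23_Kron2

set_option autoImplicit false
universe u v w
open KronMod

namespace Groth.Agent.S15560

/-- Let f be a Kronecker module with n arrows over a field K, from a space V of dimension d₋₁ > 0 to a
space W of dimension d₀ > 0. If n·d₋₁ < d₀ or n·d₀ < d₋₁, then f is not semistable; that is, there
are no semistable Kronecker modules of dimension vector (d₋₁, d₀). (The published statement assumes
K algebraically closed of characteristic zero and n ≥ 2; this row allows any field K and any number
n of arrows.) -/
theorem result (K : Type u) [Field K] (V : Type v) (W : Type w)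
    [AddCommGroup V] [Module K V] [FiniteDimensional K V]
    [AddCommGroup W] [Module K W] [FiniteDimensional K W]
    (n : ℕ) (f : Fin n → (V →ₗ[K] W))
    (hV : 0 < Module.finrank K V) (hW : 0 < Module.finrank K W)
    (h : n * Module.finrank K V < Module.finrank K W ∨ n * Module.finrank K W < Module.finrank K V) :
    ¬ KronMod.IsSemistable f := by
  exact Groth.Agent.H23Kron.s60 f hV hW h

end Groth.Agent.S15560
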