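import Groth.Statements.S15562
import Mathlib.Tactic
import Groth.Agent.Lib.H23_Kron2

set_option autoImplicit false
universe u v w
open KronMod

namespace Groth.Agent.S15562

/-- Over a field K, for V of dimension d₋₁ > 0 and W of dimension n·d₋₁, semistable Kronecker modules
with n arrows from V to W exist, and any two of them are isomorphic as Kronecker modules; in other
words the moduli space K(n; d₋₁, n·d₋₁) of semistable Kronecker modules is a single point. (The
published statement assumes K algebraically closed of characteristic zero and n ≥ 2; this row allows
any field K and any number n of arrows.) -/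
theorem result (K : Type u) [Field K] (V : Type v) (W : Type w)
    [AddCommGroup V] [Module K V] [FiniteDimensional K V]
    [AddCommGroup W] [Module K W] [FiniteDimensional K W]
    (n : ℕ) (hV : 0 < Module.finrank K V) (hW : Module.finrank K W = n * Module.finrank K V) :
    (∃ f : Fin n → (V →ₗ[K] W), KronMod.IsSemistable f) ∧
    ∀ f f' : Fin n → (V →ₗ[K] W), KronMod.IsSemistable f → KronMod.IsSemistable f' →
      KronMod.AreIso f f' := by
  exact Groth.Agent.H23Kron.s62 n hV hW

end Groth.Agent.S15562
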