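import Groth.Statements.S15563
import Mathlib.Tactic
import Groth.Agent.Lib.H23_Kron2

set_option autoImplicit false
universe u v w
open KronMod

namespace Groth.Agent.S15563

/-- Let f be a Kronecker module with n arrows over a field K, from V of dimension d₋₁ > 0 to W of
dimension n·d₋₁. Then f is stable if and only if f is semistable and d₋₁ = 1: for d₋₁ = 1 every
semistable module is stable (so the stable locus of K(n; 1, n) is the one point), while for d₋₁ > 1
no module is stable. (The published statement assumes K algebraically closed of characteristic zero
and n ≥ 2; this row allows any field K and any number n of arrows.) -/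
theorem result (K : Type u) [Field K] (V : Type v) (W : Type w)
    [AddCommGroup V] [Module K V] [FiniteDimensional K V]
    [AddCommGroup W] [Module K W] [FiniteDimensional K W]
    (n : ℕ) (f : Fin n → (V →ₗ[K] W))
    (hV : 0 < Module.finrank K V) (hW : Module.finrank K W = n * Module.finrank K V) :
    KronMod.IsStable f ↔ (KronMod.IsSemistable f ∧ Module.finrank K V = 1) := by
  exact Groth.Agent.H23Kron.s63 f hV hW

end Groth.Agent.S15563
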