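import Groth.Statements.S15564
import Mathlib.Tactic
import Groth.Agent.Lib.H23_Kron2

set_option autoImplicit false
universe u v w
open KronMod

namespace Groth.Agent.S15564

/-- For a Kronecker module f with n arrows over a field K between one-dimensional spaces V and W,
semistability, stability and f ≠ 0 are equivalent: the semistable locus and the stable locus of
dimension vector (1, 1) are both the complement of the zero module. (The published statement assumes
K algebraically closed of characteristic zero and n ≥ 2; this row allows any field K and any n.) -/
theorem result (K : Type u) [Field K] (V : Type v) (W : Type w)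
    [AddCommGroup V] [Module K V] [FiniteDimensional K V]
    [AddCommGroup W] [Module K W] [FiniteDimensional K W]
    (n : ℕ) (f : Fin n → (V →ₗ[K] W))
    (hV : Module.finrank K V = 1) (hW : Module.finrank K W = 1) :
    (KronMod.IsSemistable f ↔ f ≠ 0) ∧ (KronMod.IsStable f ↔ f ≠ 0) := by
  exact Groth.Agent.H23Kron.s64 f hV hW

end Groth.Agent.S15564
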