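import Groth.Statements.S15565
import Mathlib.Tactic
import Groth.Agent.Lib.H23_Kron2

set_option autoImplicit false
universe u v w
open KronMod

namespace Groth.Agent.S15565

/-- Over an algebraically closed field K, a Kronecker module with two arrows between spaces V and W of
the same dimension k ≥ 2 is never stable: the stable locus of dimension vector (k, k) for the
Kronecker quiver with two arrows is empty. (The published statement also assumes characteristic
zero; this row does not.) -/
theorem result (K : Type u) [Field K] [IsAlgClosed K] (V : Type v) (W : Type w)
    [AddCommGroup V] [Module K V] [FiniteDimensional K V]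
    [AddCommGroup W] [Module K W] [FiniteDimensional K W]
    (f : Fin 2 → (V →ₗ[K] W)) (k : ℕ) (hk : 2 ≤ k)
    (hV : Module.finrank K V = k) (hW : Module.finrank K W = k) :
    ¬ KronMod.IsStable f := by
  exact Groth.Agent.H23Kron.s65 f k hk hV hW

end Groth.Agent.S15565
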