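import Groth.Statements.S15566
import Mathlib.Tactic
import Groth.Agent.Lib.H23_Kron2

set_option autoImplicit false
universe u v w
open KronMod

namespace Groth.Agent.S15566

/-- Case of dimension vector (2, 2). Over an algebraically closed field K, if a Kronecker module f with
n arrows between two-dimensional spaces V and W is semistable, then some linear combination Σ_j z_j
f_j of its arrows is a linear isomorphism V → W (equivalently, the determinant of the generic
combination is not identically zero): the semistable locus of dimension vector (2, 2) lies in the
open set of modules whose generic combination is invertible. (The published statement, over an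
algebraically closed field of characteristic zero, covers dimension vectors (1, 1) and (2, 2) for
every n ≥ 2 and (k, k) for two arrows; this row states the (2, 2) case, for any n and without the
characteristic assumption.) -/
theorem result (K : Type u) [Field K] [IsAlgClosed K] (V : Type v) (W : Type w)
    [AddCommGroup V] [Module K V] [FiniteDimensional K V]
    [AddCommGroup W] [Module K W] [FiniteDimensional K W]
    (n : ℕ) (f : Fin n → (V →ₗ[K] W))
    (hV : Module.finrank K V = 2) (hW : Module.finrank K W = 2)
    (hf : KronMod.IsSemistable f) :
    ∃ z : Fin n → K, Function.Bijective ((∑ j, z j • f j : V →ₗ[K] W) : V → W) := by
  exact Groth.Agent.H23Kron.s66 f hV hW hf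

end Groth.Agent.S15566
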