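import Groth.Statements.S15567
import Mathlib.Tactic
import Groth.Agent.Lib.H23_Kron2

set_option autoImplicit false
universe u v w
open KronMod

namespace Groth.Agent.S15567

/-- Duality of Kronecker modules. Let f be a Kronecker module with n arrows over a field K, from V to W,
both finite-dimensional. The dual module has arrows the transposes f_j^∨ : W^∨ → V^∨, so its
dimension vector is (d₀, d₋₁). Then f is semistable if and only if its dual is, and f is stable if
and only if its dual is. This is the module-level content of the isomorphism K(n; d₋₁, d₀) ≅ K(n;
d₀, d₋₁) of moduli spaces, stated here without the moduli spaces. (The published statement assumes K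
algebraically closed of characteristic zero and n ≥ 2; this row allows any field K and any number n
of arrows.) -/
theorem result (K : Type u) [Field K] (V : Type v) (W : Type w)
    [AddCommGroup V] [Module K V] [FiniteDimensional K V]
    [AddCommGroup W] [Module K W] [FiniteDimensional K W]
    (n : ℕ) (f : Fin n → (V →ₗ[K] W)) :
    (KronMod.IsSemistable f ↔ KronMod.IsSemistable (fun j => (f j).dualMap)) ∧
    (KronMod.IsStable f ↔ KronMod.IsStable (fun j => (f j).dualMap)) := by
  exact Groth.Agent.H23Kron.s67 f

end Groth.Agent.S15567
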