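import Groth.Statements.S15570
import Mathlib.Tactic
import Groth.Agent.Lib.H23_Kron2

set_option autoImplicit false
universe u v w
open KronMod

namespace Groth.Agent.S15570

/-- Let f be a Kronecker module with n arrows over a field K, from V of dimension n·d₀ to W of dimension
d₀ > 0. Then f is stable if and only if f is semistable and d₀ = 1: for d₀ = 1 every semistable
module is stable (the stable locus of K(n; n, 1) is the one point), while for d₀ > 1 no module is
stable. This is the case dual to dimension vector (d₋₁, n·d₋₁). (The published statement assumes K
algebraically closed of characteristic zero and n ≥ 2; this row allows any field K and any number n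
of arrows.) -/
theorem result (K : Type u) [Field K] (V : Type v) (W : Type w)
    [AddCommGroup V] [Module K V] [FiniteDimensional K V]
    [AddCommGroup W] [Module K W] [FiniteDimensional K W]
    (n : ℕ) (f : Fin n → (V →ₗ[K] W))
    (hW : 0 < Module.finrank K W) (hV : Module.finrank K V = n * Module.finrank K W) :
    KronMod.IsStable f ↔ (KronMod.IsSemistable f ∧ Module.finrank K W = 1) := by
  exact Groth.Agent.H23Kron.s70 f hW hV

end Groth.Agent.S15570
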