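import Groth.Statements.S15571
import Mathlib.Tactic
import Groth.Agent.Lib.H23_Kron2

set_option autoImplicit false
universe u v w
open KronMod

namespace Groth.Agent.S15571

/-- Let f be a Kronecker module with n arrows over a field K between spaces V and W of the same
dimension k ≥ 1. If some linear combination Σ_j z_j f_j of the arrows is a linear isomorphism, then
f is semistable. In other words the open set of modules whose generic combination is invertible lies
in the semistable locus of dimension vector (k, k). (The published statement assumes K algebraically
closed of characteristic zero and n ≥ 2; this row allows any field K and any number n of arrows.) -/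
theorem result (K : Type u) [Field K] (V : Type v) (W : Type w)
    [AddCommGroup V] [Module K V] [FiniteDimensional K V]
    [AddCommGroup W] [Module K W] [FiniteDimensional K W]
    (n : ℕ) (f : Fin n → (V →ₗ[K] W)) (k : ℕ) (hk : 1 ≤ k)
    (hV : Module.finrank K V = k) (hW : Module.finrank K W = k)
    (z : Fin n → K) (hz : Function.Bijective ((∑ j, z j • f j : V →ₗ[K] W) : V → W)) :
    KronMod.IsSemistable f := by
  exact Groth.Agent.H23Kron.s71 f k hk hV hW z hz

end Groth.Agent.S15571
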