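import Groth.Statements.S15771
import Mathlib.Tactic
import Mathlib.Topology.Algebra.Module.Basic
import Mathlib.Topology.Algebra.Ring.Basic
import Mathlib.RingTheory.Finiteness.Basic

set_option autoImplicit false
universe u
open TensorProduct
open CAlg

namespace Groth.Agent.S15771

/-- For a ring map B₀ → B with dense image into a topological ring B, a finitely generated B₀-module M₀
and any topological B-module structure on M = B ⊗_{B₀} M₀, the natural map M₀ → M has dense image. -/
theorem result (B₀ B : Type u) [CommRing B₀] [CommRing B] [Algebra B₀ B]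
    [TopologicalSpace B] [IsTopologicalRing B] (hφ : DenseRange (algebraMap B₀ B))
    (M₀ : Type u) [AddCommGroup M₀] [Module B₀ M₀] [Module.Finite B₀ M₀]
    [TopologicalSpace (B ⊗[B₀] M₀)] [IsTopologicalAddGroup (B ⊗[B₀] M₀)] [ContinuousSMul B (B ⊗[B₀] M₀)] :
    DenseRange (fun m : M₀ => (1 : B) ⊗ₜ[B₀] m) := by
  obtain ⟨n, s, hs⟩ := Module.Finite.exists_fin (R := B₀) (M := M₀)
  let g : (Fin n → B) → B ⊗[B₀] M₀ := fun c => ∑ i : Fin n, c i • ((1 : B) ⊗ₜ[B₀] s i)
  have hg : Continuous g := by
    show Continuous (fun c : Fin n → B => ∑ i : Fin n, c i • ((1 : B) ⊗ₜ[B₀] s i))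
    refine continuous_finset_sum _ (fun i _ => ?_)
    have h1 : Continuous (fun c : Fin n → B => c i) := continuous_apply i
    have h2 : Continuous (fun _ : Fin n → B => (1 : B) ⊗ₜ[B₀] s i) := continuous_const
    exact Continuous.smul h1 h2
  have hsurj : Function.Surjective g := by
    intro x
    induction x using TensorProduct.induction_on with
    | zero => exact ⟨0, by simp [g]⟩
    | add x y hx hy =>
      obtain ⟨c, rfl⟩ := hx
      obtain ⟨d, rfl⟩ := hy
      exact ⟨c + d, by simp [g, add_smul, Finset.sum_add_distrib]⟩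
    | tmul b m =>
      have hm : m ∈ Submodule.span B₀ (Set.range s) := by rw [hs]; trivial
      rw [Submodule.mem_span_range_iff_exists_fun] at hm
      obtain ⟨c, rfl⟩ := hm
      refine ⟨fun i => algebraMap B₀ B (c i) * b, ?_⟩
      simp only [g]
      rw [TensorProduct.tmul_sum]
      refine Finset.sum_congr rfl (fun i _ => ?_)
      rw [TensorProduct.smul_tmul', smul_eq_mul, mul_one, TensorProduct.tmul_smul,
        TensorProduct.smul_tmul', Algebra.smul_def]
  have hd : DenseRange (fun c : Fin n → B₀ => fun i => algebraMap B₀ B (c i)) :=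
    DenseRange.piMap (fun _ => hφ)
  have h1 : DenseRange (g ∘ (fun c : Fin n → B₀ => fun i => algebraMap B₀ B (c i))) :=
    hsurj.denseRange.comp hd hg
  refine h1.mono ?_
  rintro _ ⟨c, rfl⟩
  refine ⟨∑ i, c i • s i, ?_⟩
  simp only [g, Function.comp]
  rw [TensorProduct.tmul_sum]
  refine Finset.sum_congr rfl (fun i _ => ?_)
  rw [TensorProduct.tmul_smul, algebraMap_smul]

end Groth.Agent.S15771
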