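import Groth.Statements.S15790
import Mathlib.Tactic
import Mathlib.RingTheory.Ideal.Operations

set_option autoImplicit false
universe u v
open WildQuot

namespace Groth.Agent.S15790

theorem le_radical_iff {A : Type*} [CommRing A] (M J : Ideal A) :
    M ≤ J.radical ↔ ∀ P : Ideal A, P.IsPrime → J ≤ P → M ≤ P := by
  rw [Ideal.radical_eq_sInf, le_sInf_iff]
  constructor
  · intro h P hP hJ
    exact h P ⟨hJ, hP⟩
  · rintro h P ⟨hJ, hP⟩
    exact h P hP hJ

/-- Let `A` be a local ring with maximal ideal `m`, let a finite group `G` act on `A` by ring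
automorphisms, and let `u_1, …, u_n` generate `m`. Let `x_i = ∏_{σ ∈ G} σ u_i` be the norm of `u_i`.
Then `(x_1, …, x_n)` is `m`-primary (its radical contains `m`) if and only if, for every choice of
`σ_1, …, σ_n ∈ G`, the ideal `(σ_1 u_1, …, σ_n u_n)` is `m`-primary, i.e. the system `u` is weakly
admissible. (The published statement is for a complete regular local ring of dimension `n`
containing a field of representatives fixed by `G`; this row assumes only that `A` is local.) -/
theorem result
    (A : Type u) [CommRing A] [IsLocalRing A]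
    (G : Type v) [Group G] [Fintype G] [MulSemiringAction G A]
    (n : ℕ) (u : Fin n → A) (hu : Ideal.span (Set.range u) = IsLocalRing.maximalIdeal A) :
    IsLocalRing.maximalIdeal A ≤ (Ideal.span (Set.range fun i => ∏ σ : G, σ • u i)).radical ↔
      ∀ τ : Fin n → G,
        IsLocalRing.maximalIdeal A ≤ (Ideal.span (Set.range fun i => τ i • u i)).radical := by
  rw [le_radical_iff]
  constructor
  · intro h τ
    rw [le_radical_iff]
    intro P hP hJ
    apply h P hP
    rw [Ideal.span_le]
    rintro _ ⟨i, rfl⟩
    have h1 : τ i • u i ∈ P := hJ (Ideal.subset_span ⟨i, rfl⟩)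
    obtain ⟨c, hc⟩ := Finset.dvd_prod_of_mem (fun σ : G => σ • u i) (Finset.mem_univ (τ i))
    show ∏ σ : G, σ • u i ∈ P
    rw [hc]
    exact P.mul_mem_right _ h1
  · intro h P hP hJ
    have h1 : ∀ i, ∃ σ : G, σ • u i ∈ P := by
      intro i
      have h2 : ∏ σ : G, σ • u i ∈ P := hJ (Ideal.subset_span ⟨i, rfl⟩)
      rw [hP.prod_mem_iff] at h2
      obtain ⟨σ, _, hσ⟩ := h2
      exact ⟨σ, hσ⟩
    choose τ hτ using h1
    refine (le_radical_iff _ _).mp (h τ) P hP ?_
    rw [Ideal.span_le]
    rintro _ ⟨i, rfl⟩
    exact hτ i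

end Groth.Agent.S15790
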