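import Groth.Statements.S15791
import Mathlib

set_option autoImplicit false
universe u v
open WildQuot

namespace Groth.Agent.S15791

theorem exact_aux {A : Type*} [CommRing A] (J K : Ideal A) (a : A)
    (h : K ≤ Submodule.comap (LinearMap.lsmul A A a) J) :
    Function.Exact (Submodule.mapQ K J (LinearMap.lsmul A A a) h)
      (Submodule.factor (le_sup_left : J ≤ J ⊔ Ideal.span {a})) := by
  intro y
  obtain ⟨z, rfl⟩ := Submodule.Quotient.mk_surjective _ y
  constructor
  · intro hz
    have hz' : z ∈ J ⊔ Ideal.span {a} := by
      rw [← Submodule.Quotient.mk_eq_zero]; exact hz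
    obtain ⟨j, hj, w, hw, rfl⟩ := Submodule.mem_sup.mp hz'
    obtain ⟨c, rfl⟩ := Ideal.mem_span_singleton'.mp hw
    refine ⟨Submodule.Quotient.mk c, ?_⟩
    rw [Submodule.mapQ_apply, Submodule.Quotient.eq]
    have : (LinearMap.lsmul A A a) c - (j + c * a) = -j := by
      simp only [LinearMap.lsmul_apply, smul_eq_mul]; ring
    rw [this]
    exact J.neg_mem hj
  · rintro ⟨x, hx⟩
    obtain ⟨c, rfl⟩ := Submodule.Quotient.mk_surjective _ x
    rw [← hx, Submodule.mapQ_apply]
    show Submodule.Quotient.mk _ = _
    rw [Submodule.Quotient.mk_eq_zero]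
    apply Ideal.mem_sup_right
    exact Ideal.mem_span_singleton'.mpr ⟨c, by simp [mul_comm]⟩

theorem length_mul_le {A : Type*} [CommRing A] (I : Ideal A) (a b : A) :
    Module.length A (A ⧸ (I ⊔ Ideal.span {a * b})) ≤
      Module.length A (A ⧸ (I ⊔ Ideal.span {a})) + Module.length A (A ⧸ (I ⊔ Ideal.span {b})) := by
  have hle : I ⊔ Ideal.span {b} ≤ Submodule.comap (LinearMap.lsmul A A a) (I ⊔ Ideal.span {a * b}) := by
    intro x hx
    obtain ⟨j, hj, w, hw, rfl⟩ := Submodule.mem_sup.mp hx
    show a • (j + w) ∈ (I ⊔ Ideal.span {a * b})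
    rw [smul_add]
    apply Ideal.add_mem
    · exact Ideal.mem_sup_left (Ideal.mul_mem_left _ a hj)
    · apply Ideal.mem_sup_right
      obtain ⟨c, rfl⟩ := Ideal.mem_span_singleton'.mp hw
      exact Ideal.mem_span_singleton'.mpr ⟨c, by rw [smul_eq_mul]; ring⟩
  have hex := exact_aux (I ⊔ Ideal.span {a * b}) (I ⊔ Ideal.span {b}) a hle
  set f := Submodule.mapQ (I ⊔ Ideal.span {b}) (I ⊔ Ideal.span {a * b}) (LinearMap.lsmul A A a) hle
  set g := Submodule.factor (le_sup_left : (I ⊔ Ideal.span {a * b}) ≤ (I ⊔ Ideal.span {a * b}) ⊔ Ideal.span {a}) with hg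
  have hlen := Module.length_eq_add_of_exact (LinearMap.range f).subtype g
    (Submodule.injective_subtype _)
    (Submodule.factor_surjective _) (by
      intro y
      rw [hex y]
      simp [f])
  have heq : (I ⊔ Ideal.span {a * b}) ⊔ Ideal.span {a} = I ⊔ Ideal.span {a} := by
    rw [sup_assoc]
    congr 1
    apply sup_eq_right.mpr
    rw [Ideal.span_singleton_le_iff_mem]
    exact Ideal.mem_span_singleton'.mpr ⟨b, mul_comm _ _⟩
  rw [hlen, heq, add_comm]
  gcongr
  exact Module.length_le_of_surjective f.rangeRestrict f.surjective_rangeRestrict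

theorem span_range_update {A : Type*} [CommRing A] {n : ℕ} (v : Fin n → A) (i : Fin n) (x : A) :
    Ideal.span (Set.range (Function.update v i x)) = Ideal.span (v '' {j | j ≠ i}) ⊔ Ideal.span {x} := by
  rw [← Ideal.span_union]
  congr 1
  ext y
  simp only [Set.mem_range, Set.mem_union, Set.mem_image, Set.mem_setOf_eq, Set.mem_singleton_iff]
  constructor
  · rintro ⟨j, rfl⟩
    by_cases h : j = i
    · subst h; right; simp
    · left; exact ⟨j, h, by simp [h]⟩
  · rintro (⟨j, h, rfl⟩ | rfl)
    · exact ⟨j, by simp [h]⟩
    · exact ⟨i, by simp⟩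

/-- length of the quotient by a family -/
noncomputable def L {A : Type*} [CommRing A] {n : ℕ} (v : Fin n → A) : ℕ∞ :=
  Module.length A (A ⧸ Ideal.span (Set.range v))

theorem L_update_mul_le {A : Type*} [CommRing A] {n : ℕ} (v : Fin n → A) (i : Fin n) (a b : A) :
    L (Function.update v i (a * b)) ≤ L (Function.update v i a) + L (Function.update v i b) := by
  unfold L
  rw [span_range_update, span_range_update, span_range_update]
  exact length_mul_le _ _ _

theorem length_prod_le {A : Type*} [CommRing A] {n : ℕ} (v : Fin n → A) (i : Fin n) {ι : Type*}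
    (S : Finset ι) (f : ι → A) :
    L (Function.update v i (∏ s ∈ S, f s)) ≤
      ∑ s ∈ S, L (Function.update v i (f s)) := by
  classical
  induction S using Finset.induction_on with
  | empty =>
    rw [Finset.prod_empty, Finset.sum_empty]
    unfold L
    rw [span_range_update, Ideal.span_singleton_one, sup_top_eq]
    have : Subsingleton (A ⧸ (⊤ : Ideal A)) := Ideal.Quotient.subsingleton_iff.mpr rfl
    rw [Module.length_eq_zero]
  | insert s S hs ih =>
    rw [Finset.prod_insert hs, Finset.sum_insert hs]
    refine (L_update_mul_le _ _ _ _).trans ?_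
    gcongr

/-- Let `A` be a regular local ring of Krull dimension `n` with maximal ideal `m`, let a finite group
`G` of order `g` act on `A` by ring automorphisms, and let `u_1, …, u_n` be an admissible regular
system of parameters: for every choice `σ_1, …, σ_n ∈ G`, the elements `σ_1 u_1, …, σ_n u_n`
generate `m`. With `x_i = ∏_{σ ∈ G} σ u_i` the norms, the length of `A / (x_1, …, x_n)` is at most
`g ^ n`. (The published statement is for a complete regular local ring containing a `G`-fixed field
of representatives and asserts that the length equals `g ^ n`; this row states the upper bound for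
any regular local ring.) -/
theorem result
    (A : Type u) [CommRing A] [IsRegularLocalRing A]
    (G : Type v) [Group G] [Fintype G] [MulSemiringAction G A]
    (n : ℕ) (hn : ringKrullDim A = n) (u : Fin n → A)
    (hu : ∀ τ : Fin n → G,
      Ideal.span (Set.range fun i => τ i • u i) = IsLocalRing.maximalIdeal A) :
    Module.length A (A ⧸ Ideal.span (Set.range fun i => ∏ σ : G, σ • u i)) ≤
      (Fintype.card G ^ n : ℕ) := by
  classical
  have key : ∀ T : Finset (Fin n), ∀ τ : Fin n → G,
      L (fun i => if i ∈ T then ∏ σ : G, σ • u i else τ i • u i) ≤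
        (Fintype.card G ^ T.card : ℕ) := by
    intro T
    induction T using Finset.induction_on with
    | empty =>
      intro τ
      have e0 : (fun i => if i ∈ (∅ : Finset (Fin n)) then ∏ σ : G, σ • u i else τ i • u i) =
        fun i => τ i • u i := by funext i; simp
      rw [e0, Finset.card_empty, pow_zero]
      unfold L
      rw [hu τ]
      have : IsSimpleModule A (A ⧸ IsLocalRing.maximalIdeal A) := by
        rw [isSimpleModule_iff_isCoatom]
        exact Ideal.isMaximal_def.mp inferInstance
      rw [Module.length_eq_one_iff.mpr this]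
      simp
    | insert j T hj ih =>
      intro τ
      have e1 : (fun i => if i ∈ insert j T then ∏ σ : G, σ • u i else τ i • u i) =
          Function.update (fun i => if i ∈ T then ∏ σ : G, σ • u i else τ i • u i) j
            (∏ σ : G, σ • u j) := by
        funext i
        by_cases h : i = j
        · subst h; simp
        · simp [h]
      rw [e1]
      refine (length_prod_le _ j Finset.univ (fun σ : G => σ • u j)).trans ?_
      have e2 : ∀ σ : G, Function.update (fun i => if i ∈ T then ∏ σ : G, σ • u i else τ i • u i) j
            (σ • u j) = fun i => if i ∈ T then ∏ σ : G, σ • u i else (Function.update τ j σ) i • u i := by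
        intro σ
        funext i
        by_cases h : i = j
        · subst h; simp [hj]
        · simp [h]
      have e3 : ∀ σ ∈ (Finset.univ : Finset G),
          L (Function.update (fun i => if i ∈ T then ∏ σ : G, σ • u i else τ i • u i) j
            (σ • u j)) ≤ ((Fintype.card G ^ T.card : ℕ) : ℕ∞) := by
        intro σ _
        rw [e2 σ]
        exact ih (Function.update τ j σ)
      refine (Finset.sum_le_sum e3).trans ?_
      rw [Finset.sum_const, Finset.card_insert_of_notMem hj, Finset.card_univ, nsmul_eq_mul, pow_succ]
      push_cast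
      rw [mul_comm]
  have h1 := key Finset.univ (fun _ => 1)
  have e4 : (fun i => if i ∈ (Finset.univ : Finset (Fin n)) then ∏ σ : G, σ • u i else (1 : G) • u i) =
      fun i => ∏ σ : G, σ • u i := by funext i; simp
  rw [e4, Finset.card_univ, Fintype.card_fin] at h1
  exact h1

end Groth.Agent.S15791
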