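import Groth.Statements.S15795
import Mathlib.Tactic
import Mathlib.RingTheory.Nakayama
import Mathlib.RingTheory.LocalRing.MaximalIdeal.Basic

set_option autoImplicit false
universe u v
open WildQuot

namespace Groth.Agent.S15795

theorem aux
    (A : Type u) [CommRing A] [IsLocalRing A] (m : Ideal A) (hm : m = IsLocalRing.maximalIdeal A)
    (G : Type v) [Group G] [MulSemiringAction G A]
    (hres : ∀ (σ : G) (a : A), σ • a - a ∈ m)
    (n : ℕ) (u : Fin n → A)
    (hu : Ideal.span (Set.range u) = m)
    (htri : ∀ (σ : G) (i : Fin n),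
      σ • u i ∈ Ideal.span (u '' {j | j ≤ i}) ⊔ m ^ 2) :
    ∀ τ : Fin n → G,
      Ideal.span (Set.range fun i => τ i • u i) = m := by
  classical
  intro τ
  have hstab : ∀ (σ : G) (x : A), x ∈ m → σ • x ∈ m := by
    intro σ x hx
    have h1 := hres σ x
    have h2 := m.add_mem h1 hx
    rwa [sub_add_cancel] at h2
  have hstab2 : ∀ (σ : G) (x : A), x ∈ m ^ 2 → σ • x ∈ m ^ 2 := by
    intro σ x hx
    rw [pow_two] at hx ⊢
    refine Submodule.mul_induction_on hx ?_ ?_
    · intro a ha b hb
      rw [smul_mul']
      exact Ideal.mul_mem_mul (hstab σ a ha) (hstab σ b hb)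
    · intro a b ha hb
      rw [smul_add]
      exact Ideal.add_mem _ ha hb
  -- V i = span of u j, j < i
  have hVstab : ∀ (σ : G) (i : Fin n) (x : A), x ∈ Ideal.span (u '' {j | j < i}) ⊔ m ^ 2 →
      σ • x ∈ Ideal.span (u '' {j | j < i}) ⊔ m ^ 2 := by
    intro σ i x hx
    obtain ⟨y, hy, z, hz, rfl⟩ := Submodule.mem_sup.mp hx
    rw [smul_add]
    refine Ideal.add_mem _ ?_ (Ideal.mem_sup_right (hstab2 σ z hz))
    refine Submodule.span_induction (p := fun y _ => σ • y ∈ Ideal.span (u '' {j | j < i}) ⊔ m ^ 2)
      ?_ ?_ ?_ ?_ hy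
    · rintro _ ⟨j, hj, rfl⟩
      have h1 := htri σ j
      have hle : Ideal.span (u '' {l | l ≤ j}) ⊔ m ^ 2 ≤ Ideal.span (u '' {j | j < i}) ⊔ m ^ 2 :=
        by
          have hsub : {l : Fin n | l ≤ j} ⊆ {l : Fin n | l < i} := by
            intro l hl
            have hl' : l ≤ j := hl
            have hj' : j < i := hj
            exact lt_of_le_of_lt hl' hj'
          exact sup_le_sup_right (Ideal.span_mono (Set.image_mono hsub)) _
      exact hle h1
    · rw [smul_zero]; exact Ideal.zero_mem _
    · intro a b _ _ ha hb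
      rw [smul_add]; exact Ideal.add_mem _ ha hb
    · intro a b _ hb
      have h5 : σ • (a • b) = (σ • a) * (σ • b) := smul_mul' σ a b
      rw [h5]
      exact Ideal.mul_mem_left _ _ hb
  have hW : ∀ i : Fin n, u i ∈ Ideal.span (Set.range fun i => τ i • u i) ⊔ m ^ 2 := by
    intro i
    induction i using WellFoundedLT.induction with
    | _ i ih =>
      have hVle : Ideal.span (u '' {j | j < i}) ⊔ m ^ 2 ≤
          Ideal.span (Set.range fun i => τ i • u i) ⊔ m ^ 2 := by
        refine sup_le ?_ le_sup_right
        rw [Ideal.span_le]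
        rintro _ ⟨j, hj, rfl⟩
        exact ih j hj
      have h1 := htri (τ i) i
      have hset : u '' {j | j ≤ i} = insert (u i) (u '' {j | j < i}) := by
        ext x
        constructor
        · rintro ⟨j, hj, rfl⟩
          rcases lt_or_eq_of_le (show j ≤ i from hj) with h | h
          · exact Or.inr ⟨j, h, rfl⟩
          · exact Or.inl (by rw [h])
        · rintro (rfl | ⟨j, hj, rfl⟩)
          · exact ⟨i, le_refl i, rfl⟩
          · exact ⟨j, (le_of_lt (show j < i from hj) : j ≤ i), rfl⟩
      rw [hset, Ideal.span_insert, sup_assoc] at h1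
      obtain ⟨y, hy, z, hz, hyz⟩ := Submodule.mem_sup.mp h1
      obtain ⟨c, rfl⟩ := Ideal.mem_span_singleton'.mp hy
      by_cases hc : IsUnit c
      · obtain ⟨c', rfl⟩ := hc
        have h2 : u i = (c'⁻¹ : Aˣ) * (τ i • u i) - (c'⁻¹ : Aˣ) * z := by
          rw [← hyz, mul_add, ← mul_assoc, Units.inv_mul]; ring
        rw [h2]
        refine Ideal.sub_mem _ (Ideal.mem_sup_left (Ideal.mul_mem_left _ _ (Ideal.subset_span ⟨i, rfl⟩))) ?_
        exact hVle (Ideal.mul_mem_left _ _ hz)
      · have hcm : c ∈ m := by rw [hm]; exact (IsLocalRing.mem_maximalIdeal _).mpr hc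
        have hui : u i ∈ m := by rw [← hu]; exact Ideal.subset_span ⟨i, rfl⟩
        have h2 : τ i • u i ∈ Ideal.span (u '' {j | j < i}) ⊔ m ^ 2 := by
          rw [← hyz]
          refine Ideal.add_mem _ (Ideal.mem_sup_right ?_) hz
          rw [pow_two]
          exact Ideal.mul_mem_mul hcm hui
        have h3 := hVstab (τ i)⁻¹ i _ h2
        rw [inv_smul_smul] at h3
        exact hVle h3
  apply le_antisymm
  · rw [Ideal.span_le]
    rintro _ ⟨i, rfl⟩
    apply hstab
    rw [← hu]; exact Ideal.subset_span ⟨i, rfl⟩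
  · have hfg : m.FG := by rw [← hu]; exact ⟨Finset.univ.image u, by simp⟩
    apply Submodule.le_of_le_smul_of_le_jacobson_bot (I := m) hfg (by rw [hm]; exact IsLocalRing.maximalIdeal_le_jacobson _)
    conv_lhs => rw [← hu]
    rw [Ideal.span_le]
    rintro _ ⟨i, rfl⟩
    have := hW i
    rw [pow_two] at this
    exact this

/-- Let `A` be a regular local ring of Krull dimension `n` with maximal ideal `m`, let a finite group
`G` act on `A` by ring automorphisms inducing the identity on the residue field, and let `u_1, …,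
u_n` generate `m`. Suppose that for every `σ ∈ G` and every `i`, `σ u_i ∈ (u_1, …, u_i) + m ^ 2`,
i.e. the induced linear maps of `m / m ^ 2` are upper triangular in the basis given by the `u_i`.
Then the system `u` is admissible: for every choice `σ_1, …, σ_n ∈ G` the elements `σ_1 u_1, …, σ_n
u_n` generate `m`. (The published statement is for a complete regular local ring containing a
`G`-fixed field of representatives; this row drops completeness and asks only that `G` act trivially
on the residue field.) -/
theorem result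
    (A : Type u) [CommRing A] [IsRegularLocalRing A]
    (G : Type v) [Group G] [Finite G] [MulSemiringAction G A]
    (hres : ∀ (σ : G) (a : A), σ • a - a ∈ IsLocalRing.maximalIdeal A)
    (n : ℕ) (hn : ringKrullDim A = n) (u : Fin n → A)
    (hu : Ideal.span (Set.range u) = IsLocalRing.maximalIdeal A)
    (htri : ∀ (σ : G) (i : Fin n),
      σ • u i ∈ Ideal.span (u '' {j | j ≤ i}) ⊔ IsLocalRing.maximalIdeal A ^ 2) :
    ∀ τ : Fin n → G,
      Ideal.span (Set.range fun i => τ i • u i) = IsLocalRing.maximalIdeal A := by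
  exact aux A _ rfl G hres n u hu htri

end Groth.Agent.S15795
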