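import Groth.Statements.S15796
import Mathlib

set_option autoImplicit false
universe u v
open WildQuot

namespace Groth.Agent.S15796

/-- Let `A` be a Noetherian local ring of Krull dimension `n` whose maximal ideal `m` is generated by
`u_1, …, u_n`, and let a finite group `G` act on `A` by ring automorphisms. If some `σ ∈ G` maps
some `u_i` into the ideal generated by the `u_j` with `j ≠ i`, then the system `u` is not weakly
admissible: for some choice `σ_1, …, σ_n ∈ G` the radical of `(σ_1 u_1, …, σ_n u_n)` does not
contain `m`. (The published statement is for a linear action on `k[[u_1, …, u_n]]` whose matrix has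
a zero diagonal entry; this row assumes instead that some `σ u_i` lies in the ideal generated by the
other `u_j`.) -/
theorem result
    (A : Type u) [CommRing A] [IsLocalRing A] [IsNoetherianRing A]
    (G : Type v) [Group G] [Finite G] [MulSemiringAction G A]
    (n : ℕ) (hn : ringKrullDim A = n) (u : Fin n → A)
    (hu : Ideal.span (Set.range u) = IsLocalRing.maximalIdeal A)
    (σ : G) (i : Fin n) (hσ : σ • u i ∈ Ideal.span (u '' {j | j ≠ i})) :
    ∃ τ : Fin n → G,
      ¬ IsLocalRing.maximalIdeal A ≤ (Ideal.span (Set.range fun j => τ j • u j)).radical := by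
  classical
  refine ⟨Function.update (fun _ => 1) i σ, fun hle => ?_⟩
  have hui : ∀ j, u j ∈ IsLocalRing.maximalIdeal A := by
    intro j
    rw [← hu]
    exact Ideal.subset_span ⟨j, rfl⟩
  -- the span is generated by the others
  have h1 : Ideal.span (Set.range fun j => (Function.update (fun _ => (1 : G)) i σ) j • u j) ≤
      Ideal.span (u '' {j | j ≠ i}) := by
    rw [Ideal.span_le]
    rintro _ ⟨j, rfl⟩
    by_cases h : j = i
    · subst h
      simpa using hσ
    · have : (Function.update (fun _ => (1 : G)) i σ) j • u j = u j := by simp [h]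
      show (Function.update (fun _ => (1 : G)) i σ) j • u j ∈ Ideal.span (u '' {j | j ≠ i})
      rw [this]
      exact Ideal.subset_span ⟨j, h, rfl⟩
  have h2 : IsLocalRing.maximalIdeal A ≤ (Ideal.span (u '' {j | j ≠ i})).radical :=
    hle.trans (Ideal.radical_mono h1)
  have hset : (u '' {j | j ≠ i}) = (((Finset.univ.erase i).image u : Finset A) : Set A) := by
    ext x
    simp
  have hIle : Ideal.span (u '' {j | j ≠ i}) ≤ IsLocalRing.maximalIdeal A := by
    rw [Ideal.span_le]
    rintro _ ⟨j, _, rfl⟩
    exact hui j
  have hmin : IsLocalRing.maximalIdeal A ∈ (Ideal.span (((Finset.univ.erase i).image u : Finset A) : Set A)).minimalPrimes := by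
    rw [← hset]
    refine ⟨⟨inferInstance, hIle⟩, ?_⟩
    rintro q ⟨hq, hq2⟩ _
    refine h2.trans ?_
    rw [hq.radical_le_iff]
    exact hq2
  have h3 := Ideal.height_le_card_of_mem_minimalPrimes_span_finset hmin
  have h4 : ((Finset.univ.erase i).image u).card ≤ n - 1 := by
    refine Finset.card_image_le.trans ?_
    rw [Finset.card_erase_of_mem (Finset.mem_univ i), Finset.card_univ, Fintype.card_fin]
  have h5 := IsLocalRing.maximalIdeal_height_eq_ringKrullDim (R := A)
  rw [hn] at h5
  have h6 : (IsLocalRing.maximalIdeal A).height = (n : ℕ∞) := by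
    exact_mod_cast h5
  rw [h6] at h3
  have h7 : n ≤ ((Finset.univ.erase i).image u).card := by exact_mod_cast h3
  have h8 : 0 < n := lt_of_le_of_lt (Nat.zero_le _) i.2
  omega

end Groth.Agent.S15796
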