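import Groth.Statements.S15811
import Mathlib.Tactic
import Mathlib.FieldTheory.Finite.Basic
import Mathlib.RingTheory.IntegralClosure.IntegrallyClosed
import Mathlib.Algebra.Polynomial.Splits
import Mathlib.RingTheory.Localization.FractionRing

set_option autoImplicit false
universe u
open WildQuot

namespace Groth.Agent.S15811

/-- Let `R` be an integrally closed domain of prime characteristic `p` with fraction field `K`, and `α ∈
R`. Then `α ≠ 0` and the polynomial `T ^ p - α T` splits into linear factors over `K` — which says
that the finite flat group scheme `Spec R[T]/(T ^ p - α T)` of order `p` has constant generic fibre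
(its `p` roots are then distinct) — if and only if `α = a ^ (p-1)` for some nonzero `a ∈ R`. (The
published statement is that the generic fibre of the finite flat group scheme of order `p` with
parameters `α, β` satisfying `α β = 0`, whose underlying scheme is `Spec R[T]/(T ^ p - α T)`, is
constant if and only if `β = 0` and `α` is the `(p-1)`-th power of a nonzero element of `R`; this
row states the polynomial condition, in which `α ≠ 0` already forces `β = 0` over a domain.) -/
theorem result
    (p : ℕ) [Fact p.Prime] (R : Type u) [CommRing R] [IsDomain R] [IsIntegrallyClosed R]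
    [CharP R p] (α : R) :
    (α ≠ 0 ∧ (Polynomial.map (algebraMap R (FractionRing R))
        (Polynomial.X ^ p - Polynomial.C α * Polynomial.X)).Splits) ↔
      ∃ a : R, a ≠ 0 ∧ α = a ^ (p - 1) := by
  have hp : p.Prime := Fact.out
  have hp1 : 1 < p := hp.one_lt
  set F := FractionRing R
  haveI : CharP F p := charP_of_injective_algebraMap (IsFractionRing.injective R F) p
  constructor
  · rintro ⟨hα, hs⟩
    -- X^p - αX = X * (X^(p-1) - α)
    have hα' : algebraMap R F α ≠ 0 := by
      intro h; exact hα ((map_eq_zero_iff _ (IsFractionRing.injective R F)).mp h)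
    have hfac : Polynomial.map (algebraMap R F) (Polynomial.X ^ p - Polynomial.C α * Polynomial.X) =
        Polynomial.X * (Polynomial.X ^ (p - 1) - Polynomial.C (algebraMap R F α)) := by
      simp only [Polynomial.map_sub, Polynomial.map_pow, Polynomial.map_X, Polynomial.map_mul,
        Polynomial.map_C]
      obtain ⟨j, rfl⟩ : ∃ j, p = j + 1 := ⟨p - 1, by omega⟩
      rw [Nat.add_sub_cancel, pow_succ]
      ring
    have hne : Polynomial.map (algebraMap R F) (Polynomial.X ^ p - Polynomial.C α * Polynomial.X) ≠ 0 := by
      rw [hfac]
      exact mul_ne_zero Polynomial.X_ne_zero (Polynomial.X_pow_sub_C_ne_zero (by omega) _)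
    have hs2 : (Polynomial.X ^ (p - 1) - Polynomial.C (algebraMap R F α)).Splits :=
      hs.of_dvd hne (by rw [hfac]; exact dvd_mul_left _ _)
    obtain ⟨b, hb⟩ := hs2.exists_eval_eq_zero (by
      rw [Polynomial.degree_X_pow_sub_C (by omega)]
      intro h
      have : (p - 1 : ℕ) = 0 := by exact_mod_cast h
      omega)
    simp only [Polynomial.eval_sub, Polynomial.eval_pow, Polynomial.eval_X, Polynomial.eval_C] at hb
    have hb' : b ^ (p - 1) = algebraMap R F α := sub_eq_zero.mp hb
    obtain ⟨a, ha⟩ := IsIntegrallyClosed.exists_algebraMap_eq_of_isIntegral_pow (R := R) (K := F)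
      (n := p - 1) (x := b) (by omega) (by rw [hb']; exact isIntegral_algebraMap)
    refine ⟨a, ?_, ?_⟩
    · rintro rfl
      rw [map_zero] at ha
      rw [← ha, zero_pow (by omega)] at hb'
      exact hα' hb'.symm
    · apply IsFractionRing.injective R F
      rw [map_pow, ha, hb']
  · rintro ⟨a, ha, rfl⟩
    refine ⟨pow_ne_zero _ ha, ?_⟩
    set b := algebraMap R F a with hb
    have hb0 : b ≠ 0 := by
      intro h; exact ha ((map_eq_zero_iff _ (IsFractionRing.injective R F)).mp h)
    have hfac : Polynomial.map (algebraMap R F) (Polynomial.X ^ p - Polynomial.C (a ^ (p - 1)) * Polynomial.X) =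
        Polynomial.X ^ p - Polynomial.C (b ^ (p - 1)) * Polynomial.X := by
      simp only [Polynomial.map_sub, Polynomial.map_pow, Polynomial.map_X, Polynomial.map_mul,
        Polynomial.map_C, map_pow, hb]
    rw [hfac]
    classical
    set q : Polynomial F := Polynomial.X ^ p - Polynomial.C (b ^ (p - 1)) * Polynomial.X with hq
    have hdeglt : (Polynomial.C (b ^ (p - 1)) * Polynomial.X : Polynomial F).degree < (p : ℕ) := by
      refine (Polynomial.degree_C_mul_X_le _).trans_lt ?_
      exact_mod_cast hp1
    have hdeg : q.degree = p := by
      rw [hq, Polynomial.degree_sub_eq_left_of_degree_lt (by rw [Polynomial.degree_X_pow]; exact hdeglt),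
        Polynomial.degree_X_pow]
    have hnat : q.natDegree = p := Polynomial.natDegree_eq_of_degree_eq_some hdeg
    have hq0 : q ≠ 0 := by
      intro h; rw [h, Polynomial.degree_zero] at hdeg
      exact absurd hdeg (by simp)
    let S : Finset F := Finset.univ.image (fun c : ZMod p => ZMod.castHom (dvd_refl p) F c * b)
    have hS : S.card = p := by
      rw [Finset.card_image_of_injective, Finset.card_univ, ZMod.card]
      intro c d hcd
      exact RingHom.injective _ (mul_right_cancel₀ hb0 hcd)
    have hsub : S ⊆ q.roots.toFinset := by
      intro x hx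
      rw [Multiset.mem_toFinset, Polynomial.mem_roots hq0, Polynomial.IsRoot.def]
      rw [Finset.mem_image] at hx
      obtain ⟨c, _, rfl⟩ := hx
      simp only [hq, Polynomial.eval_sub, Polynomial.eval_pow, Polynomial.eval_X, Polynomial.eval_mul,
        Polynomial.eval_C]
      rw [mul_pow, ← map_pow, ZMod.pow_card]
      have : b ^ p = b ^ (p - 1) * b := by rw [← pow_succ]; congr 1; omega
      rw [this]; ring
    have h1 := Finset.card_le_card hsub
    have h2 := Multiset.toFinset_card_le q.roots
    have h3 := Polynomial.card_roots' q
    rw [Polynomial.splits_iff_card_roots]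
    omega

end Groth.Agent.S15811
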