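import Groth.Statements.S15813
import Mathlib

set_option autoImplicit false
universe u
open WildQuot

namespace Groth.Agent.S15813

section aux
open PowerSeries
variable {k : Type*} [Field k] (σ : PowerSeries k ≃ₐ[k] PowerSeries k)

theorem decomp (y : PowerSeries k) :
    ∃ y1 : PowerSeries k, y = algebraMap k (PowerSeries k) (constantCoeff y) + X * y1 := by
  have : (X : PowerSeries k) ∣ y - algebraMap k (PowerSeries k) (constantCoeff y) := by
    rw [X_dvd_iff]; simp [PowerSeries.algebraMap_apply]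
  obtain ⟨y1, h⟩ := this
  exact ⟨y1, by rw [← h]; ring⟩

theorem cc_alg (a : k) : constantCoeff (algebraMap k (PowerSeries k) a) = a := by
  simp [PowerSeries.algebraMap_apply]

theorem sigma_decomp (w w1 : PowerSeries k) (hw : w = algebraMap k (PowerSeries k) (constantCoeff w) + X * w1) :
    σ w = algebraMap k _ (constantCoeff w) + σ X * σ w1 := by
  conv_lhs => rw [hw]
  rw [map_add, σ.commutes, map_mul]

theorem cc_sigma (h0 : constantCoeff (σ X) = 0) (w : PowerSeries k) :
    constantCoeff (σ w) = constantCoeff w := by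
  obtain ⟨w1, hw⟩ := decomp w
  rw [sigma_decomp σ w w1 hw, map_add, map_mul, h0, cc_alg]
  simp

theorem pow_dvd (m : ℕ) (hs : (X : PowerSeries k) ^ (m + 1) ∣ σ X - X) :
    ∀ N ≤ m + 1, ∀ y : PowerSeries k, (X : PowerSeries k) ^ N ∣ σ y - y := by
  intro N
  induction N with
  | zero => intro _ y; simp
  | succ N ih =>
    intro hN y
    obtain ⟨y1, hy⟩ := decomp y
    have h1 := sigma_decomp σ y y1 hy
    have h2 : σ y - y = (σ X - X) * σ y1 + X * (σ y1 - y1) := by
      rw [h1]
      conv_lhs => rw [hy]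
      rw [map_add, map_mul]
      simp only [cc_alg, constantCoeff_X, zero_mul, add_zero]
      ring
    rw [h2]
    apply dvd_add
    · exact Dvd.dvd.mul_right ((pow_dvd_pow _ hN).trans hs) _
    · rw [pow_succ']
      exact mul_dvd_mul_left _ (ih (by omega) y1)

theorem iter (e : PowerSeries k) (h : σ X = X * e) : ∀ i : ℕ, ∃ ei : PowerSeries k,
    (σ ^ i) X = X * ei ∧ constantCoeff ei = (constantCoeff e) ^ i := by
  have h0 : constantCoeff (σ X) = 0 := by rw [h, map_mul, constantCoeff_X, zero_mul]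
  intro i
  induction i with
  | zero => exact ⟨1, by simp, by simp⟩
  | succ i ih =>
    obtain ⟨ei, h1, h2⟩ := ih
    refine ⟨e * σ ei, ?_, ?_⟩
    · rw [pow_succ', AlgEquiv.mul_apply, h1, map_mul, h, mul_assoc]
    · rw [map_mul, cc_sigma σ h0, h2, pow_succ']

theorem one_add_pow (ε : PowerSeries k) (μ : ℕ) : ∃ r : PowerSeries k,
    (1 + ε) ^ μ = 1 + ε * ((μ : PowerSeries k) + ε * r) := by
  induction μ with
  | zero => exact ⟨0, by simp⟩
  | succ μ ih =>
    obtain ⟨r, hr⟩ := ih
    refine ⟨(μ : PowerSeries k) + ε * r + r, ?_⟩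
    rw [pow_succ, hr]
    push_cast
    ring

theorem main (p : ℕ) [Fact p.Prime] [CharP k p]
    (σ : PowerSeries k ≃ₐ[k] PowerSeries k) (hσp : σ ^ p = 1)
    (m : ℕ) (ε' : PowerSeries k) (hs : σ X - X = X ^ (m + 1) * ε') (hε : constantCoeff ε' ≠ 0)
    (f : PowerSeries k) (hfσ : σ f = f) (hf0 : constantCoeff f ≠ 0)
    (μ : ℕ) (hμ : 0 < μ) (hpμ : ¬ p ∣ μ)
    (z : FractionRing (PowerSeries k))
    (hz : z ^ p - z = algebraMap (PowerSeries k) (FractionRing (PowerSeries k)) f /
      algebraMap (PowerSeries k) (FractionRing (PowerSeries k))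
        (∏ i ∈ Finset.range p, (σ ^ i) X) ^ μ) :
    μ = m := by
  have hp : p.Prime := Fact.out
  have hchar : CharP (PowerSeries k) p :=
    charP_of_injective_algebraMap (algebraMap k (PowerSeries k)).injective p
  set e : PowerSeries k := 1 + X ^ m * ε' with he
  have hse : σ X = X * e := by
    have : σ X = X + X ^ (m + 1) * ε' := by rw [← hs]; ring
    rw [this, he, pow_succ']; ring
  have h0 : constantCoeff (σ X) = 0 := by rw [hse, map_mul, constantCoeff_X, zero_mul]
  choose ei hei1 hei2 using iter σ e hse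
  have hX0 : (X : PowerSeries k) ≠ 0 := X_ne_zero
  -- constant coefficient of e is one
  have hζp : (constantCoeff e) ^ p = 1 := by
    have h1 := hei1 p
    rw [hσp] at h1
    have h2 : (X : PowerSeries k) * 1 = X * ei p := by rw [mul_one]; exact h1
    have h3 : ei p = 1 := (mul_left_cancel₀ hX0 h2).symm
    rw [← hei2 p, h3, map_one]
  have hζ : constantCoeff e = 1 := by
    have h1 : (constantCoeff e - 1) ^ p = 0 := by
      rw [sub_pow_char, hζp, one_pow, sub_self]
    exact sub_eq_zero.mp (pow_eq_zero_iff hp.ne_zero |>.mp h1)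
  have hm : m ≠ 0 := by
    intro hm
    rw [he, hm, pow_zero, one_mul, map_add, map_one] at hζ
    exact hε (by simpa using hζ)
  set U : PowerSeries k := ∏ i ∈ Finset.range p, ei i with hU
  set N : PowerSeries k := ∏ i ∈ Finset.range p, (σ ^ i) X with hN
  have hNU : N = X ^ p * U := by
    rw [hN, hU, Finset.prod_congr rfl (fun i _ => hei1 i), Finset.prod_mul_distrib,
      Finset.prod_const, Finset.card_range]
  have hU0 : constantCoeff U = 1 := by
    rw [hU, map_prod]
    apply Finset.prod_eq_one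
    intro i _
    rw [hei2, hζ, one_pow]
  have hUunit : IsUnit U := by
    rw [isUnit_iff_constantCoeff, hU0]; exact isUnit_one
  obtain ⟨V, hV⟩ := hUunit.exists_right_inv
  have hNσ : σ N = N := by
    have h1 : (∏ i ∈ Finset.range p, (σ ^ (i + 1)) X) * (σ ^ 0) X = N * (σ ^ p) X := by
      rw [← Finset.prod_range_succ' (fun i => (σ ^ i) (X : PowerSeries k)) p, Finset.prod_range_succ]
    have h2 : σ N = ∏ i ∈ Finset.range p, (σ ^ (i + 1)) X := by
      rw [hN, map_prod]
      apply Finset.prod_congr rfl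
      intro i _
      rw [pow_succ', AlgEquiv.mul_apply]
    rw [h2]
    rw [hσp, pow_zero] at h1
    exact mul_right_cancel₀ hX0 h1
  have hN0 : N ≠ 0 := by
    rw [hNU]
    exact mul_ne_zero (pow_ne_zero _ hX0) hUunit.ne_zero
  obtain ⟨q, hq⟩ : ∃ q, p = q + 1 := ⟨p - 1, by have := hp.pos; omega⟩
  have hq1 : 1 ≤ q := by have := hp.two_le; omega
  -- y integral
  set ι := algebraMap (PowerSeries k) (FractionRing (PowerSeries k)) with hι
  have hιinj : Function.Injective ι := IsFractionRing.injective _ _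
  set h : PowerSeries k := f * V ^ μ with hh
  have hhU : h * U ^ μ = f := by
    rw [hh, mul_assoc, ← mul_pow, mul_comm V, hV, one_pow, mul_one]
  clear_value h
  have heq1 : (ι (X ^ μ) * z) ^ p - ι (X ^ (μ * q)) * (ι (X ^ μ) * z) = ι h := by
    have hιX : ι X ≠ 0 := fun h' => hX0 (hιinj (by rw [h', map_zero]))
    have hιU : ι U ≠ 0 := fun h' => hUunit.ne_zero (hιinj (by rw [h', map_zero]))
    have h1 : (ι (X ^ μ) * z) ^ p - ι (X ^ (μ * q)) * (ι (X ^ μ) * z) = ι (X ^ μ) ^ p * (z ^ p - z) := by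
      rw [mul_pow, map_pow, map_pow, hq]; ring
    rw [h1, hz, hNU, map_mul, ← hhU, map_mul]
    simp only [map_pow]
    field_simp
    ring
  have hint : IsIntegral (PowerSeries k) (ι (X ^ μ) * z) := by
    refine ⟨Polynomial.X ^ p - (Polynomial.C (X ^ (μ * q)) * Polynomial.X + Polynomial.C h), ?_, ?_⟩
    · apply Polynomial.monic_X_pow_sub
      refine lt_of_le_of_lt Polynomial.degree_linear_le ?_
      exact_mod_cast hp.one_lt
    · simp only [Polynomial.eval₂_sub, Polynomial.eval₂_pow, Polynomial.eval₂_X, Polynomial.eval₂_add,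
        Polynomial.eval₂_mul, Polynomial.eval₂_C]
      rw [← hι, ← sub_sub, heq1, sub_self]
  obtain ⟨y, hy⟩ := IsIntegrallyClosed.isIntegral_iff.mp hint
  rw [← hι] at hy
  have heq2 : y ^ p - X ^ (μ * q) * y = h := by
    apply hιinj
    rw [map_sub, map_pow, map_mul, hy, heq1]
  have hh0 : constantCoeff h ≠ 0 := by
    intro h'
    apply hf0
    rw [← hhU, map_mul, h', zero_mul]
  have hy0 : constantCoeff y ≠ 0 := by
    intro h'
    apply hh0
    rw [← heq2, map_sub, map_pow, map_mul, h', mul_zero, zero_pow hp.ne_zero, sub_zero]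
  -- star
  have hstar : h * (σ X) ^ (μ * p) = σ h * X ^ (μ * p) := by
    have e1 : h * N ^ μ = f * X ^ (μ * p) := by
      rw [hNU, ← hhU, mul_pow]; ring
    have e2 : σ h * N ^ μ = f * (σ X) ^ (μ * p) := by
      have := congrArg σ e1
      rw [map_mul σ h, map_pow σ N, hNσ, map_mul σ f, map_pow σ X, hfσ] at this
      exact this
    have e3 : (h * (σ X) ^ (μ * p)) * N ^ μ = (σ h * X ^ (μ * p)) * N ^ μ := by
      calc (h * (σ X) ^ (μ * p)) * N ^ μ = (h * N ^ μ) * (σ X) ^ (μ * p) := by ring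
        _ = f * X ^ (μ * p) * (σ X) ^ (μ * p) := by rw [e1]
        _ = (f * (σ X) ^ (μ * p)) * X ^ (μ * p) := by ring
        _ = (σ h * N ^ μ) * X ^ (μ * p) := by rw [e2]
        _ = _ := by ring
    exact mul_right_cancel₀ (pow_ne_zero _ hN0) e3
  have hyp : y ^ p = h + X ^ (μ * q) * y := by rw [← heq2]; ring
  have hσyp : (σ y) ^ p = σ h + (σ X) ^ (μ * q) * σ y := by
    have := congrArg σ hyp
    rw [map_pow σ y, map_add σ h, map_mul σ (X ^ (μ * q)) y, map_pow σ X] at this
    exact this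
  set D : PowerSeries k := σ y * X ^ μ - y * (σ X) ^ μ with hD
  have hDp : D ^ p = (X * σ X) ^ (μ * q) * D := by
    have e1 : D ^ p = (σ y) ^ p * X ^ (μ * p) - y ^ p * (σ X) ^ (μ * p) := by
      rw [hD, sub_pow_char, mul_pow, mul_pow, ← pow_mul, ← pow_mul]
    have e2 : D ^ p = (σ X) ^ (μ * q) * σ y * X ^ (μ * p) - X ^ (μ * q) * y * (σ X) ^ (μ * p) := by
      rw [e1, hyp, hσyp, add_mul, add_mul, hstar]; ring
    rw [e2, hD, hq]; ring
  -- order of D
  obtain ⟨r, hr⟩ := one_add_pow (X ^ m * ε') μ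
  obtain ⟨g, hg⟩ := pow_dvd σ m ⟨ε', hs⟩ (m + 1) le_rfl y
  set W : PowerSeries k := X * g - y * (ε' * ((μ : PowerSeries k) + (X ^ m * ε') * r)) with hW
  have hDW : D = X ^ (μ + m) * W := by
    have e1 : σ y = y + X ^ (m + 1) * g := by rw [← hg]; ring
    rw [hD, hse, mul_pow, he, hr, e1, hW, pow_succ, pow_add]
    ring
  have hμk : (μ : k) ≠ 0 := by
    intro h'
    exact hpμ ((CharP.cast_eq_zero_iff k p μ).mp h')
  have hW0 : constantCoeff W ≠ 0 := by
    have : constantCoeff W = - (constantCoeff y * (constantCoeff ε' * (μ : k))) := by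
      rw [hW]
      simp [hm]
    rw [this]
    exact neg_ne_zero.mpr (mul_ne_zero hy0 (mul_ne_zero hε hμk))
  have hWo : W.order = 0 := by
    apply order_zero_of_unit
    rw [isUnit_iff_constantCoeff]
    exact isUnit_iff_ne_zero.mpr hW0
  have heo : e.order = 0 := by
    apply order_zero_of_unit
    rw [isUnit_iff_constantCoeff, hζ]
    exact isUnit_one
  have hDo : D.order = ((μ + m : ℕ) : ℕ∞) := by
    rw [hDW, order_mul, order_X_pow, hWo, add_zero]
  have hfin := congrArg order hDp
  rw [order_pow, order_mul, order_pow, order_mul, hse, order_mul, order_X, heo, hDo] at hfin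
  have hfin' : p * (μ + m) = (μ * q) * (1 + (1 + 0)) + (μ + m) := by
    have : ((p * (μ + m) : ℕ) : ℕ∞) = (((μ * q) * (1 + (1 + 0)) + (μ + m) : ℕ) : ℕ∞) := by
      simpa [nsmul_eq_mul, mul_add, mul_two] using hfin
    exact_mod_cast this
  rw [hq] at hfin'
  have h5 : q * (μ + m) = q * (2 * μ) := by
    have : (q + 1) * (μ + m) = q * (μ + m) + (μ + m) := by ring
    rw [this] at hfin'
    have h6 : q * (μ + m) = μ * q * (1 + (1 + 0)) := by omega
    rw [h6]; ring
  have h7 : μ + m = 2 * μ := Nat.eq_of_mul_eq_mul_left (by omega) h5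
  omega
end aux

/-- Let `k` be a field of characteristic `p > 0`, `A = k[[u]]`, and `σ` a `k`-algebra automorphism of
`A` of order exactly `p`, with ramification break `m`: `σ u - u` has order `m + 1`. Let `x = ∏_{i <
p} σ^i u` be the norm of `u`, let `f ∈ A` be `σ`-invariant with nonzero constant term (a unit of the
invariant ring `k[[x]]`), let `μ > 0` be prime to `p`, and let `z ∈ Frac(A)` satisfy the
Artin–Schreier equation `z ^ p - z = f / x ^ μ`. Then `μ = m`. (The published statement also records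
that `Frac(A) = Frac(A^σ)(z)`; that follows from the equation since `p` does not divide `μ`, so it
is not repeated as a hypothesis.) -/
theorem result
    (p : ℕ) [Fact p.Prime] (k : Type u) [Field k] [CharP k p]
    (σ : PowerSeries k ≃ₐ[k] PowerSeries k) (hσp : σ ^ p = 1) (hσ1 : σ ≠ 1)
    (m : ℕ) (hm : (σ PowerSeries.X - PowerSeries.X).order = ((m + 1 : ℕ) : ℕ∞))
    (f : PowerSeries k) (hfσ : σ f = f) (hf0 : PowerSeries.constantCoeff f ≠ 0)
    (μ : ℕ) (hμ : 0 < μ) (hpμ : ¬ p ∣ μ)
    (z : FractionRing (PowerSeries k))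
    (hz : z ^ p - z = algebraMap (PowerSeries k) (FractionRing (PowerSeries k)) f /
      algebraMap (PowerSeries k) (FractionRing (PowerSeries k))
        (∏ i ∈ Finset.range p, (σ ^ i) PowerSeries.X) ^ μ) :
    μ = m := by
  have h1 := PowerSeries.X_pow_order_dvd (φ := σ PowerSeries.X - PowerSeries.X)
  rw [hm] at h1
  obtain ⟨ε', hε'⟩ := h1
  have h2 : (((m + 1 : ℕ) : ℕ∞)).toNat = m + 1 := by simp
  rw [h2] at hε'
  refine main p σ hσp m ε' hε' ?_ f hfσ hf0 μ hμ hpμ z hz
  intro h0
  have h3 : PowerSeries.coeff (m + 1) (σ PowerSeries.X - PowerSeries.X) ≠ 0 :=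
    (PowerSeries.order_eq_nat.mp hm).1
  apply h3
  rw [hε', PowerSeries.coeff_X_pow_mul', if_pos le_rfl, Nat.sub_self]
  simpa using h0

end Groth.Agent.S15813
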