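import Groth.Statements.S15817
import Mathlib

set_option autoImplicit false
universe u v
open CategoryTheory
open CAlg

namespace Groth.Agent.S15817

/-- Let A be a commutative ring, M an A-module and P, Q submodules of M. Then the commuting square of
quotient projections with corners M/(P ∩ Q), M/P, M/Q and M/(P + Q) is cartesian in the category of
A-modules: M/(P ∩ Q) is the fibre product of M/P and M/Q over M/(P + Q). -/
theorem result (A : Type u) [CommRing A] (M : Type v) [AddCommGroup M] [Module A M]
    (P Q : Submodule A M) :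
    IsPullback (ModuleCat.ofHom (Submodule.factor (inf_le_left : P ⊓ Q ≤ P)))
      (ModuleCat.ofHom (Submodule.factor (inf_le_right : P ⊓ Q ≤ Q)))
      (ModuleCat.ofHom (Submodule.factor (le_sup_left : P ≤ P ⊔ Q)))
      (ModuleCat.ofHom (Submodule.factor (le_sup_right : Q ≤ P ⊔ Q))) := by
  apply IsPullback.of_map (forget (ModuleCat.{v} A))
  · ext x
    rfl
  · rw [Limits.Types.isPullback_iff]
    refine ⟨?_, ?_, ?_⟩
    · ext x
      obtain ⟨y, rfl⟩ := Submodule.Quotient.mk_surjective _ x
      rfl
    · intro x₁ x₂ h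
      obtain ⟨y₁, rfl⟩ := Submodule.Quotient.mk_surjective _ x₁
      obtain ⟨y₂, rfl⟩ := Submodule.Quotient.mk_surjective _ x₂
      have h1 : (Submodule.Quotient.mk y₁ : M ⧸ P) = Submodule.Quotient.mk y₂ := h.1
      have h2 : (Submodule.Quotient.mk y₁ : M ⧸ Q) = Submodule.Quotient.mk y₂ := h.2
      rw [Submodule.Quotient.eq] at h1 h2
      exact (Submodule.Quotient.eq _).mpr ⟨h1, h2⟩
    · intro x₂ x₃ h
      obtain ⟨y₂, rfl⟩ := Submodule.Quotient.mk_surjective _ x₂
      obtain ⟨y₃, rfl⟩ := Submodule.Quotient.mk_surjective _ x₃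
      have h1 : (Submodule.Quotient.mk y₂ : M ⧸ (P ⊔ Q)) = Submodule.Quotient.mk y₃ := h
      rw [Submodule.Quotient.eq] at h1
      obtain ⟨a, ha, b, hb, hab⟩ := Submodule.mem_sup.mp h1
      refine ⟨Submodule.Quotient.mk (y₂ - a), ?_, ?_⟩
      · show (Submodule.Quotient.mk (y₂ - a) : M ⧸ P) = Submodule.Quotient.mk y₂
        rw [Submodule.Quotient.eq]
        have : y₂ - a - y₂ = -a := by abel
        rw [this]; exact P.neg_mem ha
      · show (Submodule.Quotient.mk (y₂ - a) : M ⧸ Q) = Submodule.Quotient.mk y₃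
        rw [Submodule.Quotient.eq]
        have : y₂ - a - y₃ = b := by
          have h3 : y₂ - y₃ = a + b := hab.symm
          have h4 : y₂ - a - y₃ = (y₂ - y₃) - a := by abel
          rw [h4, h3]; abel
        rw [this]; exact hb

end Groth.Agent.S15817
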