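import Groth.Statements.S15835
import Mathlib.Tactic
import Mathlib.LinearAlgebra.Matrix.Charpoly.Coeff
import Mathlib.Algebra.CharP.Lemmas
import Mathlib.Algebra.Polynomial.Eval.Degree

set_option autoImplicit false
universe u
open SprIso

namespace Groth.Agent.S15835

/-- Over a commutative ring R of prime characteristic p, let n ≥ 1 and let p^m be the largest power of p
dividing n. The locus of n × n matrices with characteristic polynomial t^n is stable under adding a
scalar matrix a·1 with n·a = 0 exactly when a^(p^m) = 0: for X with characteristic polynomial t^n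
and such an a, the matrix X + a·1 has characteristic polynomial t^n if and only if a^(p^m) = 0.
(Stated on points with values in an arbitrary ring of characteristic p; the scheme-theoretic
assertion about the nilpotent scheme of SL_n is this statement for all such rings.) -/
theorem result (p : ℕ) [Fact p.Prime] (R : Type u) [CommRing R]
    [CharP R p] (n : ℕ) (hn : 0 < n) (X : Matrix (Fin n) (Fin n) R) (hX : X.charpoly = Polynomial.X ^ n)
    (a : R) (ha : (n : R) * a = 0) :
    (X + Matrix.scalar (Fin n) a).charpoly = Polynomial.X ^ n ↔ a ^ (p ^ padicValNat p n) = 0 := by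
  have hp : p.Prime := Fact.out
  -- charpoly of X + a is charpoly X composed with T - a
  have hcp : (X + Matrix.scalar (Fin n) a).charpoly = (Polynomial.X - Polynomial.C a) ^ n := by
    have h1 : (X + Matrix.scalar (Fin n) a).charpoly = X.charpoly.comp (Polynomial.X - Polynomial.C a) := by
      rw [Matrix.charpoly, Matrix.charpoly]
      have h2 : (Matrix.charmatrix (X + Matrix.scalar (Fin n) a)) =
          (Matrix.charmatrix X).map (Polynomial.compRingHom (Polynomial.X - Polynomial.C a)) := by
        ext i j
        by_cases hij : i = j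
        · subst hij
          simp [Matrix.charmatrix_apply, Matrix.scalar_apply]
          ring
        · simp [Matrix.charmatrix_apply, Matrix.scalar_apply, hij]
      rw [h2]
      have h3 := RingHom.map_det (Polynomial.compRingHom (Polynomial.X - Polynomial.C a)) (Matrix.charmatrix X)
      exact h3.symm
    rw [h1, hX, Polynomial.pow_comp, Polynomial.X_comp]
  rw [hcp]
  obtain ⟨n', hn'⟩ : p ^ padicValNat p n ∣ n := pow_padicValNat_dvd
  set q := p ^ padicValNat p n with hq
  have hnd : ¬ p ∣ n' := by
    rintro ⟨c, rfl⟩
    have h1 : p ^ (padicValNat p n + 1) ∣ n := by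
      rw [pow_succ, ← hq]
      exact ⟨c, by rw [hn']; ring⟩
    exact pow_succ_padicValNat_not_dvd hn.ne' h1
  have hn'0 : n' ≠ 0 := by rintro rfl; simp at hnd
  have hpoly : (Polynomial.X - Polynomial.C a : Polynomial R) ^ n =
      (Polynomial.X ^ q - Polynomial.C (a ^ q)) ^ n' := by
    conv_lhs => rw [hn', pow_mul]
    rw [hq, sub_pow_char_pow, map_pow]
  rw [hpoly]
  constructor
  · intro h
    -- compare coefficient of X^(q*(n'-1))
    have hqpos : 0 < q := by rw [hq]; exact pow_pos hp.pos _
    set b := a ^ q with hb
    have h1 : ((Polynomial.X ^ q - Polynomial.C b : Polynomial R) ^ n').coeff (q * (n' - 1)) =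
        (Polynomial.X ^ n : Polynomial R).coeff (q * (n' - 1)) := by rw [h]
    have h2 : ((Polynomial.X ^ q - Polynomial.C b : Polynomial R) ^ n') =
        Polynomial.expand R q ((Polynomial.X - Polynomial.C b) ^ n') := by
      rw [map_pow (Polynomial.expand R q), map_sub (Polynomial.expand R q), Polynomial.expand_X, Polynomial.expand_C]
    rw [h2, Polynomial.coeff_expand_mul' hqpos] at h1
    have h3 : (Polynomial.X ^ n : Polynomial R).coeff (q * (n' - 1)) = 0 := by
      rw [Polynomial.coeff_X_pow, if_neg]
      intro h4
      rw [hn'] at h4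
      have := Nat.eq_of_mul_eq_mul_left hqpos h4
      omega
    rw [h3, show (Polynomial.X - Polynomial.C b : Polynomial R) = Polynomial.X + Polynomial.C (-b) by rw [map_neg]; ring, Polynomial.coeff_X_add_C_pow] at h1
    have h4 : n' - (n' - 1) = 1 := by omega
    have h5 : n'.choose (n' - 1) = n' := by
      obtain ⟨j, rfl⟩ : ∃ j, n' = j + 1 := ⟨n' - 1, by omega⟩
      simp
    rw [h4, h5, pow_one] at h1
    have hu : IsUnit ((n' : ℕ) : R) := by
      rw [CharP.isUnit_natCast_iff hp]
      exact hnd
    obtain ⟨w, hw⟩ := hu
    rw [← hw] at h1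
    have h6 : -b = 0 := by
      have := congrArg (fun x => x * ((w⁻¹ : Rˣ) : R)) h1
      simp only [zero_mul] at this
      rwa [mul_assoc, Units.mul_inv, mul_one] at this
    exact neg_eq_zero.mp h6
  · intro h
    rw [h, map_zero, sub_zero, ← pow_mul, ← hn']

end Groth.Agent.S15835
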