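import Groth.Statements.S15838
import Mathlib.Tactic
import Mathlib.LinearAlgebra.JordanChevalley

set_option autoImplicit false
universe u
open scoped TensorProduct
open SprIso

namespace Groth.Agent.S15838

open Module in
theorem comm_adjoin {k : Type u} [Field k] 
    {V : Type u} [Ring V] [Algebra k V] {Z X z : V} (hZ : Commute Z X) (hz : z ∈ Algebra.adjoin k {X}) :
    Commute Z z := by
  have h1 : Algebra.adjoin k {X} ≤ Subalgebra.centralizer k ({Z} : Set V) := by
    apply Algebra.adjoin_le
    rintro _ rfl
    rw [SetLike.mem_coe, Subalgebra.mem_centralizer_iff]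
    rintro _ rfl
    exact hZ
  have h2 := h1 hz
  rw [Subalgebra.mem_centralizer_iff] at h2
  exact h2 Z rfl

theorem mem_adjoin {k : Type u} [Field k] [PerfectField k]
    {V : Type u} [AddCommGroup V] [Module k V] [FiniteDimensional k V]
    (X Y N : Module.End k V) (hY : Y.IsSemisimple) (hN : IsNilpotent N) (hc : Commute Y N)
    (hX : X = Y + N) : Y ∈ Algebra.adjoin k {X} ∧ N ∈ Algebra.adjoin k {X} := by
  obtain ⟨n, hn, s, hs, hnil, hss, hsum⟩ := Module.End.exists_isNilpotent_isSemisimple (K := k) (f := X)
  have hYX : Commute Y X := by rw [hX]; exact (Commute.refl Y).add_right hc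
  have hNX : Commute N X := by rw [hX]; exact hc.symm.add_right (Commute.refl N)
  have h1 : Y - s = n - N := by
    have : Y + N = n + s := by rw [← hX, hsum]
    rw [sub_eq_sub_iff_add_eq_add, this]
  have h2 : (Y - s).IsSemisimple := hY.sub_of_commute (comm_adjoin hYX hs) hss
  have h3 : IsNilpotent (Y - s) := by
    rw [h1]
    exact (comm_adjoin hNX hn).symm.isNilpotent_sub hnil hN
  have h4 := Module.End.eq_zero_of_isNilpotent_isSemisimple h3 h2
  have h5 : Y = s := sub_eq_zero.mp h4
  have h6 : N = n := by rw [h4] at h1; exact (sub_eq_zero.mp h1.symm).symm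
  exact ⟨h5 ▸ hs, h6 ▸ hn⟩

theorem commute_of_mem {k : Type u} [Field k] {V : Type u} [AddCommGroup V] [Module k V]
    (R : Type u) [CommRing R] [Algebra k R] (h : Module.End R (R ⊗[k] V))
    (X z : Module.End k V) (hh : Commute h (X.baseChange R)) (hz : z ∈ Algebra.adjoin k {X}) :
    Commute h (z.baseChange R) := by
  induction hz using Algebra.adjoin_induction with
  | mem x hx => rw [Set.mem_singleton_iff.mp hx]; exact hh
  | algebraMap r =>
    have : ((algebraMap k (Module.End k V)) r).baseChange R = (algebraMap k R r) • (1 : Module.End R (R ⊗[k] V)) := by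
      refine LinearMap.ext fun x => ?_
      induction x using TensorProduct.induction_on with
      | zero => simp
      | add x y hx hy => rw [map_add, map_add, hx, hy]
      | tmul a v =>
        rw [LinearMap.baseChange_tmul, Module.algebraMap_end_apply, LinearMap.smul_apply,
          Module.End.one_apply, TensorProduct.tmul_smul, algebraMap_smul]
    rw [this]
    exact (Commute.one_right h).smul_right _
  | add x y _ _ hx hy =>
    rw [LinearMap.baseChange_add]
    exact hx.add_right hy
  | mul x y _ _ hx hy =>
    rw [LinearMap.baseChange_mul]
    exact hx.mul_right hy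

/-- General linear group case: this is the case G = GL(V), to which the general case reduces along a
closed embedding. Let k be a perfect field and V a finite-dimensional k-vector space. If an
invertible endomorphism g of V has multiplicative Jordan decomposition g = t u (t semisimple, u
unipotent, t and u commuting), then the scheme-theoretic centralizer of g in GL(V) is the
centralizer of u inside the centralizer of t: for every commutative k-algebra R, an R-linear
endomorphism h of R ⊗ V commutes with g_R if and only if it commutes with both t_R and u_R.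
Likewise, if an endomorphism X of V has additive Jordan decomposition X = Y + N (Y semisimple, N
nilpotent, commuting), then h commutes with X_R if and only if it commutes with both Y_R and N_R. -/
theorem result (k : Type u) [Field k] [PerfectField k]
    (V : Type u) [AddCommGroup V] [Module k V] [FiniteDimensional k V]
    (R : Type u) [CommRing R] [Algebra k R] (h : Module.End R (R ⊗[k] V)) :
    (∀ (g t u : Module.End k V), IsUnit g → t.IsSemisimple → IsNilpotent (u - 1) → Commute t u → g = t * u →
      (Commute h (g.baseChange R) ↔ Commute h (t.baseChange R) ∧ Commute h (u.baseChange R))) ∧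
    (∀ (X Y N : Module.End k V), Y.IsSemisimple → IsNilpotent N → Commute Y N → X = Y + N →
      (Commute h (X.baseChange R) ↔ Commute h (Y.baseChange R) ∧ Commute h (N.baseChange R))) := by
  constructor
  · intro g t u hg ht hu htu hgtu
    have hN : IsNilpotent (t * (u - 1)) := by
      have hc : Commute t (u - 1) := htu.sub_right (Commute.one_right t)
      exact hc.isNilpotent_mul_left hu
    have hmem := mem_adjoin g t (t * (u - 1)) ht hN
      ((Commute.refl t).mul_right (htu.sub_right (Commute.one_right t))) (by rw [hgtu]; noncomm_ring)
    constructor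
    · intro hh
      have h1 := commute_of_mem R h g t hh hmem.1
      refine ⟨h1, ?_⟩
      -- t is a unit
      have hu' : IsUnit u := by
        have := hu.isUnit_add_one
        rwa [sub_add_cancel] at this
      have htu' : IsUnit t := by
        obtain ⟨u', rfl⟩ := hu'
        obtain ⟨g', rfl⟩ := hg
        refine ⟨⟨t, u' * (g'⁻¹ : (Module.End k V)ˣ), ?_, ?_⟩, rfl⟩
        · rw [← mul_assoc, ← hgtu, Units.mul_inv]
        · have h3 : (u' : Module.End k V) * t = g' := by rw [hgtu]; exact htu.symm
          have h4 : (g'⁻¹ : (Module.End k V)ˣ) * t = (t * (g'⁻¹ : (Module.End k V)ˣ) : Module.End k V) := by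
            have : Commute t (g' : Module.End k V) := by rw [hgtu]; exact (Commute.refl t).mul_right htu
            exact (this.units_inv_right).symm.eq
          rw [mul_assoc, h4, ← mul_assoc, h3, Units.mul_inv]
      obtain ⟨t', rfl⟩ := htu'
      have h5 : u = (t'⁻¹ : (Module.End k V)ˣ) * g := by rw [hgtu, Units.inv_mul_cancel_left]
      have h6 : Commute h (((t'⁻¹ : (Module.End k V)ˣ) : Module.End k V).baseChange R) := by
        have e1 : ((t' : Module.End k V).baseChange R) * (((t'⁻¹ : (Module.End k V)ˣ) : Module.End k V).baseChange R) = 1 := by
          rw [← LinearMap.baseChange_mul, Units.mul_inv]; exact LinearMap.baseChange_one _ _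
        have e2 : (((t'⁻¹ : (Module.End k V)ˣ) : Module.End k V).baseChange R) * ((t' : Module.End k V).baseChange R) = 1 := by
          rw [← LinearMap.baseChange_mul, Units.inv_mul]; exact LinearMap.baseChange_one _ _
        let T : (Module.End R (R ⊗[k] V))ˣ := ⟨_, _, e1, e2⟩
        have h7 : Commute h (T : Module.End R (R ⊗[k] V)) := h1
        exact h7.units_inv_right
      rw [h5, LinearMap.baseChange_mul]
      exact h6.mul_right hh
    · rintro ⟨h1, h2⟩
      rw [hgtu, LinearMap.baseChange_mul]
      exact h1.mul_right h2
  · intro X Y N hY hN hc hX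
    have hmem := mem_adjoin X Y N hY hN hc hX
    constructor
    · intro hh
      exact ⟨commute_of_mem R h X Y hh hmem.1, commute_of_mem R h X N hh hmem.2⟩
    · rintro ⟨h1, h2⟩
      rw [hX, LinearMap.baseChange_add]
      exact h1.add_right h2

end Groth.Agent.S15838
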