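import Groth.Statements.S15840
import Mathlib.Tactic

set_option autoImplicit false
universe u
open SprIso

namespace Groth.Agent.S15840

/-- For G = SL_n (n = r + 1) in characteristic p > 0 with n = m p^e, m prime to p, the identity
component of the centre is μ_{p^e} and the character of the i-th exterior power of the standard
representation takes the value C(n, i) α^i at a point α of μ_{p^e}; that this is constant is the
following identity, which alone is stated: for every commutative ring R of characteristic p and
every α in R with α^(p^e) = 1 one has C(n, i) α^i = C(n, i) in R, for all i. -/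
theorem result (p : ℕ) [Fact p.Prime] (R : Type u) [CommRing R]
    [CharP R p] (n : ℕ) (hn : 0 < n) (α : R) (hα : α ^ (p ^ padicValNat p n) = 1) (i : ℕ) :
    (n.choose i : R) * α ^ i = (n.choose i : R) := by
  by_cases hdvd : p ^ padicValNat p n ∣ i
  · obtain ⟨j, rfl⟩ := hdvd
    rw [pow_mul, hα, one_pow, mul_one]
  · have hp : p.Prime := Fact.out
    have hi0 : i ≠ 0 := by
      rintro rfl
      exact hdvd (dvd_zero _)
    have hpd : p ∣ n.choose i := by
      obtain ⟨i', rfl⟩ := Nat.exists_eq_succ_of_ne_zero hi0
      obtain ⟨n', rfl⟩ := Nat.exists_eq_succ_of_ne_zero hn.ne'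
      have h1 := Nat.add_one_mul_choose_eq n' i'
      by_contra hnd
      apply hdvd
      have hcop : Nat.Coprime (p ^ padicValNat p (n' + 1)) ((n' + 1).choose (i' + 1)) :=
        Nat.Coprime.pow_left _ ((Nat.Prime.coprime_iff_not_dvd hp).mpr hnd)
      have h2 : p ^ padicValNat p (n' + 1) ∣ (n' + 1).choose (i' + 1) * (i' + 1) := by
        rw [← h1]
        exact Dvd.dvd.mul_right pow_padicValNat_dvd _
      exact hcop.dvd_of_dvd_mul_left h2
    have : ((n.choose i : ℕ) : R) = 0 := by
      rw [CharP.cast_eq_zero_iff R p]
      exact hpd
    rw [this, zero_mul]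

end Groth.Agent.S15840
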