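import Groth.Statements.S15841
import Mathlib.Tactic

set_option autoImplicit false
universe u
open scoped TensorProduct
open SprIso

namespace Groth.Agent.S15841

section aux
variable {ι M N : Type u} [AddCommGroup M] [AddCommGroup N] (P : RootPairing ι ℤ M N)
variable (k : Type u) [Field k]

theorem corefl_eq (i : ι) : ((P.coreflection i : N ≃ₗ[ℤ] N) : N →ₗ[ℤ] N) =
    LinearMap.id - (LinearMap.toSpanSingleton ℤ N (P.coroot i)).comp (P.root' i) := by
  ext x
  simp [RootPairing.coreflection_apply]

theorem corefl_bc (i : ι) (y : k ⊗[ℤ] N) :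
    (((P.coreflection i : N ≃ₗ[ℤ] N) : N →ₗ[ℤ] N)).baseChange k y =
      y - (LinearMap.toSpanSingleton ℤ N (P.coroot i)).baseChange k (LinearMap.baseChange k (P.root' i) y) := by
  rw [corefl_eq, LinearMap.baseChange_sub, LinearMap.baseChange_comp, LinearMap.baseChange_id]
  rfl

theorem omega_same (i : ι) (ω : M) (h : P.coroot' i ω = 1) (z : k ⊗[ℤ] ℤ) :
    LinearMap.baseChange k (P.toLinearMap ω) ((LinearMap.toSpanSingleton ℤ N (P.coroot i)).baseChange k z) = z := by
  rw [← LinearMap.comp_apply, ← LinearMap.baseChange_comp]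
  have : (P.toLinearMap ω).comp (LinearMap.toSpanSingleton ℤ N (P.coroot i)) = LinearMap.id := by
    ext
    simpa using h
  rw [this, LinearMap.baseChange_id]
  rfl

theorem omega_diff (i : ι) (ω : M) (h : P.coroot' i ω = 0) (z : k ⊗[ℤ] ℤ) :
    LinearMap.baseChange k (P.toLinearMap ω) ((LinearMap.toSpanSingleton ℤ N (P.coroot i)).baseChange k z) = 0 := by
  rw [← LinearMap.comp_apply, ← LinearMap.baseChange_comp]
  have : (P.toLinearMap ω).comp (LinearMap.toSpanSingleton ℤ N (P.coroot i)) = 0 := by
    ext
    simpa using h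
  rw [this, LinearMap.baseChange_zero]
  rfl

theorem bc_prod_cons (i : ι) (l : List ι) (x : k ⊗[ℤ] N) :
    (((i :: l).map (fun i => ((P.coreflection i : N ≃ₗ[ℤ] N) : N →ₗ[ℤ] N))).prod).baseChange k x =
    (((P.coreflection i : N ≃ₗ[ℤ] N) : N →ₗ[ℤ] N)).baseChange k
      (((l.map (fun i => ((P.coreflection i : N ≃ₗ[ℤ] N) : N →ₗ[ℤ] N))).prod).baseChange k x) := by
  rw [List.map_cons, List.prod_cons, Module.End.mul_eq_comp, LinearMap.baseChange_comp]
  rfl

theorem omega_prod (ω : M) (l : List ι) (h : ∀ j ∈ l, P.coroot' j ω = 0) (x : k ⊗[ℤ] N) :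
    LinearMap.baseChange k (P.toLinearMap ω)
      (((l.map (fun i => ((P.coreflection i : N ≃ₗ[ℤ] N) : N →ₗ[ℤ] N))).prod).baseChange k x) =
    LinearMap.baseChange k (P.toLinearMap ω) x := by
  induction l with
  | nil =>
    rw [List.map_nil, List.prod_nil, Module.End.one_eq_id, LinearMap.baseChange_id]
    rfl
  | cons i l ih =>
    rw [bc_prod_cons, corefl_bc, map_sub, omega_diff P k i ω (h i (by simp)), sub_zero]
    exact ih (fun j hj => h j (by simp [hj]))

theorem main (b : P.Base)
    (hsc : ∀ i ∈ b.support, ∃ ω : M, P.coroot' i ω = 1 ∧ ∀ j ∈ b.support, j ≠ i → P.coroot' j ω = 0)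
    (l : List ι) (hl : l.Nodup) (hlb : ∀ i ∈ l, i ∈ b.support) (H : k ⊗[ℤ] N)
    (hH : ((l.map (fun i => ((P.coreflection i : N ≃ₗ[ℤ] N) : N →ₗ[ℤ] N))).prod).baseChange k H = H) :
    ∀ i ∈ l, LinearMap.baseChange k (P.root' i) H = 0 := by
  induction l with
  | nil => simp
  | cons i l ih =>
    obtain ⟨hil, hl'⟩ := List.nodup_cons.mp hl
    obtain ⟨ω, hω1, hω2⟩ := hsc i (hlb i (by simp))
    rw [bc_prod_cons, corefl_bc] at hH
    set y := ((l.map (fun i => ((P.coreflection i : N ≃ₗ[ℤ] N) : N →ₗ[ℤ] N))).prod).baseChange k H with hy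
    have h1 : LinearMap.baseChange k (P.toLinearMap ω) y = LinearMap.baseChange k (P.toLinearMap ω) H := by
      apply omega_prod
      intro j hj
      apply hω2 j (hlb j (by simp [hj]))
      rintro rfl
      exact hil hj
    have h2 := congrArg (LinearMap.baseChange k (P.toLinearMap ω)) hH
    rw [map_sub, omega_same P k i ω hω1, h1] at h2
    have h3 : LinearMap.baseChange k (P.root' i) y = 0 := by
      have := sub_eq_self.mp h2
      exact this
    rw [h3, map_zero, sub_zero] at hH
    intro j hj
    rcases List.mem_cons.mp hj with rfl | hj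
    · rw [← hH]; exact h3
    · exact ih hl' (fun j hj => hlb j (by simp [hj])) hH j hj
end aux

/-- For a connected reductive group G with maximal torus T whose derived group is simply connected, and
a Coxeter element w (the product of the simple reflections, each once, in any order), an element of
Lie T = k ⊗ X_*(T) fixed by Ad(w) is killed by the differential of every simple root, i.e. lies in
the centre of Lie G. In root-datum form: let P be a root pairing over ℤ with character lattice M and
cocharacter lattice N, b a base, and suppose each simple coroot has a dual character ω_i in M with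
⟨ω_i, α_i^∨⟩ = 1 and ⟨ω_i, α_j^∨⟩ = 0 for every other simple j (the simply connected derived group
hypothesis). If l lists the simple roots without repetition, w^∨ is the composite of the
coreflections along l acting on N, k is a field and H in k ⊗ N satisfies w^∨_k H = H, then (α_i)_k H
= 0 for every simple root α_i, where (α_i)_k is the base change to k of the functional ⟨α_i, −⟩ on
N. (Stated for an arbitrary field k; the published setting is an algebraically closed field, and the
argument does not depend on k.) -/
theorem result {ι M N : Type u} [AddCommGroup M] [AddCommGroup N]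
    (P : RootPairing ι ℤ M N) (b : P.Base)
    (hsc : ∀ i ∈ b.support, ∃ ω : M, P.coroot' i ω = 1 ∧ ∀ j ∈ b.support, j ≠ i → P.coroot' j ω = 0)
    (l : List ι) (hl : l.Nodup) (hlb : ∀ i : ι, i ∈ l ↔ i ∈ b.support)
    (k : Type u) [Field k] (H : k ⊗[ℤ] N)
    (hH : ((l.map (fun i => ((P.coreflection i : N ≃ₗ[ℤ] N) : N →ₗ[ℤ] N))).prod).baseChange k H = H) :
    ∀ i ∈ b.support, (P.root' i).baseChange k H = 0 := by
  intro i hi
  exact main P k b hsc l hl (fun i hi => (hlb i).mp hi) H hH i ((hlb i).mpr hi)

end Groth.Agent.S15841
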