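import Groth.Statements.S15893
import Mathlib

set_option autoImplicit false
universe u v w
open CartDual

namespace Groth.Agent.S15893

section aux
variable (R : Type*) [CommRing R] (A : Type*) [Ring A] [Bialgebra R A] [Module.Finite R A] [Module.Projective R A]

theorem eval_bijective : Function.Bijective (CartDual.eval R A) := by
  have h1 : Function.Bijective ((toDual R A).toLinearMap.dualMap) := (toDual R A).dualMap.bijective
  have h2 : Function.Bijective (Module.Dual.eval R A) := Module.bijective_dual_eval R A
  have h3 : Function.Bijective (toDual R (D R A)).symm := (toDual R (D R A)).symm.bijective
  exact h3.comp (h1.comp h2)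
end aux

/-- Let R be a commutative ring and A, B commutative and cocommutative Hopf algebras over R, each
finitely generated and projective as an R-module (finite locally free commutative group schemes G =
Spec A, H = Spec B over Spec R). Then Cartier duality is a fully faithful contravariant functor: the
map sending a bialgebra homomorphism f : A → B (a homomorphism of group schemes H → G) to its
transpose between the dual Hopf algebras, Hom_R(B, R) → Hom_R(A, R) (the dual homomorphism G^D →
H^D), is a bijection between bialgebra homomorphisms A → B and bialgebra homomorphisms Hom_R(B, R) →
Hom_R(A, R). (The published statement also asserts that the canonical map to the double dual is an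
isomorphism, which makes duality an involutory anti-equivalence; that part is not restated here. The
published notes work over a Noetherian base ring; the row allows any commutative base ring.) -/
theorem result (R : Type u) [CommRing R] (A : Type v) (B : Type w)
    [CommRing A] [HopfAlgebra R A] [Coalgebra.IsCocomm R A] [Module.Finite R A] [Module.Projective R A]
    [CommRing B] [HopfAlgebra R B] [Coalgebra.IsCocomm R B] [Module.Finite R B] [Module.Projective R B] :
    Function.Bijective (fun f : A →ₐc[R] B => CartDual.transpose R f) := by
  constructor
  · intro f f' h
    apply DFunLike.ext
    intro a
    apply (eval_bijective R B).1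
    apply WithConv.ext
    apply LinearMap.ext
    intro x
    have h1 := DFunLike.congr_fun h x
    have h2 : CartDual.transpose R f x a = CartDual.transpose R f' x a := by
      have : CartDual.transpose R f x = CartDual.transpose R f' x := h1
      rw [this]
    exact h2
  · intro F
    have hex : ∃ E : D R (D R B) →ₐc[R] B, ∀ b : B, E (CartDual.eval R B b) = b := by
      have e' := BialgEquiv.ofBijective (R := R) (A := B) (B := D R (D R B)) (CartDual.eval R B) (eval_bijective R B)
      let e := BialgEquiv.ofBijective (R := R) (A := B) (B := D R (D R B)) (CartDual.eval R B) (eval_bijective R B)
      refine ⟨e.symm.toBialgHom, ?_⟩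
      intro b
      exact e.symm_apply_apply b
    obtain ⟨E, hE⟩ := hex
    refine ⟨E.comp ((CartDual.transpose R F).comp (CartDual.eval R A)), ?_⟩
    apply DFunLike.ext
    intro x
    apply WithConv.ext
    apply LinearMap.ext
    intro a
    obtain ⟨b, hb⟩ := (eval_bijective R B).2 ((CartDual.transpose R F) (CartDual.eval R A a))
    have h1 : E ((CartDual.transpose R F) (CartDual.eval R A a)) = b := by rw [← hb, hE]
    have h2 : x (E ((CartDual.transpose R F) (CartDual.eval R A a))) = (CartDual.eval R B b) x := by
      rw [h1]; rfl
    rw [hb] at h2
    exact h2

end Groth.Agent.S15893
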