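import Groth.Statements.S15897
import Mathlib
-- import your own Groth.Agent.* helpers here

set_option autoImplicit false
universe u v
open CartDual

namespace Groth.Agent.S15897

/-- Let R be a commutative ring and A a commutative Hopf algebra over R which is finitely generated and
projective as an R-module (a finite locally free R-group scheme G = Spec A, not assumed
commutative). If the convolution product on the dual Hopf algebra Hom_R(A, R) is commutative, then A
is cocommutative, i.e. G is a commutative group scheme. (The dual Hopf algebra is commutative
exactly when A is cocommutative; the other implication is immediate and not stated. The published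
notes work over a Noetherian base ring; the row allows any commutative base ring.) -/
theorem result (R : Type u) [CommRing R] (A : Type v) [CommRing A] [HopfAlgebra R A]
    [Module.Finite R A] [Module.Projective R A] (h : ∀ x y : CartDual.D R A, x * y = y * x) :
    Coalgebra.IsCocomm R A := by
  refine ⟨?_⟩
  ext a
  rw [← sub_eq_zero, ← Module.forall_dual_apply_eq_zero_iff R]
  intro φ
  obtain ⟨t, rfl⟩ := (CartDual.dualTensorEquiv R A A).surjective φ
  rw [CartDual.dualTensorEquiv_apply, map_sub, sub_eq_zero]
  induction t using TensorProduct.induction_on with
  | zero => simp
  | add s t hs ht => rw [map_add, LinearMap.add_apply, LinearMap.add_apply, hs, ht]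
  | tmul f g =>
    have h1 := h (WithConv.toConv f) (WithConv.toConv g)
    have h2 : (WithConv.toConv f * WithConv.toConv g) a = (WithConv.toConv g * WithConv.toConv f) a := by rw [h1]
    rw [LinearMap.convMul_apply, LinearMap.convMul_apply] at h2
    have e1 : ∀ z : TensorProduct R A A, LinearMap.mul' R R (TensorProduct.map f g z) =
        TensorProduct.dualDistrib R A A (TensorProduct.tmul R f g) z := by
      intro z
      induction z using TensorProduct.induction_on with
      | zero => simp
      | add s t hs ht => rw [map_add, map_add, map_add, hs, ht]
      | tmul x y => simp
    have e2 : ∀ z : TensorProduct R A A, LinearMap.mul' R R (TensorProduct.map g f z) =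
        TensorProduct.dualDistrib R A A (TensorProduct.tmul R f g) (TensorProduct.comm R A A z) := by
      intro z
      induction z using TensorProduct.induction_on with
      | zero => simp
      | add s t hs ht => rw [map_add, map_add, map_add, map_add, hs, ht]
      | tmul x y => simp [mul_comm]
    have h3 := e1 (CoalgebraStruct.comul a)
    have h4 := e2 (CoalgebraStruct.comul a)
    show TensorProduct.dualDistrib R A A (TensorProduct.tmul R f g) (TensorProduct.comm R A A (CoalgebraStruct.comul a)) = TensorProduct.dualDistrib R A A (TensorProduct.tmul R f g) (CoalgebraStruct.comul a)
    rw [← h3, ← h4]
    exact h2.symm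

end Groth.Agent.S15897
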