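import Groth.Statements.S16014
import Mathlib
-- import your own Groth.Agent.* helpers here

set_option autoImplicit false
universe u
open W4c3ghconstell

namespace Groth.Agent.S16014

/-- Let B = ⊕_{n ∈ ℤ} ⊕_τ B^n_τ be a bigraded finite-dimensional vector space, τ running over a finite
index set, with B^n = 0 for n < −N and for n > M (N, M integers); put d(n, τ) = dim B^n_τ. For
rational numbers φ_τ write φ(C) = Σ_τ φ_τ dim C_τ for a τ-graded piece C, and let B^{≥n} = ⊕_{m ≥ n}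
B^m, so that dim B^{≥n}_τ = Σ_{n ≤ m ≤ M} d(m, τ). Then Σ_{−N ≤ n ≤ M} n · φ(B^n) = Σ_{−N+1 ≤ n ≤ M}
φ(B^{≥n}) − N · φ(B). (Stated directly on the dimension function d.) -/
theorem result {τ : Type u} [Fintype τ] (d : ℤ → τ → ℕ) (φ : τ → ℚ) (N M : ℤ)
    (hN : ∀ n, n < -N → d n = 0) (hM : ∀ n, M < n → d n = 0) :
    ∑ n ∈ Finset.Icc (-N) M, (n : ℚ) * (∑ t, φ t * (d n t : ℚ)) =
      ∑ n ∈ Finset.Icc (-N + 1) M, (∑ t, φ t * (∑ m ∈ Finset.Icc n M, (d m t : ℚ))) -
        (N : ℚ) * (∑ t, φ t * (∑ m ∈ Finset.Icc (-N) M, (d m t : ℚ))) := by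
  set D : ℤ → ℚ := fun n => ∑ t, φ t * (d n t : ℚ) with hD
  have h1 : ∀ s : Finset ℤ, ∑ t, φ t * (∑ m ∈ s, (d m t : ℚ)) = ∑ m ∈ s, D m := by
    intro s
    simp only [hD, Finset.mul_sum]
    exact Finset.sum_comm
  simp only [h1]
  have h2 : ∑ n ∈ Finset.Icc (-N + 1) M, ∑ m ∈ Finset.Icc n M, D m = ∑ m ∈ Finset.Icc (-N) M, ((m : ℚ) + N) * D m := by
    rw [Finset.sum_comm' (t' := Finset.Icc (-N) M) (s' := fun m => Finset.Icc (-N + 1) m)]
    · refine Finset.sum_congr rfl fun m hm => ?_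
      rw [Finset.sum_const, Int.card_Icc, nsmul_eq_mul]
      congr 1
      rw [Finset.mem_Icc] at hm
      have : ((m + 1 - (-N + 1)).toNat : ℤ) = m + N := by omega
      exact_mod_cast this
    · intro a b
      simp only [Finset.mem_Icc]
      omega
  rw [h2, Finset.mul_sum, ← Finset.sum_sub_distrib]
  refine Finset.sum_congr rfl fun m _ => ?_
  show (m : ℚ) * D m = _
  ring

end Groth.Agent.S16014
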