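import Groth.Statements.S16015
import Mathlib
-- import your own Groth.Agent.* helpers here

set_option autoImplicit false
universe u v w
open W4c3ghconstell

namespace Groth.Agent.S16015

open scoped TensorProduct

/-- Let B be a commutative ring, E a B-module, F a finitely generated projective B-module and β : E → F
a B-linear map. Then there is a unique ideal I of B such that for every commutative B-algebra C the
base change β_C : C ⊗ E → C ⊗ F is zero if and only if the structure map B → C kills I. (The
published statement is for a homomorphism of modules on a scheme T into a locally free module and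
produces a closed subscheme T₀ through which a morphism factors exactly when the pulled-back
homomorphism vanishes; this row is the case of an affine T with affine test schemes and F of finite
rank, to which it reduces.) -/
theorem result {B : Type u} [CommRing B]
    {E : Type v} [AddCommGroup E] [Module B E]
    {F : Type w} [AddCommGroup F] [Module B F] [Module.Finite B F] [Module.Projective B F]
    (β : E →ₗ[B] F) :
    ∃! I : Ideal B, ∀ (C : Type u) [CommRing C] [Algebra B C],
      LinearMap.baseChange C β = 0 ↔ I ≤ RingHom.ker (algebraMap B C) := by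
  obtain ⟨n, f, g, hf, hg, hfg⟩ := Module.Finite.exists_comp_eq_id_of_projective B F
  let I : Ideal B := Ideal.span {b | ∃ (φ : F →ₗ[B] B) (e : E), b = φ (β e)}
  have key : ∀ (C : Type u) [CommRing C] [Algebra B C],
      LinearMap.baseChange C β = 0 ↔ I ≤ RingHom.ker (algebraMap B C) := by
    intro C _ _
    constructor
    · intro h
      rw [Ideal.span_le]
      rintro _ ⟨φ, e, rfl⟩
      have h1 : LinearMap.baseChange C β (1 ⊗ₜ e) = 0 := by rw [h]; rfl
      have h2 := congrArg (LinearMap.baseChange C φ) h1
      rw [LinearMap.baseChange_tmul, LinearMap.baseChange_tmul, map_zero] at h2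
      have h3 := congrArg (TensorProduct.rid B C) h2
      rw [TensorProduct.rid_tmul, map_zero] at h3
      rw [SetLike.mem_coe, RingHom.mem_ker, Algebra.algebraMap_eq_smul_one]
      exact h3
    · intro h
      ext e
      show (1 : C) ⊗ₜ[B] β e = 0
      have h1 : β e = ∑ i, (g (β e) i) • f (Pi.single i 1) := by
        conv_lhs => rw [show β e = f (g (β e)) from (LinearMap.congr_fun hfg (β e)).symm]
        conv_lhs => rw [pi_eq_sum_univ' (g (β e)), map_sum]
        refine Finset.sum_congr rfl fun i _ => ?_
        rw [map_smul]
      rw [h1, TensorProduct.tmul_sum]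
      refine Finset.sum_eq_zero fun i _ => ?_
      rw [TensorProduct.tmul_smul, TensorProduct.smul_tmul', ← Algebra.algebraMap_eq_smul_one]
      have : g (β e) i ∈ RingHom.ker (algebraMap B C) :=
        h (Ideal.subset_span ⟨(LinearMap.proj i) ∘ₗ g, e, rfl⟩)
      rw [(RingHom.mem_ker).1 this, TensorProduct.zero_tmul]
  refine ⟨I, key, ?_⟩
  intro J hJ
  have h1 : J ≤ I := by
    have := (hJ (B ⧸ I)).1 ((key (B ⧸ I)).2 (by rw [Ideal.Quotient.algebraMap_eq, Ideal.mk_ker]))
    rwa [Ideal.Quotient.algebraMap_eq, Ideal.mk_ker] at this
  have h2 : I ≤ J := by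
    have := (key (B ⧸ J)).1 ((hJ (B ⧸ J)).2 (by rw [Ideal.Quotient.algebraMap_eq, Ideal.mk_ker]))
    rwa [Ideal.Quotient.algebraMap_eq, Ideal.mk_ker] at this
  exact le_antisymm h1 h2

end Groth.Agent.S16015
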