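import Groth.Statements.S16016
import Mathlib
-- import your own Groth.Agent.* helpers here

set_option autoImplicit false
universe u
open W4c3ghconstell

namespace Groth.Agent.S16016

/-- Let k be a field with 2 ≠ 0, index k⁶ by two copies of {0,1,2} (basis vectors p₁, p₂, p₃ in the
first copy and p₄, p₅, p₆ in the second), let Q be the symmetric matrix with blocks ((0, 1), (1,
0)), so that the form it defines pairs pᵢ with pᵢ₊₃, and let W₀ be the span of p₁ and p₂. Then a 6 ×
6 matrix A satisfies AᵀQ + QA = 0 (A lies in the orthogonal Lie algebra of Q) and has the image of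
Aᵀ contained in W₀ if and only if A = a · (E₄₂ − E₅₁) for some scalar a, where Eᵢⱼ is the matrix
unit. (The lemma in the source concludes that the set of such A inside a certain nilpotent orbit
closure of this Lie algebra is one-dimensional; this row is the computation its proof performs,
which determines all such A in the Lie algebra. Characteristic 2 is excluded: there E₁₄ᵀ also
qualifies.) -/
theorem result (k : Type u) [Field k] (h2 : (2 : k) ≠ 0)
    (A : Matrix (Fin 3 ⊕ Fin 3) (Fin 3 ⊕ Fin 3) k) :
    (A.transpose * Matrix.fromBlocks (0 : Matrix (Fin 3) (Fin 3) k) 1 1 0 +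
        Matrix.fromBlocks (0 : Matrix (Fin 3) (Fin 3) k) 1 1 0 * A = 0 ∧
      LinearMap.range (Matrix.mulVecLin A.transpose) ≤
        Submodule.span k {Pi.single (Sum.inl 0 : Fin 3 ⊕ Fin 3) (1 : k), Pi.single (Sum.inl 1 : Fin 3 ⊕ Fin 3) (1 : k)}) ↔
    ∃ a : k, A = a • (Matrix.single (Sum.inr 0) (Sum.inl 1) (1 : k) - Matrix.single (Sum.inr 1) (Sum.inl 0) (1 : k)) := by
  obtain ⟨a, b, c, d, rfl⟩ : ∃ a b c d, A = Matrix.fromBlocks a b c d :=
    ⟨A.toBlocks₁₁, A.toBlocks₁₂, A.toBlocks₂₁, A.toBlocks₂₂, (Matrix.fromBlocks_toBlocks A).symm⟩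
  constructor
  · rintro ⟨h1, h3⟩
    have hrow : ∀ (i j : Fin 3 ⊕ Fin 3), j ≠ Sum.inl 0 → j ≠ Sum.inl 1 → (Matrix.fromBlocks a b c d) i j = 0 := by
      intro i j hj0 hj1
      have h4 : (Matrix.mulVecLin (Matrix.fromBlocks a b c d).transpose) (Pi.single i 1) ∈ LinearMap.range (Matrix.mulVecLin (Matrix.fromBlocks a b c d).transpose) := ⟨_, rfl⟩
      have h5 := h3 h4
      rw [Submodule.mem_span_pair] at h5
      obtain ⟨s, t, hst⟩ := h5
      have h6 := congrFun hst j
      simp [Matrix.mulVec_single, hj0, hj1] at h6
      exact h6.symm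
    rw [Matrix.fromBlocks_transpose, Matrix.fromBlocks_multiply, Matrix.fromBlocks_multiply, Matrix.fromBlocks_add, ← Matrix.fromBlocks_zero] at h1
    rw [Matrix.fromBlocks_inj] at h1
    simp at h1
    obtain ⟨e1, e2, e3, e4⟩ := h1
    have hb : b = 0 := by
      ext i j
      exact hrow (Sum.inl i) (Sum.inr j) (by simp) (by simp)
    have hd : d = 0 := by
      ext i j
      exact hrow (Sum.inr i) (Sum.inr j) (by simp) (by simp)
    have ha : a = 0 := by
      rw [hd] at e2
      simpa using e2
    have hc : ∀ i j, c j i = - c i j := by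
      intro i j
      have := congrFun (congrFun e1 i) j
      simp at this
      linear_combination this
    have hc0 : ∀ i, c i i = 0 := by
      intro i
      have := hc i i
      have h5 : 2 * c i i = 0 := by linear_combination this
      exact (mul_eq_zero.1 h5).resolve_left h2
    have hc2 : ∀ i, c i 2 = 0 := fun i => hrow (Sum.inr i) (Sum.inl 2) (by simp) (by simp)
    refine ⟨c 0 1, ?_⟩
    subst hb hd ha
    ext i j
    rcases i with i | i <;> rcases j with j | j
    · simp
    · simp
    · have h20 := hc 0 2
      have h21 := hc 1 2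
      have h10 := hc 0 1
      fin_cases i <;> fin_cases j <;> simp [hc0, hc2, h20, h21, h10, Matrix.single_apply]
    · simp
  · rintro ⟨a', ha'⟩
    have hb : b = 0 := by
      ext i j
      have := congrFun (congrFun ha' (Sum.inl i)) (Sum.inr j)
      simpa [Matrix.single_apply] using this
    have hd : d = 0 := by
      ext i j
      have := congrFun (congrFun ha' (Sum.inr i)) (Sum.inr j)
      simpa [Matrix.single_apply] using this
    have ha : a = 0 := by
      ext i j
      have := congrFun (congrFun ha' (Sum.inl i)) (Sum.inl j)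
      simpa [Matrix.single_apply] using this
    have hc : c = a' • (Matrix.single 0 1 1 - Matrix.single 1 0 1) := by
      ext i j
      have := congrFun (congrFun ha' (Sum.inr i)) (Sum.inl j)
      simpa [Matrix.single_apply] using this
    have hct : c.transpose = - c := by
      rw [hc]
      simp only [Matrix.transpose_sub, Matrix.transpose_smul, Matrix.transpose_single]
      rw [← smul_neg, neg_sub]
    subst hb hd ha
    constructor
    · rw [Matrix.fromBlocks_transpose, Matrix.fromBlocks_multiply, Matrix.fromBlocks_multiply, Matrix.fromBlocks_add, ← Matrix.fromBlocks_zero]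
      rw [Matrix.fromBlocks_inj]
      simp [hct]
    · rintro _ ⟨v, rfl⟩
      rw [Submodule.mem_span_pair]
      refine ⟨-a' * v (Sum.inr 1), a' * v (Sum.inr 0), ?_⟩
      ext j
      rw [hc]
      rcases j with j | j
      · fin_cases j <;> simp [Matrix.mulVec, Matrix.vecMul, dotProduct, Fintype.sum_sum_type, Fin.sum_univ_three, Matrix.single_apply, Pi.single_apply, mul_comm]
      · simp [Matrix.mulVec, Matrix.vecMul, dotProduct, Fintype.sum_sum_type, Fin.sum_univ_three, Matrix.single_apply, Pi.single_apply]

end Groth.Agent.S16016
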