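import Groth.Statements.S16017
import Mathlib
-- import your own Groth.Agent.* helpers here

set_option autoImplicit false
universe u
open W4c3ghconstell

namespace Groth.Agent.S16017

/-- Let ι index the irreducible representations, θ : ι → ℚ a weight negative at only finitely many
indices (the finite set D₋), h h' : ι → ℕ with h' ≤ h pointwise (the isotypic dimensions of an
object and of a sub-object) and Σ_i θ_i h_i summable. For a finite set D of indices put S_D = Σ_{i ∉
D} θ_i h_i, d = #(D ∖ D₋), and θ̃_D = Σ_{i ∈ D} θ_i h'_i + (S_D / d) · Σ_{i ∈ D ∖ D₋} h'_i / h_i,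
the modified weight attached to the parameters chosen for D (for D ⊇ D₋ the first sum is the
negative part plus the part over D ∖ D₋). Then θ̃_D tends to Σ_i θ_i h'_i as D grows through the
finite subsets of ι. (Here D runs over all finite sets of indices and a quotient by zero is zero;
the source lets D run over the finite subsets of the locus θ ≠ 0 containing D₋, and the same tail
estimate gives both.) -/
theorem result {ι : Type u} [DecidableEq ι] (θ : ι → ℚ) (h h' : ι → ℕ)
    (hle : ∀ i, h' i ≤ h i) (hfin : {i | θ i < 0}.Finite)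
    (hsum : Summable (fun i => (θ i : ℝ) * (h i : ℝ))) :
    Filter.Tendsto
      (fun D : Finset ι =>
        (∑ i ∈ D, (θ i : ℝ) * (h' i : ℝ)) +
          ((∑' i, if i ∈ D then (0 : ℝ) else (θ i : ℝ) * (h i : ℝ)) / ((D \ hfin.toFinset).card : ℝ)) *
            ∑ i ∈ D \ hfin.toFinset, ((h' i : ℝ) / (h i : ℝ)))
      Filter.atTop (nhds (∑' i, (θ i : ℝ) * (h' i : ℝ))) := by
  have hs' : Summable (fun i => (θ i : ℝ) * (h' i : ℝ)) := by
    refine Summable.of_norm_bounded hsum.norm fun i => ?_
    rw [norm_mul, norm_mul]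
    refine mul_le_mul_of_nonneg_left ?_ (norm_nonneg _)
    rw [Real.norm_natCast, Real.norm_natCast]
    exact_mod_cast hle i
  have ht : Filter.Tendsto (fun D : Finset ι => ∑' i, if i ∈ D then (0 : ℝ) else (θ i : ℝ) * (h i : ℝ)) Filter.atTop (nhds 0) := by
    have h1 : ∀ D : Finset ι, (∑' i, if i ∈ D then (0 : ℝ) else (θ i : ℝ) * (h i : ℝ)) =
        (∑' i, (θ i : ℝ) * (h i : ℝ)) - ∑ i ∈ D, (θ i : ℝ) * (h i : ℝ) := by
      intro D
      have e1 : ∀ i, (if i ∈ D then (0 : ℝ) else (θ i : ℝ) * (h i : ℝ)) = (θ i : ℝ) * (h i : ℝ) - (if i ∈ D then (θ i : ℝ) * (h i : ℝ) else 0) := by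
        intro i
        split_ifs <;> simp
      simp_rw [e1]
      have e2 : Summable (fun i => if i ∈ D then (θ i : ℝ) * (h i : ℝ) else 0) := summable_of_ne_finset_zero (s := D) (fun i hi => by simp [hi])
      rw [hsum.tsum_sub e2]
      congr 1
      rw [tsum_eq_sum (s := D) (fun i hi => by simp [hi])]
      exact Finset.sum_congr rfl fun i hi => by simp [hi]
    simp_rw [h1]
    have h2 := (tendsto_const_nhds (x := ∑' i, (θ i : ℝ) * (h i : ℝ)) (f := (Filter.atTop : Filter (Finset ι)))).sub hsum.hasSum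
    rwa [sub_self] at h2
  have hz : Filter.Tendsto (fun D : Finset ι => ((∑' i, if i ∈ D then (0 : ℝ) else (θ i : ℝ) * (h i : ℝ)) / ((D \ hfin.toFinset).card : ℝ)) *
            ∑ i ∈ D \ hfin.toFinset, ((h' i : ℝ) / (h i : ℝ))) Filter.atTop (nhds 0) := by
    refine squeeze_zero_norm (fun D => ?_) (by simpa using ht.norm)
    rw [norm_mul, norm_div, Real.norm_natCast]
    have hb : ‖∑ i ∈ D \ hfin.toFinset, ((h' i : ℝ) / (h i : ℝ))‖ ≤ ((D \ hfin.toFinset).card : ℝ) := by
      refine (norm_sum_le _ _).trans ?_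
      have : ∀ i ∈ D \ hfin.toFinset, ‖(h' i : ℝ) / (h i : ℝ)‖ ≤ 1 := fun i _ => by
        rw [norm_div, Real.norm_natCast, Real.norm_natCast]
        exact div_le_one_of_le₀ (by exact_mod_cast hle i) (by positivity)
      refine (Finset.sum_le_sum this).trans ?_
      simp
    rcases Nat.eq_zero_or_pos (D \ hfin.toFinset).card with h0 | hpos
    · rw [h0]; simp
    · have hp : (0 : ℝ) < ((D \ hfin.toFinset).card : ℝ) := by exact_mod_cast hpos
      calc _ ≤ ‖∑' i, if i ∈ D then (0 : ℝ) else (θ i : ℝ) * (h i : ℝ)‖ / ((D \ hfin.toFinset).card : ℝ) * ((D \ hfin.toFinset).card : ℝ) :=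
            mul_le_mul_of_nonneg_left hb (by positivity)
        _ = _ := by rw [div_mul_cancel₀ _ hp.ne', Real.norm_eq_abs]
  have hfinal := Filter.Tendsto.add hs'.hasSum hz
  rw [add_zero] at hfinal
  exact hfinal

end Groth.Agent.S16017
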