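import Groth.Statements.S16030
import Mathlib
-- import your own Groth.Agent.* helpers here

set_option autoImplicit false
universe u
open CAlg

namespace Groth.Agent.S16030

/-- For a finite set F of points of the spectrum of a commutative ring A and an open subset U containing
F, some basic open D(a) contains F and is contained in U. -/
theorem result
    (A : Type u) [CommRing A] (F : Set (PrimeSpectrum A)) (hF : F.Finite)
    (U : TopologicalSpace.Opens (PrimeSpectrum A)) (hFU : F ⊆ (U : Set (PrimeSpectrum A))) :
    ∃ a : A, F ⊆ (PrimeSpectrum.basicOpen a : Set (PrimeSpectrum A)) ∧ PrimeSpectrum.basicOpen a ≤ U := by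
  classical
  obtain ⟨I, hI⟩ : ∃ I : Ideal A, (U : Set (PrimeSpectrum A))ᶜ = PrimeSpectrum.zeroLocus (I : Set A) := by
    have : IsClosed ((U : Set (PrimeSpectrum A))ᶜ) := U.isOpen.isClosed_compl
    rw [PrimeSpectrum.isClosed_iff_zeroLocus_ideal] at this
    exact this
  have hnot : ¬ ((I : Set A) ⊆ ⋃ i ∈ (hF.toFinset : Set (PrimeSpectrum A)), (i.asIdeal : Set A)) := by
    intro hsub
    rcases hF.toFinset.eq_empty_or_nonempty with h0 | ⟨b, hb⟩
    · rw [h0] at hsub
      have := hsub I.zero_mem
      simp at this
    · rw [Ideal.subset_union_prime b b (fun i _ _ _ => i.isPrime)] at hsub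
      obtain ⟨i, hi, hle⟩ := hsub
      have h1 : i ∈ (U : Set (PrimeSpectrum A)) := hFU (by simpa using hi)
      have h2 : i ∈ (U : Set (PrimeSpectrum A))ᶜ := by
        rw [hI]; exact hle
      exact h2 h1
  rw [Set.not_subset] at hnot
  obtain ⟨a, haI, ha⟩ := hnot
  refine ⟨a, ?_, ?_⟩
  · intro p hp
    simp only [Set.mem_iUnion, not_exists] at ha
    have := ha p (by simpa using hp)
    simpa [PrimeSpectrum.mem_basicOpen] using this
  · intro p hp
    by_contra hpU
    have h2 : p ∈ (U : Set (PrimeSpectrum A))ᶜ := hpU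
    rw [hI] at h2
    exact hp (h2 haI)

end Groth.Agent.S16030
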