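import Groth.Statements.S16073
import Mathlib
-- import your own Groth.Agent.* helpers here

set_option autoImplicit false
universe u
open Hopf

namespace Groth.Agent.S16073

/-- Let p be a prime and R a commutative ring of characteristic p (p = 0 in R, R nonzero). Then the
constant group scheme ℤ/p and α_p over Spec R are not isomorphic: there is no R-bialgebra
isomorphism between the Hopf algebra Maps(ℤ/p, R) of functions on the cyclic group of order p and
the Hopf algebra R[X]/(X^p) of α_p (X primitive). (Any nonzero commutative base ring of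
characteristic p is allowed. The published statement allows any ring R with p·R = 0; over the zero
ring both Hopf algebras are the zero ring and hence isomorphic, so R is assumed nonzero here.) -/
theorem result (p : ℕ) [Fact p.Prime] (R : Type u) [CommRing R] [CharP R p] :
    IsEmpty (ConstGrp.F R (Multiplicative (ZMod p)) ≃ₐc[R] AlphaP.A p R) := by
  refine ⟨fun e => ?_⟩
  have hp : p.Prime := Fact.out
  haveI : Nontrivial R := CharP.nontrivial_of_char_ne_one hp.ne_one
  let e' : ConstGrp.F R (Multiplicative (ZMod p)) ≃ₐ[R] AlphaP.A p R := (e : ConstGrp.F R (Multiplicative (ZMod p)) ≃ₐ[R] AlphaP.A p R)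
  let f := e'.symm (AlphaP.x p R)
  have hfp : f ^ p = 0 := by rw [← map_pow, AlphaP.x_pow, map_zero]
  let δ : ConstGrp.F R (Multiplicative (ZMod p)) := ConstGrp.e R (Multiplicative.ofAdd 1)
  obtain ⟨P, hP⟩ := AlphaP.mk_surjective p R (e' δ)
  rw [← AlphaP.aeval_x] at hP
  have hδ : δ = Polynomial.aeval f P := by
    apply e'.injective
    rw [← hP]
    have : (AlphaP.x p R) = e' f := (e'.apply_symm_apply _).symm
    rw [this]
    exact Polynomial.aeval_algHom_apply e'.toAlgHom f P
  have hev : ∀ g, δ g = P.eval (f g) := fun g => by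
    have h1 := congrArg (ConstGrp.ev R g) hδ
    rw [← Polynomial.aeval_algHom_apply, ConstGrp.ev_apply, ConstGrp.ev_apply] at h1
    rw [h1, Polynomial.coe_aeval_eq_eval]
  have hnil : ∀ g, (f g) ^ p = 0 := fun g => by
    have h1 := congrArg (ConstGrp.ev R g) hfp
    rwa [map_pow, map_zero, ConstGrp.ev_apply] at h1
  have h1 := hev (Multiplicative.ofAdd 1)
  have h0 := hev 1
  have hδ1 : δ (Multiplicative.ofAdd 1) = 1 := ConstGrp.e_apply_self _
  have hδ0 : δ 1 = 0 := ConstGrp.e_apply_of_ne (by
    intro h
    have h5 : (0 : ZMod p) = 1 := congrArg Multiplicative.toAdd h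
    haveI : Fact (1 < p) := ⟨hp.one_lt⟩
    exact zero_ne_one h5)
  rw [hδ1] at h1
  rw [hδ0] at h0
  obtain ⟨q, hq⟩ := Polynomial.sub_dvd_eval_sub (f (Multiplicative.ofAdd 1)) (f 1) P
  rw [← h1, ← h0, sub_zero] at hq
  have hn : IsNilpotent (f (Multiplicative.ofAdd 1) - f 1) :=
    (Commute.all _ _).isNilpotent_sub ⟨p, hnil _⟩ ⟨p, hnil _⟩
  have hn1 : IsNilpotent (1 : R) := by
    rw [hq]
    exact (Commute.all _ _).isNilpotent_mul_right hn
  obtain ⟨n, hn2⟩ := hn1
  rw [one_pow] at hn2
  exact one_ne_zero hn2

end Groth.Agent.S16073
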