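import Groth.Statements.S16074
import Mathlib
-- import your own Groth.Agent.* helpers here

set_option autoImplicit false
universe u
open Hopf

namespace Groth.Agent.S16074

theorem prim_zero {R : Type*} [CommRing R] {G : Type*} [Group G] (y : MonoidAlgebra R G)
    (hy : CoalgebraStruct.comul (R := R) y = TensorProduct.tmul R y 1 + TensorProduct.tmul R 1 y) : y = 0 := by
  classical
  let c : G → (MonoidAlgebra R G →ₗ[R] R) := fun g =>
    (Finsupp.lapply g : (G →₀ R) →ₗ[R] R) ∘ₗ (MonoidAlgebra.coeffLinearEquiv R : MonoidAlgebra R G ≃ₗ[R] (G →₀ R)).toLinearMap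
  have hc : ∀ g z, c g z = z.coeff g := fun _ _ => rfl
  have key : ∀ g (z : MonoidAlgebra R G), LinearMap.mul' R R (TensorProduct.map (c g) (c g) (CoalgebraStruct.comul (R := R) z)) = z.coeff g := by
    intro g z
    induction z using MonoidAlgebra.induction_linear with
    | zero => simp
    | add x y hx hy => rw [map_add, map_add, map_add, hx, hy, MonoidAlgebra.coeff_add, Finsupp.add_apply]
    | single m r =>
      have h1 : CoalgebraStruct.comul (R := R) (MonoidAlgebra.single m r : MonoidAlgebra R G) =
        TensorProduct.tmul R (MonoidAlgebra.single m r) (MonoidAlgebra.single m 1) := by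
        rw [MonoidAlgebra.comul_single]
        have hr : MonoidAlgebra.single m r = r • (MonoidAlgebra.single m (1 : R) : MonoidAlgebra R G) := by
          rw [MonoidAlgebra.smul_single, smul_eq_mul, mul_one]
        simp only [CommSemiring.comul_apply, TensorProduct.map_tmul, MonoidAlgebra.lsingle_apply]
        rw [hr, TensorProduct.tmul_smul, TensorProduct.smul_tmul']
      rw [h1, TensorProduct.map_tmul, LinearMap.mul'_apply, hc, hc, MonoidAlgebra.coeff_single, MonoidAlgebra.coeff_single]
      by_cases h : m = g
      · subst h; simp
      · simp [h]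
  ext g
  have h1 := key g y
  rw [hy, map_add, map_add, TensorProduct.map_tmul, TensorProduct.map_tmul, LinearMap.mul'_apply, LinearMap.mul'_apply, hc, hc,
    MonoidAlgebra.one_def, MonoidAlgebra.coeff_single] at h1
  by_cases h : (1 : G) = g
  · subst h
    simp at h1
    simpa using h1
  · simp [h] at h1
    simpa using h1.symm

/-- Let p be a prime and R a commutative ring of characteristic p (p = 0 in R, R nonzero). Then μ_p and
α_p over Spec R are not isomorphic: there is no R-bialgebra isomorphism between the group algebra
R[ℤ/p] of the cyclic group of order p (group elements group-like) and the Hopf algebra R[X]/(X^p) of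
α_p (X primitive), although the underlying R-algebras R[ℤ/p] = R[Y]/(Y^p) and R[X]/(X^p) are
isomorphic. (Any nonzero commutative base ring of characteristic p is allowed. The published
statement allows any ring R with p·R = 0; over the zero ring both Hopf algebras are the zero ring
and hence isomorphic, so R is assumed nonzero here.) -/
theorem result (p : ℕ) [Fact p.Prime] (R : Type u) [CommRing R] [CharP R p] :
    IsEmpty (MonoidAlgebra R (Multiplicative (ZMod p)) ≃ₐc[R] AlphaP.A p R) := by
  refine ⟨fun e => ?_⟩
  have hp : p.Prime := Fact.out
  haveI : Nontrivial R := CharP.nontrivial_of_char_ne_one hp.ne_one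
  have h1 : CoalgebraStruct.comul (R := R) (e.symm (AlphaP.x p R)) = TensorProduct.tmul R (e.symm (AlphaP.x p R)) 1 + TensorProduct.tmul R 1 (e.symm (AlphaP.x p R)) := by
    rw [← CoalgHomClass.map_comp_comul_apply e.symm (AlphaP.x p R), AlphaP.comul_x, map_add, TensorProduct.map_tmul, TensorProduct.map_tmul]
    have : e.symm 1 = 1 := map_one e.symm
    simp
  have h2 := prim_zero _ h1
  have h3 : AlphaP.x p R = 0 := by
    apply EquivLike.injective e.symm
    rw [h2, map_zero]
  have h4 := (AlphaP.basis p R).ne_zero ⟨1, hp.one_lt⟩
  rw [AlphaP.basis_apply, pow_one] at h4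
  exact h4 h3

end Groth.Agent.S16074
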