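import Groth.Statements.S1615


set_option autoImplicit false
universe u
open CategoryTheory CategoryTheory.Limits AlgebraicGeometry
open Constr

namespace Groth.Agent.S1615

/-- For a graded ring A, quasi-compactness of Proj A is equivalent to the existence of finitely many
homogeneous elements of positive degree generating an ideal whose radical contains the irrelevant
ideal A_+. -/
theorem result {R A : Type u} [CommRing R] [CommRing A] [Algebra R A] (𝒜 : ℕ → Submodule R A) [GradedAlgebra 𝒜] :
    CompactSpace ↥(Proj 𝒜) ↔ ∃ s : Finset A, (∀ f ∈ s, ∃ d : ℕ, 0 < d ∧ f ∈ 𝒜 d) ∧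
      (HomogeneousIdeal.irrelevant 𝒜).toIdeal ≤ (Ideal.span (s : Set A)).radical := by
  classical
  constructor
  · intro hc
    let ι := {f : A // ∃ d : ℕ, 0 < d ∧ f ∈ 𝒜 d}
    have hcov : (⨆ i : ι, Proj.basicOpen 𝒜 i.1) = ⊤ := by
      rw [eq_top_iff]
      intro x _
      rw [TopologicalSpace.Opens.mem_iSup]
      by_contra! H
      apply x.not_irrelevant_le
      change (HomogeneousIdeal.irrelevant 𝒜).toIdeal ≤ x.asHomogeneousIdeal.toIdeal
      rw [HomogeneousIdeal.toIdeal_irrelevant_le]
      intro i hi a ha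
      by_contra hax
      exact H ⟨a, i, hi, ha⟩ hax
    have hK : IsCompact (Set.univ : Set ↥(Proj 𝒜)) := isCompact_univ
    obtain ⟨t, ht⟩ := hK.elim_finite_subcover (fun i : ι => (Proj.basicOpen 𝒜 i.1 : Set ↥(Proj 𝒜)))
      (fun i => (Proj.basicOpen 𝒜 i.1).isOpen) (by
        intro x _
        have hx : x ∈ (⨆ i : ι, Proj.basicOpen 𝒜 i.1) := by rw [hcov]; trivial
        rw [TopologicalSpace.Opens.mem_iSup] at hx
        exact Set.mem_iUnion.mpr hx)
    refine ⟨t.image Subtype.val, ?_, ?_⟩
    · intro f hf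
      obtain ⟨i, _, rfl⟩ := Finset.mem_image.mp hf
      exact i.2
    · rw [Ideal.radical_eq_sInf]
      refine le_sInf ?_
      rintro P ⟨hP, hPp⟩
      by_contra hcon
      have hPh : (P.homogeneousCore 𝒜).toIdeal.IsPrime := hPp.homogeneousCore
      let x : ProjectiveSpectrum 𝒜 := ⟨P.homogeneousCore 𝒜, hPh, by
        intro hle
        apply hcon
        exact le_trans (show (HomogeneousIdeal.irrelevant 𝒜).toIdeal ≤ (P.homogeneousCore 𝒜).toIdeal from hle)
          (Ideal.toIdeal_homogeneousCore_le 𝒜 P)⟩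
      have hx := ht (Set.mem_univ (x : ↥(Proj 𝒜)))
      simp only [Set.mem_iUnion] at hx
      obtain ⟨i, hi, hxi⟩ := hx
      apply hxi
      obtain ⟨d, hd, hid⟩ := i.2
      exact Ideal.mem_homogeneousCore_of_homogeneous_of_mem ⟨d, hid⟩
        (hP (Ideal.subset_span (Finset.mem_coe.mpr (Finset.mem_image_of_mem _ hi))))
  · rintro ⟨s, hs, hle⟩
    rw [← isCompact_univ_iff]
    have hcov : (⋃ f ∈ s, (Proj.basicOpen 𝒜 f : Set ↥(Proj 𝒜))) = Set.univ := by
      rw [Set.eq_univ_iff_forall]
      intro x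
      by_contra H
      apply x.not_irrelevant_le
      intro a ha
      have h1 : (Ideal.span (s : Set A)).radical ≤ x.asHomogeneousIdeal.toIdeal := by
        rw [x.isPrime.radical_le_iff, Ideal.span_le]
        intro f hf
        by_contra hfx
        apply H
        simp only [Set.mem_iUnion]
        exact ⟨f, hf, hfx⟩
      exact h1 (hle ha)
    rw [← hcov]
    refine s.isCompact_biUnion fun f hf => ?_
    obtain ⟨d, hd, hfd⟩ := hs f hf
    exact (Proj.isAffineOpen_basicOpen 𝒜 f hfd hd).isCompact

end Groth.Agent.S1615
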