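import Groth.Statements.S16170
import Mathlib
-- import your own Groth.Agent.* helpers here

set_option autoImplicit false
open Neron

namespace Groth.Agent.S16170

open Matrix in
theorem aux
    {ι : Type} [Fintype ι] [DecidableEq ι]
    (M N χ₁ χ₂ : Matrix ι ι ℤ) (hM : M.IsSymm) (hN : N.IsSymm)
    (hMpos : ∀ v : ι → ℤ, 0 ≤ v ⬝ᵥ M.mulVec v) (hNpos : ∀ v : ι → ℤ, 0 ≤ v ⬝ᵥ N.mulVec v)
    (hpos : ∀ v : ι → ℤ, v ≠ 0 → 0 < v ⬝ᵥ (M + N).mulVec v)
    (hsum : χ₁ + χ₂ = 1) (hrel : M * χ₂ = N * χ₁) :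
    χ₁ * χ₁ = χ₁ ∧ χ₂ * χ₂ = χ₂ := by
  obtain rfl : χ₂ = 1 - χ₁ := by rw [← hsum]; abel
  set A := χ₁ with hA
  set B := 1 - A with hB
  set S := M + N with hS
  have hSA : S * A = M := by
    have : M * B + M * A = M := by rw [← mul_add, add_comm B A, hsum, mul_one]
    rw [hS, add_mul, ← hrel, add_comm]; exact this
  have hSB : S * B = N := by
    rw [hB, mul_sub, mul_one, hSA, hS]; abel
  have hSsymm : Sᵀ = S := by rw [hS, transpose_add, hM.eq, hN.eq]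
  have hAS : Aᵀ * S = M := by
    have := congrArg transpose hSA
    rwa [transpose_mul, hSsymm, hM.eq] at this
  have hBS : Bᵀ * S = N := by
    have := congrArg transpose hSB
    rwa [transpose_mul, hSsymm, hN.eq] at this
  have hAB : A * B = B * A := by rw [hB, mul_sub, sub_mul, mul_one, one_mul]
  -- the form
  have hbA : ∀ u v : ι → ℤ, (A.mulVec u) ⬝ᵥ S.mulVec v = u ⬝ᵥ S.mulVec (A.mulVec v) := by
    intro u v
    rw [mulVec_mulVec, hSA, ← hAS, ← mulVec_mulVec, dotProduct_mulVec u Aᵀ, vecMul_transpose]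
  have hbB : ∀ u v : ι → ℤ, (B.mulVec u) ⬝ᵥ S.mulVec v = u ⬝ᵥ S.mulVec (B.mulVec v) := by
    intro u v
    rw [mulVec_mulVec, hSB, ← hBS, ← mulVec_mulVec, dotProduct_mulVec u Bᵀ, vecMul_transpose]
  have hpA : ∀ v : ι → ℤ, 0 ≤ v ⬝ᵥ S.mulVec (A.mulVec v) := fun v => by
    rw [mulVec_mulVec, hSA]; exact hMpos v
  have hpB : ∀ v : ι → ℤ, 0 ≤ v ⬝ᵥ S.mulVec (B.mulVec v) := fun v => by
    rw [mulVec_mulVec, hSB]; exact hNpos v
  have hnn : ∀ v : ι → ℤ, 0 ≤ v ⬝ᵥ S.mulVec v := fun v => by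
    by_cases hv : v = 0
    · rw [hv]; simp
    · exact (hpos v hv).le
  have hzero : ∀ v : ι → ℤ, v ⬝ᵥ S.mulVec v ≤ 0 → v = 0 := fun v h => by
    by_contra hv
    exact absurd (hpos v hv) (not_lt.2 h)
  have hAadd : ∀ v : ι → ℤ, A.mulVec v + B.mulVec v = v := fun v => by
    rw [← add_mulVec, hsum, one_mulVec]
  have hABv : ∀ v : ι → ℤ, A.mulVec (B.mulVec v) = B.mulVec (A.mulVec v) := fun v => by
    rw [mulVec_mulVec, mulVec_mulVec, hAB]
  have hpAB : ∀ v : ι → ℤ, 0 ≤ v ⬝ᵥ S.mulVec (A.mulVec (B.mulVec v)) := fun v => by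
    have h1 : A.mulVec (B.mulVec v) = A.mulVec (B.mulVec (A.mulVec v)) + A.mulVec (B.mulVec (B.mulVec v)) := by
      rw [← mulVec_add, ← mulVec_add, hAadd]
    rw [h1, mulVec_add, dotProduct_add, ← hbA, hABv (B.mulVec v), ← hbB v (A.mulVec (B.mulVec v))]
    exact add_nonneg (hpB _) (hpA _)
  have key : ∀ n : ℕ, ∀ v : ι → ℤ, (v ⬝ᵥ S.mulVec v).toNat ≤ n → A.mulVec (B.mulVec v) = 0 := by
    intro n
    induction n using Nat.strong_induction_on with
    | _ n ih =>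
      intro v hv
      by_cases hBv : B.mulVec v = 0
      · rw [hBv, mulVec_zero]
      have hq : (A.mulVec v) ⬝ᵥ S.mulVec (A.mulVec v) < v ⬝ᵥ S.mulVec v := by
        have e1 : v ⬝ᵥ S.mulVec v = v ⬝ᵥ S.mulVec (A.mulVec v) + v ⬝ᵥ S.mulVec (B.mulVec v) := by
          rw [← dotProduct_add, ← mulVec_add, hAadd]
        have e2 : v ⬝ᵥ S.mulVec (A.mulVec v) = v ⬝ᵥ S.mulVec (A.mulVec (A.mulVec v)) + v ⬝ᵥ S.mulVec (A.mulVec (B.mulVec v)) := by
          rw [← dotProduct_add, ← mulVec_add, ← mulVec_add, hAadd]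
        have e3 : v ⬝ᵥ S.mulVec (B.mulVec v) = v ⬝ᵥ S.mulVec (A.mulVec (B.mulVec v)) + (B.mulVec v) ⬝ᵥ S.mulVec (B.mulVec v) := by
          rw [hbB, ← dotProduct_add, ← mulVec_add, hAadd]
        have h3 := hpAB v
        have h4 := hpos _ hBv
        rw [hbA]
        linarith
      have hlt : ((A.mulVec v) ⬝ᵥ S.mulVec (A.mulVec v)).toNat < n := by
        have := hnn (A.mulVec v)
        omega
      have h5 := ih _ hlt (A.mulVec v) le_rfl
      apply hzero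
      rw [hbA, hABv v, h5, mulVec_zero, dotProduct_zero]
  have hABz : A * B = 0 := by
    apply Matrix.toLin'.injective
    ext1 i
    ext1
    simp only [LinearMap.comp_apply, map_zero, LinearMap.zero_apply, toLin'_apply, ← mulVec_mulVec]
    rw [key _ _ le_rfl]
  constructor
  · have : A * A = A - A * B := by rw [hB, mul_sub, mul_one, sub_sub_cancel]
    rw [this, hABz, sub_zero]
  · have : B * B = B - A * B := by nth_rewrite 1 [hB]; rw [sub_mul, one_mul]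
    rw [this, hABz, sub_zero]

/-- Let M and N be symmetric positive-semidefinite integer matrices on the same finite index set whose
sum M + N is positive definite, and let χ₁, χ₂ be integer matrices with χ₁ + χ₂ = 1 and M χ₂ = N χ₁.
Then χ₁ and χ₂ are idempotent. (In the intended application M = Pᵀ Ψ₁ P and N = Qᵀ Ψ₂ Q for
surjective integer matrices P, Q and positive-definite Ψ₁, Ψ₂.) -/
theorem result
    {ι : Type} [Fintype ι] [DecidableEq ι]
    (M N χ₁ χ₂ : Matrix ι ι ℤ) (hM : M.IsSymm) (hN : N.IsSymm)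
    (hMpos : ∀ v : ι → ℤ, 0 ≤ v ⬝ᵥ M.mulVec v) (hNpos : ∀ v : ι → ℤ, 0 ≤ v ⬝ᵥ N.mulVec v)
    (hpos : ∀ v : ι → ℤ, v ≠ 0 → 0 < v ⬝ᵥ (M + N).mulVec v)
    (hsum : χ₁ + χ₂ = 1) (hrel : M * χ₂ = N * χ₁) :
    χ₁ * χ₁ = χ₁ ∧ χ₂ * χ₂ = χ₂ := by
  exact aux M N χ₁ χ₂ hM hN hMpos hNpos hpos hsum hrel

end Groth.Agent.S16170
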