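import Groth.Statements.S16234
import Mathlib
-- import your own Groth.Agent.* helpers here

set_option autoImplicit false
universe u v
open CAlg

namespace Groth.Agent.S16234

/-- For a finitely generated module M over a Noetherian commutative ring A, every prime ideal in the
support of M is a maximal ideal if and only if M has finite length. -/
theorem result (A : Type u) [CommRing A] [IsNoetherianRing A]
    (M : Type v) [AddCommGroup M] [Module A M] [Module.Finite A M] :
    (∀ p ∈ Module.support A M, p.asIdeal.IsMaximal) ↔ IsFiniteLength A M := by
  have hsurj : Function.Surjective (algebraMap A (A ⧸ Module.annihilator A M)) := Ideal.Quotient.mk_surjective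
  letI := Module.quotientAnnihilator (R := A) (M := M)
  haveI : IsScalarTower A (A ⧸ Module.annihilator A M) M := ⟨fun a b m => by
    obtain ⟨b, rfl⟩ := Ideal.Quotient.mk_surjective b
    rw [← Ideal.Quotient.mkₐ_eq_mk A, ← map_smul]
    show (a • b) • m = a • b • m
    rw [smul_assoc]⟩
  constructor
  · intro h
    have hk : Ring.KrullDimLE 0 (A ⧸ Module.annihilator A M) := by
      rw [Ring.krullDimLE_zero_iff]
      intro P hP
      have h1 : (P.comap (Ideal.Quotient.mk (Module.annihilator A M))).IsPrime := hP.comap _
      have h2 : Module.annihilator A M ≤ P.comap (Ideal.Quotient.mk (Module.annihilator A M)) := by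
        intro x hx
        rw [Ideal.mem_comap, Ideal.Quotient.eq_zero_iff_mem.2 hx]
        exact P.zero_mem
      have h3 := h ⟨_, h1⟩ (Module.mem_support_iff_of_finite.2 h2)
      have h4 := Ideal.map_eq_top_or_isMaximal_of_surjective (Ideal.Quotient.mk (Module.annihilator A M)) Ideal.Quotient.mk_surjective h3
      rw [Ideal.map_comap_of_surjective (Ideal.Quotient.mk (Module.annihilator A M)) Ideal.Quotient.mk_surjective] at h4
      exact h4.resolve_left hP.ne_top
    have hart : IsArtinianRing (A ⧸ Module.annihilator A M) := isArtinianRing_iff_krullDimLE_zero.2 hk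
    have hfin : Module.Finite (A ⧸ Module.annihilator A M) M := Module.Finite.of_restrictScalars_finite A _ M
    have hM : IsArtinian (A ⧸ Module.annihilator A M) M := inferInstance
    have hMA : IsArtinian A M := isArtinian_of_surjective_algebraMap hsurj
    exact isFiniteLength_iff_isNoetherian_isArtinian.2 ⟨inferInstance, hMA⟩
  · intro h p hp
    obtain ⟨h1, h2⟩ := isFiniteLength_iff_isNoetherian_isArtinian.1 h
    obtain ⟨n, s, hs⟩ := Module.Finite.exists_fin (R := A) (M := M)
    let f : A →ₗ[A] (Fin n → M) := LinearMap.pi fun i => (LinearMap.toSpanSingleton A M (s i))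
    have hker : LinearMap.ker f = Module.annihilator A M := by
      ext a
      rw [LinearMap.mem_ker, Module.mem_annihilator]
      constructor
      · intro ha m
        have hm : m ∈ Submodule.span A (Set.range s) := hs ▸ Submodule.mem_top
        induction hm using Submodule.span_induction with
        | mem x hx =>
          obtain ⟨i, rfl⟩ := hx
          exact congrFun ha i
        | zero => exact smul_zero _
        | add x y _ _ hx hy => rw [smul_add, hx, hy, add_zero]
        | smul b x _ hx => rw [smul_comm, hx, smul_zero]
      · intro ha
        ext i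
        exact ha _
    have h3 : IsArtinian A (A ⧸ Module.annihilator A M) := by
      rw [← hker]
      have : IsArtinian A (Fin n → M) := inferInstance
      exact isArtinian_of_injective _ (LinearMap.ker_eq_bot.1 (Submodule.ker_liftQ_eq_bot _ f le_rfl le_rfl))
    have h4 : IsArtinianRing (A ⧸ Module.annihilator A M) := isArtinian_of_tower A h3
    have h5 : Module.annihilator A M ≤ p.asIdeal := Module.annihilator_le_of_mem_support hp
    have h6 := Ring.krullDimLE_zero_iff.1 (isArtinianRing_iff_krullDimLE_zero.1 h4) (p.asIdeal.map (Ideal.Quotient.mk (Module.annihilator A M)))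
      (Ideal.map_isPrime_of_surjective (f := Ideal.Quotient.mk (Module.annihilator A M)) Ideal.Quotient.mk_surjective (by rwa [Ideal.mk_ker]))
    have h7 := Ideal.comap_isMaximal_of_surjective (Ideal.Quotient.mk (Module.annihilator A M)) Ideal.Quotient.mk_surjective (K := p.asIdeal.map (Ideal.Quotient.mk (Module.annihilator A M)))
    rw [Ideal.comap_map_of_surjective (Ideal.Quotient.mk (Module.annihilator A M)) Ideal.Quotient.mk_surjective, ← RingHom.ker_eq_comap_bot, Ideal.mk_ker, sup_eq_left.2 h5] at h7
    exact h7

end Groth.Agent.S16234
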