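import Groth.Statements.S16235
import Mathlib
-- import your own Groth.Agent.* helpers here

set_option autoImplicit false
universe u
open CAlg

namespace Groth.Agent.S16235

/-- Let A be a Noetherian commutative ring and x_1, …, x_r a regular sequence on A (each x_i a
non-zero-divisor on A/(x_1, …, x_{i-1})) generating an ideal I ≠ A. Then the height of I, the
infimum of the heights of the minimal primes over I, equals r. -/
theorem result (A : Type u) [CommRing A] [IsNoetherianRing A]
    (r : ℕ) (x : Fin r → A) (hx : RingTheory.Sequence.IsWeaklyRegular A (List.ofFn x))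
    (hI : Ideal.span (Set.range x) ≠ ⊤) :
    (Ideal.span (Set.range x)).height = r := by
  apply le_antisymm
  · refine (Ideal.height_le_spanFinrank _ hI).trans ?_
    have h1 : (Ideal.span (Set.range x)).spanFinrank ≤ (Set.range x).ncard :=
      Submodule.spanFinrank_span_le_ncard_of_finite (Set.finite_range x)
    have h2 : (Set.range x).ncard ≤ r := by
      rw [← Set.image_univ]
      refine (Set.ncard_image_le Set.finite_univ).trans ?_
      rw [Set.ncard_univ, Nat.card_eq_fintype_card, Fintype.card_fin]
    exact_mod_cast h1.trans h2
  · rw [Ideal.height_eq_inf_minimalPrimes]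
    refine le_iInf₂ fun p hp => ?_
    have hpp : p.IsPrime := hp.isPrime
    have h3 := IsLocalization.AtPrime.ringKrullDim_eq_height p (Localization.AtPrime p)
    have h4 := RingTheory.Sequence.IsWeaklyRegular.isRegular_of_isLocalization_of_mem (Localization.AtPrime p) p hx (by
      intro a ha
      rw [List.mem_ofFn] at ha
      exact hp.1.2 (Ideal.subset_span ha))
    have h5 := ringKrullDim_add_length_eq_ringKrullDim_of_isRegular _ h4
    have h7 : Nontrivial (Localization.AtPrime p ⧸ Ideal.ofList (List.map (algebraMap A (Localization.AtPrime p)) (List.ofFn x))) := by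
      have := h4.2
      rw [Ideal.Quotient.nontrivial_iff]
      intro h8
      apply this
      rw [h8]
      simp
    have h6 := ringKrullDim_nonneg_of_nontrivial (R := Localization.AtPrime p ⧸ Ideal.ofList (List.map (algebraMap A (Localization.AtPrime p)) (List.ofFn x)))
    rw [List.length_map, List.length_ofFn] at h5
    have h9 : (r : WithBot ℕ∞) ≤ (p.height : WithBot ℕ∞) := by
      rw [← h3, ← h5]; exact le_add_of_nonneg_left h6
    exact_mod_cast h9

end Groth.Agent.S16235
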