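import Groth.Statements.S16328
import Mathlib
-- import your own Groth.Agent.* helpers here

set_option autoImplicit false
universe v
open CategoryTheory
open W4c3biextchow

namespace Groth.Agent.S16328

open CategoryTheory in
theorem section_aux
    (A A'' : ChainComplex (ModuleCat.{v} ℤ) ℕ) (p : A ⟶ A'')
    [∀ q, Module.Free ℤ (A''.X q)]
    (hp : ∀ q, Function.Surjective (p.f q).hom) (hs : Homotopy (𝟙 A'') 0) :
    ∃ h : A'' ⟶ A, h ≫ p = 𝟙 A'' := by
  have hsec : ∀ q, ∃ t : A''.X q ⟶ A.X q, t ≫ p.f q = 𝟙 _ := by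
    intro q
    obtain ⟨t, ht⟩ := Module.projective_lifting_property (p.f q).hom LinearMap.id (hp q)
    refine ⟨ModuleCat.ofHom t, ?_⟩
    ext x
    exact LinearMap.congr_fun ht x
  choose t ht using hsec
  let T : ∀ i j, A''.X i ⟶ A.X j := fun i j => hs.hom i j ≫ t j
  refine ⟨Homotopy.nullHomotopicMap T, ?_⟩
  rw [Homotopy.nullHomotopicMap_comp]
  have : (fun i j => T i j ≫ p.f j) = hs.hom := by
    ext i j : 2
    simp only [T, Category.assoc, ht, Category.comp_id]
  rw [this]
  ext n : 1
  have h := hs.comm n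
  simpa [Homotopy.nullHomotopicMap] using h.symm

open CategoryTheory ZeroObject in
theorem contractible_aux
    (A'' : ChainComplex (ModuleCat.{v} ℤ) ℕ) [∀ q, Module.Free ℤ (A''.X q)]
    (h : A''.Acyclic) : Nonempty (Homotopy (𝟙 A'') 0) := by
  have hz : Limits.IsZero ((ChainComplex.single₀ (ModuleCat.{v} ℤ)).obj 0) :=
    (ChainComplex.single₀ (ModuleCat.{v} ℤ)).map_isZero (Limits.isZero_zero _)
  let π : A'' ⟶ (ChainComplex.single₀ (ModuleCat.{v} ℤ)).obj 0 := 0
  have hq : QuasiIso π := by
    refine ⟨fun i => ?_⟩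
    rw [quasiIsoAt_iff_isIso_homologyMap]
    have h2 : Limits.IsZero (((ChainComplex.single₀ (ModuleCat.{v} ℤ)).obj 0).homology i) :=
      (HomologicalComplex.homologyFunctor _ _ i).map_isZero hz
    exact Limits.IsZero.isIso ((h i).isZero_homology) h2 _
  let P : ProjectiveResolution (0 : ModuleCat.{v} ℤ) :=
    { complex := A'', π := π, projective := fun n => inferInstance }
  exact ⟨ProjectiveResolution.liftHomotopyZero (P := P) (Q := P) (𝟙 A'') (hz.eq_of_tgt _ _)⟩

/-- Let f : A' ⟶ A and p : A ⟶ A'' be chain maps of ℕ-indexed chain complexes of free abelian groups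
forming a short exact sequence in every degree (f injective, p surjective, image of f equal to the
kernel of p), and assume f is a quasi-isomorphism. Then there is a chain map h : A'' ⟶ A such that
in every degree q the map (a'', a') ↦ h(a'') + f(a') is a bijection from A''_q × A'_q onto A_q, so
that A is the direct sum of the subcomplexes f(A') and h(A''). (The source allows complexes indexed
by all integers; stated here for complexes in non-negative degrees.) -/
theorem result
    (A' A A'' : ChainComplex (ModuleCat.{v} ℤ) ℕ) (f : A' ⟶ A) (p : A ⟶ A'')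
    [∀ q, Module.Free ℤ (A'.X q)] [∀ q, Module.Free ℤ (A.X q)] [∀ q, Module.Free ℤ (A''.X q)]
    (hf : ∀ q, Function.Injective (f.f q).hom) (hp : ∀ q, Function.Surjective (p.f q).hom)
    (hfp : ∀ q, Function.Exact (f.f q).hom (p.f q).hom) [QuasiIso f] :
    ∃ h : A'' ⟶ A, ∀ q : ℕ,
      Function.Bijective (fun x : A''.X q × A'.X q => (h.f q).hom x.1 + (f.f q).hom x.2) := by
  have hw : f ≫ p = 0 := by
    ext q x
    exact (hfp q).apply_apply_eq_zero x
  let S : ShortComplex (ChainComplex (ModuleCat.{v} ℤ) ℕ) := ShortComplex.mk f p hw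
  have hS : S.ShortExact := by
    rw [HomologicalComplex.shortExact_iff_degreewise_shortExact]
    intro q
    exact { exact := (ShortComplex.ShortExact.moduleCat_exact_iff_function_exact _).2 (hfp q),
            mono_f := (ModuleCat.mono_iff_injective _).2 (hf q),
            epi_g := (ModuleCat.epi_iff_surjective _).2 (hp q) }
  have hz : A''.Acyclic := hS.acyclic_X₃ ‹_›
  obtain ⟨hs⟩ := contractible_aux A'' hz
  obtain ⟨h, hh⟩ := section_aux A A'' p hp hs
  refine ⟨h, fun q => ?_⟩
  have hph : ∀ x, (p.f q).hom ((h.f q).hom x) = x := by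
    intro x
    have := congrArg (fun φ => (φ.f q).hom x) hh
    simpa using this
  constructor
  · rintro ⟨x, y⟩ ⟨x', y'⟩ hxy
    simp only at hxy
    have h1 := congrArg (p.f q).hom hxy
    rw [map_add, map_add, hph, hph, (hfp q).apply_apply_eq_zero, (hfp q).apply_apply_eq_zero, add_zero, add_zero] at h1
    subst h1
    rw [add_right_inj] at hxy
    rw [hf q hxy]
  · intro a
    have h1 : (p.f q).hom (a - (h.f q).hom ((p.f q).hom a)) = 0 := by
      rw [map_sub, hph, sub_self]
    obtain ⟨y, hy⟩ := (hfp q _).1 h1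
    exact ⟨((p.f q).hom a, y), by simp [hy]⟩

end Groth.Agent.S16328
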