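import Groth.Statements.S16329
import Mathlib
import Groth.Agent.Lib.H24Cx
-- import your own Groth.Agent.* helpers here

set_option autoImplicit false
universe v
open CategoryTheory
open W4c3biextchow

namespace Groth.Agent.S16329

/-- Let f : A' ⟶ A be a chain map of ℕ-indexed chain complexes of free abelian groups which is injective
in every degree, whose degreewise quotients A_q / f(A'_q) are free abelian groups, and which is a
quasi-isomorphism. Then there is a chain map g : A ⟶ A' with f ≫ g the identity of A' (a chain-level
inverse of f that restricts to the identity on the subcomplex A'). (The source allows complexes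
indexed by all integers; stated here for complexes in non-negative degrees.) -/
theorem result
    (A' A : ChainComplex (ModuleCat.{v} ℤ) ℕ) (f : A' ⟶ A)
    [∀ q, Module.Free ℤ (A'.X q)] [∀ q, Module.Free ℤ (A.X q)]
    (hf : ∀ q, Function.Injective (f.f q).hom)
    (hq : ∀ q, Module.Free ℤ ((A.X q) ⧸ LinearMap.range (f.f q).hom)) [QuasiIso f] :
    ∃ g : A ⟶ A', f ≫ g = 𝟙 A' := by
  obtain ⟨A'', p, w, hS, hs, h, hh⟩ := Groth.Agent.H24Cx.exists_quot A' A f hf hq
  have hm : Mono f := hS.mono_f
  have hm' : Mono (ShortComplex.mk f p w).f := hm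
  have hk : (𝟙 A - p ≫ h) ≫ (ShortComplex.mk f p w).g = 0 := by
    show (𝟙 A - p ≫ h) ≫ p = 0
    rw [Preadditive.sub_comp, Category.assoc, hh, Category.comp_id, Category.id_comp, sub_self]
  refine ⟨hS.exact.lift (𝟙 A - p ≫ h) hk, ?_⟩
  have h1 : hS.exact.lift (𝟙 A - p ≫ h) hk ≫ f = 𝟙 A - p ≫ h := hS.exact.lift_f _ _
  rw [← cancel_mono f, Category.assoc, h1, Preadditive.comp_sub, ← Category.assoc, w, Category.comp_id, Limits.zero_comp, sub_zero, Category.id_comp]

end Groth.Agent.S16329
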