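import Groth.Statements.S16330
import Mathlib
import Groth.Agent.Lib.H24Cx
-- import your own Groth.Agent.* helpers here

set_option autoImplicit false
universe v
open CategoryTheory
open W4c3biextchow

namespace Groth.Agent.S16330

/-- Let f : A' ⟶ A be a chain map of ℕ-indexed chain complexes of free abelian groups which is injective
in every degree, whose degreewise quotients A_q / f(A'_q) are free abelian groups, and which is a
quasi-isomorphism. Then any two chain maps g₁, g₂ : A ⟶ A' with f ≫ g₁ = f ≫ g₂ = 𝟙 differ by a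
null-homotopic map: there is a chain homotopy between g₁ and g₂ all of whose components vanish on
the image of f (so g₁ - g₂ factors through the quotient complex A / A', and the homotopy does too).
(The source allows complexes indexed by all integers; stated here for complexes in non-negative
degrees.) -/
theorem result
    (A' A : ChainComplex (ModuleCat.{v} ℤ) ℕ) (f : A' ⟶ A)
    [∀ q, Module.Free ℤ (A'.X q)] [∀ q, Module.Free ℤ (A.X q)]
    (hf : ∀ q, Function.Injective (f.f q).hom)
    (hq : ∀ q, Module.Free ℤ ((A.X q) ⧸ LinearMap.range (f.f q).hom)) [QuasiIso f]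
    (g₁ g₂ : A ⟶ A') (h₁ : f ≫ g₁ = 𝟙 A') (h₂ : f ≫ g₂ = 𝟙 A') :
    ∃ H : Homotopy g₁ g₂, ∀ i j : ℕ, f.f i ≫ H.hom i j = 0 := by
  obtain ⟨A'', p, w, hS, hs, h, hh⟩ := Groth.Agent.H24Cx.exists_quot A' A f hf hq
  have he : Epi (ShortComplex.mk f p w).g := hS.epi_g
  have hk : (ShortComplex.mk f p w).f ≫ (g₁ - g₂) = 0 := by
    show f ≫ (g₁ - g₂) = 0
    rw [Preadditive.comp_sub, h₁, h₂, sub_self]
  let k : A'' ⟶ A' := hS.exact.desc (g₁ - g₂) hk
  have hpk : p ≫ k = g₁ - g₂ := hS.exact.g_desc _ _
  let H1 : Homotopy (p ≫ (𝟙 A'' ≫ k)) (p ≫ (0 ≫ k)) := (hs.compRight k).compLeft p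
  let H0 : Homotopy (g₁ - g₂) 0 :=
    (Homotopy.ofEq (by rw [Category.id_comp, hpk])).trans (H1.trans (Homotopy.ofEq (by rw [Limits.zero_comp, Limits.comp_zero])))
  refine ⟨Homotopy.equivSubZero.symm H0, fun i j => ?_⟩
  have h3 : (Homotopy.equivSubZero.symm H0).hom i j = p.f i ≫ (hs.hom i j ≫ k.f j) := by
    show (0 + (p.f i ≫ (hs.hom i j ≫ k.f j) + 0)) = _
    rw [zero_add, add_zero]
  rw [h3, ← Category.assoc]
  have h4 : f.f i ≫ p.f i = 0 := by
    have := congrArg (fun φ => φ.f i) w
    simpa using this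
  rw [h4, Limits.zero_comp]

end Groth.Agent.S16330
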