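import Groth.Statements.S16331
import Mathlib
import Groth.Agent.S16330
-- import your own Groth.Agent.* helpers here

set_option autoImplicit false
universe v
open CategoryTheory
open W4c3biextchow

namespace Groth.Agent.S16331

open CategoryTheory W4c3biextchow in
def isoOfCl {R : Type*} [Ring R] {C : ChainComplex (ModuleCat.{v} R) ℕ} {a b : Obj C} (φ : W4c3biextchow.Hom C a b) : a ≅ b where
  hom := φ
  inv := ⟨-φ.cl, by rw [map_neg, φ.delta_cl]; abel⟩
  hom_inv_id := W4c3biextchow.Hom.ext (add_neg_cancel _)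
  inv_hom_id := W4c3biextchow.Hom.ext (neg_add_cancel _)

/-- Let f : A' ⟶ A be a chain map of ℕ-indexed chain complexes of free abelian groups which is injective
in every degree, with free degreewise quotients A_q / f(A'_q), and a quasi-isomorphism; let h' : A'
⟶ B be a chain map to another complex of free abelian groups and g₁, g₂ : A ⟶ A' two chain maps with
f ≫ g₁ = f ≫ g₂ = 𝟙. Consider the functors induced by g₁ ≫ h' and g₂ ≫ h' between the groupoids
attached to A and B (objects: degree-0 elements; morphisms a ⟶ b: degree-1 elements with boundary b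
- a, modulo boundaries of degree-2 elements). Then there is a natural isomorphism between these two
functors whose component at every object of the form f(a'), a' a degree-0 element of A', is the zero
class, i.e. the identity morphism of h'(a'). -/
theorem result
    (A' A B : ChainComplex (ModuleCat.{v} ℤ) ℕ) (f : A' ⟶ A) (h' : A' ⟶ B)
    [∀ q, Module.Free ℤ (A'.X q)] [∀ q, Module.Free ℤ (A.X q)] [∀ q, Module.Free ℤ (B.X q)]
    (hf : ∀ q, Function.Injective (f.f q).hom)
    (hq : ∀ q, Module.Free ℤ ((A.X q) ⧸ LinearMap.range (f.f q).hom)) [QuasiIso f]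
    (g₁ g₂ : A ⟶ A') (h₁ : f ≫ g₁ = 𝟙 A') (h₂ : f ≫ g₂ = 𝟙 A') :
    ∃ N : W4c3biextchow.cxFunctor (g₁ ≫ h') ≅ W4c3biextchow.cxFunctor (g₂ ≫ h'),
      ∀ a : W4c3biextchow.Obj A',
        (N.hom.app ((W4c3biextchow.cxFunctor f).obj a) : W4c3biextchow.Hom B _ _).cl = 0 := by
  obtain ⟨H, hH⟩ := Groth.Agent.S16330.result A' A f hf hq g₁ g₂ h₁ h₂
  have c0 : ∀ a : A.X 0, (g₁.f 0).hom a = (A'.d 1 0).hom ((H.hom 0 1).hom a) + (g₂.f 0).hom a := by
    intro a
    have := H.comm 0
    simp only [Homotopy.dNext_zero_chainComplex, zero_add, Homotopy.prevD_chainComplex] at this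
    have := congrArg (fun φ => φ.hom a) this
    simpa using this
  have c1 : ∀ a : A.X 1, (g₁.f 1).hom a = (H.hom 0 1).hom ((A.d 1 0).hom a) + (A'.d 2 1).hom ((H.hom 1 2).hom a) + (g₂.f 1).hom a := by
    intro a
    have := H.comm 1
    simp only [Homotopy.dNext_succ_chainComplex, Homotopy.prevD_chainComplex] at this
    have := congrArg (fun φ => φ.hom a) this
    simpa using this
  have hcomm10 : ∀ x : A'.X 1, (B.d 1 0).hom ((h'.f 1).hom x) = (h'.f 0).hom ((A'.d 1 0).hom x) := by
    intro x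
    have h := congrArg (fun φ => φ.hom x) (h'.comm 1 0)
    simpa only [ModuleCat.hom_comp, LinearMap.comp_apply] using h
  have hcomm21 : ∀ x : A'.X 2, (B.d 2 1).hom ((h'.f 2).hom x) = (h'.f 1).hom ((A'.d 2 1).hom x) := by
    intro x
    have h := congrArg (fun φ => φ.hom x) (h'.comm 2 1)
    simpa only [ModuleCat.hom_comp, LinearMap.comp_apply] using h
  let comp : ∀ a : Obj A, W4c3biextchow.Hom B ((cxFunctor (g₁ ≫ h')).obj a) ((cxFunctor (g₂ ≫ h')).obj a) := fun a =>
    { cl := Submodule.Quotient.mk (-((h'.f 1).hom ((H.hom 0 1).hom a.pt)))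
      delta_cl := by
        rw [delta_mk, map_neg, hcomm10]
        simp only [cxFunctor_obj_pt, HomologicalComplex.comp_f, ModuleCat.hom_comp, LinearMap.comp_apply]
        rw [c0 a.pt, map_add]
        abel }
  refine ⟨NatIso.ofComponents (fun a => isoOfCl (comp a)) ?_, ?_⟩
  · intro a b φ
    apply W4c3biextchow.Hom.ext
    show q1Map (g₁ ≫ h') φ.cl + (comp b).cl = (comp a).cl + q1Map (g₂ ≫ h') φ.cl
    obtain ⟨w, hw⟩ := φ
    obtain ⟨x, rfl⟩ := Submodule.Quotient.mk_surjective _ w
    rw [delta_mk] at hw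
    show q1Map (g₁ ≫ h') (Submodule.Quotient.mk x) + Submodule.Quotient.mk (-((h'.f 1).hom ((H.hom 0 1).hom b.pt))) =
      Submodule.Quotient.mk (-((h'.f 1).hom ((H.hom 0 1).hom a.pt))) + q1Map (g₂ ≫ h') (Submodule.Quotient.mk x)
    rw [q1Map_mk, q1Map_mk, ← Submodule.Quotient.mk_add, ← Submodule.Quotient.mk_add, Submodule.Quotient.eq]
    refine ⟨(h'.f 2).hom ((H.hom 1 2).hom x), ?_⟩
    rw [hcomm21]
    simp only [HomologicalComplex.comp_f, ModuleCat.hom_comp, LinearMap.comp_apply]
    rw [c1 x, hw]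
    simp only [map_add, map_sub]
    abel
  · intro a
    show Submodule.Quotient.mk (-((h'.f 1).hom ((H.hom 0 1).hom ((f.f 0).hom a.pt)))) = 0
    have h3 := congrArg (fun φ => φ.hom a.pt) (hH 0 1)
    have h4 : (H.hom 0 1).hom ((f.f 0).hom a.pt) = 0 := by simpa using h3
    rw [h4, map_zero, neg_zero, Submodule.Quotient.mk_zero]

end Groth.Agent.S16331
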