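import Groth.Statements.S16344
import Mathlib
-- import your own Groth.Agent.* helpers here

set_option autoImplicit false
universe u v
open IdeleMod

namespace Groth.Agent.S16344

theorem aux
    {ι : Type*} [Preorder ι] [IsDirected ι (· ≤ ·)]
    (G : ι → Type*) [∀ i, AddCommGroup (G i)] [∀ i, TopologicalSpace (G i)]
    [∀ i, CompactSpace (G i)] [∀ i, T2Space (G i)]
    (f : ∀ ⦃i j : ι⦄, i ≤ j → (G j →+ G i)) (hf : ∀ i j (h : i ≤ j), Continuous (f h))
    (hid : ∀ i (x : G i), f (le_refl i) x = x)
    (hcomp : ∀ i j k (hij : i ≤ j) (hjk : j ≤ k) (x : G k), f hij (f hjk x) = f (hij.trans hjk) x)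
    (C : ∀ i, Set (G i)) (hC : ∀ i, IsClosed (C i)) (hne : ∀ i, (C i).Nonempty)
    (hfC : ∀ i j (h : i ≤ j), ∀ y ∈ C j, f h y ∈ C i) :
    ∃ z : ∀ i, G i, (∀ i j (h : i ≤ j), f h (z j) = z i) ∧ ∀ i, z i ∈ C i := by
  classical
  rcases isEmpty_or_nonempty ι with he | hι
  · exact ⟨fun i => 0, fun i => (he.false i).elim, fun i => (he.false i).elim⟩
  let K : ι → Set (∀ i, G i) := fun j => {z | (∀ i (h : i ≤ j), f h (z j) = z i) ∧ z j ∈ C j}
  have hcl : ∀ j, IsClosed (K j) := fun j => by
    have h1 : K j = (⋂ i, ⋂ (h : i ≤ j), {z : ∀ i, G i | f h (z j) = z i}) ∩ {z : ∀ i, G i | z j ∈ C j} := by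
      ext z
      simp only [K, Set.mem_inter_iff, Set.mem_iInter]
      rfl
    rw [h1]
    refine IsClosed.inter (isClosed_iInter fun i => isClosed_iInter fun h => ?_) ?_
    · exact isClosed_eq ((hf i j h).comp (continuous_apply j)) (continuous_apply i)
    · exact (hC j).preimage (continuous_apply j)
  have hanti : ∀ j k, j ≤ k → K k ⊆ K j := by
    rintro j k hjk z ⟨h1, h2⟩
    refine ⟨fun i hij => ?_, ?_⟩
    · rw [← h1 j hjk, hcomp, h1]
    · rw [← h1 j hjk]
      exact hfC j k hjk _ h2
  have hdir : Directed (· ⊇ ·) K := fun j k => by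
    obtain ⟨l, hl1, hl2⟩ := exists_ge_ge j k
    exact ⟨l, hanti _ _ hl1, hanti _ _ hl2⟩
  have hKne : ∀ j, (K j).Nonempty := fun j => by
    obtain ⟨c, hc⟩ := hne j
    refine ⟨fun i => if h : i ≤ j then f h c else 0, fun i h => ?_, ?_⟩
    · simp only [le_refl, dif_pos, h]
      rw [hid]
    · simp only [le_refl, dif_pos]
      rw [hid]
      exact hc
  obtain ⟨z, hz⟩ := IsCompact.nonempty_iInter_of_directed_nonempty_isCompact_isClosed K hdir hKne
    (fun j => (hcl j).isCompact) hcl
  rw [Set.mem_iInter] at hz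
  exact ⟨z, fun i j h => (hz j).1 i h, fun i => (hz i).2⟩

/-- Let (G_i) be an inverse system, indexed by a directed preorder, of compact Hausdorff topological
abelian groups with continuous surjective transition maps, let G be its limit (the group of
compatible families) and let m be a natural number. Then the canonical map G/mG → lim G_i/mG_i is
bijective: a compatible family that lies in mG_i at every index is m times a compatible family
(injectivity), and every family that is compatible modulo m agrees modulo m, index by index, with a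
compatible family (surjectivity). -/
theorem result
    {ι : Type u} [Preorder ι] [IsDirected ι (· ≤ ·)]
    (G : ι → Type v) [∀ i, AddCommGroup (G i)] [∀ i, TopologicalSpace (G i)]
    [∀ i, IsTopologicalAddGroup (G i)] [∀ i, CompactSpace (G i)] [∀ i, T2Space (G i)]
    (f : ∀ ⦃i j : ι⦄, i ≤ j → (G j →+ G i)) (hf : ∀ i j (h : i ≤ j), Continuous (f h))
    (hid : ∀ i (x : G i), f (le_refl i) x = x)
    (hcomp : ∀ i j k (hij : i ≤ j) (hjk : j ≤ k) (x : G k), f hij (f hjk x) = f (hij.trans hjk) x)
    (hsurj : ∀ i j (h : i ≤ j), Function.Surjective (f h)) (m : ℕ) :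
    (∀ x : ∀ i, G i, (∀ i j (h : i ≤ j), f h (x j) = x i) → (∀ i, ∃ y : G i, m • y = x i) →
        ∃ z : ∀ i, G i, (∀ i j (h : i ≤ j), f h (z j) = z i) ∧ ∀ i, m • z i = x i) ∧
    (∀ y : ∀ i, G i, (∀ i j (h : i ≤ j), ∃ w : G i, f h (y j) - y i = m • w) →
        ∃ x : ∀ i, G i, (∀ i j (h : i ≤ j), f h (x j) = x i) ∧ ∀ i, ∃ w : G i, x i - y i = m • w) := by
  constructor
  · intro x hx hy
    refine aux G f hf hid hcomp (fun i => {y | m • y = x i}) (fun i => ?_) hy ?_
    · exact isClosed_eq (continuous_const_smul m) continuous_const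
    · intro i j h y hy
      show m • f h y = x i
      have hy' : m • y = x j := hy
      rw [← map_nsmul, hy', hx]
  · intro y hy
    refine aux G f hf hid hcomp (fun i => {x | ∃ w : G i, x - y i = m • w}) (fun i => ?_) (fun i => ⟨y i, 0, by simp⟩) ?_
    · have h1 : {x : G i | ∃ w : G i, x - y i = m • w} = (fun x => x - y i) ⁻¹' (Set.range fun w : G i => m • w) := by
        ext x
        constructor
        · rintro ⟨w, hw⟩; exact ⟨w, hw.symm⟩
        · rintro ⟨w, hw⟩; exact ⟨w, hw.symm⟩
      rw [h1]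
      exact (isCompact_range (continuous_const_smul m)).isClosed.preimage (continuous_id.sub continuous_const)
    · rintro i j h x ⟨w, hw⟩
      obtain ⟨w', hw'⟩ := hy i j h
      refine ⟨f h w + w', ?_⟩
      have h2 : f h x - f h (y j) = m • f h w := by rw [← map_sub, hw, map_nsmul]
      rw [smul_add, ← h2, ← hw']
      abel

end Groth.Agent.S16344
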