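import Groth.Statements.S16346
import Mathlib
-- import your own Groth.Agent.* helpers here

set_option autoImplicit false
universe u v
open KatoHom

namespace Groth.Agent.S16346

/-- Let P be a set of primes and I_P the set of positive integers all of whose prime factors lie in P.
Let A be an abelian group, (B_n)_{n ∈ I_P} an inverse system of abelian groups with transition maps
B_n → B_m for m ∣ n, and φ_n : A → B_n homomorphisms vanishing on nA and compatible with the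
transition maps, so that they induce φ̂ : Â → B̂ on the limits Â = lim A/nA and B̂ = lim B_n (limits
taken as compatible families). Suppose some N ∈ I_P kills the torsion subgroup of B̂ and kills the
kernel of φ̂ (the latter meaning: a compatible family of residues (a_n) with φ_n(a_n) = 0 for all n
has N a_n ∈ nA for all n). Then the subgroup ⋂_{n ∈ I_P} nA is ℓ-divisible for every ℓ ∈ P, and it
contains every subgroup of A that is ℓ-divisible for all ℓ ∈ P; that is, it is the largest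
P-divisible subgroup of A. -/
theorem result
    {A : Type u} [AddCommGroup A] (P : Set ℕ) (hP : ∀ p ∈ P, p.Prime)
    (IP : Set ℕ) (hIP : ∀ n, n ∈ IP ↔ 0 < n ∧ ∀ p : ℕ, p.Prime → p ∣ n → p ∈ P)
    (B : IP → Type v) [∀ n, AddCommGroup (B n)]
    (g : ∀ ⦃m n : IP⦄, (m : ℕ) ∣ (n : ℕ) → (B n →+ B m))
    (hgid : ∀ (n : IP) (b : B n), g (dvd_refl (n : ℕ)) b = b)
    (hgcomp : ∀ (k m n : IP) (hkm : (k : ℕ) ∣ (m : ℕ)) (hmn : (m : ℕ) ∣ (n : ℕ)) (b : B n),
      g hkm (g hmn b) = g (hkm.trans hmn) b)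
    (φ : ∀ n : IP, A →+ B n) (hφ : ∀ (n : IP) (a : A), φ n ((n : ℕ) • a) = 0)
    (hφg : ∀ (m n : IP) (h : (m : ℕ) ∣ (n : ℕ)) (a : A), g h (φ n a) = φ m a)
    (N : ℕ) (hN : N ∈ IP)
    (htor : ∀ b : ∀ n : IP, B n, (∀ (m n : IP) (h : (m : ℕ) ∣ (n : ℕ)), g h (b n) = b m) →
      (∃ k : ℕ, 0 < k ∧ ∀ n, k • b n = 0) → ∀ n, N • b n = 0)
    (hker : ∀ a : IP → A, (∀ m n : IP, (m : ℕ) ∣ (n : ℕ) → ∃ c : A, a n - a m = (m : ℕ) • c) →
      (∀ n, φ n (a n) = 0) → ∀ n : IP, ∃ c : A, N • a n = (n : ℕ) • c) :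
    (∀ ℓ ∈ P, ∀ x : A, (∀ n ∈ IP, ∃ y : A, x = n • y) →
        ∃ y : A, (∀ n ∈ IP, ∃ z : A, y = n • z) ∧ ℓ • y = x) ∧
    (∀ H : AddSubgroup A, (∀ ℓ ∈ P, ∀ x ∈ H, ∃ y ∈ H, ℓ • y = x) →
        ∀ x ∈ H, ∀ n ∈ IP, ∃ y : A, x = n • y) := by
  have hmem : ∀ n, n ∈ IP → ∀ m, m ∈ IP → n * m ∈ IP := by
    intro n hn m hm
    rw [hIP] at hn hm ⊢
    refine ⟨Nat.mul_pos hn.1 hm.1, fun p hp hd => ?_⟩
    rcases (Nat.Prime.dvd_mul hp).1 hd with h | h
    · exact hn.2 p hp h
    · exact hm.2 p hp h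
  have hone : 1 ∈ IP := by
    rw [hIP]
    exact ⟨one_pos, fun p hp hd => absurd (Nat.dvd_one.1 hd) hp.ne_one⟩
  have hℓ : ∀ ℓ ∈ P, ℓ ∈ IP := fun ℓ hl => by
    rw [hIP]
    exact ⟨(hP ℓ hl).pos, fun p hp hd => by
      rw [(Nat.prime_dvd_prime_iff_eq hp (hP ℓ hl)).1 hd]; exact hl⟩
  constructor
  · intro ℓ hl x hx
    have hkIP : ℓ * (N * N) ∈ IP := hmem _ (hℓ ℓ hl) _ (hmem _ hN _ hN)
    have h1 : ∀ n : IP, ∃ y : A, x = (ℓ * (N * N) * (n : ℕ)) • y := fun n => hx _ (hmem _ hkIP _ n.2)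
    choose y hy using h1
    obtain ⟨z, hz⟩ : ∃ z, z = y ⟨1, hone⟩ := ⟨_, rfl⟩
    have hxz : x = (ℓ * (N * N)) • z := by
      have := hy ⟨1, hone⟩
      rw [hz]
      rwa [mul_one] at this
    let a : IP → A := fun n => z - (n : ℕ) • y n
    have ha : ∀ n, a n = z - (n : ℕ) • y n := fun _ => rfl
    have hka : ∀ n, (ℓ * (N * N)) • a n = 0 := fun n => by
      rw [ha, smul_sub, ← hxz, ← mul_smul, ← hy, sub_self]
    have hφa : ∀ n, φ n (a n) = φ n z := fun n => by rw [ha, map_sub, hφ, sub_zero]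
    have hb : ∀ n, N • φ n z = 0 := by
      refine htor (fun n => φ n z) (fun m n h => hφg m n h z) ⟨ℓ * (N * N), ((hIP _).1 hkIP).1, fun n => ?_⟩
      rw [← hφa, ← map_nsmul, hka, map_zero]
    have hc : ∀ m n : IP, (m:ℕ) ∣ n → ∃ c : A, N • a n - N • a m = (m:ℕ) • c := by
      rintro m n ⟨q, hq⟩
      refine ⟨N • (y m - q • y n), ?_⟩
      have h2 : a n - a m = (m:ℕ) • (y m - q • y n) := by
        rw [ha, ha, smul_sub, ← mul_smul, ← hq, sub_sub_sub_cancel_left]
      rw [← smul_sub, h2, smul_comm]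
    have hd := hker (fun n => N • a n) hc (fun n => by rw [map_nsmul, hφa, hb])
    refine ⟨(N * N) • z, fun n hn => ?_, by rw [hxz, ← mul_smul]⟩
    obtain ⟨c, hc'⟩ := hd ⟨n, hn⟩
    refine ⟨c + (N * N) • y ⟨n, hn⟩, ?_⟩
    have hc2 : (N * N) • a ⟨n, hn⟩ = n • c := by rw [mul_smul]; exact hc'
    rw [ha, smul_sub, sub_eq_iff_eq_add] at hc2
    rw [hc2, smul_add]
    congr 1
    rw [smul_comm]
  · intro H hH
    have key : ∀ n, n ∈ IP → ∀ x ∈ H, ∃ y ∈ H, x = n • y := by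
      intro n
      induction n using Nat.strong_induction_on with
      | _ n ih =>
        intro hn x hx
        by_cases h1 : n = 1
        · exact ⟨x, hx, by rw [h1, one_smul]⟩
        have hpr := Nat.minFac_prime h1
        obtain ⟨k, hk⟩ := Nat.minFac_dvd n
        have hpP : n.minFac ∈ P := ((hIP n).1 hn).2 _ hpr (Nat.minFac_dvd n)
        have hnpos := ((hIP n).1 hn).1
        have hkpos : 0 < k := by
          rcases Nat.eq_zero_or_pos k with h0 | h0
          · rw [h0, mul_zero] at hk; omega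
          · exact h0
        have hkn : k < n := by
          have := hpr.one_lt
          calc k = 1 * k := (one_mul k).symm
            _ < n.minFac * k := Nat.mul_lt_mul_of_pos_right this hkpos
            _ = n := hk.symm
        have hkIP : k ∈ IP := by
          rw [hIP]
          refine ⟨hkpos, fun p hp hd => ((hIP n).1 hn).2 p hp (hd.trans ⟨n.minFac, ?_⟩)⟩
          rw [mul_comm]; exact hk
        obtain ⟨y, hy, hxy⟩ := hH _ hpP x hx
        obtain ⟨z, hz, hyz⟩ := ih k hkn hkIP y hy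
        refine ⟨z, hz, ?_⟩
        rw [← hxy, hyz, ← mul_smul, ← hk]
    intro x hx n hn
    obtain ⟨y, -, hy⟩ := key n hn x hx
    exact ⟨y, hy⟩

end Groth.Agent.S16346
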