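import Groth.Statements.S16356
import Mathlib
-- import your own Groth.Agent.* helpers here

set_option autoImplicit false
universe u
open OrdAV

namespace Groth.Agent.S16356

/-- For an odd prime p and a perfect field k of characteristic p, a root of unity in the ring of Witt
vectors W(k) whose residue in k is 1 is itself 1: if x ^ n = 1 with n ≥ 1 and the zeroth Witt
component of x is 1, then x = 1. (For p = 2 this fails: -1 in W(F_2).) -/
theorem result (p : ℕ) [Fact p.Prime] (hp : p ≠ 2)
    (k : Type u) [Field k] [CharP k p] [PerfectRing k p]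
    (x : WittVector p k) (n : ℕ) (hn : 0 < n) (hx : x ^ n = 1) (h0 : x.coeff 0 = 1) : x = 1 := by
  have hpp : p.Prime := Fact.out
  let cc : WittVector p k →+* k := WittVector.constantCoeff
  have hcc : ∀ y, cc y = y.coeff 0 := fun _ => rfl
  have hker : ∀ y : WittVector p k, cc y = 0 → ∃ z, y = (p : WittVector p k) * z := by
    intro y hy
    have h1 : y ∈ Ideal.span {(p : WittVector p k)} := (WittVector.mem_span_p_iff_coeff_zero_eq_zero _).2 hy
    obtain ⟨z, hz⟩ := Ideal.mem_span_singleton.1 h1
    exact ⟨z, hz⟩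
  have hp0 : (p : WittVector p k) ≠ 0 := WittVector.p_nonzero p k
  have hccp : cc (p : WittVector p k) = 0 := by rw [map_natCast]; exact CharP.cast_eq_zero k p
  have claim1 : ∀ (y : WittVector p k) (m : ℕ), ¬ p ∣ m → cc y = 1 → y ^ m = 1 → y = 1 := by
    intro y m hm hy hym
    by_contra hne
    have h1 : (∑ i ∈ Finset.range m, y ^ i) * (y - 1) = 0 := by rw [geom_sum_mul, hym, sub_self]
    have h2 : ∑ i ∈ Finset.range m, y ^ i = 0 := (mul_eq_zero.1 h1).resolve_right (sub_ne_zero.2 hne)
    have h3 := congrArg cc h2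
    rw [map_sum, map_zero] at h3
    simp only [map_pow, hy, one_pow, Finset.sum_const, Finset.card_range, nsmul_eq_mul, mul_one] at h3
    exact hm ((CharP.cast_eq_zero_iff k p m).1 h3)
  have claim2 : ∀ (y : WittVector p k), cc y = 1 → y ^ p = 1 → y = 1 := by
    intro y hy hyp
    by_contra hne
    have h1 : (∑ i ∈ Finset.range p, y ^ i) * (y - 1) = 0 := by rw [geom_sum_mul, hyp, sub_self]
    have h2 : ∑ i ∈ Finset.range p, y ^ i = 0 := (mul_eq_zero.1 h1).resolve_right (sub_ne_zero.2 hne)
    obtain ⟨z, hz⟩ := hker (y - 1) (by rw [map_sub, hy, map_one, sub_self])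
    have h3 : cc (∑ i ∈ Finset.range p, ∑ j ∈ Finset.range i, y ^ j) = 0 := by
      simp only [map_sum, map_pow, hy, one_pow, Finset.sum_const, Finset.card_range, nsmul_eq_mul, mul_one]
      rw [← Nat.cast_sum, CharP.cast_eq_zero_iff k p]
      have h4 : (∑ i ∈ Finset.range p, i) * 2 = p * (p - 1) := Finset.sum_range_id_mul_two p
      have h5 : p ∣ (∑ i ∈ Finset.range p, i) * 2 := ⟨p - 1, h4⟩
      rcases hpp.dvd_mul.1 h5 with h | h
      · exact h
      · exact absurd ((Nat.prime_dvd_prime_iff_eq hpp Nat.prime_two).1 h) hp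
    obtain ⟨w, hw⟩ := hker _ h3
    have h6 : ∑ i ∈ Finset.range p, (y ^ i - 1) = (∑ i ∈ Finset.range p, ∑ j ∈ Finset.range i, y ^ j) * (y - 1) := by
      rw [Finset.sum_mul]
      exact Finset.sum_congr rfl fun i _ => (geom_sum_mul y i).symm
    rw [Finset.sum_sub_distrib, h2, hw, hz, Finset.sum_const, Finset.card_range, nsmul_eq_mul, mul_one, zero_sub] at h6
    have h7 : (p : WittVector p k) * (1 + w * ((p : WittVector p k) * z)) = 0 := by
      have : (p : WittVector p k) * (1 + w * ((p : WittVector p k) * z)) = p + (p : WittVector p k) * w * ((p : WittVector p k) * z) := by ring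
      rw [this, ← h6]; ring
    have h8 := (mul_eq_zero.1 h7).resolve_left hp0
    have h9 := congrArg cc h8
    rw [map_add, map_mul, map_mul, hccp, zero_mul, mul_zero, add_zero, map_one, map_zero] at h9
    exact one_ne_zero h9
  have hx0 : cc x = 1 := h0
  obtain ⟨a, m, hm, rfl⟩ := Nat.exists_eq_pow_mul_and_not_dvd hn.ne' p hpp.ne_one
  clear hn
  induction a with
  | zero => exact claim1 x m hm hx0 (by rwa [pow_zero, one_mul] at hx)
  | succ a ih =>
    apply ih
    apply claim2
    · rw [map_pow, hx0, one_pow]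
    · rw [← pow_mul, ← hx]; congr 1; ring

end Groth.Agent.S16356
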