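import Groth.Statements.S16357
import Mathlib
-- import your own Groth.Agent.* helpers here

set_option autoImplicit false
universe u
open OrdAV

namespace Groth.Agent.S16357

/-- Over a field L of characteristic zero, a monic polynomial h whose square has rational coefficients
has rational coefficients itself. -/
theorem result (L : Type u) [Field L] [CharZero L]
    (h : Polynomial L) (hm : h.Monic) (f : Polynomial ℚ)
    (hf : h ^ 2 = Polynomial.map (algebraMap ℚ L) f) :
    ∃ g : Polynomial ℚ, Polynomial.map (algebraMap ℚ L) g = h := by
  set n := h.natDegree with hn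
  let S : Subring L := (algebraMap ℚ L).range
  have key : ∀ k : ℕ, ∀ m : ℕ, m + k = n → h.coeff m ∈ S := by
    intro k
    induction k using Nat.strong_induction_on with
    | _ k ih =>
      intro m hmk
      rcases Nat.eq_zero_or_pos k with hk | hk
      · subst hk
        have : m = n := by omega
        subst this
        rw [hn, Polynomial.coeff_natDegree, hm]
        exact S.one_mem
      · have hc : (h ^ 2).coeff (m + n) ∈ S := by
          rw [hf, Polynomial.coeff_map]; exact ⟨_, rfl⟩
        rw [pow_two, Polynomial.coeff_mul] at hc
        have hne : (m, n) ≠ (n, m) := by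
          intro h; have := congrArg Prod.fst h; simp at this; omega
        have hmem1 : (m, n) ∈ Finset.HasAntidiagonal.antidiagonal (m + n) := by simp
        have hmem2 : (n, m) ∈ (Finset.HasAntidiagonal.antidiagonal (m + n)).erase (m, n) := by
          rw [Finset.mem_erase]; exact ⟨hne.symm, by simp [add_comm]⟩
        rw [← Finset.add_sum_erase _ _ hmem1, ← Finset.add_sum_erase _ _ hmem2] at hc
        have hrest : ∑ x ∈ ((Finset.HasAntidiagonal.antidiagonal (m + n)).erase (m, n)).erase (n, m), h.coeff x.1 * h.coeff x.2 ∈ S := by
          refine S.sum_mem ?_
          rintro ⟨i, j⟩ hij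
          rw [Finset.mem_erase, Finset.mem_erase, Finset.HasAntidiagonal.mem_antidiagonal] at hij
          obtain ⟨h1, h2, h3⟩ := hij
          simp only at h3
          by_cases hi : n < i
          · rw [Polynomial.coeff_eq_zero_of_natDegree_lt hi, zero_mul]; exact S.zero_mem
          · by_cases hj : n < j
            · rw [Polynomial.coeff_eq_zero_of_natDegree_lt hj, mul_zero]; exact S.zero_mem
            · have hi2 : i ≠ n := by
                rintro rfl; apply h1; ext <;> simp; omega
              have hj2 : j ≠ n := by
                rintro rfl; apply h2; ext <;> simp; omega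
              exact S.mul_mem (ih (n - i) (by omega) i (by omega)) (ih (n - j) (by omega) j (by omega))
        have hcn : h.coeff n = 1 := by rw [hn, Polynomial.coeff_natDegree, hm]
        simp only [hcn, mul_one, one_mul] at hc
        obtain ⟨c, hc⟩ := hc
        obtain ⟨d, hd⟩ := hrest
        refine ⟨(c - d) / 2, ?_⟩
        rw [map_div₀, map_sub, hc, hd]
        simp only [map_ofNat]
        ring
  have h2 : ∀ m, h.coeff m ∈ S := by
    intro m
    by_cases hmn : m ≤ n
    · exact key (n - m) m (by omega)
    · rw [Polynomial.coeff_eq_zero_of_natDegree_lt (by omega)]; exact S.zero_mem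
  have h3 : h ∈ Polynomial.lifts (algebraMap ℚ L) := by
    rw [Polynomial.lifts_iff_coeff_lifts]
    intro m
    exact h2 m
  rw [Polynomial.mem_lifts] at h3
  exact h3

end Groth.Agent.S16357
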