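import Groth.Statements.S16358
import Mathlib
-- import your own Groth.Agent.* helpers here

set_option autoImplicit false
universe u v w
open OrdAV

namespace Groth.Agent.S16358

/-- Let k be a perfect field of characteristic p > 0 and W = W(k); let M be a finitely generated free
W-module on which a finite group G acts W-linearly, with invariant submodule M^G. Then the map
(W/pW) ⊗ M^G → (W/pW) ⊗ M induced by the inclusion is injective. Since M^G is free, this implies
rank_W M^G ≤ dim_k (M/pM)^G; the published statement is that inequality, and this row states the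
stronger injectivity. -/
theorem result (p : ℕ) [Fact p.Prime]
    (k : Type u) [Field k] [CharP k p] [PerfectRing k p]
    (M : Type v) [AddCommGroup M] [Module (WittVector p k) M]
    [Module.Free (WittVector p k) M] [Module.Finite (WittVector p k) M]
    (G : Type w) [Group G] [Finite G] (ρ : Representation (WittVector p k) G M) :
    Function.Injective
      (LinearMap.lTensor (WittVector p k ⧸ Ideal.span {(p : WittVector p k)}) ρ.invariants.subtype) := by
  have htf : Module.IsTorsionFree (WittVector p k) (M ⧸ ρ.invariants) := by
    refine ⟨fun r hr => ?_⟩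
    intro a b hab
    obtain ⟨a, rfl⟩ := ρ.invariants.mkQ_surjective a
    obtain ⟨b, rfl⟩ := ρ.invariants.mkQ_surjective b
    simp only [← map_smul] at hab
    rw [← sub_eq_zero, ← map_sub, ← smul_sub, Submodule.mkQ_apply, Submodule.Quotient.mk_eq_zero] at hab
    rw [← sub_eq_zero, ← map_sub, Submodule.mkQ_apply, Submodule.Quotient.mk_eq_zero]
    rw [Representation.mem_invariants] at hab ⊢
    intro g
    have h1 := hab g
    rw [map_smul] at h1
    exact (Module.IsTorsionFree.isSMulRegular hr) h1
  have : Module.Finite (WittVector p k) (M ⧸ ρ.invariants) := inferInstance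
  have hfree : Module.Free (WittVector p k) (M ⧸ ρ.invariants) := inferInstance
  obtain ⟨s, hs⟩ := Module.projective_lifting_property ρ.invariants.mkQ LinearMap.id ρ.invariants.mkQ_surjective
  have hmem : ∀ m : M, ((LinearMap.id : M →ₗ[WittVector p k] M) - s ∘ₗ ρ.invariants.mkQ) m ∈ ρ.invariants := by
    intro m
    rw [← Submodule.Quotient.mk_eq_zero, ← Submodule.mkQ_apply, LinearMap.sub_apply, map_sub, LinearMap.comp_apply]
    have := LinearMap.congr_fun hs (ρ.invariants.mkQ m)
    rw [LinearMap.comp_apply] at this
    rw [this]
    simp
  let r : M →ₗ[WittVector p k] ρ.invariants := LinearMap.codRestrict _ _ hmem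
  have hr : r ∘ₗ ρ.invariants.subtype = LinearMap.id := by
    ext x
    show (x : M) - s (ρ.invariants.mkQ (x : M)) = x
    have h0 : ρ.invariants.mkQ (x : M) = 0 := (Submodule.Quotient.mk_eq_zero _).2 x.2
    rw [h0, map_zero, sub_zero]
  apply Function.LeftInverse.injective (g := LinearMap.lTensor _ r)
  intro z
  rw [← LinearMap.comp_apply, ← LinearMap.lTensor_comp, hr, LinearMap.lTensor_id, LinearMap.id_apply]

end Groth.Agent.S16358
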