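import Groth.Statements.S16362
import Mathlib
-- import your own Groth.Agent.* helpers here

set_option autoImplicit false
universe u
open MovLem

namespace Groth.Agent.S16362

/-- Let A be a commutative ring, p a prime ideal of A, and ζ, u elements of A with u not in p. Then the
quotient of the classes of ζ and u in the fraction field of the domain A ⧸ p is integral over A ⧸ p
if and only if there exist a natural number N and elements a_1, …, a_N of A such that ζ^N + a_1
ζ^(N-1) u + ⋯ + a_N u^N lies in p; equivalently, some binary form of degree N with coefficients in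
A, monic in the first variable, evaluated at (ζ, u), lies in p. -/
theorem result
    {A : Type u} [CommRing A] (p : Ideal A) [p.IsPrime] (ζ u : A) (hu : u ∉ p) :
    IsIntegral (A ⧸ p)
        (algebraMap (A ⧸ p) (FractionRing (A ⧸ p)) (Ideal.Quotient.mk p ζ) /
          algebraMap (A ⧸ p) (FractionRing (A ⧸ p)) (Ideal.Quotient.mk p u)) ↔
      ∃ (N : ℕ) (a : ℕ → A),
        ζ ^ N + ∑ i ∈ Finset.Icc 1 N, a i * ζ ^ (N - i) * u ^ i ∈ p := by
  let B := A ⧸ p
  let K := FractionRing B
  set z : K := algebraMap B K (Ideal.Quotient.mk p ζ) with hz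
  set w : K := algebraMap B K (Ideal.Quotient.mk p u) with hw
  have hinj : Function.Injective (algebraMap B K) := IsFractionRing.injective B K
  have hw0 : w ≠ 0 := by
    intro h
    have : Ideal.Quotient.mk p u = 0 := hinj (by rw [map_zero]; exact h)
    exact hu (Ideal.Quotient.eq_zero_iff_mem.1 this)
  have hmem : ∀ (N : ℕ) (a : ℕ → A), (ζ ^ N + ∑ i ∈ Finset.Icc 1 N, a i * ζ ^ (N - i) * u ^ i ∈ p) ↔
      z ^ N + ∑ i ∈ Finset.Icc 1 N, algebraMap B K (Ideal.Quotient.mk p (a i)) * z ^ (N - i) * w ^ i = 0 := by
    intro N a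
    rw [← Ideal.Quotient.eq_zero_iff_mem, ← hinj.eq_iff]
    simp only [map_add, map_pow, map_sum, map_mul, map_zero]
    rfl
  constructor
  · rintro ⟨P, hP, hPe⟩
    refine ⟨P.natDegree, fun i => Quotient.out (P.coeff (P.natDegree - i)), ?_⟩
    rw [hmem]
    have hout : ∀ b : B, Ideal.Quotient.mk p (Quotient.out b) = b := fun b => Quotient.out_eq b
    simp only [hout]
    rw [Polynomial.eval₂_eq_sum_range, Finset.sum_range_succ, Polynomial.coeff_natDegree, hP, map_one, one_mul] at hPe
    have h1 := congrArg (fun t => t * w ^ P.natDegree) hPe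
    simp only [zero_mul, add_mul] at h1
    rw [div_pow, div_mul_cancel₀ _ (pow_ne_zero _ hw0)] at h1
    have h2 : ∑ i ∈ Finset.Icc 1 P.natDegree, algebraMap B K (P.coeff (P.natDegree - i)) * z ^ (P.natDegree - i) * w ^ i =
        (∑ j ∈ Finset.range P.natDegree, algebraMap B K (P.coeff j) * (z / w) ^ j) * w ^ P.natDegree := by
      rw [Finset.sum_mul]
      refine Finset.sum_nbij' (fun i => P.natDegree - i) (fun j => P.natDegree - j) ?_ ?_ ?_ ?_ ?_
      · intro i hi; rw [Finset.mem_Icc] at hi; rw [Finset.mem_range]; omega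
      · intro i hi; rw [Finset.mem_range] at hi; rw [Finset.mem_Icc]; omega
      · intro i hi; rw [Finset.mem_Icc] at hi; omega
      · intro i hi; rw [Finset.mem_range] at hi; omega
      · intro i hi
        rw [Finset.mem_Icc] at hi
        have e2 : w ^ P.natDegree = w ^ (P.natDegree - i) * w ^ i := by
          rw [← pow_add]; congr 1; omega
        rw [e2, div_pow]
        have e3 : w ^ (P.natDegree - i) ≠ 0 := pow_ne_zero _ hw0
        calc _ = algebraMap B K (P.coeff (P.natDegree - i)) * (z ^ (P.natDegree - i) / w ^ (P.natDegree - i) * w ^ (P.natDegree - i)) * w ^ i := by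
              rw [div_mul_cancel₀ _ e3]
          _ = _ := by ring
    rw [add_comm, h2]
    exact h1
  · rintro ⟨N, a, h⟩
    rw [hmem] at h
    by_cases hN : N = 0
    · subst hN; simp at h
    refine ⟨Polynomial.X ^ N + ∑ i ∈ Finset.Icc 1 N, Polynomial.C (Ideal.Quotient.mk p (a i)) * Polynomial.X ^ (N - i), ?_, ?_⟩
    · apply Polynomial.monic_X_pow_add
      rw [Polynomial.degree_lt_iff_coeff_zero]
      intro m hm
      rw [Polynomial.finsetSum_coeff]
      refine Finset.sum_eq_zero fun i hi => ?_
      rw [Finset.mem_Icc] at hi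
      rw [Polynomial.coeff_C_mul, Polynomial.coeff_X_pow, if_neg (by omega), mul_zero]
    · rw [Polynomial.eval₂_add, Polynomial.eval₂_finsetSum]
      simp only [Polynomial.eval₂_mul, Polynomial.eval₂_pow, Polynomial.eval₂_C, Polynomial.eval₂_X]
      have h1 := congrArg (fun t => t / w ^ N) h
      simp only [zero_div, add_div, Finset.sum_div] at h1
      rw [← h1, div_pow]
      congr 1
      refine Finset.sum_congr rfl fun i hi => ?_
      rw [Finset.mem_Icc] at hi
      have e2 : w ^ N = w ^ (N - i) * w ^ i := by
        rw [← pow_add]; congr 1; omega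
      rw [e2, div_pow]
      field_simp
      exact mul_comm _ _

end Groth.Agent.S16362
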