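import Groth.Statements.S16371
import Mathlib
-- import your own Groth.Agent.* helpers here

set_option autoImplicit false
universe u v w
open FrobAlg

namespace Groth.Agent.S16371

/-- Let p be a prime, A a commutative ring and B, C commutative A-algebras with p² = 0 in B. If two
A-algebra maps g₁, g₂ : C → B agree modulo p, then they agree on every element of C which is
congruent modulo p to an element of the A-subalgebra generated by the p-th powers. (The source
states this for liftings over a flat ℤ/p²-thickening of two smooth schemes and the subsheaf of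
functions whose reduction lies in the image of the relative Frobenius; the smoothness and lifting
hypotheses are not needed for the identity.) -/
theorem result
    (p : ℕ) [Fact p.Prime] (A : Type u) [CommRing A] (B : Type v) [CommRing B] [Algebra A B]
    (C : Type w) [CommRing C] [Algebra A C] (hp : (p : B) ^ 2 = 0)
    (g₁ g₂ : C →ₐ[A] B) (hg : ∀ x : C, g₁ x - g₂ x ∈ Ideal.span ({(p : B)} : Set B))
    (x y : C) (hy : y ∈ Algebra.adjoin A (Set.range fun c : C => c ^ p))
    (hxy : x - y ∈ Ideal.span ({(p : C)} : Set C)) :
    g₁ x = g₂ x := by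
  have h1 : g₁ y = g₂ y := by
    have : Set.EqOn g₁ g₂ (Set.range fun c : C => c ^ p) := by
      rintro _ ⟨c, rfl⟩
      simp only [map_pow]
      obtain ⟨b, hb⟩ := Ideal.mem_span_singleton'.1 (hg c)
      have h2 : g₁ c = g₂ c + b * p := by rw [hb]; ring
      obtain ⟨r, hr⟩ := exists_add_pow_prime_eq (Fact.out : p.Prime) (g₂ c) (b * p)
      have h4 : (b * (p : B)) ^ p = 0 := by
        obtain ⟨k, hk⟩ := Nat.exists_eq_add_of_le (Fact.out : p.Prime).two_le
        calc (b * (p : B)) ^ p = b ^ p * ((p : B) ^ 2 * (p : B) ^ k) := by
              rw [mul_pow, ← pow_add, ← hk]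
          _ = 0 := by rw [hp]; ring
      rw [h2, hr, h4]
      linear_combination (g₂ c * b * r) * hp
    exact (AlgHom.eqOn_adjoin_iff.2 this) hy
  obtain ⟨z, hz⟩ := Ideal.mem_span_singleton'.1 hxy
  have h2 : x = y + z * p := by rw [hz]; ring
  obtain ⟨b, hb⟩ := Ideal.mem_span_singleton'.1 (hg z)
  have h3 : g₁ z = g₂ z + b * p := by rw [hb]; ring
  rw [h2, map_add, map_add, map_mul, map_mul, h1, h3, map_natCast, map_natCast]
  linear_combination b * hp

end Groth.Agent.S16371
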