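import Groth.Statements.S16374
import Mathlib
-- import your own Groth.Agent.* helpers here

set_option autoImplicit false
universe u v w
open FrobAlg

namespace Groth.Agent.S16374

/-- Let p be a prime, A a commutative ring, B and C commutative A-algebras with p² = 0 in B, and g : C →
B an A-algebra map such that every g(c) is congruent modulo p to an element of the A-subalgebra of B
generated by the p-th powers (g lifts a relative Frobenius). Then d(g(x)) = 0 in the module of
Kähler differentials of B over A for every x ∈ C that is congruent modulo p to an element of the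
A-subalgebra of C generated by the p-th powers. (The source works with a lifting of the relative
Frobenius of a smooth scheme over a ℤ/p²-thickening and the subsheaf of functions whose reduction
comes from the Frobenius twist; smoothness is not needed for this vanishing.) -/
theorem result
    (p : ℕ) [Fact p.Prime] (A : Type u) [CommRing A] (B : Type v) [CommRing B] [Algebra A B]
    (C : Type w) [CommRing C] [Algebra A C] (hp : (p : B) ^ 2 = 0)
    (g : C →ₐ[A] B)
    (hg : ∀ c : C, ∃ u ∈ Algebra.adjoin A (Set.range fun b : B => b ^ p),
      g c - u ∈ Ideal.span ({(p : B)} : Set B))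
    (x y : C) (hy : y ∈ Algebra.adjoin A (Set.range fun c : C => c ^ p))
    (hxy : x - y ∈ Ideal.span ({(p : C)} : Set C)) :
    KaehlerDifferential.D A B (g x) = 0 := by
  have h1 : ∀ u ∈ Algebra.adjoin A (Set.range fun b : B => b ^ p), (p : B) • KaehlerDifferential.D A B u = 0 := by
    intro u hu
    induction hu using Algebra.adjoin_induction with
    | mem u hu =>
      obtain ⟨b, rfl⟩ := hu
      simp only
      rw [Derivation.leibniz_pow, ← Nat.cast_smul_eq_nsmul B, smul_smul, ← pow_two, hp, zero_smul]
    | algebraMap r => simp
    | add a b _ _ ha hb => rw [map_add, smul_add, ha, hb, add_zero]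
    | mul a b _ _ ha hb => rw [Derivation.leibniz, smul_add, smul_comm, hb, smul_comm (p : B), ha]; simp
  have h2 : ∀ c : C, (p : B) • KaehlerDifferential.D A B (g c) = 0 := by
    intro c
    obtain ⟨u, hu, h⟩ := hg c
    obtain ⟨b, hb⟩ := Ideal.mem_span_singleton'.1 h
    have h3 : g c = u + b * p := by rw [hb]; ring
    rw [h3, map_add, smul_add, h1 u hu, zero_add, Derivation.leibniz, Derivation.map_natCast, smul_zero, zero_add,
      smul_smul, ← pow_two, hp, zero_smul]
  have h3 : ∀ c ∈ Algebra.adjoin A (Set.range fun c : C => c ^ p), KaehlerDifferential.D A B (g c) = 0 := by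
    intro u hu
    induction hu using Algebra.adjoin_induction with
    | mem u hu =>
      obtain ⟨b, rfl⟩ := hu
      simp only
      rw [map_pow, Derivation.leibniz_pow, ← Nat.cast_smul_eq_nsmul B, smul_comm, h2, smul_zero]
    | algebraMap r => simp
    | add a b _ _ ha hb => rw [map_add, map_add, ha, hb, add_zero]
    | mul a b _ _ ha hb => rw [map_mul, Derivation.leibniz, ha, hb]; simp
  obtain ⟨z, hz⟩ := Ideal.mem_span_singleton'.1 hxy
  have h4 : x = y + z * p := by rw [hz]; ring
  rw [h4, map_add, map_add, h3 y hy, zero_add, map_mul, map_natCast, Derivation.leibniz, Derivation.map_natCast, smul_zero, zero_add, h2]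

end Groth.Agent.S16374
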