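import Groth.Statements.S16401
import Mathlib
-- import your own Groth.Agent.* helpers here

set_option autoImplicit false
universe u v
open CAlgX

namespace Groth.Agent.S16401

/-- Let R be a commutative ring and (E_a), a ∈ ι, a family of additive subgroups of R indexed by an
additive commutative group ι, with E_0 = R and E_a · E_b ⊆ E_{a+b}. Let β, γ : Fin r → ι be weight
vectors with Σ_j β_j = Σ_i γ_i, and let ϑ be an r × r matrix over R with ϑ_{ij} ∈ E_{γ_i − β_j} for
all i, j and with unit determinant. Then a column vector u satisfies u_j ∈ E_{β_j} for every j if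
and only if (ϑ u)_i ∈ E_{γ_i} for every i; since ϑ is invertible this says that ϑ maps the box Π_j
E_{β_j} bijectively onto the box Π_i E_{γ_i}. -/
theorem result
    {R : Type u} [CommRing R] {ι : Type v} [AddCommGroup ι]
    (E : ι → AddSubgroup R) (h0 : E 0 = ⊤)
    (hmul : ∀ a b : ι, ∀ x ∈ E a, ∀ y ∈ E b, x * y ∈ E (a + b))
    {r : ℕ} (wβ wγ : Fin r → ι) (hsum : ∑ j, wβ j = ∑ i, wγ i)
    (ϑ : Matrix (Fin r) (Fin r) R) (hϑ : ∀ i j, ϑ i j ∈ E (wγ i - wβ j))
    (hdet : IsUnit ϑ.det) (u : Fin r → R) :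
    (∀ j, u j ∈ E (wβ j)) ↔ ∀ i, ϑ.mulVec u i ∈ E (wγ i) := by
  have hprod : ∀ (s : Finset (Fin r)) (w : Fin r → ι) (f : Fin r → R), (∀ k, f k ∈ E (w k)) → ∏ k ∈ s, f k ∈ E (∑ k ∈ s, w k) := by
    intro s w f hf
    induction s using Finset.induction_on with
    | empty => simp [h0]
    | insert a s ha ih =>
      rw [Finset.prod_insert ha, Finset.sum_insert ha]
      exact hmul _ _ _ (hf a) _ ih
  have hdetE : ∀ (M : Matrix (Fin r) (Fin r) R) (w : Fin r → ι), (∀ i j, M i j ∈ E (w i - wβ j)) →
      M.det ∈ E (∑ i, w i - ∑ j, wβ j) := by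
    intro M w hM
    rw [Matrix.det_apply]
    refine AddSubgroup.sum_mem _ fun σ _ => ?_
    have : ∏ i, M (σ i) i ∈ E (∑ i, w i - ∑ j, wβ j) := by
      have := hprod Finset.univ (fun i => w (σ i) - wβ i) (fun i => M (σ i) i) (fun i => hM _ _)
      rwa [Finset.sum_sub_distrib, Equiv.sum_comp σ w] at this
    rcases Int.units_eq_one_or (Equiv.Perm.sign σ) with h | h
    · rw [h, one_smul]; exact this
    · rw [h, Units.neg_smul, one_smul]; exact AddSubgroup.neg_mem _ this
  constructor
  · intro hu i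
    show ∑ j, ϑ i j * u j ∈ _
    refine AddSubgroup.sum_mem _ fun j _ => ?_
    have := hmul _ _ _ (hϑ i j) _ (hu j)
    rwa [sub_add_cancel] at this
  · intro hv j
    have hadj : ∀ i, ϑ.adjugate j i ∈ E (wβ j - wγ i) := by
      intro i
      rw [Matrix.adjugate_apply]
      have := hdetE (ϑ.updateRow i (Pi.single j 1)) (Function.update wγ i (wβ j)) ?_
      · have h2 : ∑ k, Function.update wγ i (wβ j) k = wβ j - wγ i + ∑ k, wγ k := by
          rw [Finset.sum_update_of_mem (Finset.mem_univ i)]
          rw [← Finset.add_sum_erase Finset.univ wγ (Finset.mem_univ i)]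
          rw [Finset.sdiff_singleton_eq_erase]
          abel
        rw [h2, hsum] at this
        simpa using this
      · intro k l
        by_cases hk : k = i
        · subst hk
          rw [Matrix.updateRow_self, Function.update_self]
          by_cases hl : l = j
          · subst hl; simp [h0]
          · rw [Pi.single_eq_of_ne hl]; exact AddSubgroup.zero_mem _
        · rw [Matrix.updateRow_ne hk, Function.update_of_ne hk]
          exact hϑ k l
    obtain ⟨d, hd⟩ := hdet
    have h1 : u = (↑d⁻¹ : R) • (ϑ.adjugate.mulVec (ϑ.mulVec u)) := by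
      rw [Matrix.mulVec_mulVec, Matrix.adjugate_mul, ← hd, Matrix.smul_mulVec, Matrix.one_mulVec, smul_smul]
      simp
    rw [h1]
    show (↑d⁻¹ : R) * ∑ i, ϑ.adjugate j i * ϑ.mulVec u i ∈ _
    have h2 := hmul 0 (wβ j) (↑d⁻¹ : R) (by rw [h0]; trivial) (∑ i, ϑ.adjugate j i * ϑ.mulVec u i) ?_
    · rwa [zero_add] at h2
    · refine AddSubgroup.sum_mem _ fun i _ => ?_
      have := hmul _ _ _ (hadj i) _ (hv i)
      rwa [sub_add_cancel] at this

end Groth.Agent.S16401
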