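import Groth.Statements.S16405
import Mathlib
-- import your own Groth.Agent.* helpers here

set_option autoImplicit false
universe u v
open InvQ

namespace Groth.Agent.S16405

/-- In weight form. Let b : L → ℤ^r be an injective homomorphism of abelian groups (the case in view: L
the character group of a maximal torus T of a semisimple group over ℂ and b the map dual to the
surjection of the rank-r split torus T' onto T that sends the i-th coordinate cocharacter to the
primitive generator of the i-th ray of the Weyl chamber; only the injectivity of b is used, and ℂ is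
replaced by any commutative ring k). Grade the monoid algebra k[L × ℕ^r] (the coordinate ring of T ×
𝔸^r) by ℤ^r, the monomial (w, n) having weight b(w) + n (the weights of the T'-action u·(t, v) =
(b^∨(u) t, u v)), and grade k[ℕ^r] by ℤ^r/b(L), the monomial n having weight the class of n (the
weights of the action on 𝔸^r of the diagonalizable kernel Z of T' → T, a finite group in the case in
view). For a diagonalizable group acting on an affine scheme the ring of invariants is the
weight-zero part, so the two weight-zero parts are the coordinate rings of the quotients (T ×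
𝔸^r)//T' and 𝔸^r//Z. The statement: the algebra map k[L × ℕ^r] → k[ℕ^r] induced by the projection L
× ℕ^r → ℕ^r (restriction to the slice 1 × 𝔸^r) maps the weight-zero part of k[L × ℕ^r] bijectively
onto the weight-zero part of k[ℕ^r]; hence it induces an isomorphism of k-algebras between them. -/
theorem result
    (k : Type u) [CommRing k] (r : ℕ) (L : Type v) [AddCommGroup L]
    (b : L →+ (Fin r → ℤ)) (hb : Function.Injective b) :
    Set.BijOn
      (AddMonoidAlgebra.mapDomainAlgHom k k (AddMonoidHom.snd L (Fin r → ℕ)))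
      (AddMonoidAlgebra.gradeBy k
        (b.comp (AddMonoidHom.fst L (Fin r → ℕ)) +
          (AddMonoidHom.compLeft (Nat.castAddMonoidHom ℤ) (Fin r)).comp (AddMonoidHom.snd L (Fin r → ℕ))) 0 :
        Set (AddMonoidAlgebra k (L × (Fin r → ℕ))))
      (AddMonoidAlgebra.gradeBy k
        ((QuotientAddGroup.mk' b.range).comp (AddMonoidHom.compLeft (Nat.castAddMonoidHom ℤ) (Fin r))) 0 :
        Set (AddMonoidAlgebra k (Fin r → ℕ))) := by
  classical
  let c : (Fin r → ℕ) →+ (Fin r → ℤ) := AddMonoidHom.compLeft (Nat.castAddMonoidHom ℤ) (Fin r)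
  let S : Set (L × (Fin r → ℕ)) := {x | b x.1 + c x.2 = 0}
  let T : Set (Fin r → ℕ) := {m | c m ∈ b.range}
  have hF : ∀ x : AddMonoidAlgebra k (L × (Fin r → ℕ)),
      (AddMonoidAlgebra.mapDomainAlgHom k k (AddMonoidHom.snd L (Fin r → ℕ)) x).coeff = Finsupp.mapDomain Prod.snd x.coeff := fun _ => rfl
  have hS : ∀ x : AddMonoidAlgebra k (L × (Fin r → ℕ)), x ∈ (AddMonoidAlgebra.gradeBy k
        (b.comp (AddMonoidHom.fst L (Fin r → ℕ)) +
          (AddMonoidHom.compLeft (Nat.castAddMonoidHom ℤ) (Fin r)).comp (AddMonoidHom.snd L (Fin r → ℕ))) 0 :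
        Set (AddMonoidAlgebra k (L × (Fin r → ℕ)))) ↔ (x.coeff.support : Set (L × (Fin r → ℕ))) ⊆ S := fun _ => Iff.rfl
  have hT : ∀ y : AddMonoidAlgebra k (Fin r → ℕ), y ∈ (AddMonoidAlgebra.gradeBy k
        ((QuotientAddGroup.mk' b.range).comp (AddMonoidHom.compLeft (Nat.castAddMonoidHom ℤ) (Fin r))) 0 :
        Set (AddMonoidAlgebra k (Fin r → ℕ))) ↔ (y.coeff.support : Set (Fin r → ℕ)) ⊆ T := by
    intro y
    rw [SetLike.mem_coe, AddMonoidAlgebra.mem_gradeBy_iff]
    have h1 : ((QuotientAddGroup.mk' b.range).comp (AddMonoidHom.compLeft (Nat.castAddMonoidHom ℤ) (Fin r))) ⁻¹' {0} = T := by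
      ext m
      exact QuotientAddGroup.eq_zero_iff _
    rw [h1]
  have hinj : Set.InjOn (Prod.snd : L × (Fin r → ℕ) → (Fin r → ℕ)) S := by
    rintro ⟨l, m⟩ h ⟨l', m'⟩ h' hmm
    obtain rfl : m = m' := hmm
    have h1 : b l + c m = 0 := h
    have h2 : b l' + c m = 0 := h'
    have h3 : b l = b l' := add_right_cancel (h1.trans h2.symm)
    rw [hb h3]
  refine ⟨?_, ?_, ?_⟩
  · intro x hx
    rw [hS] at hx
    rw [hT, hF]
    intro m hm
    obtain ⟨y, hy, rfl⟩ := Finset.mem_image.1 (Finsupp.mapDomain_support hm)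
    have h1 : b y.1 + c y.2 = 0 := hx hy
    exact ⟨-y.1, by rw [map_neg]; exact neg_eq_of_add_eq_zero_right h1⟩
  · intro x hx y hy hxy
    rw [hS] at hx hy
    have h1 := congrArg AddMonoidAlgebra.coeff hxy
    rw [hF, hF] at h1
    exact AddMonoidAlgebra.coeff_injective (Finsupp.mapDomain_injOn S hinj hx hy h1)
  · intro y hy
    rw [hT] at hy
    have h0 : ∀ m : Fin r → ℕ, ∃ l : L, m ∈ T → b l + c m = 0 := by
      intro m
      by_cases hm : m ∈ T
      · obtain ⟨l, hl⟩ := hm
        exact ⟨-l, fun _ => by rw [map_neg, hl, neg_add_cancel]⟩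
      · exact ⟨0, fun h => absurd h hm⟩
    choose s hs using h0
    refine ⟨AddMonoidAlgebra.ofCoeff (Finsupp.mapDomain (fun m => (s m, m)) y.coeff), ?_, ?_⟩
    · rw [hS]
      intro z hz
      obtain ⟨m, hm, rfl⟩ := Finset.mem_image.1 (Finsupp.mapDomain_support hz)
      exact hs m (hy hm)
    · apply AddMonoidAlgebra.coeff_injective
      rw [hF]
      show Finsupp.mapDomain Prod.snd (Finsupp.mapDomain (fun m => (s m, m)) y.coeff) = y.coeff
      rw [← Finsupp.mapDomain_comp]
      exact Finsupp.mapDomain_id

end Groth.Agent.S16405
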