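import Groth.Statements.S16414
import Mathlib
-- import your own Groth.Agent.* helpers here

set_option autoImplicit false
open Dieud

namespace Groth.Agent.S16414



/-- Let μ be a rational number with 0 < μ ≤ 1 and i an integer, and put f(i,j) = max(−i−j, −j, 0) for
integers j. Then min over all integers j of f(i,j) + jμ exists and equals max(−iμ, 0). -/
theorem result (μ : ℚ) (hμ0 : 0 < μ) (hμ1 : μ ≤ 1) (i : ℤ) :
    IsLeast (Set.range fun j : ℤ => ((max (max (-i - j) (-j)) 0 : ℤ) : ℚ) + (j : ℚ) * μ)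
      (max (-(i : ℚ) * μ) 0) := by
  constructor
  · rcases le_total 0 i with h | h
    · refine ⟨0, ?_⟩
      have h1 : max (max (-i - 0) (-0)) 0 = (0:ℤ) := by omega
      have h2 : (0:ℚ) ≤ i := by exact_mod_cast h
      simp only [h1]
      rw [max_eq_right]
      · simp
      · nlinarith
    · refine ⟨-i, ?_⟩
      have h1 : max (max (-i - -i) (- -i)) 0 = (0:ℤ) := by omega
      have h2 : (i:ℚ) ≤ 0 := by exact_mod_cast h
      simp only [h1]
      rw [max_eq_left]
      · push_cast; ring
      · nlinarith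
  · rintro _ ⟨j, rfl⟩
    simp only
    have a1 : ((-i - j : ℤ) : ℚ) ≤ ((max (max (-i - j) (-j)) 0 : ℤ) : ℚ) := by
      exact_mod_cast (le_trans (le_max_left _ _) (le_max_left _ _))
    have a2 : ((- j : ℤ) : ℚ) ≤ ((max (max (-i - j) (-j)) 0 : ℤ) : ℚ) := by
      exact_mod_cast (le_trans (le_max_right _ _) (le_max_left _ _))
    have a3 : ((0 : ℤ) : ℚ) ≤ ((max (max (-i - j) (-j)) 0 : ℤ) : ℚ) := by
      exact_mod_cast (le_max_right _ _)
    push_cast at a1 a2 a3 ⊢
    generalize (max (max (-(i:ℚ) - j) (-j)) 0 : ℚ) = M at *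
    apply max_le
    · rcases le_total (-(i:ℚ)) j with h | h <;> nlinarith
    · rcases le_total 0 (j:ℚ) with h | h <;> nlinarith

end Groth.Agent.S16414
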