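import Groth.Statements.S16415
import Mathlib
-- import your own Groth.Agent.* helpers here

set_option autoImplicit false
open Dieud

namespace Groth.Agent.S16415



/-- Let μ be a rational number with 0 < μ ≤ 1, N a natural number and i an integer. The minimum of m +
jμ over all pairs of integers (m, j) with m ≥ max(−i−j, −j, 0) and 2m + i + 2j ≥ N exists and equals
μ · max(⌈(N−i)/2⌉, −i, 0). (The published statement prints the value as max(⌈(N−i)/2⌉, −iμ, 0),
without the factor μ on the first term; the printed argument computes μ · max(⌈(N−i)/2⌉, −i, 0),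
attained at m = 0, and for N = 2, i = 0, μ = 1/2 the pair (m, j) = (0, 1) gives 1/2 < 1, so the
value with the factor μ is stated here.) -/
theorem result (μ : ℚ) (hμ0 : 0 < μ) (hμ1 : μ ≤ 1)
    (N : ℕ) (i : ℤ) :
    IsLeast {x : ℚ | ∃ m j : ℤ, max (max (-i - j) (-j)) 0 ≤ m ∧ (N : ℤ) ≤ 2 * m + i + 2 * j ∧
        x = (m : ℚ) + (j : ℚ) * μ}
      (((max (max ⌈((N : ℚ) - i) / 2⌉ (-i)) 0 : ℤ) : ℚ) * μ) := by
  have key : ∀ k : ℤ, ⌈((N : ℚ) - i) / 2⌉ ≤ k ↔ (N:ℤ) - i ≤ 2 * k := by
    intro k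
    rw [Int.ceil_le, div_le_iff₀ (by norm_num)]
    constructor
    · intro h; have : ((N:ℤ) - i : ℚ) ≤ ((2 * k : ℤ) : ℚ) := by push_cast; linarith
      exact_mod_cast this
    · intro h; have : (((N:ℤ) - i : ℤ) : ℚ) ≤ ((2 * k : ℤ) : ℚ) := by exact_mod_cast h
      push_cast at this; linarith
  set c := ⌈((N : ℚ) - i) / 2⌉ with hc
  have hk := (key c).1 le_rfl
  constructor
  · refine ⟨0, max (max c (-i)) 0, ?_, ?_, ?_⟩
    · omega
    · omega
    · push_cast; ring
  · rintro _ ⟨m, j, h1, h2, rfl⟩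
    have h3 : c ≤ m + j := (key _).2 (by omega)
    have h4 : max (max c (-i)) 0 ≤ m + j := by omega
    have h5 : ((max (max c (-i)) 0 : ℤ) : ℚ) ≤ m + j := by exact_mod_cast h4
    have h6 : (0:ℚ) ≤ m := by exact_mod_cast (le_trans (le_max_right _ _) h1)
    nlinarith [mul_le_mul_of_nonneg_right h5 hμ0.le]

end Groth.Agent.S16415
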