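import Groth.Statements.S16416
import Mathlib
-- import your own Groth.Agent.* helpers here

set_option autoImplicit false
universe u v w
open Dieud

namespace Groth.Agent.S16416

/-- For a prime p and a perfect field k of characteristic p, write W = W(k) for the ring of Witt vectors
and σ for its Frobenius; let M and N be free W-modules of finite rank, each with additive maps F
(σ-semilinear) and V (with V(σ(a)m) = aV(m)) satisfying FV = VF = p, and H = Hom_W(M, N). On H the
operator F acts through h ↦ F ∘ h ∘ V, and V acts partially: V·h is the W-linear map h' with h'(V m)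
= V(h(m)) for all m, when it exists. Let H₁ be the largest W-submodule of H stable under both (it
contains every submodule stable under both). Then H₁ ∩ V·H = V·H₁: if y ∈ H and V·y exists and lies
in H₁, then y ∈ H₁, so that H₁/VH₁ → H/(H ∩ VH) is injective. (The published statement is for the
Cartier modules of two p-divisible formal groups over k, every slope of the first below every slope
of the second; only the structure just listed is used, so connectedness and the slope condition are
not assumed.) -/
theorem result
    (p : ℕ) [Fact p.Prime] (k : Type u) [Field k] [CharP k p] [PerfectRing k p]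
    (M : Type v) [AddCommGroup M] [Module (WittVector p k) M]
    [Module.Free (WittVector p k) M] [Module.Finite (WittVector p k) M]
    (N : Type w) [AddCommGroup N] [Module (WittVector p k) N]
    [Module.Free (WittVector p k) N] [Module.Finite (WittVector p k) N]
    (FM VM : M →+ M) (FN VN : N →+ N)
    (hFM : ∀ (a : WittVector p k) (m : M), FM (a • m) = WittVector.frobenius a • FM m)
    (hVM : ∀ (a : WittVector p k) (m : M), VM (WittVector.frobenius a • m) = a • VM m)
    (hFVM : ∀ m : M, FM (VM m) = (p : WittVector p k) • m)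
    (hVFM : ∀ m : M, VM (FM m) = (p : WittVector p k) • m)
    (hFN : ∀ (a : WittVector p k) (n : N), FN (a • n) = WittVector.frobenius a • FN n)
    (hVN : ∀ (a : WittVector p k) (n : N), VN (WittVector.frobenius a • n) = a • VN n)
    (hFVN : ∀ n : N, FN (VN n) = (p : WittVector p k) • n)
    (hVFN : ∀ n : N, VN (FN n) = (p : WittVector p k) • n)
    (H₁ : Submodule (WittVector p k) (M →ₗ[WittVector p k] N))
    (hF : ∀ h ∈ H₁, ∃ h' ∈ H₁, ∀ m : M, h' m = FN (h (VM m)))
    (hV : ∀ h ∈ H₁, ∃ h' ∈ H₁, ∀ m : M, h' (VM m) = VN (h m))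
    (hmax : ∀ S : Submodule (WittVector p k) (M →ₗ[WittVector p k] N),
      (∀ h ∈ S, ∃ h' ∈ S, ∀ m : M, h' m = FN (h (VM m))) →
      (∀ h ∈ S, ∃ h' ∈ S, ∀ m : M, h' (VM m) = VN (h m)) → S ≤ H₁)
    (y : M →ₗ[WittVector p k] N) (x : M →ₗ[WittVector p k] N) (hx : x ∈ H₁)
    (hxy : ∀ m : M, x (VM m) = VN (y m)) :
    y ∈ H₁ := by
  have hsurj : ∀ a : WittVector p k, ∃ b : WittVector p k, WittVector.frobenius b = a := fun a =>
    (WittVector.frobenius_bijective p k).2 a
  let S : Submodule (WittVector p k) (M →ₗ[WittVector p k] N) :=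
    { carrier := {h | ∃ x ∈ H₁, ∀ m : M, x (VM m) = VN (h m)}
      zero_mem' := ⟨0, H₁.zero_mem, fun m => by simp⟩
      add_mem' := by
        rintro a b ⟨x, hx, h⟩ ⟨x', hx', h'⟩
        exact ⟨x + x', H₁.add_mem hx hx', fun m => by simp [h, h']⟩
      smul_mem' := by
        rintro c a ⟨x, hx, h⟩
        obtain ⟨b, rfl⟩ := hsurj c
        exact ⟨b • x, H₁.smul_mem b hx, fun m => by
          rw [LinearMap.smul_apply, h, LinearMap.smul_apply, hVN]⟩ }
  have hS : S ≤ H₁ := by
    apply hmax
    · rintro h ⟨x, hx, hxh⟩
      let h' : M →ₗ[WittVector p k] N :=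
        { toFun := fun m => FN (h (VM m))
          map_add' := fun a b => by rw [map_add, map_add, map_add]
          map_smul' := fun a b => by
            obtain ⟨c, rfl⟩ := hsurj a
            rw [hVM, map_smul, hFN, RingHom.id_apply] }
      refine ⟨h', ?_, fun m => rfl⟩
      obtain ⟨x', hx', hx'h⟩ := hF x hx
      refine ⟨x', hx', fun m => ?_⟩
      show x' (VM m) = VN (FN (h (VM m)))
      rw [hx'h, hxh, hFVN, hVFN]
    · rintro h ⟨x, hx, hxh⟩
      obtain ⟨x2, hx2, hx2h⟩ := hV x hx
      exact ⟨x, ⟨x2, hx2, hx2h⟩, hxh⟩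
  exact hS ⟨x, hx, hxy⟩

end Groth.Agent.S16416
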