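import Groth.Statements.S16498
import Mathlib
-- import your own Groth.Agent.* helpers here

set_option autoImplicit false
universe u
open Curves

namespace Groth.Agent.S16498

open Polynomial in
theorem coeff_comp_aux {k : Type u} [Field k] (F : Polynomial k) (α : k) (n N : ℕ) (hN : F.natDegree < N) :
    (F.comp (Polynomial.X + Polynomial.C α)).coeff n =
      ∑ l ∈ Finset.range N, (l.choose n : k) * F.coeff l * α ^ (l - n) := by
  rw [← Polynomial.taylor_apply, Polynomial.taylor_coeff, Polynomial.hasseDeriv_apply, Polynomial.sum_over_range' _ _ N hN]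
  · rw [Polynomial.eval_finsetSum]
    refine Finset.sum_congr rfl fun l _ => ?_
    rw [Polynomial.eval_monomial]
  · intro n; simp

theorem lucas_aux {k : Type u} [Field k] (p : ℕ) [Fact p.Prime] [CharP k p] (s t a b : ℕ) (hs : s < p) (ht : t < p) :
    (((s + p * a).choose (t + p * b) : ℕ) : k) = ((s.choose t : ℕ) : k) * ((a.choose b : ℕ) : k) := by
  have hp : 0 < p := (Fact.out : p.Prime).pos
  have h := Choose.choose_modEq_choose_mod_mul_choose_div_nat (p := p) (n := s + p * a) (k := t + p * b)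
  rw [Nat.add_mul_mod_self_left, Nat.add_mul_mod_self_left, Nat.add_mul_div_left _ _ hp, Nat.add_mul_div_left _ _ hp,
    Nat.div_eq_of_lt hs, Nat.div_eq_of_lt ht, Nat.mod_eq_of_lt hs, Nat.mod_eq_of_lt ht, zero_add, zero_add] at h
  rw [← Nat.cast_mul]
  exact (CharP.natCast_eq_natCast k p).2 h

/-- Let k be a field of odd characteristic p, g ≤ p a natural number, f ∈ k[x] of degree at most 2g + 2,
and α ∈ k. Write f^((p-1)/2) = Σ_l c_l x^l and f(x + α)^((p-1)/2) = Σ_l d_l x^l, and form the g × g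
Cartier–Manin matrices (c_{ip-j}) and (d_{ip-j}), indices i, j = 1, …, g (below written with i, j
ranging over Fin g, so that the entry at (i, j) is the coefficient of x^((i+1)p-(j+1))). Then
(d_{ip-j}) = L · (c_{ip-j}) · U with L_{i,I} = binom(I-1, i-1) α^((I-i)p) and U_{J,j} = binom(p-J,
p-j) α^(j-J); both L and U are unitriangular since a binomial coefficient vanishes when its lower
index exceeds its upper index. (The source works over a perfect field, with f separable of degree 2g
+ 2 and α ∈ k^* a root of f, hypotheses this identity does not use.) -/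
theorem result (k : Type u) [Field k] (p : ℕ) [Fact p.Prime] (hp : p ≠ 2) [CharP k p]
    (g : ℕ) (hg : g ≤ p) (f : Polynomial k) (hf : f.natDegree ≤ 2 * g + 2) (α : k) :
    (Matrix.of fun i j : Fin g =>
        ((f.comp (Polynomial.X + Polynomial.C α)) ^ ((p - 1) / 2)).coeff (((i : ℕ) + 1) * p - ((j : ℕ) + 1))) =
      (Matrix.of fun i I : Fin g => (((I : ℕ).choose (i : ℕ) : ℕ) : k) * α ^ (((I : ℕ) - (i : ℕ)) * p)) *
        (Matrix.of fun i j : Fin g => (f ^ ((p - 1) / 2)).coeff (((i : ℕ) + 1) * p - ((j : ℕ) + 1))) *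
        (Matrix.of fun J j : Fin g => (((p - ((J : ℕ) + 1)).choose (p - ((j : ℕ) + 1)) : ℕ) : k) * α ^ ((j : ℕ) - (J : ℕ))) := by
  have hpp : p.Prime := Fact.out
  have hp0 : 0 < p := hpp.pos
  have hodd : (p - 1) / 2 * 2 = p - 1 := by
    have h2 := hpp.eq_two_or_odd
    have := hpp.two_le
    omega
  set F := f ^ ((p - 1) / 2) with hF
  have hdeg : F.natDegree ≤ (p - 1) * (g + 1) := by
    calc F.natDegree ≤ (p - 1) / 2 * f.natDegree := Polynomial.natDegree_pow_le
      _ ≤ (p - 1) / 2 * (2 * g + 2) := Nat.mul_le_mul_left _ hf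
      _ = ((p - 1) / 2 * 2) * (g + 1) := by ring
      _ = _ := by rw [hodd]
  have hdeg2 : F.natDegree < (g + 1) * p := by
    have : (p - 1) * (g + 1) < (g + 1) * p := by
      rw [mul_comm]
      exact Nat.mul_lt_mul_of_pos_left (by omega) (by omega)
    omega
  ext i j
  have hi := i.2
  have hj := j.2
  have hn : ((i : ℕ) + 1) * p - ((j : ℕ) + 1) = (p - (j + 1)) + p * i := by
    have : ((i : ℕ) + 1) * p = p + p * i := by ring
    omega
  rw [Matrix.of_apply, ← Polynomial.pow_comp, ← hF, coeff_comp_aux F α _ _ hdeg2, hn]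
  rw [Finset.sum_range, ← Equiv.sum_comp finProdFinEquiv, Fintype.sum_prod_type]
  have hval : ∀ (a : Fin (g + 1)) (b : Fin p), ((finProdFinEquiv (a, b) : Fin ((g + 1) * p)) : ℕ) = b + p * a := fun a b => rfl
  simp only [hval]
  have hterm : ∀ a J : ℕ, J < p →
      ((((p - (J + 1)) + p * a).choose ((p - (j + 1)) + p * i) : ℕ) : k) * F.coeff ((p - (J + 1)) + p * a) * α ^ (((p - (J + 1)) + p * a) - ((p - (j + 1)) + p * i))
      = (((a.choose (i : ℕ) : ℕ) : k) * α ^ ((a - (i : ℕ)) * p)) * F.coeff ((a + 1) * p - (J + 1)) * ((((p - (J + 1)).choose (p - ((j : ℕ) + 1)) : ℕ) : k) * α ^ ((j : ℕ) - J)) := by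
    intro a J hJ
    have e1 : (a + 1) * p - (J + 1) = (p - (J + 1)) + p * a := by
      have : (a + 1) * p = p + p * a := by ring
      omega
    rw [lucas_aux p _ _ _ _ (by omega) (by omega), e1]
    by_cases ha : a < i
    · rw [Nat.choose_eq_zero_of_lt ha]; simp
    · by_cases hJj : (j : ℕ) < J
      · rw [Nat.choose_eq_zero_of_lt (show p - (J + 1) < p - ((j : ℕ) + 1) by omega)]; simp
      · have e2 : ((p - (J + 1)) + p * a) - ((p - ((j : ℕ) + 1)) + p * i) = (a - i) * p + (j - J) := by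
          obtain ⟨c, rfl⟩ := Nat.exists_eq_add_of_le (not_lt.1 ha)
          have e3 : p * ((i : ℕ) + c) = p * i + c * p := by ring
          rw [e3, Nat.add_sub_cancel_left]
          omega
        rw [e2, pow_add]
        ring
  have hrev : ∀ a : ℕ, ∑ b : Fin p, ((((b : ℕ) + p * a).choose ((p - (j + 1)) + p * i) : ℕ) : k) * F.coeff ((b : ℕ) + p * a) * α ^ (((b : ℕ) + p * a) - ((p - (j + 1)) + p * i))
      = ∑ J ∈ Finset.range g, (((a.choose (i : ℕ) : ℕ) : k) * α ^ ((a - (i : ℕ)) * p)) * F.coeff ((a + 1) * p - (J + 1)) * ((((p - (J + 1)).choose (p - ((j : ℕ) + 1)) : ℕ) : k) * α ^ ((j : ℕ) - J)) := by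
    intro a
    rw [← Equiv.sum_comp Fin.revPerm]
    have h1 : ∀ J : Fin p, ((Fin.revPerm J : Fin p) : ℕ) = p - ((J : ℕ) + 1) := fun J => Fin.val_rev J
    simp only [h1]
    refine (Finset.sum_congr rfl (fun (J : Fin p) _ => hterm a J J.2)).trans ?_
    rw [← Finset.sum_range (fun J => (((a.choose (i : ℕ) : ℕ) : k) * α ^ ((a - (i : ℕ)) * p)) * F.coeff ((a + 1) * p - (J + 1)) * ((((p - (J + 1)).choose (p - ((j : ℕ) + 1)) : ℕ) : k) * α ^ ((j : ℕ) - J)))]
    symm
    apply Finset.sum_subset (Finset.range_mono hg)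
    intro J hJ1 hJ2
    rw [Finset.mem_range] at hJ1 hJ2
    rw [Nat.choose_eq_zero_of_lt (show p - (J + 1) < p - ((j : ℕ) + 1) by omega)]
    simp
  simp only [hrev]
  rw [Fin.sum_univ_castSucc]
  have hlast : ∑ J ∈ Finset.range g, (((((Fin.last g : Fin (g + 1)) : ℕ).choose (i : ℕ) : ℕ) : k) * α ^ ((((Fin.last g : Fin (g + 1)) : ℕ) - (i : ℕ)) * p)) * F.coeff ((((Fin.last g : Fin (g + 1)) : ℕ) + 1) * p - (J + 1)) * ((((p - (J + 1)).choose (p - ((j : ℕ) + 1)) : ℕ) : k) * α ^ ((j : ℕ) - J)) = 0 := by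
    refine Finset.sum_eq_zero fun J hJ => ?_
    rw [Finset.mem_range] at hJ
    rw [Polynomial.coeff_eq_zero_of_natDegree_lt]
    · simp
    · rw [Fin.val_last]
      refine lt_of_le_of_lt hdeg ?_
      obtain ⟨q, rfl⟩ : ∃ q, p = q + 1 := ⟨p - 1, by omega⟩
      have e1 : (g + 1) * (q + 1) = (q + 1 - 1) * (g + 1) + (g + 1) := by
        simp only [Nat.add_sub_cancel]; ring
      rw [e1]
      omega
  rw [hlast, add_zero, Matrix.mul_apply]
  simp only [Matrix.mul_apply, Matrix.of_apply, Fin.val_castSucc, Finset.sum_mul]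
  rw [Finset.sum_comm]
  rw [Finset.sum_range]

end Groth.Agent.S16498
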