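import Groth.Statements.S16500
import Mathlib
-- import your own Groth.Agent.* helpers here

set_option autoImplicit false
universe u
open Curves

namespace Groth.Agent.S16500

/-- Let k be a field of odd characteristic p, g ≤ p a natural number and f ∈ k[x] of degree at most 2g +
2. Let F be f with its coefficients reversed in degrees 0, …, 2g + 2, i.e. F(X) = X^(2g+2) f(1/X)
(Mathlib's reflect (2g+2) f), and write f^((p-1)/2) = Σ_l c_l x^l and F^((p-1)/2) = Σ_l C_l X^l.
Then C_{ip-j} = c_{(g+1-i)p-(g+1-j)} for all i, j = 1, …, g; that is, the g × g Cartier–Manin matrix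
of F is that of f with the order of both rows and columns reversed (below the indices run over Fin
g, the entry at (i, j) being the coefficient of degree (i+1)p-(j+1), and reversal is Fin.rev). In
particular the two matrices have the same determinant. (The source applies this to f with f(0) = 0,
separable of degree 2g + 2 over a perfect field, so that F has odd degree 2g + 1; the identity uses
none of that.) -/
theorem result (k : Type u) [Field k] (p : ℕ) [Fact p.Prime] (hp : p ≠ 2) [CharP k p]
    (g : ℕ) (hg : g ≤ p) (f : Polynomial k) (hf : f.natDegree ≤ 2 * g + 2) :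
    (Matrix.of fun i j : Fin g =>
        ((Polynomial.reflect (2 * g + 2) f) ^ ((p - 1) / 2)).coeff (((i : ℕ) + 1) * p - ((j : ℕ) + 1))) =
      Matrix.of fun i j : Fin g =>
        (f ^ ((p - 1) / 2)).coeff (((Fin.rev i : ℕ) + 1) * p - ((Fin.rev j : ℕ) + 1)) := by
  have hpow : ∀ n : ℕ, (Polynomial.reflect (2 * g + 2) f) ^ n = Polynomial.reflect (n * (2 * g + 2)) (f ^ n) := by
    intro n
    induction n with
    | zero => simp
    | succ n ih =>
      rw [pow_succ, ih, pow_succ, add_mul, one_mul, Polynomial.reflect_mul]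
      · exact (Polynomial.natDegree_pow_le).trans (Nat.mul_le_mul_left _ hf)
      · exact hf
  have hpp : p.Prime := Fact.out
  have hodd : (p - 1) / 2 * 2 = p - 1 := by
    have := hpp.eq_one_or_self_of_dvd 2
    have h2 := hpp.eq_two_or_odd
    have := hpp.two_le
    omega
  have hN : (p - 1) / 2 * (2 * g + 2) = (p - 1) * (g + 1) := by
    calc (p - 1) / 2 * (2 * g + 2) = ((p - 1) / 2 * 2) * (g + 1) := by ring
      _ = _ := by rw [hodd]
  ext i j
  simp only [Matrix.of_apply]
  rw [hpow, Polynomial.coeff_reflect, hN]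
  congr 1
  have hi := i.2
  have hj := j.2
  have h2 := hpp.two_le
  rw [Fin.val_rev, Fin.val_rev]
  obtain ⟨a, ha⟩ := Nat.exists_eq_add_of_lt hi
  obtain ⟨b, hb⟩ := Nat.exists_eq_add_of_lt hj
  obtain ⟨q, rfl⟩ : ∃ q, p = q + 1 := ⟨p - 1, by omega⟩
  have e1 : g - ((i : ℕ) + 1) = a := by omega
  have e2 : g - ((j : ℕ) + 1) = b := by omega
  rw [e1, e2]
  have h3 : ((i : ℕ) + 1) * (q + 1) - ((j : ℕ) + 1) ≤ (q + 1 - 1) * (g + 1) := by
    have : ((i : ℕ) + 1) * (q + 1) ≤ (q + 1 - 1) * (g + 1) + ((j : ℕ) + 1) := by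
      have : ((i : ℕ) + 1) ≤ g := hi
      have h5 : g ≤ q + 1 := hg
      simp only [Nat.add_sub_cancel]
      nlinarith
    omega
  rw [Polynomial.revAt_le h3]
  have h4 : (j : ℕ) + 1 ≤ ((i : ℕ) + 1) * (q + 1) := by nlinarith
  have h5 : b + 1 ≤ (a + 1) * (q + 1) := by nlinarith
  have h6 : ((i : ℕ) + 1) * (q + 1) + (a + 1) * (q + 1) = (q + 1 - 1) * (g + 1) + (j + 1) + (b + 1) := by
    simp only [Nat.add_sub_cancel]
    have h10 : (i : ℕ) + 1 + (a + 1) = g + 1 := by omega
    have h8 : ((i : ℕ) + 1) * (q + 1) + (a + 1) * (q + 1) = (g + 1) * (q + 1) := by rw [← add_mul, h10]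
    rw [h8]
    have h9 : (j : ℕ) + 1 + (b + 1) = g + 1 := by omega
    rw [add_assoc, h9]; ring
  omega

end Groth.Agent.S16500
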