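import Groth.Statements.S16661
import Mathlib.Tactic
import Mathlib.LinearAlgebra.Trace
import Groth.Agent.Lib.H25_Conn

set_option autoImplicit false
universe v u
open TensorProduct
open Conn

namespace Groth.Agent.S16661

/-- Let B be an A-algebra with a receptacle of differentials (Ω, δ), Ω a finite free B-module (the
affine-local form of differentials locally free of finite type), let M be a finite free B-module
(the local form of a vector bundle) with a connection ∇ : M → M ⊗ Ω, and let ∇_E be the induced
connection on the B-linear endomorphisms of M, the one with (ev_m ⊗ 1)(∇_E φ) = ∇(φ m) − (φ ⊗ 1)(∇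
m). Give B the connection b ↦ 1 ⊗ δ b. Then the trace map End_B(M) → B is horizontal: 1 ⊗ δ(tr φ) =
(tr ⊗ 1)(∇_E φ) for every endomorphism φ. -/
theorem result {A : Type v} {B Ω M : Type u}
    [CommRing A] [CommRing B] [Algebra A B]
    [AddCommGroup Ω] [Module B Ω] [Module A Ω] [IsScalarTower A B Ω] [Module.Finite B Ω] [Module.Free B Ω]
    [AddCommGroup M] [Module B M] [Module A M] [IsScalarTower A B M] [Module.Finite B M] [Module.Free B M]
    (δ : Derivation A B Ω) (nabla : M →ₗ[A] M ⊗[B] Ω) (hc : Conn.IsConn δ nabla)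
    (nablaE : (M →ₗ[B] M) →ₗ[A] (M →ₗ[B] M) ⊗[B] Ω) (hE : Conn.IsHomConn nabla nabla nablaE) :
    Conn.IsHorizontal nablaE (Conn.triv δ) (LinearMap.trace B M) := by
  intro φ
  let bΩ := Module.Free.chooseBasis B Ω
  let bM := Module.Free.chooseBasis B M
  have hone : δ (1 : B) = 0 := δ.map_one_eq_zero
  refine H25Conn.ext_coord bΩ (fun q => ?_)
  rw [Conn.triv_apply, TensorProduct.map_tmul, TensorProduct.rid_tmul, LinearMap.id_apply, smul_eq_mul, mul_one]
  have hr : ∀ y : (M →ₗ[B] M) ⊗[B] Ω, (TensorProduct.rid B B) (TensorProduct.map LinearMap.id (bΩ.coord q)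
      (TensorProduct.map (LinearMap.trace B M) LinearMap.id y)) =
      LinearMap.trace B M ((TensorProduct.rid B (M →ₗ[B] M)) (TensorProduct.map LinearMap.id (bΩ.coord q) y)) := by
    intro y
    induction y using TensorProduct.induction_on with
    | zero => simp
    | add x y hx hy => simp only [map_add, hx, hy]
    | tmul f' ω => simp
  rw [hr]
  set D := (TensorProduct.rid B (M →ₗ[B] M)) (TensorProduct.map LinearMap.id (bΩ.coord q) (nablaE φ)) with hD
  -- pointwise formula
  have hDm : ∀ m : M, D m = Conn.along nabla (bΩ.coord q) (φ m) - φ (Conn.along nabla (bΩ.coord q) m) := by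
    intro m
    rw [hD, H25Conn.coord_apply, hE φ m, map_sub, map_sub, Conn.along_apply, Conn.along_apply]
    congr 1
    have : ∀ y : M ⊗[B] Ω, (TensorProduct.rid B M) (TensorProduct.map LinearMap.id (bΩ.coord q) (TensorProduct.map φ LinearMap.id y)) =
        φ ((TensorProduct.rid B M) (TensorProduct.map LinearMap.id (bΩ.coord q) y)) := by
      intro y
      induction y using TensorProduct.induction_on with
      | zero => simp
      | add x y hx hy => simp only [map_add, hx, hy]
      | tmul f' ω => simp
    exact this _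
  have hleib : ∀ (b : B) (m : M), Conn.along nabla (bΩ.coord q) (b • m) =
      b • Conn.along nabla (bΩ.coord q) m + (bΩ.coord q (δ b)) • m := by
    intro b m
    rw [Conn.along_apply, hc b m, map_add, map_add, map_smul, map_smul, TensorProduct.map_tmul,
      TensorProduct.rid_tmul, Conn.along_apply, LinearMap.id_apply]
  -- the connection matrix as a B-linear map
  let Γ : M →ₗ[B] M := bM.constr B (fun i => Conn.along nabla (bΩ.coord q) (bM i))
  have hΓ : ∀ i, Γ (bM i) = Conn.along nabla (bΩ.coord q) (bM i) := fun i => bM.constr_basis B _ i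
  have hsplit : ∀ m : M, Conn.along nabla (bΩ.coord q) m = Γ m + ∑ i, (bΩ.coord q (δ (bM.repr m i))) • bM i := by
    intro m
    conv_lhs => rw [← bM.sum_repr m]
    rw [map_sum]
    conv_rhs => rw [← bM.sum_repr m]
    rw [map_sum Γ, bM.sum_repr m, ← Finset.sum_add_distrib]
    refine Finset.sum_congr rfl (fun i _ => ?_)
    rw [hleib, map_smul, hΓ]
  have hD2 : D = (Γ ∘ₗ φ - φ ∘ₗ Γ) + bM.constr B (fun i => ∑ j, (bΩ.coord q (δ (bM.repr (φ (bM i)) j))) • bM j) := by
    refine bM.ext (fun i => ?_)
    rw [hDm, LinearMap.add_apply, bM.constr_basis, LinearMap.sub_apply, LinearMap.comp_apply, LinearMap.comp_apply,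
      hsplit (φ (bM i)), hΓ i]
    abel
  rw [hD2, map_add, map_sub]
  have ht0 : LinearMap.trace B M (Γ ∘ₗ φ) = LinearMap.trace B M (φ ∘ₗ Γ) := LinearMap.trace_mul_comm B Γ φ
  rw [ht0, sub_self, zero_add]
  rw [LinearMap.trace_eq_matrix_trace B bM, LinearMap.trace_eq_matrix_trace B bM]
  simp only [Matrix.trace, Matrix.diag_apply, LinearMap.toMatrix_apply]
  rw [map_sum, map_sum]
  refine Finset.sum_congr rfl (fun i _ => ?_)
  rw [bM.constr_basis, map_sum]
  rw [Finsupp.finset_sum_apply]
  simp only [map_smul, Finsupp.smul_apply, Module.Basis.repr_self, smul_eq_mul]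
  rw [Finset.sum_eq_single i]
  · simp
  · intro j _ hj
    simp [Finsupp.single_apply, hj]
  · intro h; exact absurd (Finset.mem_univ i) h

end Groth.Agent.S16661
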