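import Groth.Statements.S16663
import Mathlib.Tactic
import Mathlib.LinearAlgebra.Trace
import Groth.Agent.Lib.H25_Conn
import Groth.Agent.S16661

set_option autoImplicit false
universe v u
open TensorProduct
open Conn

namespace Groth.Agent.S16663

/-- Let B be an A-algebra with a receptacle of differentials (Ω, δ), Ω a finite free B-module (the local
form of a weakly smooth scheme), and let M be a finitely ℤ-graded B-module presented as a finite
family of finite free B-modules M_i with integer degrees deg i (the local form of a graded vector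
bundle), with total module Π_i M_i. Let ∇ be a connection on Π_i M_i preserving the grading, in the
sense that (pr_j ⊗ 1)(∇(ι_i m)) = 0 for m ∈ M_i whenever deg i ≠ deg j, and let ∇_E be the induced
connection on the B-linear endomorphisms, the one with (ev_m ⊗ 1)(∇_E φ) = ∇(φ m) − (φ ⊗ 1)(∇ m).
Give B the connection b ↦ 1 ⊗ δ b. Then the supertrace, φ ↦ tr(ε ∘ φ) with ε = Σ_i (−1)^{deg i} ι_i
∘ pr_i the grading involution, is a horizontal map End_B(Π_i M_i) → B. -/
theorem result {A : Type v} {B Ω ι : Type u}
    [CommRing A] [CommRing B] [Algebra A B]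
    [AddCommGroup Ω] [Module B Ω] [Module A Ω] [IsScalarTower A B Ω] [Module.Finite B Ω] [Module.Free B Ω]
    [Fintype ι] [DecidableEq ι] (deg : ι → ℤ) (M : ι → Type u)
    [∀ i, AddCommGroup (M i)] [∀ i, Module B (M i)] [∀ i, Module A (M i)] [∀ i, IsScalarTower A B (M i)]
    [∀ i, Module.Free B (M i)] [∀ i, Module.Finite B (M i)]
    (δ : Derivation A B Ω) (nabla : (Π k, M k) →ₗ[A] (Π k, M k) ⊗[B] Ω) (hc : Conn.IsConn δ nabla)
    (hgr : ∀ i j : ι, deg i ≠ deg j → ∀ m : M i,
      TensorProduct.map (LinearMap.proj j : (Π k, M k) →ₗ[B] M j) LinearMap.id (nabla (LinearMap.single B M i m)) = 0)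
    (nablaE : ((Π k, M k) →ₗ[B] (Π k, M k)) →ₗ[A] ((Π k, M k) →ₗ[B] (Π k, M k)) ⊗[B] Ω)
    (hE : Conn.IsHomConn nabla nabla nablaE) :
    Conn.IsHorizontal nablaE (Conn.triv δ)
      (LinearMap.trace B (Π k, M k) ∘ₗ LinearMap.llcomp B (Π k, M k) (Π k, M k) (Π k, M k)
        (∑ i : ι, (LinearMap.single B M i) ∘ₗ (((-1 : B) ^ (deg i).natAbs) • (LinearMap.proj i : (Π k, M k) →ₗ[B] M i)))) := by
  classical
  set ε : (Π k, M k) →ₗ[B] (Π k, M k) :=
    (∑ i : ι, (LinearMap.single B M i) ∘ₗ (((-1 : B) ^ (deg i).natAbs) • (LinearMap.proj i : (Π k, M k) →ₗ[B] M i))) with hε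
  have hone : δ (1 : B) = 0 := δ.map_one_eq_zero
  have hneg : ∀ n : ℕ, δ ((-1 : B) ^ n) = 0 := by
    intro n
    rcases neg_one_pow_eq_or B n with h | h
    · rw [h, hone]
    · rw [h, map_neg, hone, neg_zero]
  have hεsingle : ∀ (i : ι) (x : M i), ε (LinearMap.single B M i x) = ((-1 : B) ^ (deg i).natAbs) • LinearMap.single B M i x := by
    intro i x
    rw [hε, LinearMap.sum_apply]
    rw [Finset.sum_eq_single i]
    · rw [LinearMap.comp_apply, LinearMap.smul_apply, map_smul]
      congr 2
      simp
    · intro j _ hj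
      rw [LinearMap.comp_apply, LinearMap.smul_apply]
      have : (LinearMap.proj j : (Π k, M k) →ₗ[B] M j) (LinearMap.single B M i x) = 0 := by
        simp [Pi.single_eq_of_ne hj]
      rw [this, smul_zero, map_zero]
    · intro h; exact absurd (Finset.mem_univ i) h
  have hid : ∀ y : (Π k, M k) ⊗[B] Ω, ∑ j : ι, TensorProduct.map (LinearMap.single B M j) (LinearMap.id : Ω →ₗ[B] Ω)
      (TensorProduct.map (LinearMap.proj j : (Π k, M k) →ₗ[B] M j) LinearMap.id y) = y := by
    intro y
    induction y using TensorProduct.induction_on with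
    | zero => simp
    | add x y hx hy =>
      conv_rhs => rw [← hx, ← hy]
      rw [← Finset.sum_add_distrib]
      exact Finset.sum_congr rfl (fun j _ => by rw [map_add, map_add])
    | tmul f ω =>
      simp only [TensorProduct.map_tmul, LinearMap.id_apply]
      rw [← TensorProduct.sum_tmul]
      congr 1
      exact Finset.univ_sum_single f
  have hmapε : ∀ y : (Π k, M k) ⊗[B] Ω, TensorProduct.map ε (LinearMap.id : Ω →ₗ[B] Ω) y =
      ∑ j : ι, ((-1 : B) ^ (deg j).natAbs) • TensorProduct.map (LinearMap.single B M j) (LinearMap.id : Ω →ₗ[B] Ω)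
      (TensorProduct.map (LinearMap.proj j : (Π k, M k) →ₗ[B] M j) LinearMap.id y) := by
    intro y
    induction y using TensorProduct.induction_on with
    | zero => simp
    | add x y hx hy =>
      rw [map_add, hx, hy, ← Finset.sum_add_distrib]
      exact Finset.sum_congr rfl (fun j _ => by rw [map_add, map_add, smul_add])
    | tmul f ω =>
      simp only [TensorProduct.map_tmul, LinearMap.id_apply, TensorProduct.smul_tmul']
      rw [← TensorProduct.sum_tmul]
      congr 1
      rw [hε, LinearMap.sum_apply]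
      refine Finset.sum_congr rfl (fun j _ => ?_)
      rw [LinearMap.comp_apply, LinearMap.smul_apply, map_smul]
  have hhor : ∀ m : (Π k, M k), nabla (ε m) = TensorProduct.map ε LinearMap.id (nabla m) := by
    have hs : ∀ (i : ι) (x : M i), nabla (ε (LinearMap.single B M i x)) =
        TensorProduct.map ε LinearMap.id (nabla (LinearMap.single B M i x)) := by
      intro i x
      rw [hεsingle, hc, hneg, TensorProduct.tmul_zero, add_zero, hmapε]
      conv_lhs => rw [← hid (nabla (LinearMap.single B M i x)), Finset.smul_sum]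
      refine Finset.sum_congr rfl (fun j _ => ?_)
      by_cases h : deg i = deg j
      · rw [h]
      · rw [hgr i j h x, map_zero, smul_zero, smul_zero]
    intro m
    have hm : m = ∑ i, LinearMap.single B M i (m i) := (Finset.univ_sum_single m).symm
    rw [hm, map_sum, map_sum, map_sum, map_sum]
    exact Finset.sum_congr rfl (fun i _ => hs i (m i))
  intro φ
  have hmain : nablaE (ε ∘ₗ φ) = TensorProduct.map (LinearMap.llcomp B (Π k, M k) (Π k, M k) (Π k, M k) ε) LinearMap.id (nablaE φ) := by
    refine H25Conn.ext_hom (fun m => ?_)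
    have h1 : ∀ x : ((Π k, M k) →ₗ[B] (Π k, M k)) ⊗[B] Ω,
        TensorProduct.map (LinearMap.applyₗ m : ((Π k, M k) →ₗ[B] (Π k, M k)) →ₗ[B] (Π k, M k)) (LinearMap.id : Ω →ₗ[B] Ω)
        (TensorProduct.map (LinearMap.llcomp B (Π k, M k) (Π k, M k) (Π k, M k) ε) (LinearMap.id : Ω →ₗ[B] Ω) x) =
        TensorProduct.map ε LinearMap.id (TensorProduct.map (LinearMap.applyₗ m) LinearMap.id x) := by
      intro x
      induction x using TensorProduct.induction_on with
      | zero => simp
      | add x y hx hy => rw [map_add, map_add, map_add, map_add, hx, hy]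
      | tmul f' ω => simp only [TensorProduct.map_tmul]; rfl
    rw [h1, hE, hE, map_sub, LinearMap.comp_apply, hhor, TensorProduct.map_map, LinearMap.id_comp]
  have htr := Groth.Agent.S16661.result δ nabla hc nablaE hE (ε ∘ₗ φ)
  have e1 : (LinearMap.trace B (Π k, M k) ∘ₗ LinearMap.llcomp B (Π k, M k) (Π k, M k) (Π k, M k) ε) φ =
      LinearMap.trace B (Π k, M k) (ε ∘ₗ φ) := rfl
  rw [e1, htr, hmain, TensorProduct.map_map, LinearMap.id_comp]

end Groth.Agent.S16663
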