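import Groth.Statements.S16664
import Mathlib.Tactic
import Groth.Agent.Lib.H25_Conn

set_option autoImplicit false
universe v u
open TensorProduct
open Conn

namespace Groth.Agent.S16664

/-- Let B be an A-algebra with a receptacle of differentials (Ω, δ), Ω free on a finite basis ω_1, …,
ω_n, let M be a finitely presented B-module with a connection ∇, let ∇_E be the induced connection
on the B-linear endomorphisms of M (the one with (ev_m ⊗ 1)(∇_E φ) = ∇(φ m) − (φ ⊗ 1)(∇ m)), and for
each q let ∇_q = (1 ⊗ ω_q^*) ∘ ∇_E be the covariant derivative on End_B(M) along the q-th vector of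
the dual basis. If an endomorphism φ satisfies φ ∘ ∇_q(φ) + ∇_q(φ) ∘ φ = 0 for every q, then for all
q, r one has φ ∘ ∇_q(∇_r(φ)) + ∇_q(∇_r(φ)) ∘ φ + ∇_q(φ) ∘ ∇_r(φ) + ∇_r(φ) ∘ ∇_q(φ) = 0. (The
published statement takes M graded with ∇ preserving the grading and φ of odd degree, and is written
with supercommutators; for such φ the supercommutators in question are exactly these
anticommutators, and the identity holds for an arbitrary endomorphism.) -/
theorem result {A : Type v} {B Ω M : Type u}
    [CommRing A] [CommRing B] [Algebra A B]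
    [AddCommGroup Ω] [Module B Ω] [Module A Ω] [IsScalarTower A B Ω] {n : ℕ} (bΩ : Module.Basis (Fin n) B Ω)
    [AddCommGroup M] [Module B M] [Module A M] [IsScalarTower A B M] [Module.FinitePresentation B M]
    (δ : Derivation A B Ω) (nabla : M →ₗ[A] M ⊗[B] Ω) (hc : Conn.IsConn δ nabla)
    (nablaE : (M →ₗ[B] M) →ₗ[A] (M →ₗ[B] M) ⊗[B] Ω) (hE : Conn.IsHomConn nabla nabla nablaE)
    (φ : M →ₗ[B] M)
    (hφ : ∀ q : Fin n, φ ∘ₗ Conn.along nablaE (bΩ.coord q) φ + Conn.along nablaE (bΩ.coord q) φ ∘ₗ φ = 0)
    (q r : Fin n) :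
    φ ∘ₗ Conn.along nablaE (bΩ.coord q) (Conn.along nablaE (bΩ.coord r) φ)
      + Conn.along nablaE (bΩ.coord q) (Conn.along nablaE (bΩ.coord r) φ) ∘ₗ φ
      + Conn.along nablaE (bΩ.coord q) φ ∘ₗ Conn.along nablaE (bΩ.coord r) φ
      + Conn.along nablaE (bΩ.coord r) φ ∘ₗ Conn.along nablaE (bΩ.coord q) φ = 0 := by
  have key : ∀ (s : Fin n) (f : M →ₗ[B] M) (m : M), (Conn.along nablaE (bΩ.coord s) f) m =
      Conn.along nabla (bΩ.coord s) (f m) - f (Conn.along nabla (bΩ.coord s) m) := by
    intro s f m
    have h := H25Conn.coord_apply (bΩ.coord s) (nablaE f) m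
    rw [hE f m, map_sub, map_sub] at h
    rw [Conn.along_apply, h, Conn.along_apply, Conn.along_apply]
    congr 1
    have : ∀ y : M ⊗[B] Ω, (TensorProduct.rid B M) (TensorProduct.map LinearMap.id (bΩ.coord s) (TensorProduct.map f LinearMap.id y)) =
        f ((TensorProduct.rid B M) (TensorProduct.map LinearMap.id (bΩ.coord s) y)) := by
      intro y
      induction y using TensorProduct.induction_on with
      | zero => simp
      | add x y hx hy => simp only [map_add, hx, hy]
      | tmul f' ω => simp
    exact this _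
  refine LinearMap.ext (fun m => ?_)
  have k1 := fun m : M => LinearMap.congr_fun (hφ r) m
  simp only [LinearMap.add_apply, LinearMap.comp_apply, LinearMap.zero_apply] at k1 ⊢
  have a1 := k1 (Conn.along nabla (bΩ.coord q) m)
  have a2 := congrArg (Conn.along nabla (bΩ.coord q)) (k1 m)
  rw [map_add, map_zero] at a2
  simp only [key q]
  simp only [map_sub]
  rw [add_eq_zero_iff_eq_neg] at a1
  rw [add_eq_zero_iff_eq_neg] at a2
  rw [a1, a2]
  abel

end Groth.Agent.S16664
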