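import Groth.Statements.S16665
import Mathlib.Tactic

set_option autoImplicit false
universe v u
open TensorProduct
open Conn

namespace Groth.Agent.S16665

/-- Let B be an A-algebra with a receptacle of differentials (Ω, δ), Ω a finite free B-module, and let E
and F be B-modules with connections ∇_E and ∇_F, E finitely presented. Equip Hom_B(E,F) with the
induced connection ∇'' (the one with (ev_e ⊗ 1)(∇'' φ) = ∇_F(φ e) − (φ ⊗ 1)(∇_E e)) and Hom_B(E,F) ⊗
E with the tensor product of ∇'' and ∇_E. Then the evaluation map Hom_B(E,F) ⊗ E → F, φ ⊗ e ↦ φ(e),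
is horizontal. (The published statement is for bounded complexes with termwise connections, the Hom
complex and the tensor-product complex; this row is the case of single modules, that is, complexes
concentrated in one degree.) -/
theorem result {A : Type v} {B Ω E F : Type u}
    [CommRing A] [CommRing B] [Algebra A B]
    [AddCommGroup Ω] [Module B Ω] [Module A Ω] [IsScalarTower A B Ω] [Module.Finite B Ω] [Module.Free B Ω]
    [AddCommGroup E] [Module B E] [Module A E] [IsScalarTower A B E] [Module.FinitePresentation B E]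
    [AddCommGroup F] [Module B F] [Module A F] [IsScalarTower A B F]
    (δ : Derivation A B Ω)
    (nE : E →ₗ[A] E ⊗[B] Ω) (hcE : Conn.IsConn δ nE)
    (nF : F →ₗ[A] F ⊗[B] Ω) (hcF : Conn.IsConn δ nF)
    (nEF : (E →ₗ[B] F) →ₗ[A] (E →ₗ[B] F) ⊗[B] Ω) (hEF : Conn.IsHomConn nE nF nEF)
    (nT : (E →ₗ[B] F) ⊗[B] E →ₗ[A] ((E →ₗ[B] F) ⊗[B] E) ⊗[B] Ω) (hT : Conn.IsTensorConn nEF nE nT) :
    Conn.IsHorizontal nT nF (TensorProduct.lift (LinearMap.id : (E →ₗ[B] F) →ₗ[B] (E →ₗ[B] F))) := by
  intro t
  induction t using TensorProduct.induction_on with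
  | zero => simp
  | add x y hx hy => rw [map_add, map_add, map_add, map_add, hx, hy]
  | tmul φ e =>
    rw [hT φ e, TensorProduct.lift.tmul, LinearMap.id_apply, map_add]
    have h := hEF φ e
    have h1 : ∀ x : (E →ₗ[B] F) ⊗[B] Ω, TensorProduct.map (TensorProduct.lift (LinearMap.id : (E →ₗ[B] F) →ₗ[B] (E →ₗ[B] F)))
        (LinearMap.id : Ω →ₗ[B] Ω) (Conn.swapR (x ⊗ₜ[B] e)) = TensorProduct.map (LinearMap.applyₗ e) LinearMap.id x := by
      intro x
      induction x using TensorProduct.induction_on with
      | zero => simp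
      | add x y hx hy => rw [TensorProduct.add_tmul, map_add, map_add, map_add, hx, hy]
      | tmul f ω =>
        rw [Conn.swapR_tmul]
        simp
    have h2 : ∀ y : E ⊗[B] Ω, TensorProduct.map (TensorProduct.lift (LinearMap.id : (E →ₗ[B] F) →ₗ[B] (E →ₗ[B] F)))
        (LinearMap.id : Ω →ₗ[B] Ω) ((TensorProduct.assoc B (E →ₗ[B] F) E Ω).symm (φ ⊗ₜ[B] y)) =
        TensorProduct.map φ LinearMap.id y := by
      intro y
      induction y using TensorProduct.induction_on with
      | zero => simp
      | add x y hx hy => rw [TensorProduct.tmul_add, map_add, map_add, map_add, hx, hy]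
      | tmul f ω => simp
    rw [h1, h2, h]
    simp

end Groth.Agent.S16665
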