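import Groth.Statements.S16707
import Mathlib.Tactic
import Mathlib.RingTheory.Flat.Equalizer
import Mathlib.LinearAlgebra.TensorProduct.Quotient

set_option autoImplicit false
universe u v
open CAlg

namespace Groth.Agent.S16707

open TensorProduct in
/-- Let A be a commutative ring, I a nilpotent ideal of A and f : M → N a homomorphism of A-modules with
N flat over A (no finiteness assumption on M or N). If the base change of f to A/I, that is M/IM →
N/IN, is bijective, then f is bijective. -/
theorem result (A : Type u) [CommRing A] (I : Ideal A)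
    (hI : IsNilpotent I) (M N : Type v) [AddCommGroup M] [Module A M] [AddCommGroup N] [Module A N]
    [Module.Flat A N] (f : M →ₗ[A] N)
    (hf : Function.Bijective (f.baseChange (A ⧸ I))) :
    Function.Bijective f := by
  have sq : ∀ (C : Type v) [AddCommGroup C] [Module A C] (p : Submodule A C), Subsingleton (C ⧸ p) ↔ p = ⊤ := by
    intro C _ _ p
    constructor
    · intro h
      rw [eq_top_iff]
      intro x _
      rw [← Submodule.Quotient.mk_eq_zero p]
      exact Subsingleton.elim _ _
    · rintro rfl
      refine ⟨fun a b => ?_⟩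
      obtain ⟨a', rfl⟩ := Submodule.Quotient.mk_surjective _ a
      obtain ⟨b', rfl⟩ := Submodule.Quotient.mk_surjective _ b
      rw [Submodule.Quotient.eq]
      trivial
  have nak : ∀ (C : Type v) [AddCommGroup C] [Module A C], Subsingleton ((A ⧸ I) ⊗[A] C) → Subsingleton C := by
    intro C _ _ hs
    have h1 : Subsingleton (C ⧸ (I • (⊤ : Submodule A C))) :=
      (TensorProduct.quotTensorEquivQuotSMul C I).symm.injective.subsingleton
    have h2 : (I • (⊤ : Submodule A C)) = ⊤ := (sq C _).1 h1
    have h3 : ∀ n : ℕ, (I ^ n • (⊤ : Submodule A C)) = ⊤ := by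
      intro n
      induction n with
      | zero => rw [pow_zero, Ideal.one_eq_top, Submodule.top_smul]
      | succ n ih => rw [pow_succ, Submodule.mul_smul, h2, ih]
    obtain ⟨n, hn⟩ := hI
    have h4 := h3 n
    rw [hn, Ideal.zero_eq_bot, Submodule.bot_smul] at h4
    exact (Submodule.subsingleton_iff A).1 (subsingleton_of_bot_eq_top h4)
  have hf' : Function.Bijective (f.lTensor (A ⧸ I)) := hf
  have hsurj : Function.Surjective f := by
    rw [← LinearMap.range_eq_top, ← sq N]
    apply nak
    have hq : Function.Surjective ((LinearMap.range f).mkQ.lTensor (A ⧸ I)) :=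
      LinearMap.lTensor_surjective _ (Submodule.mkQ_surjective _)
    have hz : ∀ x, (LinearMap.range f).mkQ.lTensor (A ⧸ I) x = 0 := by
      intro x
      obtain ⟨y, rfl⟩ := hf'.2 x
      rw [← LinearMap.comp_apply, ← LinearMap.lTensor_comp, LinearMap.range_mkQ_comp, LinearMap.lTensor_zero,
        LinearMap.zero_apply]
    refine ⟨fun a b => ?_⟩
    obtain ⟨a', rfl⟩ := hq a
    obtain ⟨b', rfl⟩ := hq b
    rw [hz, hz]
  refine ⟨?_, hsurj⟩
  rw [← LinearMap.ker_eq_bot, ← Submodule.subsingleton_iff_eq_bot]
  apply nak
  have hinj := LinearMap.lTensor_injective_of_exact_of_flat f hsurj (LinearMap.ker f).subtype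
    (LinearMap.ker f).subtype_injective (LinearMap.exact_subtype_ker_map _) (A ⧸ I)
  have hz : ∀ x, (LinearMap.ker f).subtype.lTensor (A ⧸ I) x = 0 := by
    intro x
    apply hf'.1
    rw [← LinearMap.comp_apply, ← LinearMap.lTensor_comp, LinearMap.comp_ker_subtype, LinearMap.lTensor_zero,
      LinearMap.zero_apply, map_zero]
  refine ⟨fun a b => hinj ?_⟩
  rw [hz, hz]

end Groth.Agent.S16707
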