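import Groth.Statements.S1680
import Groth.Agent.Lib.H3Blow2

set_option autoImplicit false
universe u
open CategoryTheory CategoryTheory.Limits AlgebraicGeometry TopologicalSpace
open SDiv

namespace Groth.Agent.S1680

/-- Let g : X₁ ⟶ X₂ be a flat morphism, 𝓘 a quasi-coherent ideal sheaf on X₂ and b : X₂' ⟶ X₂ a
blowing-up of X₂ along 𝓘. Then the base change X₁ ×_{X₂} X₂' ⟶ X₁ is a blowing-up of X₁ along the
inverse image ideal of 𝓘. -/
theorem result {X₁ X₂ X₂' : Scheme.{u}} (g : X₁ ⟶ X₂) [Flat g] (𝓘 : X₂.IdealSheafData) (b : X₂' ⟶ X₂)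
    (hb : BlowUp.IsBlowUp b 𝓘) : BlowUp.IsBlowUp (pullback.fst g b) (𝓘.comap g) := by
  exact Groth.Agent.H3Blow.t1680 g 𝓘 b hb

end Groth.Agent.S1680
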