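import Groth.Statements.S1682
import Groth.Agent.Lib.H3Blow

set_option autoImplicit false
universe u
open CategoryTheory CategoryTheory.Limits AlgebraicGeometry TopologicalSpace
open SDiv

namespace Groth.Agent.S1682

/-- Let b : X' ⟶ X be a blowing-up of X along the quasi-coherent ideal sheaf 𝓘, with centre Z = support
of 𝓘. Then b restricted over the open complement of Z is an isomorphism. -/
theorem result {X X' : Scheme.{u}} (𝓘 : X.IdealSheafData) (b : X' ⟶ X) (hb : BlowUp.IsBlowUp b 𝓘) :
    IsIso (b ∣_ 𝓘.support.compl) := by
  exact Groth.Agent.H3Blow.isIso_off 𝓘 b hb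

end Groth.Agent.S1682
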