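import Groth.Statements.S17173
import Mathlib.Tactic

set_option autoImplicit false
universe u
open LabGraph

namespace Groth.Agent.S17173

open LabGraph in
/-- Let Γ be the weighted dual graph of a quasistable curve X of genus g ≥ 3 over an algebraically
closed field (vertices the irreducible components C_v with weight the geometric genus, one edge per
node, a loop for a node on a single component): Γ is connected, every weight-zero vertex without
loop is joined to the other vertices by at least two edges, and no edge joins two exceptional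
vertices (weight zero, no loop, exactly two edges to other vertices). Let d be a multidegree of any
total degree D (the combinatorial section fixes an arbitrary integer d; g ≥ 3 is the paper's
standing assumption). Then the degree class of d contains a representative satisfying the Basic
Inequality: there is a multidegree d', differing from d by the twist of some integer vertex
labelling (the multidegree of a divisor Σ φ_v C_v on the total space of a regular smoothing), such
that for every set Y of vertices 2·|(2g - 2)·d'_Y - D·canDeg Y| ≤ cut Y·(2g - 2), where canDeg Y = 2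
g_Y - 2 + cut Y is the degree of the dualizing sheaf on the subcurve Y and cut Y the number of nodes
where Y meets the rest of X. -/
theorem result {V E : Type u} [Fintype V] [Fintype E]
    [DecidableEq V] [DecidableEq E] (ends : E → V × V) (w : V → ℕ) (hX : IsQuasistableGraph ends w)
    (hg : 3 ≤ genus ends w) (d : V → ℤ) :
    ∃ d' : V → ℤ, TwistEquiv ends d' d ∧ SatisfiesBI ends w d' := by
  classical
  have hconn : Connected ends := hX.1.1
  have htw : ∀ (φ : V → ℤ) (Y : Finset V), ∑ v ∈ Y, twist ends φ v =
      ∑ e : E, ((if (ends e).1 ∈ Y then φ (ends e).2 - φ (ends e).1 else 0) +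
        (if (ends e).2 ∈ Y then φ (ends e).1 - φ (ends e).2 else 0)) := by
    intro φ Y
    unfold twist
    rw [Finset.sum_comm]
    refine Finset.sum_congr rfl (fun e _ => ?_)
    rw [Finset.sum_add_distrib, Finset.sum_ite_eq, Finset.sum_ite_eq]
  have hcut : ∀ Y : Finset V, (cut ends Y : ℤ) = ∑ e : E,
      (if (((ends e).1 ∈ Y ∧ (ends e).2 ∉ Y) ∨ ((ends e).1 ∉ Y ∧ (ends e).2 ∈ Y)) then (1 : ℤ) else 0) := by
    intro Y
    unfold cut
    rw [Finset.card_filter]
    push_cast
    rfl
  have hK : 0 < canDeg ends w Finset.univ := by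
    have h1 : (∑ v : V, (endCount ends Finset.univ v : ℤ)) = 2 * (Fintype.card E : ℤ) := by
      unfold endCount
      push_cast
      rw [Finset.sum_comm]
      have : ∀ e ∈ (Finset.univ : Finset E), (∑ v : V, ((if (ends e).1 = v then (1 : ℤ) else 0) +
          (if (ends e).2 = v then (1 : ℤ) else 0))) = 2 := by
        intro e _
        rw [Finset.sum_add_distrib, Finset.sum_ite_eq, Finset.sum_ite_eq]
        simp
      rw [Finset.sum_congr rfl this]
      simp [mul_comm]
    have h2 : canDeg ends w Finset.univ = 2 * genus ends w - 2 := by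
      unfold canDeg genus
      rw [Finset.sum_add_distrib, Finset.sum_sub_distrib, h1, ← Finset.mul_sum]
      simp
      ring
    rw [h2]
    linarith
  set K := canDeg ends w Finset.univ with hKdef
  set D := ∑ v : V, d v with hD
  -- the flow
  let bd : (E → ℤ) →+ (V → ℤ) :=
    { toFun := fun f v => ∑ e : E, ((if (ends e).2 = v then f e else 0) - (if (ends e).1 = v then f e else 0))
      map_zero' := by funext v; simp
      map_add' := by
        intro f g
        funext v
        simp only [Pi.add_apply]
        rw [← Finset.sum_add_distrib]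
        refine Finset.sum_congr rfl (fun e _ => ?_)
        split_ifs <;> ring }
  have hbd : ∀ f v, bd f v = ∑ e : E, ((if (ends e).2 = v then f e else 0) - (if (ends e).1 = v then f e else 0)) :=
    fun _ _ => rfl
  have hsingle : ∀ e : E, bd (Pi.single e 1) = Pi.single (ends e).2 1 - Pi.single (ends e).1 1 := by
    intro e
    funext v
    rw [hbd, Finset.sum_eq_single e]
    · simp only [Pi.single_eq_same, Pi.sub_apply, Pi.single_apply, eq_comm]
    · intro e' _ he'
      simp [Pi.single_eq_of_ne he']
    · intro h; exact absurd (Finset.mem_univ e) h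
  obtain ⟨v0⟩ := hconn.1
  have hpath : ∀ v : V, (Pi.single v 1 - Pi.single v0 1 : V → ℤ) ∈ bd.range := by
    intro v
    have hr := hconn.2 v0 v
    induction hr with
    | refl => rw [sub_self]; exact bd.range.zero_mem
    | tail _ hadj ih =>
      rename_i a b _
      obtain ⟨e, he⟩ := hadj
      have hmem : (Pi.single b 1 - Pi.single a 1 : V → ℤ) ∈ bd.range := by
        rcases he with he | he
        · refine ⟨Pi.single e 1, ?_⟩
          rw [hsingle, he]
        · refine ⟨- Pi.single e 1, ?_⟩
          rw [map_neg, hsingle, he, neg_sub]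
      have := bd.range.add_mem hmem ih
      rwa [sub_add_sub_cancel] at this
  let u : V → ℤ := fun v => K * d v - D * (2 * (w v : ℤ) - 2 + (endCount ends Finset.univ v : ℤ))
  have huY : ∀ Y : Finset V, ∑ v ∈ Y, u v = K * (∑ v ∈ Y, d v) - D * canDeg ends w Y := by
    intro Y
    simp only [u]
    rw [Finset.sum_sub_distrib, ← Finset.mul_sum, ← Finset.mul_sum]
    rfl
  have hu0 : ∑ v : V, u v = 0 := by
    rw [huY, ← hKdef, ← hD]
    ring
  have hurange : u ∈ bd.range := by
    have e1 : u = ∑ v : V, u v • (Pi.single v 1 - Pi.single v0 1 : V → ℤ) := by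
      simp only [smul_sub]
      rw [Finset.sum_sub_distrib, ← Finset.sum_smul, hu0, zero_smul, sub_zero]
      funext x
      rw [Finset.sum_apply, Finset.sum_eq_single x]
      · simp
      · intro y _ hy
        simp [Pi.single_eq_of_ne hy.symm]
      · intro h; exact absurd (Finset.mem_univ x) h
    rw [e1]
    exact bd.range.sum_mem (fun v _ => bd.range.zsmul_mem (hpath v) _)
  obtain ⟨f, hf⟩ := hurange
  -- energy
  let G : (V → ℤ) → ℤ := fun φ => ∑ e : E, (K * (φ (ends e).2 - φ (ends e).1) ^ 2 + 2 * f e * (φ (ends e).2 - φ (ends e).1))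
  have hGbd : ∀ φ, - ∑ e : E, (f e) ^ 2 ≤ G φ := by
    intro φ
    rw [← Finset.sum_neg_distrib]
    refine Finset.sum_le_sum (fun e _ => ?_)
    have hK1 : 1 ≤ K := hK
    nlinarith [sq_nonneg ((φ (ends e).2 - φ (ends e).1) + f e),
      mul_nonneg (sub_nonneg.2 hK1) (sq_nonneg (φ (ends e).2 - φ (ends e).1))]
  obtain ⟨lb, ⟨φ, hφ⟩, hlb⟩ := Int.exists_least_of_bdd (P := fun z => ∃ φ, G φ = z)
    ⟨- ∑ e : E, (f e) ^ 2, by rintro z ⟨φ, rfl⟩; exact hGbd φ⟩ ⟨G 0, 0, rfl⟩
  have hmin : ∀ ψ, G φ ≤ G ψ := fun ψ => hφ ▸ hlb _ ⟨ψ, rfl⟩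
  let χ : Finset V → E → ℤ := fun Y e => (if (ends e).2 ∈ Y then (1 : ℤ) else 0) - (if (ends e).1 ∈ Y then (1 : ℤ) else 0)
  have hcutχ : ∀ Y, (cut ends Y : ℤ) = ∑ e : E, (χ Y e) ^ 2 := by
    intro Y
    rw [hcut]
    refine Finset.sum_congr rfl (fun e _ => ?_)
    simp only [χ]
    by_cases a : (ends e).1 ∈ Y <;> by_cases c : (ends e).2 ∈ Y <;> simp [a, c]
  have hz : ∀ (Y : Finset V), ∑ v ∈ Y, twist ends φ v = - ∑ e : E, χ Y e * (φ (ends e).2 - φ (ends e).1) := by
    intro Y
    rw [htw, ← Finset.sum_neg_distrib]
    refine Finset.sum_congr rfl (fun e _ => ?_)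
    simp only [χ]
    by_cases a : (ends e).1 ∈ Y <;> by_cases c : (ends e).2 ∈ Y <;> simp [a, c]
  have hfY : ∀ (Y : Finset V), ∑ v ∈ Y, u v = ∑ e : E, χ Y e * f e := by
    intro Y
    rw [← hf]
    simp only [hbd]
    rw [Finset.sum_comm]
    refine Finset.sum_congr rfl (fun e _ => ?_)
    rw [Finset.sum_sub_distrib, Finset.sum_ite_eq, Finset.sum_ite_eq]
    simp only [χ]
    by_cases a : (ends e).1 ∈ Y <;> by_cases c : (ends e).2 ∈ Y <;> simp [a, c]
  have htot : ∑ v : V, (d v - twist ends φ v) = D := by
    rw [Finset.sum_sub_distrib, hz]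
    have : ∀ e ∈ (Finset.univ : Finset E), χ Finset.univ e * (φ (ends e).2 - φ (ends e).1) = 0 := by
      intro e _
      simp [χ]
    rw [Finset.sum_congr rfl this]
    simp [hD]
  refine ⟨fun v => d v - twist ends φ v, ⟨fun v => - φ v, ?_⟩, ?_⟩
  · intro v
    have : twist ends (fun v => - φ v) v = - twist ends φ v := by
      unfold twist
      rw [← Finset.sum_neg_distrib]
      refine Finset.sum_congr rfl (fun e _ => ?_)
      split_ifs <;> ring
    rw [this]
    ring
  · intro Y
    change 2 * |K * (∑ v ∈ Y, (d v - twist ends φ v)) - (∑ v : V, (d v - twist ends φ v)) * canDeg ends w Y| ≤ (cut ends Y : ℤ) * K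
    rw [htot]
    have hXe : K * (∑ v ∈ Y, (d v - twist ends φ v)) - D * canDeg ends w Y =
        ∑ e : E, χ Y e * (f e + K * (φ (ends e).2 - φ (ends e).1)) := by
      rw [Finset.sum_sub_distrib, hz]
      have h1 := huY Y
      rw [hfY Y] at h1
      have h2 : ∑ e : E, χ Y e * (f e + K * (φ (ends e).2 - φ (ends e).1)) =
          ∑ e : E, χ Y e * f e + K * ∑ e : E, χ Y e * (φ (ends e).2 - φ (ends e).1) := by
        rw [Finset.mul_sum, ← Finset.sum_add_distrib]
        exact Finset.sum_congr rfl (fun e _ => by ring)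
      rw [h2, h1]
      ring
    rw [hXe]
    set X := ∑ e : E, χ Y e * (f e + K * (φ (ends e).2 - φ (ends e).1)) with hXdef
    have hG : ∀ s : ℤ, s ^ 2 = 1 → G (fun v => φ v + s * (if v ∈ Y then 1 else 0)) = G φ + 2 * s * X + K * (cut ends Y : ℤ) := by
      intro s hs
      simp only [G]
      rw [hXdef, hcutχ, Finset.mul_sum, Finset.mul_sum, ← Finset.sum_add_distrib, ← Finset.sum_add_distrib]
      refine Finset.sum_congr rfl (fun e _ => ?_)
      have h1 : (φ (ends e).2 + s * (if (ends e).2 ∈ Y then (1 : ℤ) else 0)) - (φ (ends e).1 + s * (if (ends e).1 ∈ Y then (1 : ℤ) else 0)) =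
          (φ (ends e).2 - φ (ends e).1) + s * χ Y e := by
        simp only [χ]; ring
      rw [h1]
      linear_combination K * (χ Y e) ^ 2 * hs
    have hp := hmin (fun v => φ v + 1 * (if v ∈ Y then 1 else 0))
    have hn := hmin (fun v => φ v + (-1) * (if v ∈ Y then 1 else 0))
    rw [hG 1 (by norm_num)] at hp
    rw [hG (-1) (by norm_num)] at hn
    have : |2 * X| ≤ (cut ends Y : ℤ) * K := by
      rw [abs_le]
      constructor <;> linarith
    rwa [abs_mul, abs_of_pos (by norm_num : (0 : ℤ) < 2)] at this

end Groth.Agent.S17173
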