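import Groth.Statements.S17174
import Mathlib.Tactic

set_option autoImplicit false
universe u
open LabGraph

namespace Groth.Agent.S17174

open LabGraph in
/-- Let Γ be the weighted dual graph of a Deligne–Mumford semistable curve X of genus g ≥ 3 over an
algebraically closed field (connected; every weight-zero vertex without loop is joined to the other
vertices by at least two edges), and let d, d' be two multidegrees of the same (arbitrary) total
degree D (g ≥ 3 being the paper's standing assumption) which both satisfy the Basic Inequality and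
lie in the same degree class (d - d' is a twist). Then d - d' can be written in normal form: there
is a labelling h of the vertices by natural numbers taking exactly the values 0, 1, …, q, with d -
d' equal to the twist of h (that is, d - d' = Σ_v h(v)·c_v with c_v the multidegree of O(C_v)), such
that for distinct levels i ≠ j in {0, …, q} the subcurves on h⁻¹(i) and h⁻¹(j) meet (some edge joins
the two levels) exactly when |i - j| = 1. -/
theorem result {V E : Type u} [Fintype V] [Fintype E]
    [DecidableEq V] [DecidableEq E] (ends : E → V × V) (w : V → ℕ) (hX : IsSemistableGraph ends w)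
    (hg : 3 ≤ genus ends w) (d d' : V → ℤ)
    (hBI : SatisfiesBI ends w d) (hBI' : SatisfiesBI ends w d') (heq : TwistEquiv ends d d') :
    ∃ (q : ℕ) (h : V → ℕ), (∀ v : V, h v ≤ q) ∧ (∀ i : ℕ, i ≤ q → ∃ v : V, h v = i) ∧
      (∀ v : V, d v - d' v = twist ends (fun u => (h u : ℤ)) v) ∧
      (∀ i j : ℕ, i ≤ q → j ≤ q → i ≠ j →
        ((∃ e : E, (h (ends e).1 = i ∧ h (ends e).2 = j) ∨ (h (ends e).1 = j ∧ h (ends e).2 = i)) ↔
          (i + 1 = j ∨ j + 1 = i))) := by
  classical
  have hconn : Connected ends := hX.1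
  have htw : ∀ (φ : V → ℤ) (Y : Finset V), ∑ v ∈ Y, twist ends φ v =
      ∑ e : E, ((if (ends e).1 ∈ Y then φ (ends e).2 - φ (ends e).1 else 0) +
        (if (ends e).2 ∈ Y then φ (ends e).1 - φ (ends e).2 else 0)) := by
    intro φ Y
    unfold twist
    rw [Finset.sum_comm]
    refine Finset.sum_congr rfl (fun e _ => ?_)
    rw [Finset.sum_add_distrib, Finset.sum_ite_eq, Finset.sum_ite_eq]
  have hcut : ∀ Y : Finset V, (cut ends Y : ℤ) = ∑ e : E,
      (if (((ends e).1 ∈ Y ∧ (ends e).2 ∉ Y) ∨ ((ends e).1 ∉ Y ∧ (ends e).2 ∈ Y)) then (1 : ℤ) else 0) := by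
    intro Y
    unfold cut
    rw [Finset.card_filter]
    push_cast
    rfl
  have hK : 0 < canDeg ends w Finset.univ := by
    have h1 : (∑ v : V, (endCount ends Finset.univ v : ℤ)) = 2 * (Fintype.card E : ℤ) := by
      unfold endCount
      push_cast
      rw [Finset.sum_comm]
      have : ∀ e ∈ (Finset.univ : Finset E), (∑ v : V, ((if (ends e).1 = v then (1 : ℤ) else 0) +
          (if (ends e).2 = v then (1 : ℤ) else 0))) = 2 := by
        intro e _
        rw [Finset.sum_add_distrib, Finset.sum_ite_eq, Finset.sum_ite_eq]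
        simp
      rw [Finset.sum_congr rfl this]
      simp [mul_comm]
    have h2 : canDeg ends w Finset.univ = 2 * genus ends w - 2 := by
      unfold canDeg genus
      rw [Finset.sum_add_distrib, Finset.sum_sub_distrib, h1, ← Finset.mul_sum]
      simp
      ring
    rw [h2]
    linarith
  set K := canDeg ends w Finset.univ with hKdef
  obtain ⟨φ, hφ⟩ := heq
  obtain ⟨v0⟩ := hconn.1
  obtain ⟨vmin, -, hvmin⟩ := Finset.exists_min_image Finset.univ φ ⟨v0, Finset.mem_univ v0⟩
  let h : V → ℕ := fun v => (φ v - φ vmin).toNat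
  have hh : ∀ v, (h v : ℤ) = φ v - φ vmin := fun v =>
    Int.toNat_of_nonneg (sub_nonneg.2 (hvmin v (Finset.mem_univ v)))
  have hmin0 : h vmin = 0 := by
    have := hh vmin
    rw [sub_self] at this
    exact_mod_cast this
  obtain ⟨vmax, -, hvmax⟩ := Finset.exists_max_image Finset.univ h ⟨v0, Finset.mem_univ v0⟩
  have htwh : ∀ v, d v - d' v = twist ends (fun u => (h u : ℤ)) v := by
    intro v
    rw [hφ v]
    unfold twist
    refine Finset.sum_congr rfl (fun e _ => ?_)
    simp only [hh]
    split_ifs <;> ring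
  have htot : ∑ v : V, d v = ∑ v : V, d' v := by
    have h1 : ∑ v : V, (d v - d' v) = 0 := by
      simp only [htwh]
      rw [htw]
      refine Finset.sum_eq_zero (fun e _ => ?_)
      simp
    rw [Finset.sum_sub_distrib] at h1
    linarith
  -- the key inequality
  have hkey : ∀ Y : Finset V, - (cut ends Y : ℤ) ≤ ∑ v ∈ Y, twist ends (fun u => (h u : ℤ)) v := by
    intro Y
    have b1 := hBI Y
    have b2 := hBI' Y
    rw [← hKdef] at b1 b2
    rw [htot] at b1
    have e1 := neg_abs_le (K * (∑ v ∈ Y, d v) - (∑ v : V, d' v) * canDeg ends w Y)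
    have e2 := le_abs_self (K * (∑ v ∈ Y, d' v) - (∑ v : V, d' v) * canDeg ends w Y)
    have h1 : ∑ v ∈ Y, twist ends (fun u => (h u : ℤ)) v = (∑ v ∈ Y, d v) - ∑ v ∈ Y, d' v := by
      rw [← Finset.sum_sub_distrib]
      exact Finset.sum_congr rfl (fun v _ => (htwh v).symm)
    rw [h1]
    have h3 : K * (- (cut ends Y : ℤ)) ≤ K * ((∑ v ∈ Y, d v) - ∑ v ∈ Y, d' v) := by
      nlinarith [b1, b2, e1, e2]
    exact le_of_mul_le_mul_left h3 hK
  have hstep : ∀ (i : ℕ) (e : E), (i ≤ h (ends e).1 → ¬ i ≤ h (ends e).2 → h (ends e).1 = h (ends e).2 + 1) ∧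
      (i ≤ h (ends e).2 → ¬ i ≤ h (ends e).1 → h (ends e).2 = h (ends e).1 + 1) := by
    intro i e
    let Y : Finset V := Finset.univ.filter (fun v => i ≤ h v)
    have hY : ∀ v, v ∈ Y ↔ i ≤ h v := fun v => by simp [Y]
    have hle : ∀ e' ∈ (Finset.univ : Finset E), ((if (ends e').1 ∈ Y then ((h (ends e').2 : ℤ)) - (h (ends e').1 : ℤ) else 0) +
        (if (ends e').2 ∈ Y then (h (ends e').1 : ℤ) - (h (ends e').2 : ℤ) else 0)) ≤
        - (if (((ends e').1 ∈ Y ∧ (ends e').2 ∉ Y) ∨ ((ends e').1 ∉ Y ∧ (ends e').2 ∈ Y)) then (1 : ℤ) else 0) := by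
      intro e' _
      simp only [hY]
      by_cases a : i ≤ h (ends e').1 <;> by_cases c : i ≤ h (ends e').2 <;> simp [a, c] <;> omega
    have hk := hkey Y
    rw [htw, hcut, ← Finset.sum_neg_distrib] at hk
    have heqs := (Finset.sum_eq_sum_iff_of_le hle).1 (le_antisymm (Finset.sum_le_sum hle) hk) e (Finset.mem_univ e)
    simp only [hY] at heqs
    refine ⟨fun a c => ?_, fun c a => ?_⟩
    · simp [a, c] at heqs
      omega
    · simp [a, c] at heqs
      omega
  have hedge : ∀ e : E, h (ends e).1 ≤ h (ends e).2 + 1 ∧ h (ends e).2 ≤ h (ends e).1 + 1 := by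
    intro e
    have h1 := (hstep (h (ends e).1) e).1 le_rfl
    have h2 := (hstep (h (ends e).2) e).2 le_rfl
    constructor
    · by_cases hc : h (ends e).1 ≤ h (ends e).2
      · omega
      · have := h1 hc; omega
    · by_cases hc : h (ends e).2 ≤ h (ends e).1
      · omega
      · have := h2 hc; omega
  have hcross : ∀ (P : V → Prop) (a b : V), Relation.ReflTransGen (Adj ends) a b → P a → ¬ P b →
      ∃ x y, Adj ends x y ∧ P x ∧ ¬ P y := by
    intro P a b hab hPa
    induction hab with
    | refl => intro hn; exact absurd hPa hn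
    | tail _ hadj ih =>
      rename_i b' c' _
      intro hn
      by_cases hb : P b'
      · exact ⟨b', c', hadj, hb, hn⟩
      · exact ih hb
  have hlevel : ∀ i : ℕ, i + 1 ≤ h vmax → ∃ e : E, (h (ends e).1 = i ∧ h (ends e).2 = i + 1) ∨ (h (ends e).1 = i + 1 ∧ h (ends e).2 = i) := by
    intro i hi
    obtain ⟨x, y, ⟨e, he⟩, hx, hy⟩ := hcross (fun v => h v ≤ i) vmin vmax (hconn.2 vmin vmax) (by simp only [hmin0]; omega)
      (by omega)
    refine ⟨e, ?_⟩
    have h1 := hedge e
    rcases he with he | he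
    · rw [he] at h1 ⊢
      simp only at h1 hx hy ⊢
      left; omega
    · rw [he] at h1 ⊢
      simp only at h1 hx hy ⊢
      right; omega
  refine ⟨h vmax, h, fun v => hvmax v (Finset.mem_univ v), ?_, htwh, ?_⟩
  · intro i hi
    rcases Nat.eq_zero_or_pos i with h0 | hpos
    · exact ⟨vmin, by rw [hmin0, h0]⟩
    · obtain ⟨j, rfl⟩ : ∃ j, i = j + 1 := ⟨i - 1, by omega⟩
      obtain ⟨e, he | he⟩ := hlevel j hi
      · exact ⟨_, he.2⟩
      · exact ⟨_, he.1⟩
  · intro i j hi hj hij
    constructor
    · rintro ⟨e, he⟩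
      have h1 := hedge e
      rcases he with he | he <;> rw [he.1, he.2] at h1 <;> omega
    · rintro (rfl | rfl)
      · obtain ⟨e, he | he⟩ := hlevel i hj
        · exact ⟨e, Or.inl he⟩
        · exact ⟨e, Or.inr he⟩
      · obtain ⟨e, he | he⟩ := hlevel j hi
        · exact ⟨e, Or.inr he⟩
        · exact ⟨e, Or.inl he⟩

end Groth.Agent.S17174
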