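import Groth.Statements.S17176
import Mathlib.Tactic

set_option autoImplicit false
open Curves

namespace Groth.Agent.S17176

/-- Fix integers g ≥ 3 and d. For a complete subcurve Y of arithmetic genus g_Y of a nodal curve of
genus g, meeting the rest of the curve in k points, the lower extreme of the Basic Inequality for
line bundles of degree d is m = d(2g_Y - 2 + k)/(2g - 2) - k/2, which is an integer exactly when 2(g
- 1) divides d(2g_Y - 2 + k) - k(g - 1). Then gcd(d - g + 1, 2g - 2) = 1 if and only if m is not an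
integer for all integers g_Y, k with 0 < g_Y < g - 1, k ≥ 1 and k + 2g_Y - 2 < 2g - 2. (The row
makes explicit the bound 2g_Y - 2 + k < 2g - 2, which is automatic for subcurves of stable curves
and is satisfied by every subcurve to which the source applies the lemma; the source leaves the
ambient curve's class implicit.) -/
theorem result (g d : ℤ) (hg : 3 ≤ g) :
    Int.gcd (d - g + 1) (2 * g - 2) = 1 ↔
      ∀ gY k : ℤ, 0 < gY → gY < g - 1 → 1 ≤ k → k + 2 * gY - 2 < 2 * g - 2 →
        ¬ (2 * (g - 1) ∣ d * (2 * gY - 2 + k) - k * (g - 1)) := by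
  constructor
  · intro h gY k h1 h2 h3 h4 hdiv
    have hc : IsCoprime (d - g + 1) (2 * g - 2) := Int.isCoprime_iff_gcd_eq_one.2 h
    have e1 : (2 * g - 2) ∣ (d - g + 1) * (2 * gY - 2 + k) := by
      have : (d - g + 1) * (2 * gY - 2 + k) =
          (d * (2 * gY - 2 + k) - k * (g - 1)) - (2 * (g - 1)) * (gY - 1) := by ring
      rw [this]
      have h5 : 2 * g - 2 = 2 * (g - 1) := by ring
      rw [h5]
      exact dvd_sub hdiv (dvd_mul_right _ _)
    have e2 : (2 * g - 2) ∣ (2 * gY - 2 + k) := hc.symm.dvd_of_dvd_mul_left e1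
    have e3 := Int.le_of_dvd (by linarith) e2
    linarith
  · intro h
    by_contra hne
    have hd1 : ((Int.gcd (d - g + 1) (2 * g - 2) : ℕ) : ℤ) ∣ (d - g + 1) := Int.gcd_dvd_left ..
    have hd2 : ((Int.gcd (d - g + 1) (2 * g - 2) : ℕ) : ℤ) ∣ (2 * g - 2) := Int.gcd_dvd_right ..
    have hG0 : Int.gcd (d - g + 1) (2 * g - 2) ≠ 0 := by
      intro h0
      rw [h0] at hd2
      simp at hd2
      linarith
    have hG2 : (2 : ℤ) ≤ ((Int.gcd (d - g + 1) (2 * g - 2) : ℕ) : ℤ) := by
      have : 2 ≤ Int.gcd (d - g + 1) (2 * g - 2) := by omega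
      exact_mod_cast this
    generalize ((Int.gcd (d - g + 1) (2 * g - 2) : ℕ) : ℤ) = G at hd1 hd2 hG2
    obtain ⟨u, hu⟩ := hd1
    obtain ⟨a, ha⟩ := hd2
    have hapos : 0 < a := by
      by_contra hn
      have : a ≤ 0 := by linarith
      nlinarith
    have halt : a < 2 * g - 2 := by nlinarith
    apply h 1 a (by norm_num) (by linarith) (by linarith) (by linarith)
    refine ⟨u, ?_⟩
    have e : d * (2 * 1 - 2 + a) - a * (g - 1) = a * (d - g + 1) := by ring
    rw [e, hu]
    have e2 : 2 * (g - 1) = G * a := by linarith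
    rw [e2]
    ring

end Groth.Agent.S17176
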