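import Groth.Statements.S17179
import Mathlib.Tactic

set_option autoImplicit false
universe u
open LabGraph

namespace Groth.Agent.S17179

open LabGraph in
/-- Let Γ be the weighted dual graph of a Deligne–Mumford semistable curve X of genus g ≥ 3 (connected;
every weight-zero vertex without loop joined to the other vertices by at least two edges), d a
multidegree of total degree D satisfying the Basic Inequality, and Z a set of vertices whose degree
equals the upper extreme M_Z of the inequality, that is 2((2g - 2)·d_Z - D·canDeg Z) = cut Z·(2g -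
2). Then d + z again satisfies the Basic Inequality, where z, the multidegree of O(Z) on the total
space of a regular smoothing, is the twist of the indicator function of Z (it lowers the degree on Z
by cut Z and raises it on each outside vertex by its number of edges to Z). -/
theorem result {V E : Type u} [Fintype V] [Fintype E]
    [DecidableEq V] [DecidableEq E] (ends : E → V × V) (w : V → ℕ) (hX : IsSemistableGraph ends w)
    (hg : 3 ≤ genus ends w) (d : V → ℤ) (hBI : SatisfiesBI ends w d) (Z : Finset V)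
    (hZ : 2 * (canDeg ends w Finset.univ * (∑ v ∈ Z, d v) - (∑ v : V, d v) * canDeg ends w Z) =
      (cut ends Z : ℤ) * canDeg ends w Finset.univ) :
    SatisfiesBI ends w (fun v => d v + twist ends (fun u => if u ∈ Z then 1 else 0) v) := by
  classical
  have htw : ∀ (φ : V → ℤ) (Y : Finset V), ∑ v ∈ Y, twist ends φ v =
      ∑ e : E, ((if (ends e).1 ∈ Y then φ (ends e).2 - φ (ends e).1 else 0) +
        (if (ends e).2 ∈ Y then φ (ends e).1 - φ (ends e).2 else 0)) := by
    intro φ Y
    unfold twist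
    rw [Finset.sum_comm]
    refine Finset.sum_congr rfl (fun e _ => ?_)
    rw [Finset.sum_add_distrib, Finset.sum_ite_eq, Finset.sum_ite_eq]
  have hcut : ∀ Y : Finset V, (cut ends Y : ℤ) = ∑ e : E,
      (if (((ends e).1 ∈ Y ∧ (ends e).2 ∉ Y) ∨ ((ends e).1 ∉ Y ∧ (ends e).2 ∈ Y)) then (1 : ℤ) else 0) := by
    intro Y
    unfold cut
    rw [Finset.card_filter]
    push_cast
    rfl
  have hK : 0 ≤ canDeg ends w Finset.univ := by
    have h1 : (∑ v : V, (endCount ends Finset.univ v : ℤ)) = 2 * (Fintype.card E : ℤ) := by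
      unfold endCount
      push_cast
      rw [Finset.sum_comm]
      have : ∀ e ∈ (Finset.univ : Finset E), (∑ v : V, ((if (ends e).1 = v then (1 : ℤ) else 0) +
          (if (ends e).2 = v then (1 : ℤ) else 0))) = 2 := by
        intro e _
        rw [Finset.sum_add_distrib, Finset.sum_ite_eq, Finset.sum_ite_eq]
        simp
      rw [Finset.sum_congr rfl this]
      simp [mul_comm]
    have h2 : canDeg ends w Finset.univ = 2 * genus ends w - 2 := by
      unfold canDeg genus
      rw [Finset.sum_add_distrib, Finset.sum_sub_distrib, h1, ← Finset.mul_sum]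
      simp
      ring
    rw [h2]
    linarith
  set K := canDeg ends w Finset.univ with hKdef
  set φ : V → ℤ := fun u => if u ∈ Z then 1 else 0 with hφ
  have htot : ∑ v : V, (d v + twist ends φ v) = ∑ v : V, d v := by
    rw [Finset.sum_add_distrib, htw]
    have : ∀ e ∈ (Finset.univ : Finset E), ((if (ends e).1 ∈ (Finset.univ : Finset V) then φ (ends e).2 - φ (ends e).1 else 0) +
        (if (ends e).2 ∈ (Finset.univ : Finset V) then φ (ends e).1 - φ (ends e).2 else 0)) = 0 := by
      intro e _
      simp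
    rw [Finset.sum_congr rfl this]
    simp
  have hedge : ∀ Y : Finset V, (cut ends (Y ∪ Z) : ℤ) + (cut ends (Y ∩ Z) : ℤ) - (cut ends Z : ℤ) +
      2 * ∑ v ∈ Y, twist ends φ v ≤ (cut ends Y : ℤ) := by
    intro Y
    rw [hcut, hcut, hcut, hcut, htw, Finset.mul_sum, ← Finset.sum_add_distrib, ← Finset.sum_sub_distrib,
      ← Finset.sum_add_distrib]
    refine Finset.sum_le_sum (fun e _ => ?_)
    simp only [hφ, Finset.mem_union, Finset.mem_inter]
    by_cases a : (ends e).1 ∈ Y <;> by_cases b : (ends e).1 ∈ Z <;> by_cases c : (ends e).2 ∈ Y <;>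
      by_cases d : (ends e).2 ∈ Z <;> simp [a, b, c, d]
  have hup : ∀ Y : Finset V, 2 * (K * (∑ v ∈ Y, (d v + twist ends φ v)) -
      (∑ v : V, (d v + twist ends φ v)) * canDeg ends w Y) ≤ (cut ends Y : ℤ) * K := by
    intro Y
    rw [htot]
    have e1 := (abs_le.mp (le_refl |canDeg ends w Finset.univ * (∑ v ∈ (Y ∪ Z), d v) - (∑ v : V, d v) * canDeg ends w (Y ∪ Z)|)).2
    have e2 := (abs_le.mp (le_refl |canDeg ends w Finset.univ * (∑ v ∈ (Y ∩ Z), d v) - (∑ v : V, d v) * canDeg ends w (Y ∩ Z)|)).2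
    have b1 := hBI (Y ∪ Z)
    have b2 := hBI (Y ∩ Z)
    rw [← hKdef] at e1 e2 b1 b2
    have s1 : (∑ v ∈ (Y ∪ Z), d v) + (∑ v ∈ (Y ∩ Z), d v) = (∑ v ∈ Y, d v) + (∑ v ∈ Z, d v) :=
      Finset.sum_union_inter
    have s2 : canDeg ends w (Y ∪ Z) + canDeg ends w (Y ∩ Z) = canDeg ends w Y + canDeg ends w Z := by
      unfold canDeg
      exact Finset.sum_union_inter
    have h3 := mul_le_mul_of_nonneg_left (hedge Y) hK
    rw [Finset.sum_add_distrib]
    have s1' : (∑ v ∈ Y, d v) = (∑ v ∈ (Y ∪ Z), d v) + (∑ v ∈ (Y ∩ Z), d v) - (∑ v ∈ Z, d v) := by linarith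
    have s2' : canDeg ends w Y = canDeg ends w (Y ∪ Z) + canDeg ends w (Y ∩ Z) - canDeg ends w Z := by linarith
    rw [s1', s2']
    nlinarith [e1, e2, b1, b2, hZ, h3]
  intro Y
  have hu := hup Y
  have hl := hup Yᶜ
  have hc : (cut ends Yᶜ : ℤ) = (cut ends Y : ℤ) := by
    rw [hcut, hcut]
    refine Finset.sum_congr rfl (fun e _ => ?_)
    simp only [Finset.mem_compl]
    by_cases a : (ends e).1 ∈ Y <;> by_cases c : (ends e).2 ∈ Y <;> simp [a, c]
  have t1 : (∑ v ∈ Y, (d v + twist ends φ v)) + (∑ v ∈ Yᶜ, (d v + twist ends φ v)) = ∑ v : V, (d v + twist ends φ v) :=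
    Finset.sum_add_sum_compl _ _
  have t2 : canDeg ends w Y + canDeg ends w Yᶜ = K := by
    rw [hKdef]
    unfold canDeg
    exact Finset.sum_add_sum_compl _ _
  have t1' : (∑ v ∈ Yᶜ, (d v + twist ends φ v)) = (∑ v : V, (d v + twist ends φ v)) - (∑ v ∈ Y, (d v + twist ends φ v)) := by linarith
  have t2' : canDeg ends w Yᶜ = K - canDeg ends w Y := by linarith
  rw [t1', t2', hc] at hl
  change 2 * |K * (∑ v ∈ Y, (d v + twist ends φ v)) - (∑ v : V, (d v + twist ends φ v)) * canDeg ends w Y| ≤ (cut ends Y : ℤ) * K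
  have : |2 * (K * (∑ v ∈ Y, (d v + twist ends φ v)) - (∑ v : V, (d v + twist ends φ v)) * canDeg ends w Y)| ≤ (cut ends Y : ℤ) * K := by
    rw [abs_le]
    constructor
    · nlinarith [hl, hu]
    · exact hu
  rwa [abs_mul, abs_of_pos (by norm_num : (0 : ℤ) < 2)] at this

end Groth.Agent.S17179
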