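import Mathlib
import Groth.Statements.S17444

set_option autoImplicit false
universe u v
open SSRed

namespace Groth.Agent.S17444


/-- Let K be a field of characteristic zero, V a K-vector space and g a K-linear endomorphism of V such
that g - 1 is nilpotent (a unipotent automorphism). Then for every integer n > 0 the endomorphisms
gⁿ - 1 and g - 1 have the same kernel: a vector fixed by gⁿ is fixed by g. (The published statement
assumes V finite-dimensional; this row allows any V.) -/
theorem result (K : Type u) (V : Type v) [Field K] [CharZero K]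
    [AddCommGroup V] [Module K V] (g : Module.End K V) (hg : IsNilpotent (g - 1)) (n : ℕ) (hn : 0 < n) :
    LinearMap.ker (g ^ n - 1) = LinearMap.ker (g - 1) := by
  have hfac : g ^ n - 1 = (∑ i ∈ Finset.range n, g ^ i) * (g - 1) := (geom_sum_mul g n).symm
  have hnil : IsNilpotent ((∑ i ∈ Finset.range n, g ^ i) - (n : Module.End K V)) := by
    have h1 : (∑ i ∈ Finset.range n, g ^ i) - (n : Module.End K V) =
        (∑ i ∈ Finset.range n, ∑ j ∈ Finset.range i, g ^ j) * (g - 1) := by
      rw [Finset.sum_mul]
      have : ∀ i ∈ Finset.range n, (∑ j ∈ Finset.range i, g ^ j) * (g - 1) = g ^ i - 1 :=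
        fun i _ => geom_sum_mul g i
      rw [Finset.sum_congr rfl this, Finset.sum_sub_distrib]
      simp
    rw [h1]
    refine Commute.isNilpotent_mul_left ?_ hg
    refine Commute.sum_left _ _ _ (fun i _ => Commute.sum_left _ _ _ (fun j _ => ?_))
    exact ((Commute.refl g).pow_left j).sub_right (Commute.one_right _)
  have hunit : IsUnit (∑ i ∈ Finset.range n, g ^ i) := by
    have h2 : (∑ i ∈ Finset.range n, g ^ i) = (n : Module.End K V) + ((∑ i ∈ Finset.range n, g ^ i) - (n : Module.End K V)) := by abel
    rw [h2]
    refine IsNilpotent.isUnit_add_left_of_commute hnil ?_ ?_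
    · have : (n : Module.End K V) = algebraMap K (Module.End K V) (n : K) := by simp
      rw [this]
      exact (IsUnit.mk0 (n : K) (by exact_mod_cast hn.ne')).map _
    · exact (Nat.cast_commute n _).symm
  rw [hfac]
  ext v
  rw [LinearMap.mem_ker, LinearMap.mem_ker, Module.End.mul_apply]
  constructor
  · intro h
    obtain ⟨w, hw⟩ := hunit
    have h3 : ((w⁻¹ : (Module.End K V)ˣ) : Module.End K V) ((w : Module.End K V) ((g - 1) v)) = 0 := by
      rw [hw, h, map_zero]
    rw [← Module.End.mul_apply, Units.inv_mul] at h3
    exact h3
  · intro h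
    rw [h, map_zero]

end Groth.Agent.S17444
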