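import Mathlib
import Groth.Statements.S17445
import Mathlib

set_option autoImplicit false
open Finset
open SSRed

namespace Groth.Agent.S17445

theorem term_ne (ℓ : ℕ) (h : 1 < ℓ) (a : ℕ) (ha : 1 ≤ a) : ℓ ^ (2 * a) - 1 ≠ 0 := by
  have : 1 < ℓ ^ (2 * a) := Nat.one_lt_pow (by omega) h
  omega

theorem prod_ne (g ℓ : ℕ) (h : 1 < ℓ) : ∏ a ∈ Finset.Icc 1 g, (ℓ ^ (2 * a) - 1) ≠ 0 :=
  Finset.prod_ne_zero_iff.mpr fun a ha => term_ne ℓ h a (Finset.mem_Icc.mp ha).1

theorem val_F (p : ℕ) [Fact p.Prime] (g ℓ : ℕ) (hℓ : 1 < ℓ) :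
    padicValNat p (∏ a ∈ Finset.Icc 1 g, (ℓ ^ (2 * a) - 1)) = ∑ a ∈ Finset.Icc 1 g, padicValNat p (ℓ ^ (2 * a) - 1) := by
  induction g with
  | zero => simp
  | succ g ih =>
    rw [Finset.prod_Icc_succ_top (by omega), Finset.sum_Icc_succ_top (by omega),
      padicValNat.mul (prod_ne g ℓ hℓ) (term_ne ℓ hℓ _ (by omega)), ih]

theorem val_fact (g : ℕ) : 3 * g + padicValNat 2 g.factorial = ∑ a ∈ Finset.Icc 1 g, (padicValNat 2 a + 3) := by
  have : Fact (Nat.Prime 2) := ⟨Nat.prime_two⟩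
  induction g with
  | zero => simp
  | succ g ih =>
    rw [Finset.sum_Icc_succ_top (by omega), ← ih, Nat.factorial_succ, padicValNat.mul (by omega) g.factorial_ne_zero]
    omega

theorem val_two_mul (a : ℕ) (ha : 1 ≤ a) : padicValNat 2 (2 * a) = padicValNat 2 a + 1 := by
  have : Fact (Nat.Prime 2) := ⟨Nat.prime_two⟩
  rw [padicValNat.mul (by norm_num) (by omega), padicValNat.self (by norm_num), add_comm]

theorem lower_two (g ℓ : ℕ) (hℓ : 1 < ℓ) (hodd : ¬ 2 ∣ ℓ) :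
    3 * g + padicValNat 2 g.factorial ≤ padicValNat 2 (∏ a ∈ Finset.Icc 1 g, (ℓ ^ (2 * a) - 1)) := by
  have : Fact (Nat.Prime 2) := ⟨Nat.prime_two⟩
  rw [val_F 2 g ℓ hℓ, val_fact]
  apply Finset.sum_le_sum
  intro a ha
  rw [Finset.mem_Icc] at ha
  have h := padicValNat.pow_two_sub_one_ge hℓ hodd (n := 2 * a) (by omega) (even_two_mul a)
  rw [val_two_mul a ha.1] at h
  omega

theorem exact_two (g ℓ t : ℕ) (hℓ : ℓ = 8 * t + 3) :
    padicValNat 2 (∏ a ∈ Finset.Icc 1 g, (ℓ ^ (2 * a) - 1)) = 3 * g + padicValNat 2 g.factorial := by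
  have : Fact (Nat.Prime 2) := ⟨Nat.prime_two⟩
  have hℓ1 : 1 < ℓ := by omega
  rw [val_F 2 g ℓ hℓ1, val_fact]
  apply Finset.sum_congr rfl
  intro a ha
  rw [Finset.mem_Icc] at ha
  have h := padicValNat.pow_two_sub_one hℓ1 (by omega : ¬ 2 ∣ ℓ) (n := 2 * a) (by omega) (even_two_mul a)
  have h1 : padicValNat 2 (ℓ + 1) = 2 := by
    have e : ℓ + 1 = 2 ^ 2 * (2 * t + 1) := by omega
    rw [e, padicValNat.mul (by norm_num) (by omega), padicValNat.prime_pow,
      padicValNat.eq_zero_of_not_dvd (by omega : ¬ 2 ∣ 2 * t + 1)]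
  have h2 : padicValNat 2 (ℓ - 1) = 1 := by
    have e : ℓ - 1 = 2 ^ 1 * (4 * t + 1) := by omega
    rw [e, padicValNat.mul (by norm_num) (by omega), padicValNat.prime_pow,
      padicValNat.eq_zero_of_not_dvd (by omega : ¬ 2 ∣ 4 * t + 1)]
  rw [h1, h2, val_two_mul a ha.1] at h
  omega

theorem sum_split (h g : ℕ) (hh : 0 < h) (w : ℕ → ℕ) :
    ∑ i ∈ Finset.Icc 1 (g / h), w (h * i) = ∑ a ∈ (Finset.Icc 1 g).filter (fun a => h ∣ a), w a := by
  refine Finset.sum_nbij (fun i => h * i) ?_ ?_ ?_ ?_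
  · intro i hi
    rw [Finset.mem_Icc] at hi
    rw [Finset.mem_filter, Finset.mem_Icc]
    have h1 := (Nat.le_div_iff_mul_le hh).mp hi.2
    have h2 : 1 ≤ h * i := Nat.mul_pos hh (by omega)
    exact ⟨⟨h2, by rw [mul_comm]; exact h1⟩, dvd_mul_right _ _⟩
  · intro i _ j _ hij
    exact Nat.eq_of_mul_eq_mul_left hh hij
  · intro a ha
    rw [Finset.mem_coe, Finset.mem_filter, Finset.mem_Icc] at ha
    obtain ⟨⟨h1, h2⟩, c, rfl⟩ := ha
    refine ⟨c, ?_, rfl⟩
    rw [Finset.mem_coe, Finset.mem_Icc]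
    refine ⟨?_, (Nat.le_div_iff_mul_le hh).mpr (by rw [mul_comm]; exact h2)⟩
    by_contra hc
    have : c = 0 := by omega
    subst this; omega
  · intro i _; rfl

theorem ep_eq (p g h : ℕ) (hp1 : p - 1 = 2 * h) :
    (2 * g) / (p - 1) + ∑ i ∈ Finset.Icc 1 ((2 * g) / (p - 1)), padicValNat p i = ∑ i ∈ Finset.Icc 1 (g / h), (1 + padicValNat p i) := by
  rw [hp1, Nat.mul_div_mul_left g h (by norm_num), Finset.sum_add_distrib, Finset.sum_const, Nat.card_Icc]
  simp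

theorem fermat (p ℓ : ℕ) (hp : p.Prime) (hℓ : ℓ.Prime) (hne : ℓ ≠ p) : p ∣ ℓ ^ (p - 1) - 1 := by
  have h1 : Nat.Coprime ℓ p := (Nat.coprime_primes hℓ hp).mpr hne
  have h2 := Nat.ModEq.pow_totient h1
  rw [Nat.totient_prime hp] at h2
  exact (Nat.modEq_iff_dvd' (Nat.one_le_pow _ _ hℓ.pos)).mp h2.symm

theorem term_val (p ℓ h i : ℕ) (hp : p.Prime) (hp2 : p ≠ 2) (hℓ : ℓ.Prime) (hne : ℓ ≠ p) (hp1 : p - 1 = 2 * h) (hi : 1 ≤ i) :
    padicValNat p (ℓ ^ (2 * (h * i)) - 1) = padicValNat p (ℓ ^ (p - 1) - 1) + padicValNat p i := by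
  have : Fact p.Prime := ⟨hp⟩
  have hodd : Odd p := hp.odd_of_ne_two hp2
  have hp3 : 2 < p := by have := hp.two_le; omega
  have h1 := padicValNat.pow_sub_pow hodd (x := ℓ ^ (p - 1)) (y := 1) (Nat.one_lt_pow (by omega) hℓ.one_lt) (fermat p ℓ hp hℓ hne)
    (fun hd => hne (((Nat.prime_dvd_prime_iff_eq hp hℓ).mp (hp.dvd_of_dvd_pow hd)).symm)) (n := i) (by omega)
  rw [one_pow, ← pow_mul, hp1, mul_assoc] at h1
  rw [hp1]
  exact h1

theorem lower_odd (p g ℓ : ℕ) (hp : p.Prime) (hp2 : p ≠ 2) (hℓ : ℓ.Prime) (hne : ℓ ≠ p) :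
    (2 * g) / (p - 1) + ∑ i ∈ Finset.Icc 1 ((2 * g) / (p - 1)), padicValNat p i ≤ padicValNat p (∏ a ∈ Finset.Icc 1 g, (ℓ ^ (2 * a) - 1)) := by
  have : Fact p.Prime := ⟨hp⟩
  have hodd : Odd p := hp.odd_of_ne_two hp2
  obtain ⟨h, hh⟩ := hodd
  have hp1 : p - 1 = 2 * h := by omega
  have hpos : 0 < h := by have := hp.two_le; omega
  rw [ep_eq p g h hp1, val_F p g ℓ hℓ.one_lt]
  calc ∑ i ∈ Finset.Icc 1 (g / h), (1 + padicValNat p i) ≤ ∑ i ∈ Finset.Icc 1 (g / h), padicValNat p (ℓ ^ (2 * (h * i)) - 1) := by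
        apply Finset.sum_le_sum
        intro i hi
        rw [Finset.mem_Icc] at hi
        rw [term_val p ℓ h i hp hp2 hℓ hne hp1 hi.1]
        have h1 : 1 ≤ padicValNat p (ℓ ^ (p - 1) - 1) := by
          apply one_le_padicValNat_of_dvd _ (fermat p ℓ hp hℓ hne)
          have := Nat.one_lt_pow (n := p - 1) (by omega) hℓ.one_lt
          omega
        omega
    _ = ∑ a ∈ (Finset.Icc 1 g).filter (fun a => h ∣ a), padicValNat p (ℓ ^ (2 * a) - 1) := sum_split h g hpos (fun a => padicValNat p (ℓ ^ (2 * a) - 1))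
    _ ≤ _ := Finset.sum_le_sum_of_subset (Finset.filter_subset _ _)

theorem exact_odd (p g ℓ : ℕ) (hp : p.Prime) (hp2 : p ≠ 2) (hℓ : ℓ.Prime) (hne : ℓ ≠ p)
    (h1 : ∀ k, p ∣ ℓ ^ k - 1 → (p - 1) ∣ k) (h2 : ¬ p ^ 2 ∣ ℓ ^ (p - 1) - 1) :
    padicValNat p (∏ a ∈ Finset.Icc 1 g, (ℓ ^ (2 * a) - 1)) = (2 * g) / (p - 1) + ∑ i ∈ Finset.Icc 1 ((2 * g) / (p - 1)), padicValNat p i := by
  have : Fact p.Prime := ⟨hp⟩
  have hodd : Odd p := hp.odd_of_ne_two hp2
  obtain ⟨h, hh⟩ := hodd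
  have hp1 : p - 1 = 2 * h := by omega
  have hpos : 0 < h := by have := hp.two_le; omega
  have hne0 : ℓ ^ (p - 1) - 1 ≠ 0 := by
    have := Nat.one_lt_pow (n := p - 1) (by omega) hℓ.one_lt
    omega
  have hv1 : padicValNat p (ℓ ^ (p - 1) - 1) = 1 := by
    have ha : 1 ≤ padicValNat p (ℓ ^ (p - 1) - 1) := one_le_padicValNat_of_dvd hne0 (fermat p ℓ hp hℓ hne)
    have hb : ¬ 2 ≤ padicValNat p (ℓ ^ (p - 1) - 1) := fun hc => h2 ((padicValNat_dvd_iff_le hne0).mpr hc)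
    omega
  rw [ep_eq p g h hp1, val_F p g ℓ hℓ.one_lt, ← Finset.sum_filter_add_sum_filter_not (Finset.Icc 1 g) (fun a => h ∣ a)]
  have hz : ∑ a ∈ (Finset.Icc 1 g).filter (fun a => ¬ h ∣ a), padicValNat p (ℓ ^ (2 * a) - 1) = 0 := by
    apply Finset.sum_eq_zero
    intro a ha
    rw [Finset.mem_filter] at ha
    apply padicValNat.eq_zero_of_not_dvd
    intro hd
    have := h1 _ hd
    rw [hp1] at this
    exact ha.2 (Nat.dvd_of_mul_dvd_mul_left (by norm_num) this)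
  rw [hz, add_zero, ← sum_split h g hpos (fun a => padicValNat p (ℓ ^ (2 * a) - 1))]
  apply Finset.sum_congr rfl
  intro i hi
  rw [Finset.mem_Icc] at hi
  rw [term_val p ℓ h i hp hp2 hℓ hne hp1 hi.1, hv1]

theorem exists_good (p B : ℕ) (hp : p.Prime) (hp2 : p ≠ 2) : ∃ ℓ : ℕ, B < ℓ ∧ ℓ.Prime ∧ ℓ ≠ p ∧
    (∀ k, p ∣ ℓ ^ k - 1 → (p - 1) ∣ k) ∧ ¬ p ^ 2 ∣ ℓ ^ (p - 1) - 1 := by
  have : Fact p.Prime := ⟨hp⟩
  have : NeZero (p ^ 2) := ⟨pow_ne_zero _ hp.ne_zero⟩
  have hcyc := ZMod.isCyclic_units_of_prime_pow p hp hp2 2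
  obtain ⟨r, hr⟩ := hcyc.exists_generator
  have hord : orderOf r = p * (p - 1) := by
    rw [orderOf_eq_card_of_forall_mem_zpowers hr, Nat.card_eq_fintype_card, ZMod.card_units_eq_totient, Nat.totient_prime_pow hp (by norm_num)]
    simp
  obtain ⟨ℓ, hB, hℓ, hℓr⟩ := Nat.forall_exists_prime_gt_and_eq_mod (q := p ^ 2) (a := (r : ZMod (p ^ 2))) r.isUnit (max B p)
  have hp0 : 0 < p - 1 := by have := hp.two_le; omega
  have hpw : ∀ k, p ^ 2 ∣ ℓ ^ k - 1 → p * (p - 1) ∣ k := by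
    intro k hk
    rw [← hord]
    apply orderOf_dvd_of_pow_eq_one
    apply Units.ext
    rw [Units.val_pow_eq_pow_val, ← hℓr, Units.val_one]
    have h3 := (Nat.modEq_iff_dvd' (Nat.one_le_pow _ _ hℓ.pos)).mpr hk
    have h4 := (ZMod.natCast_eq_natCast_iff _ _ _).mpr h3
    push_cast at h4
    exact h4.symm
  refine ⟨ℓ, lt_of_le_of_lt (le_max_left _ _) hB, hℓ, (lt_of_le_of_lt (le_max_right _ _) hB).ne', ?_, ?_⟩
  · intro k hk
    have h5 : p ^ 2 ∣ ℓ ^ (k * p) - 1 := by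
      have h6 : ((p : ℕ) : ℤ) ∣ (ℓ : ℤ) ^ k - 1 := by
        have := Int.natCast_dvd_natCast.mpr hk
        rw [Nat.cast_sub (Nat.one_le_pow _ _ hℓ.pos)] at this
        push_cast at this
        exact this
      have h7 := dvd_sub_pow_of_dvd_sub h6 1
      rw [pow_one, one_pow, ← pow_mul] at h7
      have h8 : (((p ^ 2 : ℕ)) : ℤ) ∣ ((ℓ ^ (k * p) - 1 : ℕ) : ℤ) := by
        rw [Nat.cast_sub (Nat.one_le_pow _ _ hℓ.pos)]
        push_cast
        exact h7
      exact Int.natCast_dvd_natCast.mp h8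
    have h6 := hpw _ h5
    rw [mul_comm p] at h6
    exact Nat.dvd_of_mul_dvd_mul_right hp.pos h6
  · intro hd
    have h6 := Nat.le_of_dvd hp0 (hpw _ hd)
    have := hp.two_le
    nlinarith

theorem val_prod (q : ℕ) (hq : q.Prime) (e : ℕ → ℕ) (S : Finset ℕ) (hS : ∀ p ∈ S, p.Prime) :
    padicValNat q (∏ p ∈ S, p ^ e p) = if q ∈ S then e q else 0 := by
  classical
  have : Fact q.Prime := ⟨hq⟩
  induction S using Finset.induction_on with
  | empty => simp
  | insert a s ha ih =>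
    have hap : a.Prime := hS a (Finset.mem_insert_self _ _)
    have hs : ∀ p ∈ s, p.Prime := fun p hp => hS p (Finset.mem_insert_of_mem hp)
    rw [Finset.prod_insert ha, padicValNat.mul (pow_ne_zero _ hap.ne_zero)
      (Finset.prod_ne_zero_iff.mpr fun p hp => pow_ne_zero _ (hs p hp).ne_zero), ih hs]
    by_cases hqa : q = a
    · subst hqa
      rw [if_neg ha, if_pos (Finset.mem_insert_self _ _), padicValNat.prime_pow, add_zero]
    · have hfa : Fact a.Prime := ⟨hap⟩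
      have h1 : padicValNat q (a ^ e a) = 0 := by
        apply padicValNat.eq_zero_of_not_dvd
        intro hd
        exact hqa ((Nat.prime_dvd_prime_iff_eq hq hap).mp (hq.dvd_of_dvd_pow hd))
      rw [h1, zero_add]
      simp [hqa]

theorem dvd_iff' (m n : ℕ) (hm : m ≠ 0) (hn : n ≠ 0) : m ∣ n ↔ ∀ q : ℕ, q.Prime → padicValNat q m ≤ padicValNat q n := by
  rw [← Nat.factorization_le_iff_dvd hm hn]
  constructor
  · intro h q hq
    have := h q
    rw [Nat.factorization_def _ hq, Nat.factorization_def _ hq] at this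
    exact this
  · intro h q
    by_cases hq : q.Prime
    · rw [Nat.factorization_def _ hq, Nat.factorization_def _ hq]
      exact h q hq
    · rw [Nat.factorization_eq_zero_of_not_prime _ hq]
      exact Nat.zero_le _

/-- For natural numbers g and B with B ≥ 2g + 1, a natural number d divides ∏_{a=1}^{g} (ℓ^{2a} - 1) for
every prime ℓ > B if and only if d divides N(g) = 2^{3g + v₂(g!)} · ∏_{3 ≤ p ≤ 2g+1, p prime}
p^{[2g/(p-1)] + Σ_{1 ≤ i ≤ [2g/(p-1)]} v_p(i)}. In words: N(g) is the greatest common divisor of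
these products as ℓ runs through the primes beyond any bound that is at least 2g + 1; its prime
factors are the primes p ≤ 2g + 1. (This is the number N(g) of the published result, which bounds
the degree of the field of semistable reduction of a g-dimensional abelian variety over a strictly
henselian discretely valued field; the printed phrase is the greatest common divisor over all large
primes, made precise here by the bound 2g + 1, below which a prime ℓ ≤ 2g + 1 divides N(g) but not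
its own product.) -/
theorem result (g B d : ℕ) (hB : 2 * g + 1 ≤ B) :
    (∀ ℓ : ℕ, ℓ.Prime → B < ℓ → d ∣ ∏ a ∈ Icc 1 g, (ℓ ^ (2 * a) - 1)) ↔
      d ∣ 2 ^ (3 * g + padicValNat 2 g.factorial) *
        ∏ p ∈ (Icc 3 (2 * g + 1)).filter Nat.Prime,
          p ^ ((2 * g) / (p - 1) + ∑ i ∈ Icc 1 ((2 * g) / (p - 1)), padicValNat p i) := by
  set e : ℕ → ℕ := fun p => (2 * g) / (p - 1) + ∑ i ∈ Finset.Icc 1 ((2 * g) / (p - 1)), padicValNat p i with he
  set S : Finset ℕ := (Finset.Icc 3 (2 * g + 1)).filter Nat.Prime with hS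
  have hSp : ∀ p ∈ S, p.Prime := fun p hp => (Finset.mem_filter.mp hp).2
  have hP0 : ∏ p ∈ S, p ^ e p ≠ 0 := Finset.prod_ne_zero_iff.mpr fun p hp => pow_ne_zero _ (hSp p hp).ne_zero
  have hN0 : 2 ^ (3 * g + padicValNat 2 g.factorial) * ∏ p ∈ S, p ^ e p ≠ 0 := mul_ne_zero (by positivity) hP0
  have hval : ∀ q : ℕ, q.Prime → padicValNat q (2 ^ (3 * g + padicValNat 2 g.factorial) * ∏ p ∈ S, p ^ e p) =
      if q = 2 then 3 * g + padicValNat 2 g.factorial else e q := by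
    intro q hq
    have : Fact q.Prime := ⟨hq⟩
    rw [padicValNat.mul (by positivity) hP0, val_prod q hq e S hSp]
    by_cases h2 : q = 2
    · subst h2
      have : (2 : ℕ) ∉ S := by
        intro h
        have := (Finset.mem_Icc.mp (Finset.mem_filter.mp h).1).1
        omega
      rw [if_neg this, if_pos rfl, padicValNat.prime_pow, add_zero]
    · have h1 : padicValNat q (2 ^ (3 * g + padicValNat 2 g.factorial)) = 0 := by
        apply padicValNat.eq_zero_of_not_dvd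
        intro hd
        exact h2 ((Nat.prime_dvd_prime_iff_eq hq Nat.prime_two).mp (hq.dvd_of_dvd_pow hd))
      rw [h1, zero_add, if_neg h2]
      split_ifs with hqS
      · rfl
      · have hq2 := hq.two_le
        have hgt : 2 * g + 1 < q := by
          by_contra hle
          exact hqS (Finset.mem_filter.mpr ⟨Finset.mem_Icc.mpr ⟨by omega, by omega⟩, hq⟩)
        have h0 : (2 * g) / (q - 1) = 0 := Nat.div_eq_of_lt (by omega)
        rw [he]
        simp [h0]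
  constructor
  · intro h
    have hd0 : d ≠ 0 := by
      obtain ⟨ℓ, hℓB, hℓ⟩ := Nat.exists_infinite_primes (B + 1)
      intro h0
      have := h ℓ hℓ (by omega)
      rw [h0, zero_dvd_iff] at this
      exact prod_ne g ℓ hℓ.one_lt this
    rw [dvd_iff' d _ hd0 hN0]
    intro q hq
    rw [hval q hq]
    split_ifs with h2
    · subst h2
      have hu : IsUnit ((3 : ℕ) : ZMod 8) := (ZMod.isUnit_iff_coprime 3 8).mpr (by norm_num)
      obtain ⟨ℓ, hB', hℓ, hℓr⟩ := Nat.forall_exists_prime_gt_and_eq_mod hu B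
      have h3 : ℓ % 8 = 3 := by
        have := (ZMod.natCast_eq_natCast_iff' _ _ _).mp hℓr
        simpa using this
      rw [← exact_two g ℓ (ℓ / 8) (by omega)]
      exact (dvd_iff' d _ hd0 (prod_ne g ℓ hℓ.one_lt)).mp (h ℓ hℓ hB') 2 hq
    · obtain ⟨ℓ, hB', hℓ, hne, h3, h4⟩ := exists_good q B hq h2
      have := exact_odd q g ℓ hq h2 hℓ hne h3 h4
      rw [he]
      simp only
      rw [← this]
      exact (dvd_iff' d _ hd0 (prod_ne g ℓ hℓ.one_lt)).mp (h ℓ hℓ hB') q hq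
  · intro h ℓ hℓ hBℓ
    refine h.trans ((dvd_iff' _ _ hN0 (prod_ne g ℓ hℓ.one_lt)).mpr fun q hq => ?_)
    rw [hval q hq]
    have : Fact q.Prime := ⟨hq⟩
    split_ifs with h2
    · subst h2
      by_cases hg : g = 0
      · subst hg; simp
      · exact lower_two g ℓ hℓ.one_lt (fun hd => by
          have := (Nat.prime_dvd_prime_iff_eq Nat.prime_two hℓ).mp hd
          omega)
    · by_cases hqℓ : ℓ = q
      · subst hqℓ
        have h0 : (2 * g) / (ℓ - 1) = 0 := Nat.div_eq_of_lt (by omega)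
        rw [he]
        simp [h0]
      · exact lower_odd q g ℓ hq h2 hℓ hqℓ

end Groth.Agent.S17445
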