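import Mathlib
import Groth.Statements.S17468
import Mathlib

set_option autoImplicit false
universe u v w
open LieRep

namespace Groth.Agent.S17468

theorem sum_sq {k : Type*} [Field k] [CharZero k] (m : ℕ) (c : k) :
    ∑ i ∈ Finset.range m, (c - 2 * (i : k)) ^ 2 = m * c ^ 2 - 2 * c * (m * (m - 1)) + 4 * ((m - 1) * m * (2 * m - 1)) / 6 := by
  induction m with
  | zero => simp
  | succ m ih =>
    rw [Finset.sum_range_succ, ih]
    push_cast
    field_simp
    ring

theorem choose_three (n : ℕ) : (6 : ℕ) * (n + 2).choose 3 = (n + 2) * (n + 1) * n := by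
  have h := Nat.descFactorial_eq_factorial_mul_choose (n + 2) 3
  have h2 : (n + 2).descFactorial 3 = n * ((n + 1) * (n + 2)) := by
    simp [Nat.descFactorial_succ]
  have h3 : Nat.factorial 3 = 6 := rfl
  rw [h2, h3] at h
  rw [← h]; ring

open LieModule in
theorem irr_case (k : Type*) [Field k] [IsAlgClosed k] [CharZero k]
    (L : Type*) [LieRing L] [LieAlgebra k L]
    (h e f : L) (t : IsSl2Triple h e f) (hspan : t.toLieSubalgebra k = ⊤)
    (M : Type*) [AddCommGroup M] [Module k M] [LieRingModule L M] [LieModule k L M]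
    [FiniteDimensional k M] (hirr : LieModule.IsIrreducible k L M) :
    LinearMap.trace k M ((LieModule.toEnd k L M h) ^ 2) =
      2 * (((Module.finrank k M + 1).choose 3 : ℕ) : k) := by
  classical
  haveI : Nontrivial M := by
    by_contra hn
    rw [not_nontrivial_iff_subsingleton] at hn
    have h1 : (⊥ : LieSubmodule k L M) ≠ ⊤ := bot_ne_top
    apply h1
    ext x
    simp [Subsingleton.elim x 0]
  obtain ⟨μ, m, hm, P⟩ := IsSl2Triple.exists_hasPrimitiveVectorWith (R := k) (L := L) (M := M) t
  obtain ⟨n, hn⟩ := P.exists_nat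
  let v : Fin (n + 1) → M := fun i => ((toEnd k L M f) ^ (i : ℕ)) m
  have hh : ∀ i, ⁅h, v i⁆ = ((n : k) - 2 * ((i : ℕ) : k)) • v i := by
    intro i
    have := P.lie_h_pow_toEnd_f (i : ℕ)
    rw [hn] at this
    exact this
  have hli : LinearIndependent k v := by
    refine Module.End.eigenvectors_linearIndependent' (toEnd k L M h) (fun i : Fin (n + 1) => (n : k) - 2 * ((i : ℕ) : k)) ?_ v ?_
    · intro i j hij
      simp only [sub_right_inj] at hij
      have h2 : (2 : k) ≠ 0 := two_ne_zero
      have := mul_left_cancel₀ h2 hij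
      exact Fin.ext (by exact_mod_cast this)
    · intro i
      refine ⟨?_, P.pow_toEnd_f_ne_zero_of_eq_nat hn (by omega)⟩
      rw [Module.End.mem_eigenspace_iff, toEnd_apply_apply]
      exact hh i
  have hf0 : ((toEnd k L M f) ^ (n + 1)) m = 0 := P.pow_toEnd_f_eq_zero_of_eq_nat hn
  have hmem : ∀ j : ℕ, ((toEnd k L M f) ^ j) m ∈ Submodule.span k (Set.range v) := by
    intro j
    by_cases hj : j < n + 1
    · exact Submodule.subset_span ⟨⟨j, hj⟩, rfl⟩
    · have : j = (j - (n + 1)) + (n + 1) := by omega
      rw [this, pow_add, Module.End.mul_apply, hf0, map_zero]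
      exact zero_mem _
  have hstable : ∀ x : L, ∀ y ∈ Submodule.span k (Set.range v), ⁅x, y⁆ ∈ Submodule.span k (Set.range v) := by
    intro x y hy
    have hx : x ∈ t.toLieSubalgebra k := by rw [hspan]; trivial
    rw [IsSl2Triple.mem_toLieSubalgebra_iff] at hx
    obtain ⟨c₁, c₂, c₃, rfl⟩ := hx
    rw [t.lie_e_f]
    induction hy using Submodule.span_induction with
    | mem y hy =>
      obtain ⟨i, rfl⟩ := hy
      rw [add_lie, add_lie, smul_lie, smul_lie, smul_lie, hh]
      refine add_mem (add_mem (Submodule.smul_mem _ _ ?_) (Submodule.smul_mem _ _ ?_)) (Submodule.smul_mem _ _ (Submodule.smul_mem _ _ (Submodule.subset_span ⟨i, rfl⟩)))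
      · change ⁅e, ((toEnd k L M f) ^ (i : ℕ)) m⁆ ∈ _
        rcases Nat.eq_zero_or_pos (i : ℕ) with h0 | h0
        · rw [h0, pow_zero, Module.End.one_apply, P.lie_e]; exact zero_mem _
        · obtain ⟨j, hj⟩ : ∃ j, (i : ℕ) = j + 1 := ⟨(i : ℕ) - 1, by omega⟩
          rw [hj, P.lie_e_pow_succ_toEnd_f]
          exact Submodule.smul_mem _ _ (hmem j)
      · have : ⁅f, v i⁆ = ((toEnd k L M f) ^ ((i : ℕ) + 1)) m := P.lie_f_pow_toEnd_f (i : ℕ)
        rw [this]
        exact hmem _
    | zero => rw [lie_zero]; exact zero_mem _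
    | add a b _ _ ha hb => rw [lie_add]; exact add_mem ha hb
    | smul c a _ ha => rw [lie_smul]; exact Submodule.smul_mem _ _ ha
  let N : LieSubmodule k L M := { Submodule.span k (Set.range v) with lie_mem := fun {x y} hy => hstable x y hy }
  have hN : N = ⊤ := by
    rcases eq_bot_or_eq_top N with hN | hN
    · exfalso
      have : m ∈ N := hmem 0
      rw [hN] at this
      exact hm (by simpa using this)
    · exact hN
  have hsp : ⊤ ≤ Submodule.span k (Set.range v) := by
    intro y _
    have : y ∈ N := by rw [hN]; trivial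
    exact this
  let b : Module.Basis (Fin (n + 1)) k M := Module.Basis.mk hli hsp
  have hfr : Module.finrank k M = n + 1 := by rw [Module.finrank_eq_card_basis b, Fintype.card_fin]
  rw [LinearMap.trace_eq_matrix_trace k b, Matrix.trace]
  have hdiag : ∀ i, Matrix.diag (LinearMap.toMatrix b b ((toEnd k L M h) ^ 2)) i = ((n : k) - 2 * ((i : ℕ) : k)) ^ 2 := by
    intro i
    rw [Matrix.diag_apply, LinearMap.toMatrix_apply]
    have h1 : ((toEnd k L M h) ^ 2) (b i) = ((n : k) - 2 * ((i : ℕ) : k)) ^ 2 • b i := by
      have hb : b i = v i := Module.Basis.mk_apply hli hsp i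
      rw [hb, pow_two, Module.End.mul_apply, toEnd_apply_apply, toEnd_apply_apply, hh, lie_smul, hh, smul_smul, pow_two]
    rw [h1, map_smul, Module.Basis.repr_self]
    simp
  rw [Finset.sum_congr rfl (fun i _ => hdiag i), Fin.sum_univ_eq_sum_range (fun i => ((n : k) - 2 * (i : k)) ^ 2) (n + 1), sum_sq, hfr]
  have h6 := congrArg (fun q : ℕ => (q : k)) (choose_three n)
  push_cast at h6 ⊢
  linear_combination (-1 / 3 : k) * h6

/-- Let k be an algebraically closed field of characteristic zero, L a Lie algebra over k spanned by an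
sl_2-triple (h, e, f), and V a finite-dimensional L-module written as an internal direct sum of
finitely many irreducible Lie submodules V_i. Then the trace on V of the square of the action of h
is 2 Σ_i C(dim V_i + 1, 3). (The published statement concerns a finite-dimensional representation V
of a simple Lie algebra restricted to the copy of sl_2 attached to the highest root θ, with h the
coroot θ^∨; there Σ_i C(dim V_i + 1, 3) is the index of V, and the trace is the sum over the weights
λ of V, with multiplicity, of ⟨λ, θ^∨⟩².) -/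
theorem result
    (k : Type u) [Field k] [IsAlgClosed k] [CharZero k]
    (L : Type v) [LieRing L] [LieAlgebra k L]
    (h e f : L) (t : IsSl2Triple h e f) (hspan : t.toLieSubalgebra k = ⊤)
    (V : Type w) [AddCommGroup V] [Module k V] [LieRingModule L V] [LieModule k L V]
    [FiniteDimensional k V]
    (ι : Type) [Fintype ι] [DecidableEq ι] (W : ι → LieSubmodule k L V)
    (hW : DirectSum.IsInternal fun i => (W i).toSubmodule)
    (hirr : ∀ i, LieModule.IsIrreducible k L (W i)) :
    LinearMap.trace k V ((LieModule.toEnd k L V h) ^ 2) =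
      2 * ∑ i, (((Module.finrank k (W i) + 1).choose 3 : ℕ) : k) := by
  have hf : ∀ i, Set.MapsTo ⇑((LieModule.toEnd k L V h ^ 2 : Module.End k V)) ((W i).toSubmodule : Set V) ((W i).toSubmodule : Set V) := by
    intro i x hx
    have : (LieModule.toEnd k L V h ^ 2 : Module.End k V) x = ⁅h, ⁅h, x⁆⁆ := by
      rw [pow_two]; rfl
    rw [this]
    exact (W i).lie_mem ((W i).lie_mem hx)
  rw [LinearMap.trace_eq_sum_trace_restrict hW hf, Finset.mul_sum]
  apply Finset.sum_congr rfl
  intro i _
  rw [← irr_case k L h e f t hspan (W i) (hirr i)]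
  congr 1

end Groth.Agent.S17468
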