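import Mathlib
import Groth.Statements.S17471
import Mathlib

set_option autoImplicit false
universe u v w x
open RootCh

namespace Groth.Agent.S17471


/-- Let Φ be a finite, reduced, crystallographic, irreducible root system with a base, and θ a positive
root such that θ + β is a root for no positive root β (so θ is the highest root). Then Σ_{β>0} ⟨β,
θ^∨⟩² = 2 + Σ_{β>0} ⟨β, θ^∨⟩. The right side is 2(1 + ⟨ρ, θ^∨⟩) for ρ half the sum of the positive
roots, a rewriting not restated here; in the source the left side is the index of the adjoint
representation obtained from its formal character, and 1 + ⟨ρ, θ^∨⟩ is the dual Coxeter number. -/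
theorem result
    {ι : Type u} {R : Type v} {M : Type w} {N : Type x}
    [Field R] [LinearOrder R] [IsStrictOrderedRing R]
    [AddCommGroup M] [Module R M] [AddCommGroup N] [Module R N] [Fintype ι]
    (P : RootPairing ι R M N) [P.IsRootSystem] [P.IsCrystallographic] [P.IsReduced]
    [P.IsIrreducible] (b : P.Base) (θ : ι) (hθ : b.IsPos θ)
    (hmax : ∀ i : ι, b.IsPos i → P.root θ + P.root i ∉ Set.range P.root) :
    ∑ i ∈ Finset.univ.filter (fun i => 0 < b.height i), P.pairing i θ ^ 2 =
      2 + ∑ i ∈ Finset.univ.filter (fun i => 0 < b.height i), P.pairing i θ := by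
  classical
  let _ := P.indexNeg
  have hneg : ∀ k : ι, P.root (-k) = - P.root k := by intro k; simp
  have hval : ∀ i : ι, b.IsPos i → i ≠ θ → P.pairingIn ℤ i θ = 0 ∨ P.pairingIn ℤ i θ = 1 := by
    intro i hi hne
    by_contra hcon
    push Not at hcon
    obtain ⟨h0, h1⟩ := hcon
    have hθ0 : P.root θ ≠ 0 := P.ne_zero θ
    rcases lt_or_gt_of_ne h0 with hlt | hgt
    · -- negative
      have : P.root i ≠ - P.root θ := by
        intro h
        have h2 : P.root i = P.root (-θ) := by rw [hneg]; exact h
        have h3 : i = -θ := P.root.injective h2
        have h4 := RootPairing.Base.height_reflectionPerm_self b θ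
        rw [← h3] at h4
        have h5 : 0 < b.height i := hi
        have h6 : 0 < b.height θ := hθ
        omega
      have h := P.root_add_root_mem_of_pairingIn_neg hlt this
      exact hmax i hi (by rw [add_comm]; exact h)
    · have h2 : 2 ≤ P.pairingIn ℤ i θ := by omega
      -- i - θ is a root
      have hsub := P.root_sub_root_mem_of_pairingIn_pos hgt hne
      obtain ⟨k, hk⟩ := hsub
      rcases RootPairing.Base.IsPos.or_neg b k with hkp | hkn
      · apply hmax k hkp
        exact ⟨i, by rw [hk]; abel⟩
      · have hkn' : P.root (-k) = P.root θ - P.root i := by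
          rw [hneg, hk]; abel
        apply hmax (-k) hkn
        rcases eq_or_lt_of_le h2 with h2 | h2
        · -- pairing = 2: reflection
          refine ⟨-(P.reflectionPerm θ i), ?_⟩
          rw [hneg, RootPairing.root_reflectionPerm, RootPairing.reflection_apply_root, hkn']
          have : P.pairing i θ = 2 := by
            rw [← P.algebraMap_pairingIn ℤ, ← h2]; simp
          rw [this, two_smul]; abel
        · have hpk : P.pairingIn ℤ (-k) θ < 0 := by
            have e : P.pairing (-k) θ = 2 - P.pairing i θ := by
              rw [← P.root_coroot_eq_pairing, hkn', map_sub, LinearMap.sub_apply, P.root_coroot_eq_pairing, P.root_coroot_eq_pairing, P.pairing_same]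
            have e' : P.pairingIn ℤ (-k) θ = 2 - P.pairingIn ℤ i θ := by
              have hinj : Function.Injective (algebraMap ℤ R) := by
                intro x y hxy; simpa using hxy
              apply hinj
              rw [map_sub, P.algebraMap_pairingIn, P.algebraMap_pairingIn, e]; simp
            omega
          have hne2 : P.root (-k) ≠ - P.root θ := by
            intro h
            rw [hkn'] at h
            have h3 : P.root θ + P.root θ = P.root i := by
              have h4 : P.root i = P.root θ - (P.root θ - P.root i) := by abel
              rw [h4, h]; abel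
            exact hmax θ hθ ⟨i, h3.symm⟩
          have h := P.root_add_root_mem_of_pairingIn_neg hpk hne2
          rw [add_comm]; exact h
  have hmem : θ ∈ Finset.univ.filter (fun i => 0 < b.height i) := by
    simp only [Finset.mem_filter, Finset.mem_univ, true_and]; exact hθ
  rw [← Finset.add_sum_erase _ _ hmem, ← Finset.add_sum_erase _ (fun i => P.pairing i θ) hmem]
  have hs : ∑ i ∈ (Finset.univ.filter (fun i => 0 < b.height i)).erase θ, P.pairing i θ ^ 2 =
      ∑ i ∈ (Finset.univ.filter (fun i => 0 < b.height i)).erase θ, P.pairing i θ := by
    apply Finset.sum_congr rfl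
    intro i hi
    rw [Finset.mem_erase, Finset.mem_filter] at hi
    rcases hval i hi.2.2 hi.1 with h | h
    · rw [← P.algebraMap_pairingIn ℤ, h]; simp
    · rw [← P.algebraMap_pairingIn ℤ, h]; simp
  rw [hs, P.pairing_same]
  ring

end Groth.Agent.S17471
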