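import Mathlib
import Groth.Statements.S17679
import Mathlib

set_option autoImplicit false
open DiagMon

namespace Groth.Agent.S17679

theorem upper (n : ℕ) (hn : 1 ≤ n) : ∃ s : Finset (Fin n → ℤ), s.card = n + 1 ∧ AddSubmonoid.closure (s : Set (Fin n → ℤ)) = ⊤ := by
  classical
  let e : Fin n → (Fin n → ℤ) := fun i => Pi.single i 1
  have he : Function.Injective e := by
    intro i j hij
    by_contra hne
    have := congrFun hij i
    simp [e, Pi.single_apply, hne] at this
  have hnot : (-1 : Fin n → ℤ) ∉ Finset.univ.image e := by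
    intro h
    rw [Finset.mem_image] at h
    obtain ⟨i, -, hi⟩ := h
    have := congrFun hi i
    simp [e] at this
  refine ⟨insert (-1) (Finset.univ.image e), ?_, ?_⟩
  · rw [Finset.card_insert_of_notMem hnot, Finset.card_image_of_injective _ he, Finset.card_univ, Fintype.card_fin]
  · rw [eq_top_iff]
    intro x _
    obtain ⟨N, hN⟩ : ∃ N : ℕ, ∀ i, 0 ≤ x i + N := by
      refine ⟨∑ i, (x i).natAbs, fun i => ?_⟩
      have h1 : (x i).natAbs ≤ ∑ i, (x i).natAbs := Finset.single_le_sum (f := fun i => (x i).natAbs) (fun _ _ => Nat.zero_le _) (Finset.mem_univ i)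
      omega
    have hx : x = (∑ i, (x i + N).toNat • e i) + N • (-1 : Fin n → ℤ) := by
      ext j
      rw [Pi.add_apply, Finset.sum_apply]
      simp [e, Pi.single_apply]
      have := hN j
      omega
    rw [hx]
    refine add_mem (sum_mem fun i _ => ?_) ?_
    · apply AddSubmonoid.nsmul_mem
      apply AddSubmonoid.subset_closure
      simp
    · apply AddSubmonoid.nsmul_mem
      apply AddSubmonoid.subset_closure
      simp

/-- For n ≥ 1 the minimal number of generators of ℤ^n as an additive monoid is n + 1: some n + 1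
elements generate ℤ^n as a monoid, and every finite set generating ℤ^n as a monoid has at least n +
1 elements. (For n = 0 the empty set generates the zero monoid, so the count n + 1 is stated for n ≥
1 only.) -/
theorem result (n : ℕ) (hn : 1 ≤ n) :
    (∃ s : Finset (Fin n → ℤ), s.card = n + 1 ∧ AddSubmonoid.closure (s : Set (Fin n → ℤ)) = ⊤) ∧
    ∀ s : Finset (Fin n → ℤ), AddSubmonoid.closure (s : Set (Fin n → ℤ)) = ⊤ → n + 1 ≤ s.card := by
  classical
  refine ⟨upper n hn, fun s hs => ?_⟩
  by_contra hcard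
  have hcard : s.card ≤ n := by omega
  -- linear independence over ℤ
  have hspan : Submodule.span ℤ (s : Set (Fin n → ℤ)) = ⊤ := by
    rw [eq_top_iff]
    intro x _
    have hx : x ∈ AddSubmonoid.closure (s : Set (Fin n → ℤ)) := by rw [hs]; trivial
    have hle : AddSubmonoid.closure (s : Set (Fin n → ℤ)) ≤ (Submodule.span ℤ (s : Set (Fin n → ℤ))).toAddSubmonoid :=
      AddSubmonoid.closure_le.mpr Submodule.subset_span
    exact hle hx
  have hli : LinearIndependent ℤ (fun x : s => (x : Fin n → ℤ)) := by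
    refine linearIndependent_of_top_le_span_of_card_le_finrank ?_ ?_
    · rw [Subtype.range_coe_subtype]
      exact hspan.ge
    · rw [Fintype.card_coe, Module.finrank_fin_fun]
      exact hcard
  have hmem : ∀ x ∈ AddSubmonoid.closure (s : Set (Fin n → ℤ)), ∃ c : s → ℕ, x = ∑ i, c i • (i : Fin n → ℤ) := by
    intro x hx
    induction hx using AddSubmonoid.closure_induction with
    | mem x hx =>
      refine ⟨Pi.single ⟨x, hx⟩ 1, ?_⟩
      simp [Pi.single_apply]
    | zero => exact ⟨0, by simp⟩
    | add x y _ _ hx hy =>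
      obtain ⟨c, rfl⟩ := hx
      obtain ⟨d, rfl⟩ := hy
      exact ⟨c + d, by simp [add_smul, Finset.sum_add_distrib]⟩
  obtain ⟨c, hc⟩ := hmem (-(∑ i : s, (i : Fin n → ℤ))) (by rw [hs]; trivial)
  have h0 : ∑ i : s, ((c i : ℤ) + 1) • (i : Fin n → ℤ) = 0 := by
    have h1 : ∑ i : s, ((c i : ℤ) + 1) • (i : Fin n → ℤ) = (∑ i : s, c i • (i : Fin n → ℤ)) + ∑ i : s, (i : Fin n → ℤ) := by
      rw [← Finset.sum_add_distrib]
      apply Finset.sum_congr rfl
      intro i _
      rw [add_smul, one_smul, natCast_zsmul]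
    rw [h1, ← hc]; simp
  have h2 := Fintype.linearIndependent_iff.mp hli _ h0
  rcases s.eq_empty_or_nonempty with hse | ⟨y, hy⟩
  · rw [hse] at hspan
    simp at hspan
    have hnt : Nontrivial (Fin n → ℤ) := by
      have : Nonempty (Fin n) := ⟨⟨0, hn⟩⟩
      infer_instance
    exact bot_ne_top (α := Submodule ℤ (Fin n → ℤ)) hspan
  · have := h2 ⟨y, hy⟩
    have h3 : (0 : ℤ) ≤ c ⟨y, hy⟩ := Int.natCast_nonneg _
    omega

end Groth.Agent.S17679
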