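import Mathlib
import Groth.Statements.S17682
import Mathlib

set_option autoImplicit false
universe u v w u'
open DiagMon

namespace Groth.Agent.S17682


/-- Let R be a commutative ring, A a commutative R-algebra graded by a commutative monoid M, N a
submonoid of M and R' a commutative R-algebra. For every R-algebra homomorphism F : A → R' vanishing
on the homogeneous elements of degree outside N there is a unique R-algebra homomorphism f : A →
R'[M] which is graded (a homogeneous element of degree m goes to a multiple of X^m), vanishes on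
homogeneous elements of degree outside N, and composes with the augmentation X^m ↦ 1 to F. In the
dictionary where an M-grading of A is an action of the diagonalizable monoid scheme Spec R[M] on
Spec A and graded maps A → R'[M] supported on N are equivariant maps from the monoid scheme of N
over R', this says that the attractor of Spec A for the magnet N is represented by the closed
subscheme of Spec A defined by the homogeneous elements of degree outside N. -/
theorem result (R : Type u) [CommRing R]
    (A : Type v) [CommRing A] [Algebra R A] (M : Type w) [AddCommMonoid M] [DecidableEq M]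
    (𝒜 : M → Submodule R A) [GradedAlgebra 𝒜] (N : AddSubmonoid M) (R' : Type u') [CommRing R']
    [Algebra R R'] (F : A →ₐ[R] R') (hF : ∀ m, m ∉ N → ∀ a ∈ 𝒜 m, F a = 0) :
    ∃! f : A →ₐ[R] AddMonoidAlgebra R' M,
      (∀ m, ∀ a ∈ 𝒜 m, f a =
          AddMonoidAlgebra.single m (Bialgebra.counitAlgHom R' (AddMonoidAlgebra R' M) (f a))) ∧
      (∀ m, m ∉ N → ∀ a ∈ 𝒜 m, f a = 0) ∧
      ∀ a, Bialgebra.counitAlgHom R' (AddMonoidAlgebra R' M) (f a) = F a := by
  classical
  let fm : ∀ m : M, 𝒜 m →ₗ[R] AddMonoidAlgebra R' M := fun m =>
    { toFun := fun a => AddMonoidAlgebra.single m (F (a : A))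
      map_add' := fun a b => by
        rw [Submodule.coe_add, map_add, AddMonoidAlgebra.single_add]
      map_smul' := fun c a => by
        rw [Submodule.coe_smul, map_smul, RingHom.id_apply, AddMonoidAlgebra.smul_single] }
  let f₀ : (DirectSum M fun m => 𝒜 m) →ₐ[R] AddMonoidAlgebra R' M :=
    DirectSum.toAlgebra R (fun m => 𝒜 m) fm (by
      change AddMonoidAlgebra.single 0 (F ((1 : A))) = 1
      rw [map_one]; rfl) (by
      intro i j a b
      change AddMonoidAlgebra.single (i + j) (F ((a : A) * (b : A))) = AddMonoidAlgebra.single i (F (a : A)) * AddMonoidAlgebra.single j (F (b : A))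
      rw [AddMonoidAlgebra.single_mul_single, map_mul])
  let f : A →ₐ[R] AddMonoidAlgebra R' M := f₀.comp (DirectSum.decomposeAlgEquiv 𝒜).toAlgHom
  have hf : ∀ m, ∀ a ∈ 𝒜 m, f a = AddMonoidAlgebra.single m (F a) := by
    intro m a ha
    change f₀ (DirectSum.decompose 𝒜 a) = _
    rw [DirectSum.decompose_of_mem 𝒜 ha]
    exact DirectSum.toAddMonoid_of (fun i => (fm i).toAddMonoidHom) m ⟨a, ha⟩
  have hcounit : ∀ (m : M) (r : R'), Bialgebra.counitAlgHom R' (AddMonoidAlgebra R' M) (AddMonoidAlgebra.single m r) = r := by
    intro m r
    simp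
  have hext : ∀ g : A →ₐ[R] AddMonoidAlgebra R' M, (∀ m, ∀ a ∈ 𝒜 m, g a = AddMonoidAlgebra.single m (F a)) → g = f := by
    intro g hg
    apply AlgHom.ext
    intro a
    induction a using DirectSum.Decomposition.inductionOn 𝒜 with
    | zero => rw [map_zero, map_zero]
    | homogeneous a => rw [hg _ _ a.2, hf _ _ a.2]
    | add a b ha hb => rw [map_add, map_add, ha, hb]
  refine ⟨f, ⟨?_, ?_, ?_⟩, ?_⟩
  · intro m a ha
    rw [hf m a ha, hcounit]
  · intro m hm a ha
    rw [hf m a ha, hF m hm a ha, AddMonoidAlgebra.single_zero]
  · intro a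
    induction a using DirectSum.Decomposition.inductionOn 𝒜 with
    | zero => rw [map_zero, map_zero, map_zero]
    | homogeneous a => rw [hf _ _ a.2, hcounit]
    | add a b ha hb => rw [map_add, map_add, ha, hb, map_add]
  · rintro g ⟨h1, h2, h3⟩
    apply hext
    intro m a ha
    rw [h1 m a ha, h3]

end Groth.Agent.S17682
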