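import Mathlib
import Groth.Statements.S17683
import Mathlib

set_option autoImplicit false
universe u
open DiagMon

namespace Groth.Agent.S17683


/-- Let N be a commutative monoid and F a submonoid of N. The additive projection ℤ[N] → ℤ[F] of monoid
algebras keeping the monomials with exponent in F and killing the others is multiplicative, i.e. F
is a face of N, if and only if for all x, y in N the sum x + y lies in F exactly when both x and y
do. -/
theorem result {N : Type u} [AddCommMonoid N] (F : AddSubmonoid N) :
    (∀ a b : AddMonoidAlgebra ℤ N,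
        AddMonoidAlgebra.comapDomain ((↑) : F → N) Subtype.val_injective (a * b) =
          AddMonoidAlgebra.comapDomain ((↑) : F → N) Subtype.val_injective a *
            AddMonoidAlgebra.comapDomain ((↑) : F → N) Subtype.val_injective b) ↔
      ∀ x y : N, x + y ∈ F ↔ (x ∈ F ∧ y ∈ F) := by
  classical
  have hsingle : ∀ (z : N) (c : ℤ), AddMonoidAlgebra.comapDomain ((↑) : F → N) Subtype.val_injective (AddMonoidAlgebra.single z c) =
      if h : z ∈ F then AddMonoidAlgebra.single (⟨z, h⟩ : F) c else 0 := by
    intro z c
    split_ifs with h
    · exact AddMonoidAlgebra.comapDomain_single_map ((↑) : F → N) Subtype.val_injective ⟨z, h⟩ c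
    · have hz : z ∉ Set.range ((↑) : F → N) := fun ⟨w, hw⟩ => h (hw ▸ w.2)
      ext w
      have h1 : z ≠ (w : N) := fun hzw => h (hzw ▸ w.2)
      simp [h1, hz]
  constructor
  · intro h x y
    constructor
    · intro hxy
      have h1 := h (AddMonoidAlgebra.single x 1) (AddMonoidAlgebra.single y 1)
      rw [AddMonoidAlgebra.single_mul_single, mul_one, hsingle, hsingle, hsingle, dif_pos hxy] at h1
      have hne : (AddMonoidAlgebra.single (⟨x + y, hxy⟩ : F) (1 : ℤ)) ≠ 0 := by simp
      by_contra hcon
      rw [not_and_or] at hcon
      rcases hcon with hx | hy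
      · rw [dif_neg hx, zero_mul] at h1; exact hne h1
      · rw [dif_neg hy, mul_zero] at h1; exact hne h1
    · intro hxy
      exact add_mem hxy.1 hxy.2
  · intro h a b
    have hadd : ∀ a b : AddMonoidAlgebra ℤ N, AddMonoidAlgebra.comapDomain ((↑) : F → N) Subtype.val_injective (a + b) =
        AddMonoidAlgebra.comapDomain ((↑) : F → N) Subtype.val_injective a + AddMonoidAlgebra.comapDomain ((↑) : F → N) Subtype.val_injective b := by
      intro a b
      exact AddMonoidAlgebra.comapDomain_add _ _ _ _
    have hzero : AddMonoidAlgebra.comapDomain ((↑) : F → N) Subtype.val_injective (0 : AddMonoidAlgebra ℤ N) = 0 := AddMonoidAlgebra.comapDomain_zero _ _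
    induction a using AddMonoidAlgebra.induction_linear with
    | zero => rw [zero_mul, hzero, zero_mul]
    | add a a' ha ha' => rw [add_mul, hadd, hadd, ha, ha', add_mul]
    | single x c =>
      induction b using AddMonoidAlgebra.induction_linear with
      | zero => rw [mul_zero, hzero, mul_zero]
      | add b b' hb hb' => rw [mul_add, hadd, hadd, hb, hb', mul_add]
      | single y d =>
        rw [AddMonoidAlgebra.single_mul_single, hsingle, hsingle, hsingle]
        by_cases hxy : x + y ∈ F
        · obtain ⟨hx, hy⟩ := (h x y).mp hxy
          rw [dif_pos hxy, dif_pos hx, dif_pos hy, AddMonoidAlgebra.single_mul_single]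
          rfl
        · rw [dif_neg hxy]
          by_cases hx : x ∈ F
          · have hy : y ∉ F := fun hy => hxy (add_mem hx hy)
            rw [dif_neg hy, mul_zero]
          · rw [dif_neg hx, zero_mul]

end Groth.Agent.S17683
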