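import Mathlib
import Groth.Statements.S17684
import Mathlib

set_option autoImplicit false
universe u
open DiagMon

namespace Groth.Agent.S17684


/-- Let N ⊆ L ⊆ L' be submonoids of a commutative monoid M and suppose L is a face of L', that is, for
x, y in L' the sum x + y lies in L exactly when x and y do. Then the set difference of L' by the
difference of L and N is the underlying set of a submonoid N' of M containing N, and N is a face of
N'. (The published statement also identifies the monoid scheme of N' over any base with a push-out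
of schemes; that clause is not stated here.) -/
theorem result (M : Type u) [AddCommMonoid M] (N L L' : AddSubmonoid M)
    (hNL : N ≤ L) (hLL' : L ≤ L') (hface : ∀ x ∈ L', ∀ y ∈ L', x + y ∈ L ↔ (x ∈ L ∧ y ∈ L)) :
    ∃ N' : AddSubmonoid M, (N' : Set M) = (L' : Set M) \ ((L : Set M) \ (N : Set M)) ∧ N ≤ N' ∧
      ∀ x ∈ N', ∀ y ∈ N', x + y ∈ N ↔ (x ∈ N ∧ y ∈ N) := by
  refine ⟨{ carrier := (L' : Set M) \ ((L : Set M) \ (N : Set M)), zero_mem' := ?_, add_mem' := ?_ }, rfl, ?_, ?_⟩
  · rintro x y ⟨hx, hx'⟩ ⟨hy, hy'⟩
    refine ⟨add_mem hx hy, fun h => h.2 ?_⟩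
    have h1 := (hface x hx y hy).mp h.1
    have hxN : x ∈ N := by
      by_contra hn
      exact hx' ⟨h1.1, hn⟩
    have hyN : y ∈ N := by
      by_contra hn
      exact hy' ⟨h1.2, hn⟩
    exact add_mem hxN hyN
  · exact ⟨zero_mem _, fun h => h.2 (zero_mem _)⟩
  · intro x hx
    exact ⟨hLL' (hNL hx), fun h => h.2 hx⟩
  · intro x hx y hy
    constructor
    · intro h
      have h1 := (hface x hx.1 y hy.1).mp (hNL h)
      constructor
      · by_contra hn
        exact hx.2 ⟨h1.1, hn⟩
      · by_contra hn
        exact hy.2 ⟨h1.2, hn⟩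
    · intro h
      exact add_mem h.1 h.2

end Groth.Agent.S17684
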