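import Mathlib
import Groth.Statements.S17686
import Mathlib

set_option autoImplicit false
universe u v w
open DiagMon

namespace Groth.Agent.S17686


/-- Let R be a commutative ring, A a commutative R-algebra graded by a commutative monoid M, and J the
map sending a submonoid N of M to the ideal of A generated by the homogeneous elements of degree not
in N (the ideal of the attractor of Spec A for the magnet N). Say N is a pure magnet when J N = J L
implies N ⊆ L. Then for every submonoid N₀ the intersection E of all submonoids N with J N = J N₀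
satisfies J E = J N₀ and is a pure magnet, and E = N₀ when N₀ is itself pure: pure magnets
correspond bijectively to attractors. -/
theorem result (R : Type u) [CommRing R] (A : Type v) [CommRing A]
    [Algebra R A] (M : Type w) [AddCommMonoid M] [DecidableEq M] (𝒜 : M → Submodule R A) [GradedAlgebra 𝒜]
    (J : AddSubmonoid M → Ideal A) (hJ : ∀ N, J N = Ideal.span {a : A | ∃ m : M, m ∉ N ∧ a ∈ 𝒜 m}) (N₀ : AddSubmonoid M) :
    J (sInf {N | J N = J N₀}) = J N₀ ∧
      (∀ L, J (sInf {N | J N = J N₀}) = J L → sInf {N | J N = J N₀} ≤ L) ∧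
      ((∀ L, J N₀ = J L → N₀ ≤ L) → sInf {N | J N = J N₀} = N₀) := by
  have hE : sInf {N | J N = J N₀} ≤ N₀ := sInf_le rfl
  have h1 : J (sInf {N | J N = J N₀}) = J N₀ := by
    apply le_antisymm
    · rw [hJ (sInf {N | J N = J N₀}), Ideal.span_le]
      rintro a ⟨m, hm, ha⟩
      rw [AddSubmonoid.mem_sInf] at hm
      push Not at hm
      obtain ⟨N, hN, hmN⟩ := hm
      have h2 : a ∈ J N := by
        rw [hJ N]
        exact Ideal.subset_span ⟨m, hmN, ha⟩
      have h3 : J N = J N₀ := hN
      rw [← h3]
      exact h2
    · refine (hJ N₀).le.trans ?_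
      rw [Ideal.span_le]
      rintro a ⟨m, hm, ha⟩
      exact (hJ (sInf {N | J N = J N₀})).ge (Ideal.subset_span ⟨m, fun h => hm (hE h), ha⟩)
  refine ⟨h1, fun L hL => ?_, fun h => ?_⟩
  · exact sInf_le (show J L = J N₀ by rw [← hL, h1])
  · exact le_antisymm hE (h _ h1.symm)

end Groth.Agent.S17686
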