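import Mathlib
import Groth.Statements.S17687
import Mathlib

set_option autoImplicit false
universe u v w
open DiagMon

namespace Groth.Agent.S17687


/-- Let R be a commutative ring and A a commutative R-algebra of finite type graded by a commutative
monoid M. Then the set of ideals J_N, N running over all submonoids of M, where J_N is generated by
the homogeneous elements of degree not in N (the ideal of the attractor of Spec A for the magnet N),
is finite: Spec A has finitely many attractors and hence finitely many pure magnets. (The source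
assumes Spec A of finite presentation over the base; its proof uses only a finite set of homogeneous
algebra generators, so finite type is assumed here.) -/
theorem result (R : Type u) [CommRing R] (A : Type v) [CommRing A]
    [Algebra R A] [Algebra.FiniteType R A] (M : Type w) [AddCommMonoid M] [DecidableEq M]
    (𝒜 : M → Submodule R A) [GradedAlgebra 𝒜] :
    (Set.range fun N : AddSubmonoid M => Ideal.span {a : A | ∃ m : M, m ∉ N ∧ a ∈ 𝒜 m}).Finite := by
  classical
  obtain ⟨S, hS⟩ := (Algebra.FiniteType.out : (⊤ : Subalgebra R A).FG)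
  let T : Finset A := S.biUnion (fun a => (DirectSum.decompose 𝒜 a).support.image (fun m => (DirectSum.decompose 𝒜 a m : A)))
  have hT : ∀ t ∈ T, ∃ m, t ∈ 𝒜 m := by
    intro t ht
    obtain ⟨a, -, ha⟩ := Finset.mem_biUnion.mp ht
    obtain ⟨m, -, rfl⟩ := Finset.mem_image.mp ha
    exact ⟨m, (DirectSum.decompose 𝒜 a m).2⟩
  have hgen : Algebra.adjoin R (T : Set A) = ⊤ := by
    rw [eq_top_iff, ← hS]
    apply Algebra.adjoin_le
    intro a ha
    rw [SetLike.mem_coe, ← DirectSum.sum_support_decompose 𝒜 a]
    apply sum_mem
    intro m hm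
    apply Algebra.subset_adjoin
    rw [Finset.mem_coe]
    exact Finset.mem_biUnion.mpr ⟨a, ha, Finset.mem_image.mpr ⟨m, hm, rfl⟩⟩
  have key : ∀ N : AddSubmonoid M, Ideal.span {a : A | ∃ m : M, m ∉ N ∧ a ∈ 𝒜 m} = Ideal.span {t | t ∈ T ∧ ∃ m, m ∉ N ∧ t ∈ 𝒜 m} := by
    intro N
    apply le_antisymm
    · rw [Ideal.span_le]
      rintro b ⟨m, hm, hb⟩
      have hall : ∀ x ∈ Algebra.adjoin R (T : Set A), ∀ m, m ∉ N → (DirectSum.decompose 𝒜 x m : A) ∈ Ideal.span {t | t ∈ T ∧ ∃ m, m ∉ N ∧ t ∈ 𝒜 m} := by
        intro x hx
        induction hx using Algebra.adjoin_induction with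
        | mem t ht =>
          intro m hm
          obtain ⟨m', hm'⟩ := hT t ht
          by_cases h : m' = m
          · subst h
            rw [DirectSum.decompose_of_mem_same 𝒜 hm']
            exact Ideal.subset_span ⟨ht, m', hm, hm'⟩
          · rw [DirectSum.decompose_of_mem_ne 𝒜 hm' h]
            exact Ideal.zero_mem _
        | algebraMap r =>
          intro m hm
          have h0 : (0 : M) ≠ m := fun h => hm (h ▸ N.zero_mem)
          rw [DirectSum.decompose_of_mem_ne 𝒜 (SetLike.algebraMap_mem_graded 𝒜 r) h0]
          exact Ideal.zero_mem _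
        | add x y _ _ hx hy =>
          intro m hm
          rw [DirectSum.decompose_add, DirectSum.add_apply, Submodule.coe_add]
          exact add_mem (hx m hm) (hy m hm)
        | mul x y _ _ hx hy =>
          intro m hm
          rw [DirectSum.decompose_mul, DirectSum.coe_mul_apply]
          apply sum_mem
          rintro ⟨i, j⟩ hij
          rw [Finset.mem_filter] at hij
          have : i ∉ N ∨ j ∉ N := by
            by_contra h
            push Not at h
            exact hm (hij.2 ▸ add_mem h.1 h.2)
          rcases this with h | h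
          · exact Ideal.mul_mem_right _ _ (hx i h)
          · exact Ideal.mul_mem_left _ _ (hy j h)
      have := hall b (by rw [hgen]; trivial) m hm
      rwa [DirectSum.decompose_of_mem_same 𝒜 hb] at this
    · apply Ideal.span_mono
      rintro t ⟨-, m, hm, ht⟩
      exact ⟨m, hm, ht⟩
  refine Set.Finite.subset ((Set.Finite.finite_subsets T.finite_toSet).image Ideal.span) ?_
  rintro _ ⟨N, rfl⟩
  exact ⟨{t | t ∈ T ∧ ∃ m, m ∉ N ∧ t ∈ 𝒜 m}, fun t ht => ht.1, (key N).symm⟩

end Groth.Agent.S17687
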