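import Mathlib
import Groth.Statements.S17713
import Groth.Agent.Lib.Helper26_Todd

set_option autoImplicit false
open MoretBailly

namespace Groth.Agent.S17713


/-- Let n ≥ 2 and d ≥ 1 be natural numbers and s an integer, and write B(x) = x/(1 - e^(-x)) for the
exponential generating series of the Bernoulli numbers B'_i (convention B'_1 = 1/2). For a natural
number p consider the product B(-dx)^(-1) B(-dpx) B(x)^(n+1) e^((dp-d-n-1+s)x) in ℚ[[x]] (the
Todd-class integrand of a Hirzebruch–Riemann–Roch computation) and let λ_n(p) be its coefficient of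
x^n. Then λ_n(p) is a polynomial in p whose two top terms are B'_n (dp)^n/n! and ((2s-d-n-1)/2)
B'_(n-1) (dp)^(n-1)/(n-1)!: there is a polynomial P over ℚ of degree at most n - 2 with λ_n(p) equal
to the sum of these two terms and P(p), for every p. -/
theorem result (n d : ℕ) (s : ℤ) (hn : 2 ≤ n) (hd : 1 ≤ d) :
    ∃ P : Polynomial ℚ, P.natDegree ≤ n - 2 ∧ ∀ p : ℕ,
      PowerSeries.coeff n ((PowerSeries.rescale (-(d : ℚ)) (bernoulli'PowerSeries ℚ))⁻¹ * PowerSeries.rescale (-((d : ℚ) * p)) (bernoulli'PowerSeries ℚ) * bernoulli'PowerSeries ℚ ^ (n + 1) * PowerSeries.rescale ((d : ℚ) * p - d - n - 1 + s) (PowerSeries.exp ℚ)) =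
        bernoulli' n * ((d : ℚ) * p) ^ n / (Nat.factorial n : ℚ) +
          (2 * (s : ℚ) - d - n - 1) / 2 * bernoulli' (n - 1) * ((d : ℚ) * p) ^ (n - 1) / (Nat.factorial (n - 1) : ℚ) +
          P.eval (p : ℚ) := by
  exact Groth.Agent.H26Todd.leading n d (s : ℚ) hn

end Groth.Agent.S17713
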