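import Mathlib
import Groth.Statements.S17714
import Groth.Agent.Lib.Helper26_Todd

set_option autoImplicit false
open MoretBailly

namespace Groth.Agent.S17714


/-- Let n ≥ 2 and d ≥ 1 be natural numbers with n congruent to 0 or 1 modulo 4, and s an integer with 2s
> n + d + 1. Write B(x) = x/(1 - e^(-x)) for the exponential generating series of the Bernoulli
numbers (B'_1 = 1/2). Then for all sufficiently large natural numbers p the coefficient of x^n in
B(-dx)^(-1) B(-dpx) B(x)^(n+1) e^((dp-d-n-1+s)x) is strictly negative. (The published statement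
asserts this for every n ≥ 2 not congruent to 2 modulo 4. For n congruent to 3 modulo 4 the
coefficient is a polynomial in p of degree n - 1 with leading coefficient (2s-d-n-1) B'_(n-1)
d^(n-1)/(2 (n-1)!) > 0, so it is eventually positive: for n = 3, d = 1, s = 3 it equals (p^2 -
1)/24. The residues 0 and 1 are exactly the ones the leading-term argument gives.) -/
theorem result (n d : ℕ) (s : ℤ) (hn : 2 ≤ n)
    (hmod : n % 4 = 0 ∨ n % 4 = 1) (hd : 1 ≤ d) (hs : (n : ℤ) + d + 1 < 2 * s) :
    ∃ P : ℕ, ∀ p : ℕ, P ≤ p →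
      PowerSeries.coeff n ((PowerSeries.rescale (-(d : ℚ)) (bernoulli'PowerSeries ℚ))⁻¹ * PowerSeries.rescale (-((d : ℚ) * p)) (bernoulli'PowerSeries ℚ) * bernoulli'PowerSeries ℚ ^ (n + 1) * PowerSeries.rescale ((d : ℚ) * p - d - n - 1 + s) (PowerSeries.exp ℚ)) < 0 := by
  obtain ⟨P, hP, h⟩ := Groth.Agent.H26Todd.leading n d (s : ℚ) hn
  have hs' : (0 : ℚ) < 2 * s - d - n - 1 := by
    have : (n : ℚ) + d + 1 < 2 * s := by exact_mod_cast hs
    linarith
  have hd' : (0 : ℚ) < d := by exact_mod_cast hd
  rcases hmod with h0 | h1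
  · -- leading term
    have hb := Groth.Agent.H26Todd.bern_neg n h0 hn
    obtain ⟨P₀, h2⟩ := Groth.Agent.H26Todd.eventually_neg n (by omega)
      (bernoulli' n * (d : ℚ) ^ n / (n.factorial : ℚ)) (by
        apply div_neg_of_neg_of_pos
        · exact mul_neg_of_neg_of_pos hb (by positivity)
        · positivity)
      (Polynomial.C ((2 * (s : ℚ) - d - n - 1) / 2 * bernoulli' (n - 1) * (d : ℚ) ^ (n - 1) / ((n - 1).factorial : ℚ)) * Polynomial.X ^ (n - 1) + P) (by
        refine (Polynomial.natDegree_add_le _ _).trans_lt (max_lt ?_ ?_)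
        · exact (Polynomial.natDegree_C_mul_X_pow_le _ _).trans_lt (by omega)
        · omega)
    refine ⟨P₀, fun p hp => ?_⟩
    have h3 := h2 p hp
    rw [h p]
    simp only [Polynomial.eval_add, Polynomial.eval_mul, Polynomial.eval_C, Polynomial.eval_pow, Polynomial.eval_X] at h3
    rw [mul_pow, mul_pow]
    calc _ = _ := ?_
      _ < 0 := h3
    ring
  · have hb : bernoulli' n = 0 := bernoulli'_eq_zero_of_odd (Nat.odd_iff.mpr (by omega)) (by omega)
    have hb2 := Groth.Agent.H26Todd.bern_neg (n - 1) (by omega) (by omega)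
    obtain ⟨P₀, h2⟩ := Groth.Agent.H26Todd.eventually_neg (n - 1) (by omega)
      ((2 * (s : ℚ) - d - n - 1) / 2 * bernoulli' (n - 1) * (d : ℚ) ^ (n - 1) / ((n - 1).factorial : ℚ)) (by
        apply div_neg_of_neg_of_pos
        · refine mul_neg_of_neg_of_pos ?_ (by positivity)
          exact mul_neg_of_pos_of_neg (by linarith) hb2
        · positivity) P (by omega)
    refine ⟨P₀, fun p hp => ?_⟩
    have h3 := h2 p hp
    rw [h p, hb, mul_pow, mul_pow]
    calc _ = _ := ?_
      _ < 0 := h3
    ring

end Groth.Agent.S17714
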