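import Mathlib
import Groth.Statements.S17715
import Groth.Agent.Lib.Helper26_Todd

set_option autoImplicit false
open MoretBailly

namespace Groth.Agent.S17715

lemma c0 (f g : PowerSeries ℚ) : PowerSeries.coeff 0 (f * g) = PowerSeries.coeff 0 f * PowerSeries.coeff 0 g := by
  rw [PowerSeries.coeff_mul, Finset.Nat.antidiagonal_zero]
  simp
lemma c1 (f g : PowerSeries ℚ) : PowerSeries.coeff 1 (f * g) = PowerSeries.coeff 0 f * PowerSeries.coeff 1 g +
    PowerSeries.coeff 1 f * PowerSeries.coeff 0 g := Groth.Agent.H26Todd.coeff_one_mul' f g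
lemma c2 (f g : PowerSeries ℚ) : PowerSeries.coeff 2 (f * g) = PowerSeries.coeff 0 f * PowerSeries.coeff 2 g +
    PowerSeries.coeff 1 f * PowerSeries.coeff 1 g + PowerSeries.coeff 2 f * PowerSeries.coeff 0 g := by
  rw [PowerSeries.coeff_mul, Finset.Nat.sum_antidiagonal_eq_sum_range_succ_mk]
  simp only [Finset.sum_range_succ, Finset.sum_range_zero]
  norm_num
lemma c3 (f g : PowerSeries ℚ) : PowerSeries.coeff 3 (f * g) = PowerSeries.coeff 0 f * PowerSeries.coeff 3 g +
    PowerSeries.coeff 1 f * PowerSeries.coeff 2 g + PowerSeries.coeff 2 f * PowerSeries.coeff 1 g +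
    PowerSeries.coeff 3 f * PowerSeries.coeff 0 g := by
  rw [PowerSeries.coeff_mul, Finset.Nat.sum_antidiagonal_eq_sum_range_succ_mk]
  simp only [Finset.sum_range_succ, Finset.sum_range_zero]
  norm_num

/-- Write B(x) = x/(1 - e^(-x)) for the exponential generating series of the Bernoulli numbers (B'_1 =
1/2). For all natural numbers d and p the coefficient of x^3 in B(-dx)^(-1) B(-dpx) B(x)^4
e^((dp-d-3)x), i.e. the case n = 3, s = 1 of the Todd-class integrand, equals
-d(d+2)(p-1)(dp-d-2)/24 = -(d^3+2d^2) p^2/24 + (d^3+3d^2+2d) p/12 - (d^3+4d^2+4d)/24. (The published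
closed form has the same p^2 and p coefficients but constant term -(d^3+2d^2+2d)/24; direct
expansion gives the value stated here, which vanishes at p = 1.) -/
theorem result (d p : ℕ) :
    PowerSeries.coeff 3 ((PowerSeries.rescale (-(d : ℚ)) (bernoulli'PowerSeries ℚ))⁻¹ * PowerSeries.rescale (-((d : ℚ) * p)) (bernoulli'PowerSeries ℚ) * bernoulli'PowerSeries ℚ ^ (4) * PowerSeries.rescale ((d : ℚ) * p - d - 3) (PowerSeries.exp ℚ)) =
      -((d : ℚ) * (d + 2) * (p - 1) * (d * p - d - 2)) / 24 := by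
  have hB0 : PowerSeries.coeff 0 (bernoulli'PowerSeries ℚ) = 1 := by
    have := Groth.Agent.H26Todd.coeff_BB 0; simpa using this
  have hB1 : PowerSeries.coeff 1 (bernoulli'PowerSeries ℚ) = 1 / 2 := by
    have := Groth.Agent.H26Todd.coeff_BB 1; simpa using this
  have hB2 : PowerSeries.coeff 2 (bernoulli'PowerSeries ℚ) = 1 / 12 := by
    have := Groth.Agent.H26Todd.coeff_BB 2
    rw [bernoulli'_two] at this
    rw [this]; norm_num [Nat.factorial]
  have hB3 : PowerSeries.coeff 3 (bernoulli'PowerSeries ℚ) = 0 := by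
    have := Groth.Agent.H26Todd.coeff_BB 3
    rw [bernoulli'_three] at this
    rw [this]; simp
  have hne : PowerSeries.constantCoeff (PowerSeries.rescale (-(d : ℚ)) (bernoulli'PowerSeries ℚ)) ≠ 0 := by
    have := Groth.Agent.H26Todd.constCoeff_BB (-(d : ℚ))
    rw [this]; exact one_ne_zero
  have hI := PowerSeries.mul_inv_cancel _ hne
  obtain ⟨F, hF⟩ : ∃ F, F = (PowerSeries.rescale (-(d : ℚ)) (bernoulli'PowerSeries ℚ))⁻¹ := ⟨_, rfl⟩
  rw [← hF] at hI ⊢
  have i0 := congrArg (PowerSeries.coeff 0) hI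
  have i1 := congrArg (PowerSeries.coeff 1) hI
  have i2 := congrArg (PowerSeries.coeff 2) hI
  have i3 := congrArg (PowerSeries.coeff 3) hI
  rw [c0, PowerSeries.coeff_rescale, hB0, PowerSeries.coeff_one, if_pos rfl] at i0
  rw [c1, PowerSeries.coeff_rescale, PowerSeries.coeff_rescale, hB0, hB1, PowerSeries.coeff_one, if_neg (by norm_num)] at i1
  rw [c2, PowerSeries.coeff_rescale, PowerSeries.coeff_rescale, PowerSeries.coeff_rescale, hB0, hB1, hB2, PowerSeries.coeff_one, if_neg (by norm_num)] at i2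
  rw [c3, PowerSeries.coeff_rescale, PowerSeries.coeff_rescale, PowerSeries.coeff_rescale, PowerSeries.coeff_rescale, hB0, hB1, hB2, hB3, PowerSeries.coeff_one, if_neg (by norm_num)] at i3
  have f0 : PowerSeries.coeff 0 F = 1 := by
    rw [← i0]; ring
  rw [f0] at i1 i2 i3
  have f1 : PowerSeries.coeff 1 F = d / 2 := by
    linear_combination i1
  rw [f1] at i2 i3
  have f2 : PowerSeries.coeff 2 F = d ^ 2 / 4 - d ^ 2 / 12 := by
    linear_combination i2
  rw [f2] at i3
  have f3 : PowerSeries.coeff 3 F = (d : ℚ) / 2 * (d ^ 2 / 4 - d ^ 2 / 12) - d ^ 2 / 12 * (d / 2) := by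
    linear_combination i3
  have p4 : bernoulli'PowerSeries ℚ ^ 4 = bernoulli'PowerSeries ℚ * bernoulli'PowerSeries ℚ * bernoulli'PowerSeries ℚ * bernoulli'PowerSeries ℚ := by ring
  rw [p4]
  simp only [c3, c2, c1, c0, PowerSeries.coeff_rescale, hB0, hB1, hB2, hB3, f0, f1, f2, f3, PowerSeries.coeff_exp]
  norm_num [Nat.factorial]
  ring

end Groth.Agent.S17715
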