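import Mathlib
import Groth.Statements.S17717
import Groth.Agent.Lib.Helper26_Todd

set_option autoImplicit false
open MoretBailly

namespace Groth.Agent.S17717


/-- Write B(x) = x/(1 - e^(-x)) for the exponential generating series of the Bernoulli numbers (B'_1 =
1/2). For all natural numbers d, p and every integer s the coefficient of x in B(-dx)^(-1) B(-dpx)
B(x)^2 e^((dp-d-2+s)x), i.e. the case n = 1 of the Todd-class integrand, equals d(p-1)/2 + s - 1. -/
theorem result (d p : ℕ) (s : ℤ) :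
    PowerSeries.coeff 1 ((PowerSeries.rescale (-(d : ℚ)) (bernoulli'PowerSeries ℚ))⁻¹ * PowerSeries.rescale (-((d : ℚ) * p)) (bernoulli'PowerSeries ℚ) * bernoulli'PowerSeries ℚ ^ (2) * PowerSeries.rescale ((d : ℚ) * p - d - 2 + s) (PowerSeries.exp ℚ)) =
      (d : ℚ) * (p - 1) / 2 + s - 1 := by
  have h := Groth.Agent.H26Todd.prod_eq 1 d (s : ℚ) ((d : ℚ) * p)
  have e : (d : ℚ) * p - d - (1 : ℕ) - 1 + s = (d : ℚ) * p - d - 2 + s := by push_cast; ring
  rw [e] at h
  rw [h, Groth.Agent.H26Todd.coeff_one_mul', Groth.Agent.H26Todd.Q0, Groth.Agent.H26Todd.Q1,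
    PowerSeries.coeff_rescale, PowerSeries.coeff_rescale, Groth.Agent.H26Todd.coeff_BB, Groth.Agent.H26Todd.coeff_BB]
  simp
  ring

end Groth.Agent.S17717
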