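import Mathlib
import Groth.Statements.S17718
import Groth.Agent.Lib.Helper26_Todd

set_option autoImplicit false
open MoretBailly

namespace Groth.Agent.S17718


/-- Let n ≥ 2 and d ≥ 1 be natural numbers with n not congruent to 2 modulo 4, and write B(x) = x/(1 -
e^(-x)) for the exponential generating series of the Bernoulli numbers (B'_1 = 1/2). Then there is
an integer s ≥ 1 such that for all sufficiently large natural numbers p the coefficient of x^n in
B(-dx)^(-1) B(-dpx) B(x)^(n+1) e^((dp-d-n-1+s)x) is strictly negative. (The published argument fixes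
any s with 2s > n + d + 1, which gives the sign only for n congruent to 0 or 1 modulo 4; for n
congruent to 3 modulo 4 the choice s = 1 makes the leading coefficient (2s-d-n-1) B'_(n-1)
d^(n-1)/(2 (n-1)!) negative instead.) -/
theorem result (n d : ℕ) (hn : 2 ≤ n)
    (hmod : n % 4 ≠ 2) (hd : 1 ≤ d) :
    ∃ s : ℤ, 1 ≤ s ∧ ∃ P : ℕ, ∀ p : ℕ, P ≤ p →
      PowerSeries.coeff n ((PowerSeries.rescale (-(d : ℚ)) (bernoulli'PowerSeries ℚ))⁻¹ * PowerSeries.rescale (-((d : ℚ) * p)) (bernoulli'PowerSeries ℚ) * bernoulli'PowerSeries ℚ ^ (n + 1) * PowerSeries.rescale ((d : ℚ) * p - d - n - 1 + s) (PowerSeries.exp ℚ)) < 0 := by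
  have hd' : (0 : ℚ) < d := by exact_mod_cast hd
  have key : ∀ (s : ℤ), (n % 4 = 0 ∨ (n % 4 = 1 ∧ (0 : ℚ) < 2 * s - d - n - 1) ∨ (n % 4 = 3 ∧ (2 * s - d - n - 1 : ℚ) < 0)) →
      ∃ P : ℕ, ∀ p : ℕ, P ≤ p →
      PowerSeries.coeff n ((PowerSeries.rescale (-(d : ℚ)) (bernoulli'PowerSeries ℚ))⁻¹ * PowerSeries.rescale (-((d : ℚ) * p)) (bernoulli'PowerSeries ℚ) * bernoulli'PowerSeries ℚ ^ (n + 1) * PowerSeries.rescale ((d : ℚ) * p - d - n - 1 + s) (PowerSeries.exp ℚ)) < 0 := by
    intro s hcase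
    obtain ⟨P, hP, h⟩ := Groth.Agent.H26Todd.leading n d (s : ℚ) hn
    rcases hcase with h0 | h1
    · have hb := Groth.Agent.H26Todd.bern_neg n h0 hn
      obtain ⟨P₀, h2⟩ := Groth.Agent.H26Todd.eventually_neg n (by omega)
        (bernoulli' n * (d : ℚ) ^ n / (n.factorial : ℚ)) (by
          apply div_neg_of_neg_of_pos
          · exact mul_neg_of_neg_of_pos hb (by positivity)
          · positivity)
        (Polynomial.C ((2 * (s : ℚ) - d - n - 1) / 2 * bernoulli' (n - 1) * (d : ℚ) ^ (n - 1) / ((n - 1).factorial : ℚ)) * Polynomial.X ^ (n - 1) + P) (by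
          refine (Polynomial.natDegree_add_le _ _).trans_lt (max_lt ?_ ?_)
          · exact (Polynomial.natDegree_C_mul_X_pow_le _ _).trans_lt (by omega)
          · omega)
      refine ⟨P₀, fun p hp => ?_⟩
      have h3 := h2 p hp
      rw [h p]
      simp only [Polynomial.eval_add, Polynomial.eval_mul, Polynomial.eval_C, Polynomial.eval_pow, Polynomial.eval_X] at h3
      rw [mul_pow, mul_pow]
      calc _ = _ := ?_
        _ < 0 := h3
      ring
    · have hodd : n % 2 = 1 := by rcases h1 with h1 | h1 <;> omega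
      have hn3 : 3 ≤ n := by omega
      have hb : bernoulli' n = 0 := bernoulli'_eq_zero_of_odd (Nat.odd_iff.mpr hodd) (by omega)
      have hneg : (2 * (s : ℚ) - d - n - 1) / 2 * bernoulli' (n - 1) < 0 := by
        rcases h1 with ⟨h1, h1'⟩ | ⟨h1, h1'⟩
        · exact mul_neg_of_pos_of_neg (by linarith) (Groth.Agent.H26Todd.bern_neg (n - 1) (by omega) (by omega))
        · exact mul_neg_of_neg_of_pos (by linarith) (Groth.Agent.H26Todd.bern_pos (n - 1) (by omega))
      obtain ⟨P₀, h2⟩ := Groth.Agent.H26Todd.eventually_neg (n - 1) (by omega)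
        ((2 * (s : ℚ) - d - n - 1) / 2 * bernoulli' (n - 1) * (d : ℚ) ^ (n - 1) / ((n - 1).factorial : ℚ)) (by
          apply div_neg_of_neg_of_pos
          · exact mul_neg_of_neg_of_pos hneg (by positivity)
          · positivity) P (by omega)
      refine ⟨P₀, fun p hp => ?_⟩
      have h3 := h2 p hp
      rw [h p, hb, mul_pow, mul_pow]
      calc _ = _ := ?_
        _ < 0 := h3
      ring
  have hcases : n % 4 = 0 ∨ n % 4 = 1 ∨ n % 4 = 3 := by omega
  rcases hcases with h0 | h1 | h3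
  · exact ⟨1, le_rfl, key 1 (Or.inl h0)⟩
  · refine ⟨n + d + 1, by omega, key _ (Or.inr (Or.inl ⟨h1, ?_⟩))⟩
    push_cast
    linarith [(Nat.cast_nonneg n : (0 : ℚ) ≤ n)]
  · refine ⟨1, le_rfl, key 1 (Or.inr (Or.inr ⟨h3, ?_⟩))⟩
    have h2n : (2 : ℚ) ≤ n := by exact_mod_cast hn
    push_cast
    linarith

end Groth.Agent.S17718
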