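import Mathlib
import Groth.Statements.S17722
import Mathlib

set_option autoImplicit false
universe u
open CAlg

namespace Groth.Agent.S17722


/-- Let R → R' be a faithfully flat ring map between Noetherian integrally closed local domains, and p
an ideal of R. If the ideal pR' generated by the image of p is principal, then p is principal. (The
second assertion of the published lemma, descent of unique factorization, is not part of this row.) -/
theorem result
    (R R' : Type u) [CommRing R] [CommRing R'] [IsDomain R] [IsDomain R']
    [IsNoetherianRing R] [IsNoetherianRing R'] [IsLocalRing R] [IsLocalRing R']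
    [IsIntegrallyClosed R] [IsIntegrallyClosed R']
    [Algebra R R'] [Module.FaithfullyFlat R R']
    (p : Ideal R) (hp : (p.map (algebraMap R R')).IsPrincipal) :
    p.IsPrincipal := by
  have hinj : Function.Injective (algebraMap R R') := FaithfulSMul.algebraMap_injective R R'
  obtain ⟨s, hs⟩ := (inferInstance : IsNoetherian R R).noetherian p
  obtain ⟨g, hg⟩ := hp.principal
  have hg' : p.map (algebraMap R R') = Ideal.span {g} := hg
  by_cases hg0 : g = 0
  · have : p = ⊥ := by
      rw [eq_bot_iff]
      intro x hx
      have h1 : algebraMap R R' x ∈ p.map (algebraMap R R') := Ideal.mem_map_of_mem _ hx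
      rw [hg', hg0, Ideal.span_singleton_eq_bot.mpr rfl, Ideal.mem_bot] at h1
      rw [Ideal.mem_bot]
      exact hinj (by rw [h1, map_zero])
    rw [this]
    exact ⟨0, by simp⟩
  · have hex : ∃ x ∈ p, ∃ u : R', IsUnit u ∧ algebraMap R R' x = g * u := by
      by_contra hcon
      push Not at hcon
      have hle : p.map (algebraMap R R') ≤ Ideal.span {g} * IsLocalRing.maximalIdeal R' := by
        rw [Ideal.map_le_iff_le_comap]
        intro x hx
        rw [Ideal.mem_comap]
        have h1 : algebraMap R R' x ∈ p.map (algebraMap R R') := Ideal.mem_map_of_mem _ hx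
        rw [hg', Ideal.mem_span_singleton] at h1
        obtain ⟨c, hc⟩ := h1
        rw [hc]
        refine Ideal.mul_mem_mul (Ideal.mem_span_singleton_self g) ?_
        rw [IsLocalRing.mem_maximalIdeal, mem_nonunits_iff]
        intro hu
        exact hcon x hx c hu hc
      have h2 : g ∈ Ideal.span {g} * IsLocalRing.maximalIdeal R' := by
        apply hle; rw [hg']; exact Ideal.mem_span_singleton_self g
      rw [Ideal.mem_span_singleton_mul] at h2
      obtain ⟨c, hc, hgc⟩ := h2
      have h3 : c = 1 := mul_left_cancel₀ hg0 (by rw [hgc, mul_one])
      rw [h3] at hc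
      exact (Ideal.ne_top_iff_one _).mp (IsLocalRing.maximalIdeal.isMaximal R').ne_top hc
    obtain ⟨x, hx, u, hu, hxu⟩ := hex
    refine ⟨x, ?_⟩
    change p = Ideal.span {x}
    have h4 : (Ideal.span {x}).map (algebraMap R R') = p.map (algebraMap R R') := by
      rw [Ideal.map_span, Set.image_singleton, hxu, hg', Ideal.span_singleton_mul_right_unit hu]
    rw [← Ideal.comap_map_eq_self_of_faithfullyFlat (B := R') p, ← h4, Ideal.comap_map_eq_self_of_faithfullyFlat]

end Groth.Agent.S17722
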