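import Mathlib
import Groth.Statements.S17779
import Groth.Agent.Lib.Helper26_AltSum

set_option autoImplicit false
open DRR

namespace Groth.Agent.S17779


/-- For natural numbers n and k with k ≤ n + 1, the alternating sum over j = 0, …, n of (−1)^(n−j) C(n,
j) j^k (with the convention 0^0 = 1) equals n! · n(n+1)/2 when k = n + 1, equals n! when k = n, and
vanishes when k < n. (The published statement takes n ≥ 1 and divides through by n!; the case n = 0
holds as well and is included.) -/
theorem result (n k : ℕ) (hk : k ≤ n + 1) :
    (∑ j ∈ Finset.range (n + 1), (-1 : ℤ) ^ (n - j) * (n.choose j : ℤ) * (j : ℤ) ^ k) =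
      (if k = n + 1 then (((n + 1).choose 2 * n.factorial : ℕ) : ℤ)
        else if k = n then (n.factorial : ℤ) else 0) := by
  have h := Groth.Agent.H26AltSum.U_main (A := ℤ) k n 0 1 hk
  unfold Groth.Agent.H26AltSum.U at h
  simp only [zero_add, mul_one, mul_zero, zero_mul, add_zero, one_pow] at h
  rw [h]
  split_ifs
  · push_cast; ring
  · rfl
  · rfl

end Groth.Agent.S17779
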