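import Mathlib
import Groth.Statements.S17780
import Groth.Agent.Lib.Helper26_AltSum

set_option autoImplicit false
universe u
open DRR

namespace Groth.Agent.S17780


/-- For x, y in a commutative ring and a natural number n, (n+1)! · x · y^n equals the sum over j = 0,
…, n of (−1)^(n−j) C(n, j) (x + j y)^(n+1), minus (n · (n+1)!/2) · y^(n+1). (The published identity
is stated in ℚ[x, y] with an overall factor 1/(n+1) and the coefficients C(n, j)(−1)^(n−j)/n!; it is
given here multiplied through by (n+1)!, which makes it an identity with integer coefficients valid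
in every commutative ring; n · (n+1)!/2 is an integer.) -/
theorem result (A : Type u) [CommRing A] (x y : A) (n : ℕ) :
    ((n + 1).factorial : A) * x * y ^ n =
      (∑ j ∈ Finset.range (n + 1), (-1 : A) ^ (n - j) * (n.choose j : A) * (x + (j : A) * y) ^ (n + 1))
        - ((n * (n + 1).factorial / 2 : ℕ) : A) * y ^ (n + 1) := by
  have h := Groth.Agent.H26AltSum.U_main (A := A) (n + 1) n x y le_rfl
  unfold Groth.Agent.H26AltSum.U at h
  rw [if_pos rfl] at h
  rw [h]
  have h1 : n * (n + 1).factorial / 2 = n.factorial * (n + 1).choose 2 := by
    have h2 : (n + 1).choose 2 * 2 = (n + 1) * n := by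
      rw [Nat.choose_two_right, Nat.add_sub_cancel]
      exact Nat.div_mul_cancel (by
        have := Nat.even_mul_succ_self n
        rw [mul_comm]; exact this.two_dvd)
    have h3 : n * (n + 1).factorial = n.factorial * (n + 1).choose 2 * 2 := by
      rw [mul_assoc, h2, Nat.factorial_succ]; ring
    rw [h3, Nat.mul_div_cancel _ (by norm_num)]
  rw [h1, Nat.factorial_succ]
  push_cast
  ring

end Groth.Agent.S17780
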