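import Mathlib
import Groth.Statements.S17854

set_option autoImplicit false
universe u
open scoped TensorProduct
open MvPolynomial KaehlerDifferential

namespace Groth.Agent.S17854

lemma etale_of_bij (k P T : Type u) [CommRing k] [CommRing P] [CommRing T] [Algebra k P] [Algebra k T]
    [Algebra P T] [IsScalarTower k P T] [Algebra.FormallySmooth k T]
    (h : Function.Bijective (KaehlerDifferential.mapBaseChange k P T)) : Algebra.FormallyEtale P T := by
  rw [Algebra.formallyEtale_iff]
  constructor
  · refine subsingleton_of_forall_eq 0 (fun ω => ?_)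
    obtain ⟨x, rfl⟩ := KaehlerDifferential.map_surjective k P T ω
    obtain ⟨y, rfl⟩ := h.2 x
    exact (KaehlerDifferential.exact_mapBaseChange_map k P T).apply_apply_eq_zero y
  · refine subsingleton_of_forall_eq 0 (fun x => ?_)
    have h1 : Algebra.H1Cotangent.δ k P T x = 0 := by
      apply h.1
      rw [map_zero]
      exact (Algebra.H1Cotangent.exact_δ_mapBaseChange k P T).apply_apply_eq_zero x
    obtain ⟨y, rfl⟩ := ((Algebra.H1Cotangent.exact_map_δ k P T) x).mp h1
    have : y = 0 := Subsingleton.elim _ _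
    rw [this, map_zero]

lemma bij_of_surj {T M N : Type*} [CommRing T] [Nontrivial T] [AddCommGroup M] [AddCommGroup N] [Module T M] [Module T N]
    [Module.Free T M] [Module.Free T N] [Module.Finite T M] [Module.Finite T N]
    (h : Module.finrank T M = Module.finrank T N) (f : M →ₗ[T] N) (hf : Function.Surjective f) :
    Function.Bijective f := by
  refine ⟨?_, hf⟩
  let e : N ≃ₗ[T] M := (Module.finBasisOfFinrankEq T N h.symm).equivFun.trans (Module.finBasisOfFinrankEq T M rfl).equivFun.symm
  have h1 : Function.Surjective (e.toLinearMap ∘ₗ f) := e.surjective.comp hf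
  have h2 := OrzechProperty.injective_of_surjective_endomorphism _ h1
  intro x y hxy
  apply h2
  simp [hxy]

section
variable {k R : Type u} [CommRing k] [CommRing R] [Algebra k R] (m : Ideal R) [m.IsMaximal]

lemma mem_smul_of_tmul_eq_zero (ω : KaehlerDifferential k R)
    (h : (1 : R ⧸ m) ⊗ₜ[R] ω = 0) : ω ∈ (m • ⊤ : Submodule R (KaehlerDifferential k R)) := by
  have := congrArg (TensorProduct.quotTensorEquivQuotSMul (KaehlerDifferential k R) m) h
  rw [map_zero] at this
  have h2 : TensorProduct.quotTensorEquivQuotSMul (KaehlerDifferential k R) m ((1 : R ⧸ m) ⊗ₜ[R] ω) =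
      Submodule.Quotient.mk ω := by
    have := TensorProduct.quotTensorEquivQuotSMul_mk_tmul (I := m) (1 : R) ω
    simpa using this
  rw [h2, Submodule.Quotient.mk_eq_zero] at this
  exact this

lemma finrank_loc [Algebra.EssFiniteType k R] [Algebra.IsSmoothAt k m] :
    Module.finrank (Localization.AtPrime m) (KaehlerDifferential k (Localization.AtPrime m)) =
      Module.finrank (R ⧸ m) ((R ⧸ m) ⊗[R] KaehlerDifferential k R) := by
  let T := Localization.AtPrime m
  let K := m.ResidueField
  have hfin : Module.Finite T (KaehlerDifferential k T) := inferInstance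
  have hproj : Module.Projective T (KaehlerDifferential k T) := inferInstance
  have hfree : Module.Free T (KaehlerDifferential k T) := Module.free_of_flat_of_isLocalRing
  have : Algebra.FormallyEtale R T := Algebra.FormallyEtale.of_isLocalization m.primeCompl
  have hbc : IsBaseChange T (map k k R T) := KaehlerDifferential.isBaseChange_of_formallyEtale k R T
  have hfreeκ : Module.Free (R ⧸ m) ((R ⧸ m) ⊗[R] KaehlerDifferential k R) := by
    letI := Ideal.Quotient.field m
    exact Module.Free.of_divisionRing (R ⧸ m) ((R ⧸ m) ⊗[R] KaehlerDifferential k R)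
  have e1 := LinearEquiv.baseChange T K _ _ hbc.equiv
  have e2 := TensorProduct.AlgebraTensorModule.cancelBaseChange R T K K (KaehlerDifferential k R)
  have e3 := TensorProduct.AlgebraTensorModule.cancelBaseChange R (R ⧸ m) K K (KaehlerDifferential k R)
  calc Module.finrank T (KaehlerDifferential k T)
      = Module.finrank K (K ⊗[T] KaehlerDifferential k T) := (Module.finrank_baseChange).symm
    _ = Module.finrank K (K ⊗[T] (T ⊗[R] KaehlerDifferential k R)) := e1.symm.finrank_eq
    _ = Module.finrank K (K ⊗[R] KaehlerDifferential k R) := e2.finrank_eq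
    _ = Module.finrank K (K ⊗[R ⧸ m] ((R ⧸ m) ⊗[R] KaehlerDifferential k R)) := e3.symm.finrank_eq
    _ = _ := Module.finrank_baseChange


lemma isEtaleAt_of_span [Nontrivial k] [Algebra.EssFiniteType k R] [Algebra.IsSmoothAt k m] (d : ℕ)
    (hdim : Module.finrank (R ⧸ m) ((R ⧸ m) ⊗[R] KaehlerDifferential k R) = d)
    (a : Fin d → R)
    (H : ∀ r : R, D k R r ∈ Submodule.span R (Set.range (fun i => D k R (a i))) ⊔ (m • ⊤ : Submodule R (KaehlerDifferential k R)))
    [Algebra (MvPolynomial (Fin d) k) R] [IsScalarTower k (MvPolynomial (Fin d) k) R]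
    (hX : ∀ i, algebraMap (MvPolynomial (Fin d) k) R (X i) = a i) :
    Algebra.IsEtaleAt (MvPolynomial (Fin d) k) m := by
  let T := Localization.AtPrime m
  let P := MvPolynomial (Fin d) k
  have hPT : IsScalarTower k P T := inferInstance
  change Algebra.FormallyEtale P T
  refine etale_of_bij k P T ?_
  have hfin : Module.Finite T (KaehlerDifferential k T) := inferInstance
  have hproj : Module.Projective T (KaehlerDifferential k T) := inferInstance
  have hfree : Module.Free T (KaehlerDifferential k T) := Module.free_of_flat_of_isLocalRing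
  have hfreeP : Module.Free P (KaehlerDifferential k P) := Module.Free.of_basis (KaehlerDifferential.mvPolynomialBasis k (Fin d))
  have hfinP : Module.Finite P (KaehlerDifferential k P) := Module.Finite.of_basis (KaehlerDifferential.mvPolynomialBasis k (Fin d))
  refine bij_of_surj ?_ _ ?_
  · rw [finrank_loc m, hdim]
    have hP : Nontrivial P := inferInstanceAs (Nontrivial (MvPolynomial (Fin d) k))
    have hsr : StrongRankCondition P := inferInstance
    rw [Module.finrank_baseChange]
    rw [Module.finrank_eq_card_basis (KaehlerDifferential.mvPolynomialBasis k (Fin d)), Fintype.card_fin]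
  · -- surjectivity
    rw [← LinearMap.range_eq_top]
    let N : Submodule T (KaehlerDifferential k T) := LinearMap.range (KaehlerDifferential.mapBaseChange k P T)
    change N = ⊤
    have hN : ∀ i, D k T (algebraMap R T (a i)) ∈ N := by
      intro i
      refine ⟨1 ⊗ₜ D k P (X i), ?_⟩
      rw [KaehlerDifferential.mapBaseChange_tmul, one_smul, KaehlerDifferential.map_D, ← hX i,
        ← IsScalarTower.algebraMap_apply P R T]
    rw [eq_top_iff]
    refine Submodule.le_of_le_smul_of_le_jacobson_bot (I := IsLocalRing.maximalIdeal T) Module.Finite.fg_top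
      (IsLocalRing.maximalIdeal_le_jacobson _) ?_
    rw [← span_range_map_derivation_of_isLocalization k R T m.primeCompl, Submodule.span_le]
    rintro _ ⟨r, rfl⟩
    have h1 : ∀ ω ∈ (m • ⊤ : Submodule R (KaehlerDifferential k R)), map k k R T ω ∈
        (N ⊔ IsLocalRing.maximalIdeal T • ⊤ : Submodule T (KaehlerDifferential k T)) := by
      intro ω hω
      refine Submodule.smul_induction_on hω ?_ ?_
      · intro x hx y _
        rw [map_smul, ← IsScalarTower.algebraMap_smul T x]
        refine Submodule.mem_sup_right (Submodule.smul_mem_smul ?_ trivial)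
        exact (IsLocalization.AtPrime.to_map_mem_maximal_iff T m x).mpr hx
      · intro x y hx hy
        rw [map_add]
        exact Submodule.add_mem _ hx hy
    have h2 : ∀ ω ∈ Submodule.span R (Set.range (fun i => D k R (a i))), map k k R T ω ∈
        (N ⊔ IsLocalRing.maximalIdeal T • ⊤ : Submodule T (KaehlerDifferential k T)) := by
      intro ω hω
      induction hω using Submodule.span_induction with
      | mem x hx =>
        obtain ⟨i, rfl⟩ := hx
        refine Submodule.mem_sup_left ?_
        have := hN i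
        rwa [← KaehlerDifferential.map_D k k R T] at this
      | zero => rw [map_zero]; exact Submodule.zero_mem _
      | add x y _ _ hx hy => rw [map_add]; exact Submodule.add_mem _ hx hy
      | smul c x _ hx =>
        rw [map_smul, ← IsScalarTower.algebraMap_smul T c]
        exact Submodule.smul_mem _ _ hx
    obtain ⟨ω₁, hω₁, ω₂, hω₂, hsum⟩ := Submodule.mem_sup.mp (H r)
    have h3 := Submodule.add_mem _ (h2 ω₁ hω₁) (h1 ω₂ hω₂)
    rw [← map_add, hsum] at h3
    have e : (⊤ : Submodule T (KaehlerDifferential k T)) = Submodule.span T (Set.range (map k k R T ∘ D k R)) :=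
      (span_range_map_derivation_of_isLocalization k R T m.primeCompl).symm
    rw [← e]
    exact h3


lemma finite_quot [IsLocalRing k] [Finite (IsLocalRing.ResidueField k)] [Algebra.FiniteType k R]
    (hm : m.comap (algebraMap k R) = IsLocalRing.maximalIdeal k) : Finite (R ⧸ m) := by
  letI := Ideal.Quotient.field m
  let f : IsLocalRing.ResidueField k →+* (R ⧸ m) :=
    Ideal.Quotient.lift (IsLocalRing.maximalIdeal k) (algebraMap k (R ⧸ m)) (by
      intro x hx
      rw [← hm] at hx
      exact Ideal.Quotient.eq_zero_iff_mem.mpr hx)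
  letI : Algebra (IsLocalRing.ResidueField k) (R ⧸ m) := f.toAlgebra
  haveI : IsScalarTower k (IsLocalRing.ResidueField k) (R ⧸ m) := IsScalarTower.of_algebraMap_eq (fun x => rfl)
  haveI : Algebra.FiniteType k (R ⧸ m) := Algebra.FiniteType.of_surjective (Ideal.Quotient.mkₐ k m) (Ideal.Quotient.mkₐ_surjective k m)
  haveI : Algebra.FiniteType (IsLocalRing.ResidueField k) (R ⧸ m) :=
    Algebra.FiniteType.of_restrictScalars_finiteType k (IsLocalRing.ResidueField k) (R ⧸ m)
  haveI : Module.Finite (IsLocalRing.ResidueField k) (R ⧸ m) :=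
    finite_of_finite_type_of_isJacobsonRing (IsLocalRing.ResidueField k) (R ⧸ m)
  exact Module.finite_of_finite (IsLocalRing.ResidueField k)

lemma exists_a [Finite (R ⧸ m)] (d : ℕ) (hd : 0 < d)
    (hdim : Module.finrank (R ⧸ m) ((R ⧸ m) ⊗[R] KaehlerDifferential k R) = d) :
    ∃ a : Fin d → R,
      (∀ r : R, D k R r ∈ Submodule.span R (Set.range (fun i => D k R (a i))) ⊔ (m • ⊤ : Submodule R (KaehlerDifferential k R))) ∧
      ∀ r : R, r ∉ m → ∃ j : ℕ, r - (a ⟨0, hd⟩) ^ j ∈ m := by
  classical
  letI := Ideal.Quotient.field m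
  let V := (R ⧸ m) ⊗[R] KaehlerDifferential k R
  obtain ⟨p, hp⟩ := CharP.exists (R ⧸ m)
  have hprime : p.Prime := by
    rcases CharP.char_is_prime_or_zero (R ⧸ m) p with h | h
    · exact h
    · exfalso
      subst h
      have : CharZero (R ⧸ m) := CharP.charP_to_charZero (R ⧸ m)
      exact (not_finite_iff_infinite.mpr (CharZero.infinite (R ⧸ m))) ‹_›
  haveI : Fact p.Prime := ⟨hprime⟩
  have hfrob : Function.Surjective (frobenius (R ⧸ m) p) :=
    Finite.surjective_of_injective (frobenius_inj (R ⧸ m) p)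
  let S : Set V := {v | ∃ y ∈ m, v = 1 ⊗ₜ D k R y}
  have hD : ∀ r : R, ((1 : R ⧸ m) ⊗ₜ[R] D k R r) ∈ S := by
    intro r
    obtain ⟨s', hs'⟩ := hfrob (Ideal.Quotient.mk m r)
    obtain ⟨s, rfl⟩ := Ideal.Quotient.mk_surjective s'
    rw [frobenius_def, ← map_pow] at hs'
    refine ⟨r - s ^ p, ?_, ?_⟩
    · rw [← Ideal.Quotient.eq, hs']
    · rw [map_sub, Derivation.leibniz_pow, TensorProduct.tmul_sub]
      have : ((1 : R ⧸ m) ⊗ₜ[R] (p • s ^ (p - 1) • D k R s)) = 0 := by
        rw [← TensorProduct.smul_tmul, nsmul_eq_mul, mul_one, CharP.cast_eq_zero, TensorProduct.zero_tmul]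
      rw [this, sub_zero]
  have h1 : ∀ ω : KaehlerDifferential k R, ((1 : R ⧸ m) ⊗ₜ[R] ω) ∈ Submodule.span (R ⧸ m) S := by
    intro ω
    have hω : ω ∈ Submodule.span R (Set.range (D k R)) := by
      rw [KaehlerDifferential.span_range_derivation]; trivial
    induction hω using Submodule.span_induction with
    | mem x hx =>
      obtain ⟨r, rfl⟩ := hx
      exact Submodule.subset_span (hD r)
    | zero => rw [TensorProduct.tmul_zero]; exact Submodule.zero_mem _
    | add x y _ _ hx hy => rw [TensorProduct.tmul_add]; exact Submodule.add_mem _ hx hy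
    | smul c x _ hx =>
      have : ((1 : R ⧸ m) ⊗ₜ[R] (c • x)) = (Ideal.Quotient.mk m c) • ((1 : R ⧸ m) ⊗ₜ[R] x) := by
        rw [TensorProduct.tmul_smul, ← algebraMap_smul (R ⧸ m) c]
        rfl
      rw [this]
      exact Submodule.smul_mem _ _ hx
  have hS : (⊤ : Submodule (R ⧸ m) V) ≤ Submodule.span (R ⧸ m) S := by
    intro v _
    induction v using TensorProduct.induction_on with
    | zero => exact Submodule.zero_mem _
    | tmul c ω =>
      have : (c ⊗ₜ[R] ω : V) = c • ((1 : R ⧸ m) ⊗ₜ[R] ω) := by
        rw [TensorProduct.smul_tmul', smul_eq_mul, mul_one]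
      rw [this]
      exact Submodule.smul_mem _ _ (h1 ω)
    | add x y hx hy => exact Submodule.add_mem _ (hx trivial) (hy trivial)
  haveI : Module.Finite (R ⧸ m) V := Module.finite_of_finrank_pos (by rw [hdim]; exact hd)
  let b0 := Module.Basis.ofSpan hS
  haveI : Finite ↑((linearIndepOn_empty (R ⧸ m) id).extend (Set.empty_subset S)) := Module.Finite.finite_basis b0
  let b : Module.Basis (Fin d) (R ⧸ m) V := b0.reindex (Finite.equivFinOfCardEq (by
    rw [← hdim, Module.finrank_eq_nat_card_basis b0]))
  have hb : ∀ i, ∃ y ∈ m, b i = 1 ⊗ₜ D k R y := by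
    intro i
    have : b i ∈ S := by
      apply Module.Basis.ofSpan_subset hS
      rw [Module.Basis.reindex_apply]
      exact ⟨_, rfl⟩
    exact this
  choose y hym hyb using hb
  obtain ⟨g, hg⟩ := IsCyclic.exists_monoid_generator (α := (R ⧸ m)ˣ)
  let i0 : Fin d := ⟨0, hd⟩
  have hz : ∃ z' : R, Ideal.Quotient.mk m z' = g ∧ b.repr (1 ⊗ₜ D k R z') i0 ≠ 0 := by
    obtain ⟨z, hz⟩ := Ideal.Quotient.mk_surjective (I := m) (g : R ⧸ m)
    by_cases hc : b.repr (1 ⊗ₜ D k R z) i0 = 0
    · refine ⟨z + y i0, ?_, ?_⟩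
      · rw [map_add, Ideal.Quotient.eq_zero_iff_mem.mpr (hym i0), add_zero, hz]
      · rw [map_add, TensorProduct.tmul_add, map_add, Finsupp.add_apply, hc, ← hyb, zero_add]
        simp
    · exact ⟨z, hz, hc⟩
  obtain ⟨z', hz', hc⟩ := hz
  let a : Fin d → R := Function.update y i0 z'
  have ha0 : a i0 = z' := by simp [a]
  have haj : ∀ j, j ≠ i0 → a j = y j := fun j hj => by simp [a, hj]
  have hspan : ∀ v : V, v ∈ Submodule.span (R ⧸ m) (Set.range (fun i => ((1 : R ⧸ m) ⊗ₜ[R] D k R (a i) : V))) := by
    have hbj : ∀ j, j ≠ i0 → b j ∈ Submodule.span (R ⧸ m) (Set.range (fun i => ((1 : R ⧸ m) ⊗ₜ[R] D k R (a i) : V))) := by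
      intro j hj
      refine Submodule.subset_span ⟨j, ?_⟩
      change ((1 : R ⧸ m) ⊗ₜ[R] D k R (a j) : V) = b j
      rw [haj j hj, ← hyb]
    have hb0 : b i0 ∈ Submodule.span (R ⧸ m) (Set.range (fun i => ((1 : R ⧸ m) ⊗ₜ[R] D k R (a i) : V))) := by
      have h2 := b.sum_repr (1 ⊗ₜ D k R z')
      rw [← Finset.add_sum_erase _ _ (Finset.mem_univ i0)] at h2
      have h3 : b i0 = (b.repr (1 ⊗ₜ D k R z') i0)⁻¹ • ((1 ⊗ₜ D k R z') -
          ∑ x ∈ Finset.univ.erase i0, (b.repr (1 ⊗ₜ D k R z')) x • b x) := by
        rw [eq_inv_smul_iff₀ hc, eq_sub_iff_add_eq]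
        exact h2
      rw [h3]
      refine Submodule.smul_mem _ _ (Submodule.sub_mem _ ?_ (Submodule.sum_mem _ (fun x hx => ?_)))
      · refine Submodule.subset_span ⟨i0, ?_⟩
        change ((1 : R ⧸ m) ⊗ₜ[R] D k R (a i0) : V) = _
        rw [ha0]
      · exact Submodule.smul_mem _ _ (hbj x (Finset.ne_of_mem_erase hx))
    intro v
    rw [← b.sum_repr v]
    refine Submodule.sum_mem _ (fun j _ => Submodule.smul_mem _ _ ?_)
    by_cases hj : j = i0
    · rw [hj]; exact hb0
    · exact hbj j hj
  refine ⟨a, ?_, ?_⟩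
  · intro r
    have h4 := hspan (1 ⊗ₜ D k R r)
    rw [Submodule.mem_span_range_iff_exists_fun] at h4
    obtain ⟨c, hc'⟩ := h4
    choose c' hc'' using fun i => Ideal.Quotient.mk_surjective (I := m) (c i)
    have h5 : (1 : R ⧸ m) ⊗ₜ[R] (D k R r - ∑ i, c' i • D k R (a i)) = 0 := by
      rw [TensorProduct.tmul_sub, TensorProduct.tmul_sum, ← hc', sub_eq_zero]
      refine Finset.sum_congr rfl (fun i _ => ?_)
      rw [TensorProduct.tmul_smul, ← algebraMap_smul (R ⧸ m) (c' i), ← hc'' i]
      rfl
    have h6 := mem_smul_of_tmul_eq_zero m _ h5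
    have h7 : D k R r = (∑ i, c' i • D k R (a i)) + (D k R r - ∑ i, c' i • D k R (a i)) := by abel
    rw [h7]
    refine Submodule.add_mem_sup (Submodule.sum_mem _ (fun i _ => Submodule.smul_mem _ _ (Submodule.subset_span ⟨i, rfl⟩))) h6
  · intro r hr
    have h8 : Ideal.Quotient.mk m r ≠ 0 := fun h => hr (Ideal.Quotient.eq_zero_iff_mem.mp h)
    obtain ⟨j, hj⟩ := hg (Units.mk0 _ h8)
    refine ⟨j, ?_⟩
    rw [← Ideal.Quotient.eq, map_pow]
    change _ = (Ideal.Quotient.mk m (a i0)) ^ j
    rw [ha0, hz']
    have h9 := congrArg Units.val hj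
    simpa using h9.symm

end

theorem result
    (k : Type u) [CommRing k] [IsLocalRing k] [Finite (IsLocalRing.ResidueField k)]
    (R : Type u) [CommRing R] [Algebra k R] [Algebra.FinitePresentation k R]
    (m : Ideal R) [m.IsMaximal] (hm : m.comap (algebraMap k R) = IsLocalRing.maximalIdeal k)
    [Algebra.IsSmoothAt k m] (d : ℕ) (hd : 0 < d)
    (hdim : Module.finrank (R ⧸ m) ((R ⧸ m) ⊗[R] KaehlerDifferential k R) = d) :
    ∃ g : R, g ∉ m ∧ ∃ φ : MvPolynomial (Fin d) k →ₐ[k] Localization.Away g,
      φ.toRingHom.Etale ∧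
      Function.Surjective
        ((Ideal.Quotient.mk (m.map (algebraMap R (Localization.Away g)))).comp φ.toRingHom) := by
  haveI := finite_quot m hm
  obtain ⟨a, H, hpow⟩ := exists_a m d hd hdim
  letI : Algebra (MvPolynomial (Fin d) k) R := (MvPolynomial.aeval a).toRingHom.toAlgebra
  haveI : IsScalarTower k (MvPolynomial (Fin d) k) R := IsScalarTower.of_algebraMap_eq (fun x => by
    change _ = MvPolynomial.aeval a (algebraMap k _ x)
    rw [AlgHom.commutes])
  have hX : ∀ i, algebraMap (MvPolynomial (Fin d) k) R (X i) = a i := fun i => MvPolynomial.aeval_X a i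
  haveI := isEtaleAt_of_span m d hdim a H hX
  haveI : Algebra.FinitePresentation (MvPolynomial (Fin d) k) R :=
    Algebra.FinitePresentation.of_restrict_scalars_finitePresentation k (MvPolynomial (Fin d) k) R
  obtain ⟨g, hg, het⟩ := Algebra.exists_etale_of_isEtaleAt (R := MvPolynomial (Fin d) k) m
  refine ⟨g, hg, IsScalarTower.toAlgHom k (MvPolynomial (Fin d) k) (Localization.Away g), ?_, ?_⟩
  · exact RingHom.etale_algebraMap.mpr het
  · intro t
    obtain ⟨t, rfl⟩ := Ideal.Quotient.mk_surjective t
    obtain ⟨⟨r, s⟩, hrs⟩ := IsLocalization.surj (Submonoid.powers g) t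
    -- inverse of s mod m
    have hs : (s : R) ∉ m := by
      obtain ⟨_, n, rfl⟩ := s
      exact fun h => hg (Ideal.IsPrime.mem_of_pow_mem inferInstance n h)
    obtain ⟨s', hs'⟩ : ∃ s' : R, (s : R) * s' - 1 ∈ m := by
      letI := Ideal.Quotient.field m
      have h8 : Ideal.Quotient.mk m (s : R) ≠ 0 := fun h => hs (Ideal.Quotient.eq_zero_iff_mem.mp h)
      obtain ⟨s', hs'⟩ := Ideal.Quotient.mk_surjective (I := m) (Ideal.Quotient.mk m (s : R))⁻¹
      refine ⟨s', ?_⟩
      rw [← Ideal.Quotient.eq, map_mul, hs', map_one]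
      exact mul_inv_cancel₀ h8
    have hmap : ∀ x ∈ m, algebraMap R (Localization.Away g) x ∈ m.map (algebraMap R (Localization.Away g)) :=
      fun x hx => Ideal.mem_map_of_mem _ hx
    have h1 : t - algebraMap R (Localization.Away g) (r * s') ∈ m.map (algebraMap R (Localization.Away g)) := by
      have h2 := hmap _ hs'
      have h3 : t - algebraMap R (Localization.Away g) (r * s') =
          - (t * algebraMap R (Localization.Away g) ((s : R) * s' - 1)) := by
        have h4 : t * algebraMap R (Localization.Away g) (s : R) = algebraMap R (Localization.Away g) r := hrs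
        rw [map_mul, map_sub, map_mul, map_one, ← h4]
        ring
      rw [h3]
      exact Ideal.neg_mem_iff _ |>.mpr (Ideal.mul_mem_left _ _ h2)
    by_cases hr : r * s' ∈ m
    · refine ⟨0, ?_⟩
      rw [map_zero, eq_comm, Ideal.Quotient.eq_zero_iff_mem]
      have := Ideal.add_mem _ h1 (hmap _ hr)
      rwa [sub_add_cancel] at this
    · obtain ⟨j, hj⟩ := hpow _ hr
      refine ⟨(X ⟨0, hd⟩) ^ j, ?_⟩
      rw [RingHom.comp_apply, eq_comm, Ideal.Quotient.eq]
      have h5 : ((IsScalarTower.toAlgHom k (MvPolynomial (Fin d) k) (Localization.Away g)).toRingHom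
          ((X ⟨0, hd⟩) ^ j)) = algebraMap R (Localization.Away g) ((a ⟨0, hd⟩) ^ j) := by
        change algebraMap (MvPolynomial (Fin d) k) (Localization.Away g) ((X ⟨0, hd⟩) ^ j) = _
        rw [IsScalarTower.algebraMap_apply (MvPolynomial (Fin d) k) R (Localization.Away g), map_pow (algebraMap (MvPolynomial (Fin d) k) R), hX]
      rw [h5]
      have h6 := Ideal.add_mem _ h1 (hmap _ hj)
      rw [map_sub (algebraMap R (Localization.Away g))] at h6
      have h7 : t - algebraMap R (Localization.Away g) (r * s') + (algebraMap R (Localization.Away g) (r * s') - algebraMap R (Localization.Away g) (a ⟨0, hd⟩ ^ j)) = t - algebraMap R (Localization.Away g) (a ⟨0, hd⟩ ^ j) := by ring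
      rwa [h7] at h6

end Groth.Agent.S17854
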