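import Mathlib
import Groth.Statements.S17872

set_option autoImplicit false
universe u v
open GRRSing

namespace Groth.Agent.S17872


/-- Let H be a vector space over a field K and let b_0, …, b_l be elements of H. If the sum of the t ^ i
• b_i vanishes for infinitely many scalars t of K, then all the b_i are zero. -/
theorem result {K : Type u} {H : Type v} [Field K] [AddCommGroup H] [Module K H]
    (l : ℕ) (b : Fin (l + 1) → H)
    (h : Set.Infinite {t : K | ∑ i : Fin (l + 1), t ^ (i : ℕ) • b i = 0}) :
    b = 0 := by
  funext i
  rw [Pi.zero_apply, ← Module.forall_dual_apply_eq_zero_iff K]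
  intro φ
  let P : Polynomial K := ∑ j : Fin (l + 1), Polynomial.monomial (j : ℕ) (φ (b j))
  have hP : P = 0 := by
    apply Polynomial.eq_zero_of_infinite_isRoot
    refine h.mono ?_
    intro t ht
    have h1 : φ (∑ i : Fin (l + 1), t ^ (i : ℕ) • b i) = 0 := by rw [ht, map_zero]
    change P.eval t = 0
    rw [Polynomial.eval_finset_sum]
    simp only [Polynomial.eval_monomial]
    rw [map_sum] at h1
    simp only [map_smul, smul_eq_mul] at h1
    rw [← h1]
    exact Finset.sum_congr rfl (fun j _ => mul_comm _ _)
  have h2 : P.coeff (i : ℕ) = φ (b i) := by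
    rw [Polynomial.finset_sum_coeff]
    simp only [Polynomial.coeff_monomial]
    rw [Finset.sum_eq_single i]
    · simp
    · intro j _ hj
      rw [if_neg]
      intro h3
      exact hj (Fin.ext h3)
    · simp
  rw [← h2, hP, Polynomial.coeff_zero]

end Groth.Agent.S17872
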