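import Mathlib
import Groth.Statements.S17878
import Mathlib

set_option autoImplicit false
universe u
open Filter Topology
open GRRSing

namespace Groth.Agent.S17878

noncomputable def SS (j : ℕ) (y : ℂ) : ℂ := ∑' k : ℕ, (k : ℂ) ^ j * y ^ k

theorem SS_rec (j : ℕ) (y : ℂ) (hy : ‖y‖ < 1) :
    SS j y * (1 - y) = 0 ^ j + y * ∑ i ∈ Finset.range j, (j.choose i : ℂ) * SS i y := by
  have hs : ∀ i : ℕ, Summable (fun k : ℕ => (k : ℂ) ^ i * y ^ k) := fun i => summable_pow_mul_geometric_of_norm_lt_one i hy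
  have h1 : SS j y = 0 ^ j + ∑' k : ℕ, ((k + 1 : ℕ) : ℂ) ^ j * y ^ (k + 1) := by
    rw [SS, (hs j).tsum_eq_zero_add]; simp
  have h2 : ∑' k : ℕ, ((k + 1 : ℕ) : ℂ) ^ j * y ^ (k + 1) = y * ∑ i ∈ Finset.range (j + 1), (j.choose i : ℂ) * SS i y := by
    have : ∀ k : ℕ, ((k + 1 : ℕ) : ℂ) ^ j * y ^ (k + 1) = ∑ i ∈ Finset.range (j + 1), (y * j.choose i) * ((k : ℂ) ^ i * y ^ k) := by
      intro k
      rw [Nat.cast_add, Nat.cast_one, add_pow, Finset.sum_mul]
      apply Finset.sum_congr rfl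
      intro i _
      rw [pow_succ, one_pow]; ring
    rw [tsum_congr this, Summable.tsum_finsetSum (fun i _ => (hs i).mul_left _), Finset.mul_sum]
    apply Finset.sum_congr rfl
    intro i _
    rw [tsum_mul_left, SS]; ring
  rw [Finset.sum_range_succ, Nat.choose_self] at h2
  push_cast at h2
  push_cast at h1
  linear_combination h1 + h2

theorem E_rec (E : ℕ → ℚ) (hE : PowerSeries.mk (fun j => E j / (j.factorial : ℚ)) * (PowerSeries.exp ℚ + 1) = 2) (j : ℕ) :
    2 * E j + ∑ i ∈ Finset.range j, (j.choose i : ℚ) * E i = 2 * 0 ^ j := by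
  have h := congrArg (PowerSeries.coeff j) hE
  rw [mul_add, mul_one, map_add, PowerSeries.coeff_mk, PowerSeries.coeff_mul, Finset.Nat.sum_antidiagonal_eq_sum_range_succ_mk,
    (map_ofNat (PowerSeries.C (R := ℚ)) 2).symm, PowerSeries.coeff_C, Finset.sum_range_succ] at h
  simp only [PowerSeries.coeff_mk, PowerSeries.coeff_exp] at h
  have hf : (j.factorial : ℚ) ≠ 0 := by exact_mod_cast j.factorial_ne_zero
  have h3 : ∑ i ∈ Finset.range j, (j.choose i : ℚ) * E i = (j.factorial : ℚ) * ∑ x ∈ Finset.range j, E x / (x.factorial : ℚ) * (algebraMap ℚ ℚ) (1 / ((j - x).factorial : ℚ)) := by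
    rw [Finset.mul_sum]
    apply Finset.sum_congr rfl
    intro i hi
    rw [Finset.mem_range] at hi
    rw [Nat.cast_choose ℚ hi.le]
    have h1 : (i.factorial : ℚ) ≠ 0 := by exact_mod_cast i.factorial_ne_zero
    have h2 : ((j - i).factorial : ℚ) ≠ 0 := by exact_mod_cast (j - i).factorial_ne_zero
    simp only [Algebra.algebraMap_self, RingHom.id_apply]
    field_simp
  rw [h3]
  have h4 : (j.factorial : ℚ) * (E j / (j.factorial : ℚ)) = E j := by field_simp
  have h5 : (2 : ℚ) * 0 ^ j = (j.factorial : ℚ) * (if j = 0 then 2 else 0) := by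
    split_ifs with h0
    · subst h0; simp
    · rw [zero_pow h0]; simp
  rw [h5, ← h]
  simp only [Nat.sub_self, Nat.factorial_zero, Nat.cast_one, div_one, map_one, mul_one]
  linear_combination (-2) * h4

theorem SS_tendsto (E : ℕ → ℚ) (hE : PowerSeries.mk (fun j => E j / (j.factorial : ℚ)) * (PowerSeries.exp ℚ + 1) = 2) (j : ℕ) :
    Filter.Tendsto (fun y : ℝ => SS j (y : ℂ)) (nhdsWithin (-1) (Set.Ioo (-1 : ℝ) 1)) (nhds ((2 : ℂ)⁻¹ * (E j : ℂ))) := by
  induction j using Nat.strong_induction_on with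
  | _ j ih =>
    have hid : Filter.Tendsto (fun y : ℝ => (y : ℂ)) (nhdsWithin (-1) (Set.Ioo (-1 : ℝ) 1)) (nhds (-1 : ℂ)) := by
      have h1 : Filter.Tendsto (fun y : ℝ => (y : ℂ)) (nhds (-1 : ℝ)) (nhds ((-1 : ℝ) : ℂ)) := Complex.continuous_ofReal.tendsto _
      have h2 : ((-1 : ℝ) : ℂ) = -1 := by simp
      rw [h2] at h1
      exact h1.mono_left nhdsWithin_le_nhds
    have h3 : Filter.Tendsto (fun y : ℝ => ((0 : ℂ) ^ j + (y : ℂ) * ∑ i ∈ Finset.range j, (j.choose i : ℂ) * SS i (y : ℂ)) / (1 - (y : ℂ)))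
        (nhdsWithin (-1) (Set.Ioo (-1 : ℝ) 1)) (nhds (((0 : ℂ) ^ j + (-1) * ∑ i ∈ Finset.range j, (j.choose i : ℂ) * ((2 : ℂ)⁻¹ * (E i : ℂ))) / (1 - (-1)))) := by
      refine Filter.Tendsto.div ?_ (tendsto_const_nhds.sub hid) (by norm_num)
      refine tendsto_const_nhds.add (hid.mul ?_)
      refine tendsto_finset_sum _ fun i hi => ?_
      exact tendsto_const_nhds.mul (ih i (Finset.mem_range.mp hi))
    have h4 : (((0 : ℂ) ^ j + (-1) * ∑ i ∈ Finset.range j, (j.choose i : ℂ) * ((2 : ℂ)⁻¹ * (E i : ℂ))) / (1 - (-1))) = (2 : ℂ)⁻¹ * (E j : ℂ) := by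
      have h5 := congrArg (fun q : ℚ => (q : ℂ)) (E_rec E hE j)
      push_cast at h5
      have h6 : ∑ i ∈ Finset.range j, (j.choose i : ℂ) * ((2 : ℂ)⁻¹ * (E i : ℂ)) = (2 : ℂ)⁻¹ * ∑ i ∈ Finset.range j, (j.choose i : ℂ) * (E i : ℂ) := by
        rw [Finset.mul_sum]
        apply Finset.sum_congr rfl
        intro i _; ring
      rw [h6]
      linear_combination (-1 / 4 : ℂ) * h5
    rw [h4] at h3
    refine h3.congr' ?_
    filter_upwards [self_mem_nhdsWithin] with y hy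
    have hy1 : ‖(y : ℂ)‖ < 1 := by
      rw [Complex.norm_real, Real.norm_eq_abs, abs_lt]
      exact hy
    have hne : (1 : ℂ) - y ≠ 0 := by
      intro h
      have : (y : ℂ) = 1 := (sub_eq_zero.mp h).symm
      rw [this] at hy1
      simp at hy1
    rw [← SS_rec j _ hy1, mul_div_assoc, div_self hne, mul_one]

/-- Let T be a nonzero commutative normed ℂ-algebra such that the map ℂ → T/nilradical(T) is surjective,
let P = Σ_j d_j x ^ j be a polynomial over T and put h_k = P(k). Let E_0, E_1, … be the rational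
numbers with 2/(e^t + 1) = Σ_j E_j t ^ j / j! (so E_0 = 1, E_1 = -1/2). Then for every complex y
with |y| < 1 the series Σ_k h_k y ^ k converges in T, and as y → -1 along real y in (-1, 1) its sum
tends to (1/2) Σ_j E_j d_j. (The published statement allows any norm topology on T as a complex
vector space; this row takes T a normed ℂ-algebra.) -/
theorem result {T : Type u} [NormedCommRing T] [NormedAlgebra ℂ T] [Nontrivial T]
    (hT : Function.Surjective (algebraMap ℂ (T ⧸ nilradical T)))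
    (E : ℕ → ℚ) (hE : PowerSeries.mk (fun j => E j / (j.factorial : ℚ)) * (PowerSeries.exp ℚ + 1) = 2)
    (P : Polynomial T) :
    (∀ y : ℂ, ‖y‖ < 1 → Summable (fun k : ℕ => y ^ k • P.eval (k : T))) ∧
    Tendsto (fun y : ℝ => ∑' k : ℕ, ((y : ℂ) ^ k) • P.eval (k : T)) (𝓝[Set.Ioo (-1 : ℝ) 1] (-1 : ℝ))
      (𝓝 ((2 : ℂ)⁻¹ • ∑ j ∈ Finset.range (P.natDegree + 1), ((E j : ℚ) : ℂ) • P.coeff j)) := by
  have hs : ∀ (y : ℂ), ‖y‖ < 1 → ∀ i : ℕ, Summable (fun k : ℕ => (k : ℂ) ^ i * y ^ k) := fun y hy i => summable_pow_mul_geometric_of_norm_lt_one i hy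
  have he : ∀ (y : ℂ) (k : ℕ), y ^ k • P.eval (k : T) = ∑ j ∈ Finset.range (P.natDegree + 1), ((k : ℂ) ^ j * y ^ k) • P.coeff j := by
    intro y k
    rw [Polynomial.eval_eq_sum_range, Finset.smul_sum]
    apply Finset.sum_congr rfl
    intro j _
    have h1 : (k : T) ^ j = algebraMap ℂ T ((k : ℂ) ^ j) := by simp
    rw [h1, mul_comm (P.coeff j), ← Algebra.smul_def, smul_smul, mul_comm]
  have hsum : ∀ (y : ℂ), ‖y‖ < 1 → ∀ j, Summable (fun k : ℕ => ((k : ℂ) ^ j * y ^ k) • P.coeff j) := fun y hy j => (hs y hy j).smul_const (P.coeff j)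
  constructor
  · intro y hy
    simp_rw [he]
    exact summable_sum fun j _ => hsum y hy j
  · have h2 : ∀ y : ℝ, y ∈ Set.Ioo (-1 : ℝ) 1 → ∑' k : ℕ, ((y : ℂ) ^ k) • P.eval (k : T) = ∑ j ∈ Finset.range (P.natDegree + 1), SS j (y : ℂ) • P.coeff j := by
      intro y hy
      have hy1 : ‖(y : ℂ)‖ < 1 := by
        rw [Complex.norm_real, Real.norm_eq_abs, abs_lt]
        exact hy
      rw [tsum_congr (he (y : ℂ)), Summable.tsum_finsetSum (fun j _ => hsum _ hy1 j)]
      apply Finset.sum_congr rfl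
      intro j _
      rw [SS, (hs _ hy1 j).tsum_smul_const]
    have h3 : Tendsto (fun y : ℝ => ∑ j ∈ Finset.range (P.natDegree + 1), SS j (y : ℂ) • P.coeff j) (𝓝[Set.Ioo (-1 : ℝ) 1] (-1 : ℝ))
      (𝓝 (∑ j ∈ Finset.range (P.natDegree + 1), ((2 : ℂ)⁻¹ * (E j : ℂ)) • P.coeff j)) :=
      tendsto_finset_sum _ fun j _ => (SS_tendsto E hE j).smul_const (P.coeff j)
    have h4 : ((2 : ℂ)⁻¹ • ∑ j ∈ Finset.range (P.natDegree + 1), ((E j : ℚ) : ℂ) • P.coeff j) = ∑ j ∈ Finset.range (P.natDegree + 1), ((2 : ℂ)⁻¹ * (E j : ℂ)) • P.coeff j := by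
      rw [Finset.smul_sum]
      apply Finset.sum_congr rfl
      intro j _
      rw [smul_smul]
    rw [h4]
    refine h3.congr' ?_
    filter_upwards [self_mem_nhdsWithin] with y hy
    rw [h2 y hy]

end Groth.Agent.S17878
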