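import Groth.Statements.S18049
import Mathlib

set_option autoImplicit false
open STCI

namespace Groth.Agent.S18049

/-- For natural numbers 0 < k < N such that k does not divide N, ⌊N/k⌋ ≤ (N - k)/gcd(k, N); stated here
in the equivalent cleared form ⌊N/k⌋ · gcd(k, N) ≤ N - k. -/
theorem result (k N : ℕ) (hk : 0 < k) (hkN : k < N) (hndvd : ¬ k ∣ N) :
    N / k * Nat.gcd k N ≤ N - k := by
  have hg : 0 < Nat.gcd k N := Nat.gcd_pos_of_pos_left _ hk
  obtain ⟨a, ha⟩ := Nat.gcd_dvd_left k N
  obtain ⟨b, hb⟩ := Nat.gcd_dvd_right k N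
  set g := Nat.gcd k N with hgdef
  have hq : N / k = b / a := by
    conv_lhs => rw [ha, hb]
    exact Nat.mul_div_mul_left _ _ hg
  have ha0 : 0 < a := by
    rcases Nat.eq_zero_or_pos a with h | h
    · rw [h] at ha; omega
    · exact h
  have hab : a < b := by
    by_contra hcon
    push_neg at hcon
    have := Nat.mul_le_mul_left g hcon
    omega
  have hnd : ¬ a ∣ b := by
    rintro ⟨c, hc⟩
    apply hndvd
    refine ⟨c, ?_⟩
    rw [hb, hc, ← mul_assoc, ← ha]
  have hmod := Nat.div_add_mod b a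
  have hmod0 : 0 < b % a := Nat.pos_of_ne_zero (fun h => hnd (Nat.dvd_of_mod_eq_zero h))
  have hq1 : 1 ≤ b / a := Nat.div_pos hab.le ha0
  have key : b / a + a ≤ b := by
    nlinarith [Nat.mul_le_mul ha0 hq1]
  rw [hq]
  have : (b / a + a) * g ≤ b * g := Nat.mul_le_mul_right g key
  have h1 : N = b * g := by rw [mul_comm]; exact hb
  have h2 : k = a * g := by rw [mul_comm]; exact ha
  have : b / a * g + a * g ≤ b * g := by linarith
  omega

end Groth.Agent.S18049
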