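import Groth.Statements.S18050
import Mathlib

set_option autoImplicit false
open STCI

namespace Groth.Agent.S18050

open W4c5stcicurvesp3

theorem irem_shift (a b : ℕ) (h : a % b ≠ 0) : ∀ i, irem a b (i + 1) = irem b (a % b) i
  | 0 => by simp [irem]
  | 1 => by simp [irem, h]
  | (i + 2) => by
    have h1 := irem_shift a b h (i + 1)
    have h2 := irem_shift a b h i
    change (if irem a b (i + 1 + 1) = 0 then 0 else irem a b (i + 1) % irem a b (i + 1 + 1)) =
      (if irem b (a % b) (i + 1) = 0 then 0 else irem b (a % b) i % irem b (a % b) (i + 1))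
    rw [h1, h2]

theorem idiv_shift (a b : ℕ) (h : a % b ≠ 0) : ∀ i, idiv a b (i + 2) = idiv b (a % b) (i + 1)
  | 0 => by simp [idiv, irem, h]
  | (i + 1) => by
    change (if irem a b (i + 1 + 1) = 0 then 0 else irem a b (i + 1) / irem a b (i + 1 + 1)) =
      (if irem b (a % b) (i + 1) = 0 then 0 else irem b (a % b) i / irem b (a % b) (i + 1))
    rw [irem_shift a b h (i + 1), irem_shift a b h i]

theorem main : ∀ (t N k : ℕ), 0 < k → k ≤ N → irem N k (t + 1) = 0 → (∀ i, 0 < i → i < t + 1 → irem N k i ≠ 0) →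
    (∑ i ∈ Finset.range (t + 1), idiv N k (i + 1)) * Nat.gcd k N ≤ N
  | 0, N, k, hk, hkN, hz, _ => by
    have h0 : N % k = 0 := by simpa [irem] using hz
    simp only [zero_add, Finset.sum_range_one, idiv]
    exact (Nat.mul_le_mul_left _ (Nat.gcd_le_left _ hk)).trans (Nat.div_mul_le_self _ _)
  | (t + 1), N, k, hk, hkN, hz, hmin => by
    have h1 : N % k ≠ 0 := by simpa [irem] using hmin 1 (by omega) (by omega)
    have ih := main t k (N % k) (Nat.pos_of_ne_zero h1) (Nat.mod_lt _ hk).le (by rw [← irem_shift N k h1]; exact hz)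
      (fun i hi hit => by rw [← irem_shift N k h1]; exact hmin (i + 1) (by omega) (by omega))
    rw [Finset.sum_range_succ']
    have h2 : ∑ i ∈ Finset.range (t + 1), idiv N k (i + 1 + 1) = ∑ i ∈ Finset.range (t + 1), idiv k (N % k) (i + 1) :=
      Finset.sum_congr rfl fun i _ => idiv_shift N k h1 i
    rw [h2, add_mul]
    have hg : Nat.gcd (N % k) k = Nat.gcd k N := by rw [← Nat.gcd_rec]
    rw [hg] at ih
    have h3 : idiv N k (0 + 1) = N / k := by simp [idiv]
    rw [h3]
    have hd1 : 1 ≤ N / k := Nat.div_pos hkN hk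
    have hgle : Nat.gcd k N ≤ N % k := by
      rw [← hg]; exact Nat.gcd_le_left _ (Nat.pos_of_ne_zero h1)
    have hgk : Nat.gcd k N ≤ k := Nat.gcd_le_left _ hk
    have hN : N = k * (N / k) + N % k := (Nat.div_add_mod N k).symm
    obtain ⟨c, hc⟩ := Nat.exists_eq_add_of_le hgk
    obtain ⟨q, hq⟩ := Nat.exists_eq_add_of_le hd1
    set g := Nat.gcd k N
    have h5 : N / k * g + k ≤ N := by
      have : k * (N / k) = g * (N / k) + c * (N / k) := by rw [← add_mul, ← hc]
      have h6 : c ≤ c * (N / k) := Nat.le_mul_of_pos_right _ hd1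
      have h7 : N / k * g = g * (N / k) := mul_comm _ _
      omega
    omega


open W4c5stcicurvesp3 in
/-- Let k ≤ N be positive integers, let t be the least positive integer with rem_t(N, k) = 0, where
rem_0 = k, rem_1 = N mod k and rem_i is the remainder of rem_{i-2} by rem_{i-1} (iterated Euclidean
remainders), and let d_i be the corresponding iterated quotients (d_1 = ⌊N/k⌋, d_i =
⌊rem_{i-2}/rem_{i-1}⌋). Then d_1 + ⋯ + d_t ≤ N/gcd(k, N); stated in the cleared form (d_1 + ⋯ + d_t)
· gcd(k, N) ≤ N. -/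
theorem result (k N t : ℕ) (hk : 0 < k) (hkN : k ≤ N) (ht : 0 < t)
    (hzero : irem N k t = 0) (hmin : ∀ i, 0 < i → i < t → irem N k i ≠ 0) :
    (∑ i ∈ Finset.Icc 1 t, idiv N k i) * Nat.gcd k N ≤ N := by
  obtain ⟨t, rfl⟩ : ∃ t', t = t' + 1 := ⟨t - 1, by omega⟩
  have h := main t N k hk hkN hzero hmin
  rw [Finset.range_eq_Ico, Finset.sum_Ico_add' (fun i => idiv N k i) 0 (t + 1) 1] at h
  exact h

end Groth.Agent.S18050
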