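import Groth.Statements.S18051
import Mathlib

set_option autoImplicit false
open STCI

namespace Groth.Agent.S18051

open W4c5stcicurvesp3 in
/-- Let k ≤ N/2 be positive integers and let r_i = rem_i(N, k), d_i = div_i(N, k) be the iterated
Euclidean remainders and quotients of (N, k) (r_0 = k, r_1 = N mod k, r_2 = r_0 mod r_1, d_1 =
⌊N/k⌋, d_2 = ⌊r_0/r_1⌋). If the least positive t with r_t = 0 satisfies t ≥ 3, i.e. r_1 ≠ 0 and r_2
≠ 0, then (r_0 - r_1)/d_1 + (r_1 - r_2)/(d_1 + d_2) + r_2/(d_1 + d_2 + 1) ≤ k²/N (in ℚ). -/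
theorem result (k N : ℕ) (hk : 0 < k) (hkN : 2 * k ≤ N)
    (h1 : irem N k 1 ≠ 0) (h2 : irem N k 2 ≠ 0) :
    ((irem N k 0 : ℚ) - irem N k 1) / (idiv N k 1)
      + ((irem N k 1 : ℚ) - irem N k 2) / ((idiv N k 1 : ℚ) + idiv N k 2)
      + (irem N k 2 : ℚ) / ((idiv N k 1 : ℚ) + idiv N k 2 + 1)
      ≤ (k : ℚ) ^ 2 / N := by
  have hr0 : irem N k 0 = k := rfl
  have hr1 : irem N k 1 = N % k := rfl
  rw [hr1] at h1
  have hr2 : irem N k 2 = k % (N % k) := by simp [irem, h1]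
  rw [hr2] at h2
  have hd1 : idiv N k 1 = N / k := rfl
  have hd2 : idiv N k 2 = k / (N % k) := by simp [idiv, irem, h1]
  rw [hr0, hr1, hr2, hd1, hd2]
  have ha : 2 ≤ N / k := (Nat.le_div_iff_mul_le hk).2 hkN
  have hb : 1 ≤ k / (N % k) := Nat.div_pos (Nat.mod_lt _ hk).le (Nat.pos_of_ne_zero h1)
  have hN : N = k * (N / k) + N % k := (Nat.div_add_mod N k).symm
  have hk' : k = (N % k) * (k / (N % k)) + k % (N % k) := (Nat.div_add_mod k (N % k)).symm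
  have hx : 0 < N % k := Nat.pos_of_ne_zero h1
  have hy : 0 < k % (N % k) := Nat.pos_of_ne_zero h2
  have hNQ : (N : ℚ) = (k : ℚ) * ((N / k : ℕ) : ℚ) + ((N % k : ℕ) : ℚ) := by exact_mod_cast hN
  have hkQ : (k : ℚ) = ((N % k : ℕ) : ℚ) * ((k / (N % k) : ℕ) : ℚ) + ((k % (N % k) : ℕ) : ℚ) := by exact_mod_cast hk'
  have haQ : (2 : ℚ) ≤ ((N / k : ℕ) : ℚ) := by exact_mod_cast ha
  have hbQ : (1 : ℚ) ≤ ((k / (N % k) : ℕ) : ℚ) := by exact_mod_cast hb
  have hxQ : (0 : ℚ) < ((N % k : ℕ) : ℚ) := by exact_mod_cast hx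
  have hyQ : (0 : ℚ) < ((k % (N % k) : ℕ) : ℚ) := by exact_mod_cast hy
  generalize ((N / k : ℕ) : ℚ) = a at *
  generalize ((k / (N % k) : ℕ) : ℚ) = b at *
  generalize ((k % (N % k) : ℕ) : ℚ) = y at *
  generalize ((N % k : ℕ) : ℚ) = x at *
  rw [hNQ, hkQ]
  have hE : 0 ≤ (a + b + 1) * b * ((a - 1) * (b - 1)) * x ^ 2 + ((a + b + 1) * ((a - 1) * (b - 1)) + (a ^ 2 * b - b - 1)) * (x * y) + a ^ 2 * y ^ 2 := by
    have h3 : 0 ≤ (a - 1) * (b - 1) := mul_nonneg (by linarith) (by linarith)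
    have h4 : 0 ≤ a ^ 2 * b - b - 1 := by nlinarith
    positivity
  have hD : 0 < a * ((x * b + y) * a + x) * ((a + b) * (a + b + 1)) := by positivity
  rw [← sub_nonneg]
  have key : (x * b + y) ^ 2 / ((x * b + y) * a + x) - ((x * b + y - x) / a + (x - y) / (a + b) + y / (a + b + 1)) =
      ((a + b + 1) * b * ((a - 1) * (b - 1)) * x ^ 2 + ((a + b + 1) * ((a - 1) * (b - 1)) + (a ^ 2 * b - b - 1)) * (x * y) + a ^ 2 * y ^ 2) /
        (a * ((x * b + y) * a + x) * ((a + b) * (a + b + 1))) := by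
    have e1 : a ≠ 0 := by positivity
    have e2 : (x * b + y) * a + x ≠ 0 := by positivity
    have e3 : a + b ≠ 0 := by positivity
    have e4 : a + b + 1 ≠ 0 := by positivity
    field_simp
    ring
  rw [key]
  exact div_nonneg hE hD.le

end Groth.Agent.S18051
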