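import Groth.Statements.S18052
import Mathlib
import Groth.Agent.S18050

set_option autoImplicit false
open STCI

namespace Groth.Agent.S18052

open W4c5stcicurvesp3 Groth.Agent.S18050

theorem tele : ∀ (t N k : ℕ) (c : ℚ), 0 ≤ c → 0 < k → k ≤ N → irem N k (t + 1) = 0 → (∀ i, 0 < i → i < t + 1 → irem N k i ≠ 0) →
    ∑ i ∈ Finset.range (t + 1), ((irem N k i : ℚ) - irem N k (i + 1)) / (c + ∑ j ∈ Finset.range (i + 1), (idiv N k (j + 1) : ℚ))
      ≤ (k : ℚ) ^ 2 / (N + c * k)
  | 0, N, k, c, hc, hk, hkN, hz, _ => by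
    have h0 : N % k = 0 := by simpa [irem] using hz
    have hN : N = k * (N / k) := by
      have := Nat.div_add_mod N k
      omega
    have hd1 : 1 ≤ N / k := Nat.div_pos hkN hk
    have hd1Q : (1 : ℚ) ≤ ((N / k : ℕ) : ℚ) := by exact_mod_cast hd1
    have hkQ : (0 : ℚ) < k := by exact_mod_cast hk
    have hNQ : (N : ℚ) = k * ((N / k : ℕ) : ℚ) := by exact_mod_cast hN
    have e1 : irem N k 0 = k := rfl
    have e2 : irem N k (0 + 1) = 0 := hz
    have e3 : idiv N k (0 + 1) = N / k := rfl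
    rw [zero_add, Finset.sum_range_one, zero_add, Finset.sum_range_one, e1, e3]
    rw [show irem N k 1 = 0 from hz]
    generalize ((N / k : ℕ) : ℚ) = a at *
    rw [hNQ, Nat.cast_zero, sub_zero]
    apply le_of_eq
    have : c + a ≠ 0 := by positivity
    have h5 : k * a + c * k ≠ (0 : ℚ) := by positivity
    rw [div_eq_div_iff this h5]
    ring
  | (t + 1), N, k, c, hc, hk, hkN, hz, hmin => by
    have h1 : N % k ≠ 0 := by simpa [irem] using hmin 1 (by omega) (by omega)
    have hd1 : 1 ≤ N / k := Nat.div_pos hkN hk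
    have ih := tele t k (N % k) (c + ((N / k : ℕ) : ℚ)) (by positivity) (Nat.pos_of_ne_zero h1) (Nat.mod_lt _ hk).le (by rw [← irem_shift N k h1]; exact hz)
      (fun i hi hit => by rw [← irem_shift N k h1]; exact hmin (i + 1) (by omega) (by omega))
    rw [Finset.sum_range_succ']
    have h2 : ∑ i ∈ Finset.range (t + 1), ((irem N k (i + 1) : ℚ) - irem N k (i + 1 + 1)) / (c + ∑ j ∈ Finset.range (i + 1 + 1), (idiv N k (j + 1) : ℚ))
        = ∑ i ∈ Finset.range (t + 1), ((irem k (N % k) i : ℚ) - irem k (N % k) (i + 1)) / (c + ((N / k : ℕ) : ℚ) + ∑ j ∈ Finset.range (i + 1), (idiv k (N % k) (j + 1) : ℚ)) := by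
      refine Finset.sum_congr rfl fun i _ => ?_
      rw [irem_shift N k h1, irem_shift N k h1, Finset.sum_range_succ']
      have e3 : idiv N k (0 + 1) = N / k := rfl
      rw [e3]
      have e4 : ∑ j ∈ Finset.range (i + 1), (idiv N k (j + 1 + 1) : ℚ) = ∑ j ∈ Finset.range (i + 1), (idiv k (N % k) (j + 1) : ℚ) :=
        Finset.sum_congr rfl fun j _ => by rw [← idiv_shift N k h1 j]
      rw [e4]
      congr 1
      ring
    rw [h2]
    have e1 : irem N k 0 = k := rfl
    have e2 : irem N k (0 + 1) = N % k := rfl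
    have e3 : idiv N k (0 + 1) = N / k := rfl
    rw [zero_add, Finset.sum_range_one, e1, e2, zero_add, show idiv N k 1 = N / k from rfl]
    have hN : N = k * (N / k) + N % k := (Nat.div_add_mod N k).symm
    have hNQ : (N : ℚ) = k * ((N / k : ℕ) : ℚ) + ((N % k : ℕ) : ℚ) := by exact_mod_cast hN
    have hd1Q : (1 : ℚ) ≤ ((N / k : ℕ) : ℚ) := by exact_mod_cast hd1
    have hkQ : (0 : ℚ) < k := by exact_mod_cast hk
    have hxk : ((N % k : ℕ) : ℚ) < k := by exact_mod_cast Nat.mod_lt _ hk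
    have hx0 : (0 : ℚ) < ((N % k : ℕ) : ℚ) := by exact_mod_cast Nat.pos_of_ne_zero h1
    rw [hNQ]
    refine (add_le_add_left ih _).trans ?_
    generalize ((N % k : ℕ) : ℚ) = x at *
    generalize ((N / k : ℕ) : ℚ) = a at *
    generalize (k : ℚ) = κ at *
    have e5 : κ * a + x + c * κ = (c + a) * κ + x := by ring
    rw [e5]
    have hA : 1 ≤ c + a := by linarith
    generalize c + a = A at *
    have hA0 : 0 < A := by linarith
    rw [← sub_nonneg]
    have key : κ ^ 2 / (A * κ + x) - (x ^ 2 / (κ + A * x) + (κ - x) / A) =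
        (x * ((A - 1) * κ * (κ - x))) / (A * (A * κ + x) * (κ + A * x)) := by
      have p1 : A ≠ 0 := hA0.ne'
      have p2 : A * κ + x ≠ 0 := by positivity
      have p3 : κ + A * x ≠ 0 := by positivity
      field_simp
      ring
    rw [key]
    apply div_nonneg
    · exact mul_nonneg hx0.le (mul_nonneg (mul_nonneg (by linarith) hkQ.le) (by linarith))
    · positivity


open W4c5stcicurvesp3 in
/-- Let k ≤ N/2 be positive integers, let r_i = rem_i(N, k) and d_i = div_i(N, k) be the iterated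
Euclidean remainders and quotients of (N, k) (r_0 = k, r_1 = N mod k, …; d_1 = ⌊N/k⌋, d_i =
⌊r_{i-2}/r_{i-1}⌋), and let t be the least positive integer with r_t = 0. Then the sum over i = 0,
…, t - 1 of (r_i - r_{i+1})/(d_1 + ⋯ + d_{i+1}) is at most k²/N (in ℚ). -/
theorem result (k N t : ℕ) (hk : 0 < k) (hkN : 2 * k ≤ N) (ht : 0 < t)
    (hzero : irem N k t = 0) (hmin : ∀ i, 0 < i → i < t → irem N k i ≠ 0) :
    ∑ i ∈ Finset.range t, ((irem N k i : ℚ) - irem N k (i + 1)) / (∑ j ∈ Finset.Icc 1 (i + 1), (idiv N k j : ℚ))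
      ≤ (k : ℚ) ^ 2 / N := by
  obtain ⟨t, rfl⟩ : ∃ t', t = t' + 1 := ⟨t - 1, by omega⟩
  have h := tele t N k 0 le_rfl hk (by omega) hzero hmin
  rw [zero_mul, add_zero] at h
  refine le_trans (le_of_eq ?_) h
  refine Finset.sum_congr rfl fun i _ => ?_
  rw [zero_add, Finset.range_eq_Ico, Finset.sum_Ico_add' (fun i => (idiv N k i : ℚ)) 0 (i + 1) 1]
  rfl

end Groth.Agent.S18052
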