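import Groth.Statements.S18054
import Mathlib

set_option autoImplicit false
open STCI

namespace Groth.Agent.S18054

/-- Let s, t, d, g be integers with t ≥ s ≥ 4, d ≥ 1, g ≥ 0 and d dividing st; put n = st/d and assume n
≥ 2; put r = d[n(s - 4) + t] + (2 - 2g)n and assume r ≤ (s/3)(2s² - 6s + 7) - 1. Then d ≤ g + 3.
(The bound is written cleared of the denominator 3; s(2s² - 6s + 7) is always divisible by 3, so
this is the same condition.) -/
theorem result (s t d g n : ℤ) (hs : 4 ≤ s) (hst : s ≤ t) (hd : 1 ≤ d) (hg : 0 ≤ g)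
    (hn : s * t = d * n) (hn2 : 2 ≤ n)
    (hr : 3 * (d * (n * (s - 4) + t) + (2 - 2 * g) * n) ≤ s * (2 * s ^ 2 - 6 * s + 7) - 3) :
    d ≤ g + 3 := by
  by_contra hcon
  have hg4 : g ≤ d - 4 := by omega
  have hs0 : 0 ≤ s := by omega
  have ht0 : 0 ≤ t := by omega
  have H : 3 * (s * t * (s - 6)) + 3 * (d * t) + 30 * n ≤ 2 * s ^ 3 - 6 * s ^ 2 + 7 * s - 3 := by
    have h1 : (d - 4 - g) * n ≥ 0 := mul_nonneg (by omega) (by omega)
    have h2 : 3 * (d * (n * (s - 4) + t) + (2 - 2 * g) * n) = 3 * ((d * n) * (s - 4)) + 3 * (d * t) + 3 * ((2 - 2 * g) * n) := by ring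
    rw [h2, ← hn] at hr
    nlinarith [h1, hn]
  have hAM : (3 * (d * t) + 30 * n) ^ 2 ≥ 360 * s * t ^ 2 := by
    have h3 : (3 * (d * t) - 30 * n) ^ 2 ≥ 0 := sq_nonneg _
    have h4 : d * t * n = s * t * t := by rw [hn]; ring
    nlinarith [h3, h4]
  have hX0 : 0 ≤ 3 * (d * t) + 30 * n := by positivity
  set X := 3 * (d * t) + 30 * n with hX
  have hX' : X ≤ 2 * s ^ 3 - 6 * s ^ 2 + 7 * s - 3 - 3 * (s * t * (s - 6)) := by linarith
  rcases le_or_gt 13 s with h13 | h13
  · have h5 : s * t * (s - 6) ≥ s * s * (s - 6) := by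
      apply mul_le_mul_of_nonneg_right _ (by omega)
      exact mul_le_mul_of_nonneg_left hst hs0
    nlinarith [mul_nonneg hs0 hs0, mul_nonneg (mul_nonneg hs0 hs0) (sub_nonneg.2 h13)]
  · interval_cases s
    · rcases eq_or_lt_of_le hst with h | h
      · subst h
        have hn16 : n ≤ 16 := by nlinarith
        interval_cases n <;> omega
      · nlinarith [pow_le_pow_left₀ hX0 hX' 2]
    all_goals nlinarith [pow_le_pow_left₀ hX0 hX' 2]

end Groth.Agent.S18054
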