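import Groth.Statements.S18055
import Mathlib

set_option autoImplicit false
open STCI

namespace Groth.Agent.S18055

/-- Let d ≥ 1, g ≥ 0 and 1 ≤ s ≤ t be integers with d dividing st, put n = st/d and r = d[n(s - 4) + t]
+ (2 - 2g)n, and assume n ≥ 2, r > 0 and (n - 1) divides r. Then s < 2d² and t < 2d⁴. This is the
statement about the degree data (d, g the degree and genus of the curve, s ≤ t the degrees of the
two surfaces) to which the published proof reduces the degree bound: there the divisibility and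
positivity express that r/(n - 1), the common value of the type numbers of the pair, is a positive
integer; the geometric hypotheses themselves are not part of this row. -/
theorem result (d g s t n : ℤ) (hd : 1 ≤ d) (hg : 0 ≤ g) (hs : 1 ≤ s) (hst : s ≤ t)
    (hn : s * t = d * n) (hn2 : 2 ≤ n)
    (hpos : 0 < d * (n * (s - 4) + t) + (2 - 2 * g) * n)
    (hdvd : (n - 1) ∣ d * (n * (s - 4) + t) + (2 - 2 * g) * n) :
    s < 2 * d ^ 2 ∧ t < 2 * d ^ 4 := by
  set a := d * (s - 4) + 2 - 2 * g with ha
  have hr : d * (n * (s - 4) + t) + (2 - 2 * g) * n = n * a + d * t := by rw [ha]; ring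
  rw [hr] at hpos hdvd
  have hdvd2 : (n - 1) ∣ a + d * t := by
    have : n * a + d * t = (n - 1) * a + (a + d * t) := by ring
    rw [this] at hdvd
    exact (dvd_add_right (Dvd.intro _ rfl)).1 hdvd
  obtain ⟨m, hm⟩ := hdvd2
  have hn1 : 1 ≤ n - 1 := by omega
  have ham : 1 ≤ a + m := by
    have : n * a + d * t = (n - 1) * (a + m) := by linear_combination hm
    rw [this] at hpos
    have := (mul_pos_iff_of_pos_left (by omega : 0 < n - 1)).1 hpos
    omega
  have hdt : 1 ≤ d * t := by nlinarith
  have hm1 : 1 ≤ m := by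
    by_contra hcon
    push Not at hcon
    have : (n - 1) * m ≤ 0 := by nlinarith
    nlinarith
  have haub : a ≤ d * (s - 4) + 2 := by rw [ha]; linarith
  -- d^2 n = s (d t)
  have key1 : d * d * n = s * (d * t) := by linear_combination -d * hn
  have hs2 : s < 2 * d ^ 2 := by
    by_contra hcon
    push Not at hcon
    -- 2 d t ≤ n
    have h1 : 2 * (d * t) ≤ n := by
      have : 2 * d ^ 2 * (d * t) ≤ s * (d * t) := by nlinarith
      have h3 : d ^ 2 * (2 * (d * t)) ≤ d ^ 2 * n := by nlinarith
      exact le_of_mul_le_mul_left h3 (by positivity)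
    have h2 : (n - 1) ≤ (n - 1) * m := by nlinarith
    -- a ≥ n - 1 - n/2
    have h4 : n - 2 ≤ 2 * a := by nlinarith
    -- n ≥ 2 d s
    have h5 : d * n ≥ d * (2 * d * s) := by
      have : s * s ≤ s * t := by nlinarith
      nlinarith
    have h6 : 2 * d * s ≤ n := le_of_mul_le_mul_left h5 (by omega)
    nlinarith
  refine ⟨hs2, ?_⟩
  by_contra hcon
  push Not at hcon
  set e := m * s - d ^ 2 with he
  have key2 : t * e = d * (m + a) := by
    rw [he]
    linear_combination m * hn - d * hm
  have ht1 : 1 ≤ t := by omega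
  have he1 : 1 ≤ e := by
    have : 0 < t * e := by
      rw [key2]; nlinarith
    have := (mul_pos_iff_of_pos_left (by omega : 0 < t)).1 this
    omega
  have hd3 : 1 ≤ d ^ 3 := one_le_pow₀ hd
  have k1 : d * (2 * d ^ 3 * e) ≤ d * (m + d * s - 4 * d + 2) := by
    have : 2 * d ^ 4 * e ≤ t * e := by nlinarith
    have h2 : d * (m + a) ≤ d * (m + (d * (s - 4) + 2)) := by nlinarith
    nlinarith
  have k2 : 2 * d ^ 3 * e ≤ m + d * s - 4 * d + 2 := le_of_mul_le_mul_left k1 (by omega)
  have k3 : (2 * d ^ 3 * e) * s ≤ (m + d * s - 4 * d + 2) * s := by nlinarith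
  have k4 : 0 ≤ (s - 1) * (2 * d ^ 2 - 1 - s) := mul_nonneg (by omega) (by omega)
  have k5 : 0 ≤ d * ((s - 1) * (2 * d ^ 2 - 1 - s)) := mul_nonneg (by omega) k4
  have hd3s : 1 ≤ d ^ 3 * s := by nlinarith
  have p1 : 0 ≤ (e - 1) * (d ^ 3 * s - 1) := mul_nonneg (by omega) (by omega)
  have p2 : 0 ≤ (4 * d - 2) * (s - 1) := mul_nonneg (by omega) (by omega)
  have p3 : 0 < d ^ 2 * (2 * d - 1) + 3 * (d - 1) := by
    have : 0 < d ^ 2 * (2 * d - 1) := mul_pos (by positivity) (by omega)
    omega
  have hms : m * s = e + d ^ 2 := by rw [he]; ring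
  nlinarith

end Groth.Agent.S18055
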