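import Groth.Statements.S18127
import Mathlib

set_option autoImplicit false
universe u
open LocAlg

namespace Groth.Agent.S18127

/-- Let R be a local ring with maximal ideal m and algebraically closed residue field, and M an n × n
matrix over R whose reduction modulo m has rank at most r. Then the determinant of M lies in m^(n −
r). (The published setting is the local ring of germs of holomorphic functions at a point of a
complex manifold, where this says that the determinant vanishes to order at least n − r at a point
where the matrix has rank at most r.) -/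
theorem result
    {R : Type u} [CommRing R] [IsLocalRing R] [IsAlgClosed (IsLocalRing.ResidueField R)]
    {n : ℕ} (M : Matrix (Fin n) (Fin n) R) (r : ℕ)
    (hr : (M.map (IsLocalRing.residue R)).rank ≤ r) :
    M.det ∈ IsLocalRing.maximalIdeal R ^ (n - r) := by
  classical
  set k := IsLocalRing.ResidueField R
  set Mb : Matrix (Fin n) (Fin n) k := M.map (IsLocalRing.residue R) with hMb
  set K : Submodule k (Fin n → k) := LinearMap.ker Mb.mulVecLin with hK
  have hrk : Module.finrank k (LinearMap.range Mb.mulVecLin) + Module.finrank k K = n := by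
    rw [LinearMap.finrank_range_add_finrank_ker]; simp
  have hKn : n - r ≤ Module.finrank k K := by
    have : Module.finrank k (LinearMap.range Mb.mulVecLin) ≤ r := hr
    omega
  obtain ⟨W, hW⟩ := K.exists_isCompl
  let bK := Module.finBasis k K
  let bW := Module.finBasis k W
  let b0 : Module.Basis (Fin (Module.finrank k K) ⊕ Fin (Module.finrank k W)) k (Fin n → k) :=
    (bK.prod bW).map (Submodule.prodEquivOfIsCompl K W hW)
  have hcard : Fintype.card (Fin (Module.finrank k K) ⊕ Fin (Module.finrank k W)) = Fintype.card (Fin n) := by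
    have h1 := Module.finrank_eq_card_basis b0
    have h2 := Module.finrank_eq_card_basis (Pi.basisFun k (Fin n))
    rw [← h1, h2]
  let ε := Fintype.equivOfCardEq hcard
  let b : Module.Basis (Fin n) k (Fin n → k) := b0.reindex ε
  let Qb : Matrix (Fin n) (Fin n) k := (Pi.basisFun k (Fin n)).toMatrix b
  have hQb : IsUnit Qb.det := by
    haveI := (Pi.basisFun k (Fin n)).invertibleToMatrix b
    exact Matrix.isUnit_det_of_invertible _
  have hres : Function.Surjective (IsLocalRing.residue R) := IsLocalRing.residue_surjective
  choose lf hlf using hres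
  let Q : Matrix (Fin n) (Fin n) R := Matrix.of fun i j => lf (Qb i j)
  have hQmap : Q.map (IsLocalRing.residue R) = Qb := by
    ext i j
    simp [Q, hlf]
  have hQ : IsUnit Q.det := by
    rw [← isUnit_map_iff (IsLocalRing.residue R), RingHom.map_det]
    rw [RingHom.mapMatrix_apply, hQmap]
    exact hQb
  have hcol : ∀ (a : Fin (Module.finrank k K)) (i : Fin n), (M * Q) i (ε (Sum.inl a)) ∈ IsLocalRing.maximalIdeal R := by
    intro a i
    rw [← IsLocalRing.residue_eq_zero_iff]
    have h1 : (IsLocalRing.residue R) ((M * Q) i (ε (Sum.inl a))) = (Mb * Qb) i (ε (Sum.inl a)) := by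
      rw [← hQmap, hMb, ← Matrix.map_mul, Matrix.map_apply]
    rw [h1]
    have h2 : (fun l => Qb l (ε (Sum.inl a))) = (bK a : Fin n → k) := by
      funext l
      simp [Qb, Module.Basis.toMatrix_apply, b, b0]
    have h3 : Mb.mulVec (bK a : Fin n → k) = 0 := (bK a).2
    have h4 := congrFun h3 i
    rw [← h2] at h4
    exact h4
  have hdet : (M * Q).det ∈ IsLocalRing.maximalIdeal R ^ (n - r) := by
    rw [Matrix.det_apply]
    refine Ideal.sum_mem _ fun σ _ => ?_
    rw [Units.smul_def, zsmul_eq_mul]
    refine Ideal.mul_mem_left _ _ ?_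
    rw [← Equiv.prod_comp ε, Fintype.prod_sum_type]
    refine Ideal.mul_mem_right _ _ ?_
    have h5 : ∏ a : Fin (Module.finrank k K), (M * Q) (σ (ε (Sum.inl a))) (ε (Sum.inl a)) ∈ ∏ a : Fin (Module.finrank k K), IsLocalRing.maximalIdeal R :=
      Ideal.prod_mem_prod fun a _ => hcol a _
    rw [Finset.prod_const, Finset.card_univ, Fintype.card_fin] at h5
    exact Ideal.pow_le_pow_right hKn h5
  rw [Matrix.det_mul] at hdet
  exact (Ideal.mul_unit_mem_iff_mem _ hQ).1 hdet

end Groth.Agent.S18127
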