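import Groth.Statements.S18175
import Groth.Agent.Lib.H16_FunFldQ

set_option autoImplicit false
open FunFld

namespace Groth.Agent.S18175

/-- Let `k` be an algebraically closed field of characteristic zero and `K/k` a function field of one
variable (the function field of a smooth projective curve over `k`). A `g^r_d` is a divisor `D` of
degree `d` with a subspace `V ⊆ L(D)` of dimension `r + 1`; for a place `P` and `n ≥ 0`, `V(-nP) = V
∩ L(D - nP)` is the space of members vanishing to order at least `n` at `P`, so `dim V(-nP)` counts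
the vanishing orders `m_0 < ⋯ < m_r` of `V` at `P` that are at least `n`, and the weight of `V` at
`P` is `∑_{n=1}^{d} dim V(-nP) - r(r+1)/2`. Assume `K` has genus `0` and the `g^r_d` `(D, V)` has at
least a cusp at the place `Q` (`dim V(-2Q) ≥ r`), and let `P, P'` be places other than `Q`. Then up
to a constant factor there is at most one member of `V` vanishing only at `P` and `P'`: if `f, g ∈
V` are nonzero and the divisors `div f + D`, `div g + D` are both supported on `{P, P'}`, then `g =
c f` for some `c ∈ k`. (In the source `Q` is the point where the rational component `Y` meets a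
chain of curves ending in a curve of positive genus, a situation that forces the cusp condition
assumed here.) (The source states this for curves over the complex numbers.) -/
theorem result
    (k : Type*) [Field k] [IsAlgClosed k] [CharZero k]
    (K : Type*) [Field K] [Algebra k K] (hK : FunFld.IsFunctionField k K) (hg0 : FunFld.genus k K = 0)
    (d r : ℕ) (D : FunFld.Divisor k K) (hD : D.deg = d)
    (V : Submodule k K) (hV : V ≤ FunFld.L D) (hVr : Module.finrank k ↥V = r + 1)
    (Q : FunFld.Place k K) (hcusp : r ≤ Module.finrank k ↥(V ⊓ FunFld.L (D - Finsupp.single Q ((2 : ℤ)))))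
    (P P' : FunFld.Place k K) (hP : P ≠ Q) (hP' : P' ≠ Q)
    (f g : K) (hf : f ∈ V) (hg : g ∈ V) (hf0 : f ≠ 0) (hg0' : g ≠ 0)
    (hfs : ∀ R : FunFld.Place k K, R ≠ P → R ≠ P' → (FunFld.div k f + D) R = 0)
    (hgs : ∀ R : FunFld.Place k K, R ≠ P → R ≠ P' → (FunFld.div k g + D) R = 0) :
    ∃ c : k, g = c • f := by
  classical
  have hfin := Groth.Agent.H16.finite_L hK D
  haveI : FiniteDimensional k V := Submodule.finiteDimensional_of_le hV
  have hdeg1 : ∀ R : FunFld.Place k K, R.deg = 1 := Groth.Agent.H16.deg_eq_one_of_algClosed hK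
  -- value of f at Q
  have hfQ : Q.1 f = WithZero.exp (D Q) := by
    rw [Groth.Agent.H16.val_eq_exp_div hK hf0]
    congr 1
    have := hfs Q (Ne.symm hP) (Ne.symm hP')
    rw [Finsupp.add_apply] at this
    omega
  -- W1 = W2
  set W1 := V ⊓ FunFld.L (D - Finsupp.single Q (1 : ℤ)) with hW1
  set W2 := V ⊓ FunFld.L (D - Finsupp.single Q (2 : ℤ)) with hW2
  haveI : FiniteDimensional k W1 := Submodule.finiteDimensional_of_le inf_le_left
  have h21 : W2 ≤ W1 := by
    rintro x ⟨hx1, hx2⟩
    refine ⟨hx1, fun R => (hx2 R).trans ?_⟩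
    rw [WithZero.exp_le_exp, Finsupp.sub_apply, Finsupp.sub_apply, Finsupp.single_apply, Finsupp.single_apply]
    split_ifs <;> omega
  have hfW1 : f ∉ W1 := by
    rintro ⟨-, h⟩
    have := h Q
    rw [hfQ, WithZero.exp_le_exp, Finsupp.sub_apply, Finsupp.single_eq_same] at this
    omega
  have hlt : W1 < V := lt_of_le_of_ne inf_le_left (fun h => hfW1 (h ▸ hf))
  have hfr := Submodule.finrank_lt_finrank_of_lt hlt
  have hEq : W2 = W1 := Submodule.eq_of_le_of_finrank_le h21 (by omega)
  -- constant
  have hhQ : Q.1 (g / f) ≤ 1 := by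
    rw [map_div₀]
    apply div_le_one_of_le₀ _ zero_le
    rw [hfQ]; exact hV hg Q
  obtain ⟨c, hc⟩ := Groth.Agent.H16.exists_const (hdeg1 Q) hhQ
  have hgc : g - c • f ∈ W1 := by
    refine ⟨V.sub_mem hg (V.smul_mem c hf), fun R => ?_⟩
    by_cases hR : R = Q
    · subst hR
      have e : g - c • f = (g / f - algebraMap k K c) * f := by
        rw [Algebra.smul_def]; field_simp
      rw [e, map_mul, hfQ, Finsupp.sub_apply, Finsupp.single_eq_same]
      rcases eq_or_ne (R.1 (g / f - algebraMap k K c)) 0 with h0 | h0
      · rw [h0, zero_mul]; exact zero_le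
      · rw [← WithZero.exp_log h0, ← WithZero.exp_add, WithZero.exp_le_exp]
        have : WithZero.log (R.1 (g / f - algebraMap k K c)) < 0 := by
          have h := (WithZero.log_lt_log h0 one_ne_zero).mpr hc
          rwa [WithZero.log_one] at h
        omega
    · rw [Finsupp.sub_apply, Finsupp.single_eq_of_ne (Ne.symm (Ne.symm hR)), sub_zero]
      exact (FunFld.L D).sub_mem (hV hg) ((FunFld.L D).smul_mem c (hV hf)) R
  have hgc2 : Q.1 (g / f - algebraMap k K c) ≤ WithZero.exp (-2) := by
    rw [← hEq] at hgc
    have := hgc.2 Q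
    rw [Finsupp.sub_apply, Finsupp.single_eq_same] at this
    have e : g / f - algebraMap k K c = (g - c • f) / f := by
      rw [Algebra.smul_def]; field_simp
    rw [e, map_div₀, hfQ]
    refine (div_le_div_of_nonneg_right this zero_le).trans (le_of_eq ?_)
    rw [← WithZero.exp_sub]; congr 1; ring
  have hh0 : g / f ≠ 0 := div_ne_zero hg0' hf0
  -- divisor of h
  have hdivh : ∀ R, R ≠ P → R ≠ P' → FunFld.div k (g / f) R = 0 := by
    intro R h1 h2
    have e1 := hfs R h1 h2
    have e2 := hgs R h1 h2
    rw [Finsupp.add_apply] at e1 e2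
    rw [Groth.Agent.H16.div_apply hK] at e1 e2 ⊢
    unfold FunFld.Place.ord at e1 e2 ⊢
    rw [map_div₀, WithZero.log_div (by simpa using hg0') (by simpa using hf0)]
    omega
  -- main claim : div h = 0
  have key : ∀ (P P' : FunFld.Place k K), P ≠ Q → P' ≠ Q →
      (∀ R, R ≠ P → R ≠ P' → FunFld.div k (g / f) R = 0) → 0 < FunFld.div k (g / f) P → P ≠ P' → False := by
    intro P P' hP hP' hdivh hpos hne
    have hrep : FunFld.div k (g / f) = Finsupp.single P (FunFld.div k (g / f) P) +
        Finsupp.single P' (FunFld.div k (g / f) P') := by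
      ext R
      rw [Finsupp.add_apply, Finsupp.single_apply, Finsupp.single_apply]
      by_cases h1 : P = R
      · subst h1; rw [if_pos rfl, if_neg (Ne.symm hne)]; ring
      · by_cases h2 : P' = R
        · subst h2; rw [if_neg h1, if_pos rfl]; ring
        · rw [if_neg h1, if_neg h2, hdivh R (Ne.symm h1) (Ne.symm h2)]; ring
    have hdeg := Groth.Agent.H16.deg_div hK (g / f)
    rw [hrep, Groth.Agent.H16.deg_add, Groth.Agent.H16.deg_single, Groth.Agent.H16.deg_single, hdeg1, hdeg1] at hdeg
    obtain ⟨m, hm⟩ : ∃ m : ℕ, FunFld.div k (g / f) P = m := ⟨(FunFld.div k (g / f) P).toNat, by omega⟩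
    have hm' : FunFld.div k (g / f) P' = -m := by push_cast at hdeg; linarith
    rw [hm, hm'] at hrep
    rw [hm] at hpos
    -- t
    set E : FunFld.Divisor k K := Finsupp.single P' 1 - Finsupp.single P 1 with hE
    have hEdeg : E.deg = 0 := by
      rw [hE, Groth.Agent.H16.deg_sub, Groth.Agent.H16.deg_single, Groth.Agent.H16.deg_single, hdeg1, hdeg1]; simp
    have hell : ((FunFld.ell E : ℕ) : ℤ) = 1 := by
      rw [Groth.Agent.H16.ell_of_deg_ge hK E (by rw [hg0, hEdeg]; norm_num), hEdeg, hg0]; norm_num
    obtain ⟨t, ht0, -, ht⟩ := Groth.Agent.H16.exists_of_ell_pos hK E (by omega)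
    have hdt := Groth.Agent.H16.eff_deg_zero hK ht (by
      rw [Groth.Agent.H16.deg_add, hEdeg, Groth.Agent.H16.deg_div hK]; rfl)
    have hdt' : FunFld.div k t = Finsupp.single P 1 - Finsupp.single P' 1 := by
      have : FunFld.div k t = (E + FunFld.div k t) - E := by abel
      rw [this, hdt, hE]; abel
    have hvalt : ∀ R : FunFld.Place k K, R.1 t = WithZero.exp (-((Finsupp.single P (1 : ℤ) - Finsupp.single P' (1 : ℤ) : FunFld.Divisor k K) R)) := by
      intro R; rw [Groth.Agent.H16.val_eq_exp_div hK ht0, hdt']
    -- u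
    have hu : (g / f) * (t ^ m)⁻¹ ∈ FunFld.L (0 : FunFld.Divisor k K) := by
      intro R
      rw [map_mul, map_inv₀, map_pow, hvalt R, Groth.Agent.H16.val_eq_exp_div hK hh0, hrep, ← WithZero.exp_nsmul,
        ← WithZero.exp_neg, ← WithZero.exp_add, WithZero.exp_le_exp]
      rw [Finsupp.add_apply, Finsupp.sub_apply, Finsupp.coe_zero, Pi.zero_apply]
      simp only [Finsupp.single_apply, nsmul_eq_mul]
      split_ifs <;> ring_nf <;> omega
    rw [Groth.Agent.H16.L_zero_eq hK] at hu
    obtain ⟨u, hu⟩ := Submodule.mem_one.mp hu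
    have hh : g / f = algebraMap k K u * t ^ m := by
      rw [hu]; field_simp
    have hu0 : u ≠ 0 := by
      rintro rfl; rw [map_zero, zero_mul] at hh; exact hh0 hh
    have htQ : Q.1 t = 1 := by
      rw [hvalt Q, Finsupp.sub_apply, Finsupp.single_eq_of_ne (Ne.symm hP), Finsupp.single_eq_of_ne (Ne.symm hP')]
      simp
    obtain ⟨a, ha⟩ := Groth.Agent.H16.exists_const (hdeg1 Q) htQ.le
    have ha0 : a ≠ 0 := by
      rintro rfl
      rw [map_zero, sub_zero, htQ] at ha; exact lt_irrefl _ ha
    have haQ := Groth.Agent.H16.val_const Q ha0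
    -- t - a has a simple zero
    have hta0 : t - algebraMap k K a ≠ 0 := by
      intro h
      have e1 : t = algebraMap k K a := sub_eq_zero.mp h
      have := hvalt P
      rw [e1, Groth.Agent.H16.val_const P ha0, Finsupp.sub_apply, Finsupp.single_eq_same, Finsupp.single_eq_of_ne (hne),
        ← WithZero.exp_zero, WithZero.exp_inj] at this
      omega
    have hnn : 0 ≤ FunFld.div k (t - algebraMap k K a) + Finsupp.single P' 1 - Finsupp.single Q 1 := by
      intro R
      have hR : R.1 (t - algebraMap k K a) ≤ WithZero.exp (Finsupp.single P' (1 : ℤ) R - Finsupp.single Q (1 : ℤ) R) := by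
        by_cases h1 : Q = R
        · subst h1
          rw [Finsupp.single_eq_same, Finsupp.single_eq_of_ne (Ne.symm hP')]
          have hne0 : Q.1 (t - algebraMap k K a) ≠ 0 := by simpa using hta0
          have h := (WithZero.log_lt_log hne0 one_ne_zero).mpr ha
          rw [WithZero.log_one] at h
          rw [← WithZero.exp_log hne0, WithZero.exp_le_exp]; omega
        · refine (R.1.map_sub _ _).trans (max_le ?_ ?_)
          · rw [hvalt R, WithZero.exp_le_exp, Finsupp.sub_apply]
            simp only [Finsupp.single_apply]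
            rw [if_neg h1]
            split_ifs <;> omega
          · rw [Groth.Agent.H16.val_const R ha0, ← WithZero.exp_zero, WithZero.exp_le_exp]
            simp only [Finsupp.single_apply]
            rw [if_neg h1]
            split_ifs <;> omega
      rw [Groth.Agent.H16.val_eq_exp_div hK hta0, WithZero.exp_le_exp] at hR
      simp only [Finsupp.coe_zero, Pi.zero_apply, Finsupp.sub_apply, Finsupp.add_apply]
      linarith
    have hz := Groth.Agent.H16.eff_deg_zero hK hnn (by
      rw [Groth.Agent.H16.deg_sub, Groth.Agent.H16.deg_add, Groth.Agent.H16.deg_div hK, Groth.Agent.H16.deg_single,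
        Groth.Agent.H16.deg_single, hdeg1, hdeg1]; simp)
    have hzQ := DFunLike.congr_fun hz Q
    rw [Finsupp.sub_apply, Finsupp.add_apply, Finsupp.single_eq_same, Finsupp.single_eq_of_ne (Ne.symm hP'),
      Finsupp.coe_zero, Pi.zero_apply] at hzQ
    have hvta : Q.1 (t - algebraMap k K a) = WithZero.exp (-1) := by
      rw [Groth.Agent.H16.val_eq_exp_div hK hta0]; congr 1; omega
    -- sum
    set s := ∑ i ∈ Finset.range m, t ^ i * (algebraMap k K a) ^ (m - 1 - i) with hs
    have hgeom : s * (t - algebraMap k K a) = t ^ m - (algebraMap k K a) ^ m := (Commute.all t (algebraMap k K a)).geom_sum₂_mul m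
    have hpow : ∀ i : ℕ, Q.1 (t ^ i - (algebraMap k K a) ^ i) < 1 := by
      intro i
      induction i with
      | zero => simp
      | succ i ih =>
        have e : t ^ (i + 1) - (algebraMap k K a) ^ (i + 1) = t * (t ^ i - (algebraMap k K a) ^ i) +
          (t - algebraMap k K a) * (algebraMap k K a) ^ i := by ring
        rw [e]
        refine lt_of_le_of_lt (Q.1.map_add _ _) (max_lt ?_ ?_)
        · rw [map_mul, htQ, one_mul]; exact ih
        · rw [map_mul, map_pow, haQ, one_pow, mul_one]; exact ha
    have hs2 : Q.1 (s - algebraMap k K (m * a ^ (m - 1))) < 1 := by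
      have e : s - algebraMap k K (m * a ^ (m - 1)) =
          ∑ i ∈ Finset.range m, (t ^ i - (algebraMap k K a) ^ i) * (algebraMap k K a) ^ (m - 1 - i) := by
        have e1 : algebraMap k K (m * a ^ (m - 1)) = ∑ i ∈ Finset.range m, (algebraMap k K a) ^ i * (algebraMap k K a) ^ (m - 1 - i) := by
          rw [Finset.sum_congr rfl (g := fun _ => (algebraMap k K a) ^ (m - 1))]
          · rw [Finset.sum_const, Finset.card_range, map_mul, map_natCast, map_pow, nsmul_eq_mul]
          · intro i hi
            have := Finset.mem_range.mp hi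
            rw [← pow_add]; congr 1; omega
        rw [e1, hs, ← Finset.sum_sub_distrib]
        exact Finset.sum_congr rfl (fun i _ => by ring)
      rw [e]
      apply Q.1.map_sum_lt one_ne_zero
      intro i _
      rw [map_mul, map_pow, haQ, one_pow, mul_one]
      exact hpow i
    have hma : (m : k) * a ^ (m - 1) ≠ 0 := by
      apply mul_ne_zero _ (pow_ne_zero _ ha0)
      have : m ≠ 0 := by omega
      exact_mod_cast this
    have hsv : Q.1 s = 1 := by
      have e : s = (s - algebraMap k K (m * a ^ (m - 1))) + algebraMap k K (m * a ^ (m - 1)) := by ring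
      rw [e, Q.1.map_add_eq_of_lt_right]
      · exact Groth.Agent.H16.val_const Q hma
      · rw [Groth.Agent.H16.val_const Q hma]; exact hs2
    -- conclude
    have hx : g / f - algebraMap k K (u * a ^ m) = algebraMap k K u * (s * (t - algebraMap k K a)) := by
      rw [hgeom, hh, map_mul, map_pow]; ring
    have hxv : Q.1 (g / f - algebraMap k K (u * a ^ m)) = WithZero.exp (-1) := by
      rw [hx, map_mul, map_mul, Groth.Agent.H16.val_const Q hu0, hsv, hvta, one_mul, one_mul]
    have hcu : c = u * a ^ m := by
      by_contra hcne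
      have h1 : Q.1 (algebraMap k K (c - u * a ^ m)) = 1 := Groth.Agent.H16.val_const Q (sub_ne_zero.mpr hcne)
      have e : algebraMap k K (c - u * a ^ m) = (g / f - algebraMap k K (u * a ^ m)) - (g / f - algebraMap k K c) := by
        rw [map_sub]; ring
      have h2 : Q.1 (algebraMap k K (c - u * a ^ m)) < 1 := by
        rw [e]
        refine lt_of_le_of_lt (Q.1.map_sub _ _) (max_lt ?_ hc)
        rw [hxv, ← WithZero.exp_zero, WithZero.exp_lt_exp]; norm_num
      rw [h1] at h2
      exact lt_irrefl _ h2
    rw [hcu, hxv, WithZero.exp_le_exp] at hgc2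
    omega
  have hzero : FunFld.div k (g / f) = 0 := by
    have hdeg := Groth.Agent.H16.deg_div hK (g / f)
    by_cases hPP : P = P'
    · subst hPP
      have hrep : FunFld.div k (g / f) = Finsupp.single P (FunFld.div k (g / f) P) := by
        ext R
        rw [Finsupp.single_apply]
        by_cases h1 : P = R
        · subst h1; rw [if_pos rfl]
        · rw [if_neg h1, hdivh R (Ne.symm h1) (Ne.symm h1)]
      rw [hrep, Groth.Agent.H16.deg_single, hdeg1] at hdeg
      have : FunFld.div k (g / f) P = 0 := by simpa using hdeg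
      rw [hrep, this, Finsupp.single_zero]
    · have h1 : ¬ 0 < FunFld.div k (g / f) P := fun h => key P P' hP hP' hdivh h hPP
      have h2 : ¬ 0 < FunFld.div k (g / f) P' := fun h => key P' P hP' hP (fun R a b => hdivh R b a) h (Ne.symm hPP)
      have hrep : FunFld.div k (g / f) = Finsupp.single P (FunFld.div k (g / f) P) +
          Finsupp.single P' (FunFld.div k (g / f) P') := by
        ext R
        rw [Finsupp.add_apply, Finsupp.single_apply, Finsupp.single_apply]
        by_cases h1 : P = R
        · subst h1; rw [if_pos rfl, if_neg (Ne.symm hPP)]; ring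
        · by_cases h2 : P' = R
          · subst h2; rw [if_neg h1, if_pos rfl]; ring
          · rw [if_neg h1, if_neg h2, hdivh R (Ne.symm h1) (Ne.symm h2)]; ring
      rw [hrep, Groth.Agent.H16.deg_add, Groth.Agent.H16.deg_single, Groth.Agent.H16.deg_single, hdeg1, hdeg1] at hdeg
      push_cast at hdeg
      have e1 : FunFld.div k (g / f) P = 0 := by omega
      have e2 : FunFld.div k (g / f) P' = 0 := by omega
      rw [hrep, e1, e2, Finsupp.single_zero, Finsupp.single_zero, add_zero]
  have hL : g / f ∈ FunFld.L (0 : FunFld.Divisor k K) := by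
    intro R
    rw [Groth.Agent.H16.val_eq_exp_div hK hh0, hzero]; simp
  rw [Groth.Agent.H16.L_zero_eq hK] at hL
  obtain ⟨v, hv⟩ := Submodule.mem_one.mp hL
  exact ⟨v, by rw [Algebra.smul_def, hv]; field_simp⟩

end Groth.Agent.S18175
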