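import Groth.Statements.S18176
import Groth.Agent.Lib.H16_FunFldQ

set_option autoImplicit false
open FunFld

namespace Groth.Agent.S18176

/-- Let `k` be an algebraically closed field of characteristic zero and `K/k` a function field of one
variable (the function field of a smooth projective curve over `k`). A `g^r_d` is a divisor `D` of
degree `d` with a subspace `V ⊆ L(D)` of dimension `r + 1`; for a place `P` and `n ≥ 0`, `V(-nP) = V
∩ L(D - nP)` is the space of members vanishing to order at least `n` at `P`, so `dim V(-nP)` counts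
the vanishing orders `m_0 < ⋯ < m_r` of `V` at `P` that are at least `n`, and the weight of `V` at
`P` is `∑_{n=1}^{d} dim V(-nP) - r(r+1)/2`. For a `g^r_d` `(D, V)` and two distinct places `P ≠ Q`:
the vanishing sequence at `P` is bounded by `m_i(V, P) ≤ d - m_{r-i}(V, Q)`, that is `dim V(-nP) +
dim V(-(d+1-n)Q) ≤ r + 1` for `0 ≤ n ≤ d + 1`; consequently `w(V, P) + w(V, Q) ≤ (r+1)(d-r)`, that
is `∑_{n=1}^{d} dim V(-nP) + ∑_{n=1}^{d} dim V(-nQ) ≤ (r+1)d`. (In the source the curve is an
elliptic tail of a degenerate curve, `P` its node and `Q` the limit of a moving ramification point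
with vanishing sequence `(m_i)` there, and the bound is rewritten as `w(V, P) ≤ r(g-1) + ρ + r - 1`
with `ρ = 1 + g - (r+1)(g+r-d) - ∑ (m_i - i)` the moving-point Brill–Noether number of the whole
genus-`g` curve, where the printed statement has `r(g+1)` for `r(g-1)`; the argument uses only `P ≠
Q`, so the row is stated for any function field.) (The source states this for curves over the
complex numbers.) -/
theorem result
    (k : Type*) [Field k] [IsAlgClosed k] [CharZero k]
    (K : Type*) [Field K] [Algebra k K] (hK : FunFld.IsFunctionField k K)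
    (d r : ℕ) (D : FunFld.Divisor k K) (hD : D.deg = d)
    (V : Submodule k K) (hV : V ≤ FunFld.L D) (hVr : Module.finrank k ↥V = r + 1)
    (P Q : FunFld.Place k K) (hPQ : P ≠ Q) :
    (∀ n : ℕ, n ≤ d + 1 →
      Module.finrank k ↥(V ⊓ FunFld.L (D - Finsupp.single P ((n : ℤ)))) + Module.finrank k ↥(V ⊓ FunFld.L (D - Finsupp.single Q ((d : ℤ) + 1 - n))) ≤ r + 1) ∧
    (∑ n ∈ Finset.range d, Module.finrank k ↥(V ⊓ FunFld.L (D - Finsupp.single P ((n : ℤ) + 1)))) +
      (∑ n ∈ Finset.range d, Module.finrank k ↥(V ⊓ FunFld.L (D - Finsupp.single Q ((n : ℤ) + 1)))) ≤ (r + 1) * d := by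
  have key : ∀ n : ℕ, n ≤ d + 1 →
      Module.finrank k ↥(V ⊓ FunFld.L (D - Finsupp.single P ((n : ℤ)))) + Module.finrank k ↥(V ⊓ FunFld.L (D - Finsupp.single Q ((d : ℤ) + 1 - n))) ≤ r + 1 := by
    intro n hn
    rw [← hVr]
    exact Groth.Agent.H16.gr_le hK D V hV hPQ (by omega) (by omega) (by omega)
  refine ⟨key, ?_⟩
  rw [← Finset.sum_range_reflect (fun n => Module.finrank k ↥(V ⊓ FunFld.L (D - Finsupp.single Q ((n : ℤ) + 1)))),
    ← Finset.sum_add_distrib]
  have : (r + 1) * d = ∑ n ∈ Finset.range d, (r + 1) := by simp [mul_comm]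
  rw [this]
  apply Finset.sum_le_sum
  intro n hn
  have hn' := Finset.mem_range.mp hn
  have h := key (n + 1) (by omega)
  have e : ((d - 1 - n : ℕ) : ℤ) + 1 = (d : ℤ) + 1 - ((n + 1 : ℕ) : ℤ) := by omega
  rw [e]
  have e2 : ((n : ℤ) + 1) = ((n + 1 : ℕ) : ℤ) := by push_cast; rfl
  rw [e2]
  exact h

end Groth.Agent.S18176
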