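import Groth.Statements.S18177
import Groth.Agent.Lib.H16_FunFldQ

set_option autoImplicit false
open FunFld

namespace Groth.Agent.S18177

/-- Let `k` be an algebraically closed field of characteristic zero and `K/k` a function field of one
variable (the function field of a smooth projective curve over `k`). A `g^r_d` is a divisor `D` of
degree `d` with a subspace `V ⊆ L(D)` of dimension `r + 1`; for a place `P` and `n ≥ 0`, `V(-nP) = V
∩ L(D - nP)` is the space of members vanishing to order at least `n` at `P`, so `dim V(-nP)` counts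
the vanishing orders `m_0 < ⋯ < m_r` of `V` at `P` that are at least `n`, and the weight of `V` at
`P` is `∑_{n=1}^{d} dim V(-nP) - r(r+1)/2`. Let `(D, V)` be a `g^r_d` with `r ≥ 1` and `P ≠ Q`
places at which the weights are large: `w(V, P) + w(V, Q) ≥ (r+1)(d-r) - (r-1)`, that is `(r+1)d + 1
≤ ∑_{n=1}^{d} dim V(-nP) + ∑_{n=1}^{d} dim V(-nQ) + r`. Then `V` contains members with divisors `m_i
Q + (d - m_i) P` for two different indices `i`, and hence `m(Q - P)` is a principal divisor for some
`1 ≤ m ≤ d`. (In the source `K` is an elliptic tail of a degenerate curve, `P` its node and `Q` the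
limit of the moving ramification point, the weight hypothesis coming from `ρ ≤ 0`; it concludes that
only finitely many `Q` are possible. The torsion assertion holds in any genus and is what is stated
here.) (The source states this for curves over the complex numbers.) -/
theorem result
    (k : Type*) [Field k] [IsAlgClosed k] [CharZero k]
    (K : Type*) [Field K] [Algebra k K] (hK : FunFld.IsFunctionField k K)
    (d r : ℕ) (hr : 1 ≤ r) (D : FunFld.Divisor k K) (hD : D.deg = d)
    (V : Submodule k K) (hV : V ≤ FunFld.L D) (hVr : Module.finrank k ↥V = r + 1)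
    (P Q : FunFld.Place k K) (hPQ : P ≠ Q)
    (hw : (r + 1) * d + 1 ≤
      (∑ n ∈ Finset.range d, Module.finrank k ↥(V ⊓ FunFld.L (D - Finsupp.single P ((n : ℤ) + 1)))) +
        (∑ n ∈ Finset.range d, Module.finrank k ↥(V ⊓ FunFld.L (D - Finsupp.single Q ((n : ℤ) + 1)))) + r) :
    ∃ m : ℕ, 1 ≤ m ∧ m ≤ d ∧ ∃ h : K, h ≠ 0 ∧
      FunFld.div k h = Finsupp.single Q (m : ℤ) - Finsupp.single P (m : ℤ) := by
  classical
  set a : ℕ → ℕ := fun n => Module.finrank k ↥(V ⊓ FunFld.L (D - Finsupp.single P ((n : ℤ)))) with ha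
  set b : ℕ → ℕ := fun n => Module.finrank k ↥(V ⊓ FunFld.L (D - Finsupp.single Q ((n : ℤ)))) with hb
  have hfin := Groth.Agent.H16.finite_L hK D
  have hL0 : ∀ R : FunFld.Place k K, Module.finrank k ↥(V ⊓ FunFld.L (D - Finsupp.single R (0 : ℤ))) = r + 1 := by
    intro R
    rw [Finsupp.single_zero, sub_zero, inf_eq_left.mpr hV, hVr]
  have hg := fun n : ℕ => fun hn : n ≤ d => Groth.Agent.H16.gr_exists hK D V hV hPQ (m := (n : ℤ))
    (n := ((d - n : ℕ) : ℤ)) (by omega) (by omega) (by omega)
  -- total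
  have hsum : (d + 1) * (r + 1) + 2 ≤ ∑ n ∈ Finset.range (d + 1), (a n + b (d - n)) := by
    rw [Finset.sum_add_distrib]
    have e1 : ∑ n ∈ Finset.range (d + 1), b (d - n) = ∑ n ∈ Finset.range (d + 1), b n := by
      have := Finset.sum_range_reflect b (d + 1)
      simpa using this
    rw [e1, Finset.sum_range_succ', Finset.sum_range_succ']
    have h0 : a 0 = r + 1 := by simpa [ha] using hL0 P
    have h0' : b 0 = r + 1 := by simpa [hb] using hL0 Q
    have ea : ∑ n ∈ Finset.range d, Module.finrank k ↥(V ⊓ FunFld.L (D - Finsupp.single P ((n : ℤ) + 1))) =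
      ∑ n ∈ Finset.range d, a (n + 1) := by
      simp [ha]
    have eb : ∑ n ∈ Finset.range d, Module.finrank k ↥(V ⊓ FunFld.L (D - Finsupp.single Q ((n : ℤ) + 1))) =
      ∑ n ∈ Finset.range d, b (n + 1) := by
      simp [hb]
    rw [ea, eb] at hw
    rw [h0, h0']
    have : (d + 1) * (r + 1) = (r + 1) * d + (r + 1) := by ring
    omega
  set S := (Finset.range (d + 1)).filter (fun n => r + 1 < a n + b (d - n)) with hS
  have hcard : 2 ≤ S.card := by
    have h1 : ∑ n ∈ Finset.range (d + 1), (a n + b (d - n)) ≤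
        ∑ n ∈ Finset.range (d + 1), ((r + 1) + if r + 1 < a n + b (d - n) then 1 else 0) := by
      apply Finset.sum_le_sum
      intro n hn
      have h2 := (hg n (by have := Finset.mem_range.mp hn; omega)).1
      rw [hVr] at h2
      change a n + b (d - n) ≤ r + 1 + 1 at h2
      split_ifs with h3 <;> omega
    have h2 : ∑ n ∈ Finset.range (d + 1), ((r + 1) + if r + 1 < a n + b (d - n) then 1 else 0) =
        (d + 1) * (r + 1) + S.card := by
      rw [Finset.sum_add_distrib, Finset.sum_const, Finset.card_range, smul_eq_mul, ← Finset.card_filter]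
    rw [h2] at h1
    omega
  obtain ⟨n1, h1, n2, h2, hne⟩ := Finset.one_lt_card.mp (show 1 < S.card by omega)
  wlog hlt : n1 < n2 generalizing n1 n2
  · exact this n2 h2 n1 h1 hne.symm (by omega)
  obtain ⟨h1a, h1b⟩ := Finset.mem_filter.mp h1
  obtain ⟨h2a, h2b⟩ := Finset.mem_filter.mp h2
  have h1c := Finset.mem_range.mp h1a
  have h2c := Finset.mem_range.mp h2a
  obtain ⟨f1, -, f10, hf1⟩ := (hg n1 (by omega)).2 (by rw [hVr]; exact h1b)
  obtain ⟨f2, -, f20, hf2⟩ := (hg n2 (by omega)).2 (by rw [hVr]; exact h2b)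
  refine ⟨n2 - n1, by omega, by omega, f1 * f2⁻¹, mul_ne_zero f10 (inv_ne_zero f20), ?_⟩
  have hd1 : FunFld.div k f1 - FunFld.div k f2 = Finsupp.single Q ((n2 - n1 : ℕ) : ℤ) - Finsupp.single P ((n2 - n1 : ℕ) : ℤ) := by
    have e : FunFld.div k f1 - FunFld.div k f2 = (D + FunFld.div k f1) - (D + FunFld.div k f2) := by abel
    rw [e, hf1, hf2]
    have e1 : ((d - n1 : ℕ) : ℤ) = ((n2 - n1 : ℕ) : ℤ) + ((d - n2 : ℕ) : ℤ) := by omega
    have e2 : ((n2 : ℕ) : ℤ) = ((n2 - n1 : ℕ) : ℤ) + ((n1 : ℕ) : ℤ) := by omega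
    rw [e1, e2, Finsupp.single_add, Finsupp.single_add]
    abel
  rw [← hd1]
  ext R
  rw [Finsupp.sub_apply, Groth.Agent.H16.div_apply hK, Groth.Agent.H16.div_apply hK, Groth.Agent.H16.div_apply hK]
  unfold FunFld.Place.ord
  rw [map_mul, map_inv₀, WithZero.log_mul (by simpa using f10) (by simpa using f20), WithZero.log_inv]
  ring

end Groth.Agent.S18177
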