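import Groth.Statements.S18188
import Mathlib
import Groth.Agent.Lib.Helper27_Circ

set_option autoImplicit false
universe u
open OrbRR

namespace Groth.Agent.S18188

/-- Let K be a field in which 6 ≠ 0, let j < N be natural numbers (so N ≥ 1), and let ζ ∈ K be a
primitive N-th root of unity. Then the sum over i = 1, …, N − 1 of ζ^{ij} / (2 − ζ^i − ζ^{−i})
equals j(j − N)/2 + (N² − 1)/12. (The published setting is characteristic zero; the identity is
stated here over any field of characteristic different from 2 and 3, where the published proof
applies unchanged: a field containing a primitive N-th root of unity has characteristic prime to N,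
and each denominator 2 − ζ^i − ζ^{−i} = −(1 − ζ^i)²/ζ^i with 0 < i < N is nonzero. In
characteristics 2 and 3 the right-hand side has no meaning.) -/
theorem result (K : Type u) [Field K] (h6 : (6 : K) ≠ 0)
    (N j : ℕ) (hj : j < N) (ζ : K) (hζ : IsPrimitiveRoot ζ N) :
    ∑ i ∈ Finset.Ioo 0 N, ζ ^ (i * j) / (2 - ζ ^ i - (ζ ^ i)⁻¹) =
      (j : K) * ((j : K) - (N : K)) / 2 + ((N : K) ^ 2 - 1) / 12 := by
  exact Groth.Agent.H27Circ.circ_sum h6 N j hj ζ hζ

end Groth.Agent.S18188
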