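import Groth.Statements.S18189
import Mathlib
import Groth.Agent.Lib.Helper27_Circ

set_option autoImplicit false
open OrbRR

namespace Groth.Agent.S18189

/-- Let N ≥ 1 be a natural number, let ζ ∈ ℂ be a primitive N-th root of unity, and put f(i) = i(i −
N)/2 + (N² − 1)/12 for 0 ≤ i < N. For every natural number m the complex number ε_m = (1/N)
∑_{i=0}^{N−1} f(i) ζ^{mi}, an eigenvalue of the symmetric circulant N × N matrix with (i, j) entry
f(j − i)/N, is real and nonnegative. -/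
theorem result (N : ℕ) (hN : 0 < N) (ζ : ℂ)
    (hζ : IsPrimitiveRoot ζ N) (m : ℕ) :
    (∑ i ∈ Finset.range N,
        ((i : ℂ) * ((i : ℂ) - (N : ℂ)) / 2 + ((N : ℂ) ^ 2 - 1) / 12) / (N : ℂ) * ζ ^ (m * i)).im = 0 ∧
    0 ≤ (∑ i ∈ Finset.range N,
        ((i : ℂ) * ((i : ℂ) - (N : ℂ)) / 2 + ((N : ℂ) ^ 2 - 1) / 12) / (N : ℂ) * ζ ^ (m * i)).re := by
  rw [Groth.Agent.H27Circ.circ_eig hN hζ m]
  refine ⟨Complex.ofReal_im _, ?_⟩
  rw [Complex.ofReal_re]
  refine Finset.sum_nonneg fun l _ => ?_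
  split_ifs
  · exact one_div_nonneg.2 (Groth.Agent.H27Circ.D_nonneg hN.ne' hζ l)
  · exact le_rfl

end Groth.Agent.S18189
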