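import Groth.Statements.S18190
import Mathlib
import Groth.Agent.Lib.Helper27_Circ

set_option autoImplicit false
open OrbRR

namespace Groth.Agent.S18190

/-- Let N ≥ 1 and let f : ℤ/Nℤ → ℚ be f(x) = x(x − N)/2 + (N² − 1)/12, where x is read as its
representative with 0 ≤ x < N. The real N × N matrix indexed by ℤ/Nℤ whose (i, j) entry is f(j −
i)/N, a symmetric circulant matrix, is positive semidefinite. -/
theorem result (N : ℕ) [NeZero N] :
    (Matrix.of fun i j : ZMod N =>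
        ((((j - i).val : ℝ) * (((j - i).val : ℝ) - (N : ℝ))) / 2 + ((N : ℝ) ^ 2 - 1) / 12) / (N : ℝ)).PosSemidef := by
  have hN : N ≠ 0 := NeZero.ne N
  set ζ : ℂ := Complex.exp (2 * Real.pi * Complex.I / N) with hζd
  have hζ : IsPrimitiveRoot ζ N := Complex.isPrimitiveRoot_exp N hN
  have hNR : (0 : ℝ) < N := by exact_mod_cast Nat.pos_of_ne_zero hN
  let B : ℕ → Matrix (Fin 2) (ZMod N) ℝ := fun l => Matrix.of ![fun j => (ζ ^ (l * j.val)).re, fun j => (ζ ^ (l * j.val)).im]
  have key : (Matrix.of fun i j : ZMod N =>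
      ((((j - i).val : ℝ) * (((j - i).val : ℝ) - (N : ℝ))) / 2 + ((N : ℝ) ^ 2 - 1) / 12) / (N : ℝ)) =
      ∑ l ∈ Finset.Ioo 0 N, (1 / ((N : ℝ) * (2 - 2 * (ζ ^ l).re))) • ((B l).conjTranspose * B l) := by
    ext i j
    rw [Matrix.of_apply, ← Groth.Agent.H27Circ.circ_re hζ (j - i).val (ZMod.val_lt _), Finset.sum_div, Matrix.sum_apply]
    refine Finset.sum_congr rfl fun l _ => ?_
    rw [Matrix.smul_apply, Matrix.mul_apply, Fin.sum_univ_two]
    simp only [Matrix.conjTranspose_apply, B, Matrix.of_apply, Matrix.cons_val_zero, Matrix.cons_val_one, star_trivial, smul_eq_mul]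
    have h1 : ζ ^ (l * (j - i).val) * ζ ^ (l * i.val) = ζ ^ (l * j.val) := by
      rw [← pow_add, ← mul_add, pow_mul', pow_mul']
      congr 1
      have h2 : (((j - i).val + i.val : ℕ) : ZMod N) = ((j.val : ℕ) : ZMod N) := by
        push_cast
        simp
      rw [ZMod.natCast_eq_natCast_iff] at h2
      rw [pow_eq_pow_mod ((j - i).val + i.val) hζ.pow_eq_one, pow_eq_pow_mod j.val hζ.pow_eq_one]
      exact congrArg (fun t => ζ ^ t) h2
    have h3 : ζ ^ (l * (j - i).val) = (starRingEnd ℂ) (ζ ^ (l * i.val)) * ζ ^ (l * j.val) := by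
      rw [← h1, ← Groth.Agent.H27Circ.conj_pow hN hζ, mul_comm (ζ ^ (l * (j - i).val)), ← mul_assoc, inv_mul_cancel₀ (pow_ne_zero _ (hζ.ne_zero hN)), one_mul]
    rw [h3, Complex.mul_re, Complex.conj_re, Complex.conj_im, div_div, mul_comm (2 - 2 * (ζ ^ l).re) (N : ℝ)]
    ring
  rw [key]
  refine Matrix.posSemidef_sum _ fun l _ => ?_
  refine Matrix.PosSemidef.smul (Matrix.posSemidef_conjTranspose_mul_self _) ?_
  exact one_div_nonneg.2 (mul_nonneg hNR.le (Groth.Agent.H27Circ.D_nonneg hN hζ l))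

end Groth.Agent.S18190
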