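import Groth.Statements.S18291
import Mathlib

set_option autoImplicit false
universe v₁ u₁
open CategoryTheory MonoidalCategory CartesianMonoidalCategory MonObj Opposite
open Magnet Magnet.MonAct

namespace Groth.Agent.S18291

/-- Let A be a monoid object of a cartesian monoidal category acting on X (in the source A is the
diagonalizable monoid scheme A(M)_S acting on an S-space X). Then X = X^M: the natural
transformation sending a T-point x of X to its orbit map (g, t) ↦ g • x(t), from the functor of
points of X to the functor T ↦ (maps A × T → X equivariant for A acting on the first factor by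
multiplication), and evaluation at the unit of A in the other direction, are inverse to each other. -/
theorem result {C : Type u₁} [Category.{v₁} C] [CartesianMonoidalCategory C]
    (A X : C) [MonObj A] (a : Magnet.MonAct A X) :
    Magnet.MonAct.eqvHom.ofPoint a ≫ Magnet.MonAct.eqvHom.evalAt (Magnet.MonAct.regular A) a η[A] = 𝟙 _ ∧
      Magnet.MonAct.eqvHom.evalAt (Magnet.MonAct.regular A) a η[A] ≫ Magnet.MonAct.eqvHom.ofPoint a = 𝟙 _ := by
  constructor
  · apply NatTrans.ext
    funext T
    apply ConcreteCategory.hom_ext
    intro x
    have : lift (toUnit (unop T) ≫ η[A]) (𝟙 (unop T)) ≫ (A ◁ x) ≫ a.act = x := by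
      rw [lift_whiskerLeft_assoc, Category.id_comp]
      have := a.lift_one_act (T := unop T) x
      rwa [Hom.one_def] at this
    exact this
  · apply NatTrans.ext
    funext T
    apply ConcreteCategory.hom_ext
    intro φ
    apply Subtype.ext
    have hφ := (mem_eqvHom_iff φ.1).1 φ.2
    have : (A ◁ (lift (toUnit (unop T) ≫ η[A]) (𝟙 (unop T)) ≫ φ.1)) ≫ a.act = φ.1 := by
      apply hom_ext_lift₂
      intro T' p q
      rw [lift_whiskerLeft_assoc]
      have h := hφ T' p (toUnit _ ≫ η[A]) q
      rw [lift_regular_act] at h
      have h1 : q ≫ lift (toUnit (unop T) ≫ η[A]) (𝟙 (unop T)) ≫ φ.1 = lift (toUnit T' ≫ η[A]) q ≫ φ.1 := by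
        rw [comp_lift_assoc, Category.comp_id, ← Category.assoc q (toUnit _), toUnit_unique (q ≫ toUnit _) (toUnit _)]
      rw [h1, ← h, ← Hom.one_def, _root_.mul_one]
    exact this

end Groth.Agent.S18291
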