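import Groth.Statements.S18292
import Mathlib

set_option autoImplicit false
universe v₁ u₁
open CategoryTheory MonoidalCategory CartesianMonoidalCategory MonObj Opposite
open Magnet Magnet.MonAct

namespace Groth.Agent.S18292

/-- Let A be a monoid object of a cartesian monoidal category acting on objects B, X₁, X₂, X₃ and P, let
f₁ : X₁ → X₂ and f₃ : X₃ → X₂ be equivariant, and let p₁ : P → X₁, p₃ : P → X₃ be equivariant
morphisms making P the fibre product X₁ ×_{X₂} X₃ (in the source A = A(M)_S acts on S-spaces, B =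
A(N)_S for a magnet N, and the fibre product carries its canonical action). Then attractors commute
with this fibre product: the square of functors T ↦ (equivariant maps B × T → ·) induced by p₁, p₃,
f₁, f₃ is cartesian, (X₁ ×_{X₂} X₃)^N = X₁^N ×_{X₂^N} X₃^N. -/
theorem result {C : Type u₁} [Category.{v₁} C] [CartesianMonoidalCategory C]
    {A B X₁ X₂ X₃ P : C} [MonObj A] (ρ : Magnet.MonAct A B) (a₁ : Magnet.MonAct A X₁) (a₂ : Magnet.MonAct A X₂)
    (a₃ : Magnet.MonAct A X₃) (aP : Magnet.MonAct A P) (f₁ : X₁ ⟶ X₂) (f₃ : X₃ ⟶ X₂) (p₁ : P ⟶ X₁) (p₃ : P ⟶ X₃)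
    (hsq : IsPullback p₁ p₃ f₁ f₃) (hf₁ : Magnet.MonAct.IsEquivariant a₁ a₂ f₁)
    (hf₃ : Magnet.MonAct.IsEquivariant a₃ a₂ f₃) (hp₁ : Magnet.MonAct.IsEquivariant aP a₁ p₁)
    (hp₃ : Magnet.MonAct.IsEquivariant aP a₃ p₃) :
    IsPullback (Magnet.MonAct.eqvHom.postcomp ρ p₁ hp₁) (Magnet.MonAct.eqvHom.postcomp ρ p₃ hp₃)
      (Magnet.MonAct.eqvHom.postcomp ρ f₁ hf₁) (Magnet.MonAct.eqvHom.postcomp ρ f₃ hf₃) := by
  apply IsPullback.of_forall_isPullback_app
  intro T
  rw [Limits.Types.isPullback_iff]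
  refine ⟨?_, ?_, ?_⟩
  · apply ConcreteCategory.hom_ext
    intro φ
    apply Subtype.ext
    have : (φ.1 ≫ p₁) ≫ f₁ = (φ.1 ≫ p₃) ≫ f₃ := by
      rw [Category.assoc, Category.assoc, hsq.w]
    exact this
  · rintro φ ψ ⟨h1, h2⟩
    apply Subtype.ext
    apply hsq.hom_ext
    · exact congrArg Subtype.val h1
    · exact congrArg Subtype.val h2
  · intro φ ψ h
    have hw : φ.1 ≫ f₁ = ψ.1 ≫ f₃ := congrArg Subtype.val h
    refine ⟨⟨hsq.lift φ.1 ψ.1 hw, ?_⟩, ?_, ?_⟩
    · rw [mem_eqvHom_iff]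
      intro T' g x t
      have h1 := (mem_eqvHom_iff φ.1).1 φ.2 T' g x t
      have h2 := (mem_eqvHom_iff ψ.1).1 ψ.2 T' g x t
      rw [isEquivariant_iff] at hp₁ hp₃
      apply hsq.hom_ext
      · rw [Category.assoc, hsq.lift_fst, h1, Category.assoc, hp₁, Category.assoc, hsq.lift_fst]
      · rw [Category.assoc, hsq.lift_snd, h2, Category.assoc, hp₃, Category.assoc, hsq.lift_snd]
    · apply Subtype.ext; simp
    · apply Subtype.ext; simp

end Groth.Agent.S18292
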