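import Groth.Statements.S18293
import Mathlib

set_option autoImplicit false
universe v₁ u₁
open CategoryTheory MonoidalCategory CartesianMonoidalCategory MonObj Opposite
open Magnet Magnet.MonAct

namespace Groth.Agent.S18293

/-- Let A be a monoid object of a cartesian monoidal category acting on X₁, X₂ and X₃, let f₁ : X₁ → X₂
and f₃ : X₃ → X₂ be equivariant, and let p₁ : P → X₁, p₃ : P → X₃ make P the fibre product X₁ ×_{X₂}
X₃ (in the source A = A(M)_S acts on S-spaces). Then P carries exactly one action of A for which p₁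
and p₃ are equivariant (the canonical action g • (x₁, x₃) = (g • x₁, g • x₃)). With this action the
square is also cartesian among objects with A-action, an immediate consequence not restated here. -/
theorem result {C : Type u₁} [Category.{v₁} C] [CartesianMonoidalCategory C]
    {A X₁ X₂ X₃ P : C} [MonObj A] (a₁ : Magnet.MonAct A X₁) (a₂ : Magnet.MonAct A X₂) (a₃ : Magnet.MonAct A X₃)
    (f₁ : X₁ ⟶ X₂) (f₃ : X₃ ⟶ X₂) (p₁ : P ⟶ X₁) (p₃ : P ⟶ X₃) (hsq : IsPullback p₁ p₃ f₁ f₃)
    (hf₁ : Magnet.MonAct.IsEquivariant a₁ a₂ f₁) (hf₃ : Magnet.MonAct.IsEquivariant a₃ a₂ f₃) :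
    ∃! aP : Magnet.MonAct A P, Magnet.MonAct.IsEquivariant aP a₁ p₁ ∧ Magnet.MonAct.IsEquivariant aP a₃ p₃ := by
  have hw : ∀ {T : C} (g : T ⟶ A) (x : T ⟶ P), (lift g (x ≫ p₁) ≫ a₁.act) ≫ f₁ = (lift g (x ≫ p₃) ≫ a₃.act) ≫ f₃ := by
    intro T g x
    rw [isEquivariant_iff] at hf₁ hf₃
    rw [Category.assoc, Category.assoc, hf₁, hf₃, Category.assoc, Category.assoc, hsq.w]
  let act : A ⊗ P ⟶ P := hsq.lift (lift (fst A P) (snd A P ≫ p₁) ≫ a₁.act) (lift (fst A P) (snd A P ≫ p₃) ≫ a₃.act) (hw _ _)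
  have ha1 : ∀ {T : C} (g : T ⟶ A) (x : T ⟶ P), lift g x ≫ act ≫ p₁ = lift g (x ≫ p₁) ≫ a₁.act := by
    intro T g x
    simp only [act, hsq.lift_fst, comp_lift_assoc, lift_fst, lift_snd_assoc]
  have ha3 : ∀ {T : C} (g : T ⟶ A) (x : T ⟶ P), lift g x ≫ act ≫ p₃ = lift g (x ≫ p₃) ≫ a₃.act := by
    intro T g x
    simp only [act, hsq.lift_snd, comp_lift_assoc, lift_fst, lift_snd_assoc]
  refine ⟨MonAct.mk' act ?_ ?_, ⟨?_, ?_⟩, ?_⟩
  · intro T x
    apply hsq.hom_ext
    · rw [Category.assoc, ha1, lift_one_act]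
    · rw [Category.assoc, ha3, lift_one_act]
  · intro T g h x
    apply hsq.hom_ext
    · rw [Category.assoc, Category.assoc, ha1, ha1, lift_mul_act, Category.assoc, ha1]
    · rw [Category.assoc, Category.assoc, ha3, ha3, lift_mul_act, Category.assoc, ha3]
  · rw [isEquivariant_iff]
    intro T g x
    exact ha1 g x
  · rw [isEquivariant_iff]
    intro T g x
    exact ha3 g x
  · rintro b ⟨hb1, hb3⟩
    apply ext'
    rw [mk'_act]
    rw [isEquivariant_iff] at hb1 hb3
    apply hom_ext_lift₂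
    intro T g x
    apply hsq.hom_ext
    · rw [Category.assoc, Category.assoc, ha1, hb1]
    · rw [Category.assoc, Category.assoc, ha3, hb3]

end Groth.Agent.S18293
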