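import Groth.Statements.S18297
import Mathlib

set_option autoImplicit false
universe v₁ u₁
open CategoryTheory MonoidalCategory CartesianMonoidalCategory MonObj Opposite
open Magnet Magnet.MonAct

namespace Groth.Agent.S18297

theorem key1 {C : Type u₁} [Category.{v₁} C]
    [CartesianMonoidalCategory C] {A X : C} [MonObj A] [MonObj X] (a : Magnet.MonAct A X)
    (hμ : Magnet.MonAct.IsEquivariant (a.prod a) a μ[X]) {T : C} (g : T ⟶ A) (x y : T ⟶ X) :
    lift g (x * y) ≫ a.act = (lift g x ≫ a.act) * (lift g y ≫ a.act) := by
  rw [isEquivariant_iff] at hμ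
  have := hμ T g (lift x y)
  rw [lift_prod_act_assoc, ← Hom.mul_def, ← Hom.mul_def] at this
  exact this.symm


/-- Let A be a monoid object of a cartesian monoidal category acting on B and on a monoid object X by
monoid endomorphisms, i.e. the multiplication of X is equivariant for the diagonal action on X × X
and the unit of X is equivariant for the trivial action (in the source A = A(M)_S, B = A(N)_S and X
is a monoid S-space). Then X^N is a monoid functor: for every T the equivariant maps B × T → X are
closed under the pointwise product of maps into X and contain the pointwise unit. -/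
theorem result {C : Type u₁} [Category.{v₁} C]
    [CartesianMonoidalCategory C] {A B X : C} [MonObj A] [MonObj X] (ρ : Magnet.MonAct A B) (a : Magnet.MonAct A X)
    (hμ : Magnet.MonAct.IsEquivariant (a.prod a) a μ[X])
    (hη : Magnet.MonAct.IsEquivariant (Magnet.MonAct.trivial A (𝟙_ C)) a η[X]) (T : C) (φ ψ : B ⊗ T ⟶ X)
    (hφ : Magnet.MonAct.IsEquivariant (ρ.prod (Magnet.MonAct.trivial A T)) a φ)
    (hψ : Magnet.MonAct.IsEquivariant (ρ.prod (Magnet.MonAct.trivial A T)) a ψ) :
    Magnet.MonAct.IsEquivariant (ρ.prod (Magnet.MonAct.trivial A T)) a (φ * ψ) ∧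
      Magnet.MonAct.IsEquivariant (ρ.prod (Magnet.MonAct.trivial A T)) a (1 : B ⊗ T ⟶ X) := by
  constructor
  · rw [mem_eqvHom_iff]
    intro T' g b t
    have h1 := (mem_eqvHom_iff φ).1 hφ T' g b t
    have h2 := (mem_eqvHom_iff ψ).1 hψ T' g b t
    rw [MonObj.comp_mul, MonObj.comp_mul, h1, h2, key1 a hμ]
  · rw [mem_eqvHom_iff]
    intro T' g b t
    rw [isEquivariant_iff] at hη
    have := hη T' g (toUnit _)
    rw [lift_trivial_act_assoc] at this
    rw [MonObj.comp_one, MonObj.comp_one]
    exact this

end Groth.Agent.S18297
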