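import Groth.Statements.S18301
import Mathlib

set_option autoImplicit false
universe v₁ u₁
open CategoryTheory MonoidalCategory CartesianMonoidalCategory MonObj Opposite
open Magnet Magnet.MonAct

namespace Groth.Agent.S18301

theorem key1 {C : Type u₁} [Category.{v₁} C]
    [CartesianMonoidalCategory C] {A X : C} [MonObj A] [MonObj X] (a : Magnet.MonAct A X)
    (hμ : Magnet.MonAct.IsEquivariant (a.prod a) a μ[X]) {T : C} (g : T ⟶ A) (x y : T ⟶ X) :
    lift g (x * y) ≫ a.act = (lift g x ≫ a.act) * (lift g y ≫ a.act) := by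
  rw [isEquivariant_iff] at hμ
  have := hμ T g (lift x y)
  rw [lift_prod_act_assoc, ← Hom.mul_def, ← Hom.mul_def] at this
  exact this.symm


/-- Let A be a monoid object of a cartesian monoidal category acting on B and on a group object X by
group endomorphisms, i.e. the multiplication of X is equivariant for the diagonal action on X × X
(in the source A = A(M)_S, B = A(N)_S and X is a group S-space). Then X^N is a group functor: for
every T the equivariant maps B × T → X are closed under pointwise inversion in the group of maps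
into X (closure under products and the unit being the monoid case). -/
theorem result {C : Type u₁} [Category.{v₁} C]
    [CartesianMonoidalCategory C] {A B X : C} [MonObj A] [GrpObj X] (ρ : Magnet.MonAct A B) (a : Magnet.MonAct A X)
    (hμ : Magnet.MonAct.IsEquivariant (a.prod a) a μ[X]) (T : C) (φ : B ⊗ T ⟶ X)
    (hφ : Magnet.MonAct.IsEquivariant (ρ.prod (Magnet.MonAct.trivial A T)) a φ) :
    Magnet.MonAct.IsEquivariant (ρ.prod (Magnet.MonAct.trivial A T)) a φ⁻¹ := by
  rw [mem_eqvHom_iff]
  intro T' g b t
  have h1 := (mem_eqvHom_iff φ).1 hφ T' g b t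
  rw [GrpObj.comp_inv, GrpObj.comp_inv, h1]
  have h2 := key1 a hμ g (1 : T' ⟶ X) 1
  rw [_root_.one_mul] at h2
  have h3 : lift g (1 : T' ⟶ X) ≫ a.act = 1 := by
    have := mul_eq_left (a := lift g (1 : T' ⟶ X) ≫ a.act) (b := lift g (1 : T' ⟶ X) ≫ a.act)
    exact this.1 h2.symm
  have h4 := key1 a hμ g (lift b t ≫ φ) (lift b t ≫ φ)⁻¹
  rw [mul_inv_cancel, h3] at h4
  exact (eq_inv_of_mul_eq_one_right h4.symm).symm

end Groth.Agent.S18301
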