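import Groth.Statements.S18422
import Mathlib

set_option autoImplicit false
universe u v
open Pi1

namespace Groth.Agent.S18422

/-- Let p and l be distinct primes, G a profinite group (a compact totally disconnected topological
group) which is pro-p, meaning that every open normal subgroup of G has index a power of p, and H a
profinite group which is pro-l in the same sense. Then every continuous group homomorphism from G to
H is trivial. -/
theorem result {p l : ℕ} (hp : p.Prime) (hl : l.Prime) (hpl : p ≠ l)
    (G : Type u) [Group G] [TopologicalSpace G] [IsTopologicalGroup G] [CompactSpace G]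
    [TotallyDisconnectedSpace G]
    (H : Type v) [Group H] [TopologicalSpace H] [IsTopologicalGroup H] [CompactSpace H]
    [TotallyDisconnectedSpace H]
    (hG : ∀ U : OpenNormalSubgroup G, ∃ n : ℕ, U.toSubgroup.index = p ^ n)
    (hH : ∀ V : OpenNormalSubgroup H, ∃ n : ℕ, V.toSubgroup.index = l ^ n)
    (f : G →* H) (hf : Continuous f) (g : G) : f g = 1 := by
  by_contra hne
  have hU : IsOpen ({f g}ᶜ : Set H) := isOpen_compl_singleton
  obtain ⟨V, hV⟩ := ProfiniteGrp.exist_openNormalSubgroup_sub_open_nhds_of_one hU (by simpa using Ne.symm hne)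
  have hVn : V.toSubgroup.Normal := V.isNormal'
  have hUo : IsOpen ((V.toSubgroup.comap f : Subgroup G) : Set G) := V.isOpen'.preimage hf
  let U : OpenNormalSubgroup G := { toSubgroup := V.toSubgroup.comap f, isOpen' := hUo, isNormal' := inferInstance }
  obtain ⟨a, ha⟩ := hG U
  obtain ⟨b, hb⟩ := hH V
  have h1 : (V.toSubgroup.comap f).index ∣ V.toSubgroup.index := by
    rw [Subgroup.index_comap]
    exact Subgroup.relIndex_dvd_index_of_normal _ _
  have h2 : (V.toSubgroup.comap f).index = p ^ a := ha
  rw [h2, hb] at h1
  have h3 : a = 0 := by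
    by_contra ha0
    have : p ∣ l ^ b := (dvd_pow_self p ha0).trans h1
    have := hp.dvd_of_dvd_pow this
    exact hpl ((Nat.prime_dvd_prime_iff_eq hp hl).mp this)
  rw [h3, pow_zero, Subgroup.index_eq_one] at h2
  have h4 : g ∈ V.toSubgroup.comap f := by rw [h2]; trivial
  exact hV h4 rfl

end Groth.Agent.S18422
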