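import Groth.Statements.S18429
import Mathlib

set_option autoImplicit false
universe u
open SpinCurv

namespace Groth.Agent.S18429

/-- Let n ≥ 1 and r ≥ 2 be integers and let e_0, …, e_{nr} be integers with e_0 = e_{nr} = 0 (the
coefficients of a chain of nr - 1 exceptional curves joining two non-exceptional components with
coefficient zero) such that at every interior index 1 ≤ j ≤ nr - 1 the second difference e_{j-1} - 2
e_j + e_{j+1} (the degree of the divisor Σ e_i E_i on the j-th curve of the chain) is divisible by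
r. Then there are integers e'_0, …, e'_{nr}, with e'_j ≡ e_j modulo r for every interior j, with
e'_0 = e'_{nr} = 0 and every e'_j ≤ 0, whose second differences at the interior indices are each 0
or r, and are nonzero at no two distinct interior indices. -/
theorem result (n r : ℕ) (hn : 1 ≤ n) (hr : 2 ≤ r)
    (e : ℕ → ℤ) (he0 : e 0 = 0) (henr : e (n * r) = 0)
    (hdiv : ∀ j : ℕ, 1 ≤ j → j < n * r → (r : ℤ) ∣ e (j - 1) - 2 * e j + e (j + 1)) :
    ∃ e' : ℕ → ℤ, e' 0 = 0 ∧ e' (n * r) = 0 ∧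
      (∀ j : ℕ, 1 ≤ j → j < n * r → (r : ℤ) ∣ e' j - e j) ∧
      (∀ j : ℕ, j ≤ n * r → e' j ≤ 0) ∧
      (∀ j : ℕ, 1 ≤ j → j < n * r →
        (e' (j - 1) - 2 * e' j + e' (j + 1) = 0 ∨ e' (j - 1) - 2 * e' j + e' (j + 1) = r)) ∧
      (∀ j j' : ℕ, 1 ≤ j → j < n * r → 1 ≤ j' → j' < n * r →
        e' (j - 1) - 2 * e' j + e' (j + 1) ≠ 0 → e' (j' - 1) - 2 * e' j' + e' (j' + 1) ≠ 0 → j = j') := by
  have hr0 : (0 : ℤ) < r := by exact_mod_cast (by omega : 0 < r)
  set b : ℕ := ((-(e 1)) % (r : ℤ)).toNat with hb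
  have hbz : (b : ℤ) = (-(e 1)) % (r : ℤ) := Int.toNat_of_nonneg (Int.emod_nonneg _ hr0.ne')
  have hblt : (b : ℤ) < r := by rw [hbz]; exact Int.emod_lt_of_pos _ hr0
  have hbr : b < r := by exact_mod_cast hblt
  have hb1 : (r : ℤ) ∣ (b : ℤ) + e 1 := by
    rw [hbz]
    have := Int.emod_add_mul_ediv (-(e 1)) r
    exact ⟨-((-(e 1)) / r), by linarith⟩
  set m : ℕ := (r - b) * n with hm
  have hmn : m ≤ n * r := by
    rw [hm, mul_comm n r]; exact Nat.mul_le_mul_right _ (Nat.sub_le _ _)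
  have hmz : (m : ℤ) = ((r : ℤ) - b) * n := by rw [hm]; push_cast [Nat.cast_sub hbr.le]; ring
  have hlin : ∀ j : ℕ, j + 1 ≤ n * r → ((r : ℤ) ∣ e j - j * e 1) ∧ ((r : ℤ) ∣ e (j + 1) - (j + 1) * e 1) := by
    intro j
    induction j with
    | zero => intro _; rw [he0]; simp
    | succ j ih =>
      intro hj
      obtain ⟨h1, h2⟩ := ih (by omega)
      refine ⟨by push_cast; exact h2, ?_⟩
      have h3 := hdiv (j + 1) (by omega) (by omega)
      rw [Nat.add_sub_cancel] at h3
      have h4 : e (j + 1 + 1) - (((j + 1 : ℕ) : ℤ) + 1) * e 1 = (e j - 2 * e (j + 1) + e (j + 1 + 1)) - (e j - j * e 1) + 2 * (e (j + 1) - (j + 1) * e 1) := by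
        push_cast; ring
      rw [h4]
      exact dvd_add (dvd_sub h3 h1) (h2.mul_left 2)
  refine ⟨fun j => -(b : ℤ) * j + r * ((j - m : ℕ) : ℤ), by simp, ?_, ?_, ?_, ?_, ?_⟩
  · simp only
    rw [Nat.cast_sub hmn, hmz]; push_cast; ring
  · intro j hj1 hj
    obtain ⟨h1, -⟩ := hlin j (by omega)
    have h2 : -(b : ℤ) * j + r * ((j - m : ℕ) : ℤ) - e j = r * ((j - m : ℕ) : ℤ) - j * (b + e 1) - (e j - j * e 1) := by ring
    simp only
    rw [h2]
    exact dvd_sub (dvd_sub (dvd_mul_right _ _) (hb1.mul_left _)) h1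
  · intro j hj
    simp only
    rcases le_or_gt j m with h | h
    · rw [Nat.sub_eq_zero_of_le h]
      have : (0 : ℤ) ≤ (b : ℤ) * j := by positivity
      push_cast; linarith
    · rw [Nat.cast_sub h.le, hmz]
      have h1 : -(b : ℤ) * j + r * ((j : ℤ) - ((r : ℤ) - b) * n) = -(((r : ℤ) - b) * ((n : ℤ) * r - j)) := by ring
      rw [h1]
      have h2 : (j : ℤ) ≤ n * r := by exact_mod_cast hj
      have : 0 ≤ ((r : ℤ) - b) * ((n : ℤ) * r - j) := mul_nonneg (by linarith) (by linarith)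
      linarith
  · intro j hj1 hj
    simp only
    have hc : ((j - 1 : ℕ) : ℤ) = j - 1 := by push_cast [Nat.cast_sub hj1]; ring
    rcases lt_trichotomy j m with h | h | h
    · left
      rw [show j - 1 - m = 0 by omega, show j - m = 0 by omega, show j + 1 - m = 0 by omega, hc]; push_cast; ring
    · right
      rw [show j - 1 - m = 0 by omega, show j - m = 0 by omega, show j + 1 - m = 1 by omega, hc]; push_cast; ring
    · left
      have h3 : ((j - 1 - m : ℕ) : ℤ) = j - 1 - m := by omega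
      have h4 : ((j - m : ℕ) : ℤ) = j - m := by omega
      have h5 : ((j + 1 - m : ℕ) : ℤ) = j + 1 - m := by omega
      rw [h3, h4, h5, hc]; push_cast; ring
  · have hkink : ∀ j : ℕ, 1 ≤ j → j ≠ m → -(b : ℤ) * ((j - 1 : ℕ) : ℤ) + r * ((j - 1 - m : ℕ) : ℤ) - 2 * (-(b : ℤ) * j + r * ((j - m : ℕ) : ℤ)) + (-(b : ℤ) * ((j + 1 : ℕ) : ℤ) + r * ((j + 1 - m : ℕ) : ℤ)) = 0 := by
      intro j hj1 hjm
      have hc : ((j - 1 : ℕ) : ℤ) = j - 1 := by push_cast [Nat.cast_sub hj1]; ring
      rcases lt_or_gt_of_ne hjm with h | h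
      · rw [show j - 1 - m = 0 by omega, show j - m = 0 by omega, show j + 1 - m = 0 by omega, hc]; push_cast; ring
      · have h3 : ((j - 1 - m : ℕ) : ℤ) = j - 1 - m := by omega
        have h4 : ((j - m : ℕ) : ℤ) = j - m := by omega
        have h5 : ((j + 1 - m : ℕ) : ℤ) = j + 1 - m := by omega
        rw [h3, h4, h5, hc]; push_cast; ring
    intro j j' hj1 _ hj1' _ h1 h2
    have e1 : j = m := by
      by_contra hne
      exact h1 (hkink j hj1 hne)
    have e2 : j' = m := by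
      by_contra hne
      exact h2 (hkink j' hj1' hne)
    rw [e1, e2]

end Groth.Agent.S18429
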