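import Groth.Statements.S18431
import Mathlib

set_option autoImplicit false
universe u
open SpinCurv

namespace Groth.Agent.S18431

/-- Let R be a Noetherian local ring in which the natural number r is invertible and let ξ, ζ ∈ R
satisfy ξ^r = 1 and ζ^r = 1. Then either ξ = ζ, or ξ - ζ is a unit of R. (Consequently an element of
R annihilated by ξ - ζ is zero unless ξ = ζ. In the published setting R is moreover complete; the
step does not use completeness.) -/
theorem result (R : Type u) [CommRing R] [IsNoetherianRing R] [IsLocalRing R]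
    (r : ℕ) (hr : IsUnit (r : R)) (ξ ζ : R) (hξ : ξ ^ r = 1) (hζ : ζ ^ r = 1) :
    ξ = ζ ∨ IsUnit (ξ - ζ) := by
  have hζu : IsUnit ζ := by
    rcases Nat.eq_zero_or_pos r with h0 | h0
    · subst h0
      simp at hr
    · exact IsUnit.of_mul_eq_one (ζ ^ (r-1)) (by rw [← pow_succ', Nat.sub_add_cancel h0, hζ])
  obtain ⟨z, rfl⟩ := hζu
  by_cases hu : IsUnit (ξ - z)
  · exact Or.inr hu
  · left
    have hm : ξ - z ∈ IsLocalRing.maximalIdeal R := by
      rwa [IsLocalRing.mem_maximalIdeal, mem_nonunits_iff]
    have key : (∑ i ∈ Finset.range r, ξ ^ i * (z:R) ^ (r - 1 - i)) * (ξ - z) = 0 := by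
      rw [(Commute.all _ _).geom_sum₂_mul, hξ, hζ, sub_self]
    have hunit : IsUnit (∑ i ∈ Finset.range r, ξ ^ i * (z:R) ^ (r - 1 - i)) := by
      by_contra hcon
      have h1 : (∑ i ∈ Finset.range r, ξ ^ i * (z:R) ^ (r - 1 - i)) ∈ IsLocalRing.maximalIdeal R := by
        rwa [IsLocalRing.mem_maximalIdeal, mem_nonunits_iff]
      rw [← IsLocalRing.residue_eq_zero_iff] at h1 hm
      rw [map_sub, sub_eq_zero] at hm
      simp only [map_sum, map_mul, map_pow, hm] at h1
      have h2 : ∀ i ∈ Finset.range r, (IsLocalRing.residue R (z:R)) ^ i * (IsLocalRing.residue R (z:R)) ^ (r - 1 - i) = (IsLocalRing.residue R (z:R)) ^ (r-1) := by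
        intro i hi
        rw [← pow_add]
        congr 1
        have := Finset.mem_range.mp hi
        omega
      rw [Finset.sum_congr rfl h2, Finset.sum_const, Finset.card_range, nsmul_eq_mul] at h1
      have h3 : IsUnit ((r : IsLocalRing.ResidueField R)) := by
        have := hr.map (IsLocalRing.residue R)
        simpa using this
      have h4 : IsUnit ((IsLocalRing.residue R (z:R)) ^ (r-1)) := (z.isUnit.map _).pow _
      exact (h3.mul h4).ne_zero h1
    have := hunit.mul_right_eq_zero.mp key
    exact sub_eq_zero.mp this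

end Groth.Agent.S18431
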