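import Groth.Statements.S18457
import Mathlib

set_option autoImplicit false
open Finset
open Surf

namespace Groth.Agent.S18457

/-- In the Picard lattice of the plane blown up at n ≤ 8 points, with basis h, e_1, …, e_n, form h² = 1,
e_i² = −1, all other products 0, and anticanonical class D = 3h − Σ e_i, let d·h − Σ a_i e_i be a
class with all a_i ≥ 0 (the class of the strict transform of a degree-d plane curve having
multiplicity a_i at the i-th point) which is a (−2)-class orthogonal to D, that is d² − Σ a_i² = −2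
and 3d = Σ a_i. Then one of the following holds: d = 1 and every a_i is 0 or 1 with exactly three
equal to 1; d = 2 and every a_i is 0 or 1 with exactly six equal to 1; d = 3, n = 8, and one a_i
equals 2 while the remaining seven equal 1. The published statement is geometric: under the
general-position hypotheses on the points, no smooth rational curve on the blown-up plane is
orthogonal to D; this row is the lattice enumeration its proof carries out (a line through three of
the points, a conic through six, a cubic through all eight and singular at one). -/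
theorem result (n : ℕ) (hn : n ≤ 8)
    (d : ℤ) (a : Fin n → ℤ) (ha : ∀ i, 0 ≤ a i)
    (hsq : d ^ 2 - ∑ i, (a i) ^ 2 = -2) (hK : 3 * d = ∑ i, a i) :
    (d = 1 ∧ (∀ i, a i = 0 ∨ a i = 1) ∧ (Finset.univ.filter (fun i => a i = 1)).card = 3) ∨
      (d = 2 ∧ (∀ i, a i = 0 ∨ a i = 1) ∧ (Finset.univ.filter (fun i => a i = 1)).card = 6) ∨
      (d = 3 ∧ n = 8 ∧ ∃ j, a j = 2 ∧ ∀ i, i ≠ j → a i = 1) := by
  classical
  have hS : ∑ i : Fin n, a i * (a i - 1) = d ^ 2 + 2 - 3 * d := by
    have : ∑ i : Fin n, a i * (a i - 1) = ∑ i, (a i) ^ 2 - ∑ i, a i := by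
      rw [← Finset.sum_sub_distrib]; exact Finset.sum_congr rfl fun i _ => by ring
    rw [this]; linarith
  have hnn : ∀ i, 0 ≤ a i * (a i - 1) := by
    intro i
    rcases eq_or_lt_of_le (ha i) with h | h
    · rw [← h]; simp
    · exact mul_nonneg (ha i) (by omega)
  have hn8 : (n : ℤ) ≤ 8 := by exact_mod_cast hn
  have hd0 : 0 ≤ d := by
    have : 0 ≤ ∑ i, a i := Finset.sum_nonneg fun i _ => ha i
    omega
  have hCS : ∀ c : ℤ, ∑ i : Fin n, (8 * a i - c) ^ 2 = 64 * (d ^ 2 + 2) - 16 * c * (3 * d) + n * c ^ 2 := by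
    intro c
    have : ∀ i : Fin n, (8 * a i - c) ^ 2 = 64 * (a i) ^ 2 - 16 * c * a i + c ^ 2 := fun i => by ring
    rw [Finset.sum_congr rfl fun i _ => this i, Finset.sum_add_distrib, Finset.sum_sub_distrib, ← Finset.mul_sum, ← Finset.mul_sum,
      Finset.sum_const, Finset.card_univ, Fintype.card_fin, nsmul_eq_mul, ← hK]
    linarith
  have hd4 : d ≤ 4 := by
    have h1 := hCS (3 * d)
    have h2 : 0 ≤ ∑ i : Fin n, (8 * a i - 3 * d) ^ 2 := Finset.sum_nonneg fun i _ => sq_nonneg _
    have h3 : (n : ℤ) * (3 * d) ^ 2 ≤ 8 * (3 * d) ^ 2 := mul_le_mul_of_nonneg_right hn8 (sq_nonneg _)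
    nlinarith
  have h01 : (∑ i : Fin n, a i * (a i - 1) = 0) → ∀ i, a i = 0 ∨ a i = 1 := by
    intro h i
    have := (Finset.sum_eq_zero_iff_of_nonneg (fun i _ => hnn i)).1 h i (Finset.mem_univ i)
    rcases mul_eq_zero.1 this with h | h
    · exact Or.inl h
    · exact Or.inr (by omega)
  have hcard : (∀ i, a i = 0 ∨ a i = 1) → ((Finset.univ.filter (fun i => a i = 1)).card : ℤ) = 3 * d := by
    intro h
    rw [hK, Finset.card_filter]
    push_cast
    refine Finset.sum_congr rfl fun i _ => ?_
    rcases h i with h | h <;> simp [h]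
  interval_cases d
  · exfalso
    have h1 : ∑ i, a i = 0 := by omega
    have h2 : ∀ i, a i = 0 := fun i => (Finset.sum_eq_zero_iff_of_nonneg (fun i _ => ha i)).1 h1 i (Finset.mem_univ i)
    rw [Finset.sum_congr rfl fun i _ => by rw [h2 i]] at hsq
    simp at hsq
  · left
    have h := h01 (by rw [hS]; norm_num)
    have h' := hcard h
    exact ⟨rfl, h, by omega⟩
  · right; left
    have h := h01 (by rw [hS]; norm_num)
    have h' := hcard h
    exact ⟨rfl, h, by omega⟩
  · right; right
    have hS2 : ∑ i : Fin n, a i * (a i - 1) = 2 := by rw [hS]; norm_num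
    obtain ⟨j, hj⟩ : ∃ j, a j * (a j - 1) ≠ 0 := by
      by_contra hcon
      push Not at hcon
      rw [Finset.sum_congr rfl fun i _ => hcon i] at hS2
      simp at hS2
    have hsplit := Finset.add_sum_erase Finset.univ (fun i => a i * (a i - 1)) (Finset.mem_univ j)
    rw [hS2] at hsplit
    have hrest : 0 ≤ ∑ i ∈ Finset.univ.erase j, a i * (a i - 1) := Finset.sum_nonneg fun i _ => hnn i
    have hjle : a j * (a j - 1) ≤ 2 := by linarith
    have hj2 : a j = 2 := by
      have h1 := ha j
      have h2 : a j ≤ 2 := by nlinarith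
      have h3 : a j ≠ 0 := by rintro h; rw [h] at hj; simp at hj
      have h4 : a j ≠ 1 := by rintro h; rw [h] at hj; simp at hj
      omega
    have hrest0 : ∑ i ∈ Finset.univ.erase j, a i * (a i - 1) = 0 := by
      rw [hj2] at hsplit; linarith
    have h01' : ∀ i, i ≠ j → a i = 0 ∨ a i = 1 := by
      intro i hi
      have := (Finset.sum_eq_zero_iff_of_nonneg (fun i _ => hnn i)).1 hrest0 i (Finset.mem_erase.2 ⟨hi, Finset.mem_univ i⟩)
      rcases mul_eq_zero.1 this with h | h
      · exact Or.inl h
      · exact Or.inr (by omega)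
    have hsum := Finset.add_sum_erase Finset.univ a (Finset.mem_univ j)
    rw [← hK, hj2] at hsum
    have hle : ∀ i ∈ Finset.univ.erase j, a i ≤ 1 := by
      intro i hi
      rcases h01' i (Finset.ne_of_mem_erase hi) with h | h <;> omega
    have hcardE : ((Finset.univ.erase j).card : ℤ) = n - 1 := by
      rw [Finset.card_erase_of_mem (Finset.mem_univ j), Finset.card_univ, Fintype.card_fin]
      have : 0 < n := j.pos
      omega
    have hsl : ∑ i ∈ Finset.univ.erase j, a i ≤ ∑ i ∈ Finset.univ.erase j, (1 : ℤ) := Finset.sum_le_sum hle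
    have hs1 : ∑ i ∈ Finset.univ.erase j, (1 : ℤ) = n - 1 := by
      rw [Finset.sum_const, nsmul_eq_mul, mul_one, hcardE]
    have hn' : n = 8 := by omega
    refine ⟨rfl, hn', j, hj2, fun i hi => ?_⟩
    by_contra hne
    have hlt : ∑ i ∈ Finset.univ.erase j, a i < ∑ i ∈ Finset.univ.erase j, (1 : ℤ) :=
      Finset.sum_lt_sum hle ⟨i, Finset.mem_erase.2 ⟨hi, Finset.mem_univ i⟩, lt_of_le_of_ne (hle i (Finset.mem_erase.2 ⟨hi, Finset.mem_univ i⟩)) hne⟩
    omega
  · exfalso
    have h1 := hCS 12
    have h2 : 0 ≤ ∑ i : Fin n, (8 * a i - 12) ^ 2 := Finset.sum_nonneg fun i _ => sq_nonneg _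
    have hn' : (n : ℤ) = 8 := by nlinarith
    rw [hn'] at h1
    have h3 : ∑ i : Fin n, (8 * a i - 12) ^ 2 = 0 := by rw [h1]; norm_num
    have hn8' : n = 8 := by exact_mod_cast hn'
    have h4 := (Finset.sum_eq_zero_iff_of_nonneg (fun i _ => sq_nonneg (8 * a i - 12))).1 h3 ⟨0, by omega⟩ (Finset.mem_univ _)
    have h5 : 8 * a ⟨0, by omega⟩ - 12 = 0 := by
      have := pow_eq_zero_iff (two_ne_zero) |>.1 h4
      exact this
    omega

end Groth.Agent.S18457
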