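import Groth.Statements.S18465
import Mathlib

set_option autoImplicit false
universe u v w x
open WildLef

namespace Groth.Agent.S18465

/-- Let f : G₁ → G₂ be a homomorphism of groups, ρ : G₂ → Γ a homomorphism with finite image G, and A a
nontrivial commutative ring. Let G₂ act on the group algebra A[G] through ρ followed by the left
regular representation, and G₁ through f. If the elements of A[G] fixed by G₁ coincide with those
fixed by G₂, then ρ ∘ f and ρ have the same image. (The published statement has Γ a general linear
group GL_r(A); over the zero ring that group is trivial, so requiring A nontrivial and allowing any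
target group loses nothing.) -/
theorem result
    {G₁ : Type u} {G₂ : Type v} {Γ : Type w} [Group G₁] [Group G₂] [Group Γ]
    (f : G₁ →* G₂) (ρ : G₂ →* Γ) [Finite ρ.range] (A : Type x) [CommRing A] [Nontrivial A]
    (h : {x : MonoidAlgebra A ρ.range | ∀ g : G₁, MonoidAlgebra.of A ρ.range (ρ.rangeRestrict (f g)) * x = x} =
      {x : MonoidAlgebra A ρ.range | ∀ g : G₂, MonoidAlgebra.of A ρ.range (ρ.rangeRestrict g) * x = x}) :
    (ρ.comp f).range = ρ.range := by
  classical
  apply le_antisymm
  · rintro _ ⟨g, rfl⟩
    exact ⟨f g, rfl⟩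
  · have : Fintype ρ.range := Fintype.ofFinite _
    set φ : G₁ →* ρ.range := ρ.rangeRestrict.comp f with hφ
    let x : MonoidAlgebra A ρ.range := ∑ h ∈ Finset.univ.filter (fun h : ρ.range => h ∈ φ.range), MonoidAlgebra.of A ρ.range h
    have hx1 : x ∈ {x : MonoidAlgebra A ρ.range | ∀ g : G₁, MonoidAlgebra.of A ρ.range (ρ.rangeRestrict (f g)) * x = x} := by
      intro g
      show MonoidAlgebra.of A ρ.range (φ g) * x = x
      simp only [x, Finset.mul_sum, ← map_mul]
      refine Finset.sum_bij (fun h _ => φ g * h) ?_ ?_ ?_ ?_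
      · intro h hh
        simp only [Finset.mem_filter, Finset.mem_univ, true_and] at hh ⊢
        exact mul_mem ⟨g, rfl⟩ hh
      · intro a _ b _ hab
        exact mul_left_cancel hab
      · intro b hb
        simp only [Finset.mem_filter, Finset.mem_univ, true_and] at hb
        refine ⟨(φ g)⁻¹ * b, ?_, by simp⟩
        simp only [Finset.mem_filter, Finset.mem_univ, true_and]
        exact mul_mem (inv_mem ⟨g, rfl⟩) hb
      · intro a _; rfl
    rw [h] at hx1
    rintro _ ⟨g, rfl⟩
    have h2 := hx1 g
    have h3 := congrArg (fun y : MonoidAlgebra A ρ.range => y.coeff (ρ.rangeRestrict g)) h2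
    have hcoef : ∀ k : ρ.range, x.coeff k = if k ∈ φ.range then 1 else 0 := by
      intro k
      simp only [x, MonoidAlgebra.of_apply, MonoidAlgebra.coeff_sum, MonoidAlgebra.coeff_single]
      rw [Finsupp.finset_sum_apply]
      simp only [Finsupp.single_apply]
      rw [Finset.sum_ite_eq']
      simp
    have h4 : (MonoidAlgebra.of A ρ.range (ρ.rangeRestrict g) * x).coeff (ρ.rangeRestrict g) = x.coeff 1 := by
      rw [MonoidAlgebra.of_apply, MonoidAlgebra.coeff_single_mul_eq_mul_coeff (m₂ := 1)]
      · simp
      · intro m' _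
        simp
    replace h3 : (MonoidAlgebra.of A ρ.range (ρ.rangeRestrict g) * x).coeff (ρ.rangeRestrict g) = x.coeff (ρ.rangeRestrict g) := h3
    rw [h4, hcoef, hcoef, if_pos (one_mem _)] at h3
    by_cases hg : ρ.rangeRestrict g ∈ φ.range
    · obtain ⟨g1, hg1⟩ := hg
      exact ⟨g1, congrArg Subtype.val hg1⟩
    · rw [if_neg hg] at h3
      exact absurd h3 one_ne_zero

end Groth.Agent.S18465
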