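import Groth.Statements.S18538
import Mathlib

set_option autoImplicit false
universe u
open EtAlg

namespace Groth.Agent.S18538

/-- Let A ⊆ B be an injective finite extension of integrally closed domains, with fraction fields K ⊆ L
and L separable over K. Then A → B → B ⊗_A B is exact, the second map being b ↦ b ⊗ 1 - 1 ⊗ b: every
element of B whose two images in B ⊗_A B agree comes from A. -/
theorem result
    (A B K L : Type u) [CommRing A] [CommRing B] [IsDomain A] [IsDomain B]
    [IsIntegrallyClosed A] [IsIntegrallyClosed B] [Algebra A B] [FaithfulSMul A B] [Module.Finite A B]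
    [Field K] [Field L] [Algebra A K] [IsFractionRing A K] [Algebra B L] [IsFractionRing B L]
    [Algebra K L] [Algebra A L] [IsScalarTower A K L] [IsScalarTower A B L]
    [Algebra.IsSeparable K L] :
    Algebra.IsEffective A B := by
  intro b
  refine ⟨fun hb => ?_, fun hb => ?_⟩
  · have h1 : (b ⊗ₜ[A] (1 : B)) = (1 : B) ⊗ₜ[A] b := by
      rw [← sub_eq_zero]; exact hb
    have h2 := congrArg (Algebra.TensorProduct.map (IsScalarTower.toAlgHom A B L) (IsScalarTower.toAlgHom A B L)) h1
    rw [Algebra.TensorProduct.map_tmul, Algebra.TensorProduct.map_tmul, map_one] at h2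
    have h3 := congrArg (Algebra.TensorProduct.mapOfCompatibleSMul K A A L L) h2
    rw [Algebra.TensorProduct.mapOfCompatibleSMul_tmul, Algebra.TensorProduct.mapOfCompatibleSMul_tmul] at h3
    have h4 : Algebra.TensorProduct.includeLeftSubRight K L (algebraMap B L b) = 0 := by
      rw [Algebra.TensorProduct.includeLeftSubRight_apply, sub_eq_zero]
      exact h3
    obtain ⟨c, hc⟩ := (Algebra.IsEffective.of_faithfullyFlat K L (algebraMap B L b)).1 h4
    have hc' : algebraMap K L c = algebraMap B L b := hc
    have hint : IsIntegral A b := Algebra.IsIntegral.isIntegral b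
    have hint2 : IsIntegral A (algebraMap K L c) := by rw [hc']; exact hint.map (IsScalarTower.toAlgHom A B L)
    have hint3 : IsIntegral A c := (isIntegral_algHom_iff (IsScalarTower.toAlgHom A K L) (algebraMap K L).injective).1 hint2
    obtain ⟨a, ha⟩ := IsIntegrallyClosed.isIntegral_iff.1 hint3
    refine ⟨a, ?_⟩
    apply IsFractionRing.injective B L
    rw [← hc', ← ha, ← IsScalarTower.algebraMap_apply A K L, IsScalarTower.algebraMap_apply A B L]
    rfl
  · obtain ⟨a, rfl⟩ := hb
    exact Algebra.TensorProduct.includeLeftSubRight_algebraMap_zero a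

end Groth.Agent.S18538
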