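import Groth.Statements.S18539
import Mathlib

set_option autoImplicit false
universe u v w
open CAlg

namespace Groth.Agent.S18539

open scoped Pointwise


/-- For a commutative ring R, R-modules M and N and elements r₁, r₂ of R such that r₁ is a
non-zero-divisor on N and r₂ is a non-zero-divisor on N/r₁N, the element r₁ is a non-zero-divisor on
the module Hom_R(M, N) and r₂ is a non-zero-divisor on Hom_R(M, N)/r₁Hom_R(M, N). (Weak regularity
on both sides: no condition that the quotient by (r₁, r₂) is nonzero, which would fail for M = 0.) -/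
theorem result
    (R : Type u) [CommRing R] (M : Type v) (N : Type w)
    [AddCommGroup M] [Module R M] [AddCommGroup N] [Module R N]
    (r₁ r₂ : R) (h : RingTheory.Sequence.IsWeaklyRegular N [r₁, r₂]) :
    RingTheory.Sequence.IsWeaklyRegular (M →ₗ[R] N) [r₁, r₂] := by
  rw [RingTheory.Sequence.isWeaklyRegular_cons_iff, RingTheory.Sequence.isWeaklyRegular_cons_iff] at h ⊢
  obtain ⟨h1, h2, -⟩ := h
  refine ⟨?_, ?_, RingTheory.Sequence.IsWeaklyRegular.nil _ _⟩
  · intro f g hfg
    ext m
    have := congrArg (fun φ : M →ₗ[R] N => φ m) hfg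
    exact h1 this
  · have key : ∀ f : M →ₗ[R] N, r₂ • f ∈ (r₁ • ⊤ : Submodule R (M →ₗ[R] N)) → f ∈ (r₁ • ⊤ : Submodule R (M →ₗ[R] N)) := by
      intro f hf
      rw [Submodule.mem_smul_pointwise_iff_exists] at hf
      obtain ⟨g, -, hg⟩ := hf
      have hm : ∀ m : M, ∃ n : N, r₁ • n = f m := by
        intro m
        have h3 : r₂ • (Submodule.Quotient.mk (f m) : QuotSMulTop r₁ N) = r₂ • 0 := by
          rw [smul_zero, ← Submodule.Quotient.mk_smul, Submodule.Quotient.mk_eq_zero, Submodule.mem_smul_pointwise_iff_exists]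
          refine ⟨g m, trivial, ?_⟩
          exact congrArg (fun φ : M →ₗ[R] N => φ m) hg
        have h4 := h2 h3
        rw [Submodule.Quotient.mk_eq_zero, Submodule.mem_smul_pointwise_iff_exists] at h4
        obtain ⟨n, -, hn⟩ := h4
        exact ⟨n, hn⟩
      choose k hk using hm
      rw [Submodule.mem_smul_pointwise_iff_exists]
      refine ⟨{ toFun := k, map_add' := ?_, map_smul' := ?_ }, trivial, ?_⟩
      · intro x y
        apply h1
        change r₁ • k (x+y) = r₁ • (k x + k y)
        rw [smul_add, hk, hk, hk, map_add]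
      · intro c x
        apply h1
        change r₁ • k (c • x) = r₁ • ((RingHom.id R) c • k x)
        rw [hk, map_smul, RingHom.id_apply, smul_comm r₁ c, hk]
      · ext m
        exact hk m
    intro x y hxy
    obtain ⟨f, rfl⟩ := Submodule.Quotient.mk_surjective _ x
    obtain ⟨g, rfl⟩ := Submodule.Quotient.mk_surjective _ y
    have h5 : r₂ • (f - g) ∈ (r₁ • ⊤ : Submodule R (M →ₗ[R] N)) := by
      rw [smul_sub, ← Submodule.Quotient.eq]
      exact hxy
    exact (Submodule.Quotient.eq _).2 (key _ h5)

end Groth.Agent.S18539
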