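import Groth.Statements.S18589
import Mathlib
import Groth.Agent.Lib.Helper27_Witt

set_option autoImplicit false
open CAlg

namespace Groth.Agent.S18589

/-- For a prime p and every natural number n, the n-th Witt addition polynomial over the integers (the
polynomial S_n with (x + y)_n = S_n(x_0, y_0, …, x_n, y_n) for p-typical Witt vectors x, y) is
weighted homogeneous of weighted degree p ^ n for the grading in which the variables x_i and y_i
have weight p ^ i. -/
theorem result (p : ℕ) [Fact p.Prime] (n : ℕ) :
    MvPolynomial.IsWeightedHomogeneous (fun i : Fin 2 × ℕ => p ^ i.2) (WittVector.wittAdd p n) (p ^ n) := by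
  exact Groth.Agent.H27Witt.wittAdd_homog p n

end Groth.Agent.S18589
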