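import Groth.Statements.S18590
import Mathlib
import Groth.Agent.Lib.Helper27_Witt

set_option autoImplicit false
universe u
open CAlg

namespace Groth.Agent.S18590

/-- Let p be a prime, A a commutative ring, K a commutative A-algebra of characteristic p and M_0, M_1,
M_2, … A-submodules of K with M_i · M_j ⊆ M_(i+j) for all i, j. Then the subset of the ring W(K) of
p-typical Witt vectors consisting of the vectors whose n-th coordinate lies in M_(p^n) for every n
is closed under addition and under multiplication by the image of W(A) under W of the structure map;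
in other words it is a W(A)-submodule of W(K). (The published statement is the case of an integral
normal noetherian scheme X of characteristic p with function field K, an affine open subset U with
coordinate ring A, and M_k the module of sections over U of the divisorial sheaf of k·D for a real
Weil divisor D on X; these form such a multiplicative family, and the subset is then the module of
sections over U of the Witt divisorial sheaf of D inside W(K). Only the two stated properties of
that family enter.) -/
theorem result
    (p : ℕ) [Fact p.Prime] (A K : Type u) [CommRing A] [CommRing K] [Algebra A K] [CharP K p]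
    (M : ℕ → Submodule A K)
    (hmul : ∀ (i j : ℕ) (a b : K), a ∈ M i → b ∈ M j → a * b ∈ M (i + j)) :
    (∀ φ ψ : WittVector p K, (∀ n : ℕ, φ.coeff n ∈ M (p ^ n)) → (∀ n : ℕ, ψ.coeff n ∈ M (p ^ n)) →
        ∀ n : ℕ, (φ + ψ).coeff n ∈ M (p ^ n)) ∧
      (∀ (x : WittVector p A) (φ : WittVector p K), (∀ n : ℕ, φ.coeff n ∈ M (p ^ n)) →
        ∀ n : ℕ, (WittVector.map (algebraMap A K) x * φ).coeff n ∈ M (p ^ n)) := by
  have hp : 0 < p := (Fact.out : p.Prime).pos
  constructor
  · intro φ ψ hφ hψ n
    rw [WittVector.add_coeff]
    refine Groth.Agent.H27Witt.aeval_mem M hmul (fun i : Fin 2 × ℕ => p ^ i.2) _ ?_ (pow_pos hp n) (Groth.Agent.H27Witt.wittAdd_homog p n)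
    rintro ⟨i, j⟩
    refine Or.inr ⟨pow_pos hp j, ?_⟩
    fin_cases i
    · exact hφ j
    · exact hψ j
  · intro x φ hφ n
    rw [WittVector.mul_coeff]
    refine Groth.Agent.H27Witt.aeval_mem M hmul (fun i : Fin 2 × ℕ => if i.1 = 0 then 0 else p ^ i.2) _ ?_ (pow_pos hp n) (Groth.Agent.H27Witt.wittMul_homog p n)
    rintro ⟨i, j⟩
    fin_cases i
    · refine Or.inl ⟨rfl, x.coeff j, ?_⟩
      exact (WittVector.map_coeff _ _ _).symm
    · exact Or.inr ⟨pow_pos hp j, hφ j⟩

end Groth.Agent.S18590
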