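import Groth.Statements.S18614
import Mathlib

set_option autoImplicit false
universe u v
open LinTop

namespace Groth.Agent.S18614

/-- Let k be a field carrying the discrete topology and M a separated topological k-module with a
k-linear topology (the open k-submodules form a basis of neighbourhoods of zero and M is a
topological additive group). For a closed submodule M₁, the perpendicular of the perpendicular of
M₁, both taken with respect to the pairing of M with its continuous dual (the continuous k-linear
maps M → k), is M₁ itself: an element killed by every continuous functional vanishing on M₁ belongs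
to M₁. -/
theorem result (k : Type u) (M : Type v) [Field k]
    [TopologicalSpace k] [DiscreteTopology k] [AddCommGroup M] [Module k M] [TopologicalSpace M]
    [IsTopologicalAddGroup M] [IsLinearTopology k M] [T2Space M]
    (M₁ : Submodule k M) (hM₁ : IsClosed (M₁ : Set M)) (x : M)
    (hx : ∀ φ : M →L[k] k, (∀ m ∈ M₁, φ m = 0) → φ x = 0) : x ∈ M₁ := by
  by_contra hxM
  have hopen : IsOpen ((M₁ : Set M)ᶜ) := hM₁.isOpen_compl
  have hnhd : (fun m : M => x + m) ⁻¹' ((M₁ : Set M)ᶜ) ∈ nhds (0 : M) := by
    apply (hopen.preimage (continuous_const.add continuous_id)).mem_nhds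
    simpa using hxM
  obtain ⟨U, hUo, hU⟩ := (IsLinearTopology.hasBasis_open_submodule k (M := M)).mem_iff.1 hnhd
  have hx' : x ∉ M₁ ⊔ U := by
    intro hmem
    rw [Submodule.mem_sup] at hmem
    obtain ⟨a, ha, b, hb, hab⟩ := hmem
    have : -b ∈ (U : Set M) := U.neg_mem hb
    have := hU this
    apply this
    rw [← hab]
    simpa using ha
  obtain ⟨φ, hφ, hφ2⟩ := Submodule.exists_dual_map_eq_bot_of_notMem hx' inferInstance
  have hker : M₁ ⊔ U ≤ LinearMap.ker φ := by
    intro m hm
    have : φ m ∈ Submodule.map φ (M₁ ⊔ U) := ⟨m, hm, rfl⟩
    rw [hφ2] at this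
    exact this
  have hcont : Continuous φ := by
    have hko : IsOpen ((LinearMap.ker φ : Submodule k M) : Set M) := by
      apply Submodule.isOpen_mono (le_trans le_sup_right hker) hUo
    rw [continuous_def]
    intro s _
    have : φ ⁻¹' s = ⋃ m ∈ φ ⁻¹' s, (fun y => y - m) ⁻¹' ((LinearMap.ker φ : Submodule k M) : Set M) := by
      ext y
      simp only [Set.mem_preimage, Set.mem_iUnion, SetLike.mem_coe, LinearMap.mem_ker, exists_prop]
      constructor
      · intro hy; exact ⟨y, hy, by simp⟩
      · rintro ⟨m, hm, hmy⟩
        rw [map_sub, sub_eq_zero] at hmy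
        rwa [hmy]
    rw [this]
    refine isOpen_biUnion fun m _ => hko.preimage (continuous_id.sub continuous_const)
  exact hφ (hx ⟨φ, hcont⟩ (fun m hm => hker (Submodule.mem_sup_left hm)))

end Groth.Agent.S18614
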