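import Groth.Statements.S18615
import Mathlib

set_option autoImplicit false
universe u v
open LinTop

namespace Groth.Agent.S18615

/-- Let k be a field carrying the discrete topology and M a separated topological k-module with a
k-linear topology (open k-submodules form a basis of neighbourhoods of zero, M a topological
additive group). For closed submodules M₁ ⊆ M₂ there is a short exact sequence 0 → M₂^⊥ → M₁^⊥ →
(M₂/M₁)^* → 0 of plain k-modules, where ⊥ denotes the annihilator in the continuous dual of M and *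
the continuous dual. Stated here as its one non-formal part, surjectivity on the right: every
continuous functional on M₂ (subspace topology) that vanishes on M₁ is the restriction of a
continuous functional on M vanishing on M₁ (continuous functionals on M₂/M₁ being the continuous
functionals on M₂ that kill M₁). -/
theorem result (k : Type u) (M : Type v) [Field k]
    [TopologicalSpace k] [DiscreteTopology k] [AddCommGroup M] [Module k M] [TopologicalSpace M]
    [IsTopologicalAddGroup M] [IsLinearTopology k M] [T2Space M]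
    (M₁ M₂ : Submodule k M) (h₁₂ : M₁ ≤ M₂) (hM₁ : IsClosed (M₁ : Set M))
    (hM₂ : IsClosed (M₂ : Set M)) (ψ : M₂ →L[k] k)
    (hψ : ∀ m : M₂, (m : M) ∈ M₁ → ψ m = 0) :
    ∃ φ : M →L[k] k, (∀ m ∈ M₁, φ m = 0) ∧ ∀ m : M₂, φ (m : M) = ψ m := by
  have hψo : ∃ V : Set M, IsOpen V ∧ (0 : M) ∈ V ∧ ∀ m : M₂, (m : M) ∈ V → ψ m = 0 := by
    have h1 : IsOpen (ψ ⁻¹' {0}) := (isOpen_discrete ({0} : Set k)).preimage ψ.continuous
    obtain ⟨V, hV, hV2⟩ := isOpen_induced_iff.mp h1
    refine ⟨V, hV, ?_, ?_⟩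
    · have : (0 : M₂) ∈ ((fun x : M₂ => (x : M)) ⁻¹' V) := by
        change (0 : M₂) ∈ (Subtype.val ⁻¹' V)
        rw [hV2]; simp
      exact this
    · intro m hm
      have : m ∈ (Subtype.val ⁻¹' V : Set M₂) := hm
      rw [hV2] at this
      exact this
  obtain ⟨V, hVo, hV0, hV⟩ := hψo
  obtain ⟨U, hUo, hU⟩ := (IsLinearTopology.hasBasis_open_submodule k (M := M)).mem_iff.1 (hVo.mem_nhds hV0)
  -- functional on M₂ factoring through M ⧸ (M₁ ⊔ U)
  let L : M₂ →ₗ[k] (M ⧸ (M₁ ⊔ U)) := (M₁ ⊔ U).mkQ.comp M₂.subtype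
  have hker : ψ.toLinearMap ∈ (LinearMap.ker L).dualAnnihilator := by
    rw [Submodule.mem_dualAnnihilator]
    intro m hm
    rw [LinearMap.mem_ker] at hm
    have hm2 : (m : M) ∈ M₁ ⊔ U := by
      have : (M₁ ⊔ U).mkQ (m : M) = 0 := hm
      rwa [Submodule.mkQ_apply, Submodule.Quotient.mk_eq_zero] at this
    rw [Submodule.mem_sup] at hm2
    obtain ⟨a, ha, b, hb, hab⟩ := hm2
    have hb2 : b ∈ M₂ := by
      have : b = (m : M) - a := by rw [← hab]; abel
      rw [this]; exact M₂.sub_mem m.2 (h₁₂ ha)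
    have hsum : m = (⟨a, h₁₂ ha⟩ : M₂) + ⟨b, hb2⟩ := Subtype.ext hab.symm
    change ψ m = 0
    rw [hsum, map_add, hψ _ ha, hV ⟨b, hb2⟩ (hU hb), add_zero]
  rw [← LinearMap.range_dualMap_eq_dualAnnihilator_ker] at hker
  obtain ⟨χ, hχ⟩ := hker
  let φ : M →ₗ[k] k := LinearMap.comp χ (M₁ ⊔ U).mkQ
  have hle : M₁ ⊔ U ≤ LinearMap.ker φ := by
    intro m hm
    change χ ((M₁ ⊔ U).mkQ m) = 0
    have : (M₁ ⊔ U).mkQ m = 0 := by
      rw [Submodule.mkQ_apply, Submodule.Quotient.mk_eq_zero]; exact hm
    rw [this, map_zero]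
  have hcont : Continuous φ := by
    have hko : IsOpen ((LinearMap.ker φ : Submodule k M) : Set M) := by
      apply Submodule.isOpen_mono (le_trans le_sup_right hle) hUo
    rw [continuous_def]
    intro s _
    have : φ ⁻¹' s = ⋃ m ∈ φ ⁻¹' s, (fun y => y - m) ⁻¹' ((LinearMap.ker φ : Submodule k M) : Set M) := by
      ext y
      simp only [Set.mem_preimage, Set.mem_iUnion, SetLike.mem_coe, LinearMap.mem_ker, exists_prop]
      constructor
      · intro hy; exact ⟨y, hy, by simp⟩
      · rintro ⟨m, hm, hmy⟩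
        rw [map_sub, sub_eq_zero] at hmy
        rwa [hmy]
    rw [this]
    refine isOpen_biUnion fun m _ => hko.preimage (continuous_id.sub continuous_const)
  refine ⟨⟨φ, hcont⟩, fun m hm => hle (Submodule.mem_sup_left hm), fun m => ?_⟩
  have := LinearMap.congr_fun hχ m
  exact this

end Groth.Agent.S18615
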