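import Groth.Statements.S18617
import Mathlib

set_option autoImplicit false
universe u
open LocRes

namespace Groth.Agent.S18617

/-- The published statement is that, for a complete separated linearly topologized commutative algebra K
over a field of characteristic zero, the separated de Rham complex of K tensored with the exterior
algebra on symbols α_1, ..., α_n maps quasi-isomorphically to the separated de Rham complex of the
iterated Laurent series ring K((t_1, ..., t_n)), α_i going to dlog t_i; this row is the case K = k
and n = 1, unpacked: over a field k of characteristic 0, a formal Laurent series f in k((t)) has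
term-by-term derivative zero if and only if it is the constant series on its coefficient of degree
0, and a Laurent series g is the derivative of some Laurent series if and only if its residue (the
coefficient of t⁻¹) vanishes; so H⁰ of the complex k((t)) → k((t)) dt is k and H¹ is the line
spanned by the class of dt/t, on which the residue is 1. -/
theorem result (k : Type u) [Field k] [CharZero k] :
    (∀ f : LaurentSeries k, LocRes.D k f = 0 ↔ f = HahnSeries.C (f.coeff 0)) ∧
      ∀ g : LaurentSeries k, (∃ f : LaurentSeries k, LocRes.D k f = g) ↔ LocRes.res k g = 0 := by
  refine ⟨fun f => ⟨fun h => ?_, fun h => ?_⟩, fun g => ⟨?_, fun h => ?_⟩⟩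
  · ext n
    have hc : ∀ m : ℤ, ((m + 1 : ℤ) : k) * f.coeff (m+1) = 0 := by
      intro m
      have h1 : (LaurentSeries.derivative k f).coeff m = 0 := by
        have : LaurentSeries.derivative k f = 0 := h
        rw [this]; rfl
      rw [LocRes.derivative_coeff] at h1
      simpa [zsmul_eq_mul] using h1
    by_cases hn : n = 0
    · subst hn; simp
    · have := hc (n-1)
      rw [sub_add_cancel] at this
      have h2 : ((n : ℤ) : k) ≠ 0 := by exact_mod_cast hn
      have h3 := (mul_eq_zero.mp this).resolve_left h2
      rw [h3]
      simp [HahnSeries.C_apply, HahnSeries.coeff_single, hn]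
  · rw [h]
    exact LocRes.derivative_C _ _
  · rintro ⟨f, rfl⟩
    have : (LaurentSeries.derivative k f).coeff (-1) = 0 := by
      rw [LocRes.derivative_coeff]; simp
    exact this
  · have hpwo : (Function.support (fun n : ℤ => g.coeff (n-1) / ((n : ℤ) : k))).IsPWO := by
      have h1 : (Function.support (fun n : ℤ => g.coeff (n-1) / ((n : ℤ) : k))) ⊆ (fun n : ℤ => n + 1) '' g.support := by
        intro n hn
        refine ⟨n - 1, ?_, by simp⟩
        rw [HahnSeries.mem_support]
        intro h0
        apply hn
        simp [h0]
      exact (g.isPWO_support.image_of_monotone (fun a b hab => by simpa using hab)).mono h1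
    refine ⟨⟨fun n => g.coeff (n-1) / ((n : ℤ) : k), hpwo⟩, ?_⟩
    ext n
    have : (LaurentSeries.derivative k (⟨fun n => g.coeff (n-1) / ((n : ℤ) : k), hpwo⟩ : LaurentSeries k)).coeff n = g.coeff n := by
      rw [LocRes.derivative_coeff]
      by_cases hn : n + 1 = 0
      · have : n = -1 := by omega
        subst this
        have h0 : g.coeff (-1) = 0 := h
        rw [h0]; simp
      · have h2 : ((n + 1 : ℤ) : k) ≠ 0 := by exact_mod_cast hn
        simp only [zsmul_eq_mul, add_sub_cancel_right]
        field_simp
    exact this

end Groth.Agent.S18617
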