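import Groth.Statements.S18792


set_option autoImplicit false
universe u
open DefMod

namespace Groth.Agent.S18792

theorem exp_mulLeft' {A : Type u} [Ring A] [Algebra ℚ A] (a b : A) (ha : IsNilpotent a) :
    IsNilpotent.exp (LinearMap.mulLeft ℚ a) b = IsNilpotent.exp a * b := by
  obtain ⟨n, hn⟩ := ha
  have h : (LinearMap.mulLeft ℚ a)^n = 0 := by
    rw [LinearMap.pow_mulLeft, hn]; ext; simp
  rw [IsNilpotent.exp_eq_sum hn, IsNilpotent.exp_eq_sum h, LinearMap.sum_apply, Finset.sum_mul]
  apply Finset.sum_congr rfl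
  intro i _
  rw [LinearMap.pow_mulLeft]
  simp

theorem exp_mulRight' {A : Type u} [Ring A] [Algebra ℚ A] (a b : A) (ha : IsNilpotent a) :
    IsNilpotent.exp (LinearMap.mulRight ℚ a) b = b * IsNilpotent.exp a := by
  obtain ⟨n, hn⟩ := ha
  have h : (LinearMap.mulRight ℚ a)^n = 0 := by
    rw [LinearMap.pow_mulRight, hn]; ext; simp
  rw [IsNilpotent.exp_eq_sum hn, IsNilpotent.exp_eq_sum h, LinearMap.sum_apply, Finset.mul_sum]
  apply Finset.sum_congr rfl
  intro i _
  rw [LinearMap.pow_mulRight]
  simp


/-- Let A be an associative unital algebra over ℚ, let a ∈ A be nilpotent and let b ∈ A. Then the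
commutator map x ↦ a x − x a is a nilpotent ℚ-linear endomorphism of A, and exp(a) b exp(−a) =
exp(ad a)(b), where exp is the finite exponential series of a nilpotent element and ad a is the
commutator map. (The published statement takes A an algebra over an arbitrary commutative ring; the
factorials in the exponential series require the rationals to act, so A is taken to be a ℚ-algebra
here. The intermediate double-sum expansion printed between the two sides is not restated.) -/
theorem result {A : Type u} [Ring A] [Algebra ℚ A] (a b : A)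
    (ha : IsNilpotent a) :
    IsNilpotent (LinearMap.mulLeft ℚ a - LinearMap.mulRight ℚ a) ∧
      IsNilpotent.exp a * b * IsNilpotent.exp (-a) =
        IsNilpotent.exp (LinearMap.mulLeft ℚ a - LinearMap.mulRight ℚ a) b := by
  have hL : IsNilpotent (LinearMap.mulLeft ℚ a) := by
    obtain ⟨n, hn⟩ := ha
    refine ⟨n, ?_⟩
    rw [LinearMap.pow_mulLeft, hn]; ext; simp
  have hna : IsNilpotent (-a) := ha.neg
  have hR : IsNilpotent (LinearMap.mulRight ℚ (-a)) := by
    obtain ⟨n, hn⟩ := hna
    refine ⟨n, ?_⟩
    rw [LinearMap.pow_mulRight, hn]; ext; simp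
  have hc : Commute (LinearMap.mulLeft ℚ a) (LinearMap.mulRight ℚ (-a)) := LinearMap.commute_mulLeft_right _ _
  have e : LinearMap.mulLeft ℚ a - LinearMap.mulRight ℚ a = LinearMap.mulLeft ℚ a + LinearMap.mulRight ℚ (-a) := by
    ext x; simp [sub_eq_add_neg]
  rw [e]
  refine ⟨hc.isNilpotent_add hL hR, ?_⟩
  rw [IsNilpotent.exp_add_of_commute hc hL hR, Module.End.mul_apply, exp_mulRight' _ _ hna, exp_mulLeft' _ _ ha, mul_assoc]

end Groth.Agent.S18792
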