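import Groth.Statements.S18793
import Mathlib.Tactic
import Mathlib.RingTheory.Flat.EquationalCriterion
import Mathlib.RingTheory.HopkinsLevitzki
import Mathlib.RingTheory.Nakayama

set_option autoImplicit false
set_option linter.style.haveILetI false
universe u v w w'
open DefMod

namespace Groth.Agent.S18793

theorem mem_smul_top {R : Type u} [CommRing R] {F : Type v} [AddCommGroup F] [Module R F] (J : Ideal R) (y : F)
    (hy : y ∈ J • (⊤ : Submodule R F)) :
    ∃ (n : ℕ) (b : Fin n → R) (z : Fin n → F), (∀ l, b l ∈ J) ∧ y = ∑ l, b l • z l := by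
  induction hy using Submodule.smul_induction_on' with
  | smul r hr n hn => exact ⟨1, fun _ => r, fun _ => n, fun _ => hr, by simp⟩
  | add x hx y hy h1 h2 =>
    obtain ⟨n, b, z, hb, h⟩ := h1
    obtain ⟨m, c, w, hc, h'⟩ := h2
    refine ⟨n + m, Fin.append b c, Fin.append z w, ?_, ?_⟩
    · intro l
      refine Fin.addCases (fun i => ?_) (fun i => ?_) l
      · rw [Fin.append_left]; exact hb i
      · rw [Fin.append_right]; exact hc i
    · rw [Fin.sum_univ_add, h, h']
      simp

theorem flat_mem {R : Type u} [CommRing R] [IsLocalRing R] {F : Type v} [AddCommGroup F] [Module R F] [Module.Flat R F]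
    (J : Ideal R) (a : R) (ha : a ∉ J) (x : F) (hx : a • x ∈ J • (⊤ : Submodule R F)) :
    x ∈ IsLocalRing.maximalIdeal R • (⊤ : Submodule R F) := by
  obtain ⟨n, b, z, hb, h⟩ := mem_smul_top J _ hx
  have h1 : ∑ i : Fin (n+1), (Fin.cons a (fun l => - b l) : Fin (n+1) → R) i • (Fin.cons x z : Fin (n+1) → F) i = 0 := by
    rw [Fin.sum_univ_succ]
    simp [h]
  obtain ⟨κ, c, y, hc1, hc2⟩ := Module.Flat.isTrivialRelation_of_sum_smul_eq_zero h1
  have h2 := hc1 0
  simp only [Fin.cons_zero] at h2
  rw [h2]
  apply Submodule.sum_mem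
  intro j _
  refine Submodule.smul_mem_smul ?_ (Submodule.mem_top)
  rw [IsLocalRing.mem_maximalIdeal, mem_nonunits_iff]
  intro hu
  apply ha
  have h3 := hc2 j
  rw [Fin.sum_univ_succ] at h3
  simp only [Fin.cons_zero, Fin.cons_succ] at h3
  have h4 : a * c 0 j ∈ J := by
    have : a * c 0 j = ∑ i : Fin n, b i * c i.succ j := by
      rw [← sub_eq_zero]
      rw [← h3, sub_eq_add_neg, ← Finset.sum_neg_distrib]
      congr 1
      apply Finset.sum_congr rfl
      intro i _
      ring
    rw [this]
    exact Ideal.sum_mem _ fun i _ => Ideal.mul_mem_right _ _ (hb i)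
  exact (Ideal.mul_unit_mem_iff_mem J hu).1 h4


/-- Let E be a nonzero left module over an associative algebra D over a field K of characteristic zero,
whose D-linear endomorphisms are exactly the scalars of K. Let R be an Artinian local K-algebra with
residue field K, and let F carry commuting R- and D-module structures (a left module over R ⊗_K D)
with F flat over R, together with a D-linear map θ : F → E that is semilinear over the augmentation
R → K, surjective, and whose kernel is m_R F (so θ induces an isomorphism K ⊗_R F ≅ E; that is, (F,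
θ) is a deformation of E over R). Then every endomorphism of F that is both R-linear and D-linear is
multiplication by a unique element of R. (The published statement adds that the automorphisms of (F,
θ) are then exactly the elements 1 + m_R of R; that consequence is stated separately.) -/
theorem result
    {K : Type u} [Field K] [CharZero K]
    {D : Type v} [Ring D] [Algebra K D]
    {E : Type w} [AddCommGroup E] [Module K E] [Module D E] [IsScalarTower K D E] [Nontrivial E]
    (hE : ∀ ψ : E →ₗ[D] E, ∃ c : K, ∀ y : E, ψ y = c • y)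
    (R : ArtFun.Art K K)
    {F : Type w'} [AddCommGroup F] [Module K F] [Module R F] [Module D F]
    [IsScalarTower K R F] [IsScalarTower K D F] [SMulCommClass R D F] [Module.Flat R F]
    (θ : F →ₗ[D] E) (hθ : ∀ (r : R) (x : F), θ (r • x) = R.res r • θ x)
    (hsurj : Function.Surjective θ)
    (hker : ∀ x : F, θ x = 0 ↔ x ∈ IsLocalRing.maximalIdeal R • (⊤ : Submodule R F))
    (φ : F →ₗ[R] F) (hφ : ∀ (d : D) (x : F), φ (d • x) = d • φ x) :
    ∃! r : R, ∀ x : F, φ x = r • x := by
  have hres : ∀ r : R, R.res r = 0 ↔ r ∈ IsLocalRing.maximalIdeal R := by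
    intro r
    have hk : RingHom.ker R.res = IsLocalRing.maximalIdeal R :=
      IsLocalRing.eq_maximalIdeal (RingHom.ker_isMaximal_of_surjective _ R.res_surjective)
    rw [← hk, RingHom.mem_ker]
  have hstep : ∀ I : Ideal R, (∃ r : R, ∀ x : F, φ x - r • x ∈ I • (⊤ : Submodule R F)) → I ≠ ⊥ →
      ∃ J < I, (∃ r : R, ∀ x : F, φ x - r • x ∈ J • (⊤ : Submodule R F)) := by
    rintro I ⟨r, hr⟩ hI
    have hNak : IsLocalRing.maximalIdeal R • I < I := by
      refine lt_of_le_of_ne (Ideal.mul_le_right : IsLocalRing.maximalIdeal R.carrier * I ≤ I) ?_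
      intro h
      apply hI
      exact Submodule.eq_bot_of_le_smul_of_le_jacobson_bot _ I (IsNoetherian.noetherian I) h.ge
        (IsLocalRing.maximalIdeal_le_jacobson _)
    obtain ⟨J, ⟨hJ1, hJ2⟩, hJmax⟩ := WellFounded.has_min (wellFounded_gt (α := Ideal R))
      {J | IsLocalRing.maximalIdeal R • I ≤ J ∧ J < I} ⟨_, le_rfl, hNak⟩
    obtain ⟨a, haI, haJ⟩ := SetLike.exists_of_lt hJ2
    have hIJ : I = Ideal.span {a} ⊔ J := by
      by_contra hne
      have hle : Ideal.span {a} ⊔ J ≤ I := sup_le ((Ideal.span_singleton_le_iff_mem _).2 haI) hJ2.le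
      have := hJmax (Ideal.span {a} ⊔ J) ⟨hJ1.trans le_sup_right, lt_of_le_of_ne hle (Ne.symm hne)⟩
      apply this
      refine lt_of_le_of_ne le_sup_right ?_
      intro h
      apply haJ
      rw [h]
      exact Ideal.mem_sup_left (Ideal.mem_span_singleton_self a)
    have hmul : ∀ x : F, ∃ x' : F, φ x - r • x - a • x' ∈ J • (⊤ : Submodule R F) := by
      intro x
      have h1 := hr x
      rw [hIJ, Submodule.sup_smul] at h1
      obtain ⟨u, hu, w, hw, huw⟩ := Submodule.mem_sup.1 h1
      rw [Submodule.ideal_span_singleton_smul] at hu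
      obtain ⟨x', _, hx'⟩ := hu
      refine ⟨x', ?_⟩
      rw [← huw, ← hx']
      simpa using hw
    have hD : ∀ (d : D) (y : F), y ∈ J • (⊤ : Submodule R F) → d • y ∈ J • (⊤ : Submodule R F) := by
      intro d y hy
      induction hy using Submodule.smul_induction_on' with
      | smul r hr n hn =>
        rw [← smul_comm]
        exact Submodule.smul_mem_smul hr Submodule.mem_top
      | add x hx y hy h1 h2 => rw [smul_add]; exact Submodule.add_mem _ h1 h2
    have hmI : ∀ x : F, θ x = 0 → φ x - r • x ∈ J • (⊤ : Submodule R F) := by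
      intro x hx
      have h1 := (hker x).1 hx
      have h2 : ∀ y ∈ IsLocalRing.maximalIdeal R • (⊤ : Submodule R F), (φ - r • LinearMap.id : F →ₗ[R] F) y ∈ J • (⊤ : Submodule R F) := by
        intro y hy
        induction hy using Submodule.smul_induction_on' with
        | smul q hq n hn =>
          rw [map_smul]
          have h3 : q • (φ - r • LinearMap.id : F →ₗ[R] F) n ∈ IsLocalRing.maximalIdeal R • (I • (⊤ : Submodule R F)) :=
            Submodule.smul_mem_smul hq (hr n)
          rw [← Submodule.mul_smul] at h3
          exact Submodule.smul_mono_left hJ1 h3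
        | add x hx y hy h1 h2 => rw [map_add]; exact Submodule.add_mem _ h1 h2
      exact h2 x h1
    have hz : ∀ x x' : F, θ x = 0 → φ x - r • x - a • x' ∈ J • (⊤ : Submodule R F) → θ x' = 0 := by
      intro x x' hx h1
      have h3 : a • x' ∈ J • (⊤ : Submodule R F) := by
        have := Submodule.sub_mem _ (hmI x hx) h1
        rwa [sub_sub_cancel] at this
      exact (hker _).2 (flat_mem J a haJ _ h3)
    choose s hs using hmul
    let l : E → F := Function.surjInv hsurj
    have hl : ∀ e, θ (l e) = e := Function.surjInv_eq hsurj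
    let ψ : E →ₗ[D] E :=
      { toFun := fun e => θ (s (l e))
        map_add' := by
          intro e1 e2
          have h1 := hz (l (e1 + e2) - (l e1 + l e2)) (s (l (e1 + e2)) - (s (l e1) + s (l e2)))
            (by rw [map_sub, map_add, hl, hl, hl, sub_self]) (by
              have := Submodule.sub_mem _ (hs (l (e1 + e2))) (Submodule.add_mem _ (hs (l e1)) (hs (l e2)))
              convert this using 1
              simp only [map_sub, map_add, smul_sub, smul_add]
              abel)
          rw [map_sub, map_add, sub_eq_zero] at h1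
          exact h1
        map_smul' := by
          intro d e
          have h1 := hz (l (d • e) - d • l e) (s (l (d • e)) - d • s (l e))
            (by rw [map_sub, map_smul, hl, hl, sub_self]) (by
              have := Submodule.sub_mem _ (hs (l (d • e))) (hD d _ (hs (l e)))
              convert this using 1
              simp only [map_sub, hφ, smul_sub, smul_comm r d, smul_comm a d]
              abel)
          rw [map_sub, map_smul, sub_eq_zero] at h1
          exact h1 }
    obtain ⟨c, hc⟩ := hE ψ
    have hsx : ∀ x : F, θ (s x) = c • θ x := by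
      intro x
      have h1 := hz (x - l (θ x)) (s x - s (l (θ x))) (by rw [map_sub, hl, sub_self]) (by
        have := Submodule.sub_mem _ (hs x) (hs (l (θ x)))
        convert this using 1
        simp only [map_sub, smul_sub]
        abel)
      rw [map_sub, sub_eq_zero] at h1
      rw [h1]
      exact hc (θ x)
    refine ⟨J, hJ2, r + a * algebraMap K R c, fun x => ?_⟩
    have h5 : a • (s x - algebraMap K R c • x) ∈ J • (⊤ : Submodule R F) := by
      have h6 : s x - algebraMap K R c • x ∈ IsLocalRing.maximalIdeal R • (⊤ : Submodule R F) := by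
        rw [← hker, map_sub, hθ, hsx, AlgHom.commutes, sub_eq_zero]
        rfl
      have h7 : a • (s x - algebraMap K R c • x) ∈ I • (IsLocalRing.maximalIdeal R • (⊤ : Submodule R F)) :=
        Submodule.smul_mem_smul haI h6
      rw [← Submodule.mul_smul, mul_comm] at h7
      exact Submodule.smul_mono_left hJ1 h7
    have h8 := Submodule.add_mem _ (hs x) h5
    convert h8 using 1
    rw [smul_sub, add_smul, mul_smul]
    abel
  obtain ⟨I, ⟨r, hr⟩, hImin⟩ := WellFounded.has_min (wellFounded_lt (α := Ideal R))
    {I | ∃ r : R, ∀ x : F, φ x - r • x ∈ I • (⊤ : Submodule R F)} ⟨⊤, 0, fun x => by rw [Submodule.top_smul]; trivial⟩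
  have hI : I = ⊥ := by
    by_contra hne
    obtain ⟨J, hJ, h⟩ := hstep I ⟨r, hr⟩ hne
    exact hImin J h hJ
  subst hI
  refine ⟨r, fun x => ?_, fun r' hr' => ?_⟩
  · have := hr x
    rw [Submodule.bot_smul, Submodule.mem_bot, sub_eq_zero] at this
    exact this
  · by_contra hne
    obtain ⟨e, he⟩ := exists_ne (0 : E)
    obtain ⟨x, rfl⟩ := hsurj e
    apply he
    rw [hker]
    apply flat_mem ⊥ (r' - r) (fun h => hne (sub_eq_zero.1 (by simpa using h)))
    have := hr x
    rw [Submodule.bot_smul, Submodule.mem_bot, sub_eq_zero] at this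
    have h2 : φ x = r' • x := hr' x
    rw [Submodule.bot_smul, Submodule.mem_bot, sub_smul, ← h2, this, sub_self]

end Groth.Agent.S18793
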