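import Groth.Statements.S18795
import Mathlib.Tactic
import Mathlib.LinearAlgebra.Eigenspace.Minpoly
import Mathlib.RingTheory.IntegralClosure.IsIntegral.Basic
import Mathlib.RingTheory.Flat.Basic
import Mathlib.LinearAlgebra.Basis.VectorSpace

set_option autoImplicit false
set_option linter.style.haveILetI false
universe u v w
open scoped TensorProduct
open DefMod

namespace Groth.Agent.S18795

theorem int_map {K B C : Type*} [CommRing K] [Ring B] [Algebra K B] [Ring C] [Algebra K C] (f : B →ₐ[K] C) {x : B} (h : IsIntegral K x) :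
    IsIntegral K (f x) := h.map f


/-- Let E be a left module over an associative algebra D over a field K of characteristic zero. Assume
that the D-linear endomorphisms of E form a finite-dimensional K-vector space, that E has a finite
presentation over D, and that E is absolutely irreducible: its base change K̄ ⊗_K E to an algebraic
closure K̄ of K is nonzero and its only K̄-subspaces stable under every element of D are 0 and the
whole space. Then End_D(E) = K: every D-linear endomorphism of E is multiplication by a scalar from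
K. -/
theorem result
    {K : Type u} [Field K] [CharZero K]
    {D : Type v} [Ring D] [Algebra K D]
    {E : Type w} [AddCommGroup E] [Module K E] [Module D E] [IsScalarTower K D E]
    [Module.Finite K (E →ₗ[D] E)] [Module.FinitePresentation D E]
    (habs : (Nontrivial (AlgebraicClosure K ⊗[K] E) ∧ ∀ N : Submodule (AlgebraicClosure K) (AlgebraicClosure K ⊗[K] E), (∀ (d : D) (x : AlgebraicClosure K ⊗[K] E), x ∈ N → (DistribSMul.toLinearMap K E d).baseChange (AlgebraicClosure K) x ∈ N) → N = ⊥ ∨ N = ⊤))
    (φ : E →ₗ[D] E) : ∃ c : K, ∀ x : E, φ x = c • x := by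
  obtain ⟨hnt, hsub⟩ := habs
  let L := AlgebraicClosure K
  let ψ : Module.End D E →ₐ[K] Module.End L (L ⊗[K] E) :=
    { toFun := fun f => (f.restrictScalars K).baseChange L
      map_one' := by ext x; simp
      map_mul' := by intro f g; ext x; simp
      map_zero' := by ext x; simp
      map_add' := by intro f g; ext x; simp [TensorProduct.tmul_add]
      commutes' := by
        intro r; ext x
        simp [Algebra.algebraMap_eq_smul_one] }
  have hψ : ψ φ = (φ.restrictScalars K).baseChange L := rfl
  let φ' : Module.End D E := φ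
  have hint : IsIntegral K φ' := Algebra.IsIntegral.isIntegral (R := K) (A := Module.End D E) φ'
  have hint2 : IsIntegral L (ψ φ') := by
    obtain ⟨p, hp, hx⟩ := hint
    refine ⟨p.map (algebraMap K L), hp.map _, ?_⟩
    have h0 : Polynomial.aeval φ' p = 0 := hx
    rw [← Polynomial.aeval_def, Polynomial.aeval_map_algebraMap]
    have h1 := Polynomial.aeval_algHom_apply ψ φ' p
    rw [h1, h0, map_zero]
  obtain ⟨μ, hμ⟩ : ∃ μ : L, (minpoly L (ψ φ)).IsRoot μ := by
    apply IsAlgClosed.exists_root
    exact (minpoly.degree_pos hint2).ne'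
  -- eigenvector
  obtain ⟨q, hq⟩ := Polynomial.dvd_iff_isRoot.2 hμ
  have hq0 : q ≠ 0 := by
    rintro rfl
    rw [mul_zero] at hq
    exact minpoly.ne_zero hint2 hq
  have hqn : Polynomial.aeval (ψ φ) q ≠ 0 := by
    intro h0
    have h1 := minpoly.min L (ψ φ) (p := q * Polynomial.C (q.leadingCoeff)⁻¹) (Polynomial.monic_mul_leadingCoeff_inv hq0) (by
      rw [map_mul, h0, zero_mul])
    rw [Polynomial.degree_mul_leadingCoeff_inv q hq0, hq, Polynomial.degree_mul, Polynomial.degree_X_sub_C] at h1
    have h2 : q.degree = (q.natDegree : WithBot ℕ) := Polynomial.degree_eq_natDegree hq0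
    rw [h2] at h1
    have h3 : ((1 + q.natDegree : ℕ) : WithBot ℕ) ≤ (q.natDegree : WithBot ℕ) := by exact_mod_cast h1
    have h4 : 1 + q.natDegree ≤ q.natDegree := by exact_mod_cast h3
    omega
  obtain ⟨v, hv⟩ : ∃ v, (Polynomial.aeval (ψ φ) q) v ≠ 0 := by
    by_contra hcon
    push_neg at hcon
    exact hqn (LinearMap.ext hcon)
  have hev : (ψ φ) ((Polynomial.aeval (ψ φ) q) v) = μ • ((Polynomial.aeval (ψ φ) q) v) := by
    have h1 := minpoly.aeval L (ψ φ)
    rw [hq, map_mul] at h1
    have h2 := LinearMap.congr_fun h1 v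
    simp only [Module.End.mul_apply, map_sub, Polynomial.aeval_X, Polynomial.aeval_C, LinearMap.sub_apply,
      Module.algebraMap_end_apply, LinearMap.zero_apply] at h2
    exact sub_eq_zero.1 h2
  let N : Submodule L (L ⊗[K] E) := LinearMap.ker (ψ φ - algebraMap L _ μ)
  have hN : N = ⊥ ∨ N = ⊤ := by
    apply hsub
    intro d x hx
    have h1 : ∀ x, (ψ φ) ((DistribSMul.toLinearMap K E d).baseChange L x) = (DistribSMul.toLinearMap K E d).baseChange L (ψ φ x) := by
      intro x
      rw [hψ]
      induction x with
      | zero => simp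
      | add a b ha hb => simp only [map_add, ha, hb]
      | tmul a b => simp
    rw [LinearMap.mem_ker, LinearMap.sub_apply, Module.algebraMap_end_apply, sub_eq_zero] at hx ⊢
    rw [h1, hx, map_smul]
  have hNt : N = ⊤ := by
    rcases hN with h | h
    · exfalso
      have : (Polynomial.aeval (ψ φ) q) v ∈ N := by
        rw [LinearMap.mem_ker, LinearMap.sub_apply, Module.algebraMap_end_apply, hev, sub_self]
      rw [h] at this
      exact hv (by simpa using this)
    · exact h
  have hall : ∀ y : E, (1 : L) ⊗ₜ[K] φ y = μ ⊗ₜ[K] y := by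
    intro y
    have : (1 : L) ⊗ₜ[K] y ∈ N := by rw [hNt]; trivial
    rw [LinearMap.mem_ker, LinearMap.sub_apply, Module.algebraMap_end_apply, hψ, sub_eq_zero] at this
    simpa [TensorProduct.smul_tmul'] using this
  by_cases hE : ∃ x : E, x ≠ 0
  · obtain ⟨x, hx⟩ := hE
    obtain ⟨f, hf⟩ := Module.Projective.exists_dual_ne_zero K hx
    have key : ∀ (f : Module.Dual K E) y, f (φ y) • (1 : L) = f y • μ := by
      intro f y
      have h2 := congrArg (fun z => TensorProduct.rid K L (LinearMap.lTensor L f z)) (hall y)
      simpa using h2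
    have hmu : μ = ((f x)⁻¹ * f (φ x)) • (1 : L) := by
      rw [mul_smul, key f x, smul_smul, inv_mul_cancel₀ hf, one_smul]
    refine ⟨(f x)⁻¹ * f (φ x), fun y => ?_⟩
    rw [← sub_eq_zero, ← Module.forall_dual_apply_eq_zero_iff K]
    intro g
    have h3 := key g y
    rw [hmu, smul_smul] at h3
    have h4 : (g (φ y) - g y * ((f x)⁻¹ * f (φ x))) • (1 : L) = 0 := by rw [sub_smul, h3, sub_self]
    rcases smul_eq_zero.1 h4 with h5 | h5
    · rw [map_sub, map_smul, smul_eq_mul, mul_comm]
      exact h5
    · exact absurd h5 one_ne_zero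
  · push_neg at hE
    exact ⟨0, fun x => by rw [hE x]; simp⟩

end Groth.Agent.S18795
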