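import Groth.Statements.S18796
import Mathlib.Tactic
import Mathlib.LinearAlgebra.TensorProduct.Basis
import Mathlib.LinearAlgebra.Basis.VectorSpace

set_option autoImplicit false
set_option linter.style.haveILetI false
universe u v w w' u'
open scoped TensorProduct
open DefMod

namespace Groth.Agent.S18796

/-- Let K be a field of characteristic zero, D an associative K-algebra, E a left D-module that is
finitely presented over D, F a left D-module and P a commutative K-algebra. The canonical P-linear
map Φ : P ⊗_K Hom_D(E, F) → Hom_P(P ⊗_K E, P ⊗_K F), determined by p ⊗ f ↦ p · (1_P ⊗ f), is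
injective, and its image consists exactly of the P-linear maps that commute with the action of every
element of D; in other words Φ identifies P ⊗_K Hom_D(E, F) with the module of homomorphisms P ⊗_K E
→ P ⊗_K F over P ⊗_K D. The map Φ is pinned here by its values on pure tensors. -/
theorem result
    {K : Type u} [Field K] [CharZero K]
    {D : Type v} [Ring D] [Algebra K D]
    {E : Type w} [AddCommGroup E] [Module K E] [Module D E] [IsScalarTower K D E]
    [Module.FinitePresentation D E]
    {F : Type w'} [AddCommGroup F] [Module K F] [Module D F] [IsScalarTower K D F]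
    (P : Type u') [CommRing P] [Algebra K P]
    (Φ : P ⊗[K] (E →ₗ[D] F) →ₗ[P] (P ⊗[K] E →ₗ[P] P ⊗[K] F))
    (hΦ : ∀ (p : P) (f : E →ₗ[D] F), Φ (p ⊗ₜ[K] f) = p • (f.restrictScalars K).baseChange P) :
    Function.Injective Φ ∧
      ∀ g : P ⊗[K] E →ₗ[P] P ⊗[K] F,
        g ∈ LinearMap.range Φ ↔
          ∀ d : D, g ∘ₗ (DistribSMul.toLinearMap K E d).baseChange P =
            (DistribSMul.toLinearMap K F d).baseChange P ∘ₗ g := by
  classical
  let b := Module.Basis.ofVectorSpace K P
  let e := TensorProduct.equivFinsuppOfBasisLeft (N := F) b
  let e' := TensorProduct.equivFinsuppOfBasisLeft (N := E →ₗ[D] F) b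
  have hΦ1 : ∀ (z : P ⊗[K] (E →ₗ[D] F)) (x : E) (i), e (Φ z (1 ⊗ₜ x)) i = (e' z i) x := by
    intro z x i
    induction z with
    | zero => simp
    | add a b ha hb => simp only [map_add, LinearMap.add_apply, Finsupp.add_apply, ha, hb]
    | tmul p f =>
      rw [hΦ]
      simp [e, e', TensorProduct.smul_tmul']
  constructor
  · rw [injective_iff_map_eq_zero]
    intro z hz
    apply e'.injective
    rw [map_zero]
    ext i x
    rw [← hΦ1, hz]; simp
  · intro g
    constructor
    · rintro ⟨z, rfl⟩ d
      induction z with
      | zero => simp
      | add a b ha hb => rw [map_add, LinearMap.add_comp, LinearMap.comp_add, ha, hb]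
      | tmul p f =>
        rw [hΦ]
        ext x
        simp
    · intro hg
      have he : ∀ (d : D) (y : P ⊗[K] F) i, e ((DistribSMul.toLinearMap K F d).baseChange P y) i = d • e y i := by
        intro d y i
        induction y with
        | zero => simp
        | add a b ha hb => simp only [map_add, Finsupp.add_apply, ha, hb, smul_add]
        | tmul p f =>
          simp only [e, LinearMap.baseChange_tmul, TensorProduct.equivFinsuppOfBasisLeft_apply_tmul_apply, DistribSMul.toLinearMap_apply]
          exact smul_comm _ _ _
      let gi : Module.Basis.ofVectorSpaceIndex K P → (E →ₗ[D] F) := fun i =>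
        { toFun := fun x => e (g (1 ⊗ₜ x)) i
          map_add' := by intro x y; simp [TensorProduct.tmul_add]
          map_smul' := by
            intro d x
            have h1 := LinearMap.congr_fun (hg d) (1 ⊗ₜ x)
            simp only [LinearMap.comp_apply, LinearMap.baseChange_tmul, DistribSMul.toLinearMap_apply] at h1
            rw [h1]
            exact he d _ i }
      obtain ⟨s, hs⟩ := (Module.Finite.fg_top : (⊤ : Submodule D E).FG)
      let T : Finset (Module.Basis.ofVectorSpaceIndex K P) := s.biUnion (fun x => (e (g (1 ⊗ₜ x))).support)
      have hT : ∀ i, gi i ≠ 0 → i ∈ T := by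
        intro i hi
        by_contra hiT
        apply hi
        apply LinearMap.ext_on hs
        intro x hx
        simp only [T, Finset.mem_biUnion, not_exists, not_and, Finsupp.mem_support_iff, not_not] at hiT
        exact hiT x hx
      refine ⟨e'.symm (Finsupp.onFinset T gi hT), ?_⟩
      apply TensorProduct.AlgebraTensorModule.curry_injective
      ext x
      apply e.injective
      ext i
      refine (hΦ1 _ x i).trans ?_
      rw [LinearEquiv.apply_symm_apply]
      rfl

end Groth.Agent.S18796
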