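import Groth.Statements.S18797


set_option autoImplicit false
universe u v w
open DefMod

namespace Groth.Agent.S18797

/-- Let K be a field of characteristic zero, O a commutative K-algebra with a K-linear derivation ∂, and
E a finite free O-module equipped with a K-linear map ∂_E satisfying the Leibniz rule ∂_E(a e) =
∂(a) e + a ∂_E(e) (a differential module). The induced derivation on End_O(E) sends φ to ∂_E ∘ φ − φ
∘ ∂_E, which is again O-linear; the trace End_O(E) → O is compatible with the two derivations:
tr(∂_E ∘ φ − φ ∘ ∂_E) = ∂(tr φ). Here the O-linear map ψ = ∂_E ∘ φ − φ ∘ ∂_E is given by its values.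
(The published lemma also asserts that the trace is split surjective and that it respects commutator
brackets; the split surjectivity fails for E = 0 over a nonzero ring and holds only in positive
rank, and neither clause is restated.) -/
theorem result
    {K : Type u} [Field K] [CharZero K]
    {O : Type v} [CommRing O] [Algebra K O] (δ : Derivation K O O)
    {E : Type w} [AddCommGroup E] [Module O E] [Module K E] [IsScalarTower K O E]
    [Module.Free O E] [Module.Finite O E]
    (δE : E →ₗ[K] E) (hδE : ∀ (a : O) (e : E), δE (a • e) = δ a • e + a • δE e)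
    (φ ψ : E →ₗ[O] E) (hψ : ∀ e : E, ψ e = δE (φ e) - φ (δE e)) :
    LinearMap.trace O E ψ = δ (LinearMap.trace O E φ) := by
  classical
  let b := Module.Free.chooseBasis O E
  let ι := Module.Free.ChooseBasisIndex O E
  let M := LinearMap.toMatrix b b φ
  let N : Matrix ι ι O := Matrix.of fun j i => b.repr (δE (b i)) j
  have hNe : ∀ i, δE (b i) = ∑ j, N j i • b j := fun i => (b.sum_repr _).symm
  have hMe : ∀ i, φ (b i) = ∑ j, M j i • b j := by
    intro i
    rw [← b.sum_repr (φ (b i))]
    simp [M, LinearMap.toMatrix_apply]
  have key : LinearMap.toMatrix b b ψ = M.map δ + N * M - M * N := by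
    ext l i
    rw [LinearMap.toMatrix_apply, hψ, hMe i, map_sum, hNe i, map_sum]
    simp only [hδE, map_smul, hNe, hMe]
    simp only [map_sub, map_sum, map_add, map_smul, Finsupp.coe_sub, Pi.sub_apply, Finsupp.coe_finsetSum, Finset.sum_apply,
      Finsupp.add_apply, Finsupp.smul_apply, Module.Basis.repr_self, Matrix.sub_apply, Matrix.add_apply, Matrix.map_apply,
      Matrix.mul_apply, smul_eq_mul, Finsupp.single_apply]
    simp [Finset.sum_add_distrib, mul_comm]
    rfl
  rw [LinearMap.trace_eq_matrix_trace O b, LinearMap.trace_eq_matrix_trace O b, key, Matrix.trace_sub, Matrix.trace_add,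
    Matrix.trace_mul_comm N M, add_sub_cancel_right]
  simp [Matrix.trace, M]

end Groth.Agent.S18797
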