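import Groth.Statements.S1880
import Groth.Agent.Lib.H3Norm

set_option autoImplicit false
universe u
open CategoryTheory CategoryTheory.Limits AlgebraicGeometry
open Grpd

namespace Groth.Agent.S1880

/-- Let (U, R, s, t, c) be a groupoid scheme with U, R affine and s, t finite locally free. For f ∈
Γ(U), the norm along s♯ of t♯(f) is an R-invariant function. (Mathlib's norm is the determinant when
Γ(R) is free over Γ(U) via s♯ and 1 otherwise; the content is the free case, e.g. after localizing
U.) (A groupoid scheme carries U, R, s, t, c, e, i over S with the groupoid axioms on T-points;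
'finite locally free' is finite, flat and locally of finite presentation; the R-invariant functions
are the a ∈ Γ(U) with s♯(a) = t♯(a).) -/
theorem result (S : Scheme.{u}) (G : Grpd.GroupoidScheme S) [IsAffine G.U] [IsAffine G.R] [IsFinite G.s] [Flat G.s] [LocallyOfFinitePresentation G.s] [IsFinite G.t] [Flat G.t] [LocallyOfFinitePresentation G.t] (f : Γ(G.U, ⊤)) : G.normST f ∈ G.invariants := by
  exact Groth.Agent.H3Norm.normST_mem G f

end Groth.Agent.S1880
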