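import Groth.Statements.S18802
import Mathlib.Tactic
import Mathlib.LinearAlgebra.Basis.VectorSpace
import Mathlib.Algebra.Module.Projective

set_option autoImplicit false
universe u v w w' w''
open DefMod

namespace Groth.Agent.S18802

/-- Let K be a field of characteristic zero, D an associative K-algebra and E, F left D-modules. A
K-linear map s : D → Hom_K(E, F) with s(ab)(e) = a s(b)(e) + s(a)(b e) (a derivation into the
bimodule Hom_K(E, F), i.e. a Hochschild 1-cocycle) defines the twisted sum F ⊕_s E = F × E with a ·
(f, e) = (a f + s(a) e, a e), an extension of E by F. Every extension of left D-modules 0 → F → Q →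
E → 0 arises this way: there are such an s and a D-linear isomorphism Q ≅ F ⊕_s E carrying the given
map F → Q to the inclusion f ↦ (f, 0) and compatible with the two projections onto E. (Together with
the splitting criterion this identifies derivations modulo principal derivations with Ext¹_D(E, F);
the compatibility of that identification with addition and scalars is not restated.) -/
theorem result
    {K : Type u} [Field K] [CharZero K]
    {D : Type v} [Ring D] [Algebra K D]
    {E : Type w} [AddCommGroup E] [Module K E] [Module D E] [IsScalarTower K D E]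
    {F : Type w'} [AddCommGroup F] [Module K F] [Module D F] [IsScalarTower K D F]
    {Q : Type w''} [AddCommGroup Q] [Module D Q]
    (i : F →ₗ[D] Q) (p : Q →ₗ[D] E) (hi : Function.Injective i) (hp : Function.Surjective p)
    (hex : Function.Exact i p) :
    ∃ (s : D →ₗ[K] E →ₗ[K] F) (hs : W4c6defoisocp1.IsHomDerivation s) (Φ : Q ≃ₗ[D] W4c6defoisocp1.TwistExt s hs),
      (∀ f : F, Φ (i f) = W4c6defoisocp1.TwistExt.inl f) ∧ ∀ q : Q, W4c6defoisocp1.TwistExt.snd (Φ q) = p q := by
  letI : Module K Q := Module.compHom Q (algebraMap K D)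
  have hKQ : ∀ (c : K) (q : Q), c • q = (algebraMap K D c) • q := fun _ _ => rfl
  have hip : ∀ f, p (i f) = 0 := fun f => (hex (i f)).2 ⟨f, rfl⟩
  let pK : Q →ₗ[K] E := { toFun := p, map_add' := p.map_add, map_smul' := by intro c q; rw [hKQ, map_smul, algebraMap_smul, RingHom.id_apply] }
  let iK : F →ₗ[K] Q := { toFun := i, map_add' := i.map_add, map_smul' := by intro c q; rw [RingHom.id_apply, hKQ, ← map_smul, algebraMap_smul] }
  obtain ⟨σ, hσ⟩ := pK.exists_rightInverse_of_surjective (LinearMap.range_eq_top.2 hp)
  have hσ' : ∀ e, p (σ e) = e := fun e => LinearMap.congr_fun hσ e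
  obtain ⟨r, hr⟩ := iK.exists_leftInverse_of_injective (LinearMap.ker_eq_bot.2 hi)
  have hr' : ∀ f, r (i f) = f := fun f => LinearMap.congr_fun hr f
  have hir : ∀ q, p q = 0 → i (r q) = q := by
    intro q hq
    obtain ⟨f, rfl⟩ := (hex q).1 hq
    rw [hr']
  have hd : ∀ (a : D) (e : E), p (a • σ e - σ (a • e)) = 0 := by
    intro a e; rw [map_sub, map_smul, hσ', hσ', sub_self]
  have hDK : ∀ (c : K) (a : D) (q : Q), (c • a) • q = c • (a • q) := by
    intro c a q; rw [hKQ, smul_smul, Algebra.smul_def]
  have hDK2 : ∀ (c : K) (a : D) (q : Q), a • (c • q) = c • (a • q) := by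
    intro c a q; rw [hKQ, hKQ, smul_smul, smul_smul, Algebra.commutes]
  have hDE2 : ∀ (c : K) (a : D) (q : E), a • (c • q) = c • (a • q) := by
    intro c a q
    rw [← algebraMap_smul D c q, ← algebraMap_smul D c (a • q), smul_smul, smul_smul, Algebra.commutes]
  let s : D →ₗ[K] E →ₗ[K] F := LinearMap.mk₂ K (fun a e => r (a • σ e - σ (a • e)))
    (by intro a b e; rw [← map_add]; congr 1; rw [add_smul, add_smul, map_add]; abel)
    (by intro c a e; rw [hDK, smul_assoc, σ.map_smul, ← smul_sub, r.map_smul])
    (by intro a e f; rw [← map_add]; congr 1; rw [map_add, smul_add, smul_add, map_add]; abel)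
    (by intro c a e; rw [σ.map_smul, hDK2, hDE2, σ.map_smul, ← smul_sub, r.map_smul])
  have hs_ap : ∀ a e, s a e = r (a • σ e - σ (a • e)) := fun a e => rfl
  have his : ∀ a e, i (s a e) = a • σ e - σ (a • e) := fun a e => hir _ (hd a e)
  have hs : W4c6defoisocp1.IsHomDerivation s := by
    intro a b e
    apply hi
    rw [map_add, map_smul, his, his, his, smul_sub, mul_smul, mul_smul]
    abel
  have hrD : ∀ q, i (r (q - σ (p q))) = q - σ (p q) := by
    intro q; apply hir; rw [map_sub, hσ', sub_self]
  refine ⟨s, hs, { toFun := fun q => W4c6defoisocp1.TwistExt.mk (r (q - σ (p q)), p q)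
                   invFun := fun x => i (W4c6defoisocp1.TwistExt.val x).1 + σ (W4c6defoisocp1.TwistExt.val x).2
                   map_add' := ?_
                   map_smul' := ?_
                   left_inv := ?_
                   right_inv := ?_ }, ?_, ?_⟩
  · intro x y
    apply W4c6defoisocp1.TwistExt.ext
    · simp only [W4c6defoisocp1.TwistExt.val_mk, W4c6defoisocp1.TwistExt.val_add, Prod.fst_add]
      rw [← map_add]; congr 1; rw [map_add, map_add]; abel
    · simp
  · intro a x
    apply W4c6defoisocp1.TwistExt.ext
    · simp only [W4c6defoisocp1.TwistExt.val_mk, W4c6defoisocp1.TwistExt.val_smul, RingHom.id_apply]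
      apply hi
      have h9 := hrD (a • x)
      rw [p.map_smul] at h9
      rw [p.map_smul, map_add, i.map_smul, h9, hrD, his, smul_sub]
      abel
    · simp
  · intro q
    simp only [W4c6defoisocp1.TwistExt.val_mk]
    rw [hrD]; abel
  · intro x
    apply W4c6defoisocp1.TwistExt.ext
    · simp only [W4c6defoisocp1.TwistExt.val_mk]
      apply hi
      rw [hrD, map_add, hip, hσ', zero_add]; abel
    · simp [hip, hσ']
  · intro f
    apply W4c6defoisocp1.TwistExt.ext
    · change r (i f - σ (p (i f))) = f
      rw [hip, map_zero, sub_zero, hr']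
    · change p (i f) = 0
      exact hip f
  · intro q
    rfl

end Groth.Agent.S18802
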