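import Groth.Statements.S18803


set_option autoImplicit false
universe u v w w'
open DefMod

namespace Groth.Agent.S18803

/-- Let K be a field of characteristic zero, D an associative K-algebra, E and F left D-modules, and s :
D → Hom_K(E, F) a K-linear map with s(ab)(e) = a s(b)(e) + s(a)(b e). The twisted sum F ⊕_s E (that
is F × E with a · (f, e) = (a f + s(a) e, a e)) is a trivial extension of E by F — there is a
D-linear isomorphism F ⊕_s E ≅ F × E with the direct-sum module structure, carrying the inclusion f
↦ (f, 0) to itself and compatible with the second projections — if and only if s is principal: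
s(a)(e) = a σ(e) − σ(a e) for some K-linear σ : E → F (a Hochschild 1-coboundary). -/
theorem result
    {K : Type u} [Field K] [CharZero K]
    {D : Type v} [Ring D] [Algebra K D]
    {E : Type w} [AddCommGroup E] [Module K E] [Module D E] [IsScalarTower K D E]
    {F : Type w'} [AddCommGroup F] [Module K F] [Module D F] [IsScalarTower K D F]
    (s : D →ₗ[K] E →ₗ[K] F) (hs : W4c6defoisocp1.IsHomDerivation s) :
    (∃ Ψ : W4c6defoisocp1.TwistExt s hs ≃ₗ[D] F × E,
        (∀ f : F, Ψ (W4c6defoisocp1.TwistExt.inl f) = (f, 0)) ∧ ∀ x : W4c6defoisocp1.TwistExt s hs, (Ψ x).2 = W4c6defoisocp1.TwistExt.snd x) ↔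
      W4c6defoisocp1.IsPrincipal s := by
  constructor
  · rintro ⟨Ψ, h1, h2⟩
    let g : E →+ F := { toFun := fun e => (Ψ (W4c6defoisocp1.TwistExt.mk (0, e))).1
                        map_zero' := by
                          have : (W4c6defoisocp1.TwistExt.mk (0, 0) : W4c6defoisocp1.TwistExt s hs) = 0 := rfl
                          rw [this, map_zero]; rfl
                        map_add' := by
                          intro x y
                          have : (W4c6defoisocp1.TwistExt.mk (0, x + y) : W4c6defoisocp1.TwistExt s hs) =
                            W4c6defoisocp1.TwistExt.mk (0, x) + W4c6defoisocp1.TwistExt.mk (0, y) := by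
                            apply W4c6defoisocp1.TwistExt.ext <;> simp
                          rw [this, map_add]; rfl }
    have hg : ∀ e, Ψ (W4c6defoisocp1.TwistExt.mk (0, e)) = (g e, e) := by
      intro e
      apply Prod.ext
      · rfl
      · exact h2 _
    have key : ∀ (a : D) (e : E), s a e + g (a • e) = a • g e := by
      intro a e
      have e1 : (a • (W4c6defoisocp1.TwistExt.mk (0, e)) : W4c6defoisocp1.TwistExt s hs) =
        W4c6defoisocp1.TwistExt.inl (s a e) + W4c6defoisocp1.TwistExt.mk (0, a • e) := by
        apply W4c6defoisocp1.TwistExt.ext <;> simp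
      have e2 := congrArg Ψ e1
      rw [map_smul, map_add, h1, hg, hg] at e2
      exact (congrArg Prod.fst e2).symm
    have hlin : ∀ (c : K) (e : E), g (c • e) = c • g e := by
      intro c e
      have := key (algebraMap K D c) e
      have h0 : s (algebraMap K D c) = 0 := by
        rw [Algebra.algebraMap_eq_smul_one, map_smul, W4c6defoisocp1.TwistExt.map_one_eq_zero hs, smul_zero]
      rw [h0] at this
      simpa using this
    refine ⟨{ toFun := g, map_add' := g.map_add, map_smul' := hlin }, ?_⟩
    intro a e
    exact eq_sub_of_add_eq (key a e)
  · rintro ⟨σ, hσ⟩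
    refine ⟨{ toFun := fun x => ((W4c6defoisocp1.TwistExt.val x).1 + σ (W4c6defoisocp1.TwistExt.val x).2, (W4c6defoisocp1.TwistExt.val x).2)
              invFun := fun y => W4c6defoisocp1.TwistExt.mk (y.1 - σ y.2, y.2)
              map_add' := ?_
              map_smul' := ?_
              left_inv := ?_
              right_inv := ?_ }, ?_, ?_⟩
    · intro x y
      apply Prod.ext
      · simp; abel
      · simp
    · intro a x
      apply Prod.ext
      · simp [hσ, smul_add]
        abel
      · simp
    · intro x
      apply W4c6defoisocp1.TwistExt.ext <;> simp
    · intro y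
      apply Prod.ext <;> simp
    · intro f
      apply Prod.ext <;> simp
    · intro x
      simp

end Groth.Agent.S18803
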