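import Groth.Statements.S1886
import Groth.Agent.Lib.H3Grpd3

set_option autoImplicit false
universe u
open CategoryTheory CategoryTheory.Limits AlgebraicGeometry
open Grpd

namespace Groth.Agent.S1886

/-- Let (U, R, s, t, c) be a groupoid scheme over S with stabilizer group scheme G → U and identity
section e : U → G. Then j = (t, s) : R → U ×_S U is separated iff G → U is separated iff e is a
closed immersion; and j is quasi-separated iff G → U is quasi-separated iff e is quasi-compact. (A
groupoid scheme carries U, R, s, t, c, e, i over S with the groupoid axioms on T-points.) -/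
theorem result (S : Scheme.{u}) (G : Grpd.GroupoidScheme S) : ((IsSeparated G.j ↔ IsSeparated G.stabilizerToU) ∧ (IsSeparated G.stabilizerToU ↔ IsClosedImmersion G.eStab)) ∧ ((QuasiSeparated G.j ↔ QuasiSeparated G.stabilizerToU) ∧ (QuasiSeparated G.stabilizerToU ↔ QuasiCompact G.eStab)) := by
  exact Groth.Agent.H3Grpd.tfae_sep G

end Groth.Agent.S1886
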