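import Groth.Statements.S1888
import Groth.Agent.Lib.H3Grpd

set_option autoImplicit false
universe u
open CategoryTheory CategoryTheory.Limits AlgebraicGeometry
open Grpd

namespace Groth.Agent.S1888

/-- Let (U, R, s, t, c) be a groupoid scheme over S with U the spectrum of a field k, and r a point of R
such that both s and t induce isomorphisms from k to κ(r). Then there is an automorphism of the
scheme R carrying the identity point e to r. (The source's automorphism is x ↦ c(r, x); only the
existence of an automorphism moving e to r is stated here.) (A groupoid scheme carries U, R, s, t,
c, e, i over S with the groupoid axioms on T-points.) -/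
theorem result (S : Scheme.{u}) (G : Grpd.GroupoidScheme S) (k : Type u) [Field k] (eU : G.U ≅ Spec (CommRingCat.of k)) (r : G.R) (hs : IsIso (G.s.residueFieldMap r)) (ht : IsIso (G.t.residueFieldMap r)) : ∃ φ : G.R ≅ G.R, φ.hom (G.e (eU.inv (IsLocalRing.closedPoint k))) = r := by
  exact Groth.Agent.H3Grpd.exists_auto G k eU r hs ht

end Groth.Agent.S1888
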