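import Groth.Statements.S1889
import Groth.Agent.Lib.H3Grpd

set_option autoImplicit false
universe u
open CategoryTheory CategoryTheory.Limits AlgebraicGeometry
open Grpd

namespace Groth.Agent.S1889

/-- Let (U, R, s, t, c) be a groupoid scheme over S with U the spectrum of a field, W ⊆ R open and a : Z
→ R a morphism. Then the image of Z ×_{s∘a, U, t} W → R ×_{s,U,t} R → R (composition) is open. (A
groupoid scheme carries U, R, s, t, c, e, i over S with the groupoid axioms on T-points.) -/
theorem result (S : Scheme.{u}) (G : Grpd.GroupoidScheme S) (k : Type u) [Field k] (eU : G.U ≅ Spec (CommRingCat.of k)) (W : G.R.Opens) (Z : Scheme.{u}) (a : Z ⟶ G.R) : IsOpen (Set.range ⇑(pullback.lift (pullback.fst (a ≫ G.s) (W.ι ≫ G.t) ≫ a) (pullback.snd (a ≫ G.s) (W.ι ≫ G.t) ≫ W.ι) ((Category.assoc _ _ _).trans (pullback.condition.trans (Category.assoc _ _ _).symm)) ≫ G.c)) := by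
  exact Groth.Agent.H3Grpd.isOpen_range_translate G k eU W.ι a _

end Groth.Agent.S1889
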