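import Groth.Statements.S18890


set_option autoImplicit false
universe u v w w'
open CAlg

namespace Groth.Agent.S18890

/-- Let R be a commutative ring, G a finite group whose order is invertible in R, M an R-module with an
R-linear action ρ of G and N an arbitrary R-module. Then the natural map M^G ⊗_R N → M ⊗_R N induced
by the inclusion of the invariants is injective, and its image is the submodule of invariants of M
⊗_R N under the action ρ ⊗ 1 (G acting on the first factor). (The source lets G be a group of
R-automorphisms of M; a possibly non-faithful linear action changes nothing.) -/
theorem result {R : Type u} [CommRing R]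
    {G : Type v} [Group G] [Finite G] (hG : IsUnit ((Nat.card G : ℕ) : R))
    {M : Type w} {N : Type w'} [AddCommGroup M] [Module R M] [AddCommGroup N] [Module R N]
    (ρ : Representation R G M) :
    Function.Injective (LinearMap.rTensor N ρ.invariants.subtype) ∧
      LinearMap.range (LinearMap.rTensor N ρ.invariants.subtype) =
        (ρ.tprod (Representation.trivial R G N)).invariants := by
  classical
  haveI := Fintype.ofFinite G
  haveI : Invertible (Fintype.card G : R) := by
    rw [Nat.card_eq_fintype_card] at hG
    exact hG.invertible
  let e : M →ₗ[R] ρ.invariants := ρ.averageMap.codRestrict _ ρ.averageMap_invariant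
  have he : e ∘ₗ ρ.invariants.subtype = LinearMap.id := by
    ext x
    exact ρ.averageMap_id x.1 x.2
  constructor
  · apply Function.LeftInverse.injective (g := e.rTensor N)
    intro x
    rw [← LinearMap.comp_apply, ← LinearMap.rTensor_comp, he]; simp
  · apply le_antisymm
    · rintro _ ⟨x, rfl⟩
      rw [Representation.mem_invariants]
      intro g
      induction x with
      | zero => simp
      | add x y hx hy => simp only [map_add, hx, hy]
      | tmul m n =>
        have := m.2 g
        simp [this]
    · intro x hx
      refine ⟨e.rTensor N x, ?_⟩
      have h1 : ∀ y : TensorProduct R M N, ρ.invariants.subtype.rTensor N (e.rTensor N y) =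
        ⅟(Fintype.card G : R) • ∑ g : G, (ρ.tprod (Representation.trivial R G N)) g y := by
        intro y
        induction y with
        | zero => simp
        | add x y hx hy => simp only [map_add, hx, hy, Finset.sum_add_distrib, smul_add]
        | tmul m n =>
          simp only [LinearMap.rTensor_tmul, Representation.tprod_apply, TensorProduct.map_tmul, ← TensorProduct.sum_tmul,
            Representation.isTrivial_def, Representation.isTrivial_apply]
          have h5 : ((e m : ρ.invariants) : M) = ⅟(Fintype.card G : R) • ∑ g : G, ρ g m := by
            simp [e, Representation.averageMap, GroupAlgebra.average, map_sum]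
          rw [Submodule.subtype_apply, h5, ← TensorProduct.smul_tmul']
          rfl
      rw [h1]
      have h2 : ∀ g : G, (ρ.tprod (Representation.trivial R G N)) g x = x := fun g => hx g
      simp only [h2, Finset.sum_const, Finset.card_univ]
      rw [← Nat.cast_smul_eq_nsmul R, smul_smul, invOf_mul_self, one_smul]

end Groth.Agent.S18890
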