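import Groth.Statements.S18899
import Mathlib.RingTheory.Invariant.Basic
import Mathlib.Algebra.Polynomial.GroupRingAction

set_option autoImplicit false
universe u v w
open CAlg

namespace Groth.Agent.S18899

theorem ptwise {A : Type u} [CommRing A] {G : Type v} [Group G] [Finite G]
    [MulSemiringAction G A] {K : Type w} [CommRing K] [IsDomain K] (f₁ f₂ : A →+* K)
    (h : ∀ a : A, (∀ g : G, g • a = a) → f₁ a = f₂ a) (a : A) :
    ∃ γ : G, f₂ a = f₁ (γ • a) := by
  classical
  haveI := Fintype.ofFinite G
  have h1 : (MulSemiringAction.charpoly G a).map f₁ = (MulSemiringAction.charpoly G a).map f₂ := by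
    ext n
    rw [Polynomial.coeff_map, Polynomial.coeff_map]
    exact h _ (fun g => MulSemiringAction.smul_coeff_charpoly a n g)
  have h2 : ((MulSemiringAction.charpoly G a).map f₂).eval (f₂ a) = 0 := by
    rw [Polynomial.eval_map, Polynomial.eval₂_at_apply, MulSemiringAction.eval_charpoly, map_zero]
  rw [← h1, MulSemiringAction.charpoly_eq, Polynomial.map_prod, Polynomial.eval_prod, Finset.prod_eq_zero_iff] at h2
  obtain ⟨g, _, hg⟩ := h2
  refine ⟨g, ?_⟩
  simpa [sub_eq_zero] using hg


/-- Let A be a commutative ring on which a finite group G acts by ring automorphisms, with ring of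
invariants A^G, and let K be a field. If two ring homomorphisms f₁, f₂ : A → K have the same
restriction to A^G, then f₂ = f₁ ∘ γ for some γ ∈ G. -/
theorem result {A : Type u} [CommRing A] {G : Type v} [Group G] [Finite G]
    [MulSemiringAction G A] {K : Type w} [Field K] (f₁ f₂ : A →+* K)
    (h : ∀ a : A, (∀ g : G, g • a = a) → f₁ a = f₂ a) :
    ∃ γ : G, ∀ a : A, f₂ a = f₁ (γ • a) := by
  classical
  haveI := Fintype.ofFinite G
  by_contra hcon
  push_neg at hcon
  choose a ha using hcon
  obtain ⟨en⟩ : Nonempty (G ≃ Fin (Fintype.card G)) := ⟨Fintype.equivFin G⟩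
  let P : Polynomial A := ∑ g : G, Polynomial.monomial (en g : ℕ) (a g)
  have hc : ∀ g, P.coeff (en g : ℕ) = a g := by
    intro g
    simp only [P, Polynomial.finsetSum_coeff, Polynomial.coeff_monomial]
    rw [Finset.sum_eq_single g]
    · simp
    · intro g' _ hg'
      rw [if_neg]
      intro h'
      exact hg' (en.injective (Fin.ext h'))
    · simp
  obtain ⟨γ, hγ⟩ := ptwise (G := G) (Polynomial.mapRingHom f₁) (Polynomial.mapRingHom f₂) (by
    intro p hp
    ext n
    simp only [Polynomial.coe_mapRingHom, Polynomial.coeff_map]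
    apply h
    intro g
    have := congrArg (fun q => Polynomial.coeff q n) (hp g)
    simpa using this) P
  have := congrArg (fun q => Polynomial.coeff q (en γ)) hγ
  simp only [Polynomial.coe_mapRingHom, Polynomial.coeff_map, Polynomial.coeff_smul, hc] at this
  exact ha γ this

end Groth.Agent.S18899
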