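import Groth.Statements.S1890
import Groth.Agent.Lib.H3Mor

set_option autoImplicit false
universe u
open CategoryTheory CategoryTheory.Limits AlgebraicGeometry
open Grpd

namespace Groth.Agent.S1890

/-- Take a quasi-compact immersion j : V → Spec A and an element f ∈ A such that j⁻¹(D(f)) is affine and
j(V) ∩ V(f) is closed in Spec A. Then V is affine. -/
theorem result (A : Type u) [CommRing A] (V : Scheme.{u}) (j : V ⟶ Spec (CommRingCat.of A)) [IsImmersion j] [QuasiCompact j] (f : A) (haff : IsAffineOpen (j ⁻¹ᵁ PrimeSpectrum.basicOpen f)) (hcl : IsClosed (Set.range ⇑j ∩ PrimeSpectrum.zeroLocus {f})) : IsAffine V := by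
  exact Groth.Agent.H3Mor.t1890 A V j f haff hcl

end Groth.Agent.S1890
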