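import Groth.Statements.S1891
import Groth.Agent.Lib.H3Grpd2

set_option autoImplicit false
universe u
open CategoryTheory CategoryTheory.Limits AlgebraicGeometry
open Grpd

namespace Groth.Agent.S1891

/-- Let (U, R₁, s₁, t₁, c₁) and (U, R₂, s₂, t₂, c₂) be groupoid schemes over S on the same U = Spec k, k
a field, and a : R₁ → R₂ a morphism of groupoid schemes over the identity of U (here: over an
isomorphism on objects). If a(R₁) is open in R₂ then it is closed. (A groupoid scheme carries U, R,
s, t, c, e, i over S with the groupoid axioms on T-points; 'finite locally free' is finite, flat and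
locally of finite presentation; C ⊂ Γ(U) is the ring of functions a with s♯(a) = t♯(a) and M = Spec
C.) -/
theorem result (S : Scheme.{u}) (G₁ G₂ : Grpd.GroupoidScheme S) (k : Type u) [Field k] (eU : G₂.U ≅ Spec (CommRingCat.of k)) (a : Grpd.GroupoidScheme.Hom G₁ G₂) [IsIso a.fU] (hopen : IsOpen (Set.range ⇑a.fR)) : IsClosed (Set.range ⇑a.fR) := by
  exact Groth.Agent.H3Grpd.isClosed_range G₁ G₂ k eU a hopen

end Groth.Agent.S1891
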