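import Groth.Statements.S18920
import Mathlib.Tactic

set_option autoImplicit false
universe u
open CAlg

namespace Groth.Agent.S18920

/-- Let M be a commutative monoid, s ≥ 1, and ξ_1, …, ξ_s elements of M with ξ_i ^ (s!/i) = 1 for 1 ≤ i
≤ s (an (s!/i)-th root of unity for each i). Suppose that for every finitely supported function d on
{1, …, s} with Σ_i i · d_i = s! the product ∏_i ξ_i ^ d_i equals 1. Then ξ_1 ^ j = ξ_j for every 1 ≤
j ≤ s. (The source works with roots of unity in the complex numbers.) -/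
theorem result
    {M : Type u} [CommMonoid M] (s : ℕ) (hs : 1 ≤ s) (ξ : ℕ → M)
    (hξ : ∀ i : ℕ, 1 ≤ i → i ≤ s → ξ i ^ (s.factorial / i) = 1)
    (hprod : ∀ d : ℕ →₀ ℕ, (∀ i ∈ d.support, 1 ≤ i ∧ i ≤ s) →
      (d.sum fun i n => i * n) = s.factorial → (d.prod fun i n => ξ i ^ n) = 1)
    (j : ℕ) (hj : 1 ≤ j) (hjs : j ≤ s) :
    ξ 1 ^ j = ξ j := by
  have hd : j ∣ s.factorial := Nat.dvd_factorial (by omega) hjs
  obtain ⟨c, hc⟩ := hd
  have hcpos : 0 < c := by
    rcases Nat.eq_zero_or_pos c with h | h
    · rw [h, mul_zero] at hc; exact absurd hc (Nat.factorial_ne_zero s)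
    · exact h
  have hdiv : s.factorial / j = c := by rw [hc]; exact Nat.mul_div_cancel_left c (by omega)
  by_cases h1 : j = 1
  · subst h1; simp
  have e1 := hξ j hj hjs
  rw [hdiv] at e1
  classical
  have hdis : Disjoint (Finsupp.single j (c-1)).support (Finsupp.single 1 j).support := by
    rw [Finset.disjoint_left]
    intro a ha hb
    simp only [Finsupp.mem_support_iff, Finsupp.single_apply] at ha hb
    split_ifs at ha hb <;> simp_all
  have e2 := hprod (Finsupp.single j (c-1) + Finsupp.single 1 j) (by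
    intro i hi
    have := Finsupp.support_add hi
    rw [Finset.mem_union] at this
    rcases this with h | h
    · have := Finset.mem_singleton.1 (Finsupp.support_single_subset h); omega
    · have := Finset.mem_singleton.1 (Finsupp.support_single_subset h); omega) (by
    rw [Finsupp.sum_add_index' (by simp) (by intro a b c; ring)]
    simp only [Finsupp.sum_single_index, mul_zero]
    rw [hc]
    obtain ⟨c', rfl⟩ : ∃ c', c = c' + 1 := ⟨c - 1, by omega⟩
    simp; ring)
  rw [Finsupp.prod_add_index' (by simp) (by intro a b c; exact pow_add _ _ _)] at e2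
  simp only [Finsupp.prod_single_index, pow_zero] at e2
  obtain ⟨c', rfl⟩ : ∃ c', c = c' + 1 := ⟨c - 1, by omega⟩
  simp only [Nat.add_sub_cancel] at e2
  calc ξ 1 ^ j = (ξ j ^ (c' + 1)) * ξ 1 ^ j := by rw [e1, one_mul]
    _ = ξ j * (ξ j ^ c' * ξ 1 ^ j) := by rw [pow_succ', mul_assoc]
    _ = ξ j := by rw [e2, mul_one]

end Groth.Agent.S18920
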