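import Groth.Statements.S1894
import Groth.Agent.Lib.H3Sat

set_option autoImplicit false
universe u
open CategoryTheory CategoryTheory.Limits AlgebraicGeometry
open Grpd

namespace Groth.Agent.S1894

/-- Let (U, R, s, t, c) be a groupoid scheme over S with s, t quasi-compact and flat and U
quasi-separated, and W ⊆ U a quasi-compact open. Then there are an R-invariant open V (s⁻¹V = t⁻¹V)
and a quasi-compact open W' with W ⊆ V ⊆ W'. (A groupoid scheme carries U, R, s, t, c, e, i over S
with the groupoid axioms on T-points.) -/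
theorem result (S : Scheme.{u}) (G : Grpd.GroupoidScheme S) [QuasiCompact G.s] [Flat G.s] [QuasiCompact G.t] [Flat G.t] [QuasiSeparatedSpace G.U] (W : G.U.Opens) (hW : IsCompact (W : Set G.U)) : ∃ V W' : G.U.Opens, G.s ⁻¹ᵁ V = G.t ⁻¹ᵁ V ∧ IsCompact (W' : Set G.U) ∧ W ≤ V ∧ V ≤ W' := by
  exact Groth.Agent.H3Sat.between G W hW

end Groth.Agent.S1894
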