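import Groth.Statements.S18947


set_option autoImplicit false
universe u v
open GalTw

namespace Groth.Agent.S18947

/-- Let a group Γ act on a group A by group automorphisms and let z be a 1-cocycle of Γ with values in
A. The underlying set of A with the twisted action σ • a = z(σ) · σ(a) is a transitive Γ-set if and
only if the map z : Γ → A is surjective. (In the source Γ is the absolute Galois group of a field k,
A the geometric points of a finite étale group scheme G, the twisted set is the set of geometric
points of the G-torsor attached to z, and transitivity is connectedness of that torsor; the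
equivalence is stated here for an arbitrary action, with no finiteness or continuity hypothesis.) -/
theorem result {Γ : Type u} {A : Type v} [Group Γ] [Group A]
    [MulDistribMulAction Γ A] (z : GpH1.OneCocycle Γ A) :
    MulAction.IsPretransitive Γ (GalTw.Tw z A) ↔ Function.Surjective z.1 := by
  have hs : ∀ (σ : Γ) (a : A), σ • GalTw.Tw.mk z a = GalTw.Tw.mk z (z.1 σ * σ • a) := fun σ a => rfl
  constructor
  · intro h a
    obtain ⟨σ, hσ⟩ := h.exists_smul_eq (GalTw.Tw.mk z (1 : A)) (GalTw.Tw.mk z a)
    rw [hs, smul_one, mul_one] at hσ
    exact ⟨σ, (GalTw.Tw.mk z).injective hσ⟩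
  · intro h
    have h1 : ∀ b : GalTw.Tw z A, ∃ σ : Γ, σ • GalTw.Tw.mk z (1 : A) = b := by
      intro b
      obtain ⟨σ, hσ⟩ := h ((GalTw.Tw.mk z).symm b)
      refine ⟨σ, ?_⟩
      rw [hs, smul_one, mul_one, hσ]
      simp
    refine ⟨fun a b => ?_⟩
    obtain ⟨σ, rfl⟩ := h1 a
    obtain ⟨τ, rfl⟩ := h1 b
    exact ⟨τ * σ⁻¹, by rw [smul_smul]; simp⟩

end Groth.Agent.S18947
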