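import Groth.Statements.S18948
import Mathlib.Tactic

set_option autoImplicit false
universe u v
open CExt

namespace Groth.Agent.S18948

/-- Let f : E → G be a surjective homomorphism of groups whose kernel is central in E, and let x ∈ E.
Then f maps the conjugacy class of x bijectively onto the conjugacy class of f(x) if and only if
every element of G commuting with f(x) is the image of some element of E commuting with x. (In the
source E → G is the central extension, with kernel the roots of unity, attached to a Brauer class of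
the classifying stack of a finite tame étale group scheme, and a conjugacy class of E mapping
bijectively onto a given class of G is a marking; the equivalence is stated here for an arbitrary
central extension of abstract groups.) -/
theorem result {E : Type u} {G : Type v} [Group E] [Group G]
    (f : E →* G) (hf : Function.Surjective f) (hker : f.ker ≤ Subgroup.center E) (x : E) :
    Set.BijOn f (MulAction.orbit (ConjAct E) x) (MulAction.orbit (ConjAct G) (f x)) ↔
      ∀ g : G, g * f x = f x * g → ∃ e : E, f e = g ∧ e * x = x * e := by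
  constructor
  · intro h g hg
    obtain ⟨e, rfl⟩ := hf g
    refine ⟨e, rfl, ?_⟩
    have h1 : e * x * e⁻¹ ∈ MulAction.orbit (ConjAct E) x := ⟨ConjAct.toConjAct e, by simp [ConjAct.smul_def]⟩
    have h2 : f (e * x * e⁻¹) = f x := by
      rw [map_mul, map_mul, hg, map_inv, mul_assoc, mul_inv_cancel, mul_one]
    have h3 := h.injOn h1 (MulAction.mem_orbit_self x) h2
    exact mul_inv_eq_iff_eq_mul.1 h3
  · intro h
    refine ⟨?_, ?_, ?_⟩
    · rintro _ ⟨e, rfl⟩
      refine ⟨ConjAct.toConjAct (f (ConjAct.ofConjAct e)), ?_⟩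
      simp [ConjAct.smul_def]
    · rintro _ ⟨e, rfl⟩ _ ⟨e', rfl⟩ hee
      simp only [ConjAct.smul_def, map_mul, map_inv] at hee ⊢
      set a := ConjAct.ofConjAct e
      set b := ConjAct.ofConjAct e'
      have h1 : (f b)⁻¹ * f a * f x = f x * ((f b)⁻¹ * f a) := by
        calc (f b)⁻¹ * f a * f x = (f b)⁻¹ * (f a * f x * (f a)⁻¹) * f a := by group
          _ = (f b)⁻¹ * (f b * f x * (f b)⁻¹) * f a := by rw [hee]
          _ = _ := by group
      obtain ⟨c, hc, hcx⟩ := h _ h1
      -- c lies over b⁻¹ a; b⁻¹ a = z c with z central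
      have h2 : b⁻¹ * a * c⁻¹ ∈ f.ker := by
        rw [MonoidHom.mem_ker, map_mul, map_mul, map_inv, map_inv, hc]; group
      have h3 := Subgroup.mem_center_iff.1 (hker h2)
      have h4 : (b⁻¹ * a) * x = x * (b⁻¹ * a) := by
        calc (b⁻¹ * a) * x = (b⁻¹ * a * c⁻¹) * (c * x) := by group
          _ = (b⁻¹ * a * c⁻¹) * (x * c) := by rw [hcx]
          _ = ((b⁻¹ * a * c⁻¹) * x) * c := by group
          _ = (x * (b⁻¹ * a * c⁻¹)) * c := by rw [h3 x]
          _ = _ := by group
      calc a * x * a⁻¹ = b * ((b⁻¹ * a) * x) * a⁻¹ := by group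
        _ = b * (x * (b⁻¹ * a)) * a⁻¹ := by rw [h4]
        _ = _ := by group
    · rintro _ ⟨g, rfl⟩
      obtain ⟨e, he⟩ := hf (ConjAct.ofConjAct g)
      refine ⟨e * x * e⁻¹, ⟨ConjAct.toConjAct e, by simp [ConjAct.smul_def]⟩, ?_⟩
      simp [ConjAct.smul_def, he]

end Groth.Agent.S18948
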