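import Groth.Statements.S18949


set_option autoImplicit false
universe u v
open CExt

namespace Groth.Agent.S18949

/-- Automorphisms over the base: let f : E → G be a surjective homomorphism of groups with central
kernel A. For every homomorphism χ : G → A the map e ↦ χ(f(e)) · e is an endomorphism of E over G
which is the identity on A; and every endomorphism α of E with f ∘ α = f and α equal to the identity
on A is of this form for exactly one χ. (In the source this identifies the automorphisms of a
central extension fixing its kernel with Hom(G, A), for extensions of profinite étale group schemes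
over a field; stated here for abstract groups.) -/
theorem result {E : Type u} {G : Type v} [Group E] [Group G]
    (f : E →* G) (hf : Function.Surjective f) (hker : f.ker ≤ Subgroup.center E) :
    (∀ χ : G →* f.ker, ∃ α : E →* E, f.comp α = f ∧ (∀ a ∈ f.ker, α a = a) ∧
        ∀ e : E, α e = (χ (f e) : E) * e) ∧
      ∀ α : E →* E, f.comp α = f → (∀ a ∈ f.ker, α a = a) →
        ∃! χ : G →* f.ker, ∀ e : E, α e = (χ (f e) : E) * e := by
  have hc : ∀ (a : f.ker) (e : E), (a : E) * e = e * a := by
    intro a e
    exact ((Subgroup.mem_center_iff.1 (hker a.2)) e).symm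
  constructor
  · intro χ
    refine ⟨{ toFun := fun e => (χ (f e) : E) * e, map_one' := by simp, map_mul' := ?_ }, ?_, ?_, fun e => rfl⟩
    · intro x y
      simp only [map_mul, Subgroup.coe_mul]
      rw [mul_assoc, ← mul_assoc (χ (f y) : E), hc (χ (f y)) x]
      simp only [mul_assoc]
    · ext e
      have : f (χ (f e) : E) = 1 := (χ (f e)).2
      simp [this]
    · intro a ha
      have : f a = 1 := ha
      simp [this]
  · intro α hα hαA
    have hfα : ∀ e, f (α e) = f e := fun e => DFunLike.congr_fun hα e
    let d : E → f.ker := fun e => ⟨α e * e⁻¹, by rw [MonoidHom.mem_ker, map_mul, map_inv, hfα, mul_inv_cancel]⟩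
    have hd : ∀ e, α e = (d e : E) * e := fun e => by simp [d]
    have hdm : ∀ x y, d (x * y) = d x * d y := by
      intro x y
      apply Subtype.ext
      have h1 := hd (x * y)
      rw [map_mul, hd x, hd y, mul_assoc, ← mul_assoc x, ← hc (d y) x] at h1
      have h2 : (d x : E) * (d y) * (x * y) = (d (x * y) : E) * (x * y) := by
        rw [← h1]; simp only [mul_assoc]
      exact (mul_right_cancel h2).symm
    have hdk : ∀ a ∈ f.ker, d a = 1 := by
      intro a ha
      apply Subtype.ext
      simp [d, hαA a ha]
    let D : E →* f.ker := { toFun := d, map_one' := hdk 1 (one_mem _), map_mul' := hdm }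
    let χ : G →* f.ker := f.liftOfSurjective hf ⟨D, fun a ha => hdk a ha⟩
    have hχ : ∀ e, χ (f e) = d e := fun e => f.liftOfRightInverse_comp_apply _ _ ⟨D, fun a ha => hdk a ha⟩ e
    refine ⟨χ, fun e => by simp only [hχ]; exact hd e, ?_⟩
    intro χ' h'
    ext g
    obtain ⟨e, rfl⟩ := hf g
    have := h' e
    rw [hd e] at this
    rw [hχ]
    exact (mul_right_cancel this).symm

end Groth.Agent.S18949
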