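import Groth.Statements.S18950


set_option autoImplicit false
universe u v
open CExt

namespace Groth.Agent.S18950

/-- Let f : E → G be a homomorphism of groups whose kernel is central in E, let α be an endomorphism of
E with f ∘ α = f which is the identity on the kernel, and let S ⊆ E be a subset fixed pointwise by α
such that f(S) generates G. Then α is the identity. (In the source S is the marking of a marked
central extension of finite tame étale group schemes and the hypothesis is that the marked conjugacy
classes generate G; the conclusion there is that a morphism of marked extensions inducing the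
identity on the kernel and on G is unique.) -/
theorem result {E : Type u} {G : Type v} [Group E] [Group G]
    (f : E →* G) (hker : f.ker ≤ Subgroup.center E) (α : E →* E) (hα : f.comp α = f)
    (hαA : ∀ a ∈ f.ker, α a = a) (S : Set E) (hS : Subgroup.closure (f '' S) = ⊤)
    (hαS : ∀ s ∈ S, α s = s) : α = MonoidHom.id E := by
  have key : ∀ e : E, ∃ a ∈ f.ker, α e = a * e := by
    intro e
    refine ⟨α e * e⁻¹, ?_, by simp⟩
    rw [MonoidHom.mem_ker, map_mul, map_inv]
    have := DFunLike.congr_fun hα e
    simp only [MonoidHom.comp_apply] at this
    rw [this, mul_inv_cancel]
  -- elements fixed by α form a subgroup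
  let H : Subgroup E := { carrier := {e | α e = e}, mul_mem' := by
                            intro a b ha hb
                            simp only [Set.mem_ofPred_eq] at ha hb ⊢
                            rw [map_mul, ha, hb]
                          one_mem' := by simp
                          inv_mem' := by
                            intro a ha
                            simp only [Set.mem_ofPred_eq] at ha ⊢
                            rw [map_inv, ha] }
  have hker' : f.ker ≤ H := fun a ha => hαA a ha
  have hmap : H.map f = ⊤ := by
    rw [eq_top_iff, ← hS, Subgroup.closure_le]
    rintro _ ⟨s, hs, rfl⟩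
    exact ⟨s, hαS s hs, rfl⟩
  ext e
  obtain ⟨h, hh, he⟩ : f e ∈ H.map f := by rw [hmap]; trivial
  have h1 : e * h⁻¹ ∈ f.ker := by rw [MonoidHom.mem_ker, map_mul, map_inv, he, mul_inv_cancel]
  have h2 : e = (e * h⁻¹) * h := by simp
  have h3 : α (e * h⁻¹) = e * h⁻¹ := hker' h1
  have h4 : α h = h := hh
  rw [MonoidHom.id_apply]
  conv_lhs => rw [h2]
  rw [map_mul, h3, h4]; simp

end Groth.Agent.S18950
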