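import Groth.Statements.S18951


set_option autoImplicit false
universe u
open OrbPic

namespace Groth.Agent.S18951

/-- Let G be a group and C ⊆ G a subset that generates G. Then the projection (χ, w) ↦ w from the group
of geometric partial orbifold line bundles with respect to C to functions G → ℚ is injective, its
image contains every conjugation-invariant integer-valued function vanishing at 1 and outside C, and
the group is torsion-free. (The source works with the geometric points of a tame finite étale group
scheme, characters with values in roots of unity and weights on conjugacy classes of the Tate twist;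
here these are identified with a group, homomorphisms to ℚ/ℤ and class functions as the source does
after choosing roots of unity. The case C = G ∖ {1} is the statement for full orbifold line
bundles.) -/
theorem result (G : Type u) [Group G] (C : Set G)
    (hC : Subgroup.closure C = ⊤) :
    Set.InjOn (fun p : (Additive G →+ W4c6brauerbgmalle.QmodZ) × (G → ℚ) => p.2) (W4c6brauerbgmalle.picOrb G C) ∧
      (∀ w ∈ W4c6brauerbgmalle.intWeights G C, ((0 : Additive G →+ W4c6brauerbgmalle.QmodZ), w) ∈ W4c6brauerbgmalle.picOrb G C) ∧
      ∀ (n : ℕ) (p : (Additive G →+ W4c6brauerbgmalle.QmodZ) × (G → ℚ)), p ∈ W4c6brauerbgmalle.picOrb G C → n ≠ 0 →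
        n • p = 0 → p = 0 := by
  have inj : Set.InjOn (fun p : (Additive G →+ W4c6brauerbgmalle.QmodZ) × (G → ℚ) => p.2) (W4c6brauerbgmalle.picOrb G C) := by
    rintro ⟨χ, w⟩ ⟨h1, h2, h3, h4⟩ ⟨χ', w'⟩ ⟨h1', h2', h3', h4'⟩ hw
    simp only at hw
    subst hw
    apply Prod.ext
    · let H : Subgroup G := { carrier := {g | χ (Additive.ofMul g) = χ' (Additive.ofMul g)}
                              mul_mem' := by
                                intro a b ha hb
                                simp only [Set.mem_ofPred_eq] at ha hb ⊢
                                rw [ofMul_mul, map_add, map_add, ha, hb]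
                              one_mem' := by simp
                              inv_mem' := by
                                intro a ha
                                simp only [Set.mem_ofPred_eq] at ha ⊢
                                rw [ofMul_inv, map_neg, map_neg, ha] }
      have hH : H = ⊤ := by
        rw [eq_top_iff, ← hC, Subgroup.closure_le]
        intro g hg
        exact (h4 g hg).symm.trans (h4' g hg)
      ext g
      have : Additive.toMul g ∈ H := by rw [hH]; trivial
      exact this
    · rfl
  refine ⟨inj, ?_, ?_⟩
  · rintro w ⟨h1, h2, h3, h4⟩
    refine ⟨h1, h2, h3, ?_⟩
    intro g hg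
    obtain ⟨n, hn⟩ := h4 g
    simp only
    rw [hn]
    exact (QuotientAddGroup.eq_zero_iff _).2 ⟨n, by simp⟩
  · intro n p hp hn h
    apply inj hp (zero_mem _)
    have := congrArg Prod.snd h
    simp only [Prod.smul_snd, Prod.snd_zero] at this ⊢
    ext g
    have h2 := congrFun this g
    simpa [hn] using h2

end Groth.Agent.S18951
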