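import Groth.Statements.S18952
import Mathlib.Tactic

set_option autoImplicit false
universe u
open OrbPic

namespace Groth.Agent.S18952

/-- Let G be a group and C ⊆ G a subset stable under conjugation. Then (χ, w) ↦ χ maps the group of
geometric partial orbifold line bundles with respect to C onto all characters G → ℚ/ℤ, and a pair in
its kernel (χ trivial) has w a conjugation-invariant integer-valued function vanishing at 1 and
outside C (surjectivity and 'kernel ⊆ such functions'; with the reverse inclusion, a separate row,
this is the exact sequence 0 → Hom(C/conj, ℤ) → Pic → Hom(G, ℚ/ℤ) → 0 over a separably closed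
field). (As in the source after a choice of roots of unity, the group G stands for the geometric
points of a tame finite étale group scheme, characters are homomorphisms to ℚ/ℤ and weights are
class functions on G.) -/
theorem result (G : Type u) [Group G] (C : Set G)
    (hC : ∀ g h : G, g ∈ C → h * g * h⁻¹ ∈ C) :
    (∀ χ : Additive G →+ W4c6brauerbgmalle.QmodZ, ∃ w : G → ℚ, (χ, w) ∈ W4c6brauerbgmalle.picOrb G C) ∧
      (∀ p : (Additive G →+ W4c6brauerbgmalle.QmodZ) × (G → ℚ), p ∈ W4c6brauerbgmalle.picOrb G C → p.1 = 0 →
        p.2 ∈ W4c6brauerbgmalle.intWeights G C) := by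
  classical
  constructor
  · intro χ
    refine ⟨fun g => if g ∈ C ∧ g ≠ 1 then Quotient.out (χ (Additive.ofMul g)) else 0, ?_, ?_, ?_, ?_⟩
    · simp
    · intro g hg; simp [hg]
    · intro g h
      have h1 : h * g * h⁻¹ ∈ C ↔ g ∈ C := by
        constructor
        · intro hh
          have := hC _ h⁻¹ hh
          convert this using 1
          group
        · intro hh; exact hC g h hh
      have h2 : h * g * h⁻¹ = 1 ↔ g = 1 := by
        rw [mul_inv_eq_one]; constructor
        · intro hh; exact mul_left_cancel (hh.trans (mul_one h).symm)
        · intro hh; rw [hh, mul_one]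
      have h3 : χ (Additive.ofMul (h * g * h⁻¹)) = χ (Additive.ofMul g) := by
        rw [ofMul_mul, ofMul_mul, map_add, map_add, ofMul_inv, map_neg]; abel
      simp only [h1, h2, h3, ne_eq]
    · intro g hg
      by_cases h1 : g = 1
      · subst h1; simp
      · simp only [hg, h1, ne_eq, not_false_eq_true, and_self, if_true]
        exact Quotient.out_eq _
  · rintro ⟨χ, w⟩ ⟨h1, h2, h3, h4⟩ hχ
    refine ⟨h1, h2, h3, ?_⟩
    intro g
    by_cases hg : g ∈ C
    · have := h4 g hg
      simp only at hχ this
      rw [hχ] at this
      have h5 : w g ∈ AddSubgroup.zmultiples (1 : ℚ) := (QuotientAddGroup.eq_zero_iff _).1 (by simpa using this)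
      obtain ⟨n, hn⟩ := h5
      exact ⟨n, by simpa using hn.symm⟩
    · exact ⟨0, by simpa using h2 g hg⟩

end Groth.Agent.S18952
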