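import Groth.Statements.S18953
import Mathlib.Tactic

set_option autoImplicit false
universe u v
open OrbPic

namespace Groth.Agent.S18953

/-- Let G₁ and G₂ be groups with subsets C₁ ⊆ G₁ and C₂ ⊆ G₂, and let C ⊆ G₁ × G₂ be the union of C₁ ×
{1} and {1} × C₂. Restricting the character and the weight along the two inclusions G₁ → G₁ × G₂ and
G₂ → G₁ × G₂ is a bijection from the geometric partial orbifold line bundles of G₁ × G₂ with respect
to C onto pairs of geometric partial orbifold line bundles of G₁ with respect to C₁ and of G₂ with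
respect to C₂. (As in the source after a choice of roots of unity, each group stands for the
geometric points of a tame finite étale group scheme, characters are homomorphisms to ℚ/ℤ and
weights are class functions; the source states the Galois-equivariant version, which follows by
taking invariants.) -/
theorem result (G₁ : Type u) (G₂ : Type v) [Group G₁] [Group G₂] (C₁ : Set G₁) (C₂ : Set G₂) :
    Set.BijOn
      (fun p : (Additive (G₁ × G₂) →+ W4c6brauerbgmalle.QmodZ) × (G₁ × G₂ → ℚ) =>
        ((p.1.comp (MonoidHom.toAdditive (MonoidHom.inl G₁ G₂)), fun g => p.2 (g, 1)),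
          (p.1.comp (MonoidHom.toAdditive (MonoidHom.inr G₁ G₂)), fun g => p.2 (1, g))))
      (W4c6brauerbgmalle.picOrb (G₁ × G₂) ((fun g => (g, (1 : G₂))) '' C₁ ∪ (fun g => ((1 : G₁), g)) '' C₂))
      ((W4c6brauerbgmalle.picOrb G₁ C₁ : Set _) ×ˢ (W4c6brauerbgmalle.picOrb G₂ C₂ : Set _)) := by
  classical
  refine ⟨?_, ?_, ?_⟩
  · rintro ⟨χ, w⟩ ⟨h1, h2, h3, h4⟩
    refine ⟨⟨h1, ?_, ?_, ?_⟩, ⟨h1, ?_, ?_, ?_⟩⟩
    · intro g hg
      by_cases hg1 : g = 1
      · rw [hg1]; exact h1
      · apply h2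
        rintro (⟨a, ha, hh⟩ | ⟨a, ha, hh⟩)
        · simp only [Prod.mk.injEq] at hh
          rw [hh.1] at ha; exact hg ha
        · simp only [Prod.mk.injEq] at hh
          exact hg1 hh.1.symm
    · intro g h
      have := h3 (g, 1) (h, 1)
      simpa using this
    · intro g hg
      exact h4 (g, 1) (Or.inl ⟨g, hg, rfl⟩)
    · intro g hg
      by_cases hg1 : g = 1
      · rw [hg1]; exact h1
      · apply h2
        rintro (⟨a, ha, hh⟩ | ⟨a, ha, hh⟩)
        · simp only [Prod.mk.injEq] at hh
          exact hg1 hh.2.symm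
        · simp only [Prod.mk.injEq] at hh
          rw [hh.2] at ha; exact hg ha
    · intro g h
      have := h3 (1, g) (1, h)
      simpa using this
    · intro g hg
      exact h4 (1, g) (Or.inr ⟨g, hg, rfl⟩)
  · rintro ⟨χ, w⟩ ⟨h1, h2, h3, h4⟩ ⟨χ', w'⟩ ⟨h1', h2', h3', h4'⟩ heq
    simp only [Prod.mk.injEq] at heq
    obtain ⟨⟨e1, e2⟩, e3, e4⟩ := heq
    apply Prod.ext
    · ext g
      obtain ⟨a, b⟩ := g
      have d1 := DFunLike.congr_fun e1 (Additive.ofMul a)
      have d2 := DFunLike.congr_fun e3 (Additive.ofMul b)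
      have hab : (Additive.ofMul ((a, b) : G₁ × G₂)) = Additive.ofMul ((a, 1) : G₁ × G₂) + Additive.ofMul ((1, b) : G₁ × G₂) := by
        rw [← ofMul_mul]; simp
      change χ (Additive.ofMul ((a, b) : G₁ × G₂)) = χ' (Additive.ofMul ((a, b) : G₁ × G₂))
      rw [hab, map_add, map_add]
      exact congrArg₂ (· + ·) d1 d2
    · funext ⟨a, b⟩
      by_cases ha : a = 1
      · subst ha; exact congrFun e4 b
      · by_cases hb : b = 1
        · subst hb; exact congrFun e2 a
        · have : ((a, b) : G₁ × G₂) ∉ ((fun g => (g, (1 : G₂))) '' C₁ ∪ (fun g => ((1 : G₁), g)) '' C₂) := by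
            rintro (⟨c, hc, hh⟩ | ⟨c, hc, hh⟩)
            · simp only [Prod.mk.injEq] at hh; exact hb hh.2.symm
            · simp only [Prod.mk.injEq] at hh; exact ha hh.1.symm
          exact (h2 _ this).trans (h2' _ this).symm
  · rintro ⟨⟨χ₁, w₁⟩, ⟨χ₂, w₂⟩⟩ ⟨⟨h1, h2, h3, h4⟩, ⟨h1', h2', h3', h4'⟩⟩
    simp only at h1 h2 h3 h4 h1' h2' h3' h4'
    let χ : Additive (G₁ × G₂) →+ W4c6brauerbgmalle.QmodZ :=
      { toFun := fun g => χ₁ (Additive.ofMul (Additive.toMul g).1) + χ₂ (Additive.ofMul (Additive.toMul g).2)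
        map_zero' := by simp
        map_add' := by
          intro x y
          simp only [toMul_add, Prod.fst_mul, Prod.snd_mul, ofMul_mul, map_add]
          abel }
    let w : G₁ × G₂ → ℚ := fun g => if g.2 = 1 then w₁ g.1 else if g.1 = 1 then w₂ g.2 else 0
    refine ⟨(χ, w), ⟨?_, ?_, ?_, ?_⟩, ?_⟩
    · simp [w, h1]
    · rintro ⟨a, b⟩ hab
      simp only [w]
      split_ifs with hb ha
      · apply h2
        intro hc
        exact hab (Or.inl ⟨a, hc, by rw [hb]⟩)
      · apply h2'
        intro hc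
        exact hab (Or.inr ⟨b, hc, by rw [ha]⟩)
      · rfl
    · rintro ⟨a, b⟩ ⟨c, d⟩
      have i2 : d * b * d⁻¹ = 1 ↔ b = 1 := by
        rw [mul_inv_eq_one]; constructor
        · intro hh; exact mul_left_cancel (hh.trans (mul_one _).symm)
        · intro hh; rw [hh, mul_one]
      have i3 : c * a * c⁻¹ = 1 ↔ a = 1 := by
        rw [mul_inv_eq_one]; constructor
        · intro hh; exact mul_left_cancel (hh.trans (mul_one _).symm)
        · intro hh; rw [hh, mul_one]
      simp only [w, Prod.fst_mul, Prod.snd_mul, Prod.fst_inv, Prod.snd_inv, i2, i3, h3, h3']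
    · rintro ⟨a, b⟩ (⟨c, hc, hh⟩ | ⟨c, hc, hh⟩)
      · simp only [Prod.mk.injEq] at hh
        obtain ⟨rfl, rfl⟩ := hh
        simp only [w, if_true, χ, AddMonoidHom.coe_mk, ZeroHom.coe_mk, toMul_ofMul, ofMul_one, map_zero, add_zero]
        exact h4 _ hc
      · simp only [Prod.mk.injEq] at hh
        obtain ⟨rfl, rfl⟩ := hh
        simp only [w, if_true, χ, AddMonoidHom.coe_mk, ZeroHom.coe_mk, toMul_ofMul, ofMul_one, map_zero, zero_add]
        by_cases hc1 : c = 1
        · subst hc1; simp [h1]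
        · rw [if_neg hc1]; exact h4' _ hc
    · simp only [Prod.mk.injEq]
      refine ⟨⟨?_, ?_⟩, ?_, ?_⟩
      · ext g; simp [χ]
      · funext g; simp [w]
      · ext g; simp [χ]
      · funext g
        simp only [w]
        split_ifs with hg
        · rw [hg, h1, h1']
        · rfl

end Groth.Agent.S18953
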