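import Groth.Statements.S18954
import Mathlib.Tactic

set_option autoImplicit false
set_option linter.style.haveILetI false
universe u v w
open Classical
open BGCount

namespace Groth.Agent.S18954

/-- Let a finite group G act on a finite set X, let W be a finite set of orbits and f a function on
orbits with values in a field of characteristic zero. Then Σ_{O ∈ W} f(O)/|Stab(x_O)|, with x_O any
point of O, equals |G|⁻¹ · Σ f(orbit(x)) over the points x of X whose orbit lies in W. (In the
source X is the set of 1-cocycles of the absolute Galois group of a field in a finite étale group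
scheme G, acted on by the geometric points of G, the orbits are the isomorphism classes of G-torsors
and the stabilisers their automorphism groups; stated here for an arbitrary action of a finite group
on a finite set, the representative x_O being chosen by Quotient.out.) -/
theorem result {G : Type u} {X : Type v} (𝕜 : Type w)
    [Group G] [Fintype G] [MulAction G X] [Fintype X] [Field 𝕜] [CharZero 𝕜]
    (W : Finset (MulAction.orbitRel.Quotient G X)) (f : MulAction.orbitRel.Quotient G X → 𝕜) :
    (∑ O ∈ W, f O / (Nat.card (MulAction.stabilizer G O.out) : 𝕜)) =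
      (Fintype.card G : 𝕜)⁻¹ *
        ∑ x ∈ Finset.univ.filter (fun x : X => (Quotient.mk (MulAction.orbitRel G X) x) ∈ W),
          f (Quotient.mk (MulAction.orbitRel G X) x) := by
  have h1 : ∀ x : X, (Nat.card (MulAction.orbit G x) : 𝕜) * (Nat.card (MulAction.stabilizer G x) : 𝕜) = (Fintype.card G : 𝕜) := by
    intro x
    have := MulAction.card_orbit_mul_card_stabilizer_eq_card_group G x
    rw [Nat.card_eq_fintype_card, Nat.card_eq_fintype_card]
    exact_mod_cast this
  have hG : (Fintype.card G : 𝕜) ≠ 0 := by
    have : Fintype.card G ≠ 0 := Fintype.card_ne_zero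
    exact_mod_cast this
  rw [Finset.mul_sum]
  have h2 : ∑ x ∈ Finset.univ.filter (fun x : X => (Quotient.mk (MulAction.orbitRel G X) x) ∈ W),
      (Fintype.card G : 𝕜)⁻¹ * f (Quotient.mk (MulAction.orbitRel G X) x) =
      ∑ O ∈ W, ∑ x ∈ Finset.univ.filter (fun x : X => (Quotient.mk (MulAction.orbitRel G X) x) = O),
        (Fintype.card G : 𝕜)⁻¹ * f O := by
    rw [← Finset.sum_fiberwise_of_maps_to (t := W) (g := fun x : X => Quotient.mk (MulAction.orbitRel G X) x)
      (fun x hx => (Finset.mem_filter.1 hx).2)]
    apply Finset.sum_congr rfl
    intro O hO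
    rw [Finset.filter_filter]
    apply Finset.sum_congr
    · ext x
      simp only [Finset.mem_filter, Finset.mem_univ, true_and]
      constructor
      · exact fun h => h.2
      · exact fun h => ⟨h ▸ hO, h⟩
    · intro x hx
      rw [(Finset.mem_filter.1 hx).2]
  rw [h2]
  apply Finset.sum_congr rfl
  intro O hO
  rw [Finset.sum_const, nsmul_eq_mul]
  have h3 : (Finset.univ.filter (fun x : X => (Quotient.mk (MulAction.orbitRel G X) x) = O)).card =
      Nat.card (MulAction.orbit G O.out) := by
    rw [← Fintype.card_subtype, ← Nat.card_eq_fintype_card]
    apply Nat.card_congr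
    apply Equiv.subtypeEquivRight
    intro x
    have hO' : O = Quotient.mk (MulAction.orbitRel G X) O.out := (Quotient.out_eq O).symm
    constructor
    · intro h
      rw [hO'] at h
      exact Quotient.exact h
    · intro h
      rw [hO']
      exact Quotient.sound h
  rw [h3]
  have h4 := h1 O.out
  have hst : (Nat.card (MulAction.stabilizer G O.out) : 𝕜) ≠ 0 := by
    intro h0
    rw [h0, mul_zero] at h4
    exact hG h4.symm
  have hor : (Nat.card (MulAction.orbit G O.out) : 𝕜) ≠ 0 := by
    intro h0
    rw [h0, zero_mul] at h4
    exact hG h4.symm
  rw [← h4]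
  field_simp

end Groth.Agent.S18954
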