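import Groth.Statements.S19005


set_option autoImplicit false
open scoped TensorProduct
open K2Cent

namespace Groth.Agent.S19005

/-- For abelian groups X and M and ε in M with 2ε = 0 (in the source X is the character group of a split
torus and ε is the class of −1 among the units), the map x ↦ (x ⊗ x, −(x ⊗ ε)) into (X ⊗ X) × (X ⊗
M) is quadratic over ℤ, i.e. it underlies an integer quadratic map with exactly these values. -/
theorem result (X M : Type*) [AddCommGroup X]
    [AddCommGroup M] (ε : M) (hε : 2 • ε = 0) :
    ∃ R : QuadraticMap ℤ X (TensorProduct ℤ X X × TensorProduct ℤ X M),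
      ∀ x : X, R x = (x ⊗ₜ[ℤ] x, -(x ⊗ₜ[ℤ] ε)) := by
  have h2 : ε + ε = 0 := by rw [← two_nsmul]; exact hε
  refine ⟨{ toFun := fun x => (x ⊗ₜ[ℤ] x, -(x ⊗ₜ[ℤ] ε))
            toFun_smul := ?_
            exists_companion' := ?_ }, fun x => rfl⟩
  · intro a x
    apply Prod.ext
    · simp [TensorProduct.smul_tmul', TensorProduct.tmul_smul, smul_smul]
    · simp only [Prod.smul_snd, smul_neg]
      rw [TensorProduct.smul_tmul, ← TensorProduct.tmul_smul]
      have : a • ε = (a * a) • ε := by
        have h3 : (a * a - a) • ε = 0 := by
          obtain ⟨b, hb⟩ : Even (a * a - a) := by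
            have := Int.even_mul_succ_self (a - 1)
            have e : (a - 1) * (a - 1 + 1) = a * a - a := by ring
            rwa [e] at this
          rw [hb, add_smul, ← smul_add, h2, smul_zero]
        rw [sub_smul, sub_eq_zero] at h3
        exact h3.symm
      rw [this]
  · refine ⟨LinearMap.mk₂ ℤ (fun x y => ((x ⊗ₜ[ℤ] y + y ⊗ₜ[ℤ] x : TensorProduct ℤ X X), (0 : TensorProduct ℤ X M))) ?_ ?_ ?_ ?_, ?_⟩
    · intro x x' y
      apply Prod.ext
      · simp [TensorProduct.add_tmul, TensorProduct.tmul_add]; abel
      · simp
    · intro c x y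
      apply Prod.ext
      · simp [TensorProduct.smul_tmul']
      · simp
    · intro x x' y
      apply Prod.ext
      · simp [TensorProduct.add_tmul, TensorProduct.tmul_add]; abel
      · simp
    · intro c x y
      apply Prod.ext
      · simp [TensorProduct.smul_tmul']
      · simp
    · intro x y
      apply Prod.ext
      · simp [TensorProduct.add_tmul, TensorProduct.tmul_add]; abel
      · simp [TensorProduct.add_tmul]; abel

end Groth.Agent.S19005
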