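import Groth.Statements.S19006
import Mathlib.Tactic

set_option autoImplicit false
universe u v w x
open RootD

namespace Groth.Agent.S19006

/-- For a root pairing over an integral domain of characteristic zero, a quadratic form Q on the
coweight module N with polar form B, and a root α with coroot α^∨, the form Q is invariant under the
reflection attached to α acting on N if and only if B(y, α^∨) = ⟨α, y⟩ Q(α^∨) for all y in N. (The
source states this for integer-valued forms on the cocharacter lattice of a split reductive group;
here the form takes values in the base ring of the pairing.) -/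
theorem result {ι : Type u} {R : Type v} {M : Type w} {N : Type x} [CommRing R] [IsDomain R] [CharZero R]
    [AddCommGroup M] [Module R M] [AddCommGroup N] [Module R N] (P : RootPairing ι R M N)
    (Q : QuadraticMap R N R) (j : ι) :
    (∀ y : N, Q (P.coreflection j y) = Q y) ↔
      ∀ y : N, QuadraticMap.polar Q y (P.coroot j) = P.root' j y * Q (P.coroot j) := by
  have hcr : ∀ y, P.coreflection j y = y - P.root' j y • P.coroot j := fun y => P.coreflection_apply j y
  have hval : ∀ y, Q (P.coreflection j y) = Q y + P.root' j y * P.root' j y * Q (P.coroot j) -
      P.root' j y * QuadraticMap.polar Q y (P.coroot j) := by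
    intro y
    rw [hcr, sub_eq_add_neg, ← neg_smul, QuadraticMap.map_add Q, QuadraticMap.map_smul, QuadraticMap.polar_smul_right]
    simp only [smul_eq_mul]; ring
  constructor
  · intro h y
    have h1 : ∀ y, P.root' j y ≠ 0 → QuadraticMap.polar Q y (P.coroot j) = P.root' j y * Q (P.coroot j) := by
      intro y hy
      have h2 := h y
      rw [hval] at h2
      have h3 : P.root' j y * (P.root' j y * Q (P.coroot j) - QuadraticMap.polar Q y (P.coroot j)) = 0 := by
        linear_combination h2
      rcases mul_eq_zero.1 h3 with h4 | h4
      · exact absurd h4 hy
      · linear_combination -h4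
    by_cases hy : P.root' j y = 0
    · have h5 : P.root' j (y + P.coroot j) = 2 := by
        rw [map_add, hy, zero_add]
        exact P.root_coroot_two j
      have h6 := h1 (y + P.coroot j) (by rw [h5]; exact two_ne_zero)
      rw [h5, QuadraticMap.polar_add_left, QuadraticMap.polar_self] at h6
      rw [hy, zero_mul]
      simp only [nsmul_eq_mul, Nat.cast_ofNat] at h6
      linear_combination h6
    · exact h1 y hy
  · intro h y
    rw [hval, h]; ring

end Groth.Agent.S19006
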