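import Groth.Statements.S19010
import Mathlib.Tactic
import Groth.Agent.S19006

set_option autoImplicit false
set_option linter.style.haveILetI false
universe u v w x
open RootD

namespace Groth.Agent.S19010

/-- Let P be a root pairing over an integral domain R of characteristic zero (roots α acting on the
coweight module N through reflections y ↦ y − ⟨α, y⟩ α^∨), D ⊆ N a submodule containing every coroot
and such that every element of D has a positive integer multiple in the span of the coroots (the
derived part), and Y₀ a complement of D in N. Let Q' be a quadratic form on N invariant under all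
root reflections. Then restriction to Y₀ is a bijection from the set of quadratic forms on N that
are invariant under all root reflections and agree with Q' on D onto the set of all quadratic forms
on Y₀. (In the source R = ℤ and N = Y₀ ⊕ Y_der is the cocharacter lattice of a split reductive
group; forms take values in R here.) -/
theorem result {ι : Type u} {R : Type v} {M : Type w} {N : Type x} [CommRing R] [IsDomain R] [CharZero R]
    [AddCommGroup M] [Module R M] [AddCommGroup N] [Module R N] (P : RootPairing ι R M N)
    (D Y₀ : Submodule R N) (hD : ∀ i : ι, P.coroot i ∈ D)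
    (hDsat : ∀ y ∈ D, ∃ n : ℕ, 0 < n ∧ n • y ∈ Submodule.span R (Set.range P.coroot))
    (hc : IsCompl Y₀ D)
    (Q' : QuadraticMap R N R) (hQ' : ∀ (i : ι) (y : N), Q' (P.coreflection i y) = Q' y) :
    Set.BijOn (fun Q : QuadraticMap R N R => Q.comp Y₀.subtype)
      {Q | (∀ (i : ι) (y : N), Q (P.coreflection i y) = Q y) ∧ ∀ y ∈ D, Q y = Q' y} Set.univ := by
  have h6 := fun (Q : QuadraticMap R N R) (j : ι) => Groth.Agent.S19006.result P Q j
  refine ⟨fun _ _ => trivial, ?_, ?_⟩
  · rintro Q ⟨hQ1, hQ2⟩ Q2 ⟨hQ3, hQ4⟩ heq
    simp only at heq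
    -- difference
    have hpol : ∀ y₀ : N, ∀ y ∈ D, QuadraticMap.polar Q y₀ y = QuadraticMap.polar Q2 y₀ y := by
      intro y₀ y hy
      obtain ⟨n, hn, hny⟩ := hDsat y hy
      have hspan : ∀ z ∈ Submodule.span R (Set.range P.coroot), QuadraticMap.polar Q y₀ z = QuadraticMap.polar Q2 y₀ z := by
        intro z hz
        induction hz using Submodule.span_induction with
        | mem z hz =>
          obtain ⟨j, rfl⟩ := hz
          rw [(h6 Q j).1 (hQ1 j), (h6 Q2 j).1 (hQ3 j), hQ2 _ (hD j), hQ4 _ (hD j)]
        | zero => simp [QuadraticMap.polar_zero_right]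
        | add a b _ _ ha hb => rw [QuadraticMap.polar_add_right, QuadraticMap.polar_add_right, ha, hb]
        | smul c a _ ha => rw [QuadraticMap.polar_smul_right, QuadraticMap.polar_smul_right, ha]
      have h1 := hspan _ hny
      rw [← Nat.cast_smul_eq_nsmul R, QuadraticMap.polar_smul_right, QuadraticMap.polar_smul_right] at h1
      have hn' : (n : R) ≠ 0 := Nat.cast_ne_zero.2 hn.ne'
      exact mul_left_cancel₀ hn' h1
    ext x
    obtain ⟨a, ha, b, hb, rfl⟩ := Submodule.mem_sup.1 (hc.sup_eq_top ▸ (Submodule.mem_top : x ∈ (⊤ : Submodule R N)))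
    rw [QuadraticMap.map_add Q, QuadraticMap.map_add Q2, hQ2 b hb, hQ4 b hb, hpol a b hb]
    have := congrArg (fun q => q ⟨a, ha⟩) heq
    simp only [QuadraticMap.comp_apply, Submodule.subtype_apply] at this
    rw [this]
  · intro q _
    let π : N →ₗ[R] Y₀ := Submodule.linearProjOfIsCompl Y₀ D hc
    let Q : QuadraticMap R N R := Q' + (q - Q'.comp Y₀.subtype).comp π
    have hπD : ∀ y ∈ D, π y = 0 := fun y hy => (Submodule.linearProjOfIsCompl_apply_eq_zero_iff hc).2 hy
    have hπY : ∀ y : Y₀, π y = y := fun y => Submodule.linearProjOfIsCompl_apply_left hc y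
    refine ⟨Q, ⟨?_, ?_⟩, ?_⟩
    · intro j y
      have : π (P.coreflection j y) = π y := by
        rw [P.coreflection_apply, map_sub, map_smul, hπD _ (hD j), smul_zero, sub_zero]
      simp only [Q, QuadraticMap.add_apply, QuadraticMap.comp_apply, hQ' j y, this]
    · intro y hy
      simp [Q, hπD y hy]
    · ext y
      simp [Q, hπY y]

end Groth.Agent.S19010
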