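import Groth.Statements.S19013
import Groth.Agent.Lib.H20_MilKMore

set_option autoImplicit false
universe u v
open MilnorK

namespace Groth.Agent.S19013

/-- Let A ⊆ B be discrete valuation rings, the inclusion being a local homomorphism, with fraction
fields E ⊆ F compatibly, with the induced homomorphism of residue fields κ(A) → κ(B), and with
ramification index e, the natural number such that the maximal ideal of A generates the e-th power
of the maximal ideal of B. Let ∂_A : K_{n+1}(E) → K_n(κ(A)) and ∂_B : K_{n+1}(F) → K_n(κ(B)) be the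
residue maps (tame symbols) on Milnor K-groups. Then for every x in K_{n+1}(E) one has ∂_B(x_F) = e
· (∂_A x)_{κ(B)}, where the subscripts denote the change-of-fields maps along E → F and κ(A) → κ(B).
(The published statement concerns discrete valuations of geometric type on fields finitely generated
over a base field; it is stated here for an arbitrary pair of discrete valuation rings, which is all
the printed computation uses.) -/
theorem result
    (A B : Type u) [CommRing A] [IsDomain A] [IsDiscreteValuationRing A]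
    [CommRing B] [IsDomain B] [IsDiscreteValuationRing B] [Algebra A B] [IsLocalHom (algebraMap A B)]
    (E F : Type v) [Field E] [Field F] [Algebra A E] [IsFractionRing A E] [Algebra B F] [IsFractionRing B F]
    [Algebra E F] [Algebra A F] [IsScalarTower A E F] [IsScalarTower A B F]
    (e : ℕ) (he : Ideal.map (algebraMap A B) (IsLocalRing.maximalIdeal A) = IsLocalRing.maximalIdeal B ^ e)
    (n : ℕ) (dA : MilK.K E (n + 1) →+ MilK.K (IsLocalRing.ResidueField A) n) (hdA : MilK.IsTameSymbol A E n dA)
    (dB : MilK.K F (n + 1) →+ MilK.K (IsLocalRing.ResidueField B) n) (hdB : MilK.IsTameSymbol B F n dB)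
    (x : MilK.K E (n + 1)) :
    dB (MilK.map (algebraMap E F) (n + 1) x) =
      e • MilK.map (IsLocalRing.ResidueField.map (algebraMap A B)) n (dA x) := by
  obtain ⟨ϖ, hϖ⟩ := IsDiscreteValuationRing.exists_irreducible A
  obtain ⟨ϖ', hϖ'⟩ := IsDiscreteValuationRing.exists_irreducible B
  -- units map to units
  have hunit : ∀ u : Aˣ, Units.map (algebraMap E F : E →* F) (MilK.unitToFrac A E u) =
      MilK.unitToFrac B F (Units.map (algebraMap A B : A →* B) u) := by
    intro u
    apply Units.ext
    change algebraMap E F (algebraMap A E u) = algebraMap B F (algebraMap A B u)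
    rw [← IsScalarTower.algebraMap_apply, ← IsScalarTower.algebraMap_apply]
  -- uniformizer
  obtain ⟨w, hw⟩ : ∃ w : Bˣ, algebraMap A B ϖ = ϖ' ^ e * (w : B) := by
    rw [hϖ.maximalIdeal_eq, hϖ'.maximalIdeal_eq, Ideal.map_span, Set.image_singleton, Ideal.span_singleton_pow] at he
    obtain ⟨w, hw⟩ := (Ideal.span_singleton_eq_span_singleton.1 he).symm
    exact ⟨w, hw.symm⟩
  have hunif : Units.map (algebraMap E F : E →* F) (MilK.unitFrac A E ϖ hϖ.ne_zero) =
      MilK.unitFrac B F ϖ' hϖ'.ne_zero ^ (e : ℤ) * MilK.unitToFrac B F w := by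
    apply Units.ext
    rw [zpow_natCast, Units.val_mul, Units.val_pow_eq_pow_val, MilK.coe_unitFrac]
    change algebraMap E F (algebraMap A E ϖ) = _ * algebraMap B F (w : B)
    rw [← IsScalarTower.algebraMap_apply, IsScalarTower.algebraMap_apply A B F, hw, map_mul, map_pow]
  have hUU : ∀ (m : ℕ) (v : MilK.K E m), v ∈ H20MilK.UU A E m → MilK.map (algebraMap E F) m v ∈ H20MilK.UU B F m := by
    intro m v hv
    have : H20MilK.UU A E m ≤ (H20MilK.UU B F m).comap (MilK.map (algebraMap E F) m) := by
      rw [H20MilK.UU, AddSubgroup.closure_le]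
      rintro _ ⟨u, rfl⟩
      change MilK.map (algebraMap E F) m (MilK.symbol (fun i => MilK.unitToFrac A E (u i))) ∈ H20MilK.UU B F m
      rw [MilK.map_symbol]
      exact AddSubgroup.subset_closure ⟨_, by congr 1; funext i; exact hunit (u i)⟩
    exact this hv
  have hspec : ∀ α ∈ H20MilK.UU A E n, H20MilK.spec B F ϖ' hϖ' n (MilK.map (algebraMap E F) n α) =
      MilK.map (IsLocalRing.ResidueField.map (algebraMap A B)) n (H20MilK.spec A E ϖ hϖ n α) := by
    intro α hα
    have : H20MilK.UU A E n ≤ ((H20MilK.spec B F ϖ' hϖ' n).comp (MilK.map (algebraMap E F) n) -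
        (MilK.map (IsLocalRing.ResidueField.map (algebraMap A B)) n).comp (H20MilK.spec A E ϖ hϖ n)).ker := by
      rw [H20MilK.UU, AddSubgroup.closure_le]
      rintro _ ⟨u, rfl⟩
      change H20MilK.spec B F ϖ' hϖ' n (MilK.map (algebraMap E F) n (MilK.symbol _)) -
        MilK.map (IsLocalRing.ResidueField.map (algebraMap A B)) n (H20MilK.spec A E ϖ hϖ n (MilK.symbol _)) = 0
      have h1 := H20MilK.isSpecMap_spec B F ϖ' hϖ' n (fun _ => 0) (fun i => Units.map (algebraMap A B : A →* B) (u i))
      have h2 := H20MilK.isSpecMap_spec A E ϖ hϖ n (fun _ => 0) u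
      simp only [zpow_zero, one_mul] at h1 h2
      have h3 : (fun i => Units.map (algebraMap E F : E →* F) (MilK.unitToFrac A E (u i))) =
        fun i => MilK.unitToFrac B F (Units.map (algebraMap A B : A →* B) (u i)) := funext fun i => hunit (u i)
      rw [MilK.map_symbol, h3, h1, h2, MilK.map_symbol, sub_eq_zero]
      congr 1
    exact sub_eq_zero.1 (this hα)
  obtain ⟨v, hv, α, hα, rfl⟩ := H20MilK.decomp A E ϖ hϖ n x
  rw [map_add, map_add, map_add, H20MilK.tame_UU B F dB hdB (hUU _ v hv), H20MilK.tame_UU A E dA hdA hv, zero_add, zero_add,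
    H20MilK.map_ell, hunif, H20MilK.ell_mul, H20MilK.ell_zpow, map_add, map_zsmul,
    H20MilK.tame_UU B F dB hdB (H20MilK.ell_unit_UU B F w n (hUU _ α hα)), add_zero,
    H20MilK.tame_ell_unif B F ϖ' hϖ' dB hdB _ (H20MilK.isSpecMap_spec B F ϖ' hϖ' n) (hUU _ α hα),
    H20MilK.tame_ell_unif A E ϖ hϖ dA hdA _ (H20MilK.isSpecMap_spec A E ϖ hϖ n) hα, hspec α hα, natCast_zsmul]

end Groth.Agent.S19013
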