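import Groth.Statements.S19014
import Groth.Agent.Lib.H20_MilKMore

set_option autoImplicit false
universe u v
open MilnorK

namespace Groth.Agent.S19014

/-- Let B be a discrete valuation ring with fraction field F and residue field κ, and let E be a field
equipped with a ring homomorphism into B, hence into F, so that the valuation of F is trivial on E.
If ∂ : K_{n+1}(F) → K_n(κ) is the residue map (tame symbol) on Milnor K-groups, then ∂(x_F) = 0 for
every x in K_{n+1}(E). (The published statement concerns discrete valuations of geometric type on
fields finitely generated over a base field; it is stated here for an arbitrary discrete valuation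
ring, which is all the printed computation uses.) -/
theorem result
    (B : Type u) [CommRing B] [IsDomain B] [IsDiscreteValuationRing B]
    (E F : Type v) [Field E] [Field F] [Algebra B F] [IsFractionRing B F]
    [Algebra E B] [Algebra E F] [IsScalarTower E B F]
    (n : ℕ) (d : MilK.K F (n + 1) →+ MilK.K (IsLocalRing.ResidueField B) n) (hd : MilK.IsTameSymbol B F n d)
    (x : MilK.K E (n + 1)) :
    d (MilK.map (algebraMap E F) (n + 1) x) = 0 := by
  have hcomp : d.comp (MilK.map (algebraMap E F) (n + 1)) = 0 := by
    apply H20MilK.hom_ext
    intro y
    have hy : (fun i => Units.map (algebraMap E F : E →* F) (y i)) =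
        fun i => MilK.unitToFrac B F (Units.map (algebraMap E B : E →* B) (y i)) := by
      funext i
      apply Units.ext
      change algebraMap E F (y i) = algebraMap B F (algebraMap E B (y i))
      rw [← IsScalarTower.algebraMap_apply]
    rw [AddMonoidHom.comp_apply, MilK.map_symbol, hy]
    exact H20MilK.tame_units B F d hd _
  exact DFunLike.congr_fun hcomp x

end Groth.Agent.S19014
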