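import Groth.Statements.S19016
import Groth.Agent.Lib.H20_MilKMore

set_option autoImplicit false
universe u v
open MilnorK

namespace Groth.Agent.S19016

/-- Let B be a discrete valuation ring with fraction field F and residue field κ, let u be a unit of B
with residue class ū, and let ∂ denote the residue maps (tame symbols) K_{n+1}(F) → K_n(κ) and
K_{n+2}(F) → K_{n+1}(κ) on Milnor K-groups. Then ∂({u} · ρ) = −{ū} · ∂(ρ) for every ρ in K_{n+1}(F),
the products {u} · ρ in K_{1+(n+1)}(F) and {ū} · ∂ρ in K_{1+n}(κ) being regarded in K_{n+2}(F) and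
K_{n+1}(κ). (The published statement concerns discrete valuations of geometric type on fields
finitely generated over a base field; it is stated here for an arbitrary discrete valuation ring,
which is all the printed computation uses.) -/
theorem result
    (B : Type u) [CommRing B] [IsDomain B] [IsDiscreteValuationRing B]
    (F : Type v) [Field F] [Algebra B F] [IsFractionRing B F] (n : ℕ)
    (d : MilK.K F (n + 1) →+ MilK.K (IsLocalRing.ResidueField B) n) (hd : MilK.IsTameSymbol B F n d)
    (d' : MilK.K F (n + 1 + 1) →+ MilK.K (IsLocalRing.ResidueField B) (n + 1))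
    (hd' : MilK.IsTameSymbol B F (n + 1) d')
    (u : Bˣ) (ρ : MilK.K F (n + 1)) :
    d' (MilK.cast F (Nat.add_comm 1 (n + 1)) (MilK.mul F 1 (n + 1) (MilK.symbol ![MilK.unitToFrac B F u]) ρ)) =
      -(MilK.cast (IsLocalRing.ResidueField B) (Nat.add_comm 1 n)
          (MilK.mul (IsLocalRing.ResidueField B) 1 n (MilK.symbol ![MilK.unitResidue B u]) (d ρ))) := by
  obtain ⟨ϖ, hϖ⟩ := IsDiscreteValuationRing.exists_irreducible B
  rw [H20MilK.cast_mul_eq_ell, H20MilK.cast_mul_eq_ell,
    H20MilK.tame_unique B F d _ hd (H20MilK.isTameSymbol_tame B F ϖ hϖ n),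
    H20MilK.tame_unique B F d' _ hd' (H20MilK.isTameSymbol_tame B F ϖ hϖ (n + 1))]
  change ((H20MilK.big B F ϖ hϖ (n + 1 + 1) (H20MilK.ell _ (n + 1) ρ) : MilK.K _ (n + 2) × MilK.K _ (n + 1))).2 =
    -(H20MilK.ell _ n ((H20MilK.big B F ϖ hϖ (n + 1) ρ : MilK.K _ (n + 1) × MilK.K _ n)).2)
  rw [H20MilK.big_ell]
  unfold H20MilK.LL H20MilK.ured
  rw [H20MilK.evl_unit, H20MilK.uvl_unit]
  generalize hz : H20MilK.big B F ϖ hϖ (n + 1) ρ = z
  obtain ⟨a, b⟩ := z
  rw [H20MilK.L_succ_apply]
  simp only [zero_smul, zero_add, zero_sub]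

end Groth.Agent.S19016
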