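import Groth.Statements.S19019
import Mathlib.Tactic
import Mathlib.Topology.Algebra.Module.Cardinality
import Mathlib.Analysis.Real.Cardinality
import Mathlib.Analysis.Matrix.Hermitian
import Mathlib.MeasureTheory.Integral.IntervalIntegral.Basic
import Mathlib.Analysis.SpecialFunctions.Integrals.Basic
import Mathlib.LinearAlgebra.Matrix.PosDef

set_option autoImplicit false
set_option linter.style.haveILetI false
open scoped ComplexOrder
open Toeplitz

namespace Groth.Agent.S19019

theorem int_exp (k : ℤ) : ∫ y in (-Real.pi)..Real.pi, Complex.exp (Complex.I * (k : ℂ) * (y : ℂ)) = if k = 0 then (2 * Real.pi : ℂ) else 0 := by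
  split_ifs with h
  · subst h
    simp
    ring
  · have hc : Complex.I * (k : ℂ) ≠ 0 := mul_ne_zero Complex.I_ne_zero (by exact_mod_cast h)
    rw [integral_exp_mul_complex hc]
    have : Complex.exp (Complex.I * (k : ℂ) * (Real.pi : ℂ)) = Complex.exp (Complex.I * (k : ℂ) * ((-Real.pi : ℝ) : ℂ)) := by
      rw [Complex.exp_eq_exp_iff_exists_int]
      exact ⟨k, by push_cast; ring⟩
    rw [this, sub_self, zero_div]

theorem quad (m : ℕ) (t : ℤ → ℂ) (x : Fin m → ℂ) (y : ℝ) :
    (∑ k ∈ Finset.Ioo (-(m : ℤ)) (m : ℤ), t k * Complex.exp (Complex.I * (k : ℂ) * (y : ℂ))) *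
      (star (∑ j, x j * Complex.exp (- (Complex.I * (j : ℂ) * (y : ℂ)))) * (∑ j, x j * Complex.exp (- (Complex.I * (j : ℂ) * (y : ℂ))))) =
    ∑ k ∈ Finset.Ioo (-(m : ℤ)) (m : ℤ), ∑ i : Fin m, ∑ j : Fin m, t k * (star (x i) * x j) * Complex.exp (Complex.I * ((k + i - j : ℤ) : ℂ) * (y : ℂ)) := by
  rw [Finset.sum_mul]
  apply Finset.sum_congr rfl
  intro k _
  rw [star_sum, Finset.sum_mul_sum, Finset.mul_sum]
  apply Finset.sum_congr rfl
  intro i _
  rw [Finset.mul_sum]
  apply Finset.sum_congr rfl
  intro j _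
  have h1 : star (Complex.exp (-(Complex.I * (i : ℂ) * (y : ℂ)))) = Complex.exp (Complex.I * (i : ℂ) * (y : ℂ)) := by
    rw [Complex.star_def, ← Complex.exp_conj]
    congr 1
    simp
  rw [star_mul', h1]
  have h2 : Complex.exp (Complex.I * ((k + i - j : ℤ) : ℂ) * (y : ℂ)) = Complex.exp (Complex.I * (k : ℂ) * (y : ℂ)) * Complex.exp (Complex.I * (i : ℂ) * (y : ℂ)) * Complex.exp (-(Complex.I * (j : ℂ) * (y : ℂ))) := by
    rw [← Complex.exp_add, ← Complex.exp_add]
    congr 1
    push_cast
    ring
  rw [h2]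
  ring

theorem int_quad (m : ℕ) (t : ℤ → ℂ) (A : Matrix (Fin m) (Fin m) ℂ)
    (hA : ∀ i j : Fin m, A i j = t ((j : ℤ) - (i : ℤ))) (x : Fin m → ℂ) :
    ∫ y in (-Real.pi)..Real.pi, ((∑ k ∈ Finset.Ioo (-(m : ℤ)) (m : ℤ), t k * Complex.exp (Complex.I * (k : ℂ) * (y : ℂ))) *
      (star (∑ j, x j * Complex.exp (- (Complex.I * (j : ℂ) * (y : ℂ)))) * (∑ j, x j * Complex.exp (- (Complex.I * (j : ℂ) * (y : ℂ)))))) =
      (2 * Real.pi : ℂ) * (star x ⬝ᵥ (A.mulVec x)) := by
  simp_rw [quad]
  have hI : ∀ (c : ℂ) (k : ℤ), IntervalIntegrable (fun y : ℝ => c * Complex.exp (Complex.I * (k : ℂ) * (y : ℂ))) MeasureTheory.volume (-Real.pi) Real.pi := by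
    intro c k
    apply Continuous.intervalIntegrable
    fun_prop
  rw [intervalIntegral.integral_finset_sum]
  swap
  · intro k _
    apply Continuous.intervalIntegrable
    fun_prop
  have h1 : ∀ k ∈ Finset.Ioo (-(m : ℤ)) (m : ℤ), (∫ y in (-Real.pi)..Real.pi, ∑ i : Fin m, ∑ j : Fin m, t k * (star (x i) * x j) * Complex.exp (Complex.I * ((k + i - j : ℤ) : ℂ) * (y : ℂ))) =
      ∑ i : Fin m, ∑ j : Fin m, t k * (star (x i) * x j) * (if k + i - j = 0 then (2 * Real.pi : ℂ) else 0) := by
    intro k _
    rw [intervalIntegral.integral_finset_sum]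
    swap
    · intro i _
      apply Continuous.intervalIntegrable
      fun_prop
    apply Finset.sum_congr rfl
    intro i _
    rw [intervalIntegral.integral_finset_sum (fun j _ => hI _ _)]
    apply Finset.sum_congr rfl
    intro j _
    rw [intervalIntegral.integral_const_mul, int_exp]
  rw [Finset.sum_congr rfl h1, Finset.sum_comm, dotProduct, Finset.mul_sum]
  apply Finset.sum_congr rfl
  intro i _
  rw [Finset.sum_comm, Matrix.mulVec, dotProduct, Finset.mul_sum, Finset.mul_sum]
  apply Finset.sum_congr rfl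
  intro j _
  rw [Finset.sum_eq_single ((j : ℤ) - (i : ℤ))]
  · rw [if_pos (by ring), hA]
    simp only [Pi.star_apply]
    ring
  · intro k _ hk
    rw [if_neg (by intro h; apply hk; linarith), mul_zero]
  · intro h
    exfalso
    apply h
    rw [Finset.mem_Ioo]
    have := i.2
    have := j.2
    constructor <;> omega


/-- Let A be an m × m complex Hermitian Toeplitz matrix, with entries A i j = t (j - i) constant along
diagonals, and let f(y) = Σ_{-m < k < m} t k · exp(i k y) be the trigonometric polynomial attached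
to it. If f has positive real part at every real y outside a countable set, then A is positive
definite (hence nondegenerate). (The source also states the mirror case: f negative off a countable
set gives A negative definite, which is this statement for -A.) -/
theorem result
    (m : ℕ) (t : ℤ → ℂ) (A : Matrix (Fin m) (Fin m) ℂ)
    (hA : ∀ i j : Fin m, A i j = t ((j : ℤ) - (i : ℤ))) (hH : A.IsHermitian)
    (hpos : Set.Countable {y : ℝ | ¬ 0 < (∑ k ∈ Finset.Ioo (-(m : ℤ)) (m : ℤ),
        t k * Complex.exp (Complex.I * (k : ℂ) * (y : ℂ))).re}) :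
    A.PosDef := by
  refine Matrix.PosDef.of_dotProduct_mulVec_pos hH (fun x hx => ?_)
  set f : ℝ → ℂ := fun y => ∑ k ∈ Finset.Ioo (-(m : ℤ)) (m : ℤ), t k * Complex.exp (Complex.I * (k : ℂ) * (y : ℂ)) with hf
  set P : ℝ → ℂ := fun y => ∑ j, x j * Complex.exp (- (Complex.I * (j : ℂ) * (y : ℂ))) with hP
  have hfc : Continuous f := by rw [hf]; fun_prop
  have hPc : Continuous P := by rw [hP]; fun_prop
  have hint := int_quad m t A hA x
  change ∫ y in (-Real.pi)..Real.pi, (f y * (star (P y) * P y)) = _ at hint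
  have hre : ∫ y in (-Real.pi)..Real.pi, ((f y).re * ‖P y‖ ^ 2) = 2 * Real.pi * (star x ⬝ᵥ (A.mulVec x)).re := by
    have h1 := congrArg Complex.re hint
    rw [← Complex.reCLM_apply, ← ContinuousLinearMap.intervalIntegral_comp_comm] at h1
    · have h2 : ∀ y, Complex.reCLM (f y * (star (P y) * P y)) = (f y).re * ‖P y‖ ^ 2 := by
        intro y
        have : star (P y) * P y = ((‖P y‖ ^ 2 : ℝ) : ℂ) := by
          rw [Complex.star_def, Complex.conj_mul']
          push_cast; rfl
        rw [this, Complex.reCLM_apply, Complex.re_mul_ofReal]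
      simp_rw [h2] at h1
      rw [h1]
      have : ((2 * Real.pi : ℂ)) = ((2 * Real.pi : ℝ) : ℂ) := by push_cast; rfl
      rw [this, Complex.re_ofReal_mul]
    · apply Continuous.intervalIntegrable
      fun_prop
  have hnn : ∀ y, 0 ≤ (f y).re := by
    have hd : Dense {y : ℝ | 0 < (f y).re} := by
      have h5 : Dense ({y : ℝ | ¬ 0 < (f y).re}ᶜ) := hpos.dense_compl ℝ
      have h6 : ({y : ℝ | ¬ 0 < (f y).re}ᶜ) = {y : ℝ | 0 < (f y).re} := by
        ext y
        change ¬ ¬ 0 < (f y).re ↔ 0 < (f y).re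
        exact not_not
      rwa [h6] at h5
    intro y
    have hcl : IsClosed {y : ℝ | 0 ≤ (f y).re} := isClosed_le continuous_const (Complex.continuous_re.comp hfc)
    have : closure {y : ℝ | 0 < (f y).re} ⊆ {y : ℝ | 0 ≤ (f y).re} :=
      closure_minimal (fun y (hy : 0 < (f y).re) => (le_of_lt hy : 0 ≤ (f y).re)) hcl
    exact this (hd y)
  have hPz : Set.Countable {y : ℝ | y ∈ Set.Ioc (-Real.pi) Real.pi ∧ P y = 0} := by
    apply Set.Finite.countable
    let p : Polynomial ℂ := ∑ j : Fin m, Polynomial.monomial (j : ℕ) (x j)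
    have hp : p ≠ 0 := by
      intro h0
      apply hx
      ext j
      have := congrArg (fun q => Polynomial.coeff q (j : ℕ)) h0
      simp only [p, Polynomial.finset_sum_coeff, Polynomial.coeff_monomial, Polynomial.coeff_zero] at this
      rw [Finset.sum_eq_single j] at this
      · simpa using this
      · intro b _ hb
        rw [if_neg]
        intro h
        exact hb (Fin.ext h)
      · simp
    apply Set.Finite.of_finite_image (f := fun y : ℝ => Complex.exp (-(Complex.I * (y : ℂ))))
    · apply Set.Finite.subset (p.roots.toFinset.finite_toSet)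
      rintro _ ⟨y, ⟨_, hy⟩, rfl⟩
      simp only [Finset.mem_coe, Multiset.mem_toFinset, Polynomial.mem_roots', Polynomial.IsRoot.def]
      refine ⟨hp, ?_⟩
      rw [← hy]
      simp only [p, Polynomial.eval_finset_sum, Polynomial.eval_monomial, hP]
      apply Finset.sum_congr rfl
      intro j _
      rw [← Complex.exp_nat_mul]
      congr 2
      ring
    · rintro y ⟨⟨hy1, hy2⟩, _⟩ z ⟨⟨hz1, hz2⟩, _⟩ h
      simp only at h
      rw [Complex.exp_neg, Complex.exp_neg, inv_inj] at h
      have := Complex.exp_inj_of_neg_pi_lt_of_le_pi (x := Complex.I * y) (y := Complex.I * z) (by simpa using hy1) (by simpa using hy2) (by simpa using hz1) (by simpa using hz2) h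
      have := mul_left_cancel₀ Complex.I_ne_zero this
      exact_mod_cast this
  obtain ⟨c, hc1, hc2, hc3⟩ : ∃ c ∈ Set.Icc (-Real.pi) Real.pi, 0 < (f c).re ∧ P c ≠ 0 := by
    by_contra hcon
    push_neg at hcon
    have hsub : Set.Ioc (-Real.pi) Real.pi ⊆ {y : ℝ | ¬ 0 < (f y).re} ∪ {y : ℝ | y ∈ Set.Ioc (-Real.pi) Real.pi ∧ P y = 0} := by
      intro y hy
      by_cases h : 0 < (f y).re
      · right
        exact ⟨hy, hcon y (Set.Ioc_subset_Icc_self hy) h⟩
      · left; exact h
    have hcount := (hpos.union hPz).mono hsub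
    have := Cardinal.mk_Ioc_real (show -Real.pi < Real.pi by linarith [Real.pi_pos])
    rw [← Cardinal.le_aleph0_iff_set_countable, this] at hcount
    exact absurd hcount (not_le.2 Cardinal.aleph0_lt_continuum)
  have hposint : 0 < ∫ y in (-Real.pi)..Real.pi, ((f y).re * ‖P y‖ ^ 2) := by
    apply intervalIntegral.integral_pos (by linarith [Real.pi_pos])
    · apply Continuous.continuousOn
      exact (Complex.continuous_re.comp hfc).mul ((continuous_norm.comp hPc).pow 2)
    · intro y _
      exact mul_nonneg (hnn y) (by positivity)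
    · exact ⟨c, hc1, mul_pos hc2 (by positivity)⟩
  rw [hre] at hposint
  have hre' : 0 < (star x ⬝ᵥ (A.mulVec x)).re := by
    have := Real.pi_pos
    exact (pos_iff_pos_of_mul_pos hposint).1 (by positivity)
  have him : (star x ⬝ᵥ (A.mulVec x)).im = 0 := by
    have := hH.im_star_dotProduct_mulVec_self x
    simpa using this
  rw [Complex.lt_def]
  exact ⟨by simpa using hre', by simpa using him.symm⟩

end Groth.Agent.S19019
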