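import Groth.Statements.S19020
import Mathlib.Data.Nat.Choose.Vandermonde
import Mathlib.Tactic.Linarith
import Mathlib.Tactic.Ring
import Mathlib.Algebra.Order.Star.Real

set_option autoImplicit false
open Toeplitz

namespace Groth.Agent.S19020

open Finset in
theorem vand (n d : ℕ) : ∑ l ∈ range (n+1), n.choose l * n.choose (l+d) = (2*n).choose (n+d) := by
  rw [two_mul, Nat.add_choose_eq, Finset.Nat.sum_antidiagonal_eq_sum_range_succ
    (fun a b => n.choose a * n.choose b)]
  have h1 : ∑ k ∈ range (n+d).succ, n.choose k * n.choose (n+d-k) =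
      ∑ k ∈ range (n+1), n.choose k * n.choose (n+d-k) := by
    symm
    apply Finset.sum_subset
    · intro x hx; simp at hx ⊢; omega
    · intro x _ hx
      have : n < x := by simp at hx; omega
      rw [Nat.choose_eq_zero_of_lt this, zero_mul]
  rw [h1, ← Finset.sum_range_reflect]
  apply Finset.sum_congr rfl
  intro l hl
  have hl' : l ≤ n := by simp at hl; omega
  have e1 : n + 1 - 1 - l = n - l := by omega
  rw [e1, Nat.choose_symm hl']
  congr 2
  omega

/-- entry -/
noncomputable def ent (n k j : ℕ) : ℝ := if j ≤ k then (-1:ℝ)^(k+j) * (n.choose (k-j) : ℝ) else 0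

theorem key (n m i j : ℕ) (hj : j < m) (hij : i ≤ j) :
    ∑ k ∈ Finset.range (m+n), ent n k i * ent n k j =
      (-1:ℝ)^(i+j) * ((2*n).choose (n + (j-i)) : ℝ) := by
  have h1 : ∑ k ∈ Finset.range (m+n), ent n k i * ent n k j =
      ∑ k ∈ Finset.Ico j (j+(n+1)), (-1:ℝ)^(i+j) * ((n.choose (k-i) * n.choose (k-j) : ℕ) : ℝ) := by
    have h2 : ∑ k ∈ Finset.Ico j (j+(n+1)), ent n k i * ent n k j = ∑ k ∈ Finset.range (m+n), ent n k i * ent n k j := by
      apply Finset.sum_subset
      · intro k hk
        simp at hk ⊢
        omega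
      · intro k hk hk2
        simp at hk hk2
        unfold ent
        by_cases h : j ≤ k
        · have : n < k - j := by have := hk2 h; omega
          simp [Nat.choose_eq_zero_of_lt this]
        · simp [h]
    rw [← h2]
    apply Finset.sum_congr rfl
    intro k hk
    simp at hk
    unfold ent
    rw [if_pos (by omega), if_pos hk.1]
    have : (-1:ℝ)^(i+j) = (-1:ℝ)^(k+i) * (-1:ℝ)^(k+j) := by
      rw [← pow_add, show k + i + (k+j) = (i+j) + 2*k by ring, pow_add _ (i+j), pow_mul]; simp
    rw [this]; push_cast; ring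
  rw [h1, Finset.sum_Ico_eq_sum_range]
  simp only [Nat.add_sub_cancel_left]
  rw [← Finset.mul_sum, ← Nat.cast_sum]
  congr 2
  rw [← vand]
  apply Finset.sum_congr rfl
  intro l _
  rw [mul_comm]
  congr 2
  omega

/-- the factor -/
noncomputable def Bm (n m : ℕ) : Matrix (Fin (m+n)) (Fin m) ℝ := Matrix.of fun k j => ent n k j

theorem inj (n m : ℕ) : Function.Injective (Bm n m).mulVec := by
  intro x y hxy
  have h0 : (Bm n m).mulVec (x - y) = 0 := by rw [Matrix.mulVec_sub, hxy, sub_self]
  have : ∀ (k : ℕ) (hk : k < m), (x - y) ⟨k, hk⟩ = 0 := by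
    intro k
    induction k using Nat.strong_induction_on with
    | _ k ih =>
      intro hk
      have h := congrFun h0 ⟨k, by omega⟩
      simp only [Matrix.mulVec, dotProduct, Bm, Matrix.of_apply, Pi.zero_apply] at h
      rw [Finset.sum_eq_single ⟨k, hk⟩] at h
      · have : ent n k k = 1 := by simp [ent, ← two_mul, pow_mul]
        rw [this, one_mul] at h
        exact h
      · intro j _ hj
        by_cases hjk : (j : ℕ) < k
        · rw [ih j hjk j.2, mul_zero]
        · have : ent n k j = 0 := by
            unfold ent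
            rw [if_neg]
            intro h'
            apply hj
            ext
            simp; omega
          simp [this]
      · simp
  funext k
  have := this k k.2
  simpa [sub_eq_zero] using this

theorem result (n m : ℕ) :
    (Matrix.of fun i j : Fin m =>
        (-1 : ℝ) ^ ((i : ℕ) + (j : ℕ)) * (Nat.choose (2 * n) (n + Nat.dist i j) : ℝ)).PosDef := by
  have h := Matrix.PosDef.conjTranspose_mul_self (Bm n m) (inj n m)
  convert h using 1
  ext i j
  simp only [Matrix.of_apply, Matrix.mul_apply, Matrix.conjTranspose_apply, Bm, star_trivial]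
  rw [Fin.sum_univ_eq_sum_range (fun k => ent n k i * ent n k j) (m+n)]
  rcases le_total (i:ℕ) (j:ℕ) with hij | hij
  · rw [key n m i j j.2 hij, Nat.dist_eq_sub_of_le hij]
  · have : ∑ k ∈ Finset.range (m+n), ent n k i * ent n k j = ∑ k ∈ Finset.range (m+n), ent n k j * ent n k i :=
      Finset.sum_congr rfl fun _ _ => mul_comm _ _
    rw [this, key n m j i i.2 hij, Nat.dist_eq_sub_of_le_right hij, add_comm (i:ℕ)]

end Groth.Agent.S19020
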