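import Groth.Statements.S19021
import Groth.Agent.S19020
import Mathlib.LinearAlgebra.Matrix.ToLinearEquiv
import Mathlib.Algebra.Order.Star.Real

set_option autoImplicit false
open Toeplitz

namespace Groth.Agent.S19021

/-- For natural numbers n and m, the m × m integer Toeplitz matrix with (i, j) entry (-1)^(i+j) ·
C(2n+1, n+1+i-j) (the binomial coefficient being 0 outside the range 0 ≤ n+1+i-j ≤ 2n+1;
equivalently s_k = (-1)^k C(2n+1, n+k+1) on the diagonal i - j = k for -n-1 ≤ k ≤ n and zero beyond)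
is nondegenerate: its determinant is nonzero (m = 0 is the empty matrix, of determinant 1). -/
theorem result (n m : ℕ) :
    (Matrix.of fun i j : Fin m =>
        (-1 : ℤ) ^ ((i : ℕ) + (j : ℕ)) *
          (if (j : ℕ) ≤ (i : ℕ) then (Nat.choose (2 * n + 1) (n + 1 + ((i : ℕ) - (j : ℕ))) : ℤ)
            else (Nat.choose (2 * n + 1) (n + ((j : ℕ) - (i : ℕ))) : ℤ))).det ≠ 0 := by
  intro hdet
  set M : Matrix (Fin m) (Fin m) ℤ := (Matrix.of fun i j : Fin m =>
        (-1 : ℤ) ^ ((i : ℕ) + (j : ℕ)) *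
          (if (j : ℕ) ≤ (i : ℕ) then (Nat.choose (2 * n + 1) (n + 1 + ((i : ℕ) - (j : ℕ))) : ℤ)
            else (Nat.choose (2 * n + 1) (n + ((j : ℕ) - (i : ℕ))) : ℤ))) with hM
  let A : Matrix (Fin m) (Fin m) ℝ := M.map (Int.castRingHom ℝ)
  have hA : A.det = 0 := by
    have := RingHom.map_det (Int.castRingHom ℝ) M
    rw [hdet, map_zero] at this
    exact this.symm
  obtain ⟨v, hv, hAv⟩ := Matrix.exists_mulVec_eq_zero_iff.2 hA
  have hpd := Groth.Agent.S19020.result (n+1) m
  have hsum : (Matrix.of fun i j : Fin m =>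
        (-1 : ℝ) ^ ((i : ℕ) + (j : ℕ)) * (Nat.choose (2 * (n+1)) ((n+1) + Nat.dist i j) : ℝ)) = A + A.transpose := by
    ext i j
    simp only [Matrix.of_apply, Matrix.add_apply, Matrix.transpose_apply, A, Matrix.map_apply, hM]
    have hc : ∀ d : ℕ, (Nat.choose (2*(n+1)) (n+1+d) : ℝ) = Nat.choose (2*n+1) (n+1+d) + Nat.choose (2*n+1) (n+d) := by
      intro d
      have : 2*(n+1) = (2*n+1)+1 := by ring
      rw [this, show n+1+d = (n+d)+1 by ring, Nat.choose_succ_succ]
      push_cast; ring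
    have hsym : Nat.choose (2*n+1) (n+1) = Nat.choose (2*n+1) n := by
      rw [← Nat.choose_symm_of_eq_add (by ring : 2*n+1 = (n+1)+n)]
    rcases lt_trichotomy (i:ℕ) (j:ℕ) with h | h | h
    · rw [if_neg (by omega), if_pos (by omega), Nat.dist_eq_sub_of_le h.le, hc, add_comm (j:ℕ) (i:ℕ)]
      push_cast [Int.coe_castRingHom]; ring
    · rw [if_pos (by omega), if_pos (by omega), h, Nat.dist_self, hc]
      simp only [Nat.sub_self, add_zero, hsym]
      push_cast [Int.coe_castRingHom]; ring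
    · rw [if_pos (by omega), if_neg (by omega), Nat.dist_eq_sub_of_le_right h.le, hc, add_comm (j:ℕ) (i:ℕ)]
      push_cast [Int.coe_castRingHom]; ring
  rw [hsum] at hpd
  have := hpd.dotProduct_mulVec_pos hv
  rw [Matrix.add_mulVec, dotProduct_add, hAv, Matrix.mulVec_transpose] at this
  have h2 : star v ⬝ᵥ Matrix.vecMul v A = 0 := by
    rw [dotProduct_comm, star_trivial, ← Matrix.dotProduct_mulVec, hAv, dotProduct_zero]
  rw [h2] at this
  simp at this

end Groth.Agent.S19021
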