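import Groth.Statements.S19023
import Mathlib.Tactic

set_option autoImplicit false
set_option linter.style.haveILetI false
universe u v
open Filt

namespace Groth.Agent.S19023

/-- Let F be a module with two decreasing filtrations M and N by submodules, indexed by the natural
numbers. Suppose that for some j and l the submodule N (j+1) ⊓ M l maps onto the quotient M l / M
(l+1), that is M l ≤ M (l+1) ⊔ (N (j+1) ⊓ M l). Then for every i ≤ j the map between the graded
pieces (N i ⊓ M (l+1)) / (N (i+1) ⊓ M (l+1)) → (N i ⊓ M l) / (N (i+1) ⊓ M l) induced by the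
inclusion M (l+1) ≤ M l is bijective. (The source states this for two finite decreasing filtrations
of a coherent sheaf on an algebraic variety; the statement concerns only the lattice of subobjects
and is given here for submodules of a module.) -/
theorem result
    (R : Type u) (F : Type v) [Ring R] [AddCommGroup F] [Module R F]
    (M N : ℕ → Submodule R F) (hM : Antitone M) (hN : Antitone N) (j l : ℕ)
    (h : M l ≤ M (l + 1) ⊔ (N (j + 1) ⊓ M l)) (i : ℕ) (hi : i ≤ j) :
    Function.Bijective
      (Submodule.mapQ ((N (i + 1)).comap (N i ⊓ M (l + 1)).subtype) ((N (i + 1)).comap (N i ⊓ M l).subtype)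
        (Submodule.inclusion (inf_le_inf_left (N i) (hM (Nat.le_succ l))))
        (fun x hx => hx)) := by
  constructor
  · rw [injective_iff_map_eq_zero]
    intro q hq
    obtain ⟨x, rfl⟩ := Submodule.Quotient.mk_surjective _ q
    rw [Submodule.mapQ_apply, Submodule.Quotient.mk_eq_zero] at hq
    rw [Submodule.Quotient.mk_eq_zero]
    exact hq
  · intro q
    obtain ⟨⟨y, hy1, hy2⟩, rfl⟩ := Submodule.Quotient.mk_surjective _ q
    obtain ⟨m, hm, n, hn, hmn⟩ := Submodule.mem_sup.1 (h hy2)
    have hnN : n ∈ N (i + 1) := hN (by omega) hn.1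
    have hmN : m ∈ N i := by
      have : m = y - n := by rw [← hmn]; abel
      rw [this]
      exact Submodule.sub_mem _ hy1 (hN (Nat.le_succ i) hnN)
    refine ⟨Submodule.Quotient.mk ⟨m, hmN, hm⟩, ?_⟩
    rw [Submodule.mapQ_apply, Submodule.Quotient.eq]
    change (m - y) ∈ N (i+1)
    have : m - y = -n := by rw [← hmn]; abel
    rw [this]
    exact Submodule.neg_mem _ hnN

end Groth.Agent.S19023
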