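import Groth.Statements.S19024
import Mathlib.Tactic

set_option autoImplicit false
set_option linter.style.haveILetI false
open SymIdx

namespace Groth.Agent.S19024

/-- Let a be a map from Fin k to finite subsets of Fin n, R a set of elements of Fin n, and H^R(a) the
set of permutations of Fin k preserving each fibre a⁻¹({r}) for r ∈ R and fixing all other points.
Let τ be a permutation of Fin n carrying R onto itself and τ' a permutation of Fin k that lifts τ on
the singleton fibres (a i = {j} implies a (τ' i) = {τ j}), is increasing on each such fibre, and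
fixes every i for which a i is not a singleton. Then for every g in H^R(a) the conjugate τ' g τ'⁻¹
lies in H^R(a). (In the source τ ranges over the permutations supported on R that preserve the fibre
cardinalities, which is exactly when such a lift exists, the pairs (τ, τ') form the group Δ^R(a),
and the printed consequences — H^R(a) is normalised by Δ^R(a), so the group they generate is a
semidirect product — follow formally from this conjugation statement.) -/
theorem result
    (n k : ℕ) (a : Fin k → Finset (Fin n)) (R : Set (Fin n))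
    (τ : Equiv.Perm (Fin n)) (hτ : ∀ j : Fin n, τ j ∈ R ↔ j ∈ R)
    (τ' : Equiv.Perm (Fin k))
    (h1 : ∀ (i : Fin k) (j : Fin n), a i = {j} → a (τ' i) = {τ j})
    (h2 : ∀ i : Fin k, (∀ j : Fin n, a i ≠ {j}) → τ' i = i)
    (h3 : ∀ (i i' : Fin k) (j : Fin n), a i = {j} → a i' = {j} → i < i' → τ' i < τ' i')
    (g : Equiv.Perm (Fin k))
    (hg1 : ∀ (i : Fin k) (r : Fin n), r ∈ R → a i = {r} → a (g i) = {r})
    (hg2 : ∀ i : Fin k, (∀ r : Fin n, r ∈ R → a i ≠ {r}) → g i = i) :
    (∀ (i : Fin k) (r : Fin n), r ∈ R → a i = {r} → a ((τ' * g * τ'⁻¹) i) = {r}) ∧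
      (∀ i : Fin k, (∀ r : Fin n, r ∈ R → a i ≠ {r}) → (τ' * g * τ'⁻¹) i = i) := by
  have key : ∀ (i : Fin k) (j : Fin n), a (τ' i) = {j} → ∃ j', a i = {j'} ∧ τ j' = j := by
    intro i j hij
    by_cases hh : ∃ j', a i = {j'}
    · obtain ⟨j', hj'⟩ := hh
      refine ⟨j', hj', ?_⟩
      have := h1 i j' hj'
      rw [hij] at this
      exact (Finset.singleton_injective this).symm
    · push_neg at hh
      have := h2 i hh
      rw [this] at hij
      exact absurd hij (hh j)
  constructor
  · intro i r hr hi
    obtain ⟨i', rfl⟩ := τ'.surjective i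
    obtain ⟨j, hj, rfl⟩ := key i' r hi
    have h5 := hg1 i' j ((hτ j).1 hr) hj
    have h6 := h1 _ _ h5
    simpa using h6
  · intro i hi
    obtain ⟨i', rfl⟩ := τ'.surjective i
    have h5 : g i' = i' := by
      apply hg2
      intro r hr hr'
      exact hi (τ r) ((hτ r).2 hr) (h1 _ _ hr')
    simp [h5]

end Groth.Agent.S19024
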