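import Groth.Statements.S19025
import Mathlib.Tactic
import Mathlib.Algebra.Group.ForwardDiff

set_option autoImplicit false
set_option linter.style.haveILetI false
universe u
open HigherRestr

namespace Groth.Agent.S19025

theorem local_eq {S : Type u} [CommRing S] (n : ℕ) (f g : ℕ → S) (h : ∀ j ≤ n, f j = g j) :
    (fwdDiff (1 : ℕ))^[n] f 0 = (fwdDiff (1 : ℕ))^[n] g 0 := by
  rw [fwdDiff_iter_eq_sum_shift, fwdDiff_iter_eq_sum_shift]
  apply Finset.sum_congr rfl
  intro k hk
  rw [h _ (by have := Finset.mem_range.1 hk; simp; omega)]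

theorem shift_iter {S : Type u} [CommRing S] (n : ℕ) (f : ℕ → S) (j : ℕ) :
    (fwdDiff (1 : ℕ))^[n] (fun i => f (i+1)) j = (fwdDiff (1 : ℕ))^[n] f (j+1) := by
  induction n generalizing f j with
  | zero => rfl
  | succ n ih =>
    rw [Function.iterate_succ_apply, Function.iterate_succ_apply]
    exact ih (fwdDiff 1 f) j

theorem add_iter {S : Type u} [CommRing S] (n : ℕ) (f g : ℕ → S) (j : ℕ) :
    (fwdDiff (1 : ℕ))^[n] (fun i => f i + g i) j = (fwdDiff (1 : ℕ))^[n] f j + (fwdDiff (1 : ℕ))^[n] g j := by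
  induction n generalizing f g j with
  | zero => rfl
  | succ n ih =>
    have h : (fwdDiff 1 fun i => f i + g i) = (fun i => fwdDiff 1 f i + fwdDiff 1 g i) := by
      funext i
      simp only [fwdDiff]
      ring
    rw [Function.iterate_succ_apply, Function.iterate_succ_apply, Function.iterate_succ_apply, h, ih]

theorem smul_iter {S : Type u} [CommRing S] (n : ℕ) (c : S) (f : ℕ → S) (j : ℕ) :
    (fwdDiff (1 : ℕ))^[n] (fun i => c * f i) j = c * (fwdDiff (1 : ℕ))^[n] f j := by
  induction n generalizing f j with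
  | zero => rfl
  | succ n ih =>
    have h : (fwdDiff 1 fun i => c * f i) = (fun i => c * fwdDiff 1 f i) := by
      funext i
      simp only [fwdDiff]
      ring
    rw [Function.iterate_succ_apply, Function.iterate_succ_apply, h, ih]

theorem gen (S : Type u) [CommRing S] (I : Ideal S) (g₀ g₁ : S) (hg : g₁ - g₀ ∈ I)
    (N : ℕ) : ∀ (e : ℕ) (y : ℕ → S)
    (_ : ∀ i : ℕ, 1 ≤ i → i ≤ N → (fwdDiff (1 : ℕ))^[N - i] y i ∈ I ^ (N - i + e)),
    g₀ ^ N * (fwdDiff (1 : ℕ))^[N] y 0 -
        (fwdDiff (1 : ℕ))^[N] (fun j : ℕ => g₀ ^ (N - j) * g₁ ^ j * y j) 0 ∈ I ^ (N + e) := by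
  induction N with
  | zero => intro e y _; simp
  | succ N ih =>
    intro e y hy
    have hD : (fwdDiff (1 : ℕ))^[N+1] (fun j : ℕ => g₀ ^ (N + 1 - j) * g₁ ^ j * y j) 0 =
        g₀ * (fwdDiff (1 : ℕ))^[N] (fun j : ℕ => g₀ ^ (N - j) * g₁ ^ j * (fwdDiff 1 y) j) 0 +
        (g₁ - g₀) * (fwdDiff (1 : ℕ))^[N] (fun j : ℕ => g₀ ^ (N - j) * g₁ ^ j * y (j+1)) 0 := by
      rw [Function.iterate_succ_apply, ← smul_iter, ← smul_iter, ← add_iter]
      apply local_eq
      intro j hj
      simp only [fwdDiff]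
      have h1 : N + 1 - j = (N - j) + 1 := by omega
      have h2 : N + 1 - (j + 1) = N - j := by omega
      rw [h1, h2]
      ring
    have hA := ih (e+1) (fwdDiff 1 y) (by
      intro i hi1 hi2
      rw [← Function.iterate_succ_apply]
      have h1 := hy i hi1 (by omega)
      have h2 : (N - i).succ = N + 1 - i := by omega
      have h3 : N - i + (e + 1) = N + 1 - i + e := by omega
      rw [h2, h3]
      exact h1)
    have hB := ih e (fun i => y (i+1)) (by
      intro i hi1 hi2
      rw [shift_iter]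
      have h1 := hy (i+1) (by omega) (by omega)
      have h2 : N + 1 - (i + 1) = N - i := by omega
      rw [h2] at h1
      exact h1)
    have hB' : (fwdDiff (1 : ℕ))^[N] (fun j : ℕ => g₀ ^ (N - j) * g₁ ^ j * y (j+1)) 0 ∈ I ^ (N + e) := by
      have h1 := hy 1 le_rfl (by omega)
      rw [Nat.add_sub_cancel] at h1
      have h2 : g₀ ^ N * (fwdDiff (1 : ℕ))^[N] (fun i => y (i+1)) 0 ∈ I ^ (N + e) := by
        rw [shift_iter]
        exact Ideal.mul_mem_left _ _ h1
      have h3 := Ideal.sub_mem _ h2 hB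
      rwa [sub_sub_cancel] at h3
    have hC : (g₁ - g₀) * (fwdDiff (1 : ℕ))^[N] (fun j : ℕ => g₀ ^ (N - j) * g₁ ^ j * y (j+1)) 0 ∈ I ^ (N + 1 + e) := by
      have : N + 1 + e = 1 + (N + e) := by omega
      rw [this, pow_add, pow_one]
      exact Ideal.mul_mem_mul hg hB'
    rw [hD]
    have hA' := Ideal.mul_mem_left _ g₀ hA
    have h4 : N + (e + 1) = N + 1 + e := by omega
    rw [h4] at hA'
    have h5 := Ideal.sub_mem _ hA' hC
    convert h5 using 1
    rw [Function.iterate_succ_apply]
    ring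


/-- In abstract form, the estimate its proof establishes. Let S be a commutative ring, I an ideal of S,
g₀ and g₁ elements with g₁ - g₀ ∈ I, N a natural number and y a sequence in S such that, for 1 ≤ i ≤
N, the (N-i)-fold unit-step forward difference of y taken at i lies in I^(N-i). Then g₀^N times the
N-fold forward difference of y at 0, minus the N-fold forward difference at 0 of the twisted
sequence j ↦ g₀^(N-j) g₁^j y_j, lies in I^N. (In the source S is the ring of functions on an affine
chart of X^n, I the ideal of a pairwise diagonal, g₀ and g₁ the two pullbacks of a transition unit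
of L, and y_j the components x_λ along the compositions a₀^(N-j) a₁^j μ; the estimate is what makes
the higher order restrictions D^l_L well defined on ker D^(l-1)_L independently of the
trivialisation.) -/
theorem result
    (S : Type u) [CommRing S] (I : Ideal S) (g₀ g₁ : S) (hg : g₁ - g₀ ∈ I)
    (N : ℕ) (y : ℕ → S)
    (hy : ∀ i : ℕ, 1 ≤ i → i ≤ N → (fwdDiff (1 : ℕ))^[N - i] y i ∈ I ^ (N - i)) :
    g₀ ^ N * (fwdDiff (1 : ℕ))^[N] y 0 -
        (fwdDiff (1 : ℕ))^[N] (fun j : ℕ => g₀ ^ (N - j) * g₁ ^ j * y j) 0 ∈ I ^ N := by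
  exact gen S I g₀ g₁ hg N 0 y hy

end Groth.Agent.S19025
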