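import Groth.Statements.S19092
import Mathlib.Tactic
import Mathlib.RingTheory.RingHom.Finite

set_option autoImplicit false
set_option linter.style.haveILetI false
universe u
open FrobAlg

namespace Groth.Agent.S19092

/-- Let p be a prime and A a commutative ring of characteristic p whose absolute Frobenius a ↦ a^p is a
finite ring homomorphism. Then the same holds for every quotient and every localization of A: for
every ideal I of A such that A ⧸ I has characteristic p (every proper ideal) the absolute Frobenius
of A ⧸ I is finite, and for every submonoid S of A and every localization B of A at S of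
characteristic p (every nonzero localization) the absolute Frobenius of B is finite. -/
theorem result (p : ℕ) [Fact p.Prime]
    (A : Type u) [CommRing A] [CharP A p] (hF : (frobenius A p).Finite) :
    (∀ (I : Ideal A) [CharP (A ⧸ I) p], (frobenius (A ⧸ I) p).Finite) ∧
      ∀ (S : Submonoid A) (B : Type u) [CommRing B] [Algebra A B] [IsLocalization S B] [CharP B p],
        (frobenius B p).Finite := by
  refine ⟨fun I _ => ?_, fun S B _ _ _ _ => ?_⟩
  · have h1 : (frobenius (A ⧸ I) p).comp (Ideal.Quotient.mk I) = (Ideal.Quotient.mk I).comp (frobenius A p) := by
      ext a; simp [frobenius_def]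
    refine RingHom.Finite.of_comp_finite (f := Ideal.Quotient.mk I) ?_
    rw [h1]
    exact (RingHom.Finite.of_surjective _ Ideal.Quotient.mk_surjective).comp hF
  · haveI : IsLocalization (S.map (frobenius A p)) B := by
      rw [IsLocalization.iff_of_le_of_exists_dvd (S.map (frobenius A p)) S]
      · infer_instance
      · rintro _ ⟨s, hs, rfl⟩
        rw [frobenius_def]
        exact S.pow_mem hs p
      · intro s hs
        refine ⟨s ^ p, ⟨s, hs, rfl⟩, dvd_pow_self s (Fact.out : p.Prime).ne_zero⟩
    have h2 := RingHom.finite_localizationPreserves (frobenius A p) S B B hF
    convert h2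
    apply IsLocalization.ringHom_ext S
    ext a
    simp [frobenius_def]

end Groth.Agent.S19092
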