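import Groth.Statements.S19136


set_option autoImplicit false
universe u
open Instab

namespace Groth.Agent.S19136

/-- Let p be a seminorm and ℓ a linear form on a real vector space, let y₀ and y₁ be vectors at which p
is positive and ℓ is non-negative, and let y = t y₀ + (1 - t) y₁ with 0 < t < 1 be a point of the
open segment at which p is positive. Then ℓ(y)/p(y) is at least the smaller of ℓ(y₀)/p(y₀) and
ℓ(y₁)/p(y₁), and if it equals that smaller value then ℓ(y₀)/p(y₀) = ℓ(y₁)/p(y₁). (The published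
lemma concerns the numerical invariant attached to a degree-two cohomology class and a semi-norm on
graded points of a stack; restricted to one rational simplex that invariant is the quotient of a
linear form by a semi-norm on the non-negative orthant of a real coordinate space, and local
quasi-concavity there amounts to this inequality with its equality clause, the set where the linear
form is non-negative being automatically convex; the lemma's further assertion, that the invariant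
is positive at no pair of antipodal points, is not stated here. The vector space is arbitrary here.) -/
theorem result {E : Type u} [AddCommGroup E] [Module ℝ E]
    (p : Seminorm ℝ E) (ℓ : E →ₗ[ℝ] ℝ) (y₀ y₁ : E) (h₀ : 0 < p y₀) (h₁ : 0 < p y₁)
    (hℓ₀ : 0 ≤ ℓ y₀) (hℓ₁ : 0 ≤ ℓ y₁) (t : ℝ) (ht₀ : 0 < t) (ht₁ : t < 1)
    (hy : 0 < p (t • y₀ + (1 - t) • y₁)) :
    min (ℓ y₀ / p y₀) (ℓ y₁ / p y₁) ≤ ℓ (t • y₀ + (1 - t) • y₁) / p (t • y₀ + (1 - t) • y₁) ∧
      (ℓ (t • y₀ + (1 - t) • y₁) / p (t • y₀ + (1 - t) • y₁) = min (ℓ y₀ / p y₀) (ℓ y₁ / p y₁) →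
        ℓ y₀ / p y₀ = ℓ y₁ / p y₁) := by
  set y := t • y₀ + (1 - t) • y₁
  have hly : ℓ y = t * ℓ y₀ + (1 - t) * ℓ y₁ := by simp [y]
  have hpy : p y ≤ t * p y₀ + (1 - t) * p y₁ := by
    refine (map_add_le_add p _ _).trans (le_of_eq ?_)
    rw [map_smul_eq_mul, map_smul_eq_mul, Real.norm_of_nonneg ht₀.le, Real.norm_of_nonneg (by linarith)]
  set m := min (ℓ y₀ / p y₀) (ℓ y₁ / p y₁)
  have hm0 : m * p y₀ ≤ ℓ y₀ := by
    have := min_le_left (ℓ y₀ / p y₀) (ℓ y₁ / p y₁)
    rwa [le_div_iff₀ h₀] at this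
  have hm1 : m * p y₁ ≤ ℓ y₁ := by
    have := min_le_right (ℓ y₀ / p y₀) (ℓ y₁ / p y₁)
    rwa [le_div_iff₀ h₁] at this
  have hm : 0 ≤ m := le_min (div_nonneg hℓ₀ h₀.le) (div_nonneg hℓ₁ h₁.le)
  have h1 : m * p y ≤ m * (t * p y₀ + (1 - t) * p y₁) := mul_le_mul_of_nonneg_left hpy hm
  have a0 : t * (m * p y₀) ≤ t * ℓ y₀ := mul_le_mul_of_nonneg_left hm0 ht₀.le
  have a1 : (1 - t) * (m * p y₁) ≤ (1 - t) * ℓ y₁ := mul_le_mul_of_nonneg_left hm1 (by linarith)
  refine ⟨?_, ?_⟩
  · rw [le_div_iff₀ hy]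
    nlinarith
  · intro he
    rw [div_eq_iff hy.ne'] at he
    have b0 : t * (m * p y₀) = t * ℓ y₀ := by nlinarith
    have b1 : (1 - t) * (m * p y₁) = (1 - t) * ℓ y₁ := by nlinarith
    have c0 : m * p y₀ = ℓ y₀ := mul_left_cancel₀ ht₀.ne' b0
    have c1 : m * p y₁ = ℓ y₁ := mul_left_cancel₀ (by linarith : (1 - t) ≠ 0) b1
    rw [← c0, ← c1, mul_div_assoc, mul_div_assoc, div_self h₀.ne', div_self h₁.ne']

end Groth.Agent.S19136
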