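import Groth.Statements.S19137
import Mathlib.Tactic

set_option autoImplicit false
set_option linter.style.haveILetI false
universe u
open Instab

namespace Groth.Agent.S19137

/-- Let p be a seminorm on a real vector space whose unit ball is strictly convex in the sense that p(a
+ b) < p(a) + p(b) whenever p(a) and p(b) are non-zero and b is not a positive multiple of a; let ℓ
be a linear form, y₀ and y₁ vectors with p and ℓ positive at both and y₁ not a positive multiple of
y₀, and y = t y₀ + (1 - t) y₁ with 0 < t < 1 a point at which p is positive. Then ℓ(y)/p(y) is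
strictly greater than the smaller of ℓ(y₀)/p(y₀) and ℓ(y₁)/p(y₁). (The published lemma says that
when the norm on graded points is locally a norm with strictly convex unit balls, the numerical
invariant attached to a degree-two class and that norm is strictly quasi-concave on each cone and is
positive at no pair of antipodal points; on one rational simplex the first property is this strict
form of the quasi-concavity inequality for the quotient of a linear form by the norm, at points
where the linear form is positive, and the second property is not stated here. The vector space is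
arbitrary here.) -/
theorem result {E : Type u} [AddCommGroup E] [Module ℝ E]
    (p : Seminorm ℝ E)
    (hp : ∀ a b : E, p a ≠ 0 → p b ≠ 0 → (¬ ∃ c : ℝ, 0 < c ∧ b = c • a) → p (a + b) < p a + p b)
    (ℓ : E →ₗ[ℝ] ℝ) (y₀ y₁ : E) (h₀ : 0 < p y₀) (h₁ : 0 < p y₁)
    (hℓ₀ : 0 < ℓ y₀) (hℓ₁ : 0 < ℓ y₁) (hne : ¬ ∃ c : ℝ, 0 < c ∧ y₁ = c • y₀)
    (t : ℝ) (ht₀ : 0 < t) (ht₁ : t < 1) (hy : 0 < p (t • y₀ + (1 - t) • y₁)) :
    min (ℓ y₀ / p y₀) (ℓ y₁ / p y₁) < ℓ (t • y₀ + (1 - t) • y₁) / p (t • y₀ + (1 - t) • y₁) := by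
  have hab : ¬ ∃ c : ℝ, 0 < c ∧ (1 - t) • y₁ = c • (t • y₀) := by
    rintro ⟨c, hc, h⟩
    apply hne
    refine ⟨(1 - t)⁻¹ * (c * t), by have : 0 < 1 - t := by linarith
                                    positivity, ?_⟩
    rw [mul_smul, mul_smul, ← h, smul_smul, inv_mul_cancel₀ (by linarith), one_smul]
  have p0 : p (t • y₀) = t * p y₀ := by rw [map_smul_eq_mul, Real.norm_of_nonneg ht₀.le]
  have p1 : p ((1 - t) • y₁) = (1 - t) * p y₁ := by rw [map_smul_eq_mul, Real.norm_of_nonneg (by linarith)]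
  have h1t : 0 < 1 - t := by linarith
  have hlt := hp (t • y₀) ((1 - t) • y₁) (by rw [p0]; positivity) (by rw [p1]; positivity) hab
  rw [p0, p1] at hlt
  set y := t • y₀ + (1 - t) • y₁
  have hly : ℓ y = t * ℓ y₀ + (1 - t) * ℓ y₁ := by simp [y]
  set m := min (ℓ y₀ / p y₀) (ℓ y₁ / p y₁)
  have hm0 : m * p y₀ ≤ ℓ y₀ := by
    have := min_le_left (ℓ y₀ / p y₀) (ℓ y₁ / p y₁)
    rwa [le_div_iff₀ h₀] at this
  have hm1 : m * p y₁ ≤ ℓ y₁ := by
    have := min_le_right (ℓ y₀ / p y₀) (ℓ y₁ / p y₁)
    rwa [le_div_iff₀ h₁] at this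
  have hm : 0 < m := lt_min (div_pos hℓ₀ h₀) (div_pos hℓ₁ h₁)
  have h1 : m * p y < m * (t * p y₀ + (1 - t) * p y₁) := mul_lt_mul_of_pos_left hlt hm
  have a0 : t * (m * p y₀) ≤ t * ℓ y₀ := mul_le_mul_of_nonneg_left hm0 ht₀.le
  have a1 : (1 - t) * (m * p y₁) ≤ (1 - t) * ℓ y₁ := mul_le_mul_of_nonneg_left hm1 (by linarith)
  rw [lt_div_iff₀ hy]
  nlinarith

end Groth.Agent.S19137
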