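import Groth.Statements.S19167
import Mathlib.Tactic
import Groth.Agent.Lib.Helper28_ProC

set_option autoImplicit false
set_option linter.style.haveILetI false
universe u v
open ProCompl

namespace Groth.Agent.S19167

open Topology in
/-- Let i : A → B be an injective continuous homomorphism of topological abelian groups inducing the
topology of A from that of B (a strict injection), with open image. Then every character χ : A → ℚ/ℤ
with open kernel extends along i to a character ψ : B → ℚ/ℤ with open kernel. Here ℚ/ℤ is regarded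
as a discrete group, so that continuity of a character means that its kernel is open. -/
theorem result
    {A : Type u} {B : Type v} [AddCommGroup A] [TopologicalSpace A] [IsTopologicalAddGroup A]
    [AddCommGroup B] [TopologicalSpace B] [IsTopologicalAddGroup B]
    (i : A →+ B) (hi : Continuous i) (hinj : Function.Injective i) (hind : IsInducing i)
    (hopen : IsOpen (Set.range i))
    (χ : A →+ ℚ ⧸ AddSubgroup.zmultiples (1 : ℚ)) (hχ : IsOpen (χ.ker : Set A)) :
    ∃ ψ : B →+ ℚ ⧸ AddSubgroup.zmultiples (1 : ℚ), IsOpen (ψ.ker : Set B) ∧ ψ.comp i = χ := by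
  obtain ⟨ψ, hψ⟩ := Groth.Agent.H28ProC.ext_char i hinj χ
  refine ⟨ψ, ?_, hψ⟩
  obtain ⟨U, hU, hUχ⟩ := hind.isOpen_iff.1 hχ
  have h0 : (0 : B) ∈ U ∩ Set.range i := by
    refine ⟨?_, ⟨0, map_zero i⟩⟩
    have : (0 : A) ∈ i ⁻¹' U := by rw [hUχ]; exact χ.ker.zero_mem
    simpa using this
  refine AddSubgroup.isOpen_of_mem_nhds ψ.ker (g := 0) (Filter.mem_of_superset ((hU.inter hopen).mem_nhds h0) ?_)
  rintro _ ⟨hb, a, rfl⟩
  have : a ∈ i ⁻¹' U := hb
  rw [hUχ] at this
  have h2 : ψ (i a) = χ a := DFunLike.congr_fun hψ a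
  have h3 : χ a = 0 := this
  exact h2.trans h3

end Groth.Agent.S19167
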