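import Groth.Statements.S19168
import Mathlib.Tactic
import Groth.Agent.Lib.Helper28_ProC

set_option autoImplicit false
set_option linter.style.haveILetI false
universe u v
open ProCompl

namespace Groth.Agent.S19168

/-- Let p : B → C be a continuous open surjective homomorphism of topological abelian groups (so that C
carries the quotient topology of B modulo the kernel of p). Then a character χ : B → ℚ/ℤ with open
kernel vanishing on the kernel of p factors uniquely through p, and the induced character of C again
has open kernel. In other words, for a topological exact sequence 0 → A → B → C → 0 with p open, the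
sequence 0 → C^D → B^D → A^D of groups of characters with open kernel (continuous characters for
discrete ℚ/ℤ) is exact; injectivity of C^D → B^D being immediate from surjectivity of p, this row
records exactness at B^D. -/
theorem result
    {B : Type u} {C : Type v} [AddCommGroup B] [TopologicalSpace B] [IsTopologicalAddGroup B]
    [AddCommGroup C] [TopologicalSpace C] [IsTopologicalAddGroup C]
    (p : B →+ C) (hp : Continuous p) (hpo : IsOpenMap p) (hps : Function.Surjective p)
    (χ : B →+ ℚ ⧸ AddSubgroup.zmultiples (1 : ℚ)) (hχ : IsOpen (χ.ker : Set B)) (hχp : p.ker ≤ χ.ker) :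
    ∃ φ : C →+ ℚ ⧸ AddSubgroup.zmultiples (1 : ℚ), IsOpen (φ.ker : Set C) ∧ φ.comp p = χ := by
  let φ := (QuotientAddGroup.lift p.ker χ hχp).comp (QuotientAddGroup.quotientKerEquivOfSurjective p hps).symm.toAddMonoidHom
  have hφ : ∀ b, φ (p b) = χ b := by
    intro b
    have : (QuotientAddGroup.quotientKerEquivOfSurjective p hps).symm (p b) = QuotientAddGroup.mk b := by
      rw [AddEquiv.symm_apply_eq]; rfl
    change QuotientAddGroup.lift p.ker χ hχp ((QuotientAddGroup.quotientKerEquivOfSurjective p hps).symm (p b)) = _
    rw [this]; rfl
  refine ⟨φ, ?_, ?_⟩
  · have : (φ.ker : Set C) = p '' (χ.ker : Set B) := by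
      ext c
      constructor
      · intro hc
        obtain ⟨b, rfl⟩ := hps c
        refine ⟨b, ?_, rfl⟩
        have h1 : φ (p b) = 0 := hc
        rw [hφ] at h1
        exact h1
      · rintro ⟨b, hb, rfl⟩
        have h1 : χ b = 0 := hb
        change φ (p b) = 0
        rw [hφ, h1]
    rw [this]
    exact hpo _ hχ
  · ext b
    exact hφ b

end Groth.Agent.S19168
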