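import Groth.Statements.S19169
import Mathlib.Tactic
import Groth.Agent.Lib.Helper28_ProC

set_option autoImplicit false
set_option linter.style.haveILetI false
universe u
open ProCompl

namespace Groth.Agent.S19169

/-- Let B be a Hausdorff, locally compact, totally disconnected topological abelian group which is
compactly generated, i.e. generated as a group by a compact subset. Then the open subgroups of
finite index of B have trivial intersection: every nonzero b lies outside some open subgroup of
finite index. Equivalently, the natural map from B to its completion with respect to open subgroups
of finite index is injective. -/
theorem result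
    {B : Type u} [AddCommGroup B] [TopologicalSpace B] [IsTopologicalAddGroup B]
    [T2Space B] [LocallyCompactSpace B] [TotallyDisconnectedSpace B]
    (hcg : ∃ K : Set B, IsCompact K ∧ AddSubgroup.closure K = ⊤) (b : B) (hb : b ≠ 0) :
    ∃ B' : AddSubgroup B, IsOpen (B' : Set B) ∧ B'.FiniteIndex ∧ b ∉ B' := by
  exact Groth.Agent.H28ProC.exists_fin hcg b hb

end Groth.Agent.S19169
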