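import Groth.Statements.S19170
import Mathlib.Tactic
import Groth.Agent.Lib.Helper28_ProC

set_option autoImplicit false
set_option linter.style.haveILetI false
universe u
open ProCompl

namespace Groth.Agent.S19170

/-- Let B be a topological abelian group generated as a group by a compact subset. Then every character
χ : B → ℚ/ℤ with open kernel (a continuous character for discrete ℚ/ℤ) has kernel of finite index;
consequently each such character factors through B^∧, the completion of B taken along its
finite-index open subgroups, i.e. (B^∧)^D = B^D. (The published statement assumes moreover that B is
Hausdorff, locally compact and totally disconnected; only compact generation is needed for this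
assertion, so those assumptions are dropped here.) -/
theorem result
    {B : Type u} [AddCommGroup B] [TopologicalSpace B] [IsTopologicalAddGroup B]
    (hcg : ∃ K : Set B, IsCompact K ∧ AddSubgroup.closure K = ⊤)
    (χ : B →+ ℚ ⧸ AddSubgroup.zmultiples (1 : ℚ)) (hχ : IsOpen (χ.ker : Set B)) : χ.ker.FiniteIndex := by
  exact Groth.Agent.H28ProC.finIdx hcg χ hχ

end Groth.Agent.S19170
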