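import Groth.Statements.S19171
import Mathlib.Tactic
import Groth.Agent.Lib.Helper28_ProC

set_option autoImplicit false
set_option linter.style.haveILetI false
universe u v
open ProCompl

namespace Groth.Agent.S19171

open Topology in
/-- Let B be a Hausdorff, locally compact, totally disconnected topological abelian group generated as a
group by a compact subset, and let i : A → B be an injective continuous homomorphism inducing the
topology of A from that of B (a strict injection) whose image is closed. Then every character χ : A
→ ℚ/ℤ with open kernel extends along i to a character ψ : B → ℚ/ℤ with open kernel; with ℚ/ℤ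
discrete this says that restriction B^D → A^D of continuous characters is surjective (the right end
of the short exact sequence 0 → C^D → B^D → A^D → 0 dual to a topological exact sequence 0 → A → B →
C → 0 with such B, strict closed i and open p; exactness at B^D is a separate row). -/
theorem result
    {A : Type u} {B : Type v} [AddCommGroup A] [TopologicalSpace A] [IsTopologicalAddGroup A]
    [AddCommGroup B] [TopologicalSpace B] [IsTopologicalAddGroup B]
    [T2Space B] [LocallyCompactSpace B] [TotallyDisconnectedSpace B]
    (hcg : ∃ K : Set B, IsCompact K ∧ AddSubgroup.closure K = ⊤)
    (i : A →+ B) (hi : Continuous i) (hinj : Function.Injective i) (hind : IsInducing i)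
    (hcl : IsClosed (Set.range i))
    (χ : A →+ ℚ ⧸ AddSubgroup.zmultiples (1 : ℚ)) (hχ : IsOpen (χ.ker : Set A)) :
    ∃ ψ : B →+ ℚ ⧸ AddSubgroup.zmultiples (1 : ℚ), IsOpen (ψ.ker : Set B) ∧ ψ.comp i = χ := by
  exact Groth.Agent.H28ProC.ext_closed i hind χ hχ

end Groth.Agent.S19171
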