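import Groth.Statements.S19172
import Mathlib.Tactic
import Groth.Agent.Lib.Helper28_ProC

set_option autoImplicit false
set_option linter.style.haveILetI false
universe u v w
open ProCompl

namespace Groth.Agent.S19172

open W4c61motalbduality in
/-- Let i : A → B and p : B → C be continuous homomorphisms of topological abelian groups with p
surjective and open and with the kernel of p equal to the image of i. Then the induced sequence of
completions with respect to open subgroups of finite index, A^∧ → B^∧ → C^∧ → 0, is exact: the map
B^∧ → C^∧ is surjective and its kernel is the image of A^∧. The completion is the group of
compatible families of residues modulo all open subgroups of finite index. (The published statement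
takes i injective, as the first map of an exact sequence 0 → A → B → C → 0 of topological abelian
groups; here it is only assumed that the image of i is the kernel of p, which is all the proof
uses.) -/
theorem result
    {A : Type u} {B : Type v} {C : Type w}
    [AddCommGroup A] [TopologicalSpace A] [IsTopologicalAddGroup A]
    [AddCommGroup B] [TopologicalSpace B] [IsTopologicalAddGroup B]
    [AddCommGroup C] [TopologicalSpace C] [IsTopologicalAddGroup C]
    (i : A →+ B) (hi : Continuous i) (p : B →+ C) (hp : Continuous p)
    (hpo : IsOpenMap p) (hps : Function.Surjective p) (hex : p.ker = i.range) :
    Function.Surjective (FICompl.map p hp) ∧ (FICompl.map p hp).ker = (FICompl.map i hi).range := by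
  exact Groth.Agent.H28ProC.right_exact i hi p hp hpo hps hex

end Groth.Agent.S19172
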