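import Groth.Statements.S19173
import Mathlib.Tactic
import Groth.Agent.Lib.Helper28_ProC

set_option autoImplicit false
set_option linter.style.haveILetI false
universe u v
open ProCompl

namespace Groth.Agent.S19173

open W4c61motalbduality Topology in
/-- Let B be a Hausdorff, locally compact, totally disconnected topological abelian group generated as a
group by a compact subset, and let i : A → B be an injective continuous homomorphism inducing the
topology of A from that of B (a strict injection) with closed image. Then the map induced by i on
completions with respect to open subgroups of finite index is injective (which, with right exactness
for open surjections, makes 0 → A^∧ → B^∧ → C^∧ → 0 exact for a topological exact sequence with such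
B, strict closed i and open p; that sequence is not part of this row). -/
theorem result
    {A : Type u} {B : Type v} [AddCommGroup A] [TopologicalSpace A] [IsTopologicalAddGroup A]
    [AddCommGroup B] [TopologicalSpace B] [IsTopologicalAddGroup B]
    [T2Space B] [LocallyCompactSpace B] [TotallyDisconnectedSpace B]
    (hcg : ∃ K : Set B, IsCompact K ∧ AddSubgroup.closure K = ⊤)
    (i : A →+ B) (hi : Continuous i) (hinj : Function.Injective i) (hind : IsInducing i)
    (hcl : IsClosed (Set.range i)) :
    Function.Injective (FICompl.map i hi) := by
  exact Groth.Agent.H28ProC.compl_inj hcg i hi hind

end Groth.Agent.S19173
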