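import Groth.Statements.S19183
import Mathlib.Tactic

set_option autoImplicit false
set_option linter.style.haveILetI false
universe u
open CAlg

namespace Groth.Agent.S19183

/-- Let A be a non-zero commutative ring and f ∈ A a non-zero-divisor. The fibre product A ×_{A/(f)} A
of two copies of A over A/(f) — the A-submodule of A × A of pairs (x, y) with x − y ∈ (f), which is
the coordinate ring of two copies of Spec A glued along the Cartier divisor f = 0 — is a free
A-module of rank 2. (This is what makes the gluing of two copies of a curve along an effective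
Cartier divisor finite locally free of degree 2 over the curve.) -/
theorem result (A : Type u) [CommRing A] [Nontrivial A]
    (f : A) (hf : f ∈ nonZeroDivisors A) :
    Module.Free A (Submodule.comap (LinearMap.fst A A A - LinearMap.snd A A A) (Ideal.span ({f} : Set A))) ∧
      Module.finrank A (Submodule.comap (LinearMap.fst A A A - LinearMap.snd A A A) (Ideal.span ({f} : Set A))) = 2 := by
  let P := Submodule.comap (LinearMap.fst A A A - LinearMap.snd A A A) (Ideal.span ({f} : Set A))
  let E : (A × A) →ₗ[A] P := LinearMap.codRestrict P
    (LinearMap.prod (LinearMap.fst A A A + f • LinearMap.snd A A A) (LinearMap.fst A A A)) (by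
      rintro ⟨a, b⟩
      change (a + f • b) - a ∈ Ideal.span {f}
      rw [add_sub_cancel_left, smul_eq_mul]
      exact Ideal.mem_span_singleton.2 ⟨b, rfl⟩)
  have hE : Function.Bijective E := by
    constructor
    · rw [injective_iff_map_eq_zero]
      rintro ⟨a, b⟩ hab
      have h1 : ((a + f • b, a) : A × A) = (0, 0) := congrArg Subtype.val hab
      simp only [Prod.mk.injEq, smul_eq_mul] at h1
      obtain ⟨h2, h3⟩ := h1
      rw [h3, zero_add, mul_comm] at h2
      have := (mem_nonZeroDivisors_iff_right.1 hf) b h2
      rw [h3, this]; rfl
    · rintro ⟨⟨x, y⟩, hxy⟩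
      obtain ⟨b, hb⟩ := Ideal.mem_span_singleton.1 (show x - y ∈ Ideal.span {f} from hxy)
      refine ⟨(y, b), ?_⟩
      apply Subtype.ext
      change ((y + f • b, y) : A × A) = (x, y)
      rw [smul_eq_mul, ← hb]; simp
  let e := LinearEquiv.ofBijective E hE
  refine ⟨Module.Free.of_equiv e, ?_⟩
  rw [← e.finrank_eq]
  simp

end Groth.Agent.S19183
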