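import Groth.Statements.S19186
import Mathlib.Tactic

set_option autoImplicit false
set_option linter.style.haveILetI false
universe u
open OneMot

namespace Groth.Agent.S19186

/-- Let p and ℓ be distinct prime numbers, r and n natural numbers, and f : A → B a homomorphism of
abelian groups whose kernel and cokernel are annihilated by p^r (f a = 0 implies p^r • a = 0, and
every p^r • b lies in the image of f). Then f induces a bijection between the ℓ^n-torsion subgroups
of A and B and a bijection A/ℓ^n A → B/ℓ^n B. Spelled out without quotients: every ℓ^n-torsion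
element of B has exactly one ℓ^n-torsion preimage; an element of A whose image is an ℓ^n-multiple is
itself an ℓ^n-multiple; and every element of B is the sum of an image and an ℓ^n-multiple. -/
theorem result {A B : Type u} [AddCommGroup A] [AddCommGroup B] (f : A →+ B) (p ℓ r n : ℕ) (hp : p.Prime) (hl : ℓ.Prime) (hne : ℓ ≠ p) (hker : ∀ a : A, f a = 0 → p ^ r • a = 0) (hcoker : ∀ b : B, ∃ a : A, f a = p ^ r • b) : (∀ b : B, ℓ ^ n • b = 0 → ∃! a : A, ℓ ^ n • a = 0 ∧ f a = b) ∧ (∀ a : A, (∃ b' : B, f a = ℓ ^ n • b') → ∃ a' : A, a = ℓ ^ n • a') ∧ (∀ b : B, ∃ (a : A) (b' : B), b = f a + ℓ ^ n • b') := by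
  have hcop : IsCoprime ((p:ℤ) ^ r) ((ℓ:ℤ) ^ n) := by
    apply IsCoprime.pow
    rw [Nat.isCoprime_iff_coprime]
    exact (Nat.coprime_primes hp hl).2 hne.symm
  obtain ⟨u, v, huv⟩ := hcop
  have hdA : ∀ a : A, u • ((p ^ r) • a) + v • ((ℓ ^ n) • a) = a := by
    intro a
    have : (u * (p:ℤ)^r + v * (ℓ:ℤ)^n) • a = a := by rw [huv, one_smul]
    rw [add_smul, mul_smul, mul_smul] at this
    convert this using 3
    · rw [← natCast_zsmul]; push_cast; rfl
    · rw [← natCast_zsmul]; push_cast; rfl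
  have hdB : ∀ a : B, u • ((p ^ r) • a) + v • ((ℓ ^ n) • a) = a := by
    intro a
    have : (u * (p:ℤ)^r + v * (ℓ:ℤ)^n) • a = a := by rw [huv, one_smul]
    rw [add_smul, mul_smul, mul_smul] at this
    convert this using 3
    · rw [← natCast_zsmul]; push_cast; rfl
    · rw [← natCast_zsmul]; push_cast; rfl
  -- N := u p^r kills
  refine ⟨?_, ?_, ?_⟩
  · intro b hb
    obtain ⟨a, ha⟩ := hcoker b
    -- f (u • a) = u p^r b = b
    have hfua : f (u • a) = b := by
      have := hdB b
      rw [hb, smul_zero, add_zero] at this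
      rw [map_zsmul, ha, this]
    -- ℓ^n • (u•a) in ker f, so killed by p^r
    set c := u • a
    have h1 : f ((ℓ^n) • c) = 0 := by rw [map_nsmul, hfua, hb]
    have h2 := hker _ h1
    -- take a' = u p^r c
    refine ⟨u • ((p^r) • c), ⟨?_, ?_⟩, ?_⟩
    · rw [smul_comm (ℓ^n) u, smul_comm (ℓ^n) (p^r), h2, smul_zero]
    · rw [map_zsmul, map_nsmul, hfua]
      have := hdB b
      rwa [hb, smul_zero, add_zero] at this
    · rintro y ⟨hy1, hy2⟩
      have h3 : f (y - c) = 0 := by rw [map_sub, hy2, hfua, sub_self]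
      have h4 := hker _ h3
      rw [smul_sub, sub_eq_zero] at h4
      have h5 := hdA y
      rw [hy1, smul_zero, add_zero, h4] at h5
      exact h5.symm
  · rintro a ⟨b', hb'⟩
    obtain ⟨c, hc⟩ := hcoker b'
    -- f (p^r a - ℓ^n c) = 0
    have h1 : f ((p^r) • a - (ℓ^n) • c) = 0 := by
      rw [map_sub, map_nsmul, map_nsmul, hb', hc, smul_comm, sub_self]
    have h2 := hker _ h1
    have h3 : (p^r) • ((p^r) • a) = (ℓ^n) • ((p^r) • c) := by
      rw [smul_sub, sub_eq_zero] at h2
      rw [h2, smul_comm]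
    have h4 := hdA a
    have h5 := hdA ((p^r) • a)
    rw [h3] at h5
    refine ⟨u • (u • ((p^r) • c) + v • ((p^r) • a)) + v • a, ?_⟩
    rw [smul_add, smul_comm (ℓ^n) u, smul_add, smul_comm (ℓ^n) u, smul_comm (ℓ^n) v, smul_comm (ℓ^n) v, h5]
    exact h4.symm
  · intro b
    obtain ⟨a, ha⟩ := hcoker b
    refine ⟨u • a, v • b, ?_⟩
    rw [map_zsmul, ha, smul_comm (ℓ^n) v]
    exact (hdB b).symm

end Groth.Agent.S19186
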