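import Groth.Statements.S19380
import Mathlib

set_option autoImplicit false
universe u
open CAlg

namespace Groth.Agent.S19380

/-- Let L be a commutative ring, σ a ring automorphism of L of finite order dividing d (σ^d = 1), and C
an r × r matrix over L. The reverse characteristic polynomial det(1 − T·N) of the twisted product N
= C·σ(C)·σ²(C)⋯σ^(d−1)(C), with σ applied to the entries, is fixed by σ acting on coefficients. (In
the source this is phrased for the fibre at a closed point x of degree d of a convergent F-module
with Frobenius matrix C: the d-th iterate of the semilinear Frobenius of the fibre is the linear map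
with matrix N, so its characteristic polynomial has coefficients in the subfield fixed by the
Frobenius of K(x), namely K, and likewise with the valuation ring in place of K for an integral
F-module; only this linear-algebra statement, over any commutative ring, is given here.) -/
theorem result
    (L : Type u) [CommRing L] (σ : L ≃+* L) (d : ℕ) (hσ : σ ^ d = 1)
    (r : ℕ) (C : Matrix (Fin r) (Fin r) L) :
    (Matrix.charpolyRev (((List.range d).map fun i => C.map ⇑(σ ^ i)).prod)).map (σ : L →+* L) =
      Matrix.charpolyRev (((List.range d).map fun i => C.map ⇑(σ ^ i)).prod) := by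
  have hmap : ∀ M : Matrix (Fin r) (Fin r) L, (Matrix.charpolyRev M).map (σ : L →+* L) = Matrix.charpolyRev (M.map σ) := by
    intro M
    simp only [Matrix.charpolyRev]
    rw [← Polynomial.coe_mapRingHom, RingHom.map_det]
    congr 1
    ext i j
    simp [Matrix.one_apply, apply_ite]
  have hcomm : ∀ A B : Matrix (Fin r) (Fin r) L, Matrix.charpolyRev (A * B) = Matrix.charpolyRev (B * A) := by
    intro A B
    simp only [Matrix.charpolyRev]
    have e1 : ∀ A B : Matrix (Fin r) (Fin r) L, (Polynomial.X : Polynomial L) • (A * B).map Polynomial.C = ((Polynomial.X : Polynomial L) • A.map Polynomial.C) * B.map Polynomial.C := by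
      intro A B
      rw [Matrix.map_mul, Matrix.smul_mul]
    have e2 : ∀ A B : Matrix (Fin r) (Fin r) L, (Polynomial.X : Polynomial L) • (A * B).map Polynomial.C = (A.map Polynomial.C) * ((Polynomial.X : Polynomial L) • B.map Polynomial.C) := by
      intro A B
      rw [Matrix.map_mul, Matrix.mul_smul]
    rw [e1, e2, Matrix.det_one_sub_mul_comm]
  rw [hmap]
  rcases Nat.eq_zero_or_pos d with rfl | hd
  · simp
  obtain ⟨e, rfl⟩ : ∃ e, d = e + 1 := ⟨d - 1, by omega⟩
  have hl : ((List.range (e+1)).map fun i => C.map ⇑(σ ^ i)).prod = C * ((List.range e).map fun i => C.map ⇑(σ ^ (i+1))).prod := by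
    rw [List.range_succ_eq_map, List.map_cons, List.prod_cons, List.map_map]
    congr 1
  have hr : (((List.range (e+1)).map fun i => C.map ⇑(σ ^ i)).prod).map σ = ((List.range e).map fun i => C.map ⇑(σ ^ (i+1))).prod * C := by
    have h1 : (((List.range (e+1)).map fun i => C.map ⇑(σ ^ i)).prod).map σ = (σ : L →+* L).mapMatrix (((List.range (e+1)).map fun i => C.map ⇑(σ ^ i)).prod) := rfl
    rw [h1, map_list_prod, List.map_map, List.range_succ, List.map_append, List.prod_append]
    congr 1
    · congr 1
      apply List.map_congr_left
      intro i _
      ext a b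
      simp [pow_succ', RingAut.mul_apply]
    · simp only [List.map_cons, List.map_nil, List.prod_cons, List.prod_nil, mul_one]
      ext a b
      have : σ ((σ ^ e) (C a b)) = (σ ^ (e+1)) (C a b) := by rw [pow_succ']; rfl
      change σ ((σ ^ e) (C a b)) = C a b
      rw [this, hσ]; rfl
  rw [hr, hl, hcomm]

end Groth.Agent.S19380
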