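import Groth.Statements.S19383
import Mathlib

set_option autoImplicit false
universe u
open CAlg

namespace Groth.Agent.S19383

/-- Over a discrete valuation ring, let V be a henselian discrete valuation ring with maximal ideal 𝔪
and B a Noetherian V-algebra, B̂ its 𝔪B-adic completion. Then B is flat over V if and only if B̂ is
flat over V. (The published lemma takes V an excellent normal ring with an ideal I such that (V,
V/I) is a henselian pair and B of finite type; in that generality it fails: for V = ℤ_p[[x]], I =
(p) and B = V[y]/(x, py − 1) ≅ ℚ_p one has IB = B, so B̂ = 0 is flat while B is not flat over V.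
Over a discrete valuation ring flatness is torsion-freeness and the statement holds for every
Noetherian B.) -/
theorem result
    (V : Type u) [CommRing V] [IsDomain V] [IsDiscreteValuationRing V] [HenselianLocalRing V]
    (B : Type u) [CommRing B] [Algebra V B] [IsNoetherianRing B] :
    Module.Flat V B ↔
      Module.Flat V (AdicCompletion ((IsLocalRing.maximalIdeal V).map (algebraMap V B)) B) := by
  set I := (IsLocalRing.maximalIdeal V).map (algebraMap V B) with hI
  constructor
  · intro h
    haveI : Module.Flat B (AdicCompletion I B) := AdicCompletion.flat_of_isNoetherian I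
    exact Module.Flat.trans V B (AdicCompletion I B)
  · intro h
    rw [Module.Flat.flat_iff_torsion_eq_bot_of_isBezout]
    rw [eq_bot_iff]
    intro x hx
    rw [Submodule.mem_torsion_iff] at hx
    obtain ⟨⟨a, ha⟩, hax⟩ := hx
    have ha0 : a ≠ 0 := nonZeroDivisors.ne_zero ha
    have hax' : a • x = 0 := hax
    obtain ⟨ϖ, hϖ⟩ := IsDiscreteValuationRing.exists_irreducible V
    -- suffices: ϖ • y = 0 → y = 0
    have key : ∀ y : B, ϖ • y = 0 → y = 0 := by
      intro y hy
      have h1 : (AdicCompletion.of I B y) = 0 := by
        have h2 := Module.Flat.torsion_eq_bot (R := V) (M := AdicCompletion I B)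
        have h3 : AdicCompletion.of I B y ∈ Submodule.torsion V (AdicCompletion I B) := by
          rw [Submodule.mem_torsion_iff]
          refine ⟨⟨ϖ, mem_nonZeroDivisors_of_ne_zero hϖ.ne_zero⟩, ?_⟩
          change ϖ • AdicCompletion.of I B y = 0
          rw [← algebraMap_smul B ϖ (AdicCompletion.of I B y), ← map_smul, algebraMap_smul, hy, map_zero]
        rw [h2] at h3
        exact (Submodule.mem_bot V).mp h3
      have h4 : y ∈ (⨅ i : ℕ, I ^ i • ⊤ : Submodule B B) := by
        rw [Submodule.mem_iInf]
        intro i
        have := congrArg (fun z => AdicCompletion.eval I B i z) h1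
        simp only [AdicCompletion.eval_of, map_zero] at this
        exact (Submodule.Quotient.mk_eq_zero _).mp this
      rw [Ideal.mem_iInf_smul_pow_eq_bot_iff] at h4
      obtain ⟨⟨r, hr⟩, hry⟩ := h4
      have hI2 : I = Ideal.span {algebraMap V B ϖ} := by
        rw [hI, hϖ.maximalIdeal_eq, Ideal.map_span, Set.image_singleton]
      rw [hI2, Ideal.mem_span_singleton] at hr
      obtain ⟨c, hc⟩ := hr
      have hry' : r * y = y := hry
      rw [← hry', hc, mul_comm (algebraMap V B ϖ) c, mul_assoc, ← Algebra.smul_def, hy, mul_zero]
    obtain ⟨n, v, hv⟩ := IsDiscreteValuationRing.eq_unit_mul_pow_irreducible ha0 hϖ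
    rw [hv, mul_smul] at hax'
    have h5 : ϖ ^ n • x = 0 := by
      have := congrArg (fun z => (↑v⁻¹ : V) • z) hax'
      simpa [← mul_smul] using this
    have h6 : ∀ n : ℕ, ∀ x : B, ϖ ^ n • x = 0 → x = 0 := by
      intro n
      induction n with
      | zero => intro x hx; simpa using hx
      | succ n ih =>
        intro x hx
        rw [pow_succ, mul_smul] at hx
        exact key x (ih _ hx)
    exact (Submodule.mem_bot V).mpr (h6 n x h5)

end Groth.Agent.S19383
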