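import Groth.Statements.S19391
import Mathlib
import Groth.Agent.Lib.H29_Quartic

set_option autoImplicit false
universe u
open InvQ

namespace Groth.Agent.S19391

open Groth.Agent.H29Quartic

/-- For a binary quartic written as a product of four linear forms μ_i X₀ − λ_i X₁, with coefficients
a_0, …, a_4, the discriminant D = ∏_{i<j} (λ_j μ_i − λ_i μ_j)² is a constant multiple of P³ − 6Q²
for the two basic invariants P, Q. With the integral normalisation I = 6P = 12a₀a₄ − 3a₁a₃ + a₂², J
= 72Q = 72a₀a₂a₄ + 9a₁a₂a₃ − 27a₀a₃² − 27a₁²a₄ − 2a₂³ used here, the identity reads 27 D = 4 I³ − J²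
(so the constant is 32: D = 32 (P³ − 6Q²)); it is stated over an arbitrary commutative ring. -/
theorem result (R : Type u) [CommRing R] (la mu : Fin 4 → R) :
    27 * W4c6intromoduli.disc la mu =
      4 * W4c6intromoduli.invI (W4c6intromoduli.coef la mu) ^ 3
        - W4c6intromoduli.invJ (W4c6intromoduli.coef la mu) ^ 2 := by
  rw [disc_eq, invI_eq, invJ_eq, ABC]
  ring

end Groth.Agent.S19391
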