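import Groth.Statements.S19392
import Mathlib
import Groth.Agent.Lib.H29_Quartic

set_option autoImplicit false
universe u
open InvQ

namespace Groth.Agent.S19392

open Groth.Agent.H29Quartic

/-- Over a field of characteristic different from 2 and 3, a nonzero binary quartic f has P(f) = Q(f) =
0 for the two basic invariants P, Q if and only if f has a triple zero. Stated for f = ∏_i (μ_i X₀ −
λ_i X₁) given by four root points (λ_i, μ_i) ≠ (0, 0) (over an algebraically closed field every
nonzero quartic form is of this shape), with the integral invariants I = 6P and J = 72Q of the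
coefficients of f; a triple zero means that three of the four root points are pairwise proportional. -/
theorem result (k : Type u) [Field k]
    (h2 : (2 : k) ≠ 0) (h3 : (3 : k) ≠ 0) (la mu : Fin 4 → k) (hne : ∀ i, la i ≠ 0 ∨ mu i ≠ 0) :
    (W4c6intromoduli.invI (W4c6intromoduli.coef la mu) = 0 ∧
        W4c6intromoduli.invJ (W4c6intromoduli.coef la mu) = 0) ↔
      ∃ i j l : Fin 4, i ≠ j ∧ j ≠ l ∧ i ≠ l ∧
        la i * mu j = la j * mu i ∧ la j * mu l = la l * mu j := by
  rw [invI_eq, invJ_eq]
  constructor
  · rintro ⟨hI, hJ⟩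
    have hD : 27 * (AA la mu * BB la mu * (-AA la mu - BB la mu)) ^ 2 = 0 := by
      have : 27 * (AA la mu * BB la mu * (-AA la mu - BB la mu)) ^ 2 = 4 * (AA la mu ^ 2 + AA la mu * BB la mu + BB la mu ^ 2) ^ 3 - (-(AA la mu - BB la mu) * (AA la mu + 2 * BB la mu) * (2 * AA la mu + BB la mu)) ^ 2 := by ring
      rw [this, hI, hJ]; ring
    have h27 : (27 : k) ≠ 0 := by
      have : (27 : k) = 3 ^ 3 := by norm_num
      rw [this]; exact pow_ne_zero _ h3
    have hABC : AA la mu * BB la mu * (-AA la mu - BB la mu) = 0 := by
      have := (mul_eq_zero.mp hD).resolve_left h27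
      exact pow_eq_zero_iff (by norm_num) |>.mp this
    have hAB : AA la mu = 0 ∧ BB la mu = 0 := by
      rcases mul_eq_zero.mp hABC with h | h
      · rcases mul_eq_zero.mp h with h | h
        · refine ⟨h, ?_⟩
          rw [h] at hI
          have : BB la mu ^ 2 = 0 := by linear_combination hI
          exact pow_eq_zero_iff (by norm_num) |>.mp this
        · refine ⟨?_, h⟩
          rw [h] at hI
          have : AA la mu ^ 2 = 0 := by linear_combination hI
          exact pow_eq_zero_iff (by norm_num) |>.mp this
      · have hB : BB la mu = - AA la mu := by linear_combination -h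
        rw [hB] at hI
        have : AA la mu ^ 2 = 0 := by linear_combination hI
        have hA := pow_eq_zero_iff (n := 2) (by norm_num) |>.mp this
        exact ⟨hA, by rw [hB, hA]; ring⟩
    obtain ⟨hA, hB⟩ := hAB
    simp only [AA, BB] at hA hB
    rcases mul_eq_zero.mp hA with a | a <;> rcases mul_eq_zero.mp hB with b | b
    · exact ⟨1, 0, 2, by decide, by decide, by decide, by linear_combination -a, by linear_combination b⟩
    · exact ⟨0, 1, 3, by decide, by decide, by decide, by linear_combination a, by linear_combination -b⟩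
    · exact ⟨3, 2, 0, by decide, by decide, by decide, by linear_combination -a, by linear_combination -b⟩
    · exact ⟨2, 3, 1, by decide, by decide, by decide, by linear_combination a, by linear_combination b⟩
  · rintro ⟨i, j, l, hij, hjl, hil, h1, h2'⟩
    have h3' : la i * mu l = la l * mu i := by
      rcases hne j with h | h
      · apply mul_left_cancel₀ h
        linear_combination la i * h2' + la l * h1
      · apply mul_left_cancel₀ h
        linear_combination mu l * h1 + mu i * h2'
    have key : ∀ x y : Fin 4, x ≠ y → (x = i ∨ x = j ∨ x = l) → (y = i ∨ y = j ∨ y = l) → la x * mu y - la y * mu x = 0 := by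
      intro x y hxy hx hy
      rcases hx with rfl | rfl | rfl <;> rcases hy with rfl | rfl | rfl <;> first | exact absurd rfl hxy | linear_combination h1 | linear_combination h2' | linear_combination h3' | linear_combination -h1 | linear_combination -h2' | linear_combination -h3'
    have hcase : ∀ i j l : Fin 4, i ≠ j → j ≠ l → i ≠ l → 
      (((0 = i ∨ 0 = j ∨ 0 = l) ∧ (1 = i ∨ 1 = j ∨ 1 = l)) ∨ (((2 = i ∨ 2 = j ∨ 2 = l) ∧ (3 = i ∨ 3 = j ∨ 3 = l)))) ∧ 
      (((0 = i ∨ 0 = j ∨ 0 = l) ∧ (2 = i ∨ 2 = j ∨ 2 = l)) ∨ (((3 = i ∨ 3 = j ∨ 3 = l) ∧ (1 = i ∨ 1 = j ∨ 1 = l)))) := by decide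
    obtain ⟨c1, c2⟩ := hcase i j l hij hjl hil
    have hA : AA la mu = 0 := by
      rcases c1 with ⟨x, y⟩ | ⟨x, y⟩
      · simp only [AA]; rw [key 0 1 (by decide) x y, zero_mul]
      · simp only [AA]; rw [key 2 3 (by decide) x y, mul_zero]
    have hB : BB la mu = 0 := by
      rcases c2 with ⟨x, y⟩ | ⟨x, y⟩
      · simp only [BB]; rw [key 0 2 (by decide) x y, zero_mul]
      · simp only [BB]; rw [key 3 1 (by decide) x y, mul_zero]
    rw [hA, hB]; constructor <;> ring

end Groth.Agent.S19392
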