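import Groth.Statements.S19396
import Groth.Agent.Lib.H16_FunFldJ

set_option autoImplicit false
universe u v
open FunFld

namespace Groth.Agent.S19396

/-- On an elliptic curve with base point 0, if f has a double pole at 0 and no other pole and g a triple
pole at 0 and no other pole, then for n ≥ 2 the functions 1, f, …, f^[n/2], g, fg, …, f^[(n−3)/2] g
form a basis of the space of functions with at most an n-fold pole at 0. Stated for a function field
K/k of one variable of genus 1 with a place P of degree 1 in the role of the curve and its base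
point: the family indexed by Fin (n/2 + 1) ⊕ Fin ((n − 1)/2), sending i on the left to f^i and i on
the right to f^i g, is linearly independent over k and spans L(nP). -/
theorem result (k : Type u) (K : Type v) [Field k] [Field K]
    [Algebra k K] (hK : FunFld.IsFunctionField k K) (hgen : FunFld.genus k K = 1)
    (P : FunFld.Place k K) (hP : P.deg = 1) (f g : K)
    (hf : f ∈ FunFld.L (Finsupp.single P 2)) (hf2 : P.ord f = -2)
    (hg : g ∈ FunFld.L (Finsupp.single P 3)) (hg3 : P.ord g = -3) (n : ℕ) (hn : 2 ≤ n) :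
    LinearIndependent k
        (Sum.elim (fun i : Fin (n / 2 + 1) => f ^ (i : ℕ)) (fun i : Fin ((n - 1) / 2) => f ^ (i : ℕ) * g)) ∧
      Submodule.span k (Set.range
        (Sum.elim (fun i : Fin (n / 2 + 1) => f ^ (i : ℕ)) (fun i : Fin ((n - 1) / 2) => f ^ (i : ℕ) * g))) =
        FunFld.L (Finsupp.single P (n : ℤ)) := by
  classical
  set b : Fin (n / 2 + 1) ⊕ Fin ((n - 1) / 2) → K :=
    Sum.elim (fun i : Fin (n / 2 + 1) => f ^ (i : ℕ)) (fun i : Fin ((n - 1) / 2) => f ^ (i : ℕ) * g) with hb
  let ex : Fin (n / 2 + 1) ⊕ Fin ((n - 1) / 2) → ℤ :=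
    Sum.elim (fun i => 2 * (i : ℕ)) (fun i => 2 * (i : ℕ) + 3)
  have hvf : P.1 f = WithZero.exp 2 := by
    have h0 : P.1 f ≠ 0 := by
      intro h
      have : -(WithZero.log (P.1 f)) = -2 := hf2
      rw [h, WithZero.log_zero] at this; omega
    have : -(WithZero.log (P.1 f)) = -2 := hf2
    rw [← WithZero.exp_log h0]; congr 1; omega
  have hvg : P.1 g = WithZero.exp 3 := by
    have h0 : P.1 g ≠ 0 := by
      intro h
      have : -(WithZero.log (P.1 g)) = -3 := hg3
      rw [h, WithZero.log_zero] at this; omega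
    have : -(WithZero.log (P.1 g)) = -3 := hg3
    rw [← WithZero.exp_log h0]; congr 1; omega
  have hvb : ∀ l, P.1 (b l) = WithZero.exp (ex l) := by
    rintro (i | i)
    · change P.1 (f ^ (i : ℕ)) = WithZero.exp (2 * ((i : ℕ) : ℤ))
      rw [map_pow, hvf, ← WithZero.exp_nsmul, nsmul_eq_mul, mul_comm]
    · change P.1 (f ^ (i : ℕ) * g) = WithZero.exp (2 * ((i : ℕ) : ℤ) + 3)
      rw [map_mul, map_pow, hvf, hvg, ← WithZero.exp_nsmul, ← WithZero.exp_add, nsmul_eq_mul, mul_comm]
  have hexinj : Function.Injective ex := by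
    rintro (i | i) (j | j) h
    · have h : 2 * ((i : ℕ) : ℤ) = 2 * ((j : ℕ) : ℤ) := h
      congr 1; apply Fin.ext; omega
    · have h : 2 * ((i : ℕ) : ℤ) = 2 * ((j : ℕ) : ℤ) + 3 := h
      omega
    · have h : 2 * ((i : ℕ) : ℤ) + 3 = 2 * ((j : ℕ) : ℤ) := h
      omega
    · have h : 2 * ((i : ℕ) : ℤ) + 3 = 2 * ((j : ℕ) : ℤ) + 3 := h
      congr 1; apply Fin.ext; omega
  have hli : LinearIndependent k b := by
    rw [Fintype.linearIndependent_iff]
    intro c hc
    by_contra hcon
    push Not at hcon
    obtain ⟨l1, hl1⟩ := hcon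
    obtain ⟨l0, hl0, hmax⟩ := Finset.exists_max_image (Finset.univ.filter fun l => c l ≠ 0) ex
      ⟨l1, Finset.mem_filter.mpr ⟨Finset.mem_univ _, hl1⟩⟩
    have hc0 := (Finset.mem_filter.mp hl0).2
    have hv0 : P.1 (c l0 • b l0) = WithZero.exp (ex l0) := by
      rw [Algebra.smul_def, map_mul, Groth.Agent.H16.val_const P hc0, one_mul, hvb]
    have := P.1.map_sum_eq_of_lt (s := Finset.univ) (f := fun l => c l • b l) (j := l0) (Finset.mem_univ _) (by
      intro l hl
      have hne : l ≠ l0 := by
        intro h; rw [h] at hl; simp at hl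
      rw [hv0]
      by_cases hcl : c l = 0
      · rw [hcl, zero_smul, map_zero]; exact WithZero.exp_pos
      · rw [Algebra.smul_def, map_mul, Groth.Agent.H16.val_const P hcl, one_mul, hvb, WithZero.exp_lt_exp]
        exact lt_of_le_of_ne (hmax l (Finset.mem_filter.mpr ⟨Finset.mem_univ _, hcl⟩)) (fun h => hne (hexinj h)))
    rw [hc, map_zero, hv0] at this
    exact WithZero.exp_ne_zero this.symm
  refine ⟨hli, ?_⟩
  have hfin := Groth.Agent.H16.finite_L hK (Finsupp.single P (n : ℤ) : FunFld.Divisor k K)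
  apply Submodule.eq_of_le_of_finrank_eq
  · rw [Submodule.span_le]
    rintro _ ⟨l, rfl⟩ Q
    by_cases hQ : Q = P
    · subst hQ
      rw [hvb, Finsupp.single_eq_same, WithZero.exp_le_exp]
      rcases l with i | i
      · change 2 * ((i : ℕ) : ℤ) ≤ n
        have := i.2; omega
      · change 2 * ((i : ℕ) : ℤ) + 3 ≤ n
        have := i.2; omega
    · rw [Finsupp.single_eq_of_ne hQ, WithZero.exp_zero]
      have h1 := hf Q
      have h2 := hg Q
      rw [Finsupp.single_eq_of_ne hQ, WithZero.exp_zero] at h1 h2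
      rcases l with i | i
      · change Q.1 (f ^ (i : ℕ)) ≤ 1
        rw [map_pow]; exact pow_le_one₀ zero_le h1
      · change Q.1 (f ^ (i : ℕ) * g) ≤ 1
        rw [map_mul, map_pow]; exact mul_le_one' (pow_le_one₀ zero_le h1) h2
  · rw [finrank_span_eq_card hli]
    have h1 := Groth.Agent.H16.ell_of_deg_ge hK (Finsupp.single P (n : ℤ) : FunFld.Divisor k K) (by
      rw [Groth.Agent.H16.deg_single, hP, hgen]; push_cast; omega)
    rw [Groth.Agent.H16.deg_single, hP, hgen] at h1
    have h2 : FunFld.ell (Finsupp.single P (n : ℤ) : FunFld.Divisor k K) = n := by push_cast at h1; omega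
    change _ = FunFld.ell (Finsupp.single P (n : ℤ) : FunFld.Divisor k K)
    rw [h2]
    simp only [Fintype.card_sum, Fintype.card_fin]
    omega

end Groth.Agent.S19396
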