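import Groth.Statements.S19399
import Mathlib

set_option autoImplicit false
universe u
open Curves

namespace Groth.Agent.S19399

/-- Over a field of characteristic different from 2 and 3, the invariant j(λ) = 256 (λ² − λ + 1)³ / (λ²
(λ − 1)²) of the cubic Y²Z = X(X − Z)(X − λZ), λ ≠ 0, 1, takes the same value at λ and μ exactly
when μ is one of the six values λ, 1 − λ, 1/λ, (λ − 1)/λ, λ/(λ − 1), 1/(1 − λ) obtained by
reordering the branch points. This is the step, in the proof of the published corollary (over an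
algebraically closed field, j gives a bijection between the isomorphism classes of elliptic curves
and the elements of the field), that identifies the fibres of λ ↦ j(λ) on the complement of {0, 1};
the bijection itself is not stated here. -/
theorem result (k : Type u) [Field k] (h2 : (2 : k) ≠ 0) (h3 : (3 : k) ≠ 0)
    (s t : k) (hs0 : s ≠ 0) (hs1 : s ≠ 1) (ht0 : t ≠ 0) (ht1 : t ≠ 1) :
    256 * (s ^ 2 - s + 1) ^ 3 / (s ^ 2 * (s - 1) ^ 2) = 256 * (t ^ 2 - t + 1) ^ 3 / (t ^ 2 * (t - 1) ^ 2) ↔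
      (t = s ∨ t = 1 - s ∨ t = 1 / s ∨ t = (s - 1) / s ∨ t = s / (s - 1) ∨ t = 1 / (1 - s)) := by
  have hs1' : s - 1 ≠ 0 := sub_ne_zero.mpr hs1
  have hs1'' : 1 - s ≠ 0 := sub_ne_zero.mpr (Ne.symm hs1)
  have ht1' : t - 1 ≠ 0 := sub_ne_zero.mpr ht1
  have h256 : (256 : k) ≠ 0 := by
    have : (256 : k) = 2 ^ 8 := by norm_num
    rw [this]; exact pow_ne_zero _ h2
  have key : 256 * (s ^ 2 - s + 1) ^ 3 * (t ^ 2 * (t - 1) ^ 2) - 256 * (t ^ 2 - t + 1) ^ 3 * (s ^ 2 * (s - 1) ^ 2)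
     = 256 * ((t - s) * ((t - (1 - s)) * ((t * s - 1) * ((t * s - (s - 1)) * ((t * (s - 1) - s) * (t * (1 - s) - 1)))))) := by ring
  rw [div_eq_div_iff (mul_ne_zero (pow_ne_zero _ hs0) (pow_ne_zero _ hs1')) (mul_ne_zero (pow_ne_zero _ ht0) (pow_ne_zero _ ht1')), ← sub_eq_zero, key, mul_eq_zero, or_iff_right h256, mul_eq_zero, mul_eq_zero, mul_eq_zero, mul_eq_zero, mul_eq_zero,
    sub_eq_zero, sub_eq_zero, sub_eq_zero, sub_eq_zero, sub_eq_zero, sub_eq_zero, eq_div_iff hs0, eq_div_iff hs0, eq_div_iff hs1', eq_div_iff hs1'']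

end Groth.Agent.S19399
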