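import Groth.Statements.S19427
import Mathlib

set_option autoImplicit false
universe u
open MilnorK

namespace Groth.Agent.S19427

/-- For a field F and nonzero b, c with b + c ≠ 0, in the Milnor K-group K_2(F) one has {b, c} + {b + c,
-b/c} = 0, that is {b, c} = -{b + c, -b/c} = {b + c, -c/b}. (The identity as displayed in the source
is {b, c} = {b + c, -b/c}, which differs from this by a sign and fails in general: for b = 3, c = 5
over the rationals the tame symbol at 5 takes the values 3 and 1/3 on the two sides; the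
accompanying derivation from the Steinberg relation b/(b+c) + c/(b+c) = 1 gives exactly the identity
stated here.) -/
theorem result (F : Type u) [Field F] (b c : Fˣ)
    (h : (b : F) + (c : F) ≠ 0) :
    (MilK.symbol ![b, c] : MilK.K F 2) + MilK.symbol ![Units.mk0 ((b : F) + (c : F)) h, -(b / c)] = 0 := by
  set s : Fˣ := Units.mk0 ((b : F) + (c : F)) h with hs
  have hsv : (s : F) = b + c := rfl
  -- bilinearity
  have hml : ∀ a a' b : Fˣ, (MilK.symbol ![a * a', b] : MilK.K F 2) = MilK.symbol ![a, b] + MilK.symbol ![a', b] := by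
    intro a a' b
    simp only [MilK.symbol]
    rw [← map_add]
    congr 1
    have := MultilinearMap.map_update_add (PiTensorProduct.tprod ℤ (s := fun _ : Fin 2 => Additive Fˣ)) (fun i => Additive.ofMul (![a, b] i)) 0 (Additive.ofMul a) (Additive.ofMul a')
    convert this using 2
    · ext i; fin_cases i <;> simp
    · congr 1; ext i; fin_cases i <;> simp
    · congr 1; ext i; fin_cases i <;> simp
  have hmr : ∀ a b b' : Fˣ, (MilK.symbol ![a, b * b'] : MilK.K F 2) = MilK.symbol ![a, b] + MilK.symbol ![a, b'] := by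
    intro a b b'
    simp only [MilK.symbol]
    rw [← map_add]
    congr 1
    have := MultilinearMap.map_update_add (PiTensorProduct.tprod ℤ (s := fun _ : Fin 2 => Additive Fˣ)) (fun i => Additive.ofMul (![a, b] i)) 1 (Additive.ofMul b) (Additive.ofMul b')
    convert this using 2
    · ext i; fin_cases i <;> simp
    · congr 1; ext i; fin_cases i <;> simp
    · congr 1; ext i; fin_cases i <;> simp
  have h1l : ∀ b : Fˣ, (MilK.symbol ![1, b] : MilK.K F 2) = 0 := by
    intro b
    have := hml 1 1 b
    rw [one_mul] at this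
    exact left_eq_add.mp this
  have h1r : ∀ b : Fˣ, (MilK.symbol ![b, 1] : MilK.K F 2) = 0 := by
    intro b
    have := hmr b 1 1
    rw [one_mul] at this
    exact left_eq_add.mp this
  have hil : ∀ a b : Fˣ, (MilK.symbol ![a⁻¹, b] : MilK.K F 2) = - MilK.symbol ![a, b] := by
    intro a b
    have := hml a a⁻¹ b
    rw [mul_inv_cancel, h1l] at this
    exact (neg_eq_of_add_eq_zero_right this.symm).symm
  have hir : ∀ a b : Fˣ, (MilK.symbol ![a, b⁻¹] : MilK.K F 2) = - MilK.symbol ![a, b] := by
    intro a b
    have := hmr a b b⁻¹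
    rw [mul_inv_cancel, h1r] at this
    exact (neg_eq_of_add_eq_zero_right this.symm).symm
  have hst : ∀ a b : Fˣ, (a : F) + (b : F) = 1 → (MilK.symbol ![a, b] : MilK.K F 2) = 0 := by
    intro a b hab
    apply MilK.symbol_eq_zero_of_isSteinberg
    exact ⟨0, 1, by decide, by simpa using hab⟩
  have hneg : ∀ a : Fˣ, (MilK.symbol ![a, -a] : MilK.K F 2) = 0 := by
    intro a
    by_cases ha : (a : F) = 1
    · have : a = 1 := Units.ext ha
      rw [this, h1l]
    · have h1 : (1 : F) - a ≠ 0 := sub_ne_zero.mpr (Ne.symm ha)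
      have h2 : (1 : F) - (a : F)⁻¹ ≠ 0 := by
        intro h0
        apply ha
        have : (a : F)⁻¹ = 1 := (sub_eq_zero.mp h0).symm
        exact inv_eq_one.mp this
      set x : Fˣ := Units.mk0 _ h1
      set y : Fˣ := Units.mk0 _ h2
      have hxy : -a = x * y⁻¹ := by
        rw [eq_mul_inv_iff_mul_eq]
        apply Units.ext
        simp only [Units.val_mul, Units.val_neg, x, y, Units.val_mk0]
        field_simp
        ring
      have e1 : (MilK.symbol ![a, x] : MilK.K F 2) = 0 := hst a x (by simp [x])
      have e2 : (MilK.symbol ![a⁻¹, y] : MilK.K F 2) = 0 := hst a⁻¹ y (by simp [y])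
      rw [hil, neg_eq_zero] at e2
      rw [hxy, hmr, hir, e1, e2]; simp
  have hanti : ∀ a b : Fˣ, (MilK.symbol ![a, b] : MilK.K F 2) + MilK.symbol ![b, a] = 0 := by
    intro a b
    have e1 := hneg (a * b)
    have e2 : (MilK.symbol ![a, -(a*b)] : MilK.K F 2) = MilK.symbol ![a, b] := by
      have : -(a * b) = (-a) * b := by rw [neg_mul]
      rw [this, hmr, hneg, zero_add]
    have e3 : (MilK.symbol ![b, -(a*b)] : MilK.K F 2) = MilK.symbol ![b, a] := by
      have : -(a * b) = a * (-b) := by rw [mul_neg]
      rw [this, hmr, hneg, add_zero]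
    rw [hml, e2, e3] at e1
    exact e1
  have key : (MilK.symbol ![b / s, c / s] : MilK.K F 2) = 0 := by
    apply hst
    simp only [Units.val_div_eq_div_val, hsv]
    rw [← add_div, div_self]
    rw [← hsv]; exact s.ne_zero
  rw [div_eq_mul_inv, div_eq_mul_inv, hml, hmr, hmr, hil, hil, hir] at key
  have e4 : -(b / c) = (-s) * (s⁻¹ * (b * c⁻¹)) := by
    rw [div_eq_mul_inv, neg_mul, mul_inv_cancel_left]
  rw [e4, hmr, hmr, hmr, hir, hir, hneg]
  have e5 := hanti s b
  have e6 := hneg s
  have e7 : (MilK.symbol ![b, s] : MilK.K F 2) = - MilK.symbol ![s, b] := (neg_eq_of_add_eq_zero_right e5).symm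
  rw [e7] at key
  -- {s,s} = {s,-1} = -{s,s}
  have e8 : (MilK.symbol ![s, s] : MilK.K F 2) + MilK.symbol ![s, s] = 0 := hanti s s
  have e9 : - (MilK.symbol ![s, s] : MilK.K F 2) = MilK.symbol ![s, s] := neg_eq_of_add_eq_zero_right e8
  rw [hir s s, neg_neg, neg_neg] at key
  rw [zero_add, e9, ← key]
  abel

end Groth.Agent.S19427
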