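import Groth.Statements.S19436
import Mathlib

set_option autoImplicit false
universe u
open CAlg

namespace Groth.Agent.S19436

/-- For a Noetherian local commutative algebra R over a field k, with maximal ideal M, and an ideal I of
R whose quotient R/I is finite-dimensional over k of dimension n, the power M^n lies in I. -/
theorem result (k : Type u) [Field k] (R : Type u) [CommRing R]
    [Algebra k R] [IsNoetherianRing R] [IsLocalRing R] (I : Ideal R) [Module.Finite k (R ⧸ I)] (n : ℕ)
    (hn : Module.finrank k (R ⧸ I) = n) : IsLocalRing.maximalIdeal R ^ n ≤ I := by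
  let m := IsLocalRing.maximalIdeal R
  let P : ℕ → Submodule R (R ⧸ I) := fun i => (m ^ i) • ⊤
  have hP : ∀ i, P (i + 1) = m • P i := by
    intro i
    simp only [P]
    rw [pow_succ', ← Submodule.smul_assoc, smul_eq_mul]
  have hle : ∀ i, P (i + 1) ≤ P i := by
    intro i; rw [hP]; exact Submodule.smul_le_right
  have hnak : ∀ i, P (i + 1) = P i → P i = ⊥ := by
    intro i hi
    apply Submodule.eq_bot_of_le_smul_of_le_jacobson_bot m (P i)
    · exact IsNoetherian.noetherian _
    · rw [← hP, hi]
    · rw [IsLocalRing.jacobson_eq_maximalIdeal _ bot_ne_top]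
  have hclaim : ∀ i, P i ≠ ⊥ → Module.finrank k ((P i).restrictScalars k) + i ≤ n := by
    intro i
    induction i with
    | zero => intro _; rw [← hn, add_zero]; exact Submodule.finrank_le _
    | succ i ih =>
      intro hne
      have hne' : P i ≠ ⊥ := by
        intro h0
        apply hne
        exact le_bot_iff.mp ((hle i).trans h0.le)
      have h1 := ih hne'
      have hlt : (P (i + 1)).restrictScalars k < (P i).restrictScalars k := by
        refine lt_of_le_of_ne (hle i) ?_
        intro heq
        have : P (i + 1) = P i := Submodule.restrictScalars_injective k _ _ heq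
        exact hne' (hnak i this)
      have h2 := Submodule.finrank_lt_finrank_of_lt hlt
      omega
  have hPn : P n = ⊥ := by
    by_contra hne
    have h1 := hclaim n hne
    have h2 : Module.finrank k ((P n).restrictScalars k) = 0 := by omega
    have h3 := Submodule.finrank_eq_zero.mp h2
    apply hne
    have : (P n).restrictScalars k = (⊥ : Submodule R (R ⧸ I)).restrictScalars k := by rw [h3]; rfl
    exact Submodule.restrictScalars_injective k _ _ this
  intro x hx
  have : x • (1 : R ⧸ I) ∈ P n := Submodule.smul_mem_smul hx trivial
  rw [hPn, Submodule.mem_bot] at this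
  rw [← Ideal.Quotient.eq_zero_iff_mem]
  rw [← this, Algebra.smul_def, mul_one]; rfl

end Groth.Agent.S19436
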