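import Groth.Statements.S19438
import Mathlib

set_option autoImplicit false
universe u
open CAlg

namespace Groth.Agent.S19438

/-- First assertion: let A be a Noetherian local commutative algebra over a field k with maximal ideal
M, residue field k (the map from k to A/M is onto) and embedding dimension dim M/M^2 at least 2, and
let I be a proper ideal with A/I finite-dimensional over k. If A/I is generated as a k-algebra by
one element, then some element of I does not lie in M^2; that is, the finite closed subscheme
defined by I lies on a smooth hypersurface germ (it is curvilinear). (The published statement is for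
the local ring of a smooth surface at a closed point; only a Noetherian local algebra with residue
field k and embedding dimension at least 2 is assumed here, which is what the published argument
uses.) -/
theorem result (k : Type u) [Field k]
    (A : Type u) [CommRing A] [Algebra k A] [IsNoetherianRing A] [IsLocalRing A]
    (hres : Function.Surjective (algebraMap k (IsLocalRing.ResidueField A)))
    (hemb : 2 ≤ Module.finrank (IsLocalRing.ResidueField A) (IsLocalRing.CotangentSpace A))
    (I : Ideal A) (hI : I ≠ ⊤) [Module.Finite k (A ⧸ I)]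
    (f : A ⧸ I) (hf : Algebra.adjoin k {f} = ⊤) :
    ∃ g ∈ I, g ∉ IsLocalRing.maximalIdeal A ^ 2 := by
  by_contra hcon
  push Not at hcon
  set M := IsLocalRing.maximalIdeal A with hM
  have hIM : I ≤ M ^ 2 := hcon
  obtain ⟨f', rfl⟩ := Ideal.Quotient.mk_surjective f
  have hdec : ∀ a : A, ∃ c : k, a - algebraMap k A c ∈ M := by
    intro a
    obtain ⟨c, hc⟩ := hres (IsLocalRing.residue A a)
    refine ⟨c, ?_⟩
    rw [← IsLocalRing.residue_eq_zero_iff, map_sub, ← hc, sub_eq_zero]
    rfl
  obtain ⟨c0, hc0⟩ := hdec f'
  set y := f' - algebraMap k A c0 with hy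
  -- every element of A is = c + d y mod M^2
  have hall : ∀ a : A, ∃ c d : k, a - (algebraMap k A c + algebraMap k A d * y) ∈ M ^ 2 := by
    intro a
    have h1 : Ideal.Quotient.mk I a ∈ Algebra.adjoin k {Ideal.Quotient.mk I f'} := by rw [hf]; trivial
    have h2 : ∀ z : A ⧸ I, z ∈ Algebra.adjoin k {Ideal.Quotient.mk I f'} → ∀ a : A, Ideal.Quotient.mk I a = z → ∃ c d : k, a - (algebraMap k A c + algebraMap k A d * y) ∈ M ^ 2 := by
      intro z hz
      induction hz using Algebra.adjoin_induction with
      | mem x hx =>
        intro a ha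
        rw [Set.mem_singleton_iff] at hx
        rw [hx, Ideal.Quotient.eq] at ha
        refine ⟨c0, 1, ?_⟩
        have : a - (algebraMap k A c0 + algebraMap k A 1 * y) = a - f' := by rw [map_one, hy]; ring
        rw [this]; exact hIM ha
      | algebraMap r =>
        intro a ha
        have ha' : Ideal.Quotient.mk I a = Ideal.Quotient.mk I (algebraMap k A r) := ha
        rw [Ideal.Quotient.eq] at ha'
        refine ⟨r, 0, ?_⟩
        rw [map_zero, zero_mul, add_zero]; exact hIM ha'
      | add x z hx hz ihx ihz =>
        intro a ha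
        obtain ⟨x', rfl⟩ := Ideal.Quotient.mk_surjective x
        obtain ⟨z', rfl⟩ := Ideal.Quotient.mk_surjective z
        obtain ⟨c1, d1, h1⟩ := ihx x' rfl
        obtain ⟨c2, d2, h2⟩ := ihz z' rfl
        rw [← map_add, Ideal.Quotient.eq] at ha
        refine ⟨c1 + c2, d1 + d2, ?_⟩
        have e : a - (algebraMap k A (c1 + c2) + algebraMap k A (d1 + d2) * y) = (a - (x' + z')) + (x' - (algebraMap k A c1 + algebraMap k A d1 * y)) + (z' - (algebraMap k A c2 + algebraMap k A d2 * y)) := by
          rw [map_add, map_add]; ring
        rw [e]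
        exact add_mem (add_mem (hIM ha) h1) h2
      | mul x z hx hz ihx ihz =>
        intro a ha
        obtain ⟨x', rfl⟩ := Ideal.Quotient.mk_surjective x
        obtain ⟨z', rfl⟩ := Ideal.Quotient.mk_surjective z
        obtain ⟨c1, d1, h1⟩ := ihx x' rfl
        obtain ⟨c2, d2, h2⟩ := ihz z' rfl
        rw [← map_mul, Ideal.Quotient.eq] at ha
        refine ⟨c1 * c2, c1 * d2 + c2 * d1, ?_⟩
        have e : a - (algebraMap k A (c1 * c2) + algebraMap k A (c1 * d2 + c2 * d1) * y) = (a - (x' * z')) + (x' - (algebraMap k A c1 + algebraMap k A d1 * y)) * z' + (algebraMap k A c1 + algebraMap k A d1 * y) * (z' - (algebraMap k A c2 + algebraMap k A d2 * y)) + algebraMap k A d1 * algebraMap k A d2 * (y * y) := by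
          rw [map_mul, map_add, map_mul, map_mul]; ring
        rw [e]
        refine add_mem (add_mem (add_mem (hIM ha) (Ideal.mul_mem_right _ _ h1)) (Ideal.mul_mem_left _ _ h2)) (Ideal.mul_mem_left _ _ ?_)
        rw [pow_two]; exact Ideal.mul_mem_mul hc0 hc0
    exact h2 _ h1 a rfl
  -- the cotangent space is spanned by class of y
  have hspan : ∀ v : IsLocalRing.CotangentSpace A, ∃ r : IsLocalRing.ResidueField A, r • (M.toCotangent ⟨y, hc0⟩ : IsLocalRing.CotangentSpace A) = v := by
    intro v
    obtain ⟨⟨m, hm⟩, rfl⟩ := M.toCotangent_surjective v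
    obtain ⟨c, d, hcd⟩ := hall m
    -- c = 0
    have hc : c = 0 := by
      have h1 : algebraMap k A c ∈ M := by
        have : algebraMap k A c = m - (m - (algebraMap k A c + algebraMap k A d * y)) - algebraMap k A d * y := by ring
        rw [this]
        exact sub_mem (sub_mem hm (Ideal.pow_le_self two_ne_zero hcd)) (Ideal.mul_mem_left _ _ hc0)
      by_contra hne
      have : IsUnit (algebraMap k A c) := (IsUnit.mk0 c hne).map _
      exact (IsLocalRing.mem_maximalIdeal _).mp h1 this
    rw [hc, map_zero, zero_add] at hcd
    refine ⟨IsLocalRing.residue A (algebraMap k A d), ?_⟩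
    have e1 : (IsLocalRing.residue A (algebraMap k A d)) • (M.toCotangent ⟨y, hc0⟩ : IsLocalRing.CotangentSpace A) = M.toCotangent ((algebraMap k A d) • ⟨y, hc0⟩) := by
      rw [map_smul]; rfl
    rw [e1, Ideal.toCotangent_eq]
    change algebraMap k A d * y - m ∈ M ^ 2
    rw [← neg_sub]
    exact neg_mem hcd
  have h99 : Module.finrank (IsLocalRing.ResidueField A) (IsLocalRing.CotangentSpace A) ≤ 1 :=
    finrank_le_one (R := IsLocalRing.ResidueField A) (M.toCotangent ⟨y, hc0⟩ : IsLocalRing.CotangentSpace A) hspan
  exact absurd (hemb.trans h99) (by norm_num)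

end Groth.Agent.S19438
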