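import Groth.Statements.S19439
import Mathlib

set_option autoImplicit false
universe u
open CAlg

namespace Groth.Agent.S19439

/-- Affine form: for all n and N there is an integer d, that depends only on n and N, such that for
every algebraically closed field k and every ideal I of the polynomial ring in N variables over k
whose quotient has finite dimension n over k, the polynomials of total degree at most d map onto the
quotient. -/
theorem result (n N : ℕ) :
    ∃ d : ℕ, ∀ (k : Type u) [Field k] [IsAlgClosed k] (I : Ideal (MvPolynomial (Fin N) k))
      [Module.Finite k (MvPolynomial (Fin N) k ⧸ I)],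
      Module.finrank k (MvPolynomial (Fin N) k ⧸ I) = n →
      Submodule.map (Ideal.Quotient.mkₐ k I).toLinearMap (MvPolynomial.restrictTotalDegree (Fin N) k d) = ⊤ := by
  refine ⟨n, ?_⟩
  intro k _ _ I _ hn
  let V : ℕ → Submodule k (MvPolynomial (Fin N) k ⧸ I) := fun j =>
    Submodule.map (Ideal.Quotient.mkₐ k I).toLinearMap (MvPolynomial.restrictTotalDegree (Fin N) k j)
  have hmono : ∀ j, V j ≤ V (j + 1) := by
    intro j
    apply Submodule.map_mono
    intro p hp
    rw [MvPolynomial.mem_restrictTotalDegree] at hp ⊢
    omega
  have hstab : ∀ j, V (j + 1) = V j → V j = ⊤ := by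
    intro j hj
    rw [eq_top_iff]
    rintro x -
    obtain ⟨p, rfl⟩ := Ideal.Quotient.mk_surjective x
    induction p using MvPolynomial.induction_on with
    | C a =>
      refine ⟨MvPolynomial.C a, ?_, rfl⟩
      simp [MvPolynomial.mem_restrictTotalDegree]
    | add p q hp hq => rw [map_add]; exact Submodule.add_mem _ hp hq
    | mul_X p i hp =>
      obtain ⟨q, hq, hqp⟩ := hp
      rw [← hj]
      refine ⟨q * MvPolynomial.X i, ?_, ?_⟩
      · have hq' : q.totalDegree ≤ j := by
          have := hq
          rwa [SetLike.mem_coe, MvPolynomial.mem_restrictTotalDegree] at this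
        rw [SetLike.mem_coe, MvPolynomial.mem_restrictTotalDegree]
        refine (MvPolynomial.totalDegree_mul _ _).trans ?_
        have : (MvPolynomial.X i : MvPolynomial (Fin N) k).totalDegree = 1 := MvPolynomial.totalDegree_X i
        omega
      · change Ideal.Quotient.mk I (q * MvPolynomial.X i) = _
        change Ideal.Quotient.mk I q = _ at hqp
        rw [map_mul, map_mul, hqp]
  have hclaim : ∀ j, V j = ⊤ ∨ j ≤ Module.finrank k (V j) := by
    intro j
    induction j with
    | zero => right; omega
    | succ j ih =>
      rcases ih with h | h
      · left; exact eq_top_iff.mpr (h.ge.trans (hmono j))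
      · by_cases hj : V (j + 1) = V j
        · left; exact hj.trans (hstab j hj)
        · right
          have : V j < V (j + 1) := lt_of_le_of_ne (hmono j) (fun h => hj h.symm)
          have := Submodule.finrank_lt_finrank_of_lt this
          omega
  rcases hclaim n with h | h
  · exact h
  · apply Submodule.eq_top_of_finrank_eq
    rw [hn]
    exact le_antisymm (hn ▸ Submodule.finrank_le _) h

end Groth.Agent.S19439
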