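import Groth.Statements.S19440
-- import your own Groth.Agent.* helpers here

set_option autoImplicit false
universe u
open LinAlg

namespace Groth.Agent.S19440

/-- Let U, V be commuting n × n matrices over a field k and e a vector which is cyclic for them (the
vectors U^p V^q e span k^n). An invertible matrix T which commutes with U and V and fixes e is the
identity: the general linear group acts freely by simultaneous conjugation on commuting pairs with a
cyclic vector. -/
theorem result (k : Type u) [Field k] (n : ℕ)
    (U V : Matrix (Fin n) (Fin n) k) (hUV : U * V = V * U) (e : Fin n → k)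
    (he : Submodule.span k (Set.range fun p : ℕ × ℕ => (U ^ p.1 * V ^ p.2).mulVec e) = ⊤)
    (T : Matrix.GeneralLinearGroup (Fin n) k)
    (hTU : (T : Matrix (Fin n) (Fin n) k) * U = U * T) (hTV : (T : Matrix (Fin n) (Fin n) k) * V = V * T)
    (hTe : (T : Matrix (Fin n) (Fin n) k).mulVec e = e) : T = 1 := by
  have hc : ∀ p : ℕ × ℕ, (T : Matrix (Fin n) (Fin n) k) * (U ^ p.1 * V ^ p.2) = (U ^ p.1 * V ^ p.2) * T := by
    intro p
    have h1 : Commute (T : Matrix (Fin n) (Fin n) k) U := hTU
    have h2 : Commute (T : Matrix (Fin n) (Fin n) k) V := hTV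
    exact ((h1.pow_right p.1).mul_right (h2.pow_right p.2))
  have key : ∀ x : Fin n → k, (T : Matrix (Fin n) (Fin n) k).mulVec x = x := by
    intro x
    have hx : x ∈ Submodule.span k (Set.range fun p : ℕ × ℕ => (U ^ p.1 * V ^ p.2).mulVec e) := by
      rw [he]; trivial
    induction hx using Submodule.span_induction with
    | mem y hy =>
      obtain ⟨p, rfl⟩ := hy
      simp only [Matrix.mulVec_mulVec]
      rw [hc p, ← Matrix.mulVec_mulVec, hTe]
    | zero => simp
    | add a b _ _ ha hb => rw [Matrix.mulVec_add, ha, hb]
    | smul c a _ ha => rw [Matrix.mulVec_smul, ha]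
  apply Units.ext
  apply Matrix.toLin'.injective
  apply LinearMap.ext
  intro x
  simp [key x]

end Groth.Agent.S19440
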