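import Groth.Statements.S19443
import Mathlib

set_option autoImplicit false
universe u
open LinAlg

namespace Groth.Agent.S19443

/-- Algebraic form: let G be a finite group with order invertible in the field k, ρ a linear
representation of G on a k-vector space V, and ω a nondegenerate bilinear form on V invariant under
G. Then ω restricted to the fixed subspace V^G is nondegenerate (for a finite group of symplectic
automorphisms, the fixed subspace is a symplectic subspace). -/
theorem result (k : Type u) [Field k]
    (G : Type u) [Group G] [Finite G] (hG : (Nat.card G : k) ≠ 0)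
    (V : Type u) [AddCommGroup V] [Module k V] (ρ : Representation k G V)
    (ω : LinearMap.BilinForm k V) (hω : ω.Nondegenerate)
    (hinv : ∀ (g : G) (v w : V), ω (ρ g v) (ρ g w) = ω v w) :
    (ω.restrict ρ.invariants).Nondegenerate := by
  classical
  have := Fintype.ofFinite G
  have hc : (Fintype.card G : k) ≠ 0 := by rwa [← Nat.card_eq_fintype_card]
  have hsum : ∀ y : V, (∑ g : G, ρ g y) ∈ ρ.invariants := by
    intro y
    rw [Representation.mem_invariants]
    intro g
    rw [map_sum]
    have : ∀ x : G, ρ g (ρ x y) = ρ (g * x) y := by intro x; rw [map_mul]; rfl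
    simp only [this]
    exact Fintype.sum_equiv (Equiv.mulLeft g) _ _ (fun x => rfl)
  obtain ⟨h1, h2⟩ := hω
  constructor
  · rintro ⟨x, hx⟩ hxy
    have hx' := (Representation.mem_invariants ρ x).mp hx
    have : x = 0 := by
      apply h1
      intro y
      have e1 := hxy ⟨_, hsum y⟩
      simp only [LinearMap.BilinForm.restrict_apply, LinearMap.domRestrict_apply] at e1
      change ω x (∑ g : G, ρ g y) = 0 at e1
      rw [map_sum] at e1
      have e2 : ∀ g ∈ (Finset.univ : Finset G), ω x (ρ g y) = ω x y := by
        intro g _
        conv_lhs => rw [← hx' g]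
        exact hinv g x y
      rw [Finset.sum_congr rfl e2, Finset.sum_const, nsmul_eq_mul, Finset.card_univ] at e1
      exact (mul_eq_zero.mp e1).resolve_left hc
    exact Subtype.ext this
  · rintro ⟨x, hx⟩ hxy
    have hx' := (Representation.mem_invariants ρ x).mp hx
    have : x = 0 := by
      apply h2
      intro y
      have e1 := hxy ⟨_, hsum y⟩
      change ω (∑ g : G, ρ g y) x = 0 at e1
      rw [map_sum, LinearMap.sum_apply] at e1
      have e2 : ∀ g ∈ (Finset.univ : Finset G), ω (ρ g y) x = ω y x := by
        intro g _
        conv_lhs => rw [← hx' g]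
        exact hinv g y x
      rw [Finset.sum_congr rfl e2, Finset.sum_const, nsmul_eq_mul, Finset.card_univ] at e1
      exact (mul_eq_zero.mp e1).resolve_left hc
    exact Subtype.ext this

end Groth.Agent.S19443
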