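import Groth.Statements.S19448
import Mathlib

set_option autoImplicit false
universe u
open CAlg

namespace Groth.Agent.S19448

/-- Let k be a field, A a Noetherian local k-algebra with maximal ideal M and residue field k, and G a
finite group with |G| ≠ 0 in k acting on A by k-algebra automorphisms. An element of G which acts
trivially on M/M^2 acts trivially on A; in other words the stabilizer acts faithfully on the
cotangent space whenever it acts faithfully on the local ring. -/
theorem result (k : Type u) [Field k] (A : Type u) [CommRing A]
    [Algebra k A] [IsLocalRing A] [IsNoetherianRing A]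
    (hres : Function.Surjective (algebraMap k (IsLocalRing.ResidueField A)))
    (G : Type u) [Group G] [Finite G] [MulSemiringAction G A] [SMulCommClass G k A]
    (hG : (Nat.card G : k) ≠ 0) (g : G)
    (hg : ∀ a ∈ IsLocalRing.maximalIdeal A, g • a - a ∈ IsLocalRing.maximalIdeal A ^ 2) (a : A) :
    g • a = a := by
  set M := IsLocalRing.maximalIdeal A with hM
  have hD : ∀ j : ℕ, ∀ x ∈ M ^ (j + 1), g • x - x ∈ M ^ (j + 2) := by
    intro j
    induction j with
    | zero => intro x hx; rw [zero_add, pow_one] at hx; exact hg x hx
    | succ j ih =>
      intro x hx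
      rw [pow_succ'] at hx
      induction hx using Submodule.mul_induction_on' with
      | mem_mul_mem x hx y hy =>
        have h1 := ih y hy
        have h2 := hg x hx
        have e : g • (x * y) - x * y = (g • x - x) * (g • y - y) + (g • x - x) * y + x * (g • y - y) := by
          rw [smul_mul']; ring
        rw [e]
        refine add_mem (add_mem ?_ ?_) ?_
        · apply Ideal.pow_le_pow_right (show j + 1 + 2 ≤ 2 + (j + 2) by omega)
          rw [pow_add]; exact Ideal.mul_mem_mul h2 h1
        · apply Ideal.pow_le_pow_right (show j + 1 + 2 ≤ 2 + (j + 1) by omega)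
          rw [pow_add]; exact Ideal.mul_mem_mul h2 hy
        · have : j + 1 + 2 = 1 + (j + 2) := by omega
          rw [this, pow_add, pow_one]; exact Ideal.mul_mem_mul hx h1
      | add x hx y hy hx' hy' =>
        have e : g • (x + y) - (x + y) = (g • x - x) + (g • y - y) := by rw [smul_add]; ring
        rw [e]; exact add_mem hx' hy'
  have hdec : ∀ a : A, ∃ c : k, a - algebraMap k A c ∈ M := by
    intro a
    obtain ⟨c, hc⟩ := hres (IsLocalRing.residue A a)
    refine ⟨c, ?_⟩
    rw [← IsLocalRing.residue_eq_zero_iff, map_sub, ← hc, sub_eq_zero]
    rfl
  have hall : ∀ j : ℕ, ∀ a : A, g • a - a ∈ M ^ (j + 1) := by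
    intro j
    induction j with
    | zero =>
      intro a
      obtain ⟨c, hc⟩ := hdec a
      have h1 := hg _ hc
      rw [smul_sub, smul_algebraMap] at h1
      have : g • a - algebraMap k A c - (a - algebraMap k A c) = g • a - a := by ring
      rw [this] at h1
      exact Ideal.pow_le_pow_right (by omega) h1
    | succ j ih =>
      intro a
      have h1 := hD j _ (ih a)
      have hpow : ∀ i : ℕ, g ^ i • a - (a + (i : A) * (g • a - a)) ∈ M ^ (j + 2) := by
        intro i
        induction i with
        | zero => simp
        | succ i ihi =>
          have h2 : g • (g ^ i • a - (a + (i : A) * (g • a - a))) ∈ M ^ (j + 2) := by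
            have := add_mem (Ideal.pow_le_pow_right (show j + 2 ≤ j + 1 + 2 by omega) (hD (j+1) _ ihi)) ihi
            rwa [sub_add_cancel] at this
          have h3 : g • ((i : A) * (g • a - a)) = (i : A) * (g • (g • a - a)) := by
            rw [smul_mul']
            congr 1
            have : g • (i : A) = (i : A) := by
              have := map_natCast (MulSemiringAction.toRingHom G A g) i
              exact this
            exact this
          rw [smul_sub, smul_add, h3, ← mul_smul, ← pow_succ'] at h2
          have e : g ^ (i + 1) • a - (a + ((i + 1 : ℕ) : A) * (g • a - a)) = (g ^ (i + 1) • a - (g • a + (i : A) * g • (g • a - a))) + (i : A) * (g • (g • a - a) - (g • a - a)) := by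
            push_cast; ring
          rw [e]
          exact add_mem h2 (Ideal.mul_mem_left _ _ h1)
      have h2 := hpow (Nat.card G)
      rw [pow_card_eq_one', one_smul] at h2
      have h3 : (Nat.card G : A) * (g • a - a) ∈ M ^ (j + 2) := by
        have : a - (a + (Nat.card G : A) * (g • a - a)) = -((Nat.card G : A) * (g • a - a)) := by ring
        rw [this] at h2
        exact neg_mem_iff.mp h2
      have h4 : IsUnit (Nat.card G : A) := by
        have := (IsUnit.mk0 _ hG).map (algebraMap k A)
        rwa [map_natCast] at this
      obtain ⟨c, hc⟩ := h4.exists_left_inv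
      have h5 := Ideal.mul_mem_left _ c h3
      rw [← mul_assoc, hc, one_mul] at h5
      exact h5
  have hfin : g • a - a ∈ (⨅ i : ℕ, M ^ i : Ideal A) := by
    rw [Ideal.mem_iInf]
    intro i
    exact Ideal.pow_le_pow_right (Nat.le_succ i) (hall i a)
  rw [Ideal.iInf_pow_eq_bot_of_isLocalRing M (IsLocalRing.maximalIdeal.isMaximal A).ne_top] at hfin
  exact sub_eq_zero.mp hfin

end Groth.Agent.S19448
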