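import Groth.Statements.S19502
import Mathlib

set_option autoImplicit false
universe u
open W4c3ghconstell

namespace Groth.Agent.S19502

theorem tsumite {ι : Type u} [DecidableEq ι] (f : ι → ℝ) (hf : Summable f) (D : Finset ι) :
    (∑' i, if i ∈ D then (0 : ℝ) else f i) = (∑' i, f i) - ∑ i ∈ D, f i := by
  have h1 : (∑' i, if i ∈ D then f i else 0) = ∑ i ∈ D, f i := by
    rw [tsum_eq_sum (s := D)]
    · exact Finset.sum_congr rfl (fun i hi => if_pos hi)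
    · intro i hi; exact if_neg hi
  have hs1 : Summable (fun i => if i ∈ D then f i else 0) := by
    apply summable_of_ne_finset_zero (s := D)
    intro i hi; exact if_neg hi
  rw [← h1, ← hf.tsum_sub hs1]
  congr 1
  ext i
  split_ifs <;> simp

theorem summite {ι : Type u} [DecidableEq ι] (f : ι → ℝ) (hf : Summable f) (D : Finset ι) :
    Summable (fun i => if i ∈ D then (0 : ℝ) else f i) := by
  have hs1 : Summable (fun i => if i ∈ D then f i else 0) := by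
    apply summable_of_ne_finset_zero (s := D)
    intro i hi; exact if_neg hi
  have := hf.sub hs1
  refine this.congr ?_
  intro i
  split_ifs <;> simp

/-- Let ι index the irreducible representations, θ : ι → ℚ a weight which is negative exactly on the
finite set D₋, h h' : ι → ℕ with h' ≤ h pointwise (the isotypic dimensions of an object and of a
sub-object) and Σ_i θ_i h_i summable. For a finite set D of indices put S_D = Σ_{i ∉ D} θ_i h_i, d =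
#(D ∖ D₋) and θ̃_D = Σ_{i ∈ D} θ_i h'_i + (S_D / d) · Σ_{i ∈ D ∖ D₋} h'_i / h_i, the modified weight
attached to the parameters chosen for D (a quotient by zero is read as zero). Then for finite sets
D₋ ⊆ D ⊆ D̃ contained in the locus θ ≠ 0: (first error term) θ̃_{D̃} − θ̃_D = Σ_{τ ∈ D̃ ∖ D} (θ_τ
h_τ + S_{D̃}/d̃) · (h'_τ/h_τ − (1/d) Σ_{σ ∈ D ∖ D₋} h'_σ/h_σ); (second error term) Σ_i θ_i h'_i −
θ̃_D = Σ_{τ ∉ D} θ_τ h_τ · (h'_τ/h_τ − (1/d) Σ_{σ ∈ D ∖ D₋} h'_σ/h_σ). -/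
theorem result {ι : Type u} [DecidableEq ι]
    (θ : ι → ℚ) (h h' : ι → ℕ) (hle : ∀ i, h' i ≤ h i) (hfin : {i | θ i < 0}.Finite)
    (hsum : Summable (fun i => (θ i : ℝ) * (h i : ℝ))) (D D' : Finset ι)
    (hDm : hfin.toFinset ⊆ D) (hDD' : D ⊆ D') (hsupp : ∀ i ∈ D', θ i ≠ 0) :
    (((∑ i ∈ D', (θ i : ℝ) * (h' i : ℝ)) + ((∑' i, if i ∈ D' then (0 : ℝ) else (θ i : ℝ) * (h i : ℝ)) / ((D' \ hfin.toFinset).card : ℝ)) * (∑ σ ∈ D' \ hfin.toFinset, ((h' σ : ℝ) / (h σ : ℝ)))) - ((∑ i ∈ D, (θ i : ℝ) * (h' i : ℝ)) + ((∑' i, if i ∈ D then (0 : ℝ) else (θ i : ℝ) * (h i : ℝ)) / ((D \ hfin.toFinset).card : ℝ)) * (∑ σ ∈ D \ hfin.toFinset, ((h' σ : ℝ) / (h σ : ℝ)))) =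
      ∑ τ ∈ D' \ D, ((θ τ : ℝ) * (h τ : ℝ) + (∑' i, if i ∈ D' then (0 : ℝ) else (θ i : ℝ) * (h i : ℝ)) / ((D' \ hfin.toFinset).card : ℝ)) *
        (((h' τ : ℝ) / (h τ : ℝ)) - (1 / ((D \ hfin.toFinset).card : ℝ)) * (∑ σ ∈ D \ hfin.toFinset, ((h' σ : ℝ) / (h σ : ℝ))))) ∧
    ((∑' i, (θ i : ℝ) * (h' i : ℝ)) - ((∑ i ∈ D, (θ i : ℝ) * (h' i : ℝ)) + ((∑' i, if i ∈ D then (0 : ℝ) else (θ i : ℝ) * (h i : ℝ)) / ((D \ hfin.toFinset).card : ℝ)) * (∑ σ ∈ D \ hfin.toFinset, ((h' σ : ℝ) / (h σ : ℝ)))) =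
      ∑' τ, if τ ∈ D then (0 : ℝ) else (θ τ : ℝ) * (h τ : ℝ) *
        (((h' τ : ℝ) / (h τ : ℝ)) - (1 / ((D \ hfin.toFinset).card : ℝ)) * (∑ σ ∈ D \ hfin.toFinset, ((h' σ : ℝ) / (h σ : ℝ))))) := by
  have hcanc : ∀ τ, (h τ : ℝ) * ((h' τ : ℝ) / (h τ : ℝ)) = h' τ := by
    intro τ
    by_cases h0 : h τ = 0
    · have : h' τ = 0 := Nat.le_zero.mp (h0 ▸ hle τ)
      rw [h0, this]; simp
    · have : (h τ : ℝ) ≠ 0 := Nat.cast_ne_zero.mpr h0
      field_simp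
  have hsum' : Summable (fun i => (θ i : ℝ) * (h' i : ℝ)) := by
    apply Summable.of_norm_bounded hsum.norm
    intro i
    rw [norm_mul, norm_mul]
    apply mul_le_mul_of_nonneg_left _ (norm_nonneg _)
    simp only [Real.norm_natCast]
    exact_mod_cast hle i
  rw [tsumite _ hsum D, tsumite _ hsum D']
  set Dm := hfin.toFinset with hDmdef
  set s := ∑ σ ∈ D \ Dm, ((h' σ : ℝ) / (h σ : ℝ)) with hs
  set s' := ∑ σ ∈ D' \ Dm, ((h' σ : ℝ) / (h σ : ℝ)) with hs'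
  set T := ∑' i, (θ i : ℝ) * (h i : ℝ) with hT
  set c : ℝ := ((D \ Dm).card : ℝ) with hc
  set c' : ℝ := ((D' \ Dm).card : ℝ) with hc'
  clear_value s s' T c c'
  have hs0 : c = 0 → s = 0 := by
    intro h0
    have : (D \ Dm).card = 0 := by rw [hc] at h0; exact_mod_cast h0
    rw [Finset.card_eq_zero] at this
    rw [hs, this]; simp
  constructor
  · have hsplit : ∀ (F : ι → ℝ), ∑ i ∈ D', F i = ∑ i ∈ D' \ D, F i + ∑ i ∈ D, F i := by
      intro F; rw [Finset.sum_sdiff hDD']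
    have hsd : (D' \ Dm) \ (D \ Dm) = D' \ D := by
      ext i
      simp only [Finset.mem_sdiff]
      constructor
      · rintro ⟨⟨h1, h2⟩, h3⟩
        exact ⟨h1, fun h4 => h3 ⟨h4, h2⟩⟩
      · rintro ⟨h1, h2⟩
        exact ⟨⟨h1, fun h4 => h2 (hDm h4)⟩, fun h4 => h2 h4.1⟩
    have hsub : D \ Dm ⊆ D' \ Dm := Finset.sdiff_subset_sdiff hDD' (le_refl _)
    have hsplit2 : s' = ∑ i ∈ D' \ D, ((h' i : ℝ) / (h i : ℝ)) + s := by
      rw [hs', hs, ← hsd, Finset.sum_sdiff hsub]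
    have hcard : c' = ((D' \ D).card : ℝ) + c := by
      rw [hc', hc, ← hsd]
      have := Finset.card_sdiff_add_card_eq_card hsub
      exact_mod_cast this.symm
    have hs0' : c' = 0 → s' = 0 := by
      intro h0
      have : (D' \ Dm).card = 0 := by rw [hc'] at h0; exact_mod_cast h0
      rw [Finset.card_eq_zero] at this
      rw [hs', this]; simp
    have hRHS : ∑ τ ∈ D' \ D, ((θ τ : ℝ) * (h τ : ℝ) + (T - ∑ i ∈ D', (θ i : ℝ) * (h i : ℝ)) / c') *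
        (((h' τ : ℝ) / (h τ : ℝ)) - (1 / c) * s) = ∑ τ ∈ D' \ D, (θ τ : ℝ) * (h' τ : ℝ) - (1/c * s) * ∑ τ ∈ D' \ D, (θ τ : ℝ) * (h τ : ℝ) + (T - ∑ i ∈ D', (θ i : ℝ) * (h i : ℝ)) / c' * (∑ τ ∈ D' \ D, ((h' τ : ℝ) / (h τ : ℝ))) - ((D' \ D).card : ℝ) * ((T - ∑ i ∈ D', (θ i : ℝ) * (h i : ℝ)) / c' * (1/c * s)) := by
      rw [Finset.mul_sum, Finset.mul_sum, ← nsmul_eq_mul, ← Finset.sum_const, ← Finset.sum_sub_distrib, ← Finset.sum_add_distrib, ← Finset.sum_sub_distrib]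
      apply Finset.sum_congr rfl
      intro τ _
      linear_combination (θ τ : ℝ) * hcanc τ
    rw [hRHS, hsplit (fun i => (θ i : ℝ) * (h' i : ℝ)), hsplit (fun i => (θ i : ℝ) * (h i : ℝ)), hsplit2]
    have hcd : ((D' \ D).card : ℝ) = c' - c := by rw [hcard]; ring
    rw [hcd]
    by_cases hc0 : c = 0
    · rw [hs0 hc0, hc0]; ring
    · by_cases hc1 : c' = 0
      · exfalso
        have h1 : (0 : ℝ) ≤ ((D' \ D).card : ℝ) := Nat.cast_nonneg _
        have h2 : (0 : ℝ) ≤ c := by rw [hc]; exact Nat.cast_nonneg _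
        have h3 : 0 < c := lt_of_le_of_ne h2 (Ne.symm hc0)
        rw [hcard] at hc1
        linarith
      · field_simp
        ring
  · have e1 : (fun τ => if τ ∈ D then (0 : ℝ) else (θ τ : ℝ) * (h τ : ℝ) *
        (((h' τ : ℝ) / (h τ : ℝ)) - (1 / c) * s)) = (fun τ => (if τ ∈ D then (0 : ℝ) else (θ τ : ℝ) * (h' τ : ℝ)) - (1 / c * s) * (if τ ∈ D then (0 : ℝ) else (θ τ : ℝ) * (h τ : ℝ))) := by
      ext τ
      split_ifs
      · simp
      · linear_combination (θ τ : ℝ) * hcanc τ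
    rw [e1, Summable.tsum_sub (summite _ hsum' D) ((summite _ hsum D).mul_left _), tsum_mul_left, tsumite _ hsum' D, tsumite _ hsum D, hT]
    ring

end Groth.Agent.S19502
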