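import Groth.Statements.S19551
import Mathlib

set_option autoImplicit false
universe u v w
open KronMod

namespace Groth.Agent.S19551

/-- Case of two arrows. Over an algebraically closed field K, if a Kronecker module f = (f_0, f_1) with
two arrows between spaces V and W of the same finite dimension k is semistable, then some linear
combination z_0 f_0 + z_1 f_1 of its arrows is a linear isomorphism V → W: for two arrows the
semistable locus of dimension vector (k, k) lies in the open set of modules whose generic
combination is invertible, for every k. (The published statement, over an algebraically closed field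
of characteristic zero, also covers the dimension vectors (1, 1) and (2, 2) for any number of
arrows; this row states the two-arrow case for all k, without the characteristic assumption.) -/
theorem result (K : Type u) [Field K] [IsAlgClosed K]
    (V : Type v) (W : Type w)
    [AddCommGroup V] [Module K V] [FiniteDimensional K V]
    [AddCommGroup W] [Module K W] [FiniteDimensional K W]
    (f : Fin 2 → (V →ₗ[K] W)) (k : ℕ)
    (hV : Module.finrank K V = k) (hW : Module.finrank K W = k)
    (hf : KronMod.IsSemistable f) :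
    ∃ z : Fin 2 → K, Function.Bijective ((∑ j, z j • f j : V →ₗ[K] W) : V → W) := by
  classical
  have hk : 0 < k := by have := hf.1; omega
  let Φ : Submodule K V → Submodule K V := fun U => (U.map (f 1)).comap (f 0)
  have hΦ : Monotone Φ := fun U U' h => Submodule.comap_mono (Submodule.map_mono h)
  let Us : ℕ → Submodule K V := fun n => Φ^[n] ⊥
  have hUs0 : Us 0 = ⊥ := rfl
  have hUss : ∀ n, Us (n+1) = Φ (Us n) := fun n => Function.iterate_succ_apply' Φ n ⊥
  have hmono : Monotone Us := by
    apply monotone_nat_of_le_succ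
    intro n
    induction n with
    | zero => rw [hUs0]; exact bot_le
    | succ n ih => rw [hUss, hUss (n+1)]; exact hΦ ih
  let U : Submodule K V := ⨆ n, Us n
  have hdir : Directed (· ≤ ·) Us := hmono.directed_le
  have hmemU : ∀ x, x ∈ U ↔ ∃ n, x ∈ Us n := fun x => Submodule.mem_iSup_of_directed _ hdir
  have hU : ∀ x, f 0 x ∈ U.map (f 1) → x ∈ U := by
    rintro x ⟨y, hy, hxy⟩
    obtain ⟨n, hn⟩ := (hmemU y).mp hy
    rw [hmemU]
    refine ⟨n+1, ?_⟩
    rw [hUss]
    exact ⟨y, hn, hxy⟩
  have hU' : ∀ x ∈ U, f 0 x ∈ U.map (f 1) := by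
    intro x hx
    obtain ⟨n, hn⟩ := (hmemU x).mp hx
    have : x ∈ Us (n+1) := hmono (Nat.le_succ n) hn
    rw [hUss] at this
    obtain ⟨y, hy, hxy⟩ := this
    exact ⟨y, (hmemU y).mpr ⟨n, hy⟩, hxy⟩
  have hsub : KronMod.IsSubrep f U (U.map (f 1)) := by
    intro j
    fin_cases j
    · rintro _ ⟨x, hx, rfl⟩
      exact hU' x hx
    · exact le_rfl
  have hdim : Module.finrank K U ≤ Module.finrank K (U.map (f 1)) := by
    by_cases hb : U = ⊥ ∧ U.map (f 1) = ⊥
    · rw [hb.1]; simp
    by_cases ht : U = ⊤ ∧ U.map (f 1) = ⊤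
    · rw [ht.2, ht.1, finrank_top, finrank_top, hV, hW]
    have := hf.2 U _ hsub hb ht
    rw [hV, hW] at this
    exact Nat.le_of_mul_le_mul_left this hk
  have hdim' : Module.finrank K U = Module.finrank K (U.map (f 1)) := by
    apply le_antisymm hdim
    exact Submodule.finrank_map_le _ _
  -- f 1 injective on U
  have hinj : ∀ x ∈ U, f 1 x = 0 → x = 0 := by
    let g : U →ₗ[K] (U.map (f 1)) := (f 1).submoduleMap U
    have hgs : Function.Surjective g := LinearMap.submoduleMap_surjective _ _
    have hgi : Function.Injective g := by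
      rw [LinearMap.injective_iff_surjective_of_finrank_eq_finrank hdim']
      exact hgs
    intro x hx h0
    have : g ⟨x, hx⟩ = 0 := Subtype.ext h0
    have h2 := hgi (this.trans (map_zero g).symm)
    exact congrArg Subtype.val h2
  -- quotient maps
  let W' := U.map (f 1)
  let q0 : (V ⧸ U) →ₗ[K] (W ⧸ W') := U.mapQ W' (f 0) (fun x hx => hU' x hx)
  let q1 : (V ⧸ U) →ₗ[K] (W ⧸ W') := U.mapQ W' (f 1) (fun x hx => ⟨x, hx, rfl⟩)
  have hq0i : Function.Injective q0 := by
    rw [injective_iff_map_eq_zero]
    intro y hy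
    obtain ⟨x, rfl⟩ := Submodule.Quotient.mk_surjective U y
    change Submodule.Quotient.mk (f 0 x) = 0 at hy
    rw [Submodule.Quotient.mk_eq_zero] at hy ⊢
    exact hU x hy
  have hfr : Module.finrank K (V ⧸ U) = Module.finrank K (W ⧸ W') := by
    have h1 := Submodule.finrank_quotient_add_finrank U
    have h2 := Submodule.finrank_quotient_add_finrank W'
    change Module.finrank K U = Module.finrank K W' at hdim'
    omega
  have hq0s : Function.Surjective q0 := (LinearMap.injective_iff_surjective_of_finrank_eq_finrank hfr).mp hq0i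
  let E : (V ⧸ U) ≃ₗ[K] (W ⧸ W') := LinearEquiv.ofBijective q0 ⟨hq0i, hq0s⟩
  let g : Module.End K (V ⧸ U) := E.symm.toLinearMap ∘ₗ q1
  obtain ⟨μ, hμ0, hμ⟩ : ∃ μ : K, μ ≠ 0 ∧ ¬ Module.End.HasEigenvalue g μ := by
    have hfin : Set.Finite {μ : K | Module.End.HasEigenvalue g μ} := Module.End.finite_hasEigenvalue g
    have hinf : Set.Infinite (Set.univ : Set K) := Set.infinite_univ
    obtain ⟨μ, -, hμ⟩ := hinf.exists_notMem_finite (hfin.union (Set.finite_singleton (0:K)))
    refine ⟨μ, ?_, ?_⟩
    · intro h; apply hμ; right; exact h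
    · intro h; apply hμ; left; exact h
  refine ⟨![1, -μ⁻¹], ?_⟩
  have hsum : (∑ j, (![1, -μ⁻¹] : Fin 2 → K) j • f j : V →ₗ[K] W) = f 0 - μ⁻¹ • f 1 := by
    rw [Fin.sum_univ_two]; simp [sub_eq_add_neg]
  rw [hsum]
  have hinj2 : Function.Injective (f 0 - μ⁻¹ • f 1 : V →ₗ[K] W) := by
    rw [injective_iff_map_eq_zero]
    intro x hx
    have hx' : f 0 x = μ⁻¹ • f 1 x := by
      rw [LinearMap.sub_apply, LinearMap.smul_apply, sub_eq_zero] at hx
      exact hx
    -- x in U
    have hxU : x ∈ U := by
      by_contra hnot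
      apply hμ
      have h1 : q0 (Submodule.Quotient.mk x) = μ⁻¹ • q1 (Submodule.Quotient.mk x) := by
        change Submodule.Quotient.mk (f 0 x) = μ⁻¹ • Submodule.Quotient.mk (f 1 x)
        rw [hx']; rfl
      have h2 : g (Submodule.Quotient.mk x) = μ • (Submodule.Quotient.mk x : V ⧸ U) := by
        change E.symm (q1 (Submodule.Quotient.mk x)) = _
        rw [LinearEquiv.symm_apply_eq, map_smul]
        change _ = μ • q0 _
        rw [h1, smul_smul, mul_inv_cancel₀ hμ0, one_smul]
      apply Module.End.hasEigenvalue_of_hasEigenvector (x := (Submodule.Quotient.mk x : V ⧸ U))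
      refine ⟨Module.End.mem_eigenspace_iff.mpr h2, ?_⟩
      intro h0
      exact hnot ((Submodule.Quotient.mk_eq_zero U).mp h0)
    obtain ⟨n, hn⟩ := (hmemU x).mp hxU
    have key : ∀ n, ∀ x ∈ Us n, f 0 x = μ⁻¹ • f 1 x → x = 0 := by
      intro n
      induction n with
      | zero => intro x hx _; rw [hUs0] at hx; exact (Submodule.mem_bot K).mp hx
      | succ n ih =>
        intro x hx hxe
        have hxU : x ∈ U := (hmemU x).mpr ⟨n+1, hx⟩
        rw [hUss] at hx
        obtain ⟨y, hy, hxy⟩ := hx
        have hyU : y ∈ U := (hmemU y).mpr ⟨n, hy⟩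
        have h1 : f 1 (μ⁻¹ • x - y) = 0 := by
          rw [map_sub, map_smul, ← hxe, hxy, sub_self]
        have h2 := hinj _ (U.sub_mem (U.smul_mem _ hxU) hyU) h1
        have h3 : x = μ • y := by
          rw [← sub_eq_zero.mp h2, smul_smul, mul_inv_cancel₀ hμ0, one_smul]
        apply ih x _ hxe
        rw [h3]; exact (Us n).smul_mem _ hy
    exact key n x hn hx'
  exact ⟨hinj2, (LinearMap.injective_iff_surjective_of_finrank_eq_finrank (hV.trans hW.symm)).mp hinj2⟩

end Groth.Agent.S19551
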