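import Groth.Statements.S19552
import Mathlib
import Groth.Agent.Lib.H29_Trace

set_option autoImplicit false
universe u
open CAlg

namespace Groth.Agent.S19552

open Groth.Agent.H29Trace
open scoped TensorProduct

/-- Let R be a Noetherian ring of Krull dimension d and P, Q finitely generated projective R-modules of
constant rank at every prime which have the same class in the Grothendieck group, i.e. are stably
isomorphic: P ⊕ R^m ≅ Q ⊕ R^m for some m. Then there is a positive integer N with P^N ≅ Q^N. (The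
two exponents in the published display are read as the same integer N; for modules of positive rank
an isomorphism between direct powers forces equal exponents.) -/
theorem result (R : Type u) [CommRing R] [IsNoetherianRing R]
    (d n : ℕ) (hdim : ringKrullDim R = d)
    (P Q : Type u) [AddCommGroup P] [Module R P] [Module.Finite R P] [Module.Projective R P]
    [AddCommGroup Q] [Module R Q] [Module.Finite R Q] [Module.Projective R Q]
    (hrk : ∀ p : PrimeSpectrum R, Module.rankAtStalk (R := R) P p = n)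
    (hrk' : ∀ p : PrimeSpectrum R, Module.rankAtStalk (R := R) Q p = n)
    (m : ℕ) (e : (P × (Fin m → R)) ≃ₗ[R] (Q × (Fin m → R))) :
    ∃ N : ℕ, 1 ≤ N ∧ Nonempty ((Fin N → P) ≃ₗ[R] (Fin N → Q)) := by
  by_cases hn : n = 0
  · subst hn
    haveI : Subsingleton P := Module.rankAtStalk_eq_zero_iff_subsingleton.mp (funext hrk)
    haveI : Subsingleton Q := Module.rankAtStalk_eq_zero_iff_subsingleton.mp (funext hrk')
    exact ⟨1, le_rfl, ⟨LinearEquiv.ofSubsingleton _ _⟩⟩
  obtain ⟨a, K, _, _, ⟨eA⟩⟩ := exists_pow_summand P (exists_trace_one_of_rank P (fun p => by rw [hrk]; exact hn)) m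
  obtain ⟨b, L, _, _, ⟨eB⟩⟩ := exists_pow_summand Q (exists_trace_one_of_rank Q (fun p => by rw [hrk']; exact hn)) m
  obtain ⟨f1⟩ := cancel_pow P Q m e (Fin (a+1) → P) ⟨P × K, inferInstance, inferInstance,
    ⟨(consL P a) ≪≫ₗ ((LinearEquiv.refl R P).prodCongr eA) ≪≫ₗ (LinearEquiv.prodAssoc R P K (Fin m → R)).symm⟩⟩ b
  obtain ⟨f2⟩ := cancel_pow P Q m e (Fin b → Q) ⟨L, inferInstance, inferInstance, ⟨eB⟩⟩ (a+1)
  refine ⟨b + (a+1), by omega, ⟨?_⟩⟩
  exact addL P b (a+1) ≪≫ₗ f1 ≪≫ₗ LinearEquiv.prodComm R _ _ ≪≫ₗ f2 ≪≫ₗ LinearEquiv.prodComm R _ _ ≪≫ₗ (addL Q b (a+1)).symm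

end Groth.Agent.S19552
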