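import Groth.Statements.S1957
import Groth.Agent.Lib.H3EtLift

set_option autoImplicit false
set_option maxHeartbeats 400000
universe u
open Polynomial
open EtAlg

namespace Groth.Agent.S1957

/-- Let A be a ring, I an ideal and f a monic polynomial over A. Suppose the image of f in (A/I)[x]
factors as g h where the leading coefficient of g is a unit and g, h generate the unit ideal. Then
there is an etale A-algebra A' such that A/I -> A'/IA' is bijective, together with a factorization f
= g' h' in A'[x] whose reduction modulo IA' is the image of the given one. -/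
theorem result (A : Type u) [CommRing A] (I : Ideal A) (f : A[X]) (hf : f.Monic)
    (g h : (A ⧸ I)[X]) (hgh : f.map (Ideal.Quotient.mk I) = g * h) (hlead : IsUnit g.leadingCoeff)
    (hcop : IsCoprime g h) :
    ∃ (A' : Type u) (_ : CommRing A') (_ : Algebra A A') (_ : Algebra.Etale A A'),
      Function.Bijective (Ideal.quotientMap (I.map (algebraMap A A')) (algebraMap A A') Ideal.le_comap_map) ∧
      ∃ g' h' : A'[X], f.map (algebraMap A A') = g' * h' ∧
        g'.map (Ideal.Quotient.mk (I.map (algebraMap A A'))) =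
          g.map (Ideal.quotientMap (I.map (algebraMap A A')) (algebraMap A A') Ideal.le_comap_map) ∧
        h'.map (Ideal.Quotient.mk (I.map (algebraMap A A'))) =
          h.map (Ideal.quotientMap (I.map (algebraMap A A')) (algebraMap A A') Ideal.le_comap_map) := by
  rcases subsingleton_or_nontrivial (A ⧸ I) with hs | hs
  · let A' := Localization.Away (0 : A)
    have hA' : Subsingleton A' := by
      have h0 : IsUnit (algebraMap A A' 0) := IsLocalization.Away.algebraMap_isUnit 0
      rw [map_zero, isUnit_zero_iff] at h0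
      exact subsingleton_of_zero_eq_one h0
    have hA'' : Subsingleton (A' ⧸ I.map (algebraMap A A')) :=
      Function.Surjective.subsingleton (Ideal.Quotient.mk_surjective)
    exact ⟨A', inferInstance, inferInstance, inferInstance,
      ⟨fun x y _ => Subsingleton.elim _ _, fun x => ⟨0, Subsingleton.elim _ _⟩⟩,
      1, 1, Subsingleton.elim _ _, Subsingleton.elim _ _, Subsingleton.elim _ _⟩
  · obtain ⟨u, hu⟩ := hlead
    have hfm : (g * h).Monic := hgh ▸ hf.map _
    have hu2 : (u : A ⧸ I) * h.leadingCoeff = 1 := by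
      have h0 : g.leadingCoeff * h.leadingCoeff ≠ 0 := by
        intro h0
        have h1 : h.leadingCoeff = 0 := by
          rw [← hu] at h0
          have := congrArg (fun x => (↑u⁻¹ : A ⧸ I) * x) h0
          simpa using this
        rw [leadingCoeff_eq_zero] at h1
        rw [h1, mul_zero] at hfm
        exact hfm.ne_zero rfl
      have h1 := leadingCoeff_mul' h0
      rw [hfm.leadingCoeff, ← hu] at h1
      exact h1.symm
    have huu : (↑u⁻¹ : A ⧸ I) * (u : A ⧸ I) = 1 := u.inv_mul
    have huu' : (u : A ⧸ I) * (↑u⁻¹ : A ⧸ I) = 1 := u.mul_inv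
    have hg0 : (C (↑u⁻¹ : A ⧸ I) * g).Monic := by
      apply monic_C_mul_of_mul_leadingCoeff_eq_one
      rw [← hu]; exact huu
    have hh0 : (C (u : A ⧸ I) * h).Monic := by
      apply monic_C_mul_of_mul_leadingCoeff_eq_one
      exact hu2
    have hCu : C (↑u⁻¹ : A ⧸ I) * C (u : A ⧸ I) = 1 := by rw [← C_mul, huu, C_1]
    have hc0 : IsCoprime (C (↑u⁻¹ : A ⧸ I) * g) (C (u : A ⧸ I) * h) := by
      obtain ⟨a, b, hab⟩ := hcop
      refine ⟨C (u : A ⧸ I) * a, C (↑u⁻¹ : A ⧸ I) * b, ?_⟩
      linear_combination (a * g + b * h) * hCu + hab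
    have hf0 : f.map (Ideal.Quotient.mk I) = (C (↑u⁻¹ : A ⧸ I) * g) * (C (u : A ⧸ I) * h) := by
      rw [hgh]
      linear_combination (- g * h) * hCu
    obtain ⟨B, _, _, _, σ, g₁, h₁, -, -, -, hf₁, hgσ, hhσ⟩ :=
      Groth.Agent.H3EtLift.exists_univ_factorization I f hf _ _ hg0 hh0 hc0 hf0
    obtain ⟨a, ha⟩ := Ideal.Quotient.mk_surjective (u : A ⧸ I)
    let B2 := Localization.Away (algebraMap A B a)
    have hσa : IsUnit (σ (algebraMap A B a)) := by
      rw [σ.commutes]
      change IsUnit (Ideal.Quotient.mk I a)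
      rw [ha]; exact u.isUnit
    obtain ⟨ρ, hρ0⟩ := Groth.Agent.H3EtLift.exists_extend_away σ (algebraMap A B a) hσa
    have hρ : ρ.toRingHom.comp (algebraMap B B2) = σ.toRingHom := RingHom.ext hρ0
    obtain ⟨A', _, _, _, τ, hbij, hτ⟩ := Groth.Agent.H3EtLift.exists_etale_nbhd I ρ
    have hunit : IsUnit (algebraMap A A' a) := by
      have h1 : IsUnit (algebraMap B B2 (algebraMap A B a)) := IsLocalization.Away.algebraMap_isUnit _
      have h2 := h1.map τ
      rw [← IsScalarTower.algebraMap_apply, τ.commutes] at h2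
      exact h2
    obtain ⟨v, hv⟩ := hunit
    let ψ : B →+* A' := τ.toRingHom.comp (algebraMap B B2)
    have hψA : ψ.comp (algebraMap A B) = algebraMap A A' := by
      ext x
      change τ (algebraMap B B2 (algebraMap A B x)) = _
      rw [← IsScalarTower.algebraMap_apply, τ.commutes]
    have hq : Ideal.quotientMap (I.map (algebraMap A A')) (algebraMap A A') Ideal.le_comap_map =
        algebraMap (A ⧸ I) (A' ⧸ I.map (algebraMap A A')) := by
      apply Ideal.Quotient.ringHom_ext
      ext x
      rfl
    have hcomp : (Ideal.Quotient.mk (I.map (algebraMap A A'))).comp ψ =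
        (algebraMap (A ⧸ I) (A' ⧸ I.map (algebraMap A A'))).comp σ.toRingHom := by
      rw [← hρ]
      ext x
      exact hτ (algebraMap B B2 x)
    have hvu : Ideal.Quotient.mk (I.map (algebraMap A A')) (v : A') =
        algebraMap (A ⧸ I) (A' ⧸ I.map (algebraMap A A')) (u : A ⧸ I) := by
      rw [hv, ← ha]; rfl
    have hvu' : Ideal.Quotient.mk (I.map (algebraMap A A')) (↑v⁻¹ : A') =
        algebraMap (A ⧸ I) (A' ⧸ I.map (algebraMap A A')) (↑u⁻¹ : A ⧸ I) := by
      have h1 : Ideal.Quotient.mk (I.map (algebraMap A A')) (v : A') *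
        Ideal.Quotient.mk (I.map (algebraMap A A')) (↑v⁻¹ : A') = 1 := by
        rw [← map_mul, v.mul_inv, map_one]
      have h2 : algebraMap (A ⧸ I) (A' ⧸ I.map (algebraMap A A')) (↑u⁻¹ : A ⧸ I) *
        Ideal.Quotient.mk (I.map (algebraMap A A')) (v : A') = 1 := by
        rw [hvu, ← map_mul, huu, map_one]
      calc Ideal.Quotient.mk (I.map (algebraMap A A')) (↑v⁻¹ : A')
          = (algebraMap (A ⧸ I) (A' ⧸ I.map (algebraMap A A')) (↑u⁻¹ : A ⧸ I) *
        Ideal.Quotient.mk (I.map (algebraMap A A')) (v : A')) * Ideal.Quotient.mk (I.map (algebraMap A A')) (↑v⁻¹ : A') := by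
            rw [h2, one_mul]
        _ = _ := by rw [mul_assoc, h1, mul_one]
    have hCv : C (v : A') * C (↑v⁻¹ : A') = 1 := by rw [← C_mul, v.mul_inv, C_1]
    refine ⟨A', inferInstance, inferInstance, inferInstance, ?_, C (v : A') * g₁.map ψ,
      C (↑v⁻¹ : A') * h₁.map ψ, ?_, ?_, ?_⟩
    · rw [hq]; exact hbij
    · rw [← hψA, ← Polynomial.map_map, hf₁, Polynomial.map_mul]
      linear_combination (- (g₁.map ψ) * (h₁.map ψ)) * hCv
    · rw [hq, Polynomial.map_mul, map_C, hvu, Polynomial.map_map, hcomp, ← Polynomial.map_map, hgσ,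
        Polynomial.map_mul, map_C, ← mul_assoc, ← C_mul, ← map_mul, huu', map_one, C_1, one_mul]
    · rw [hq, Polynomial.map_mul, map_C, hvu', Polynomial.map_map, hcomp, ← Polynomial.map_map, hhσ,
        Polynomial.map_mul, map_C, ← mul_assoc, ← C_mul, ← map_mul, huu, map_one, C_1, one_mul]

end Groth.Agent.S1957
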