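import Groth.Statements.S19574
import Mathlib

set_option autoImplicit false
universe u
open CategoryTheory MonoidalCategory
open Lie3Mod

namespace Groth.Agent.S19574

open CategoryTheory MonoidalCategory TensorProduct

theorem exact_of (R : Type u) [CommRing R] (K : ChainComplex (ModuleCat.{u} R) ℕ) (hK : K.Acyclic) (i : ℕ)
   (y : K.X (i + 1)) (hy : (K.d (i+1) i).hom y = 0) : ∃ w : K.X (i + 2), (K.d (i+2) (i+1)).hom w = y := by
  have h := hK (i + 1)
  rw [HomologicalComplex.exactAt_iff' K (i+2) (i+1) i (by simp) (by simp)] at h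
  rw [ShortComplex.moduleCat_exact_iff] at h
  exact h y hy

theorem surj_of (R : Type u) [CommRing R] (K : ChainComplex (ModuleCat.{u} R) ℕ) (hK : K.Acyclic) 
   (y : K.X 0) : ∃ w : K.X 1, (K.d 1 0).hom w = y := by
  have h := hK 0
  rw [HomologicalComplex.exactAt_iff' K 1 0 0 (by simp) (by simp)] at h
  rw [ShortComplex.moduleCat_exact_iff] at h
  refine h y ?_
  have : K.d 0 0 = 0 := K.shape _ _ (by simp)
  change (K.d 0 0).hom y = 0
  rw [this]; rfl

theorem lidmem {R : Type u} [CommRing R] (I : Ideal R) {P : Type u} [AddCommGroup P] [Module R P] (x : I ⊗[R] P) :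
    TensorProduct.lid R P (I.subtype.rTensor P x) ∈ (I • ⊤ : Submodule R P) := by
  induction x with
  | zero => simp
  | tmul a b =>
    simp only [LinearMap.rTensor_tmul, TensorProduct.lid_tmul]
    exact Submodule.smul_mem_smul a.2 trivial
  | add a b ha hb => rw [map_add, map_add]; exact add_mem ha hb

theorem exlid {R : Type u} [CommRing R] (I : Ideal R) {P : Type u} [AddCommGroup P] [Module R P] (y : P) 
    (hy : y ∈ (I • ⊤ : Submodule R P)) : ∃ x : I ⊗[R] P, TensorProduct.lid R P (I.subtype.rTensor P x) = y := by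
  induction hy using Submodule.smul_induction_on' with
  | smul r hr n hn => exact ⟨⟨r, hr⟩ ⊗ₜ n, by simp⟩
  | add x hx y hy h1 h2 =>
    obtain ⟨a, ha⟩ := h1
    obtain ⟨b, hb⟩ := h2
    exact ⟨a + b, by rw [map_add, map_add, ha, hb]⟩

theorem zero_iff {R : Type u} [CommRing R] (I : Ideal R) {P : Type u} [AddCommGroup P] [Module R P] (y : P) :
    ((1 : R ⧸ I) ⊗ₜ[R] y = 0) ↔ y ∈ (I • ⊤ : Submodule R P) := by
  rw [← (TensorProduct.quotTensorEquivQuotSMul P I).map_eq_zero_iff]
  have : (1 : R ⧸ I) = Ideal.Quotient.mk I 1 := rfl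
  rw [this, TensorProduct.quotTensorEquivQuotSMul_mk_tmul, one_smul, Submodule.Quotient.mk_eq_zero]

theorem nat {R : Type u} [CommRing R] (I : Ideal R) {P Q : Type u} [AddCommGroup P] [Module R P] [AddCommGroup Q] [Module R Q]
   (f : P →ₗ[R] Q) (x : I ⊗[R] P) : TensorProduct.lid R Q (I.subtype.rTensor Q (f.lTensor I x)) = f (TensorProduct.lid R P (I.subtype.rTensor P x)) := by
  induction x with
  | zero => simp
  | tmul a b => simp
  | add a b ha hb => simp only [map_add, ha, hb]

/-- Let R be a commutative ring and d ≥ 1. Let K be a chain complex of R-modules concentrated in degrees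
0, …, d + 1, written … → 0 → P_{d+1} → P_d → … → P_1 → M with M = K_0, which is exact (so 0 →
P_{d+1} → … → P_1 → M → 0 is an exact sequence), such that P_1, …, P_d are flat R-modules and such
that for every ideal I of R the complex obtained by applying (R/I) ⊗_R − termwise is again exact.
Then M is a flat R-module. (No flatness is assumed for P_{d+1}. The published lemma adds that for R
Noetherian it suffices to test prime ideals I; that refinement is not part of this statement.) -/
theorem result (R : Type u) [CommRing R]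
    (d : ℕ) (hd : 1 ≤ d) (K : ChainComplex (ModuleCat.{u} R) ℕ)
    (hzero : ∀ i : ℕ, d + 1 < i → Limits.IsZero (K.X i))
    (hflat : ∀ i : ℕ, 1 ≤ i → i ≤ d → Module.Flat R (K.X i))
    (hK : K.Acyclic)
    (hbc : ∀ I : Ideal R,
      (((tensorLeft (ModuleCat.of R (R ⧸ I))).mapHomologicalComplex (ComplexShape.down ℕ)).obj K).Acyclic) :
    Module.Flat R (K.X 0) := by
  haveI := hflat 1 le_rfl hd
  rw [Module.Flat.iff_rTensor_injective]
  intro I hI
  rw [injective_iff_map_eq_zero]
  intro x hx
  obtain ⟨x', hx'⟩ := LinearMap.lTensor_surjective (I : Type u) (g := (K.d 1 0).hom) (surj_of R K hK) x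
  set z := TensorProduct.lid R (K.X 1) (I.subtype.rTensor (K.X 1) x') with hz
  have hz0 : (K.d 1 0).hom z = 0 := by
    rw [hz, ← nat, hx', hx, map_zero]
  have hzI : z ∈ (I • ⊤ : Submodule R (K.X 1)) := lidmem I x'
  obtain ⟨y, hy⟩ := exact_of R K hK 0 z hz0
  have h1 := exact_of R _ (hbc I) 1 ((1 : R ⧸ I) ⊗ₜ[R] y) (by
    change (1 : R ⧸ I) ⊗ₜ[R] ((K.d 2 1).hom y) = 0
    rw [zero_iff]
    have : (K.d 2 1).hom y = z := hy
    rw [this]; exact hzI)
  obtain ⟨w', hw'⟩ := h1
  obtain ⟨w, rfl⟩ := TensorProduct.mk_surjective R (K.X 3) (R ⧸ I) Ideal.Quotient.mk_surjective w'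
  have h2 : y - (K.d 3 2).hom w ∈ (I • ⊤ : Submodule R (K.X 2)) := by
    rw [← zero_iff, TensorProduct.tmul_sub, sub_eq_zero]
    exact hw'.symm
  obtain ⟨y', hy'⟩ := exlid I _ h2
  have h3 : x' = (K.d 2 1).hom.lTensor I y' := by
    apply Module.Flat.rTensor_preserves_injective_linearMap (M := K.X 1) I.subtype Subtype.val_injective
    apply (TensorProduct.lid R (K.X 1)).injective
    rw [nat, hy', map_sub]
    have e1 : (K.d 2 1).hom ((K.d 3 2).hom w) = 0 := by
      have := K.d_comp_d 3 2 1
      have h := congrArg (fun f => f.hom w) this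
      exact h
    have e2 : (K.d 2 1).hom y = z := hy
    rw [e1, e2, sub_zero]
  rw [← hx', h3, ← LinearMap.comp_apply, ← LinearMap.lTensor_comp]
  have e3 : (K.d 1 0).hom ∘ₗ (K.d 2 1).hom = 0 := by
    have := K.d_comp_d 2 1 0
    have h := congrArg (fun f => f.hom) this
    exact h
  rw [e3, LinearMap.lTensor_zero]
  rfl

end Groth.Agent.S19574
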