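import Groth.Statements.S1959
import Groth.Agent.Lib.H3EtLift

set_option autoImplicit false
universe u
open Polynomial
open EtAlg

namespace Groth.Agent.S1959

/-- Let I be an ideal of a ring A, A -> B an integral ring map and b an element of B whose image in B/IB
is idempotent. Then there are d ≥ 1 and a monic polynomial f over A with f(b) = 0 whose reduction
modulo I is x^d (x - 1)^d. -/
theorem result (A B : Type u) [CommRing A] [CommRing B] [Algebra A B]
    [Algebra.IsIntegral A B] (I : Ideal A) (b : B)
    (hb : IsIdempotentElem (Ideal.Quotient.mk (I.map (algebraMap A B)) b)) :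
    ∃ (f : A[X]) (d : ℕ), f.Monic ∧ 1 ≤ d ∧ aeval b f = 0 ∧
      f.map (Ideal.Quotient.mk I) = X ^ d * (X - 1) ^ d := by
  exact Groth.Agent.H3EtLift.exists_monic_annihilator A B I b hb

end Groth.Agent.S1959
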