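import Groth.Statements.S19590
import Mathlib

set_option autoImplicit false
open BddFin

namespace Groth.Agent.S19590

theorem core {n : ℕ} (g : Matrix (Fin n) (Fin n) ℤ) (q : ℕ) (hq : q.Prime) (hgq : g ^ q = 1)
    (hg : ∀ i j, (3:ℤ) ∣ (g - 1) i j) : g = 1 := by
  by_contra hne
  set Y := g - 1 with hY
  have hY0 : Y ≠ 0 := sub_ne_zero.mpr hne
  obtain ⟨i0, j0, hij⟩ : ∃ i j, Y i j ≠ 0 := by
    by_contra hcon
    push Not at hcon
    exact hY0 (by ext i j; exact hcon i j)
  have hex : ∃ a : ℕ, ¬ ∀ i j, (3:ℤ) ^ a ∣ Y i j := by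
    obtain ⟨a, ha⟩ : ∃ a : ℕ, ¬ (3:ℤ) ^ a ∣ Y i0 j0 := by
      refine ⟨(Y i0 j0).natAbs, ?_⟩
      intro hd
      have h1 := Int.natAbs_dvd_natAbs.mpr hd
      have h2 := Nat.le_of_dvd (Int.natAbs_pos.mpr hij) h1
      rw [Int.natAbs_pow] at h2
      have h3 : (Y i0 j0).natAbs < 3 ^ (Y i0 j0).natAbs := Nat.lt_pow_self (by norm_num)
      have h4 : (3:ℤ).natAbs = 3 := rfl
      rw [h4] at h2
      omega
    exact ⟨a, fun h => ha (h i0 j0)⟩
  classical
  let c := Nat.find hex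
  have hc : ¬ ∀ i j, (3:ℤ) ^ c ∣ Y i j := Nat.find_spec hex
  have hc0 : c ≠ 0 := by
    intro h; apply hc; intro i j; rw [h]; simp
  have hc1 : c ≠ 1 := by
    intro h; apply hc; intro i j; rw [h, pow_one]; exact hg i j
  obtain ⟨b, hb⟩ : ∃ b, c = b + 2 := ⟨c - 2, by omega⟩
  have hP : ∀ i j, (3:ℤ) ^ (b + 1) ∣ Y i j := by
    by_contra h
    have := Nat.find_min' hex h
    change c ≤ b + 1 at this
    omega
  choose X hX using hP
  have hYX : Y = (3:ℤ) ^ (b+1) • (Matrix.of X) := by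
    ext i j
    rw [hX i j]; rfl
  set X' := Matrix.of X with hX'
  -- contradiction if 3 divides all entries of X
  have hfin : ¬ ∀ i j, (3:ℤ) ∣ X' i j := by
    intro h
    apply hc
    intro i j
    obtain ⟨t, ht⟩ := h i j
    have : Y i j = (3:ℤ)^(b+1) * X' i j := by rw [hYX]; rfl
    rw [hb, this, ht]
    exact ⟨t, by ring⟩
  have hg1 : g = 1 + Y := by rw [hY]; abel
  apply hfin
  by_cases hq3 : q = 3
  · subst hq3
    have e1 : (1 + Y) ^ 3 = 1 + (3 • Y + 3 • (Y * Y) + Y * Y * Y) := by noncomm_ring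
    rw [← hg1, hgq] at e1
    have e2 : 3 • Y + 3 • (Y * Y) + Y * Y * Y = 0 := (left_eq_add.mp e1)
    rw [hYX] at e2
    have h3 : (3:ℤ) ^ (b+1) ≠ 0 := by positivity
    have e3 : (3:ℤ) ^ (b + 1) • ((3:ℤ) • X' + (3 * (3:ℤ) ^ (b+1)) • (X' * X') + ((3:ℤ) ^ (b+1)) ^ 2 • (X' * X' * X')) = 0 := by
      rw [← e2]
      simp only [Matrix.smul_mul, Matrix.mul_smul]
      module
    have e4 := (smul_eq_zero.mp e3).resolve_left h3
    intro i j
    have e5 := congrFun (congrFun e4 i) j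
    simp only [Matrix.add_apply, Matrix.smul_apply, smul_eq_mul, Matrix.zero_apply] at e5
    have e6 : (3:ℤ) * (X' i j + 3 ^ (b+1) * (X' * X') i j + 3 ^ (2*b+1) * (X' * X' * X') i j) = 0 := by
      rw [← e5]; ring
    have e7 := (mul_eq_zero.mp e6).resolve_left (by norm_num)
    refine ⟨-(3 ^ b * (X' * X') i j + 3 ^ (2*b) * (X' * X' * X') i j), ?_⟩
    linear_combination e7
  · have e0 : ∀ m : ℕ, ∃ Z : Matrix (Fin n) (Fin n) ℤ, (1 + Y) ^ m = 1 + ((m : ℤ) • Y + Y * Y * Z) := by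
      intro m
      induction m with
      | zero => exact ⟨0, by simp⟩
      | succ m ih =>
        obtain ⟨Z, hZ⟩ := ih
        refine ⟨(m:ℤ) • 1 + Z * (1 + Y), ?_⟩
        rw [pow_succ, hZ]
        simp only [add_mul, mul_add, one_mul, mul_one, Matrix.smul_mul, Matrix.mul_smul, Nat.cast_succ, add_smul, one_smul, mul_assoc]
        abel
    obtain ⟨Z, hZ⟩ := e0 q
    rw [← hg1, hgq] at hZ
    have e2 : (q : ℤ) • Y + Y * Y * Z = 0 := (left_eq_add.mp hZ)
    rw [hYX] at e2
    have e3 : (3:ℤ) ^ (b + 1) • ((q:ℤ) • X' + (3:ℤ) ^ (b + 1) • (X' * X' * Z)) = 0 := by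
      rw [← e2]
      simp only [Matrix.smul_mul, Matrix.mul_smul, smul_add, smul_smul]
      congr 2
      ring
    have e4 : (q:ℤ) • X' + (3:ℤ) ^ (b + 1) • (X' * X' * Z) = 0 := by
      have h3 : (3:ℤ) ^ (b+1) ≠ 0 := by positivity
      exact (smul_eq_zero.mp e3).resolve_left h3
    intro i j
    have e5 : (q:ℤ) * X' i j + (3:ℤ)^(b+1) * (X' * X' * Z) i j = 0 := by
      have := congrFun (congrFun e4 i) j
      simp only [Matrix.add_apply, Matrix.smul_apply, smul_eq_mul, Matrix.zero_apply] at this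
      exact this
    have e6 : (3:ℤ) ∣ (q:ℤ) * X' i j := by
      refine ⟨-(3^b * (X' * X' * Z) i j), ?_⟩
      linear_combination e5
    have h3p : Prime (3:ℤ) := Int.prime_three
    rcases h3p.dvd_or_dvd e6 with h | h
    · exfalso
      have h' : 3 ∣ q := by exact_mod_cast h
      exact hq3 ((Nat.prime_dvd_prime_iff_eq Nat.prime_three hq).mp h').symm
    · exact h

/-- For every n, the orders of the finite subgroups of GL_n(ℤ) are bounded: there is B such that every
finite subgroup of GL_n(ℤ) has at most B elements. -/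
theorem result (n : ℕ) :
    ∃ B : ℕ, ∀ H : Subgroup (Matrix.GeneralLinearGroup (Fin n) ℤ), Finite H → Nat.card H ≤ B := by
  classical
  refine ⟨Nat.card (Matrix.GeneralLinearGroup (Fin n) (ZMod 3)), fun H hH => ?_⟩
  let φ : Matrix.GeneralLinearGroup (Fin n) ℤ →* Matrix.GeneralLinearGroup (Fin n) (ZMod 3) :=
    Matrix.GeneralLinearGroup.map (Int.castRingHom (ZMod 3))
  apply Nat.card_le_card_of_injective (φ.comp H.subtype)
  rw [injective_iff_map_eq_one]
  intro h hh
  by_contra hne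
  have hpos := orderOf_pos h
  have hm1 : orderOf h ≠ 1 := fun h1 => hne (orderOf_eq_one_iff.mp h1)
  obtain ⟨q, hq, hqm⟩ := Nat.exists_prime_and_dvd hm1
  obtain ⟨m, hm⟩ := hqm
  have hmpos : 0 < m := by
    rcases Nat.eq_zero_or_pos m with h0 | h0
    · rw [h0, mul_zero] at hm; omega
    · exact h0
  have hg : (h ^ m) ^ q = 1 := by rw [← pow_mul, mul_comm, ← hm, pow_orderOf_eq_one]
  have hg1 : h ^ m ≠ 1 := by
    intro h1
    have := Nat.le_of_dvd hmpos (orderOf_dvd_of_pow_eq_one h1)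
    have h2 := hq.two_le
    nlinarith
  apply hg1
  apply Subtype.ext
  apply Units.ext
  change ((h ^ m : H) : Matrix.GeneralLinearGroup (Fin n) ℤ).val = 1
  apply core _ q hq
  · have := congrArg (fun t : H => ((t : Matrix.GeneralLinearGroup (Fin n) ℤ)).val) hg
    simpa using this
  · intro i j
    have h1 : φ ((h ^ m : H) : Matrix.GeneralLinearGroup (Fin n) ℤ) = 1 := by
      have : (φ.comp H.subtype) (h ^ m) = 1 := by rw [map_pow, hh, one_pow]
      exact this
    have h2 := congrArg (fun t : Matrix.GeneralLinearGroup (Fin n) (ZMod 3) => t.val i j) h1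
    simp only [φ, Matrix.GeneralLinearGroup.map_apply] at h2
    have h3 : (((((h ^ m : H) : Matrix.GeneralLinearGroup (Fin n) ℤ).val - 1) i j : ℤ) : ZMod 3) = 0 := by
      rw [Matrix.sub_apply, Int.cast_sub]
      change (((((h ^ m : H) : Matrix.GeneralLinearGroup (Fin n) ℤ).val i j : ℤ) : ZMod 3)) = _ at h2
      rw [h2, Matrix.one_apply]
      by_cases hij : i = j
      · subst hij; simp
      · simp [hij]
    have h4 := (ZMod.intCast_zmod_eq_zero_iff_dvd _ 3).mp h3
    exact_mod_cast h4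

end Groth.Agent.S19590
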