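import Groth.Statements.S19591
-- import your own Groth.Agent.* helpers here

set_option autoImplicit false
universe u v
open BddFin

namespace Groth.Agent.S19591

/-- Let K be a perfect field of characteristic 2, V a finite-dimensional K-vector space with dim V > 2
and q a quadratic form on V whose polar bilinear form is non-degenerate. Then q represents zero
non-trivially. (Non-degeneracy of the polar form, which is alternating in characteristic 2, forces
dim V to be even, as the published lemma notes.) -/
theorem result
    (K : Type u) [Field K] [CharP K 2] [PerfectField K]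
    (V : Type v) [AddCommGroup V] [Module K V] [FiniteDimensional K V]
    (hV : 2 < Module.finrank K V) (q : QuadraticForm K V)
    (hq : (QuadraticMap.polarBilin q).Nondegenerate) :
    ∃ v : V, v ≠ 0 ∧ q v = 0 := by
  haveI : Nontrivial V := Module.nontrivial_of_finrank_pos (R := K) (by omega)
  obtain ⟨v, hv⟩ := exists_ne (0 : V)
  have hker : 2 ≤ Module.finrank K (LinearMap.ker (QuadraticMap.polarBilin q v)) := by
    have h1 := LinearMap.finrank_range_add_finrank_ker (QuadraticMap.polarBilin q v)
    have h2 : Module.finrank K (LinearMap.range (QuadraticMap.polarBilin q v)) ≤ 1 := by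
      calc _ ≤ Module.finrank K K := Submodule.finrank_le _
        _ = 1 := Module.finrank_self K
    omega
  obtain ⟨w, hw, hwv⟩ : ∃ w ∈ LinearMap.ker (QuadraticMap.polarBilin q v), w ∉ Submodule.span K {v} := by
    by_contra hcon
    push Not at hcon
    have hle : LinearMap.ker (QuadraticMap.polarBilin q v) ≤ Submodule.span K {v} := fun w hw => hcon w hw
    have := Submodule.finrank_mono hle
    have h3 := finrank_span_singleton (K := K) hv
    omega
  have hperf : ∀ x : K, ∃ y, y ^ 2 = x := by
    intro x
    haveI : Fact (Nat.Prime 2) := ⟨Nat.prime_two⟩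
    haveI : ExpChar K 2 := ExpChar.prime Nat.prime_two
    haveI : PerfectRing K 2 := PerfectField.toPerfectRing 2
    obtain ⟨y, hy⟩ := surjective_frobenius K 2 x
    exact ⟨y, hy⟩
  obtain ⟨a, ha⟩ := hperf (q v)
  obtain ⟨b, hb⟩ := hperf (q w)
  have hpol : QuadraticMap.polar q v w = 0 := by
    have := LinearMap.mem_ker.mp hw
    simpa using this
  by_cases hb0 : b = 0
  · refine ⟨w, ?_, by rw [← hb, hb0]; simp⟩
    rintro rfl
    exact hwv (Submodule.zero_mem _)
  refine ⟨b • v + a • w, ?_, ?_⟩
  · intro h0
    by_cases ha0 : a = 0
    · subst ha0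
      simp [hv, hb0] at h0
    · apply hwv
      rw [Submodule.mem_span_singleton]
      refine ⟨-(a⁻¹ * b), ?_⟩
      have : a • w = -(b • v) := by
        rw [eq_neg_iff_add_eq_zero, add_comm]; exact h0
      calc -(a⁻¹ * b) • v = a⁻¹ • (-(b • v)) := by rw [smul_neg, smul_smul, neg_smul]
        _ = w := by rw [← this, smul_smul, inv_mul_cancel₀ ha0, one_smul]
  · have h2 : (2 : K) = 0 := CharTwo.two_eq_zero
    have e1 : q (b • v + a • w) = q (b • v) + q (a • w) + QuadraticMap.polar q (b • v) (a • w) := by
      simp [QuadraticMap.polar]
    rw [e1, QuadraticMap.map_smul, QuadraticMap.map_smul, QuadraticMap.polar_smul_left, QuadraticMap.polar_smul_right, hpol, ← ha, ← hb]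
    simp only [smul_eq_mul, mul_zero, add_zero]
    linear_combination (a^2*b^2) * h2

end Groth.Agent.S19591
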