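import Groth.Statements.S19609
import Mathlib

set_option autoImplicit false
universe u
open CartMod

namespace Groth.Agent.S19609

/-- Let p be a prime and u : A → B a ring homomorphism between commutative rings which are complete and
separated for the p-adic topology and have no p-torsion (flat over the p-adic base). If u induces a
bijection A/pA → B/pB (injectivity: u a ∈ pB forces a ∈ pA; surjectivity: every b ∈ B is congruent
to some u a modulo pB), then u is bijective. (The published statement is for a morphism of flat
p-adic formal schemes over the Witt vectors of a perfect field: if its special fibre is an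
isomorphism, so is the morphism; this row is its affine, ring-level case.) -/
theorem result (p : ℕ) [Fact p.Prime]
    {A B : Type u} [CommRing A] [CommRing B]
    [IsAdicComplete (Ideal.span {(p : A)}) A] [IsAdicComplete (Ideal.span {(p : B)}) B]
    (hA : IsSMulRegular A (p : A)) (hB : IsSMulRegular B (p : B)) (u : A →+* B)
    (hinj : ∀ a : A, u a ∈ Ideal.span {(p : B)} → a ∈ Ideal.span {(p : A)})
    (hsurj : ∀ b : B, ∃ a : A, b - u a ∈ Ideal.span {(p : B)}) :
    Function.Bijective u := by
  constructor
  · rw [injective_iff_map_eq_zero]
    have h : ∀ n : ℕ, ∀ a : A, u a = 0 → a ∈ Ideal.span {(p : A)} ^ n := by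
      intro n
      induction n with
      | zero => intro a _; simp
      | succ n ih =>
        intro a ha
        have h1 := hinj a (by rw [ha]; exact Ideal.zero_mem _)
        rw [Ideal.mem_span_singleton] at h1
        obtain ⟨c, rfl⟩ := h1
        have hc : u c = 0 := by
          apply hB
          simp only [smul_eq_mul, mul_zero]
          rw [← ha, map_mul, map_natCast]
        rw [pow_succ']
        exact Ideal.mul_mem_mul (Ideal.mem_span_singleton_self _) (ih c hc)
    intro a ha
    have := IsHausdorff.haus (IsAdicComplete.toIsHausdorff (I := Ideal.span {(p : A)}) (M := A)) a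
    apply this
    intro n
    rw [SModEq.zero, smul_eq_mul, Ideal.mul_top]
    exact h n a ha
  · have hmap : (Ideal.span {(p : A)}).map u = Ideal.span {(p : B)} := by
      rw [Ideal.map_span]; simp
    haveI : IsHausdorff ((Ideal.span {(p : A)}).map u) B := by rw [hmap]; infer_instance
    apply surjective_of_mk_map_comp_surjective (I := Ideal.span {(p : A)}) u
    intro y
    obtain ⟨b, rfl⟩ := Ideal.Quotient.mk_surjective y
    obtain ⟨a, ha⟩ := hsurj b
    refine ⟨a, ?_⟩
    rw [RingHom.comp_apply, eq_comm, Ideal.Quotient.eq, hmap]
    exact ha

end Groth.Agent.S19609
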