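import Groth.Statements.S19612
import Mathlib

set_option autoImplicit false
universe u
open scoped TensorProduct
open CartMod

namespace Groth.Agent.S19612

/-- Let k be a perfect field of characteristic p, W = W(k) the ring of Witt vectors of k, and A a
commutative W-algebra which is complete and separated for the p-adic topology (an adic W-algebra).
Then flatness of A over W is equivalent to flatness of A/p^nA = (W/p^nW) ⊗_W A over W/p^nW for every
n ≥ 1. -/
theorem result (p : ℕ) [Fact p.Prime] (k : Type u) [Field k]
    [CharP k p] [PerfectRing k p] (A : Type u) [CommRing A] [Algebra (WittVector p k) A]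
    [IsAdicComplete (Ideal.span {(p : WittVector p k)}) A] :
    Module.Flat (WittVector p k) A ↔
      ∀ n : ℕ, 1 ≤ n →
        Module.Flat (WittVector p k ⧸ (Ideal.span {(p : WittVector p k)} ^ n))
          ((WittVector p k ⧸ (Ideal.span {(p : WittVector p k)} ^ n)) ⊗[WittVector p k] A) := by
  constructor
  · intro h n _
    infer_instance
  · intro h
    have hirr : Irreducible (p : WittVector p k) := WittVector.irreducible p
    have key : ∀ y : A, (p : WittVector p k) • y = 0 → y = 0 := by
      intro x hx
      have hmem : ∀ n : ℕ, x ∈ ((Ideal.span {(p : WittVector p k)}) ^ n • ⊤ : Submodule (WittVector p k) A) := by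
        intro n
        set I := Ideal.span {(p : WittVector p k)} with hI
        haveI := h (n + 1) (by omega)
        have hrel : ∑ i : Fin 1, (fun _ => (Ideal.Quotient.mk (I ^ (n+1)) (p : WittVector p k)) : Fin 1 → _) i • ((fun _ => (1 : WittVector p k ⧸ I ^ (n+1)) ⊗ₜ[WittVector p k] x) : Fin 1 → _) i = 0 := by
          rw [Fin.sum_univ_one]
          rw [TensorProduct.smul_tmul', smul_eq_mul, mul_one]
          have : (Ideal.Quotient.mk (I ^ (n+1)) (p : WittVector p k)) = (p : WittVector p k) • (1 : WittVector p k ⧸ I ^ (n+1)) := by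
            rw [Algebra.smul_def, mul_one]; rfl
          rw [this, TensorProduct.smul_tmul, hx, TensorProduct.tmul_zero]
        obtain ⟨l, a, y, h1, h2⟩ := Module.Flat.isTrivialRelation_of_sum_smul_eq_zero hrel
        have h10 := h1 0
        have ha : ∀ j, a 0 j ∈ (I ^ n).map (Ideal.Quotient.mk (I ^ (n + 1))) := by
          intro j
          have h2j := h2 j
          rw [Fin.sum_univ_one] at h2j
          obtain ⟨b, hb⟩ := Ideal.Quotient.mk_surjective (a 0 j)
          rw [← hb] at h2j ⊢
          apply Ideal.mem_map_of_mem
          have h3 : b * (p : WittVector p k) ∈ I ^ (n + 1) ∨ (p : WittVector p k) * b ∈ I ^ (n + 1) := by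
            right
            rw [← Ideal.Quotient.eq_zero_iff_mem, map_mul]
            simpa [mul_comm] using h2j
          have h4 : (p : WittVector p k) * b ∈ I ^ (n + 1) := by
            rcases h3 with h3 | h3
            · rwa [mul_comm] at h3
            · exact h3
          rw [hI, Ideal.span_singleton_pow, Ideal.mem_span_singleton] at h4 ⊢
          rw [pow_succ'] at h4
          exact (mul_dvd_mul_iff_left hirr.ne_zero).mp h4
        -- map to (W / I^n) ⊗ A
        have hle : I ^ (n + 1) ≤ I ^ n := Ideal.pow_le_pow_right (Nat.le_succ n)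
        let φ : (WittVector p k ⧸ I ^ (n+1)) →ₐ[WittVector p k] (WittVector p k ⧸ I ^ n) := Ideal.Quotient.factorₐ _ hle
        let Φ : ((WittVector p k ⧸ I ^ (n+1)) ⊗[WittVector p k] A) →ₐ[WittVector p k] ((WittVector p k ⧸ I ^ n) ⊗[WittVector p k] A) := Algebra.TensorProduct.map φ (AlgHom.id _ _)
        have hφ : ∀ z ∈ (I ^ n).map (Ideal.Quotient.mk (I ^ (n + 1))), φ z = 0 := by
          intro z hz
          rw [Ideal.mem_map_iff_of_surjective _ Ideal.Quotient.mk_surjective] at hz
          obtain ⟨w, hw, rfl⟩ := hz
          exact Ideal.Quotient.eq_zero_iff_mem.mpr hw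
        have h5 : (1 : WittVector p k ⧸ I ^ n) ⊗ₜ[WittVector p k] x = 0 := by
          have e1 : Φ ((1 : WittVector p k ⧸ I ^ (n+1)) ⊗ₜ[WittVector p k] x) = (1 : WittVector p k ⧸ I ^ n) ⊗ₜ[WittVector p k] x := by
            simp [Φ]
          rw [← e1]
          have h10' : (1 : WittVector p k ⧸ I ^ (n+1)) ⊗ₜ[WittVector p k] x = ∑ j, a 0 j • y j := h10
          rw [h10', map_sum]
          apply Finset.sum_eq_zero
          intro j _
          have hΦ : ∀ (r : WittVector p k ⧸ I ^ (n+1)) (z : (WittVector p k ⧸ I ^ (n+1)) ⊗[WittVector p k] A), φ r = 0 → Φ (r • z) = 0 := by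
            intro r z hr
            induction z with
            | zero => rw [smul_zero, map_zero]
            | tmul s t => rw [TensorProduct.smul_tmul']; simp [Φ, hr]
            | add u v hu hv => rw [smul_add, map_add, hu, hv, add_zero]
          exact hΦ _ _ (hφ _ (ha j))
        rw [← (TensorProduct.quotTensorEquivQuotSMul A (I ^ n)).map_eq_zero_iff] at h5
        have e3 : (1 : WittVector p k ⧸ I ^ n) = Ideal.Quotient.mk (I ^ n) 1 := rfl
        rw [e3, TensorProduct.quotTensorEquivQuotSMul_mk_tmul, one_smul, Submodule.Quotient.mk_eq_zero] at h5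
        exact h5
      exact IsHausdorff.haus (inferInstance : IsHausdorff (Ideal.span {(p : WittVector p k)}) A) x (fun n => by
        rw [SModEq.zero]; exact hmem n)
    rw [Module.Flat.flat_iff_torsion_eq_bot_of_isBezout]
    rw [eq_bot_iff]
    intro x hx
    rw [Submodule.mem_torsion_iff] at hx
    obtain ⟨⟨a, ha⟩, hax⟩ := hx
    have ha0 : a ≠ 0 := nonZeroDivisors.ne_zero ha
    have hax' : a • x = 0 := hax
    obtain ⟨n, v, hv⟩ := IsDiscreteValuationRing.eq_unit_mul_pow_irreducible ha0 hirr
    rw [hv, mul_smul] at hax'
    have h5 : (p : WittVector p k) ^ n • x = 0 := by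
      have := congrArg (fun z => (↑v⁻¹ : WittVector p k) • z) hax'
      simpa [← mul_smul] using this
    have h6 : ∀ n : ℕ, ∀ x : A, (p : WittVector p k) ^ n • x = 0 → x = 0 := by
      intro n
      induction n with
      | zero => intro x hx; simpa using hx
      | succ n ih =>
        intro x hx
        rw [pow_succ, mul_smul] at hx
        exact key x (ih _ hx)
    exact (Submodule.mem_bot _).mpr (h6 n x h5)

end Groth.Agent.S19612
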