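import Groth.Statements.S19651
import Mathlib
import Groth.Agent.Lib.H29_Bilin

set_option autoImplicit false
universe u v
open AbVar

namespace Groth.Agent.S19651

open Polynomial in
/-- Stated for an arbitrary invariant bilinear form, as the argument there allows. Let k be a field, V a
k-vector space with a bilinear form B and M a linear automorphism of V with B(Mx, My) = B(x, y) for
all x, y. If Q₁ and Q₂ are polynomials such that the reciprocal polynomial of Q₁ (its coefficient
list reversed) is coprime to Q₂, then every vector killed by a power of Q₁(M) is B-orthogonal to
every vector killed by a power of Q₂(M). With Q₁ = Q₂ = Q this says that the generalized kernel of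
Q(M) is totally isotropic whenever Q is coprime to its reciprocal polynomial, which for an
irreducible Q means that Q is not self-reciprocal. (The published statement takes M symplectic and
Q₁, Q₂ irreducible factors of the characteristic polynomial, with Q not self-reciprocal in the first
clause; its second clause asks Q₁ and Q₂ to be distinct and not reciprocal, which holds as proved
when this is read as saying that Q₂ is not the reciprocal of Q₁, but fails if it only means that
neither is self-reciprocal, as the diagonal matrix with entries 2 and 1/2 preserving the standard
alternating form on k² shows; the coprimality of the reciprocal of Q₁ with Q₂, which is what the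
published proof uses, is imposed here and covers both clauses.) -/
theorem result
    {k : Type u} [Field k] {V : Type v} [AddCommGroup V] [Module k V]
    (B : LinearMap.BilinForm k V) (M : V ≃ₗ[k] V)
    (hM : ∀ x y : V, B (M x) (M y) = B x y)
    (Q₁ Q₂ : k[X]) (h : IsCoprime Q₁.reverse Q₂)
    (x y : V)
    (hx : ∃ n : ℕ, (Polynomial.aeval (M : V →ₗ[k] V) Q₁ ^ n) x = 0)
    (hy : ∃ n : ℕ, (Polynomial.aeval (M : V →ₗ[k] V) Q₂ ^ n) y = 0) :
    B x y = 0 := by
  exact Groth.Agent.H29Bilin.t19651 B M hM Q₁ Q₂ h x y hx hy

end Groth.Agent.S19651
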