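import Groth.Statements.S19652
import Mathlib
import Groth.Agent.Lib.H29_Bilin

set_option autoImplicit false
universe u v
open AbVar

namespace Groth.Agent.S19652

open Polynomial in
/-- Stated for an arbitrary invariant nondegenerate bilinear form, as the argument there allows. Let k
be a field, V a finite-dimensional k-vector space with a nondegenerate bilinear form B and M a
linear automorphism of V with B(Mx, My) = B(x, y) for all x, y. If Q is a polynomial associated to
its own reciprocal polynomial (its coefficient list reversed), then B restricted to the generalized
kernel of Q(M), the union of the kernels of the powers Q(M)^n, is nondegenerate. (The published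
statement takes M symplectic and Q a self-reciprocal divisor of the characteristic polynomial;
divisibility plays no role and is not assumed.) -/
theorem result
    {k : Type u} [Field k] {V : Type v} [AddCommGroup V] [Module k V] [FiniteDimensional k V]
    (B : LinearMap.BilinForm k V) (hB : B.Nondegenerate) (M : V ≃ₗ[k] V)
    (hM : ∀ x y : V, B (M x) (M y) = B x y)
    (Q : k[X]) (hQ : Associated Q Q.reverse) :
    (B.restrict (⨆ n : ℕ, LinearMap.ker (Polynomial.aeval (M : V →ₗ[k] V) Q ^ n))).Nondegenerate := by
  exact Groth.Agent.H29Bilin.t19652 B hB M hM Q hQ

end Groth.Agent.S19652
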