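import Groth.Statements.S19660
import Mathlib
import Groth.Agent.Lib.H29_Bilin

set_option autoImplicit false
universe u v
open AbVar

namespace Groth.Agent.S19660

/-- The text applies this to the Frobenius acting on the points of prime order of a principally
polarised abelian variety over a finite field with q elements and to their Weil pairing. Let k be a
field, V a finite-dimensional k-vector space with a nondegenerate bilinear form B, q a nonzero
element of k and M a linear automorphism of V with B(Mx, My) = q·B(x, y) for all x, y. Write V₁ and
V_q for the generalized eigenspaces of M at 1 and at q. Then every vector of V₁ that is B-orthogonal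
to all of V_q is zero, every vector of V_q that is B-orthogonal (on the right) to all of V₁ is zero,
and when q ≠ 1 the form B vanishes identically on V₁ × V₁ and on V_q × V_q. (The text asserts this
as the evident adaptation, to a form scaled by q, of the orthogonality and nondegeneracy facts for
generalized kernels of an automorphism preserving a form; the abstract statement is recorded here,
the application to the Weil pairing needing that pairing's formalism.) -/
theorem result
    {k : Type u} [Field k] {V : Type v} [AddCommGroup V] [Module k V] [FiniteDimensional k V]
    (B : LinearMap.BilinForm k V) (hB : B.Nondegenerate) (q : k) (hq : q ≠ 0)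
    (M : V ≃ₗ[k] V) (hM : ∀ x y : V, B (M x) (M y) = q * B x y) :
    (∀ x ∈ Module.End.maxGenEigenspace (M : Module.End k V) 1,
        (∀ y ∈ Module.End.maxGenEigenspace (M : Module.End k V) q, B x y = 0) → x = 0) ∧
      (∀ y ∈ Module.End.maxGenEigenspace (M : Module.End k V) q,
        (∀ x ∈ Module.End.maxGenEigenspace (M : Module.End k V) 1, B x y = 0) → y = 0) ∧
      (q ≠ 1 → ∀ x ∈ Module.End.maxGenEigenspace (M : Module.End k V) 1,
        ∀ x' ∈ Module.End.maxGenEigenspace (M : Module.End k V) 1, B x x' = 0) ∧
      (q ≠ 1 → ∀ y ∈ Module.End.maxGenEigenspace (M : Module.End k V) q,
        ∀ y' ∈ Module.End.maxGenEigenspace (M : Module.End k V) q, B y y' = 0) := by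
  exact Groth.Agent.H29Bilin.t19660 B hB q hq M hM

end Groth.Agent.S19660
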