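import Groth.Statements.S1970
import Groth.Agent.Lib.H3WE

set_option autoImplicit false
universe u
open EtAlg

namespace Groth.Agent.S1970

/-- Over a field K, every K-subalgebra and every quotient K-algebra of a weakly etale K-algebra is again
weakly etale over K. -/
theorem result (K : Type u) [Field K] (B : Type u) [CommRing B] [Algebra K B]
    [Algebra.WeaklyEtale K B] :
    (∀ S : Subalgebra K B, Algebra.WeaklyEtale K S) ∧ ∀ I : Ideal B, Algebra.WeaklyEtale K (B ⧸ I) := by
  exact ⟨fun S => Groth.Agent.H3WE.weaklyEtale_subalgebra S,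
    fun I => Groth.Agent.H3WE.weaklyEtale_of_surjective (Ideal.Quotient.mkₐ K I) Ideal.Quotient.mk_surjective⟩

end Groth.Agent.S1970
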