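import Groth.Statements.S1974
import Groth.Agent.Lib.H3WE
import Mathlib.FieldTheory.Separable
import Mathlib.RingTheory.LocalRing.ResidueField.Ideal

set_option autoImplicit false
universe u
open EtAlg

namespace Groth.Agent.S1974

/-- Let A -> B be weakly etale and q a prime of B lying over the prime p of A. Then the residue field of
q is a separable algebraic extension of the residue field of p. -/
theorem result (A B : Type u) [CommRing A] [CommRing B] [Algebra A B]
    [Algebra.WeaklyEtale A B] (p : Ideal A) [p.IsPrime] (q : Ideal B) [q.IsPrime] [q.LiesOver p]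
    [Algebra (Localization.AtPrime p) (Localization.AtPrime q)] [Localization.AtPrime.IsLiesOverAlgebra p q] :
    Algebra.IsSeparable p.ResidueField q.ResidueField := by
  let K := p.ResidueField
  let L := q.ResidueField
  have hT : IsScalarTower A K L := inferInstance
  let T := TensorProduct A K B
  have hT1 : Algebra.WeaklyEtale K T := inferInstance
  let φ : T →ₐ[K] L := Algebra.TensorProduct.lift (Algebra.ofId K L) (IsScalarTower.toAlgHom A B L)
    (fun _ _ => Commute.all _ _)
  have hφB : ∀ b : B, algebraMap B L b ∈ φ.range := by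
    intro b
    refine ⟨TensorProduct.tmul A (1 : K) b, ?_⟩
    change φ (TensorProduct.tmul A (1 : K) b) = _
    rw [Algebra.TensorProduct.lift_tmul, map_one, one_mul]
    rfl
  have hR : Algebra.WeaklyEtale K φ.range :=
    Groth.Agent.H3WE.weaklyEtale_of_surjective φ.rangeRestrict φ.rangeRestrict_surjective
  have hint : Algebra.IsIntegral K φ.range := Groth.Agent.H3WE.isIntegral_of_weaklyEtale
  have hfield : IsField φ.range := isField_of_isIntegral_of_isField' (Field.toIsField K)
  have htop : φ.range = ⊤ := by
    rw [eq_top_iff]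
    intro x _
    obtain ⟨a, s, hs, hx⟩ := IsFractionRing.div_surjective (A := B ⧸ q) x
    obtain ⟨a, rfl⟩ := Ideal.Quotient.mk_surjective a
    obtain ⟨s, rfl⟩ := Ideal.Quotient.mk_surjective s
    have ha' : algebraMap (B ⧸ q) L (Ideal.Quotient.mk q a) = algebraMap B L a := rfl
    have hs' : algebraMap (B ⧸ q) L (Ideal.Quotient.mk q s) = algebraMap B L s := rfl
    have hs0 : algebraMap B L s ≠ 0 := by
      rw [← hs']
      intro h0
      exact nonZeroDivisors.ne_zero hs ((FaithfulSMul.algebraMap_injective (B ⧸ q) L) (by rw [h0, map_zero]))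
    obtain ⟨y, hy⟩ := hfield.mul_inv_cancel (a := ⟨algebraMap B L s, hφB s⟩)
      (fun h => hs0 (congrArg Subtype.val h))
    have hy' : algebraMap B L s * y.1 = 1 := congrArg Subtype.val hy
    rw [← hx, ha', hs', div_eq_mul_inv, inv_eq_of_mul_eq_one_right hy']
    exact mul_mem (hφB a) y.2
  have hL : Algebra.WeaklyEtale K L := by
    have hsurj : Function.Surjective φ := AlgHom.range_eq_top φ |>.mp htop
    exact Groth.Agent.H3WE.weaklyEtale_of_surjective φ hsurj
  exact Groth.Agent.H3WE.isSeparable_of_weaklyEtale L

end Groth.Agent.S1974
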