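import Groth.Statements.S1976
import Groth.Agent.Lib.H3WE

set_option autoImplicit false
universe u
open CategoryTheory
open EtAlg

namespace Groth.Agent.S1976

/-- (2) ⇔ (3): a K-algebra B over a field K is weakly etale exactly when it can be written as a filtered
colimit of etale K-algebras, and in that case its finitely generated K-subalgebras are etale. -/
theorem result (K : Type u) [Field K] (B : Type u) [CommRing B] [Algebra K B] :
    (Algebra.WeaklyEtale K B ↔ EtPBC.IsIndEtale K B) ∧
    (Algebra.WeaklyEtale K B → ∀ S : Subalgebra K B, S.FG → Algebra.Etale K S) := by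
  refine ⟨⟨?_, ?_⟩, fun h S hS => Groth.Agent.H3WE.etale_of_fg S hS⟩
  · intro hB
    let J := {S : Subalgebra K B // S.FG}
    let D : J ⥤ Under (CommRingCat.of K) :=
      { obj := fun S => Under.mk (CommRingCat.ofHom (algebraMap K S.1))
        map := fun {S T} f => Under.homMk (CommRingCat.ofHom (Subalgebra.inclusion (leOfHom f)).toRingHom) (by
          ext x; rfl)
        map_id := fun S => by ext x; rfl
        map_comp := fun f g => by ext x; rfl }
    let c : Limits.Cocone D :=
      { pt := Under.mk (CommRingCat.ofHom (algebraMap K B))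
        ι := { app := fun S => Under.homMk (CommRingCat.ofHom S.1.val.toRingHom) (by ext x; rfl)
               naturality := fun S T f => by ext x; rfl } }
    have hadj : ∀ b : B, (Algebra.adjoin K {b}).FG := fun b => ⟨{b}, by simp⟩
    have hdir : ∀ S T : J, ∃ U : J, S ≤ U ∧ T ≤ U := fun S T =>
      ⟨⟨S.1 ⊔ T.1, S.2.sup T.2⟩, (le_sup_left : S.1 ≤ S.1 ⊔ T.1), (le_sup_right : T.1 ≤ S.1 ⊔ T.1)⟩
    have hne : Nonempty J := ⟨⟨⊥, Subalgebra.fg_bot⟩⟩
    have hdd : IsDirected J (· ≤ ·) := ⟨hdir⟩
    have hfil : IsFiltered J := inferInstance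
    have hcol : Nonempty (Limits.IsColimit c) := by
      have key : ∀ (s : Limits.Cocone D), ∃ G : B →+* s.pt.right, ∀ (S : J) (x : S.1),
          (s.ι.app S).right.hom x = G x.1 := by
        intro s
        let φ : (S : J) → (S.1 →+* s.pt.right) := fun S => (s.ι.app S).right.hom
        have hφ : ∀ (S T : J) (h : S ≤ T) (x : S.1), φ T (Subalgebra.inclusion h x) = φ S x := by
          intro S T h x
          have h1 := s.w (homOfLE h)
          have h2 := congrArg (fun f => f.right.hom x) h1
          exact h2
        let g : B → s.pt.right := fun b => φ ⟨Algebra.adjoin K {b}, hadj b⟩ ⟨b, Algebra.self_mem_adjoin_singleton K b⟩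
        have hg : ∀ (S : J) (b : B) (hb : b ∈ S.1), φ S ⟨b, hb⟩ = g b := by
          intro S b hb
          have hle : (⟨Algebra.adjoin K {b}, hadj b⟩ : J) ≤ S := by
            change Algebra.adjoin K {b} ≤ S.1
            exact Algebra.adjoin_le (by simpa using hb)
          exact hφ _ _ hle ⟨b, Algebra.self_mem_adjoin_singleton K b⟩
        have hpair : ∀ a b : B, ∃ S : J, a ∈ S.1 ∧ b ∈ S.1 := by
          intro a b
          obtain ⟨U, h1, h2⟩ := hdir ⟨Algebra.adjoin K {a}, hadj a⟩ ⟨Algebra.adjoin K {b}, hadj b⟩
          exact ⟨U, h1 (Algebra.self_mem_adjoin_singleton K a), h2 (Algebra.self_mem_adjoin_singleton K b)⟩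
        refine ⟨{ toFun := g, map_one' := ?_, map_mul' := ?_, map_zero' := ?_, map_add' := ?_ }, ?_⟩
        · obtain ⟨S⟩ := hne
          rw [← hg S 1 (one_mem _)]
          exact map_one (φ S)
        · intro a b
          obtain ⟨S, ha, hb⟩ := hpair a b
          rw [← hg S a ha, ← hg S b hb, ← hg S (a * b) (mul_mem ha hb)]
          exact map_mul (φ S) ⟨a, ha⟩ ⟨b, hb⟩
        · obtain ⟨S⟩ := hne
          rw [← hg S 0 (zero_mem _)]
          exact map_zero (φ S)
        · intro a b
          obtain ⟨S, ha, hb⟩ := hpair a b
          rw [← hg S a ha, ← hg S b hb, ← hg S (a + b) (add_mem ha hb)]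
          exact map_add (φ S) ⟨a, ha⟩ ⟨b, hb⟩
        · intro S x
          exact hg S x.1 x.2
      choose G hG using key
      have hGw : ∀ (s : Limits.Cocone D), CommRingCat.ofHom (algebraMap K B) ≫ CommRingCat.ofHom (G s) = s.pt.hom := by
        intro s
        obtain ⟨S⟩ := hne
        ext x
        have h1 := Under.w (s.ι.app S)
        have h2 := congrArg (fun f => f.hom x) h1
        exact (hG s S (algebraMap K S.1 x)).symm.trans h2
      refine ⟨⟨fun s => Under.homMk (CommRingCat.ofHom (G s)) (hGw s), ?_, ?_⟩⟩
      · intro s S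
        ext x
        exact (hG s S x).symm
      · intro s m hm
        ext (b : B)
        have h1 := hm ⟨Algebra.adjoin K {b}, hadj b⟩
        have h2 := congrArg (fun f => f.right.hom (⟨b, Algebra.self_mem_adjoin_singleton K b⟩ : Algebra.adjoin K {b})) h1
        have h3 := hG s ⟨Algebra.adjoin K {b}, hadj b⟩ ⟨b, Algebra.self_mem_adjoin_singleton K b⟩
        exact h2.trans h3
    refine ⟨J, inferInstance, hfil, D, c, hcol.some, ?_, ⟨Iso.refl _⟩⟩
    intro S
    have h1 := Groth.Agent.H3WE.etale_of_fg S.1 S.2
    have h2 : (algebraMap K S.1).toAlgebra = (inferInstance : Algebra K S.1) := by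
      apply Algebra.algebra_ext
      intro r; rfl
    change @Algebra.Etale K S.1 _ _ (algebraMap K S.1).toAlgebra
    rw [h2]
    exact h1
  · rintro ⟨J, _, _, D, c, hc, hD, ⟨e⟩⟩
    rw [Groth.Agent.H3WE.weaklyEtale_iff_Z]
    let Zs := Groth.Agent.H3WE.Zalg K B
    let f : ∀ j, (D.obj j) ⟶ Under.mk (CommRingCat.ofHom (algebraMap K B)) := fun j => c.ι.app j ≫ e.hom
    have hf : ∀ j (x : (D.obj j).right), (f j).right.hom x ∈ Zs := by
      intro j x
      let _ := (D.obj j).hom.hom.toAlgebra
      have hE : Algebra.Etale K (D.obj j).right := hD j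
      have h1 : Groth.Agent.H3WE.Z K (D.obj j).right x :=
        Groth.Agent.H3WE.weaklyEtale_iff_Z.mp inferInstance x
      let F : (D.obj j).right →ₐ[K] B :=
        { (f j).right.hom with
          commutes' := fun r => by
            have h2 := Under.w (f j)
            exact congrArg (fun g => g.hom r) h2 }
      exact Groth.Agent.H3WE.Z_map F x h1
    let c' : Limits.Cocone D :=
      { pt := Under.mk (CommRingCat.ofHom (algebraMap K Zs))
        ι :=
          { app := fun j => Under.homMk (CommRingCat.ofHom ((f j).right.hom.codRestrict Zs (hf j))) (by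
              ext r
              apply Subtype.ext
              have h2 := Under.w (f j)
              exact congrArg (fun g => g.hom r) h2)
            naturality := fun i j u => by
              ext x
              apply Subtype.ext
              have h3 : D.map u ≫ f j = f i := by
                simp only [f]
                rw [← Category.assoc, c.w]
              exact congrArg (fun g => g.right.hom x) h3 } }
    let inc : c'.pt ⟶ Under.mk (CommRingCat.ofHom (algebraMap K B)) :=
      Under.homMk (CommRingCat.ofHom Zs.val.toRingHom) (by ext x; rfl)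
    have hs : hc.desc c' ≫ inc = e.hom := by
      apply hc.hom_ext
      intro j
      rw [← Category.assoc, hc.fac]
      ext x
      rfl
    intro b
    have h5 : inc.right.hom ((hc.desc c').right.hom (e.inv.right.hom b)) = b := by
      have h6 : e.inv ≫ hc.desc c' ≫ inc = 𝟙 _ := by rw [hs, e.inv_hom_id]
      exact congrArg (fun g => g.right.hom b) h6
    rw [← h5]
    exact ((hc.desc c').right.hom (e.inv.right.hom b)).2

end Groth.Agent.S1976
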