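import Groth.Statements.S1977
import Groth.Agent.Lib.H3WE

set_option autoImplicit false
universe u
open EtAlg

namespace Groth.Agent.S1977

/-- Let K be a field and A a K-algebra. The supremum of the weakly etale K-subalgebras of A is itself
weakly etale over K; it is therefore the largest weakly etale K-subalgebra of A. -/
theorem result (K : Type u) [Field K] (A : Type u) [CommRing A] [Algebra K A] :
    Algebra.WeaklyEtale K ↥(EtAlgD.maxWeaklyEtale K A) := by
  exact Groth.Agent.H3WE.weaklyEtale_sSup _ (fun S hS => hS)

end Groth.Agent.S1977
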