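import Groth.Statements.S19856
import Mathlib

set_option autoImplicit false
universe u v
open CAlg

namespace Groth.Agent.S19856

theorem triv_aux (A : Type u) [CommRing A]
    [IsLocalRing A] [IsNoetherianRing A]
    (G : Type v) [Group G] [Finite G] [MulSemiringAction G A]
    (hG : IsUnit (Nat.card G : A)) (g : G)
    (htr : ∀ a : A, g • a - a ∈ IsLocalRing.maximalIdeal A)
    (hg : ∀ a ∈ IsLocalRing.maximalIdeal A, g • a - a ∈ IsLocalRing.maximalIdeal A ^ 2) (a : A) :
    g • a = a := by
  set M := IsLocalRing.maximalIdeal A with hM
  have hD : ∀ j : ℕ, ∀ x ∈ M ^ (j + 1), g • x - x ∈ M ^ (j + 2) := by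
    intro j
    induction j with
    | zero => intro x hx; rw [zero_add, pow_one] at hx; exact hg x hx
    | succ j ih =>
      intro x hx
      rw [pow_succ'] at hx
      induction hx using Submodule.mul_induction_on' with
      | mem_mul_mem x hx y hy =>
        have h1 := ih y hy
        have h2 := hg x hx
        have e : g • (x * y) - x * y = (g • x - x) * (g • y - y) + (g • x - x) * y + x * (g • y - y) := by
          rw [smul_mul']; ring
        rw [e]
        refine add_mem (add_mem ?_ ?_) ?_
        · apply Ideal.pow_le_pow_right (show j + 1 + 2 ≤ 2 + (j + 2) by omega)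
          rw [pow_add]; exact Ideal.mul_mem_mul h2 h1
        · apply Ideal.pow_le_pow_right (show j + 1 + 2 ≤ 2 + (j + 1) by omega)
          rw [pow_add]; exact Ideal.mul_mem_mul h2 hy
        · have : j + 1 + 2 = 1 + (j + 2) := by omega
          rw [this, pow_add, pow_one]; exact Ideal.mul_mem_mul hx h1
      | add x hx y hy hx' hy' =>
        have e : g • (x + y) - (x + y) = (g • x - x) + (g • y - y) := by rw [smul_add]; ring
        rw [e]; exact add_mem hx' hy'
  have hall : ∀ j : ℕ, ∀ a : A, g • a - a ∈ M ^ (j + 1) := by
    intro j
    induction j with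
    | zero =>
      intro a
      rw [zero_add, pow_one]; exact htr a
    | succ j ih =>
      intro a
      have h1 := hD j _ (ih a)
      have hpow : ∀ i : ℕ, g ^ i • a - (a + (i : A) * (g • a - a)) ∈ M ^ (j + 2) := by
        intro i
        induction i with
        | zero => simp
        | succ i ihi =>
          have h2 : g • (g ^ i • a - (a + (i : A) * (g • a - a))) ∈ M ^ (j + 2) := by
            have := add_mem (Ideal.pow_le_pow_right (show j + 2 ≤ j + 1 + 2 by omega) (hD (j+1) _ ihi)) ihi
            rwa [sub_add_cancel] at this
          have h3 : g • ((i : A) * (g • a - a)) = (i : A) * (g • (g • a - a)) := by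
            rw [smul_mul']
            congr 1
            have : g • (i : A) = (i : A) := by
              have := map_natCast (MulSemiringAction.toRingHom G A g) i
              exact this
            exact this
          rw [smul_sub, smul_add, h3, ← mul_smul, ← pow_succ'] at h2
          have e : g ^ (i + 1) • a - (a + ((i + 1 : ℕ) : A) * (g • a - a)) = (g ^ (i + 1) • a - (g • a + (i : A) * g • (g • a - a))) + (i : A) * (g • (g • a - a) - (g • a - a)) := by
            push_cast; ring
          rw [e]
          exact add_mem h2 (Ideal.mul_mem_left _ _ h1)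
      have h2 := hpow (Nat.card G)
      rw [pow_card_eq_one', one_smul] at h2
      have h3 : (Nat.card G : A) * (g • a - a) ∈ M ^ (j + 2) := by
        have : a - (a + (Nat.card G : A) * (g • a - a)) = -((Nat.card G : A) * (g • a - a)) := by ring
        rw [this] at h2
        exact neg_mem_iff.mp h2
      obtain ⟨c, hc⟩ := hG.exists_left_inv
      have h5 := Ideal.mul_mem_left _ c h3
      rw [← mul_assoc, hc, one_mul] at h5
      exact h5
  have hfin : g • a - a ∈ (⨅ i : ℕ, M ^ i : Ideal A) := by
    rw [Ideal.mem_iInf]
    intro i
    exact Ideal.pow_le_pow_right (Nat.le_succ i) (hall i a)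
  rw [Ideal.iInf_pow_eq_bot_of_isLocalRing M (IsLocalRing.maximalIdeal.isMaximal A).ne_top] at hfin
  exact sub_eq_zero.mp hfin

/-- Ring-level form: let O be a discrete valuation ring and G a finite group acting faithfully on O by
ring automorphisms, such that every element of G acts trivially on the residue field of O (that is,
g • a - a lies in the maximal ideal for all a) and such that the order of G is nonzero in the
residue field of O. Then G is cyclic. (The source states this for a finite group of order invertible
in an algebraically closed field k acting faithfully on a smooth connected k-variety and the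
subgroup of elements fixing pointwise a codimension-one irreducible component of the ramification
locus, applied to the local ring at the generic point of that component; it is stated here for an
arbitrary discrete valuation ring with a faithful action. The source also shows that this subgroup
is nontrivial; that geometric part is not stated.) -/
theorem result
    (O : Type u) [CommRing O] [IsDomain O] [IsDiscreteValuationRing O]
    (G : Type v) [Group G] [Finite G] [MulSemiringAction G O] [FaithfulSMul G O]
    (htriv : ∀ (g : G) (a : O), g • a - a ∈ IsLocalRing.maximalIdeal O)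
    (hcard : ((Nat.card G : ℕ) : IsLocalRing.ResidueField O) ≠ 0) :
    IsCyclic G := by
  obtain ⟨ϖ, hϖ⟩ := IsDiscreteValuationRing.exists_irreducible O
  have hM : IsLocalRing.maximalIdeal O = Ideal.span {ϖ} := hϖ.maximalIdeal_eq
  have hu : ∀ g : G, ∃ u : O, g • ϖ = u * ϖ := by
    intro g
    have h1 : g • ϖ ∈ IsLocalRing.maximalIdeal O := by
      have h2 : ϖ ∈ IsLocalRing.maximalIdeal O := by rw [hM]; exact Ideal.mem_span_singleton_self ϖ
      have := add_mem (htriv g ϖ) h2
      rwa [sub_add_cancel] at this
    rw [hM, Ideal.mem_span_singleton'] at h1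
    obtain ⟨u, hu⟩ := h1
    exact ⟨u, hu.symm⟩
  choose u hu using hu
  have hres : ∀ (g : G) (a : O), IsLocalRing.residue O (g • a) = IsLocalRing.residue O a := by
    intro g a
    rw [← sub_eq_zero, ← map_sub, IsLocalRing.residue_eq_zero_iff]
    exact htriv g a
  have hcu : IsUnit ((Nat.card G : ℕ) : O) := by
    by_contra hn
    apply hcard
    have : IsLocalRing.residue O ((Nat.card G : ℕ) : O) = 0 := by
      rw [IsLocalRing.residue_eq_zero_iff]; exact (IsLocalRing.mem_maximalIdeal _).mpr hn
    rwa [map_natCast] at this
  let θ : G →* IsLocalRing.ResidueField O :=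
    { toFun := fun g => IsLocalRing.residue O (u g)
      map_one' := by
        have h1 := hu 1
        rw [one_smul] at h1
        have : u 1 = 1 := by
          apply mul_right_cancel₀ hϖ.ne_zero
          rw [← h1, one_mul]
        rw [this, map_one]
      map_mul' := by
        intro g h
        have h1 := hu (g * h)
        rw [mul_smul, hu h, smul_mul', hu g] at h1
        have h2 : u (g * h) = (g • u h) * u g := by
          apply mul_right_cancel₀ hϖ.ne_zero
          rw [← h1]; ring
        rw [h2, map_mul, hres, mul_comm] }
  apply isCyclic_of_subgroup_isDomain θ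
  rw [injective_iff_map_eq_one]
  intro g hg
  have hg' : IsLocalRing.residue O (u g) = 1 := hg
  have hug : u g - 1 ∈ IsLocalRing.maximalIdeal O := by
    rw [← IsLocalRing.residue_eq_zero_iff, map_sub, hg', map_one, sub_self]
  apply FaithfulSMul.eq_of_smul_eq_smul (α := O)
  intro a
  rw [one_smul]
  apply triv_aux O G hcu g (htriv g)
  intro b hb
  rw [hM, Ideal.mem_span_singleton'] at hb
  obtain ⟨c, rfl⟩ := hb
  have hϖM : ϖ ∈ IsLocalRing.maximalIdeal O := by rw [hM]; exact Ideal.mem_span_singleton_self ϖ
  have e : g • (c * ϖ) - c * ϖ = (u g - 1) * ϖ * (g • c) + ϖ * (g • c - c) := by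
    rw [smul_mul', hu g]; ring
  rw [e, pow_two]
  exact add_mem (Ideal.mul_mem_right _ _ (Ideal.mul_mem_mul hug hϖM)) (Ideal.mul_mem_mul hϖM (htriv g c))

end Groth.Agent.S19856
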