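import Groth.Statements.S19890
import Mathlib

set_option autoImplicit false
universe u
open CAlg

namespace Groth.Agent.S19890

/-- Let R → R' be a faithfully flat ring map between Noetherian integrally closed local domains. Then
unique factorization descends along this map: when R' is a UFD, so is R. (The first assertion of the
lemma, descent of principality for an ideal whose extension to R' is principal, is a separate
statement.) -/
theorem result
    (R R' : Type u) [CommRing R] [CommRing R'] [IsDomain R] [IsDomain R']
    [IsNoetherianRing R] [IsNoetherianRing R'] [IsLocalRing R] [IsLocalRing R']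
    [IsIntegrallyClosed R] [IsIntegrallyClosed R']
    [Algebra R R'] [Module.FaithfullyFlat R R'] [UniqueFactorizationMonoid R'] :
    UniqueFactorizationMonoid R := by
  classical
  have hinj : Function.Injective (algebraMap R R') := FaithfulSMul.algebraMap_injective R R'
  refine { irreducible_iff_prime := fun {p} => ⟨fun hp => ?_, Prime.irreducible⟩ }
  refine ⟨hp.ne_zero, hp.not_isUnit, fun a b hab => ?_⟩
  set f := algebraMap R R' with hf
  let I : Ideal R :=
    { carrier := {x | p ∣ x * a}
      add_mem' := by
        intro x y hx hy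
        simp only [Set.mem_setOf_eq] at hx hy ⊢
        rw [add_mul]; exact dvd_add hx hy
      zero_mem' := by simp
      smul_mem' := by
        intro c x hx
        simp only [Set.mem_setOf_eq] at hx ⊢
        rw [smul_eq_mul, mul_assoc]; exact Dvd.dvd.mul_left hx c }
  have hI : ∀ x, x ∈ I ↔ p ∣ x * a := fun x => Iff.rfl
  have hA : ∀ x' : R', f p ∣ x' * f a → x' ∈ I.map f := by
    rintro x' ⟨y', hy'⟩
    have hrel : ∑ i : Fin 2, (![a, -p] : Fin 2 → R) i • (![x', y'] : Fin 2 → R') i = 0 := by
      rw [Fin.sum_univ_two]
      simp only [Matrix.cons_val_zero, Matrix.cons_val_one, Algebra.smul_def, map_neg]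
      change f a * x' + -f p * y' = 0
      linear_combination hy'
    obtain ⟨k, A, y, h1, h2⟩ := Module.Flat.isTrivialRelation_of_sum_smul_eq_zero (R := R) (M := R') (ι := Fin 2) (f := ![a, -p]) (x := ![x', y']) hrel
    have h10 := h1 0
    simp only [Matrix.cons_val_zero] at h10
    rw [h10]
    apply Submodule.sum_mem
    intro j _
    rw [Algebra.smul_def]
    apply Ideal.mul_mem_right
    apply Ideal.mem_map_of_mem
    rw [hI]
    have h2j := h2 j
    rw [Fin.sum_univ_two] at h2j
    simp only [Matrix.cons_val_zero, Matrix.cons_val_one] at h2j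
    refine ⟨A 1 j, ?_⟩
    linear_combination h2j
  have hA' : ∀ x' ∈ I.map f, f p ∣ x' * f a := by
    intro x' hx'
    induction hx' using Submodule.span_induction with
    | mem z hz =>
      obtain ⟨w, hw, rfl⟩ := hz
      rw [← map_mul]
      exact map_dvd f ((hI w).mp hw)
    | zero => simp
    | add x y _ _ hx hy => rw [add_mul]; exact dvd_add hx hy
    | smul c x _ hx => rw [smul_eq_mul, mul_assoc]; exact Dvd.dvd.mul_left hx c
  have hp0 : f p ≠ 0 := fun h => hp.ne_zero (hinj (h.trans (map_zero f).symm))
  letI := UniqueFactorizationMonoid.toGCDMonoid R'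
  obtain ⟨u, w, hu, hw, huw⟩ := extract_gcd (f p) (f a)
  have hd0 : gcd (f p) (f a) ≠ 0 := by
    intro h; rw [h, zero_mul] at hu; exact hp0 hu
  have hu0 : u ≠ 0 := by
    intro h; rw [h, mul_zero] at hu; exact hp0 hu
  have hJ : I.map f = Ideal.span {u} := by
    apply le_antisymm
    · intro x' hx'
      rw [Ideal.mem_span_singleton]
      have h1 := hA' x' hx'
      have h2 : u ∣ x' * w := by
        obtain ⟨c, hc⟩ := h1
        refine ⟨c, ?_⟩
        apply mul_left_cancel₀ hd0
        calc gcd (f p) (f a) * (x' * w) = x' * (gcd (f p) (f a) * w) := by ring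
          _ = x' * f a := by rw [← hw]
          _ = f p * c := hc
          _ = (gcd (f p) (f a) * u) * c := by rw [← hu]
          _ = _ := by ring
      exact (gcd_isUnit_iff_isRelPrime.mp huw).dvd_of_dvd_mul_right h2
    · rw [Ideal.span_singleton_le_iff_mem]
      apply hA
      refine ⟨w, ?_⟩
      calc u * f a = u * (gcd (f p) (f a) * w) := by rw [← hw]
        _ = (gcd (f p) (f a) * u) * w := by ring
        _ = f p * w := by rw [← hu]
  obtain ⟨s, hs⟩ := (IsNoetherian.noetherian I : I.FG)
  have hs' : Ideal.span (s : Set R) = I := hs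
  have hmap : I.map f = Ideal.span (f '' s) := by rw [← hs', Ideal.map_span]
  have humem : u ∈ Submodule.span R' (f '' (s : Set R)) := by
    change u ∈ Ideal.span (f '' (s : Set R))
    rw [← hmap, hJ]; exact Ideal.mem_span_singleton_self u
  have hex : ∃ x ∈ s, Ideal.span {f x} = Ideal.span {u} := by
    have hy : ∀ x ∈ s, ∃ y, f x = u * y := by
      intro x hx
      have : f x ∈ I.map f := Ideal.mem_map_of_mem f (by rw [← hs']; exact Ideal.subset_span hx)
      rw [hJ, Ideal.mem_span_singleton] at this
      exact this
    choose! y hy using hy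
    obtain ⟨c, hc⟩ := (Submodule.mem_span_image_finset_iff_exists_fun R').mp humem
    have h1 : ∑ x : s, c x * y x = 1 := by
      apply mul_left_cancel₀ hu0
      rw [Finset.mul_sum, mul_one]
      conv_rhs => rw [← hc]
      apply Finset.sum_congr rfl
      intro x hx
      rw [hy x x.2, smul_eq_mul]; ring
    obtain ⟨⟨x, hx⟩, -, hux⟩ := IsLocalRing.exists_of_isUnit_sum (h1 ▸ isUnit_one : IsUnit (∑ x : s, c x * y x))
    refine ⟨x, hx, ?_⟩
    rw [hy x hx]
    exact Ideal.span_singleton_mul_right_unit (isUnit_of_mul_isUnit_right hux) u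
  obtain ⟨x, hxs, hx⟩ := hex
  have hIx : I = Ideal.span {x} := by
    rw [← Ideal.comap_map_eq_self_of_faithfullyFlat (B := R') I, ← Ideal.comap_map_eq_self_of_faithfullyFlat (B := R') (Ideal.span {x})]
    congr 1
    rw [Ideal.map_span, Set.image_singleton]
    rw [hJ, ← hx]
  have hpI : p ∈ I := (hI p).mpr (dvd_mul_right p a)
  have hbI : b ∈ I := (hI b).mpr (by rwa [mul_comm])
  rw [hIx, Ideal.mem_span_singleton] at hpI hbI
  obtain ⟨t, ht⟩ := hpI
  rcases hp.isUnit_or_isUnit ht with h | h
  · left
    have : (1 : R) ∈ I := by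
      rw [hIx, Ideal.mem_span_singleton]; exact h.dvd
    rw [hI, one_mul] at this
    exact this
  · right
    rw [ht]
    exact (h.mul_right_dvd).mpr hbI

end Groth.Agent.S19890
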