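import Groth.Statements.S19904
import Mathlib

set_option autoImplicit false
universe u v
open CategoryTheory
open ArtFun

namespace Groth.Agent.S19904

/-- For functors F, G, G' on Artinian local Λ-algebras with residue field k (Λ Noetherian, Λ → k finite)
and morphisms φ : F → G, ψ : G' → G: if φ is smooth then the base change F ×_G G' → G' (second
projection of the fibre product of functors) is smooth. -/
theorem result {Λ : Type u} {k : Type u} [CommRing Λ] [Field k] [Algebra Λ k]
    [IsNoetherianRing Λ] [Module.Finite Λ k]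
    {F G G' : ArtFun.Art Λ k ⥤ Type v} (φ : F ⟶ G) (ψ : G' ⟶ G) (hφ : ArtFun.IsSmooth φ) :
    ArtFun.IsSmooth (Limits.pullback.snd φ ψ) := by
  intro B A μ hμ
  rintro ⟨⟨x, y⟩, hxy⟩
  -- x : (pullback).obj A, y : G'.obj B
  have hnat : φ.app A ((Limits.pullback.fst φ ψ).app A x) = G.map μ (ψ.app B y) := by
    have h1 : φ.app A ((Limits.pullback.fst φ ψ).app A x) = ψ.app A ((Limits.pullback.snd φ ψ).app A x) := by
      have := congrArg (fun t => t.app A x) (Limits.pullback.condition (f := φ) (g := ψ))
      simpa using this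
    have h2 : ψ.app A ((Limits.pullback.snd φ ψ).app A x) = ψ.app A (G'.map μ y) := by
      rw [hxy]
    rw [h1, h2]
    exact (NatTrans.naturality_apply ψ μ y)
  obtain ⟨z, hz⟩ := hφ μ hμ ⟨⟨(Limits.pullback.fst φ ψ).app A x, ψ.app B y⟩, hnat⟩
  have hz1 : F.map μ z = (Limits.pullback.fst φ ψ).app A x := congrArg (fun t => t.1.1) hz
  have hz2 : φ.app B z = ψ.app B y := congrArg (fun t => t.1.2) hz
  have hpb : ∀ T : ArtFun.Art Λ k, IsPullback ((Limits.pullback.fst φ ψ).app T) ((Limits.pullback.snd φ ψ).app T) (φ.app T) (ψ.app T) := by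
    intro T
    exact (IsPullback.of_hasPullback φ ψ).map ((evaluation _ _).obj T)
  obtain ⟨w, hw1, hw2⟩ := Limits.Types.exists_of_isPullback (hpb B) z y hz2
  refine ⟨w, ?_⟩
  apply Subtype.ext
  apply Prod.ext
  · change (Limits.pullback φ ψ).map μ w = x
    apply Limits.Types.ext_of_isPullback (hpb A)
    · rw [NatTrans.naturality_apply, hw1, hz1]
    · rw [NatTrans.naturality_apply, hw2]
      exact hxy.symm
  · exact hw2

end Groth.Agent.S19904
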