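import Groth.Statements.S1996
import Groth.Agent.Lib.H3WE

set_option autoImplicit false
universe u
open EtAlg

namespace Groth.Agent.S1996

/-- Let A -> B -> C be ring maps with B -> C faithfully flat. Weak etaleness of A -> C then implies weak
etaleness of A -> B. -/
theorem result (A B C : Type u) [CommRing A] [CommRing B] [CommRing C] [Algebra A B]
    [Algebra B C] [Algebra A C] [IsScalarTower A B C] [Module.FaithfullyFlat B C] [Algebra.WeaklyEtale A C] :
    Algebra.WeaklyEtale A B := by
  exact Groth.Agent.H3WE.weaklyEtale_descends A B C

end Groth.Agent.S1996
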