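import Groth.Statements.S20024
import Mathlib

set_option autoImplicit false
universe u
open WittFil

namespace Groth.Agent.S20024

/-- Case q = 0: let p be a prime, S a commutative ring of characteristic p and B a commutative S-algebra
(in the source B = S[[π]][1/π]), u a unit of B (the uniformizer π), m, s natural numbers, i, l
integers and c a p-typical Witt vector over S. Write Φ_v(c) for the length-m truncation of V^s(c ·
[v]), where c is mapped to the Witt vectors of B, [v] is the Teichmüller representative of v ∈ B and
V is the Verschiebung; for n = p^(m−1−s) · i the degree-zero piece F_n^{m,0}(S) is the set of all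
Φ_{u^i}(c). Then multiplication by the truncated Teichmüller representative [u^l] satisfies [u^l] ·
Φ_{u^i}(c) = Φ_{u^(i + p^s l)}(c); consequently [u^l] · F_n^{m,0}(S) = F_{n + p^(m−1) l}^{m,0}(S).
(Only the part of the lemma in differential degree q = 0 is stated; the source's S is a regular
local F-finite F_p-algebra, and the identity holds for any S-algebra B of characteristic p.) -/
theorem result (p : ℕ) [Fact p.Prime] {S B : Type u}
    [CommRing S] [CharP S p] [CommRing B] [Algebra S B] (m s : ℕ) (u : Bˣ) (i l : ℤ)
    (c : WittVector p S) :
    WittVector.truncate m (WittVector.teichmuller p ((u ^ l : Bˣ) : B)) *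
        WittFil.vShiftTeich p m s ((u ^ i : Bˣ) : B) c =
      WittFil.vShiftTeich p m s ((u ^ (i + (p : ℤ) ^ s * l) : Bˣ) : B) c := by
  rcases subsingleton_or_nontrivial B with hB | hB
  · apply TruncatedWittVector.ext
    intro j
    exact Subsingleton.elim _ _
  · haveI : CharP B p := charP_of_injective_ringHom (R := ZMod p) (A := B) (f := ((algebraMap S B).comp (ZMod.castHom (dvd_refl p) S))) (RingHom.injective _) p
    unfold WittFil.vShiftTeich
    rw [← map_mul, mul_comm, WittVector.iterate_verschiebung_mul_left]
    congr 2
    have hF : ∀ s : ℕ, (⇑(WittVector.frobenius (p := p) (R := B)))^[s] (WittVector.teichmuller p ((u ^ l : Bˣ) : B)) = WittVector.teichmuller p ((u ^ ((p : ℤ) ^ s * l) : Bˣ) : B) := by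
      intro s
      induction s with
      | zero => simp
      | succ s ih =>
        rw [Function.iterate_succ_apply', ih, WittVector.frobenius_eq_map_frobenius, WittVector.map_teichmuller]
        congr 1
        rw [frobenius_def, ← Units.val_pow_eq_pow_val]
        congr 1
        rw [← zpow_natCast, ← zpow_mul]
        congr 1
        ring
    rw [hF, mul_assoc, ← map_mul, ← Units.val_mul, ← zpow_add]

end Groth.Agent.S20024
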