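import Groth.Statements.S2012
import Groth.Agent.Lib.H3Low

set_option autoImplicit false
universe u
open EtAlg

namespace Groth.Agent.S2012

/-- Let A be a ring and I an ideal contained in its Jacobson radical. Let B be an A-algebra which is
flat, integral and of finite presentation over A and such that A/I -> B/IB is bijective. Then A -> B
is bijective. -/
theorem result (A B : Type u) [CommRing A] [CommRing B] [Algebra A B]
    (I : Ideal A) (hI : I ≤ (⊥ : Ideal A).jacobson) [Module.Flat A B] [Algebra.IsIntegral A B] [Algebra.FinitePresentation A B]
    (hq : Function.Bijective (Ideal.quotientMap (I.map (algebraMap A B)) (algebraMap A B) Ideal.le_comap_map)) :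
    Function.Bijective (algebraMap A B) := by
  exact Groth.Agent.H3Low.t2012 A B I hI hq

end Groth.Agent.S2012
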