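import Groth.Statements.S2018
import Groth.Agent.Lib.H3Low

set_option autoImplicit false
universe u
open EtAlg

namespace Groth.Agent.S2018

/-- Let g : A' -> A be a surjective ring map and f : B -> A an integral ring map. Then the projection
from the fibre product B ×_A A' (the equalizer of f ∘ pr₁ and g ∘ pr₂ in B × A') to A' is integral. -/
theorem result (A A' B : Type u) [CommRing A] [CommRing A'] [CommRing B] (g : A' →+* A)
    (hg : Function.Surjective g) (f : B →+* A) (hf : f.IsIntegral) :
    ((RingHom.snd B A').comp ((f.comp (RingHom.fst B A')).eqLocus (g.comp (RingHom.snd B A'))).subtype).IsIntegral := by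
  exact Groth.Agent.H3Low.t2018 A A' B g hg f hf

end Groth.Agent.S2018
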