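import Groth.Statements.S2041
import Groth.Agent.Lib.H3EtLift

set_option autoImplicit false
universe u
open CAlg

namespace Groth.Agent.S2041

open TensorProduct in
/-- Let `I ⊆ A` be an ideal, `A → B` integral and `ē` an idempotent of `B/IB`. Then there is an étale
`A`-algebra `A'` with `A/I → A'/IA'` bijective and an idempotent of `A' ⊗ B` whose class modulo `I`
agrees with that of any lift of `ē`. -/
theorem result {A B : Type u} [CommRing A] [CommRing B] [Algebra A B]
    [Algebra.IsIntegral A B] (I : Ideal A) (e : B ⧸ I.map (algebraMap A B)) (he : IsIdempotentElem e) :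
    ∃ (A' : Type u) (_ : CommRing A') (_ : Algebra A A'), Algebra.Etale A A' ∧
      Function.Bijective (algebraMap (A ⧸ I) (A' ⧸ I.map (algebraMap A A'))) ∧
      ∃ e' : A' ⊗[A] B, IsIdempotentElem e' ∧
        ∀ b : B, Ideal.Quotient.mk (I.map (algebraMap A B)) b = e →
          e' - 1 ⊗ₜ b ∈ I.map (algebraMap A (A' ⊗[A] B)) := by
  classical
  obtain ⟨b, hb⟩ := Ideal.Quotient.mk_surjective e
  have hbi : IsIdempotentElem (Ideal.Quotient.mk (I.map (algebraMap A B)) b) := by rw [hb]; exact he
  obtain ⟨f, d, hfm, hd, hfb, hfI⟩ := Groth.Agent.H3EtLift.exists_monic_annihilator A B I b hbi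
  have hX1 : (Polynomial.X - 1 : Polynomial (A ⧸ I)) = Polynomial.X - Polynomial.C 1 := by
    rw [Polynomial.C_1]
  have hcop : IsCoprime ((Polynomial.X : Polynomial (A ⧸ I)) ^ d) ((Polynomial.X - 1) ^ d) := by
    apply IsCoprime.pow
    exact ⟨1, -1, by ring⟩
  obtain ⟨A', i1, i2, hA', hbij, g', h', hg', hh', hc', hf', hg'', hh''⟩ :=
    Groth.Agent.H3EtLift.exists_etale_lift_monic_factorization' I f hfm
      ((Polynomial.X : Polynomial (A ⧸ I)) ^ d) ((Polynomial.X - 1) ^ d)
      (Polynomial.monic_X_pow d) (by rw [hX1]; exact (Polynomial.monic_X_sub_C 1).pow d) hcop hfI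
  obtain ⟨u, v, huv⟩ := hc'
  let T := A' ⊗[A] B
  let β : T := 1 ⊗ₜ b
  let ev : Polynomial A' →ₐ[A'] T := Polynomial.aeval β
  have hev0 : ev (f.map (algebraMap A A')) = 0 := by
    have h1 : ev (f.map (algebraMap A A')) = Polynomial.aeval β f := by
      simp only [ev]
      rw [Polynomial.aeval_map_algebraMap]
    rw [h1]
    have h2 : β = (Algebra.TensorProduct.includeRight : B →ₐ[A] T) b := rfl
    rw [h2, Polynomial.aeval_algHom_apply, hfb, map_zero]
  have hgh0 : ev g' * ev h' = 0 := by rw [← map_mul, ← hf', hev0]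
  have h1 : ev u * ev g' + ev v * ev h' = 1 := by
    rw [← map_mul, ← map_mul, ← map_add, huv, map_one]
  let e' : T := ev u * ev g'
  have he' : IsIdempotentElem e' := by
    change ev u * ev g' * (ev u * ev g') = ev u * ev g'
    linear_combination (ev u * ev g') * h1 - (ev u * ev v) * hgh0
  refine ⟨A', i1, i2, hA', hbij, e', he', ?_⟩
  intro b' hb'
  let J : Ideal T := I.map (algebraMap A T)
  let q := Ideal.Quotient.mk J
  have hJ' : I.map (algebraMap A A') ≤ RingHom.ker (q.comp (algebraMap A' T)) := by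
    rw [Ideal.map_le_iff_le_comap]
    intro x hx
    change q (algebraMap A' T (algebraMap A A' x)) = 0
    rw [← IsScalarTower.algebraMap_apply]
    exact Ideal.Quotient.eq_zero_iff_mem.mpr (Ideal.mem_map_of_mem _ hx)
  have hJB : ∀ x ∈ I.map (algebraMap A B), q ((1 : A') ⊗ₜ[A] x) = 0 := by
    have : I.map (algebraMap A B) ≤
        RingHom.ker (q.comp (Algebra.TensorProduct.includeRight : B →ₐ[A] T).toRingHom) := by
      rw [Ideal.map_le_iff_le_comap]
      intro x hx
      change q ((Algebra.TensorProduct.includeRight : B →ₐ[A] T) (algebraMap A B x)) = 0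
      rw [AlgHom.commutes]
      exact Ideal.Quotient.eq_zero_iff_mem.mpr (Ideal.mem_map_of_mem _ hx)
    intro x hx
    exact this hx
  have hbb' : q ((1 : A') ⊗ₜ[A] b') = q β := by
    rw [← sub_eq_zero, ← map_sub]
    have : (1 : A') ⊗ₜ[A] b' - β = (1 : A') ⊗ₜ[A] (b' - b) := by
      simp only [β]
      rw [TensorProduct.tmul_sub]
    rw [this]
    apply hJB
    rw [← Ideal.Quotient.eq, hb', hb]
  have hβ : q β * q β = q β := by
    rw [← map_mul, ← sub_eq_zero, ← map_sub]
    have : β * β - β = (1 : A') ⊗ₜ[A] (b * b - b) := by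
      simp only [β]
      rw [TensorProduct.tmul_sub, Algebra.TensorProduct.tmul_mul_tmul, one_mul]
    rw [this]
    apply hJB
    rw [← Ideal.Quotient.eq, map_mul]
    exact hbi
  -- evaluation mod J
  have hevq : ∀ P Q : Polynomial A', P.map (Ideal.Quotient.mk (I.map (algebraMap A A'))) =
      Q.map (Ideal.Quotient.mk (I.map (algebraMap A A'))) → q (ev P) = q (ev Q) := by
    intro P Q hPQ
    obtain ⟨L, hL⟩ : ∃ L : (A' ⧸ I.map (algebraMap A A')) →+* T ⧸ J,
        L.comp (Ideal.Quotient.mk (I.map (algebraMap A A'))) = q.comp (algebraMap A' T) :=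
      ⟨Ideal.Quotient.lift _ (q.comp (algebraMap A' T)) (fun a ha => hJ' ha), RingHom.ext fun _ => rfl⟩
    have key : ∀ R : Polynomial A', q (ev R) = (R.map (Ideal.Quotient.mk (I.map (algebraMap A A')))).eval₂
        L (q β) := by
      intro R
      rw [Polynomial.eval₂_map, hL]
      simp only [ev]
      rw [Polynomial.aeval_def, Polynomial.hom_eval₂]
    rw [key, key, hPQ]
  have hg3 : q (ev g') = (q β) ^ d := by
    rw [hevq g' (Polynomial.X ^ d) (by rw [hg'']; simp)]
    simp [ev]
  have hh3 : q (ev h') = (q β - 1) ^ d := by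
    rw [hevq h' ((Polynomial.X - 1) ^ d) (by rw [hh'']; simp)]
    simp [ev]
  have hpow : ∀ n, 1 ≤ n → (q β) ^ n = q β := by
    intro n hn
    induction n, hn using Nat.le_induction with
    | base => rw [pow_one]
    | succ n hn ih => rw [pow_succ, ih, hβ]
  have hpow2 : (q β - 1) ^ d * q β = 0 := by
    obtain ⟨n, rfl⟩ : ∃ n, d = n + 1 := ⟨d - 1, by omega⟩
    rw [pow_succ]
    linear_combination ((q β - 1) ^ n) * hβ
  have h1q : q (ev u) * q (ev g') + q (ev v) * q (ev h') = 1 := by
    have := congrArg q h1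
    simpa only [map_add, map_mul, map_one] using this
  have hfin : q e' = q β := by
    change q (ev u * ev g') = q β
    rw [map_mul]
    rw [hg3, hh3, hpow d hd] at h1q
    rw [hg3, hpow d hd]
    have h5 : (q (ev u) * q β + q (ev v) * (q β - 1) ^ d) * q β = q β := by rw [h1q, one_mul]
    linear_combination h5 - q (ev u) * hβ - q (ev v) * hpow2
  change e' - (1 : A') ⊗ₜ[A] b' ∈ J
  rw [← Ideal.Quotient.eq]
  change q e' = q ((1 : A') ⊗ₜ[A] b')
  rw [hfin, hbb']

end Groth.Agent.S2041
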