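import Groth.Statements.S2042
import Groth.Agent.Lib.H3EtLift

set_option autoImplicit false
universe u
open CAlg

namespace Groth.Agent.S2042

open Polynomial in
/-- Let `I ⊆ A` be an ideal and `f ∈ A[X]` monic whose image in `(A/I)[X]` factors as a product of two
monic polynomials generating the unit ideal. Then over some étale `A`-algebra `A'` with `A/I →
A'/IA'` bijective, `f` factors as a product of two monic polynomials lifting the given factors. -/
theorem result {A : Type u} [CommRing A] (I : Ideal A) (f : A[X])
    (hf : f.Monic) (g h : (A ⧸ I)[X]) (hg : g.Monic) (hh : h.Monic) (hcop : IsCoprime g h)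
    (hfgh : f.map (Ideal.Quotient.mk I) = g * h) :
    ∃ (A' : Type u) (_ : CommRing A') (_ : Algebra A A'), Algebra.Etale A A' ∧
      Function.Bijective (algebraMap (A ⧸ I) (A' ⧸ I.map (algebraMap A A'))) ∧
      ∃ g' h' : A'[X], g'.Monic ∧ h'.Monic ∧ f.map (algebraMap A A') = g' * h' ∧
        g'.map (Ideal.Quotient.mk (I.map (algebraMap A A'))) =
          g.map (algebraMap (A ⧸ I) (A' ⧸ I.map (algebraMap A A'))) ∧
        h'.map (Ideal.Quotient.mk (I.map (algebraMap A A'))) =
          h.map (algebraMap (A ⧸ I) (A' ⧸ I.map (algebraMap A A'))) := by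
  obtain ⟨A', h1, h2, h3, h4, g', h', h5, h6, -, h7⟩ :=
    Groth.Agent.H3EtLift.exists_etale_lift_monic_factorization' I f hf g h hg hh hcop hfgh
  exact ⟨A', h1, h2, h3, h4, g', h', h5, h6, h7⟩

end Groth.Agent.S2042
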