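import Groth.Statements.S2044
import Groth.Agent.Lib.H3Proj

set_option autoImplicit false
universe u
open CAlg

namespace Groth.Agent.S2044

open TensorProduct in
/-- Let `I ⊆ A` be an ideal and `P` a finite projective `A/I`-module. Then there is an étale `A`-algebra
`A'` with `A/I → A'/IA'` bijective and a finite projective `A'`-module whose reduction modulo `IA'`
is the base change of `P`. -/
theorem result {A : Type u} [CommRing A] (I : Ideal A) (P : Type u)
    [AddCommGroup P] [Module (A ⧸ I) P] [Module.Finite (A ⧸ I) P] [Module.Projective (A ⧸ I) P] :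
    ∃ (A' : Type u) (_ : CommRing A') (_ : Algebra A A'), Algebra.Etale A A' ∧
      Function.Bijective (algebraMap (A ⧸ I) (A' ⧸ I.map (algebraMap A A'))) ∧
      ∃ (P' : Type u) (_ : AddCommGroup P') (_ : Module A' P'), Module.Finite A' P' ∧
        Module.Projective A' P' ∧
        Nonempty (((A' ⧸ I.map (algebraMap A A')) ⊗[A'] P') ≃ₗ[A' ⧸ I.map (algebraMap A A')]
          ((A' ⧸ I.map (algebraMap A A')) ⊗[A ⧸ I] P)) := by
  exact Groth.Agent.H3Proj.main I P

end Groth.Agent.S2044
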