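import Groth.Statements.S2073
import Groth.Agent.Lib.H3NN

set_option autoImplicit false
universe u
open CAlg

namespace Groth.Agent.S2073

/-- Let `R` be a domain and `R → S` an injective ring map of finite type. Then there are elements `y_1,
…, y_d` of `S` algebraically independent over `R`, a finitely generated `R`-subalgebra `S'` of `S`
containing them and integral over `R[y_1, …, y_d]`, and a nonzero `f ∈ R` such that every element of
`S` lands in `S'` after multiplication by a power of `f`. -/
theorem result {R S : Type u} [CommRing R] [IsDomain R] [CommRing S] [Algebra R S]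
    [Algebra.FiniteType R S] (hinj : Function.Injective (algebraMap R S)) :
    ∃ (d : ℕ) (y : Fin d → S) (S' : Subalgebra R S), AlgebraicIndependent R y ∧ (∀ i, y i ∈ S') ∧ S'.FG ∧
      (∀ s ∈ S', IsIntegral (Algebra.adjoin R (Set.range y)) s) ∧
      ∃ f : R, f ≠ 0 ∧ ∀ s : S, ∃ n : ℕ, (f ^ n) • s ∈ S' := by
  exact Groth.Agent.H3NN.noether hinj

end Groth.Agent.S2073
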