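import Groth.Statements.S2170
import Mathlib
-- import your own Groth.Agent.* helpers here

set_option autoImplicit false
open Finset
open Models

namespace Groth.Agent.S2170

/-- Let A be a symmetric real n × n matrix with non-negative off-diagonal entries and m a vector with
positive entries such that for every i, ∑_{j ≠ i} A_{ij} m_j ≤ −A_{ii} m_i. Then the kernel of A is
the span of the vectors equal to m on an index set I and zero off I, for those I such that A_{ij} =
0 whenever i ∈ I and j ∉ I and such that equality holds in the above inequality for every i ∈ I. The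
published statement omits the symmetry of A (without which it fails) and applies it only to
symmetric matrices; stated here with A symmetric. -/
theorem result {n : ℕ} (A : Matrix (Fin n) (Fin n) ℝ) (m : Fin n → ℝ)
    (hsymm : A.IsSymm) (hA : ∀ i j, i ≠ j → 0 ≤ A i j) (hm : ∀ i, 0 < m i)
    (hle : ∀ i, ∑ j ∈ univ.erase i, A i j * m j ≤ -(A i i * m i)) :
    LinearMap.ker (Matrix.mulVecLin A) = Submodule.span ℝ
      {x : Fin n → ℝ | ∃ I : Finset (Fin n), (∀ i ∈ I, ∀ j ∉ I, A i j = 0) ∧
        (∀ i ∈ I, ∑ j ∈ univ.erase i, A i j * m j = -(A i i * m i)) ∧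
        x = fun i => if i ∈ I then m i else 0} := by
  have hs : ∀ i j, A i j = A j i := fun i j => by
    have := congrFun (congrFun hsymm j) i
    simpa [Matrix.transpose_apply] using this
  have hsum : ∀ i, ∑ j, A i j * m j = A i i * m i + ∑ j ∈ univ.erase i, A i j * m j := fun i =>
    (Finset.add_sum_erase univ (fun j => A i j * m j) (mem_univ i)).symm
  apply le_antisymm
  · intro x hx
    rw [LinearMap.mem_ker, Matrix.mulVecLin_apply] at hx
    have hx' : ∀ i, ∑ j, A i j * x j = 0 := fun i => by
      have := congrFun hx i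
      simpa [Matrix.mulVec, dotProduct] using this
    obtain ⟨y, hxy⟩ : ∃ y : Fin n → ℝ, ∀ i, x i = m i * y i := by
      refine ⟨fun i => x i / m i, fun i => ?_⟩
      have := (hm i).ne'
      field_simp
    have h0 : ∑ i, ∑ j, A i j * m i * m j * (y i * y j) = 0 := by
      apply Finset.sum_eq_zero; intro i _
      have := hx' i
      calc ∑ j, A i j * m i * m j * (y i * y j) = x i * ∑ j, A i j * x j := by
            rw [Finset.mul_sum]; refine Finset.sum_congr rfl fun j _ => ?_
            rw [hxy i, hxy j]; ring
        _ = 0 := by rw [this, mul_zero]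
    have h1 : ∑ i, ∑ j, A i j * m i * m j * (y j) ^ 2 = ∑ i, ∑ j, A i j * m i * m j * (y i) ^ 2 := by
      rw [Finset.sum_comm]
      refine Finset.sum_congr rfl fun i _ => Finset.sum_congr rfl fun j _ => ?_
      rw [hs j i]; ring
    have h2 : ∑ i, ∑ j, A i j * m i * m j * (y i - y j) ^ 2 =
        2 * ∑ i, ∑ j, A i j * m i * m j * (y i) ^ 2 := by
      have : ∑ i, ∑ j, A i j * m i * m j * (y i - y j) ^ 2 =
        ∑ i, ∑ j, A i j * m i * m j * (y i) ^ 2 + ∑ i, ∑ j, A i j * m i * m j * (y j) ^ 2
          - 2 * ∑ i, ∑ j, A i j * m i * m j * (y i * y j) := by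
        rw [← Finset.sum_add_distrib, Finset.mul_sum, ← Finset.sum_sub_distrib]
        refine Finset.sum_congr rfl fun i _ => ?_
        rw [← Finset.sum_add_distrib, Finset.mul_sum, ← Finset.sum_sub_distrib]
        refine Finset.sum_congr rfl fun j _ => ?_
        ring
      rw [this, h0, h1]; ring
    have hle' : ∀ i, ∑ j, A i j * m j ≤ 0 := fun i => by
      rw [hsum i]; linarith [hle i]
    have h3 : ∀ i, ∑ j, A i j * m i * m j * (y i) ^ 2 = m i * (y i)^2 * ∑ j, A i j * m j := fun i => by
      rw [Finset.mul_sum]; refine Finset.sum_congr rfl fun j _ => ?_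
      ring
    have h3' : ∀ i, ∑ j, A i j * m i * m j * (y i) ^ 2 ≤ 0 := fun i => by
      rw [h3 i]
      exact mul_nonpos_of_nonneg_of_nonpos (mul_nonneg (hm i).le (sq_nonneg _)) (hle' i)
    have h4 : ∀ i j, 0 ≤ A i j * m i * m j * (y i - y j) ^ 2 := fun i j => by
      by_cases hij : i = j
      · subst hij; simp
      · exact mul_nonneg (mul_nonneg (mul_nonneg (hA i j hij) (hm i).le) (hm j).le) (sq_nonneg _)
    have h5 : ∑ i, ∑ j, A i j * m i * m j * (y i - y j) ^ 2 = 0 := by
      apply le_antisymm
      · rw [h2]
        have : ∑ i, ∑ j, A i j * m i * m j * (y i) ^ 2 ≤ 0 := Finset.sum_nonpos fun i _ => h3' i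
        linarith
      · exact Finset.sum_nonneg fun i _ => Finset.sum_nonneg fun j _ => h4 i j
    have h6 : ∀ i j, A i j * m i * m j * (y i - y j) ^ 2 = 0 := fun i j => by
      have := (Finset.sum_eq_zero_iff_of_nonneg (fun i _ => Finset.sum_nonneg fun j _ => h4 i j)).1 h5 i (mem_univ _)
      exact (Finset.sum_eq_zero_iff_of_nonneg (fun j _ => h4 i j)).1 this j (mem_univ _)
    have h7 : ∀ i j, y i ≠ y j → A i j = 0 := fun i j hij => by
      have := h6 i j
      have hne : (y i - y j)^2 ≠ 0 := pow_ne_zero _ (sub_ne_zero.2 hij)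
      have hmi := (hm i).ne'
      have hmj := (hm j).ne'
      simpa [hne, hmi, hmj] using this
    have h8 : ∀ i, y i ≠ 0 → ∑ j, A i j * m j = 0 := fun i hi => by
      have h9 : ∑ i, ∑ j, A i j * m i * m j * (y i) ^ 2 = 0 := by linarith [h2, h5]
      have h10 : ∀ i, ∑ j, A i j * m i * m j * (y i) ^ 2 = 0 := fun i =>
        (Finset.sum_eq_zero_iff_of_nonpos (fun i _ => h3' i)).1 h9 i (mem_univ _)
      have := h10 i
      rw [h3 i] at this
      have hmi := (hm i).ne'
      simpa [hmi, hi] using this
    have hx2 : x = ∑ c ∈ univ.image y, c • (fun i => if i ∈ univ.filter (fun i => y i = c) then m i else 0 : Fin n → ℝ) := by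
      ext i
      rw [Finset.sum_apply]
      simp only [Pi.smul_apply, mem_filter, mem_univ, true_and, smul_eq_mul, mul_ite, mul_zero]
      rw [Finset.sum_ite_eq]
      simp [hxy i, mul_comm]
    rw [hx2]
    refine Submodule.sum_mem _ fun c _ => ?_
    by_cases hc : c = 0
    · simp [hc]
    · refine Submodule.smul_mem _ _ (Submodule.subset_span ⟨univ.filter (fun i => y i = c), ?_, ?_, rfl⟩)
      · intro i hi j hj
        simp only [mem_filter, mem_univ, true_and] at hi hj
        exact h7 i j (by rw [hi]; exact fun h => hj h.symm)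
      · intro i hi
        simp only [mem_filter, mem_univ, true_and] at hi
        have := h8 i (by rw [hi]; exact hc)
        rw [hsum i] at this
        linarith
  · rw [Submodule.span_le]
    rintro x ⟨I, hI1, hI2, rfl⟩
    simp only [SetLike.mem_coe, LinearMap.mem_ker, Matrix.mulVecLin_apply]
    ext i
    simp only [Matrix.mulVec, dotProduct, Pi.zero_apply]
    by_cases hi : i ∈ I
    · have : ∀ j, A i j * (if j ∈ I then m j else 0) = A i j * m j := fun j => by
        by_cases hj : j ∈ I
        · simp [hj]
        · simp [hj, hI1 i hi j hj]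
      rw [Finset.sum_congr rfl fun j _ => this j, hsum i]
      linarith [hI2 i hi]
    · apply Finset.sum_eq_zero
      intro j _
      by_cases hj : j ∈ I
      · rw [hs i j, hI1 j hj i hi]; simp
      · simp [hj]

end Groth.Agent.S2170
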