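import Groth.Statements.S2171
import Mathlib.Tactic

set_option autoImplicit false
open Finset
open Models

namespace Groth.Agent.S2171

theorem key_identity {n : ℕ} (A : Matrix (Fin n) (Fin n) ℝ) (m y : Fin n → ℝ) (hsymm : A.IsSymm) :
    ∑ i, (m i * y i) * (∑ j, A i j * (m j * y j)) =
      ∑ i, m i * y i ^ 2 * (∑ j, A i j * m j) -
        (1 / 2) * ∑ i, ∑ j, A i j * m i * m j * (y i - y j) ^ 2 := by
  have hs : ∀ i j, A i j = A j i := fun i j => by
    have := hsymm.apply i j
    exact this.symm
  have h1 : ∑ i, ∑ j, A i j * m i * m j * (y j) ^ 2 = ∑ i, ∑ j, A i j * m i * m j * (y i) ^ 2 := by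
    rw [Finset.sum_comm]
    refine Finset.sum_congr rfl fun i _ => Finset.sum_congr rfl fun j _ => ?_
    rw [hs j i]; ring
  have h2 : ∑ i, ∑ j, A i j * m i * m j * (y i - y j) ^ 2 =
      ∑ i, ∑ j, A i j * m i * m j * (y i) ^ 2 + ∑ i, ∑ j, A i j * m i * m j * (y j) ^ 2
        - 2 * ∑ i, ∑ j, A i j * m i * m j * (y i * y j) := by
    rw [Finset.mul_sum, ← Finset.sum_add_distrib, ← Finset.sum_sub_distrib]
    refine Finset.sum_congr rfl fun i _ => ?_
    rw [Finset.mul_sum, ← Finset.sum_add_distrib, ← Finset.sum_sub_distrib]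
    refine Finset.sum_congr rfl fun j _ => ?_
    ring
  have h3 : ∑ i, (m i * y i) * (∑ j, A i j * (m j * y j)) =
      ∑ i, ∑ j, A i j * m i * m j * (y i * y j) := by
    refine Finset.sum_congr rfl fun i _ => ?_
    rw [Finset.mul_sum]
    refine Finset.sum_congr rfl fun j _ => ?_
    ring
  have h4 : ∑ i, m i * y i ^ 2 * (∑ j, A i j * m j) =
      ∑ i, ∑ j, A i j * m i * m j * (y i) ^ 2 := by
    refine Finset.sum_congr rfl fun i _ => ?_
    rw [Finset.mul_sum]
    refine Finset.sum_congr rfl fun j _ => ?_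
    ring
  rw [h3, h4, h2, h1]
  ring


/-- Let A be a symmetric real n by n matrix with non-negative off-diagonal entries, m a vector with positive entries such that A m = 0, and assume no proper non-empty index set I has A i j = 0 for all i in I and j outside I. Then x^t A x is at most 0 for every real vector x, with equality exactly when x is a real multiple of m. -/
theorem result {n : ℕ} (A : Matrix (Fin n) (Fin n) ℝ)
    (m : Fin n → ℝ) (hsymm : A.IsSymm) (hA : ∀ i j, i ≠ j → 0 ≤ A i j) (hm : ∀ i, 0 < m i)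
    (hAm : A.mulVec m = 0)
    (hconn : ∀ I : Finset (Fin n), I.Nonempty → I ≠ univ → ∃ i ∈ I, ∃ j ∉ I, A i j ≠ 0)
    (x : Fin n → ℝ) :
    dotProduct x (A.mulVec x) ≤ 0 ∧ (dotProduct x (A.mulVec x) = 0 ↔ ∃ q : ℝ, x = q • m) := by
  have hAm' : ∀ i, ∑ j, A i j * m j = 0 := by
    intro i
    have h := congrFun hAm i
    simpa [Matrix.mulVec, dotProduct] using h
  obtain ⟨y, hy⟩ : ∃ y : Fin n → ℝ, ∀ i, x i = m i * y i :=
    ⟨fun i => x i / m i, fun i => by have := (hm i).ne'; field_simp⟩
  have hx : x = fun i => m i * y i := funext hy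
  have key := key_identity A m y hsymm
  have h2 : ∀ i j, 0 ≤ A i j * m i * m j * (y i - y j) ^ 2 := by
    intro i j
    by_cases hij : i = j
    · subst hij; simp
    · have := hA i j hij
      have := hm i
      have := hm j
      positivity
  have h2s : 0 ≤ ∑ i, ∑ j, A i j * m i * m j * (y i - y j) ^ 2 :=
    Finset.sum_nonneg fun i _ => Finset.sum_nonneg fun j _ => h2 i j
  have e0 : dotProduct x (A.mulVec x) = - (1 / 2) * ∑ i, ∑ j, A i j * m i * m j * (y i - y j) ^ 2 := by
    have : dotProduct x (A.mulVec x) = ∑ i, (m i * y i) * (∑ j, A i j * (m j * y j)) := by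
      rw [hx]; simp [Matrix.mulVec, dotProduct]
    rw [this, key]
    have h0 : ∑ i, m i * y i ^ 2 * (∑ j, A i j * m j) = 0 :=
      Finset.sum_eq_zero fun i _ => by rw [hAm' i, mul_zero]
    rw [h0]; ring
  refine ⟨by rw [e0]; linarith, ?_, ?_⟩
  · intro h
    rw [e0] at h
    have e2s : ∑ i, ∑ j, A i j * m i * m j * (y i - y j) ^ 2 = 0 := by linarith
    have e2 : ∀ i j, A i j * m i * m j * (y i - y j) ^ 2 = 0 := by
      intro i j
      have := (Finset.sum_eq_zero_iff_of_nonneg
        (fun i _ => Finset.sum_nonneg fun j _ => h2 i j)).1 e2s i (Finset.mem_univ i)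
      exact (Finset.sum_eq_zero_iff_of_nonneg (fun j _ => h2 i j)).1 this j (Finset.mem_univ j)
    rcases isEmpty_or_nonempty (Fin n) with hn | ⟨⟨i0⟩⟩
    · exact ⟨0, funext fun i => (hn.false i).elim⟩
    · refine ⟨y i0, ?_⟩
      have hI : univ.filter (fun i => y i = y i0) = univ := by
        by_contra hne
        obtain ⟨i, hi, j, hj, hij⟩ := hconn _ ⟨i0, by simp⟩ hne
        simp only [Finset.mem_filter, Finset.mem_univ, true_and] at hi hj
        have := e2 i j
        have hne : y i - y j ≠ 0 := by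
          rw [hi]; exact sub_ne_zero.2 (Ne.symm hj)
        have h3 : (y i - y j) ^ 2 ≠ 0 := pow_ne_zero _ hne
        have h4 := (hm i).ne'
        have h5 := (hm j).ne'
        exact hij (by simpa [h3, h4, h5] using this)
      funext i
      have hi : i ∈ univ.filter (fun i => y i = y i0) := by rw [hI]; exact Finset.mem_univ i
      simp only [Finset.mem_filter, Finset.mem_univ, true_and] at hi
      rw [hy i, hi]; simp [mul_comm]
  · rintro ⟨q, rfl⟩
    rw [Matrix.mulVec_smul, hAm]; simp

end Groth.Agent.S2171
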