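import Groth.Statements.S2349
import Mathlib.AlgebraicGeometry.Morphisms.Proper
import Mathlib.AlgebraicGeometry.PullbackCarrier

set_option autoImplicit false
universe u
open CategoryTheory CategoryTheory.Limits AlgebraicGeometry
open EGA2

namespace Groth.Agent.S2349

/-- Let f : X → Y be separated and of finite type, and let j_i : X_i → X and h_i : Y_i → Y (i in a
finite index type) be closed immersions with morphisms f_i : X_i → Y_i satisfying j_i ≫ f = f_i ≫
h_i, such that the images of the j_i cover X. Then f is proper if and only if every f_i is proper. -/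
theorem result {X Y : Scheme.{u}} (f : X ⟶ Y) [IsSeparated f] [LocallyOfFiniteType f] [QuasiCompact f]
    (ι : Type u) [Finite ι] (Xi Yi : ι → Scheme.{u}) (j : ∀ i, Xi i ⟶ X) (h : ∀ i, Yi i ⟶ Y) (fi : ∀ i, Xi i ⟶ Yi i)
    [∀ i, IsClosedImmersion (j i)] [∀ i, IsClosedImmersion (h i)] (hcomm : ∀ i, j i ≫ f = fi i ≫ h i)
    (hcov : ∀ x : X, ∃ i, x ∈ Set.range (j i).base) : IsProper f ↔ ∀ i, IsProper (fi i) := by
  have hc : ∀ i, IsProper (j i ≫ f) ↔ IsProper (fi i) := fun i => by
    rw [hcomm i]
    exact ⟨fun h' => IsProper.of_comp (fi i) (h i), fun h' => inferInstance⟩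
  constructor
  · intro hf i
    rw [← hc i]
    infer_instance
  · intro hfi
    have hj : ∀ i, IsProper (j i ≫ f) := fun i => (hc i).mpr (hfi i)
    have huc : UniversallyClosed f := by
      constructor
      intro X' Y' i₁ i₂ f' H C hC
      have hcl : ∀ i, IsClosedMap (pullback.fst i₁ (j i) ≫ f').base := by
        intro i
        have hpb : IsPullback (pullback.snd i₁ (j i)) (pullback.fst i₁ (j i) ≫ f') (j i ≫ f) i₂ :=
          ((IsPullback.of_hasPullback i₁ (j i)).paste_horiz H).flip
        have : UniversallyClosed (pullback.fst i₁ (j i) ≫ f') :=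
          MorphismProperty.of_isPullback hpb (inferInstance : UniversallyClosed (j i ≫ f))
        exact Scheme.Hom.isClosedMap _
      have hrange : ∀ x' : X', ∃ i, x' ∈ Set.range (pullback.fst i₁ (j i)).base := by
        intro x'
        obtain ⟨i, hi⟩ := hcov (i₁.base x')
        refine ⟨i, ?_⟩
        have := Scheme.Pullback.range_fst i₁ (j i)
        exact (Set.ext_iff.mp this x').mpr hi
      have key : f'.base '' C = ⋃ i, (pullback.fst i₁ (j i) ≫ f').base '' ((pullback.fst i₁ (j i)).base ⁻¹' C) := by
        ext y
        constructor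
        · rintro ⟨x', hx', rfl⟩
          obtain ⟨i, z, hz⟩ := hrange x'
          refine Set.mem_iUnion.mpr ⟨i, z, ?_, ?_⟩
          · rw [Set.mem_preimage, hz]; exact hx'
          · rw [← hz]; simp
        · intro hy
          obtain ⟨i, z, hz, rfl⟩ := Set.mem_iUnion.mp hy
          exact ⟨(pullback.fst i₁ (j i)).base z, hz, by simp⟩
      have : IsClosed (f'.base '' C) := by
        rw [key]
        exact isClosed_iUnion_of_finite fun i => hcl i _ (hC.preimage (pullback.fst i₁ (j i)).base.hom.continuous)
      exact this
    exact { }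

end Groth.Agent.S2349
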