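import Groth.Statements.S2563
import Mathlib.Tactic
import Mathlib.RingTheory.Nilpotent.Basic
import Mathlib.RingTheory.TensorProduct.IsBaseChangeHom
import Mathlib.Algebra.Module.Projective
import Mathlib.RingTheory.TensorProduct.Free

set_option autoImplicit false
open TensorProduct
universe u
open EGA43

namespace Groth.Agent.S2563

theorem inj_of_ker_le {R F N : Type*} [CommRing R] [AddCommGroup F] [Module R F] [AddCommGroup N]
    [Module R N] [Module.Projective R N] (J : Ideal R) (hJ : IsNilpotent J) (φ : F →ₗ[R] N)
    (hφ : Function.Surjective φ) (hk : LinearMap.ker φ ≤ J • (⊤ : Submodule R F)) :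
    Function.Injective φ := by
  obtain ⟨s, hs⟩ := Module.projective_lifting_property φ LinearMap.id hφ
  have hs' : ∀ y, φ (s y) = y := fun y => by
    have := LinearMap.congr_fun hs y; simpa using this
  let π : F →ₗ[R] F := LinearMap.id - s ∘ₗ φ
  have hπ : Submodule.map π ⊤ ≤ LinearMap.ker φ := by
    rintro _ ⟨x, _, rfl⟩
    simp [π, hs']
  have hK : LinearMap.ker φ ≤ J • LinearMap.ker φ := by
    intro x hx
    have hx' := hk hx
    have h1 : π x = x := by
      have : φ x = 0 := hx
      simp [π, this]
    have h2 : π x ∈ Submodule.map π (J • ⊤) := Submodule.mem_map_of_mem hx'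
    rw [Submodule.map_smul''] at h2
    rw [← h1]
    exact Submodule.smul_mono le_rfl hπ h2
  have hKn : ∀ n, LinearMap.ker φ ≤ J ^ n • LinearMap.ker φ := by
    intro n
    induction n with
    | zero => simp
    | succ n ih =>
      rw [pow_succ, Submodule.mul_smul]
      exact ih.trans (Submodule.smul_mono le_rfl hK)
  obtain ⟨n, hn⟩ := hJ
  have h0 := hKn n
  rw [hn] at h0
  rw [← LinearMap.ker_eq_bot]
  apply le_bot_iff.1
  refine h0.trans ?_
  rw [Submodule.zero_eq_bot, Submodule.bot_smul]

theorem top_of_sup {R F : Type*} [CommRing R] [AddCommGroup F] [Module R F]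
    (J : Ideal R) (hJ : IsNilpotent J) (N : Submodule R F)
    (h : (⊤ : Submodule R F) ≤ N ⊔ J • (⊤ : Submodule R F)) : N = ⊤ := by
  have hn : ∀ n, (⊤ : Submodule R F) ≤ N ⊔ J ^ n • (⊤ : Submodule R F) := by
    intro n
    induction n with
    | zero => simp
    | succ n ih =>
      refine ih.trans (sup_le le_sup_left ?_)
      rw [pow_succ, Submodule.mul_smul]
      refine (Submodule.smul_mono le_rfl h).trans ?_
      rw [Submodule.smul_sup]
      exact sup_le (Submodule.smul_le_right.trans le_sup_left) le_sup_right
  obtain ⟨n, hn'⟩ := hJ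
  have := hn n
  rw [hn', Submodule.zero_eq_bot, Submodule.bot_smul, sup_bot_eq] at this
  exact top_le_iff.1 this

/-- Let A be a commutative ring, J a nilpotent ideal of A, and (B_i) a family of commutative A-algebras such that an element of A vanishing in every B_i is zero. Let M be an A-module such that each B_i ⊗_A M is a free B_i-module and (A/J) ⊗_A M is a free (A/J)-module. Then M is a free A-module. -/
theorem result {A : Type u} [CommRing A] (J : Ideal A) (hJ : IsNilpotent J)
    {ι : Type u} (B : ι → Type u) [∀ i, CommRing (B i)] [∀ i, Algebra A (B i)]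
    (hB : ∀ a : A, (∀ i, algebraMap A (B i) a = 0) → a = 0)
    (M : Type u) [AddCommGroup M] [Module A M]
    (hfree : ∀ i, Module.Free (B i) (B i ⊗[A] M)) (hfreeJ : Module.Free (A ⧸ J) ((A ⧸ J) ⊗[A] M)) :
    Module.Free A M := by
  classical
  let b := Module.Free.chooseBasis (A ⧸ J) ((A ⧸ J) ⊗[A] M)
  set κ := Module.Free.ChooseBasisIndex (A ⧸ J) ((A ⧸ J) ⊗[A] M)
  have hsurj : Function.Surjective (TensorProduct.mk A (A ⧸ J) M 1) := by
    apply TensorProduct.mk_surjective
    exact Ideal.Quotient.mk_surjective
  choose e he using fun k : κ => hsurj (b k)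
  have he' : ∀ k, (1 : A ⧸ J) ⊗ₜ[A] e k = b k := he
  -- functionals
  let lam : κ → (M →ₗ[A] (A ⧸ J)) := fun k =>
    (b.coord k).restrictScalars A ∘ₗ (TensorProduct.mk A (A ⧸ J) M 1)
  have hlam : ∀ k j, lam k (e j) = if j = k then 1 else 0 := by
    intro k j
    simp only [lam, LinearMap.comp_apply, LinearMap.restrictScalars_apply, TensorProduct.mk_apply,
      Module.Basis.coord_apply]
    rw [he', Module.Basis.repr_self, Finsupp.single_apply]
  have hspan : Submodule.span A (Set.range e) = ⊤ := by
    apply top_of_sup J hJ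
    intro m _
    -- 1 ⊗ m = ∑ c k • b k
    have hm : (1 : A ⧸ J) ⊗ₜ[A] m ∈ Submodule.span (A ⧸ J) (Set.range b) := by
      rw [b.span_eq]; trivial
    have key : ∀ z ∈ Submodule.span (A ⧸ J) (Set.range b), ∃ n ∈ Submodule.span A (Set.range e),
        (1 : A ⧸ J) ⊗ₜ[A] n = z := by
      intro z hz
      induction hz using Submodule.span_induction with
      | mem x hx =>
        obtain ⟨k, rfl⟩ := hx
        exact ⟨e k, Submodule.subset_span ⟨k, rfl⟩, he' k⟩
      | zero => exact ⟨0, Submodule.zero_mem _, by simp⟩
      | add x y _ _ hx hy =>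
        obtain ⟨n1, h1, rfl⟩ := hx
        obtain ⟨n2, h2, rfl⟩ := hy
        exact ⟨n1 + n2, Submodule.add_mem _ h1 h2, by rw [TensorProduct.tmul_add]⟩
      | smul c x _ hx =>
        obtain ⟨n1, h1, rfl⟩ := hx
        obtain ⟨a, rfl⟩ := Ideal.Quotient.mk_surjective c
        refine ⟨a • n1, Submodule.smul_mem _ _ h1, ?_⟩
        rw [TensorProduct.tmul_smul]
        rw [← algebraMap_smul (A ⧸ J) a ((1 : A ⧸ J) ⊗ₜ[A] n1)]
        rfl
    obtain ⟨n, hn, hn2⟩ := key _ hm
    have h0 : (1 : A ⧸ J) ⊗ₜ[A] (m - n) = 0 := by
      rw [TensorProduct.tmul_sub, hn2, sub_self]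
    have h1 : m - n ∈ J • (⊤ : Submodule A M) := by
      have h2 := (TensorProduct.quotTensorEquivQuotSMul M J).map_eq_zero_iff.2 h0
      rw [← map_one (Ideal.Quotient.mk J), TensorProduct.quotTensorEquivQuotSMul_mk_tmul, one_smul] at h2
      rw [Submodule.Quotient.mk_eq_zero] at h2
      exact h2
    rw [show m = n + (m - n) by abel]
    exact Submodule.add_mem_sup hn h1
  have hli : LinearIndependent A e := by
    rw [linearIndependent_iff]
    intro l hl
    ext k
    apply hB
    intro i
    set J' := J.map (algebraMap A (B i)) with hJ'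
    have hJ'nil : IsNilpotent J' := by
      obtain ⟨n, hn⟩ := hJ
      refine ⟨n, ?_⟩
      rw [hJ', ← Ideal.map_pow, hn]
      simp
    let φ : (κ →₀ B i) →ₗ[B i] (B i ⊗[A] M) :=
      Finsupp.linearCombination (B i) (fun k => (1 : B i) ⊗ₜ[A] e k)
    have hφ : Function.Surjective φ := by
      rw [← LinearMap.range_eq_top, Finsupp.range_linearCombination]
      rw [eq_top_iff]
      intro z _
      induction z using TensorProduct.induction_on with
      | zero => exact Submodule.zero_mem _
      | add x y hx hy => exact Submodule.add_mem _ (hx trivial) (hy trivial)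
      | tmul c m =>
        have hm : m ∈ Submodule.span A (Set.range e) := by rw [hspan]; trivial
        induction hm using Submodule.span_induction with
        | mem x hx =>
          obtain ⟨k, rfl⟩ := hx
          have : c ⊗ₜ[A] e k = c • ((1 : B i) ⊗ₜ[A] e k) := by
            rw [TensorProduct.smul_tmul', smul_eq_mul, mul_one]
          rw [this]
          exact Submodule.smul_mem _ _ (Submodule.subset_span ⟨k, rfl⟩)
        | zero => simp
        | add x y _ _ hx hy => rw [TensorProduct.tmul_add]; exact Submodule.add_mem _ (hx trivial) (hy trivial)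
        | smul a x _ hx =>
          rw [TensorProduct.tmul_smul, ← algebraMap_smul (B i) a]
          exact Submodule.smul_mem _ _ (hx trivial)
    haveI := hfree i
    have hinj : Function.Injective φ := by
      apply inj_of_ker_le J' hJ'nil φ hφ
      intro x hx
      have hx0 : φ x = 0 := hx
      have hcoef : ∀ k, x k ∈ J' := by
        intro k
        let q : (A ⧸ J) →ₗ[A] (B i ⧸ J') :=
          (Ideal.Quotient.liftₐ J (Algebra.ofId A (B i ⧸ J')) (by
            intro a ha
            rw [Algebra.ofId_apply, IsScalarTower.algebraMap_apply A (B i) (B i ⧸ J')]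
            exact Ideal.Quotient.eq_zero_iff_mem.2 (Ideal.mem_map_of_mem _ ha))).toLinearMap
        let Λ : (B i ⊗[A] M) →ₗ[B i] (B i ⧸ J') := LinearMap.liftBaseChange (B i) (q ∘ₗ lam k)
        have h1 : Λ (φ x) = Ideal.Quotient.mk J' (x k) := by
          simp only [φ, Finsupp.linearCombination_apply, Finsupp.sum, map_sum, map_smul, Λ,
            LinearMap.liftBaseChange_tmul, LinearMap.comp_apply, hlam]
          rw [Finset.sum_eq_single k]
          · simp [q, Algebra.smul_def]
          · intro j _ hj
            simp [hj]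
          · intro hk
            simp [Finsupp.notMem_support_iff.1 hk]
        rw [hx0, map_zero] at h1
        exact Ideal.Quotient.eq_zero_iff_mem.1 h1.symm
      rw [← Finsupp.sum_single x]
      apply Submodule.sum_mem
      intro k _
      have : Finsupp.single k (x k) = x k • Finsupp.single k (1 : B i) := by
        rw [Finsupp.smul_single, smul_eq_mul, mul_one]
      rw [this]
      exact Submodule.smul_mem_smul (hcoef k) trivial
    have h2 : φ (l.mapRange (algebraMap A (B i)) (map_zero _)) = 0 := by
      simp only [φ]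
      rw [Finsupp.linearCombination_apply, Finsupp.sum_mapRange_index (by simp)]
      have h3 : (1 : B i) ⊗ₜ[A] (Finsupp.linearCombination A e l) = 0 := by rw [hl]; simp
      rw [Finsupp.linearCombination_apply, Finsupp.sum, TensorProduct.tmul_sum] at h3
      rw [Finsupp.sum, ← h3]
      refine Finset.sum_congr rfl fun j _ => ?_
      rw [TensorProduct.tmul_smul, algebraMap_smul]
    have h3 := hinj (h2.trans (map_zero φ).symm)
    have h4 := DFunLike.congr_fun h3 k
    simpa using h4
  exact Module.Free.of_basis (Module.Basis.mk hli hspan.ge)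

end Groth.Agent.S2563
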