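import Groth.Statements.S2797
import Groth.Agent.Lib.H5_DiffOp

set_option autoImplicit false
universe u v
open scoped BigOperators
open Diff16

namespace Groth.Agent.S2797

/-- Let B be an A-algebra generated by a subset s, let M, N be B-modules and D : M → N an A-linear map.
If for every g in s the commutator m ↦ D(g·m) - g·D(m) is a differential operator of order at most n
relative to A, then D is a differential operator of order at most n + 1. -/
theorem result (A B : Type u) [CommRing A] [CommRing B] [Algebra A B]
    (M N : Type v) [AddCommGroup M] [Module A M] [Module B M] [IsScalarTower A B M]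
    [AddCommGroup N] [Module A N] [Module B N] [IsScalarTower A B N]
    (s : Set B) (hs : Algebra.adjoin A s = ⊤) (n : ℕ) (D : M →ₗ[A] N)
    (hD : ∀ g ∈ s, Diff16.IsDiffOpLE A B M N n (Diff16.commutator A B M N D g)) :
    Diff16.IsDiffOpLE A B M N (n + 1) D := by
  exact Groth.Agent.H5Diff.commutator_generators A B M N s hs n D hD

end Groth.Agent.S2797
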