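import Groth.Statements.S3349


set_option autoImplicit false
open Finset
open Models Models.NumericalType

namespace Groth.Agent.S3349

/-- Let T be a numerical type with exactly one index. Then a_11 = 0 and the genus of T is g = 1 + m_1
w_1 (g_1 - 1). Consequently: if g < 0 then g_1 = 0 (and m_1 w_1 = 1 - g); if g = 0 then m_1 = w_1 =
1 and g_1 = 0; if g = 1 then g_1 = 1; if g > 1 then g_1 > 1 (and m_1 w_1 (g_1 - 1) = g - 1). -/
theorem result (T : Models.NumericalType 1) :
    T.a 0 0 = 0 ∧ T.genus = 1 + T.m 0 * T.w 0 * (T.g 0 - 1) ∧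
      (T.genus < 0 → T.g 0 = 0) ∧ (T.genus = 0 → T.m 0 = 1 ∧ T.w 0 = 1 ∧ T.g 0 = 0) ∧
      (T.genus = 1 → T.g 0 = 1) ∧ (1 < T.genus → 1 < T.g 0) := by
  have ha : T.a 0 0 = 0 := by
    have h := congrFun T.mulVec_m 0
    simp only [Matrix.mulVec, dotProduct, Fin.sum_univ_one, Pi.zero_apply] at h
    have := T.m_pos 0
    rcases mul_eq_zero.mp h with h | h
    · simpa using h
    · omega
  have hg : T.genus = 1 + T.m 0 * T.w 0 * (T.g 0 - 1) := by
    simp only [Models.NumericalType.genus, Fin.sum_univ_one]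
    have h0 : T.a 0 0 = 0 := ha
    simp [h0]
  have hm := T.m_pos 0
  have hw := T.w_pos 0
  have hgn := T.g_nonneg 0
  have hmw : 0 < T.m 0 * T.w 0 := mul_pos hm hw
  refine ⟨ha, hg, fun h => ?_, fun h => ?_, fun h => ?_, fun h => ?_⟩
  · rw [hg] at h
    by_contra hne
    have : 1 ≤ T.g 0 := by omega
    nlinarith
  · rw [hg] at h
    have h1 : T.g 0 = 0 := by
      by_contra hne
      have : 1 ≤ T.g 0 := by omega
      nlinarith
    rw [h1] at h
    have h2 : T.m 0 * T.w 0 = 1 := by linarith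
    refine ⟨?_, ?_, h1⟩
    · rcases Int.mul_eq_one_iff_eq_one_or_neg_one.mp h2 with h | h <;> omega
    · rcases Int.mul_eq_one_iff_eq_one_or_neg_one.mp h2 with h | h <;> omega
  · rw [hg] at h
    have h1 : T.m 0 * T.w 0 * (T.g 0 - 1) = 0 := by linarith
    rcases mul_eq_zero.mp h1 with h | h
    · omega
    · omega
  · rw [hg] at h
    by_contra hne
    have : T.g 0 - 1 ≤ 0 := by omega
    nlinarith

end Groth.Agent.S3349
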