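import Groth.Statements.S3350


set_option autoImplicit false
open Finset
open Models Models.NumericalType

namespace Groth.Agent.S3350

/-- Classification of proper subgraphs with two vertices: Let T be a numerical type on n > 2 indices and
i ≠ j two (-2)-indices (g = 0 and a_ii = -2 w_i, a_jj = -2 w_j) with a_ij > 0. Then, after possibly
exchanging i and j, one of the following holds with w = w_i: (A2) w_j = w, a_ij = w, 2 m_i ≥ m_j and
2 m_j ≥ m_i; (B2) w_j = 2w, a_ij = 2w, m_i ≥ m_j and 2 m_j ≥ m_i; (G2) w_j = 3w, a_ij = 3w, 2 m_i ≥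
3 m_j and 2 m_j ≥ m_i. -/
theorem result {n : ℕ} (T : Models.NumericalType n) (hn : 2 < n) (i j : Fin n)
    (hij : i ≠ j) (hi : T.IsMinusTwo i) (hj : T.IsMinusTwo j) (hpos : 0 < T.a i j) :
    ∃ i' j' : Fin n, ((i' = i ∧ j' = j) ∨ (i' = j ∧ j' = i)) ∧
      ((T.w j' = T.w i' ∧ T.a i' j' = T.w i' ∧ T.m j' ≤ 2 * T.m i' ∧ T.m i' ≤ 2 * T.m j') ∨
        (T.w j' = 2 * T.w i' ∧ T.a i' j' = 2 * T.w i' ∧ T.m j' ≤ T.m i' ∧ T.m i' ≤ 2 * T.m j') ∨
        (T.w j' = 3 * T.w i' ∧ T.a i' j' = 3 * T.w i' ∧ 3 * T.m j' ≤ 2 * T.m i' ∧ T.m i' ≤ 2 * T.m j')) := by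
  have key : ∀ i j : Fin n, i ≠ j → T.IsMinusTwo i →
      T.a i j * T.m j + ∑ k ∈ (Finset.univ.erase i).erase j, T.a i k * T.m k = 2 * T.w i * T.m i := by
    intro i j hij hi
    have h := congrFun T.mulVec_m i
    simp only [Matrix.mulVec, dotProduct, Pi.zero_apply] at h
    rw [← Finset.add_sum_erase _ _ (Finset.mem_univ i),
      ← Finset.add_sum_erase _ _ (Finset.mem_erase.mpr ⟨hij.symm, Finset.mem_univ j⟩), hi.2] at h
    linarith
  have nn : ∀ i j : Fin n, i ≠ j →
      0 ≤ ∑ k ∈ (Finset.univ.erase i).erase j, T.a i k * T.m k := by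
    intro i j hij
    refine Finset.sum_nonneg fun k hk => mul_nonneg (T.offDiag_nonneg i k ?_) (T.m_pos k).le
    exact (Finset.ne_of_mem_erase (Finset.mem_of_mem_erase hk)).symm
  have symm : ∀ i j, T.a i j = T.a j i := fun i j => T.symm.apply j i
  have ki := key i j hij hi
  have kj := key j i hij.symm hj
  have ni := nn i j hij
  have nj := nn j i hij.symm
  rw [symm j i] at kj
  have hstrict : 0 < (∑ k ∈ (Finset.univ.erase i).erase j, T.a i k * T.m k) ∨
      0 < (∑ k ∈ (Finset.univ.erase j).erase i, T.a j k * T.m k) := by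
    obtain ⟨x, hx, y, hy, hxy⟩ := T.connected {i, j} ⟨i, by simp⟩ (by
      intro h
      have := congrArg Finset.card h
      rw [Finset.card_pair hij, Finset.card_univ, Fintype.card_fin] at this
      omega)
    have hyi : y ≠ i := fun h => hy (by simp [h])
    have hyj : y ≠ j := fun h => hy (by simp [h])
    simp only [Finset.mem_insert, Finset.mem_singleton] at hx
    rcases hx with rfl | rfl
    · left
      refine lt_of_lt_of_le ?_ (Finset.single_le_sum (f := fun k => T.a x k * T.m k)
        (fun k hk => mul_nonneg (T.offDiag_nonneg x k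
          (Finset.ne_of_mem_erase (Finset.mem_of_mem_erase hk)).symm) (T.m_pos k).le)
        (show y ∈ (Finset.univ.erase x).erase j by simp [hyi, hyj]))
      exact mul_pos (lt_of_le_of_ne (T.offDiag_nonneg x y hyi.symm) hxy.symm) (T.m_pos y)
    · right
      refine lt_of_lt_of_le ?_ (Finset.single_le_sum (f := fun k => T.a x k * T.m k)
        (fun k hk => mul_nonneg (T.offDiag_nonneg x k
          (Finset.ne_of_mem_erase (Finset.mem_of_mem_erase hk)).symm) (T.m_pos k).le)
        (show y ∈ (Finset.univ.erase x).erase i by simp [hyi, hyj]))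
      exact mul_pos (lt_of_le_of_ne (T.offDiag_nonneg x y hyj.symm) hxy.symm) (T.m_pos y)
  have mi := T.m_pos i
  have mj := T.m_pos j
  have wi := T.w_pos i
  have wj := T.w_pos j
  obtain ⟨p, hp⟩ := T.w_dvd i j
  obtain ⟨q, hq'⟩ := T.w_dvd j i
  have hq : T.a i j = T.w j * q := (symm i j).trans hq'
  have hp0 : 0 < p := by
    by_contra h
    push Not at h
    nlinarith
  have hq0 : 0 < q := by
    by_contra h
    push Not at h
    nlinarith
  have h1 : T.a i j * T.m j ≤ 2 * T.w i * T.m i := by linarith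
  have h2 : T.a i j * T.m i ≤ 2 * T.w j * T.m j := by linarith
  -- `p * m j ≤ 2 * m i`, `q * m i ≤ 2 * m j`, one strict
  have h1' : p * T.m j ≤ 2 * T.m i := by
    rw [hp] at h1
    exact le_of_mul_le_mul_left (by linarith : T.w i * (p * T.m j) ≤ T.w i * (2 * T.m i)) wi
  have h2' : q * T.m i ≤ 2 * T.m j := by
    rw [hq] at h2
    exact le_of_mul_le_mul_left (by linarith : T.w j * (q * T.m i) ≤ T.w j * (2 * T.m j)) wj
  have hpq : p * q < 4 := by
    rcases hstrict with hs | hs
    · have h3 : p * T.m j < 2 * T.m i := by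
        have : T.a i j * T.m j < 2 * T.w i * T.m i := by linarith
        rw [hp] at this
        exact lt_of_mul_lt_mul_left (by linarith : T.w i * (p * T.m j) < T.w i * (2 * T.m i)) wi.le
      have h4 : (p * q) * T.m i < 4 * T.m i := by
        calc (p * q) * T.m i = p * (q * T.m i) := by ring
          _ ≤ p * (2 * T.m j) := mul_le_mul_of_nonneg_left h2' hp0.le
          _ = 2 * (p * T.m j) := by ring
          _ < 2 * (2 * T.m i) := by linarith
          _ = 4 * T.m i := by ring
      exact lt_of_mul_lt_mul_right h4 mi.le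
    · have h3 : q * T.m i < 2 * T.m j := by
        have : T.a i j * T.m i < 2 * T.w j * T.m j := by linarith
        rw [hq] at this
        exact lt_of_mul_lt_mul_left (by linarith : T.w j * (q * T.m i) < T.w j * (2 * T.m j)) wj.le
      have h4 : (p * q) * T.m j < 4 * T.m j := by
        calc (p * q) * T.m j = q * (p * T.m j) := by ring
          _ ≤ q * (2 * T.m i) := mul_le_mul_of_nonneg_left h1' hq0.le
          _ = 2 * (q * T.m i) := by ring
          _ < 2 * (2 * T.m j) := by linarith
          _ = 4 * T.m j := by ring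
      exact lt_of_mul_lt_mul_right h4 mj.le
  have hp4 : p < 4 := by nlinarith
  have hq4 : q < 4 := by nlinarith
  have hsym := symm i j
  interval_cases p <;> interval_cases q <;> try omega
  · exact ⟨i, j, Or.inl ⟨rfl, rfl⟩, Or.inl ⟨by omega, by omega, by omega, by omega⟩⟩
  · exact ⟨j, i, Or.inr ⟨rfl, rfl⟩, Or.inr (Or.inl ⟨by omega, by omega, by omega, by omega⟩)⟩
  · exact ⟨j, i, Or.inr ⟨rfl, rfl⟩, Or.inr (Or.inr ⟨by omega, by omega, by omega, by omega⟩)⟩
  · exact ⟨i, j, Or.inl ⟨rfl, rfl⟩, Or.inr (Or.inl ⟨by omega, by omega, by omega, by omega⟩)⟩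
  · exact ⟨i, j, Or.inl ⟨rfl, rfl⟩, Or.inr (Or.inr ⟨by omega, by omega, by omega, by omega⟩)⟩

end Groth.Agent.S3350
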