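import Groth.Statements.S3351
import Groth.Agent.Lib.H5_Lattice

set_option autoImplicit false
open Models

namespace Groth.Agent.S3351

/-- Let L be a finite free Z-module with a positive definite symmetric integral bilinear form, A ⊆ L a
submodule with L/A torsion free and B the orthogonal complement of A. Write M^# for the dual lattice
of a sublattice M, identified here with the Z-dual Hom(M, Z) through the form. Then the natural maps
L/(A ⊕ B) → B^#/B and L/(A ⊕ B) → A^#/A are injective: an element x of L whose functional ⟨x, -⟩ on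
B (resp. on A) is represented by an element of B (resp. of A) lies in A ⊕ B. Moreover the
restriction maps L^# → B^# and L^# → A^# are surjective, so that the cokernels of the two injections
are quotients of L^#/L. -/
theorem result {L : Type} [AddCommGroup L] [Module.Finite ℤ L] [Module.Free ℤ L]
    (B : LinearMap.BilinForm ℤ L) (hsymm : B.IsSymm) (hpos : ∀ x, x ≠ 0 → 0 < B x x)
    (A : Submodule ℤ L) (htf : ∀ (c : ℤ) (x : L), c ≠ 0 → c • x ∈ A → x ∈ A) :
    (∀ x : L, (∃ b ∈ B.orthogonal A, ∀ b' ∈ B.orthogonal A, B x b' = B b b') → x ∈ A ⊔ B.orthogonal A) ∧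
      (∀ x : L, (∃ a ∈ A, ∀ a' ∈ A, B x a' = B a a') → x ∈ A ⊔ B.orthogonal A) ∧
      (∀ ψ : Module.Dual ℤ ↥(B.orthogonal A), ∃ φ : Module.Dual ℤ L, φ ∘ₗ (B.orthogonal A).subtype = ψ) ∧
      (∀ ψ : Module.Dual ℤ ↥A, ∃ φ : Module.Dual ℤ L, φ ∘ₗ A.subtype = ψ) := by
  have hmo : ∀ y, y ∈ B.orthogonal A ↔ ∀ a ∈ A, B a y = 0 := fun y =>
    LinearMap.BilinForm.mem_orthogonal_iff
  have hs : ∀ x y, B x y = B y x := fun x y => (hsymm.eq x y).symm ▸ rfl
  have hbb : ∀ y, (∀ b ∈ B.orthogonal A, B y b = 0) → y ∈ A := by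
    intro y hy
    obtain ⟨c, a, hc, h⟩ := H5Lat.exists_rep_sub B hpos A ((B y) ∘ₗ A.subtype)
    have h1 : c • y - (a : L) ∈ B.orthogonal A := by
      rw [hmo]
      intro a' ha'
      have := h ⟨a', ha'⟩
      simp only [LinearMap.comp_apply, Submodule.subtype_apply] at this
      rw [hs a' _]
      simp only [map_sub, map_smul, LinearMap.sub_apply, LinearMap.smul_apply, smul_eq_mul]
      linarith
    have h2 : c • y - (a : L) = 0 := by
      by_contra hne
      have h3 := hpos _ hne
      have h4 : B (c • y - (a : L)) (c • y - (a : L)) = 0 := by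
        rw [map_sub B, LinearMap.sub_apply, map_smul, LinearMap.smul_apply, hy _ h1,
          (hmo _).mp h1 a a.2]
        simp
      omega
    refine htf c y hc ?_
    rw [sub_eq_zero.mp h2]
    exact a.2
  refine ⟨?_, ?_, ?_, ?_⟩
  · rintro x ⟨b, hb, h⟩
    have : x - b ∈ A := hbb _ fun b' hb' => by
      rw [map_sub, LinearMap.sub_apply, h b' hb', sub_self]
    rw [← sub_add_cancel x b]
    exact Submodule.add_mem_sup this hb
  · rintro x ⟨a, ha, h⟩
    have : x - a ∈ B.orthogonal A := by
      rw [hmo]
      intro a' ha'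
      rw [hs, map_sub, LinearMap.sub_apply, h a' ha', sub_self]
    rw [← sub_add_cancel x a, add_comm]
    exact Submodule.add_mem_sup ha this
  · intro ψ
    refine H5Lat.exists_extend _ (fun c x hc hx => ?_) ψ
    rw [hmo] at hx ⊢
    intro a ha
    have := hx a ha
    rw [map_smul, smul_eq_mul] at this
    exact (mul_eq_zero.mp this).resolve_left hc
  · intro ψ
    exact H5Lat.exists_extend _ htf ψ

end Groth.Agent.S3351
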