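import Groth.Statements.S3352
import Groth.Agent.Lib.H5_Lattice

set_option autoImplicit false
open Models

namespace Groth.Agent.S3352

/-- Let L₀, L₁ be finite free ℤ-modules with positive definite symmetric integral bilinear forms, the
form on L₀ unimodular (x ↦ ⟨x, −⟩ is a bijection L₀ → Hom(L₀, ℤ)), and let d : L₀ → L₁ and d* : L₁ →
L₀ be adjoint. Identify Im(d)^# (the dual lattice of Im(d)) with Hom(Im(d), ℤ) through the form on
L₁. Then there is an isomorphism Φ from the torsion subgroup of Coker(d* d) onto Im(d)^#/Im(d),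
determined by: for x ∈ L₀ whose class is torsion, Φ[x] is the class of the functional d(y') ↦ ⟨x,
y'⟩ (equivalently the class of (1/a)·d(y) when a·x = d* d(y)). -/
theorem result {L₀ L₁ : Type} [AddCommGroup L₀] [AddCommGroup L₁]
    [Module.Finite ℤ L₀] [Module.Free ℤ L₀] [Module.Finite ℤ L₁] [Module.Free ℤ L₁]
    (B₀ : LinearMap.BilinForm ℤ L₀) (B₁ : LinearMap.BilinForm ℤ L₁) (h₀s : B₀.IsSymm) (h₁s : B₁.IsSymm)
    (h₀p : ∀ x, x ≠ 0 → 0 < B₀ x x) (h₁p : ∀ x, x ≠ 0 → 0 < B₁ x x) (huni : Function.Bijective B₀)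
    (d : L₀ →ₗ[ℤ] L₁) (ds : L₁ →ₗ[ℤ] L₀) (hadj : ∀ x y, B₁ (d x) y = B₀ x (ds y)) :
    ∃ Φ : ↥(Submodule.torsion ℤ (L₀ ⧸ LinearMap.range (ds ∘ₗ d))) ≃ₗ[ℤ]
        (Module.Dual ℤ ↥(LinearMap.range d) ⧸
          LinearMap.range ((B₁.compl₂ (LinearMap.range d).subtype) ∘ₗ (LinearMap.range d).subtype)),
      ∀ (x : L₀) (hx : Submodule.Quotient.mk x ∈ Submodule.torsion ℤ (L₀ ⧸ LinearMap.range (ds ∘ₗ d)))
        (ψ : Module.Dual ℤ ↥(LinearMap.range d)),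
        (∀ y' : L₀, ψ ⟨d y', LinearMap.mem_range_self d y'⟩ = B₀ x y') →
          Φ ⟨Submodule.Quotient.mk x, hx⟩ = Submodule.Quotient.mk ψ := by
  have hs₀ : ∀ x y, B₀ x y = B₀ y x := fun x y => (h₀s.eq x y).symm ▸ rfl
  have hs₁ : ∀ x y, B₁ x y = B₁ y x := fun x y => (h₁s.eq x y).symm ▸ rfl
  set R : Submodule ℤ L₁ := LinearMap.range d with hR
  set N : Submodule ℤ L₀ := LinearMap.range (ds ∘ₗ d) with hN
  set G : R →ₗ[ℤ] Module.Dual ℤ R := (B₁.compl₂ R.subtype) ∘ₗ R.subtype with hG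
  have hGa : ∀ r r' : R, G r r' = B₁ r r' := fun r r' => rfl
  -- the map from `Dual R` to `L₀ / N`
  let e₀ : L₀ ≃ₗ[ℤ] Module.Dual ℤ L₀ := LinearEquiv.ofBijective B₀ huni
  let dR : L₀ →ₗ[ℤ] R := d.rangeRestrict
  let θ₀ : Module.Dual ℤ R →ₗ[ℤ] L₀ := e₀.symm.toLinearMap ∘ₗ dR.dualMap
  have hθ₀ : ∀ (ψ : Module.Dual ℤ R) (y : L₀), B₀ (θ₀ ψ) y = ψ (dR y) := by
    intro ψ y
    have : e₀ (θ₀ ψ) = dR.dualMap ψ := by simp [θ₀]
    exact LinearMap.congr_fun this y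
  have hB₀ : ∀ x x', (∀ y, B₀ x y = B₀ x' y) → x = x' := fun x x' h =>
    huni.1 (LinearMap.ext h)
  -- `θ₀ (G r) ∈ N`
  have hG1 : ∀ z : L₀, θ₀ (G (dR z)) = ds (d z) := by
    intro z
    refine hB₀ _ _ fun y => ?_
    rw [hθ₀, hGa, hs₀, ← hadj, hs₁]
    rfl
  have hGN : LinearMap.range G ≤ LinearMap.ker (N.mkQ ∘ₗ θ₀) := by
    rintro _ ⟨r, rfl⟩
    obtain ⟨z, rfl⟩ := d.surjective_rangeRestrict r
    rw [LinearMap.mem_ker, LinearMap.comp_apply, Submodule.mkQ_apply,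
      Submodule.Quotient.mk_eq_zero]
    exact ⟨z, (hG1 z).symm⟩
  let θ : (Module.Dual ℤ R ⧸ LinearMap.range G) →ₗ[ℤ] (L₀ ⧸ N) :=
    (LinearMap.range G).liftQ (N.mkQ ∘ₗ θ₀) hGN
  have hθ : ∀ ψ, θ (Submodule.Quotient.mk ψ) = Submodule.Quotient.mk (θ₀ ψ) := fun ψ => rfl
  have hθinj : Function.Injective θ := by
    rw [← LinearMap.ker_eq_bot, LinearMap.ker_eq_bot']
    intro ψ hψ
    obtain ⟨ψ, rfl⟩ := Submodule.Quotient.mk_surjective _ ψ
    rw [hθ, Submodule.Quotient.mk_eq_zero] at hψ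
    obtain ⟨z, hz⟩ := hψ
    rw [Submodule.Quotient.mk_eq_zero]
    refine ⟨dR z, LinearMap.ext fun r => ?_⟩
    obtain ⟨y, rfl⟩ := d.surjective_rangeRestrict r
    have h1 : θ₀ (G (dR z)) = θ₀ ψ := by rw [hG1]; exact hz
    rw [← hθ₀ (G (dR z)) y, h1, hθ₀]
  have hθt : ∀ q, θ q ∈ Submodule.torsion ℤ (L₀ ⧸ N) := by
    intro q
    obtain ⟨ψ, rfl⟩ := Submodule.Quotient.mk_surjective _ q
    obtain ⟨c, a, hc, h⟩ := H5Lat.exists_rep_sub B₁ h₁p R ψ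
    rw [Submodule.mem_torsion_iff]
    refine ⟨⟨c, mem_nonZeroDivisors_of_ne_zero hc⟩, ?_⟩
    have h2 : c • ψ = G a := LinearMap.ext fun r => by
      rw [hGa, ← h r]; rfl
    rw [Submonoid.mk_smul, ← map_smul, ← Submodule.Quotient.mk_smul, h2]
    have : (Submodule.Quotient.mk (G a) : Module.Dual ℤ R ⧸ LinearMap.range G) = 0 :=
      (Submodule.Quotient.mk_eq_zero _).mpr ⟨a, rfl⟩
    rw [this, map_zero]
  let θt : (Module.Dual ℤ R ⧸ LinearMap.range G) →ₗ[ℤ] Submodule.torsion ℤ (L₀ ⧸ N) :=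
    θ.codRestrict _ hθt
  have hkey : ∀ (x : L₀) (hx : (Submodule.Quotient.mk x : L₀ ⧸ N) ∈ Submodule.torsion ℤ (L₀ ⧸ N)),
      ∃ ψ : Module.Dual ℤ R, θ₀ ψ = x := by
    intro x hx
    rw [Submodule.mem_torsion_iff] at hx
    obtain ⟨⟨c, hc⟩, hcx⟩ := hx
    rw [Submonoid.mk_smul, ← Submodule.Quotient.mk_smul, Submodule.Quotient.mk_eq_zero] at hcx
    obtain ⟨z, hz⟩ := hcx
    have hc0 : c ≠ 0 := nonZeroDivisors.ne_zero hc
    have hker : LinearMap.ker dR ≤ LinearMap.ker (B₀ x) := by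
      intro y hy
      rw [LinearMap.mem_ker] at hy ⊢
      have h1 : c * B₀ x y = 0 := by
        have : B₀ (c • x) y = c * B₀ x y := by simp
        rw [← this, ← hz, LinearMap.comp_apply, hs₀, ← hadj]
        have h0 : d y = 0 := congrArg Subtype.val hy
        rw [h0]; simp
      exact (mul_eq_zero.mp h1).resolve_left hc0
    obtain ⟨ψ, hψ⟩ : ∃ ψ : Module.Dual ℤ R, ψ ∘ₗ dR = B₀ x := by
      refine ⟨((LinearMap.ker dR).liftQ (B₀ x) hker) ∘ₗ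
        (dR.quotKerEquivOfSurjective d.surjective_rangeRestrict).symm.toLinearMap, ?_⟩
      ext y
      have : (dR.quotKerEquivOfSurjective d.surjective_rangeRestrict).symm (dR y) =
          Submodule.Quotient.mk y := by
        rw [LinearEquiv.symm_apply_eq]; rfl
      simp only [LinearMap.comp_apply, LinearEquiv.coe_coe, this]
      rfl
    refine ⟨ψ, hB₀ _ _ fun y => ?_⟩
    rw [hθ₀, ← hψ]; rfl
  have hbij : Function.Bijective θt := by
    refine ⟨fun a b h => hθinj (congrArg Subtype.val h), ?_⟩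
    rintro ⟨q, hq⟩
    obtain ⟨x, rfl⟩ := Submodule.Quotient.mk_surjective _ q
    obtain ⟨ψ, hψ⟩ := hkey x hq
    exact ⟨Submodule.Quotient.mk ψ, Subtype.ext (by
      change θ (Submodule.Quotient.mk ψ) = _
      rw [hθ, hψ])⟩
  refine ⟨(LinearEquiv.ofBijective θt hbij).symm, fun x hx ψ hψ => ?_⟩
  rw [LinearEquiv.symm_apply_eq]
  refine Subtype.ext ?_
  change Submodule.Quotient.mk x = θ (Submodule.Quotient.mk ψ)
  rw [hθ]
  congr 1
  refine hB₀ _ _ fun y => ?_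
  rw [hθ₀, ← hψ y]; rfl

end Groth.Agent.S3352
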