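import Groth.Statements.S3431
import Groth.Agent.Lib.H5_Jac3

set_option autoImplicit false
universe u
open EGA43

namespace Groth.Agent.S3431

/-- Let A be a Noetherian ring. Then A is a Jacobson ring if and only if there is no prime ideal p of A
such that A/p is semi-local (finitely many maximal ideals) of Krull dimension 1. -/
theorem result (A : Type u) [CommRing A] [IsNoetherianRing A] :
    IsJacobsonRing A ↔
      ∀ (p : Ideal A) [p.IsPrime], ¬ (Finite (MaximalSpectrum (A ⧸ p)) ∧ ringKrullDim (A ⧸ p) = 1) := by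
  constructor
  · rintro hJ p hp ⟨hfin, hdim⟩
    have hd := (H5Jac.dim_one_iff (A ⧸ p)).mp hdim
    have hJp : IsJacobsonRing (A ⧸ p) := isJacobsonRing_quotient
    have hbot : (⊥ : Ideal (A ⧸ p)).jacobson = ⊥ :=
      hJp.out (Ideal.isRadical_bot)
    have hne : ∀ m : MaximalSpectrum (A ⧸ p), m.asIdeal ≠ ⊥ := by
      intro m hm
      refine hd.2 ?_
      have := m.isMaximal
      rw [hm] at this
      exact Ring.isField_iff_maximal_bot.mpr this
    have : Fintype (MaximalSpectrum (A ⧸ p)) := Fintype.ofFinite _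
    have hprod : ∏ m : MaximalSpectrum (A ⧸ p), m.asIdeal = ⊥ := by
      rw [eq_bot_iff, ← hbot]
      refine le_trans Ideal.prod_le_inf ?_
      rw [Ideal.jacobson]
      refine le_sInf fun J hJ => ?_
      exact Finset.inf_le (f := fun m : MaximalSpectrum (A ⧸ p) => m.asIdeal)
        (Finset.mem_univ (⟨J, hJ.2⟩ : MaximalSpectrum (A ⧸ p)))
    rw [← Ideal.zero_eq_bot, Finset.prod_eq_zero_iff] at hprod
    obtain ⟨m, -, hm⟩ := hprod
    exact hne m hm
  · intro h
    rw [PrimeSpectrum.isJacobsonRing_iff_jacobsonSpace, jacobsonSpace_iff_locallyClosed]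
    rintro Z ⟨z, hz⟩ hZ
    have hi : Topology.IsInducing (Subtype.val : Z → PrimeSpectrum A) :=
      Topology.IsInducing.subtypeVal
    have hN : TopologicalSpace.NoetherianSpace Z := hi.noetherianSpace
    obtain ⟨⟨x, hxZ⟩, -, hxc⟩ := IsClosed.exists_closed_singleton (X := Z) isClosed_univ
      ⟨⟨z, hz⟩, trivial⟩
    refine ⟨x, hxZ, ?_⟩
    have hxlc : IsLocallyClosed ({x} : Set (PrimeSpectrum A)) := by
      have := hxc.isLocallyClosed.image Topology.IsInducing.subtypeVal (by simpa using hZ)
      simpa using this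
    rw [mem_closedPoints_iff]
    by_contra hcl
    have hxm : ¬ x.asIdeal.IsMaximal := fun hm =>
      hcl ((PrimeSpectrum.isClosed_singleton_iff_isMaximal _).mpr hm)
    refine h x.asIdeal ⟨?_, ?_⟩
    · exact H5Jac.finite_maximal x hxlc hxm
    · rw [H5Jac.dim_quot_one_iff]
      refine ⟨fun q hxq hne => ?_, hxm⟩
      obtain ⟨m, hm, hqm⟩ := Ideal.exists_le_maximal q.asIdeal q.isPrime.ne_top
      have := H5Jac.eq_of_le x q ⟨m, hm.isPrime⟩ hxlc hxq hne hqm
      rw [this]
      exact hm

end Groth.Agent.S3431
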