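import Groth.Statements.S3432
import Groth.Agent.Lib.H5_Jac

set_option autoImplicit false
open CategoryTheory AlgebraicGeometry
universe u
open EGA43

namespace Groth.Agent.S3432

/-- Let X be a locally Noetherian scheme and Y a closed subset of X such that every nonempty closed
subset of X meets Y. Then the open subscheme X ∖ Y (equivalently, the subspace X ∖ Y) is a Jacobson
space. -/
theorem result (X : Scheme.{u}) [IsLocallyNoetherian X] (Y : Set X)
    (hY : IsClosed Y) (hmeet : ∀ Z : Set X, IsClosed Z → Z.Nonempty → (Z ∩ Y).Nonempty) :
    JacobsonSpace ↥(Yᶜ) := by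
  exact H5Jac.jacobson_compl X Y hY hmeet

end Groth.Agent.S3432
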