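import Groth.Statements.S3433
import Groth.Agent.Lib.H5_Jac2

set_option autoImplicit false
universe u
open EGA43

namespace Groth.Agent.S3433

/-- Let A be a Noetherian local ring with maximal ideal m and let Y be the punctured spectrum Spec A ∖
{m}. Then Y is a Jacobson space, and a point p of Y is closed in Y if and only if dim A/p = 1. -/
theorem result (A : Type u) [CommRing A] [IsNoetherianRing A] [IsLocalRing A] :
    JacobsonSpace ↥({IsLocalRing.closedPoint A}ᶜ : Set (PrimeSpectrum A)) ∧
      ∀ p : ↥({IsLocalRing.closedPoint A}ᶜ : Set (PrimeSpectrum A)),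
        IsClosed ({p} : Set ↥({IsLocalRing.closedPoint A}ᶜ : Set (PrimeSpectrum A))) ↔
          ringKrullDim (A ⧸ p.1.asIdeal) = 1 := by
  refine ⟨?_, fun p => ?_⟩
  · have : AlgebraicGeometry.IsLocallyNoetherian (AlgebraicGeometry.Spec (CommRingCat.of A)) := inferInstance
    refine H5Jac.jacobson_compl (AlgebraicGeometry.Spec (CommRingCat.of A)) {IsLocalRing.closedPoint A} ?_ ?_
    · exact (PrimeSpectrum.isClosed_singleton_iff_isMaximal _).mpr
        (IsLocalRing.maximalIdeal.isMaximal A)
    · rintro Z hZ ⟨z, hz⟩
      refine ⟨IsLocalRing.closedPoint A, ?_, rfl⟩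
      exact (IsLocalRing.specializes_closedPoint (R := A) z).mem_closed hZ hz
  · rw [H5Jac.dim_quot_one_iff]
    have hpm : ¬ p.1.asIdeal.IsMaximal := by
      intro h
      exact p.2 (PrimeSpectrum.ext (IsLocalRing.eq_maximalIdeal h))
    constructor
    · intro hcl
      refine ⟨fun q hpq hne => ?_, hpm⟩
      by_contra hq
      have hqc : q ∈ ({IsLocalRing.closedPoint A}ᶜ : Set (PrimeSpectrum A)) := by
        intro h
        rw [Set.mem_singleton_iff] at h
        exact hq (h ▸ IsLocalRing.maximalIdeal.isMaximal A)
      have hsp : p ⤳ (⟨q, hqc⟩ : ↥({IsLocalRing.closedPoint A}ᶜ : Set (PrimeSpectrum A))) := by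
        rw [Topology.IsInducing.subtypeVal.specializes_iff.symm]
        exact (PrimeSpectrum.le_iff_specializes _ _).mp hpq
      have := hsp.mem_closed hcl rfl
      exact hne (congrArg Subtype.val (Set.mem_singleton_iff.mp this)).symm
    · rintro ⟨h, -⟩
      rw [← closure_subset_iff_isClosed]
      rintro y hy
      have hsp : p ⤳ y := specializes_iff_mem_closure.mpr hy
      rw [Topology.IsInducing.subtypeVal.specializes_iff.symm] at hsp
      by_contra hne
      have := h y.1 ((PrimeSpectrum.le_iff_specializes _ _).mpr hsp)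
        (fun h => hne (Subtype.ext h.symm))
      exact y.2 (PrimeSpectrum.ext (IsLocalRing.eq_maximalIdeal this))

end Groth.Agent.S3433
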