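import Groth.Statements.S3532
import Groth.Agent.Lib.H6_HA

set_option autoImplicit false
universe u
open HomAlg3

namespace Groth.Agent.S3532

open CategoryTheory in
/-- Category of abelian groups, system indexed by the natural numbers: Let (A_k)_{k ≥ 0} be an inverse
system of abelian groups. For p ≤ k write Im_k(A_p) for the image of A_k → A_p, and K_p for the
kernel of A_p → A_{p-1} (K_0 = A_0). Then (A_k) satisfies the Mittag-Leffler condition (for each p
the subgroups Im_k(A_p) are eventually constant in k) if and only if for each p the subgroups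
Im_k(A_p) ∩ K_p are eventually constant in k. -/
theorem result (F : ℕᵒᵖ ⥤ AddCommGrpCat.{u}) :
    (F ⋙ forget AddCommGrpCat).IsMittagLeffler ↔
      ((∃ k₀ : ℕ, ∀ (k : ℕ) (hk : k₀ ≤ k),
          (F.map (homOfLE (Nat.zero_le k)).op).hom.range = (F.map (homOfLE (Nat.zero_le k₀)).op).hom.range) ∧
        ∀ p : ℕ, ∃ k₀ : ℕ, ∃ h₀ : p + 1 ≤ k₀, ∀ (k : ℕ) (hk : k₀ ≤ k),
          (F.map (homOfLE (h₀.trans hk)).op).hom.range ⊓ (F.map (homOfLE (Nat.le_succ p)).op).hom.ker =
            (F.map (homOfLE h₀).op).hom.range ⊓ (F.map (homOfLE (Nat.le_succ p)).op).hom.ker) := by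
  exact Groth.Agent.H6HA.result3532 F

end Groth.Agent.S3532
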