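import Groth.Statements.S3559
import Groth.Agent.Lib.H6_EGA2

set_option autoImplicit false
universe u
open CategoryTheory CategoryTheory.Limits AlgebraicGeometry
open EGA2

namespace Groth.Agent.S3559

/-- Let S be a graded ring and (f_i) a family of homogeneous elements of positive degree. The opens
D_+(f_i) cover Proj S if and only if every element of S_+ has a power in the ideal generated by the
f_i. -/
theorem result {R A : Type u} [CommRing R] [CommRing A] [Algebra R A] (𝒜 : ℕ → Submodule R A) [GradedAlgebra 𝒜]
    {ι : Type u} (f : ι → A) (hf : ∀ i, ∃ d : ℕ, 0 < d ∧ f i ∈ 𝒜 d) :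
    (⨆ i, Proj.basicOpen 𝒜 (f i)) = ⊤ ↔
      (HomogeneousIdeal.irrelevant 𝒜).toIdeal ≤ (Ideal.span (Set.range f)).radical := by
  exact Groth.Agent.H6EGA2.result3559 𝒜 f hf

end Groth.Agent.S3559
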