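import Groth.Statements.S3578
import Groth.Agent.Lib.H6_EGA2c

set_option autoImplicit false
universe u
open EGA2

namespace Groth.Agent.S3578

/-- Via the correspondence between closed subsets of Proj S and radical graded ideals of S_+: let S be a
graded ring and Z a closed subset of Proj S, with J = S_+ ∩ (vanishing ideal of Z). Then Z is
irreducible if and only if J is a prime ideal of the ring-without-unit S_+: J ≠ S_+ and a product of
two elements of S_+ lies in J only if one factor does. -/
theorem result {R A : Type u} [CommRing R] [CommRing A] [Algebra R A] (𝒜 : ℕ → Submodule R A) [GradedAlgebra 𝒜]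
    (Z : Set (ProjectiveSpectrum 𝒜)) (hZ : IsClosed Z) :
    IsIrreducible Z ↔
      (¬ (HomogeneousIdeal.irrelevant 𝒜).toIdeal ≤ (ProjectiveSpectrum.vanishingIdeal Z).toIdeal ∧
        ∀ f ∈ (HomogeneousIdeal.irrelevant 𝒜).toIdeal, ∀ g ∈ (HomogeneousIdeal.irrelevant 𝒜).toIdeal,
          f * g ∈ (ProjectiveSpectrum.vanishingIdeal Z).toIdeal →
            f ∈ (ProjectiveSpectrum.vanishingIdeal Z).toIdeal ∨ g ∈ (ProjectiveSpectrum.vanishingIdeal Z).toIdeal) := by
  exact Groth.Agent.H6EGA2.result3578 𝒜 Z hZ

end Groth.Agent.S3578
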