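import Groth.Statements.S3805
import Mathlib
import Groth.Agent.Lib.H6_PP

set_option autoImplicit false
universe u
open scoped TensorProduct
open PP16

open Groth.Agent.H6PP
namespace Groth.Agent.S3805

/-- For an A-algebra B, the image of the principal-part map d^n : B → P^n_{B/A} generates P^n_{B/A} as a
B-module (for the B-module structure through the first factor). -/
theorem result (n : ℕ) (A B : Type u) [CommRing A] [CommRing B] [Algebra A B] :
    Submodule.span B (Set.range (PP16.dn n A B)) = ⊤ := by
  rw [eq_top_iff]
  rintro x -
  obtain ⟨x, rfl⟩ := Ideal.Quotient.mk_surjective x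
  induction x using TensorProduct.induction_on with
  | zero => simp
  | tmul b c => 
    have : (Ideal.Quotient.mk ((KaehlerDifferential.ideal A B) ^ (n + 1)) (b ⊗ₜ[A] c)) = b • PP16.dn n A B c := by
      rw [PP16.dn, AlgHom.comp_apply, Ideal.Quotient.mkₐ_eq_mk, Algebra.TensorProduct.includeRight_apply]
      change _ = Ideal.Quotient.mk _ (b • ((1:B) ⊗ₜ[A] c))
      rw [TensorProduct.smul_tmul']
      simp
    rw [this]; exact Submodule.smul_mem _ _ (Submodule.subset_span ⟨c, rfl⟩)
  | add x y hx hy => rw [map_add]; exact Submodule.add_mem _ hx hy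

end Groth.Agent.S3805
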