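import Groth.Statements.S3806
import Mathlib
import Groth.Agent.Lib.H6_PP

set_option autoImplicit false
universe u
open scoped TensorProduct
attribute [local instance] PP16.mapAlgebra PP16.isScalarTower_mapAlgebra
open PP16

open Groth.Agent.H6PP CategoryTheory
namespace Groth.Agent.S3806

/-- Let A → A' be a ring map, B an A-algebra and B' = B ⊗_A A'. Then the canonical map P^n_{B/A} ⊗_B B'
→ P^n_{B'/A'} induced by functoriality of principal parts is an isomorphism; that is, the square B →
P^n_{B/A}, B → B', with P^n_{B'/A'} in the corner, is a pushout of rings. -/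
theorem result (n : ℕ) (A B A' B' : Type u) [CommRing A] [CommRing B] [Algebra A B]
    [CommRing A'] [CommRing B'] [Algebra A' B'] [Algebra A A'] [Algebra B B'] [Algebra A B']
    [IsScalarTower A A' B'] [IsScalarTower A B B'] [Algebra.IsPushout A B A' B'] :
    Algebra.IsPushout B (PP16.P n A B) B' (PP16.P n A' B') := by
  have hpo : CategoryTheory.IsPushout (CommRingCat.ofHom (algebraMap A B)) (CommRingCat.ofHom (algebraMap A A'))
    (CommRingCat.ofHom (algebraMap B B')) (CommRingCat.ofHom (algebraMap A' B')) := CommRingCat.isPushout_iff_isPushout.mpr inferInstance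
  have uniq : ∀ (C : Type u) [CommRing C] (F F' : PP16.P n A' B' →+* C), F.comp (PP16.map n A B A' B').toRingHom = F'.comp (PP16.map n A B A' B').toRingHom →
     F.comp (algebraMap B' _) = F'.comp (algebraMap B' _) → F = F' := by
    intro C _ F F' h1 h2
    apply P_ringHom_ext n A' B' F F' h2
    have : CommRingCat.ofHom (F.comp (dn n A' B').toRingHom) = CommRingCat.ofHom (F'.comp (dn n A' B').toRingHom) := by
      apply hpo.hom_ext
      · ext b
        change F (dn n A' B' (algebraMap B B' b)) = F' (dn n A' B' (algebraMap B B' b))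
        rw [← map_dn n A B A' B']
        exact RingHom.congr_fun h1 _
      · ext a
        change F (dn n A' B' (algebraMap A' B' a)) = F' (dn n A' B' (algebraMap A' B' a))
        rw [AlgHom.commutes]
        exact RingHom.congr_fun h2 (algebraMap A' B' a)
    exact congrArg CommRingCat.Hom.hom this
  have key : ∀ (C : Type u) [CommRing C] (u : PP16.P n A B →+* C) (v : B' →+* C)
     (huv : u.comp (algebraMap B _) = v.comp (algebraMap B B')),
     ∃ F : PP16.P n A' B' →+* C, F.comp (PP16.map n A B A' B').toRingHom = u ∧ F.comp (algebraMap B' _) = v := by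
    intro C _ u v huv
    have hcomm : CommRingCat.ofHom (algebraMap A B) ≫ CommRingCat.ofHom (u.comp (dn n A B).toRingHom) =
       CommRingCat.ofHom (algebraMap A A') ≫ CommRingCat.ofHom (v.comp (algebraMap A' B')) := by
      ext a
      change u (dn n A B (algebraMap A B a)) = v (algebraMap A' B' (algebraMap A A' a))
      rw [AlgHom.commutes, ← IsScalarTower.algebraMap_apply A A' B', IsScalarTower.algebraMap_apply A B B']
      exact RingHom.congr_fun huv (algebraMap A B a)
    obtain ⟨g, hg1, hg2⟩ : ∃ g : B' →+* C, (∀ b, g (algebraMap B B' b) = u (dn n A B b)) ∧ (∀ a', g (algebraMap A' B' a') = v (algebraMap A' B' a')) := by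
      refine ⟨(hpo.desc _ _ hcomm).hom, ?_, ?_⟩
      · intro b
        exact RingHom.congr_fun (congrArg CommRingCat.Hom.hom (hpo.inl_desc _ _ hcomm)) b
      · intro b
        exact RingHom.congr_fun (congrArg CommRingCat.Hom.hom (hpo.inr_desc _ _ hcomm)) b
    let J : Ideal C := (augIdeal n A B).map u
    have hJ : J ^ (n+1) = ⊥ := by
      rw [← Ideal.map_pow, augIdeal_pow, Ideal.map_bot]
    have hgv : ∀ b', g b' - v b' ∈ J := by
      have : CommRingCat.ofHom ((Ideal.Quotient.mk J).comp g) = CommRingCat.ofHom ((Ideal.Quotient.mk J).comp v) := by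
        apply hpo.hom_ext
        · ext b
          change Ideal.Quotient.mk J (g (algebraMap B B' b)) = Ideal.Quotient.mk J (v (algebraMap B B' b))
          rw [hg1, Ideal.Quotient.eq]
          have h3 : v (algebraMap B B' b) = u (algebraMap B _ b) := (RingHom.congr_fun huv b).symm
          rw [h3, ← map_sub]
          exact Ideal.mem_map_of_mem _ (dn_sub_mem n A B b)
        · ext a
          change Ideal.Quotient.mk J (g (algebraMap A' B' a)) = Ideal.Quotient.mk J (v (algebraMap A' B' a))
          rw [hg2]
      intro b'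
      rw [← Ideal.Quotient.eq]
      exact RingHom.congr_fun (congrArg CommRingCat.Hom.hom this) b'
    obtain ⟨F, hF1, hF2⟩ := P_lift n A' B' v g (by ext a; exact (hg2 a).symm) J hJ hgv
    refine ⟨F, ?_, hF1⟩
    apply P_ringHom_ext
    · ext b
      change F (map n A B A' B' (algebraMap B _ b)) = u (algebraMap B _ b)
      rw [map_algebraMap]
      exact (RingHom.congr_fun hF1 _).trans (RingHom.congr_fun huv b).symm
    · ext b
      change F (map n A B A' B' (dn n A B b)) = u (dn n A B b)
      rw [map_dn]
      exact (RingHom.congr_fun hF2 _).trans (hg1 b)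
  rw [← CommRingCat.isPushout_iff_isPushout]
  have hw : CommRingCat.ofHom (algebraMap B (PP16.P n A B)) ≫ CommRingCat.ofHom (algebraMap (PP16.P n A B) (PP16.P n A' B')) =
      CommRingCat.ofHom (algebraMap B B') ≫ CommRingCat.ofHom (algebraMap B' (PP16.P n A' B')) := by
    ext b
    exact map_algebraMap n A B A' B' b
  have key2 : ∀ s : CategoryTheory.Limits.PushoutCocone (CommRingCat.ofHom (algebraMap B (PP16.P n A B))) (CommRingCat.ofHom (algebraMap B B')),
      ∃ F : CommRingCat.of (PP16.P n A' B') ⟶ s.pt, CommRingCat.ofHom (algebraMap (PP16.P n A B) (PP16.P n A' B')) ≫ F = s.inl ∧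
        CommRingCat.ofHom (algebraMap B' (PP16.P n A' B')) ≫ F = s.inr := by
    intro s
    obtain ⟨F, hF1, hF2⟩ := key s.pt s.inl.hom s.inr.hom (by
      have := congrArg CommRingCat.Hom.hom s.condition
      exact this)
    refine ⟨CommRingCat.ofHom F, ?_, ?_⟩
    · exact CommRingCat.hom_ext hF1
    · exact CommRingCat.hom_ext hF2
  refine ⟨⟨hw⟩, ⟨CategoryTheory.Limits.PushoutCocone.IsColimit.mk _ (fun s => (key2 s).choose) (fun s => (key2 s).choose_spec.1)
    (fun s => (key2 s).choose_spec.2) ?_⟩⟩
  intro s m h1 h2
  have := uniq s.pt m.hom (key2 s).choose.hom (congrArg CommRingCat.Hom.hom (h1.trans (key2 s).choose_spec.1.symm))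
    (congrArg CommRingCat.Hom.hom (h2.trans (key2 s).choose_spec.2.symm))
  exact CommRingCat.hom_ext this

end Groth.Agent.S3806
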