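import Groth.Statements.S3807
import Mathlib
import Groth.Agent.Lib.H6_PP

set_option autoImplicit false
universe u
open scoped TensorProduct
attribute [local instance] PP16.mapAlgebra PP16.isScalarTower_mapAlgebra
open PP16

open Groth.Agent.H6PP
namespace Groth.Agent.S3807

/-- Let B be an A-algebra, S a multiplicative subset of B and B' = S⁻¹B. Then the canonical map
S⁻¹P^n_{B/A} → P^n_{B'/A} induced by functoriality is an isomorphism: P^n_{B'/A} is the localization
of P^n_{B/A} at the image of S. -/
theorem result (n : ℕ) (A B B' : Type u) [CommRing A] [CommRing B] [Algebra A B]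
    [CommRing B'] [Algebra B B'] [Algebra A B'] [IsScalarTower A B B'] (S : Submonoid B) [IsLocalization S B'] :
    IsLocalization (S.map (algebraMap B (PP16.P n A B))) (PP16.P n A B') := by
  let M := S.map (algebraMap B (PP16.P n A B))
  obtain ⟨Q, _, _, _⟩ : ∃ (Q : Type u) (_ : CommRing Q) (_ : Algebra (PP16.P n A B) Q), IsLocalization M Q :=
    ⟨Localization M, inferInstance, inferInstance, inferInstance⟩
  let ι : PP16.P n A B →+* Q := algebraMap _ _
  have hu1 : ∀ s : S, IsUnit (ι (algebraMap B _ s)) := fun s =>
    IsLocalization.map_units Q (⟨_, Submonoid.mem_map_of_mem _ s.2⟩ : M)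
  have hu2 : ∀ s : S, IsUnit (ι (dn n A B s)) := fun s => isUnit_dn n A B ι s (hu1 s)
  let f : B' →+* Q := IsLocalization.lift (M := S) (g := ι.comp (algebraMap B _)) hu1
  let g : B' →+* Q := IsLocalization.lift (M := S) (g := ι.comp (dn n A B).toRingHom) hu2
  have hf : ∀ b, f (algebraMap B B' b) = ι (algebraMap B _ b) := fun b => IsLocalization.lift_eq _ b
  have hg : ∀ b, g (algebraMap B B' b) = ι (dn n A B b) := fun b => IsLocalization.lift_eq _ b
  let J : Ideal Q := (augIdeal n A B).map ι
  have hJ : J ^ (n+1) = ⊥ := by
    rw [← Ideal.map_pow, augIdeal, ← Ideal.map_pow, Ideal.map_quotient_self, Ideal.map_bot]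
  have hJm : ∀ b : B, ι (dn n A B b) - ι (algebraMap B _ b) ∈ J := by
    intro b
    rw [← map_sub]
    apply Ideal.mem_map_of_mem
    have : dn n A B b - algebraMap B (PP16.P n A B) b = Ideal.Quotient.mk ((KaehlerDifferential.ideal A B) ^ (n + 1))
      ((1:B) ⊗ₜ[A] b - b ⊗ₜ[A] 1) := by
      rw [map_sub]; rfl
    rw [this]
    exact Ideal.mem_map_of_mem _ (KaehlerDifferential.one_smul_sub_smul_one_mem_ideal A b)
  have hfg : ∀ b', g b' - f b' ∈ J := by
    have : (Ideal.Quotient.mk J).comp g = (Ideal.Quotient.mk J).comp f := by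
      apply IsLocalization.ringHom_ext S
      ext b
      simp only [RingHom.comp_apply]
      rw [hf, hg, Ideal.Quotient.eq]
      exact hJm b
    intro b'
    rw [← Ideal.Quotient.eq]
    exact RingHom.congr_fun this b'
  have hA : f.comp (algebraMap A B') = g.comp (algebraMap A B') := by
    ext a
    simp only [RingHom.comp_apply]
    rw [IsScalarTower.algebraMap_apply A B B', hf, hg, AlgHom.commutes]
    rfl
  obtain ⟨F, hF1, hF2⟩ := P_lift n A B' f g hA J hJ hfg
  have hmapalg : ∀ b, map n A B A B' (algebraMap B _ b) = algebraMap B' _ (algebraMap B B' b) := map_algebraMap n A B A B'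
  have hmu : ∀ m : M, IsUnit ((map n A B A B').toRingHom m) := by
    rintro ⟨_, s, hs, rfl⟩
    change IsUnit (map n A B A B' (algebraMap B _ s))
    rw [hmapalg]
    exact (IsLocalization.map_units B' ⟨s, hs⟩).map _
  let G : Q →+* PP16.P n A B' := IsLocalization.lift (M := M) (g := (map n A B A B').toRingHom) hmu
  have hG : ∀ x, G (ι x) = map n A B A B' x := fun x => IsLocalization.lift_eq _ x
  have hGF : G.comp F = RingHom.id _ := by
    apply P_ringHom_ext
    · rw [RingHom.comp_assoc, hF1]
      apply IsLocalization.ringHom_ext S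
      ext b
      simp only [RingHom.comp_apply]
      rw [hf, hG, hmapalg]; rfl
    · rw [RingHom.comp_assoc, hF2]
      apply IsLocalization.ringHom_ext S
      ext b
      simp only [RingHom.comp_apply]
      rw [hg, hG, map_dn]; rfl
  have hFmap : F.comp (map n A B A B').toRingHom = ι := by
    apply P_ringHom_ext
    · ext b
      simp only [RingHom.comp_apply]
      change F (map n A B A B' (algebraMap B _ b)) = _
      rw [hmapalg]
      have := RingHom.congr_fun hF1 (algebraMap B B' b)
      exact this.trans (hf b)
    · ext b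
      simp only [RingHom.comp_apply]
      change F (map n A B A B' (dn n A B b)) = _
      rw [map_dn]
      have := RingHom.congr_fun hF2 (algebraMap B B' b)
      exact this.trans (hg b)
  have hFG : F.comp G = RingHom.id _ := by
    apply IsLocalization.ringHom_ext M
    apply RingHom.ext
    intro x
    change F (G (ι x)) = ι x
    rw [hG]
    exact RingHom.congr_fun hFmap x
  let e : Q ≃ₐ[PP16.P n A B] PP16.P n A B' := AlgEquiv.ofRingEquiv (f := RingEquiv.ofRingHom G F hGF hFG) (fun x => hG x)
  exact IsLocalization.isLocalization_of_algEquiv M e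

end Groth.Agent.S3807
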