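import Groth.Statements.S3808
import Mathlib
import Groth.Agent.Lib.H6_PP

set_option autoImplicit false
universe u
open scoped TensorProduct
open PP16

open Groth.Agent.H6PP
namespace Groth.Agent.S3808

/-- Let A → B be a ring map, R a multiplicative subset of A, S one of B containing the image of R, and
A' = R⁻¹A, B' = S⁻¹B with the induced map A' → B'. Then the canonical map P^n_{B'/A} → P^n_{B'/A'}
is bijective. -/
theorem result (n : ℕ) (A B A' B' : Type u) [CommRing A] [CommRing B] [Algebra A B]
    [CommRing A'] [CommRing B'] [Algebra A A'] [Algebra B B'] [Algebra A' B'] [Algebra A B']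
    [IsScalarTower A A' B'] [IsScalarTower A B B'] (R : Submonoid A) (S : Submonoid B) [IsLocalization R A']
    [IsLocalization S B'] (hRS : ∀ r ∈ R, algebraMap A B r ∈ S) :
    Function.Bijective (PP16.map n A B' A' B') := by
  have hA : (algebraMap B' (PP16.P n A B')).comp (algebraMap A' B') = (dn n A B').toRingHom.comp (algebraMap A' B') := by
    apply IsLocalization.ringHom_ext R
    ext a
    simp only [RingHom.comp_apply]
    rw [← IsScalarTower.algebraMap_apply A A' B', ← IsScalarTower.algebraMap_apply A B' (PP16.P n A B')]
    exact ((dn n A B').commutes a).symm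
  obtain ⟨F, hF1, hF2⟩ := P_lift n A' B' (algebraMap B' (PP16.P n A B')) (dn n A B').toRingHom hA (augIdeal n A B')
    (augIdeal_pow n A B') (dn_sub_mem n A B')
  have hFm : F.comp (map n A B' A' B').toRingHom = RingHom.id _ := by
    apply P_ringHom_ext
    · ext b
      change F (map n A B' A' B' (algebraMap B' _ b)) = algebraMap B' _ b
      rw [map_algebraMap]
      exact RingHom.congr_fun hF1 b
    · ext b
      change F (map n A B' A' B' (dn n A B' b)) = dn n A B' b
      rw [map_dn]
      exact RingHom.congr_fun hF2 b
  have hmF : (map n A B' A' B').toRingHom.comp F = RingHom.id _ := by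
    apply P_ringHom_ext
    · rw [RingHom.comp_assoc, hF1]
      ext b
      change map n A B' A' B' (algebraMap B' _ b) = algebraMap B' _ b
      rw [map_algebraMap]; rfl
    · rw [RingHom.comp_assoc, hF2]
      ext b
      change map n A B' A' B' (dn n A B' b) = dn n A' B' b
      rw [map_dn]; rfl
  exact ⟨Function.LeftInverse.injective (g := F) (RingHom.congr_fun hFm), Function.RightInverse.surjective (g := F) (RingHom.congr_fun hmF)⟩

end Groth.Agent.S3808
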