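import Groth.Statements.S3809
import Mathlib
import Groth.Agent.Lib.H6_PP

set_option autoImplicit false
universe u
open scoped TensorProduct
open PP16

open Groth.Agent.H6PP
namespace Groth.Agent.S3809

/-- Let A → B → C be ring maps. Then the canonical map P^n_{C/A} → P^n_{C/B} is surjective, and its
kernel is the ideal generated by the image, under the canonical map P^n_{B/A} → P^n_{C/A}, of the
augmentation ideal of P^n_{B/A}. -/
theorem result (n : ℕ) (A B C : Type u) [CommRing A] [CommRing B] [CommRing C]
    [Algebra A B] [Algebra B C] [Algebra A C] [IsScalarTower A B C] :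
    Function.Surjective (PP16.map n A C B C) ∧
      RingHom.ker (PP16.map n A C B C) = (PP16.augIdeal n A B).map (PP16.map n A B A C) := by
  have hs : Function.Surjective (algebraMap C C) := fun x => ⟨x, rfl⟩
  refine ⟨map_surj n A C B C hs, ?_⟩
  rw [map_ker n A C B C hs]
  apply le_antisymm
  · rw [Ideal.map_le_iff_le_comap]
    intro x hx
    have hx' : x ∈ (TensorProduct.mapOfCompatibleSMul B A B C C).ker := by
      rw [LinearMap.mem_ker]
      rw [RingHom.mem_ker] at hx
      rw [← hx]
      clear hx
      induction x using TensorProduct.induction_on with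
      | zero => simp
      | tmul b c => simp [tensorMap_tmul]
      | add x y hx hy => rw [map_add, map_add, hx, hy]
    rw [TensorProduct.AlgebraTensorModule.ker_mapOfCompatibleSMul] at hx'
    have key : Submodule.span B {x : C ⊗[A] C | ∃ (a : B) (m : C) (n : C), (a • m) ⊗ₜ[A] n - m ⊗ₜ[A] (a • n) = x} ≤
      (((Ideal.map (PP16.map n A B A C) (augIdeal n A B)).comap
        (Ideal.Quotient.mk (KaehlerDifferential.ideal A C ^ (n + 1)))).restrictScalars B) := by
      rw [Submodule.span_le]
      rintro _ ⟨b, m, k, rfl⟩
      rw [SetLike.mem_coe, Submodule.restrictScalars_mem, Ideal.mem_comap]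
      have h1 := Ideal.mem_map_of_mem (PP16.map n A B A C) (I := augIdeal n A B)
        (Ideal.mem_map_of_mem (Ideal.Quotient.mk ((KaehlerDifferential.ideal A B) ^ (n + 1)))
        (KaehlerDifferential.one_smul_sub_smul_one_mem_ideal A b))
      rw [map_mk, map_sub, tensorMap_tmul, tensorMap_tmul, map_one] at h1
      have h2 : (b • m) ⊗ₜ[A] k - m ⊗ₜ[A] (b • k) = (- (m ⊗ₜ[A] k)) * ((1:C) ⊗ₜ[A] algebraMap B C b - algebraMap B C b ⊗ₜ[A] 1) := by
        simp [mul_sub, Algebra.smul_def, mul_comm, neg_add_eq_sub]
      rw [h2, map_mul]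
      exact Ideal.mul_mem_left _ _ h1
    exact key hx'
  · rw [Ideal.map_le_iff_le_comap, augIdeal, Ideal.map_le_iff_le_comap]
    refine le_trans (KaehlerDifferential.span_range_eq_ideal A B).ge ?_
    rw [Ideal.span_le]
    rintro _ ⟨b, rfl⟩
    rw [SetLike.mem_coe, Ideal.mem_comap, Ideal.mem_comap, map_mk]
    apply Ideal.mem_map_of_mem
    rw [RingHom.mem_ker]
    simp only [map_sub, tensorMap_tmul, map_one, Algebra.algebraMap_self, RingHom.id_apply]
    rw [Algebra.algebraMap_eq_smul_one (R := B) (A := C), TensorProduct.smul_tmul, sub_self]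

end Groth.Agent.S3809
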