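import Groth.Statements.S3810
import Mathlib
import Groth.Agent.Lib.H6_PP

set_option autoImplicit false
universe u
open scoped TensorProduct
open PP16

open Groth.Agent.H6PP
namespace Groth.Agent.S3810

/-- Let B be an A-algebra, K an ideal of B and C = B/K. Then the canonical map P^n_{B/A} → P^n_{C/A} is
surjective and its kernel is the ideal generated by the image of K under the structure map B →
P^n_{B/A} together with the image of K under the principal-part map d^n (the latter is an additive
subgroup, not a B-submodule, in general). -/
theorem result (n : ℕ) (A B : Type u) [CommRing A] [CommRing B] [Algebra A B]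
    (K : Ideal B) :
    Function.Surjective (PP16.map n A B A (B ⧸ K)) ∧
      RingHom.ker (PP16.map n A B A (B ⧸ K)) =
        K.map (algebraMap B (PP16.P n A B)) ⊔ K.map (PP16.dn n A B) := by
  have hs : Function.Surjective (algebraMap B (B ⧸ K)) := Ideal.Quotient.mk_surjective
  refine ⟨map_surj n A B A _ hs, ?_⟩
  rw [map_ker n A B A _ hs]
  have h1 : tensorMap A B A (B ⧸ K) = Algebra.TensorProduct.map (Ideal.Quotient.mkₐ A K) (Ideal.Quotient.mkₐ A K) := by
    ext <;> simp [tensorMap]
  rw [h1, Algebra.TensorProduct.map_ker _ _ Ideal.Quotient.mk_surjective Ideal.Quotient.mk_surjective,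
    Ideal.map_sup]
  have h2 : RingHom.ker (Ideal.Quotient.mkₐ A K) = K := by
    exact Ideal.Quotient.mkₐ_ker A K
  rw [h2]
  congr 1
  · rw [← Ideal.map_coe (Algebra.TensorProduct.includeLeft), Ideal.map_map]; rfl
  · rw [← Ideal.map_coe (PP16.dn n A B), ← Ideal.map_coe (Algebra.TensorProduct.includeRight), Ideal.map_map]; rfl

end Groth.Agent.S3810
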