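import Groth.Statements.S3811
import Mathlib
import Groth.Agent.Lib.H6_PP

set_option autoImplicit false
universe u
open scoped TensorProduct
open PP16

open Groth.Agent.H6PP
namespace Groth.Agent.S3811

/-- Let B be an A-algebra with an A-algebra retraction g : B → A, and K the kernel of g. The composite
of d^n : B → P^n_{B/A} with the projection P^n_{B/A} → P^n_{B/A} / K P^n_{B/A} (base change of
P^n_{B/A} along g) is surjective with kernel K^(n+1) (from which P^n_{B/A} ⊗_B A ≅ B/K^(n+1), d^n t
↦ t; that identification is not itself stated). -/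
theorem result (n : ℕ) (A B : Type u) [CommRing A] [CommRing B] [Algebra A B]
    (g : B →ₐ[A] A) :
    Function.Surjective ((Ideal.Quotient.mk ((RingHom.ker g).map (algebraMap B (PP16.P n A B)))).comp
        (PP16.dn n A B).toRingHom) ∧
      RingHom.ker ((Ideal.Quotient.mk ((RingHom.ker g).map (algebraMap B (PP16.P n A B)))).comp
        (PP16.dn n A B).toRingHom) = RingHom.ker g ^ (n + 1) := by
  have key1 : ∀ b : B, b - algebraMap A B (g b) ∈ RingHom.ker g := by
    intro b
    rw [RingHom.mem_ker, map_sub, AlgHom.commutes]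
    simp
  obtain ⟨q1, hq1, hq1s⟩ : ∃ q1 : B ⊗[A] B →+* (PP16.P n A B ⧸ ((RingHom.ker g).map (algebraMap B (PP16.P n A B)))),
      (q1 = (Ideal.Quotient.mk ((RingHom.ker g).map (algebraMap B (PP16.P n A B)))).comp
        (Ideal.Quotient.mk ((KaehlerDifferential.ideal A B) ^ (n + 1)))) ∧ Function.Surjective q1 := by
    refine ⟨_, rfl, ?_⟩
    exact (Ideal.Quotient.mk_surjective).comp Ideal.Quotient.mk_surjective
  have hleft : ∀ b : B, b ∈ RingHom.ker g → q1 (b ⊗ₜ[A] (1 : B)) = 0 := by
    intro b hb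
    rw [hq1, RingHom.comp_apply, Ideal.Quotient.eq_zero_iff_mem]
    exact Ideal.mem_map_of_mem (algebraMap B (PP16.P n A B)) hb
  constructor
  · intro x
    obtain ⟨x, rfl⟩ := hq1s x
    induction x using TensorProduct.induction_on with
    | zero => exact ⟨0, by simp⟩
    | tmul b c =>
      refine ⟨algebraMap A B (g b) * c, ?_⟩
      rw [hq1]
      change Ideal.Quotient.mk _ (Ideal.Quotient.mk _ ((1:B) ⊗ₜ[A] (algebraMap A B (g b) * c))) = Ideal.Quotient.mk _ (Ideal.Quotient.mk _ (b ⊗ₜ[A] c))
      rw [Ideal.Quotient.eq, ← map_sub]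
      have h1 : (1 : B) ⊗ₜ[A] (algebraMap A B (g b) * c) - b ⊗ₜ[A] c = (-((1 : B) ⊗ₜ[A] c)) * ((b - algebraMap A B (g b)) ⊗ₜ[A] (1 : B)) := by
        rw [neg_mul, Algebra.TensorProduct.tmul_mul_tmul, mul_one, one_mul, ← Algebra.smul_def, ← TensorProduct.smul_tmul,
          ← Algebra.algebraMap_eq_smul_one, TensorProduct.sub_tmul, neg_sub]
      rw [h1, map_mul]
      exact Ideal.mul_mem_left _ _ (Ideal.mem_map_of_mem (algebraMap B (PP16.P n A B)) (key1 b))
    | add x y hx hy =>
      obtain ⟨a, ha⟩ := hx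
      obtain ⟨b, hb⟩ := hy
      exact ⟨a + b, by rw [map_add, ha, hb, map_add]⟩
  · apply le_antisymm
    · -- the map φ : B ⊗ B → B / K^(n+1)
      let φ : B ⊗[A] B →ₐ[A] B := Algebra.TensorProduct.lift ((Algebra.ofId A B).comp g) (AlgHom.id A B) (fun _ _ => Commute.all _ _)
      have hφ : ∀ b c, φ (b ⊗ₜ c) = algebraMap A B (g b) * c := by
        intro b c
        simp [φ, Algebra.ofId_apply]
      have hI : (KaehlerDifferential.ideal A B).map φ ≤ RingHom.ker g := by
        rw [← KaehlerDifferential.span_range_eq_ideal, Ideal.map_span, Ideal.span_le]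
        rintro _ ⟨_, ⟨s, rfl⟩, rfl⟩
        rw [SetLike.mem_coe, map_sub, hφ, hφ, map_one, map_one, one_mul, mul_one]
        exact key1 s
      let ψ : PP16.P n A B →+* B ⧸ (RingHom.ker g ^ (n + 1)) := Ideal.Quotient.lift _
        ((Ideal.Quotient.mk (RingHom.ker g ^ (n + 1))).comp φ.toRingHom) (by
          intro x hx
          rw [RingHom.comp_apply, Ideal.Quotient.eq_zero_iff_mem]
          have h2 := Ideal.mem_map_of_mem φ hx
          rw [Ideal.map_pow] at h2
          exact Ideal.pow_right_mono hI _ h2)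
      let χ : (PP16.P n A B ⧸ ((RingHom.ker g).map (algebraMap B (PP16.P n A B)))) →+* B ⧸ (RingHom.ker g ^ (n + 1)) :=
        Ideal.Quotient.lift _ ψ (by
          have : (RingHom.ker g).map (algebraMap B (PP16.P n A B)) ≤ RingHom.ker ψ := by
            rw [Ideal.map_le_iff_le_comap]
            intro b hb
            rw [Ideal.mem_comap, RingHom.mem_ker]
            change Ideal.Quotient.mk _ (φ (b ⊗ₜ 1)) = 0
            rw [hφ, (RingHom.mem_ker).mp hb]
            simp
          exact fun a ha => this ha)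
      intro b hb
      rw [RingHom.mem_ker] at hb
      have h3 := congrArg χ hb
      rw [map_zero] at h3
      have h4 : χ (((Ideal.Quotient.mk ((RingHom.ker g).map (algebraMap B (PP16.P n A B)))).comp
        (PP16.dn n A B).toRingHom) b) = Ideal.Quotient.mk _ (φ (1 ⊗ₜ b)) := rfl
      rw [h4, hφ, map_one, map_one, one_mul, Ideal.Quotient.eq_zero_iff_mem] at h3
      exact h3
    · -- K^(n+1) ≤ ker
      have hsub : (RingHom.ker g).map (Algebra.TensorProduct.includeRight : B →ₐ[A] B ⊗[A] B) ≤
        (KaehlerDifferential.ideal A B) ⊔ (RingHom.ker g).map (Algebra.TensorProduct.includeLeft : B →ₐ[A] B ⊗[A] B) := by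
        rw [Ideal.map_le_iff_le_comap]
        intro b hb
        rw [Ideal.mem_comap]
        have : (Algebra.TensorProduct.includeRight : B →ₐ[A] B ⊗[A] B) b = ((1:B) ⊗ₜ[A] b - b ⊗ₜ[A] 1) +
          (Algebra.TensorProduct.includeLeft : B →ₐ[A] B ⊗[A] B) b := by
          simp
        rw [this]
        exact Ideal.add_mem _ (Ideal.mem_sup_left (KaehlerDifferential.one_smul_sub_smul_one_mem_ideal A b))
          (Ideal.mem_sup_right (Ideal.mem_map_of_mem _ hb))
      intro b hb
      have h5 := Ideal.mem_map_of_mem (Algebra.TensorProduct.includeRight : B →ₐ[A] B ⊗[A] B) hb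
      rw [Ideal.map_pow] at h5
      have h6 := Ideal.pow_right_mono hsub (n+1) h5
      have h7 : ((KaehlerDifferential.ideal A B) ⊔ (RingHom.ker g).map (Algebra.TensorProduct.includeLeft : B →ₐ[A] B ⊗[A] B)) ^ (n+1)
        ≤ (KaehlerDifferential.ideal A B) ^ (n+1) ⊔ (RingHom.ker g).map (Algebra.TensorProduct.includeLeft : B →ₐ[A] B ⊗[A] B) := by
        exact sup_pow_le' _ _ _
      have h8 := h7 h6
      rw [Submodule.mem_sup] at h8
      obtain ⟨x, hx, y, hy, hxy⟩ := h8
      rw [RingHom.mem_ker]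
      change Ideal.Quotient.mk _ (Ideal.Quotient.mk _ ((1:B) ⊗ₜ[A] b)) = 0
      have h9 : (1:B) ⊗ₜ[A] b = x + y := by rw [hxy]; rfl
      rw [h9, map_add, Ideal.Quotient.eq_zero_iff_mem.mpr hx, zero_add, Ideal.Quotient.eq_zero_iff_mem]
      have h10 := Ideal.mem_map_of_mem (Ideal.Quotient.mk ((KaehlerDifferential.ideal A B) ^ (n + 1))) hy
      rw [← Ideal.map_coe (Algebra.TensorProduct.includeLeft), Ideal.map_map] at h10
      exact h10

end Groth.Agent.S3811
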