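import Groth.Statements.S3812
import Mathlib
import Groth.Agent.Lib.H6_PP

set_option autoImplicit false
universe u
open scoped TensorProduct
open PP16

open Groth.Agent.H6PP
namespace Groth.Agent.S3812

/-- Let B = A[T_i] be a polynomial algebra. There is an isomorphism of B-algebras from P^n_{B/A} onto
B[U_i]/(U)^(n+1), where (U) is the ideal generated by the new indeterminates, sending the principal
part d^n T_i to the class of T_i + U_i for every i (so d^n F(T) goes to the class of F(T + U)). -/
theorem result (n : ℕ) (A : Type u) [CommRing A] (σ : Type u) :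
    ∃ e : PP16.P n A (MvPolynomial σ A) ≃ₐ[MvPolynomial σ A]
        (MvPolynomial σ (MvPolynomial σ A) ⧸
          Ideal.span (Set.range (MvPolynomial.X : σ → MvPolynomial σ (MvPolynomial σ A))) ^ (n + 1)),
      ∀ i : σ, e (PP16.dn n A (MvPolynomial σ A) (MvPolynomial.X i)) =
        Ideal.Quotient.mk _ (MvPolynomial.C (MvPolynomial.X i : MvPolynomial σ A) +
          (MvPolynomial.X i : MvPolynomial σ (MvPolynomial σ A))) := by
  let e0 : (MvPolynomial σ A) ⊗[A] (MvPolynomial σ A) ≃ₐ[(MvPolynomial σ A)] MvPolynomial σ (MvPolynomial σ A) := MvPolynomial.algebraTensorAlgEquiv A (MvPolynomial σ A)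
  let τ : MvPolynomial σ (MvPolynomial σ A) ≃ₐ[(MvPolynomial σ A)] MvPolynomial σ (MvPolynomial σ A) := AlgEquiv.ofAlgHom
    (MvPolynomial.aeval fun i => MvPolynomial.C (MvPolynomial.X i) + MvPolynomial.X i)
    (MvPolynomial.aeval fun i => MvPolynomial.X i - MvPolynomial.C (MvPolynomial.X i))
    (by
      apply MvPolynomial.algHom_ext
      intro i; simp [MvPolynomial.algebraMap_eq]) (by
      apply MvPolynomial.algHom_ext
      intro i; simp [MvPolynomial.algebraMap_eq])
  let e1 : (MvPolynomial σ A) ⊗[A] (MvPolynomial σ A) ≃ₐ[(MvPolynomial σ A)] MvPolynomial σ (MvPolynomial σ A) := e0.trans τ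
  have he0 : ∀ i, e0 (1 ⊗ₜ MvPolynomial.X i) = MvPolynomial.X i := by
    intro i
    exact (MvPolynomial.algebraTensorAlgEquiv_tmul A (MvPolynomial σ A) 1 (MvPolynomial.X i)).trans (by simp)
  have hτ : ∀ i, τ (MvPolynomial.X i) = MvPolynomial.C (MvPolynomial.X i) + MvPolynomial.X i := by
    intro i
    exact MvPolynomial.aeval_X _ _
  have he1 : ∀ i, e1 (1 ⊗ₜ MvPolynomial.X i) = MvPolynomial.C (MvPolynomial.X i) + MvPolynomial.X i := by
    intro i
    change τ (e0 _) = _
    rw [he0, hτ]
  let ε : MvPolynomial σ (MvPolynomial σ A) →ₐ[(MvPolynomial σ A)] (MvPolynomial σ A) := MvPolynomial.aeval (fun _ => 0)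
  have hε : RingHom.ker ε = Ideal.span (Set.range (MvPolynomial.X : σ → MvPolynomial σ (MvPolynomial σ A))) := 
    ker_aeval_zero σ (MvPolynomial σ A)
  have hcomp : ((ε.comp e1.toAlgHom).restrictScalars A).comp (Algebra.TensorProduct.includeRight) = AlgHom.id A (MvPolynomial σ A) := by
    apply MvPolynomial.algHom_ext
    intro i
    change ε (e1 (1 ⊗ₜ MvPolynomial.X i)) = _
    rw [he1]
    simp [ε]
  have hI := ideal_pow_map n A (MvPolynomial σ A) _ e1 ε (fun b => DFunLike.congr_fun hcomp b)
  rw [hε] at hI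
  refine ⟨Ideal.quotientEquivAlg _ _ e1 hI, ?_⟩
  intro i
  rw [← he1]
  rfl

end Groth.Agent.S3812
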