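import Groth.Statements.S3813
import Mathlib
import Groth.Agent.Lib.H6_PP

set_option autoImplicit false
universe u
open scoped TensorProduct
open PP16

open Groth.Agent.H6PP
namespace Groth.Agent.S3813

/-- Let E be an A-module, B = Sym_A(E) its symmetric algebra and K the augmentation ideal of B (the
kernel of the A-algebra map B → A killing E). For every n there is an isomorphism of B-algebras from
P^n_{B/A} onto B ⊗_A (B/K^(n+1)) sending the principal part d^n t of an element t of E to t ⊗ 1 + 1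
⊗ (class of t). -/
theorem result (n : ℕ) (A : Type u) [CommRing A] (E : Type u) [AddCommGroup E]
    [Module A E] :
    ∃ e : PP16.P n A (SymmetricAlgebra A E) ≃ₐ[SymmetricAlgebra A E]
        (SymmetricAlgebra A E ⊗[A] (SymmetricAlgebra A E ⧸
          RingHom.ker (SymmetricAlgebra.lift (0 : E →ₗ[A] A)) ^ (n + 1))),
      ∀ t : E, e (PP16.dn n A (SymmetricAlgebra A E) (SymmetricAlgebra.ι A E t)) =
        SymmetricAlgebra.ι A E t ⊗ₜ 1 + 1 ⊗ₜ Ideal.Quotient.mk _ (SymmetricAlgebra.ι A E t) := by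
  let il : (SymmetricAlgebra A E) →ₐ[(SymmetricAlgebra A E)] (SymmetricAlgebra A E) ⊗[A] (SymmetricAlgebra A E) := Algebra.TensorProduct.includeLeft
  let ir : (SymmetricAlgebra A E) →ₐ[A] (SymmetricAlgebra A E) ⊗[A] (SymmetricAlgebra A E) := Algebra.TensorProduct.includeRight
  let τ1 : (SymmetricAlgebra A E) ⊗[A] (SymmetricAlgebra A E) →ₐ[(SymmetricAlgebra A E)] (SymmetricAlgebra A E) ⊗[A] (SymmetricAlgebra A E) := Algebra.TensorProduct.lift il
    (SymmetricAlgebra.lift ((il.toLinearMap.restrictScalars A) ∘ₗ SymmetricAlgebra.ι A E + ir.toLinearMap ∘ₗ SymmetricAlgebra.ι A E)) (fun _ _ => Commute.all _ _)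
  let τ2 : (SymmetricAlgebra A E) ⊗[A] (SymmetricAlgebra A E) →ₐ[(SymmetricAlgebra A E)] (SymmetricAlgebra A E) ⊗[A] (SymmetricAlgebra A E) := Algebra.TensorProduct.lift il
    (SymmetricAlgebra.lift (- ((il.toLinearMap.restrictScalars A) ∘ₗ SymmetricAlgebra.ι A E) + ir.toLinearMap ∘ₗ SymmetricAlgebra.ι A E)) (fun _ _ => Commute.all _ _)
  have hτ1 : ∀ t, τ1 (1 ⊗ₜ SymmetricAlgebra.ι A E t) = SymmetricAlgebra.ι A E t ⊗ₜ 1 + 1 ⊗ₜ SymmetricAlgebra.ι A E t := by
    intro t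
    change Algebra.TensorProduct.lift _ _ _ _ = _
    rw [Algebra.TensorProduct.lift_tmul, map_one, one_mul, SymmetricAlgebra.lift_ι_apply]
    rfl
  have hτ2 : ∀ t, τ2 (1 ⊗ₜ SymmetricAlgebra.ι A E t) = - (SymmetricAlgebra.ι A E t ⊗ₜ 1) + 1 ⊗ₜ SymmetricAlgebra.ι A E t := by
    intro t
    change Algebra.TensorProduct.lift _ _ _ _ = _
    rw [Algebra.TensorProduct.lift_tmul, map_one, one_mul, SymmetricAlgebra.lift_ι_apply]
    rfl
  have hτ1l : ∀ b : (SymmetricAlgebra A E), τ1 (b ⊗ₜ 1) = b ⊗ₜ 1 := by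
    intro t
    simp [τ1, il, ir]
  have hτ2l : ∀ b : (SymmetricAlgebra A E), τ2 (b ⊗ₜ 1) = b ⊗ₜ 1 := by
    intro t
    simp [τ2, il, ir]
  let τ : (SymmetricAlgebra A E) ⊗[A] (SymmetricAlgebra A E) ≃ₐ[(SymmetricAlgebra A E)] (SymmetricAlgebra A E) ⊗[A] (SymmetricAlgebra A E) := AlgEquiv.ofAlgHom τ1 τ2 (by
    apply Algebra.TensorProduct.ext
    · ext
    · apply SymmetricAlgebra.algHom_ext
      apply LinearMap.ext
      intro t
      change τ1 (τ2 (1 ⊗ₜ SymmetricAlgebra.ι A E t)) = 1 ⊗ₜ SymmetricAlgebra.ι A E t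
      rw [hτ2, map_add, map_neg, hτ1l, hτ1, neg_add_cancel_left]) (by
    apply Algebra.TensorProduct.ext
    · ext
    · apply SymmetricAlgebra.algHom_ext
      apply LinearMap.ext
      intro t
      change τ2 (τ1 (1 ⊗ₜ SymmetricAlgebra.ι A E t)) = 1 ⊗ₜ SymmetricAlgebra.ι A E t
      rw [hτ1, map_add, hτ2l, hτ2, add_neg_cancel_left])
  -- surjection B ⊗ B → B ⊗ A = B
  let q : SymmetricAlgebra A E →ₐ[A] A := SymmetricAlgebra.lift (0 : E →ₗ[A] A)
  have hq : Function.Surjective q := fun a => ⟨algebraMap A _ a, by simp⟩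
  let ε : (SymmetricAlgebra A E) ⊗[A] (SymmetricAlgebra A E) →ₐ[(SymmetricAlgebra A E)] (SymmetricAlgebra A E) :=
    (Algebra.TensorProduct.rid A (SymmetricAlgebra A E) (SymmetricAlgebra A E)).toAlgHom.comp
      (Algebra.TensorProduct.map (AlgHom.id (SymmetricAlgebra A E) (SymmetricAlgebra A E)) q)
  have hε : RingHom.ker ε = (RingHom.ker q).map (Algebra.TensorProduct.includeRight : (SymmetricAlgebra A E) →ₐ[A] (SymmetricAlgebra A E) ⊗[A] (SymmetricAlgebra A E)) := by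
    have h1 := Algebra.TensorProduct.lTensor_ker (A := SymmetricAlgebra A E) q hq
    rw [← h1]
    ext x
    rw [RingHom.mem_ker, RingHom.mem_ker]
    exact (Algebra.TensorProduct.rid A (SymmetricAlgebra A E) (SymmetricAlgebra A E)).map_eq_zero_iff
  have hετ : ∀ b : SymmetricAlgebra A E, ε (τ (1 ⊗ₜ b)) = b := by
    have hcomp : ((ε.comp τ.toAlgHom).restrictScalars A).comp (Algebra.TensorProduct.includeRight) = AlgHom.id A (SymmetricAlgebra A E) := by
      apply SymmetricAlgebra.algHom_ext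
      apply LinearMap.ext
      intro t
      change ε (τ1 (1 ⊗ₜ SymmetricAlgebra.ι A E t)) = SymmetricAlgebra.ι A E t
      rw [hτ1]
      simp [ε, q]
    exact fun b => DFunLike.congr_fun hcomp b
  have hI := ideal_pow_map n A (SymmetricAlgebra A E) _ τ ε hετ
  let e1 := Ideal.quotientEquivAlg _ _ τ hI
  let π : (SymmetricAlgebra A E) ⊗[A] (SymmetricAlgebra A E) →ₐ[(SymmetricAlgebra A E)] (SymmetricAlgebra A E) ⊗[A] (SymmetricAlgebra A E ⧸ RingHom.ker q ^ (n+1)) :=
    Algebra.TensorProduct.map (AlgHom.id (SymmetricAlgebra A E) (SymmetricAlgebra A E)) (Ideal.Quotient.mkₐ A (RingHom.ker q ^ (n+1)))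
  have hπ : Function.Surjective π := by
    intro x
    induction x using TensorProduct.induction_on with
    | zero => exact ⟨0, map_zero _⟩
    | tmul b c =>
      obtain ⟨c, rfl⟩ := Ideal.Quotient.mk_surjective c
      exact ⟨b ⊗ₜ c, rfl⟩
    | add x y hx hy =>
      obtain ⟨x, rfl⟩ := hx
      obtain ⟨y, rfl⟩ := hy
      exact ⟨x + y, map_add _ _ _⟩
  have hkπ : RingHom.ker ε ^ (n+1) = RingHom.ker π := by
    have h2 := Algebra.TensorProduct.lTensor_ker (A := SymmetricAlgebra A E) (Ideal.Quotient.mkₐ A (RingHom.ker q ^ (n+1))) Ideal.Quotient.mk_surjective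
    have h3 : RingHom.ker (Ideal.Quotient.mkₐ A (RingHom.ker q ^ (n+1))) = RingHom.ker q ^ (n+1) := Ideal.Quotient.mkₐ_ker A _
    rw [h3, Ideal.map_pow, ← hε] at h2
    rw [← h2]
    rfl
  let e2 := Ideal.quotientEquivAlgOfEq (SymmetricAlgebra A E) hkπ
  let e3 := Ideal.quotientKerAlgEquivOfSurjective hπ
  refine ⟨(e1.trans e2).trans e3, ?_⟩
  intro t
  change π (τ1 (1 ⊗ₜ SymmetricAlgebra.ι A E t)) = _
  rw [hτ1]
  simp [π]
  rfl

end Groth.Agent.S3813
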