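import Groth.Statements.S3814
import Mathlib
import Groth.Agent.Lib.H6_PP

set_option autoImplicit false
universe u
open scoped TensorProduct
open PP16

open Groth.Agent.H6PP
namespace Groth.Agent.S3814

/-- If B is an A-algebra of finite presentation, then for every n the B-module P^n_{B/A} of principal
parts of order n is of finite presentation. -/
theorem result (n : ℕ) (A B : Type u) [CommRing A] [CommRing B]
    [Algebra A B] [Algebra.FinitePresentation A B] :
    Module.FinitePresentation B (PP16.P n A B) := by
  have hfg : (KaehlerDifferential.ideal A B).FG := KaehlerDifferential.ideal_fg A B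
  have h1 : Algebra.FinitePresentation B (PP16.P n A B) := 
    Algebra.FinitePresentation.quotient (hfg.pow)
  let f : PP16.P n A B →ₐ[B] B := Ideal.Quotient.liftₐ _ (Algebra.TensorProduct.lmul'' A (S := B)) (by
    intro x hx
    exact Ideal.pow_le_self (Nat.succ_ne_zero n) hx)
  have hf : Function.Surjective f := fun b => ⟨algebraMap B _ b, by simp⟩
  have hker : RingHom.ker f = (KaehlerDifferential.ideal A B).map (Ideal.Quotient.mk ((KaehlerDifferential.ideal A B) ^ (n + 1))) := by
    apply le_antisymm
    · intro x hx
      obtain ⟨x, rfl⟩ := Ideal.Quotient.mk_surjective x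
      exact Ideal.mem_map_of_mem _ hx
    · rw [Ideal.map_le_iff_le_comap]
      intro x hx
      exact hx
  have h2 : Module.Finite B (PP16.P n A B) := by
    refine Module.finite_of_surjective_of_ker_le_nilradical f hf ?_ ?_
    · rw [hker, Ideal.map_le_iff_le_comap]
      intro x hx
      rw [Ideal.mem_comap, mem_nilradical]
      refine ⟨n + 1, ?_⟩
      rw [← map_pow, Ideal.Quotient.eq_zero_iff_mem]
      exact Ideal.pow_mem_pow hx _
    · rw [hker]; exact hfg.map _
  exact Module.FinitePresentation.of_finite_of_finitePresentation B _

end Groth.Agent.S3814
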