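import Groth.Statements.S3815
import Mathlib
import Groth.Agent.Lib.H6_PP

set_option autoImplicit false
universe u
open scoped TensorProduct
open scoped BigOperators
open PP16

open Groth.Agent.H6PP
namespace Groth.Agent.S3815

/-- Let B be an A-algebra, M and N two B-modules and D : M → N an A-linear map. Let P^n(M) = P^n_{B/A}
⊗_B M, the tensor product formed with the B-module structure of P^n_{B/A} through d^n, regarded as a
B-module through the first factor of P^n_{B/A}, with d^n_M : M → P^n(M), m ↦ 1 ⊗ m. Then D is a
differential operator of order at most n relative to A (order defined through iterated commutators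
with multiplication by elements of B) if and only if there is exactly one additive map u : P^n(M) →
N which is B-linear for the first-factor structure and satisfies u(1 ⊗ m) = D(m) for all m ∈ M. -/
theorem result (n : ℕ) (A B : Type u) [CommRing A] [CommRing B] [Algebra A B]
    (M N : Type u) [AddCommGroup M] [Module A M] [Module B M] [IsScalarTower A B M]
    [AddCommGroup N] [Module A N] [Module B N] [IsScalarTower A B N] (D : M →ₗ[A] N) :
    Diff16.IsDiffOpLE A B M N n D ↔
      ∃! u : PP16.PM n A B M →+ N,
        (∀ (b : B) (t : PP16.PM n A B M), u (algebraMap B (PP16.P n A B) b • t) = b • u t) ∧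
          ∀ m : M, u (PP16.dM n A B M m) = D m := by
  let q : B ⊗[A] B →+ Pr n A B := (Ideal.Quotient.mk ((KaehlerDifferential.ideal A B) ^ (n + 1))).toAddMonoidHom
  have hq : Function.Surjective q := Ideal.Quotient.mk_surjective
  have key : ∀ u : PP16.PM n A B M →+ N, (∀ (b : B) (t : PP16.PM n A B M), u (algebraMap B (PP16.P n A B) b • t) = b • u t) →
          (∀ m : M, u (PP16.dM n A B M m) = D m) → ∀ (x : B ⊗[A] B) (m : M), 
          u (q x ⊗ₜ[B] m) = act A B M N x D m := by
    intro u h1 h2 x m
    induction x using TensorProduct.induction_on with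
    | zero => 
      rw [map_zero, map_zero, TensorProduct.zero_tmul, map_zero]; rfl
    | tmul b c =>
      rw [act_tmul, ← h2, ← h1]
      congr 1
      change _ = algebraMap B (PP16.P n A B) b • ((1 : Pr n A B) ⊗ₜ[B] (c • m))
      rw [← TensorProduct.smul_tmul, TensorProduct.smul_tmul']
      congr 1
      change Ideal.Quotient.mk _ _ = (Ideal.Quotient.mk _ (b ⊗ₜ 1)) * ((Ideal.Quotient.mk _ (1 ⊗ₜ c)) * (1 : P n A B))
      rw [mul_one, ← map_mul]
      simp
    | add x y hx hy =>
      rw [map_add q, TensorProduct.add_tmul, map_add, hx, hy, map_add]; rfl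
  rw [isDiffOpLE_iff]
  constructor
  · intro h
    let f0 : (B ⊗[A] B) →+ (M →+ N) := 
      { toFun := fun x => (act A B M N x D).toAddMonoidHom
        map_zero' := by ext m; simp
        map_add' := fun x y => by ext m; simp }
    let f : PP16.P n A B →+ (M →+ N) := QuotientAddGroup.lift (Submodule.toAddSubgroup ((KaehlerDifferential.ideal A B) ^ (n + 1))) f0 (by
      intro x hx
      have := h hx
      rw [mem_annD] at this
      ext m
      exact LinearMap.congr_fun this m)
    have hf : ∀ x m, f (Ideal.Quotient.mk _ x) m = act A B M N x D m := fun x m => rfl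
    let u : PP16.PM n A B M →+ N := TensorProduct.liftAddHom f (by
      intro b p m
      obtain ⟨x, rfl⟩ := Ideal.Quotient.mk_surjective p
      change f (Ideal.Quotient.mk _ (1 ⊗ₜ b) * Ideal.Quotient.mk _ x) m = f (Ideal.Quotient.mk _ x) (b • m)
      rw [← map_mul, hf, hf, act_mul, act_tmul, one_smul])
    have hu : ∀ x m, u (q x ⊗ₜ m) = act A B M N x D m := fun x m => rfl
    refine ⟨u, ⟨?_, ?_⟩, ?_⟩
    · intro b t
      induction t using TensorProduct.induction_on with
      | zero => rw [smul_zero, map_zero, smul_zero]
      | tmul p m =>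
        obtain ⟨x, rfl⟩ := hq p
        have : algebraMap B (PP16.P n A B) b • (q x ⊗ₜ[B] m) = q ((b ⊗ₜ 1) * x) ⊗ₜ[B] m := by
          rw [TensorProduct.smul_tmul']
          congr 1
        rw [this, hu, hu, act_mul, act_tmul, one_smul]
      | add x y hx hy => rw [smul_add, map_add, hx, hy, map_add, smul_add]
    · intro m
      have : PP16.dM n A B M m = q 1 ⊗ₜ[B] m := rfl
      rw [this, hu, map_one]; rfl
    · rintro u' ⟨h1, h2⟩
      apply AddMonoidHom.ext
      intro t
      induction t using TensorProduct.induction_on with
      | zero => rw [map_zero, map_zero]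
      | tmul p m =>
        obtain ⟨x, rfl⟩ := hq p
        rw [key u' h1 h2, hu]
      | add x y hx hy => rw [map_add, map_add, hx, hy]
  · rintro ⟨u, ⟨h1, h2⟩, -⟩ x hx
    rw [mem_annD]
    ext m
    rw [← key u h1 h2]
    have : q x = 0 := Ideal.Quotient.eq_zero_iff_mem.mpr hx
    rw [this, TensorProduct.zero_tmul, map_zero]; rfl

end Groth.Agent.S3815
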