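import Groth.Statements.S3816
import Groth.Agent.Lib.H6_PP4

set_option autoImplicit false
universe u
open scoped TensorProduct
open scoped BigOperators
open PP16

namespace Groth.Agent.S3816

/-- a) iff b) (affine form, finite family): let B be an A-algebra and z_1, …, z_r elements of B whose
differentials generate the module of differentials of B over A. The following are equivalent: (a) B
is differentially smooth over A and (dz_i) is a basis of the module of differentials; (b) there is a
family (D_p), indexed by multi-indices p, of differential operators B → B (each of some finite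
order) with D_p(z^q) = (∏ binom(q_i, p_i)) z^(q-p) for all p, q. -/
theorem result (A B : Type u) [CommRing A] [CommRing B]
    [Algebra A B] (ι : Type) [Fintype ι] [DecidableEq ι] (z : ι → B)
    (hz : Submodule.span B (Set.range fun i => KaehlerDifferential.D A B (z i)) = ⊤) :
    (PP16.IsDiffSmooth A B ∧
        ∃ b : Module.Basis ι B (KaehlerDifferential A B), ∀ i, b i = KaehlerDifferential.D A B (z i)) ↔
      ∃ Dp : (ι → ℕ) → (B →ₗ[A] B),
        (∀ p, ∃ k : ℕ, Diff16.IsDiffOpLE A B B B k (Dp p)) ∧
        ∀ p q : ι → ℕ, Dp p (∏ i, z i ^ q i) =
          ((∏ i, Nat.choose (q i) (p i) : ℕ) : B) * ∏ i, z i ^ (q i - p i) := by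
  exact Groth.Agent.H6PP.result3816 A B ι z hz

end Groth.Agent.S3816
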