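import Groth.Statements.S3817
import Groth.Agent.Lib.H6_PP3

set_option autoImplicit false
universe u
open scoped TensorProduct
open scoped BigOperators
open PP16

namespace Groth.Agent.S3817

/-- (Affine form, finite family.) Let B be an A-algebra which is differentially smooth over A and (z_i)
a finite family of elements of B whose differentials form a basis of the module of differentials
Ω_{B/A}. Then for every m the monomials ζ^p with |p| ≤ m in the elements ζ_i = d^m z_i - z_i form a
basis of the B-module P^m_{B/A} (first-factor structure); in particular the P^m are free of finite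
rank. -/
theorem result (A B : Type u) [CommRing A] [CommRing B] [Algebra A B]
    (hB : PP16.IsDiffSmooth A B) (ι : Type) [Fintype ι] [DecidableEq ι] (z : ι → B)
    (hz : ∃ b : Module.Basis ι B (KaehlerDifferential A B), ∀ i, b i = KaehlerDifferential.D A B (z i)) (m : ℕ) :
    ∃ b : Module.Basis {p : ι → ℕ // ∑ i, p i ≤ m} B (PP16.P m A B),
      ∀ p, b p = ∏ i, (PP16.dn m A B (z i) - algebraMap B (PP16.P m A B) (z i)) ^ (p.1 i) := by
  exact Groth.Agent.H6PP.result3817 A B hB ι z hz m

end Groth.Agent.S3817
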