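import Groth.Statements.S3818
import Groth.Agent.Lib.H6_PP2

set_option autoImplicit false
universe u
open scoped TensorProduct
open scoped BigOperators
open PP16

namespace Groth.Agent.S3818

/-- Last assertion (affine form, finite family): let B be an A-algebra, z_1, …, z_r elements of B whose
differentials generate the module of differentials, and (D_p) a family of differential operators B →
B (each of some finite order) with D_p(z^q) = (∏ binom(q_i, p_i)) z^(q-p). Then D_p has order at
most |p|, and every differential operator B → B of order at most m relative to A can be written in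
exactly one way as a B-linear combination ∑_{|p| ≤ m} a_p D_p. -/
theorem result (A B : Type u) [CommRing A] [CommRing B] [Algebra A B]
    (ι : Type) [Fintype ι] [DecidableEq ι] (z : ι → B)
    (hz : Submodule.span B (Set.range fun i => KaehlerDifferential.D A B (z i)) = ⊤)
    (Dp : (ι → ℕ) → (B →ₗ[A] B)) (hD : ∀ p, ∃ k : ℕ, Diff16.IsDiffOpLE A B B B k (Dp p))
    (hDz : ∀ p q : ι → ℕ, Dp p (∏ i, z i ^ q i) =
        ((∏ i, Nat.choose (q i) (p i) : ℕ) : B) * ∏ i, z i ^ (q i - p i)) :
    (∀ p, Diff16.IsDiffOpLE A B B B (∑ i, p i) (Dp p)) ∧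
      ∀ (m : ℕ) (D : B →ₗ[A] B), Diff16.IsDiffOpLE A B B B m D →
        ∃! a : {p : ι → ℕ // ∑ i, p i ≤ m} →₀ B, D = a.sum fun p c => c • Dp p.1 := by
  exact Groth.Agent.H6PP.result3818 A B ι z hz Dp hD hDz

end Groth.Agent.S3818
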