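import Groth.Statements.S3845
import Groth.Agent.Lib.Lead_Spread5
-- import your own Groth.Agent.* helpers here

set_option autoImplicit false
universe u
open CategoryTheory CategoryTheory.Limits AlgebraicGeometry TopologicalSpace
open Unram17

namespace Groth.Agent.S3845

/-- a) iff b): let f : X → Y be locally of finite presentation and x a point of X. Then f is unramified
on some open neighbourhood of x if and only if the diagonal X → X ×_Y X is a local isomorphism at x
(its restriction to some open neighbourhood of x is an open immersion). -/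
theorem result {X Y : Scheme.{u}} (f : X ⟶ Y)
    [LocallyOfFinitePresentation f] (x : ↥X) :
    (∃ U : X.Opens, x ∈ U ∧ FormallyUnramified (U.ι ≫ f)) ↔
      SchLoc.IsLocalIsoAt (pullback.diagonal f) x := by
  have key : ∀ U : X.Opens, ∃ m : pullback (U.ι ≫ f) (U.ι ≫ f) ⟶ pullback f f,
      IsOpenImmersion m ∧ pullback.diagonal (U.ι ≫ f) ≫ m = U.ι ≫ pullback.diagonal f := by
    intro U
    let m : pullback (U.ι ≫ f) (U.ι ≫ f) ⟶ pullback f f :=
      pullback.map (U.ι ≫ f) (U.ι ≫ f) f f U.ι U.ι (𝟙 Y) (Category.comp_id _) (Category.comp_id _)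
    have hm1 : m ≫ pullback.fst f f = pullback.fst _ _ ≫ U.ι := pullback.lift_fst _ _ _
    have hm2 : m ≫ pullback.snd f f = pullback.snd _ _ ≫ U.ι := pullback.lift_snd _ _ _
    refine ⟨m, inferInstance, ?_⟩
    refine pullback.hom_ext ?_ ?_
    · simp only [Category.assoc, hm1, pullback.diagonal_fst_assoc, pullback.diagonal_fst,
        Category.comp_id]
    · simp only [Category.assoc, hm2, pullback.diagonal_snd_assoc, pullback.diagonal_snd,
        Category.comp_id]
  constructor
  · rintro ⟨U, hxU, hU⟩
    obtain ⟨m, hm, hk⟩ := key U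
    refine ⟨U, hxU, ?_⟩
    rw [← hk]
    infer_instance
  · rintro ⟨U, hxU, hU⟩
    obtain ⟨m, hm, hk⟩ := key U
    refine ⟨U, hxU, ?_⟩
    have h1 : IsOpenImmersion (pullback.diagonal (U.ι ≫ f) ≫ m) := by
      rw [hk]; exact hU
    have h2 : IsOpenImmersion (pullback.diagonal (U.ι ≫ f)) := IsOpenImmersion.of_comp _ m
    infer_instance

end Groth.Agent.S3845
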