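import Groth.Statements.S3846
import Groth.Agent.Lib.Lead_Spread5
-- import your own Groth.Agent.* helpers here

set_option autoImplicit false
universe u
open CategoryTheory CategoryTheory.Limits AlgebraicGeometry TopologicalSpace
open Unram17

namespace Groth.Agent.S3846

/-- a) iff b''): let f : X → Y be locally of finite presentation and x a point of X. Then f is
unramified on some open neighbourhood of x if and only if, for every base change g : Y' → Y and
every section s' of X ×_Y Y' → Y', s' is a local isomorphism at every point y' of Y' such that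
s'(y') lies over x. -/
theorem result {X Y : Scheme.{u}} (f : X ⟶ Y) [LocallyOfFinitePresentation f]
    (x : ↥X) :
    (∃ U : X.Opens, x ∈ U ∧ FormallyUnramified (U.ι ≫ f)) ↔
      ∀ (Y' : Scheme.{u}) (g : Y' ⟶ Y) (s' : Y' ⟶ pullback f g), s' ≫ pullback.snd f g = 𝟙 Y' →
        ∀ y' : ↥Y', pullback.fst f g (s' y') = x → SchLoc.IsLocalIsoAt s' y' := by
  have key : ∀ U : X.Opens, ∃ m : pullback (U.ι ≫ f) (U.ι ≫ f) ⟶ pullback f f,
      IsOpenImmersion m ∧ pullback.diagonal (U.ι ≫ f) ≫ m = U.ι ≫ pullback.diagonal f := by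
    intro U
    let m : pullback (U.ι ≫ f) (U.ι ≫ f) ⟶ pullback f f :=
      pullback.map (U.ι ≫ f) (U.ι ≫ f) f f U.ι U.ι (𝟙 Y) (Category.comp_id _) (Category.comp_id _)
    have hm1 : m ≫ pullback.fst f f = pullback.fst _ _ ≫ U.ι := pullback.lift_fst _ _ _
    have hm2 : m ≫ pullback.snd f f = pullback.snd _ _ ≫ U.ι := pullback.lift_snd _ _ _
    refine ⟨m, inferInstance, ?_⟩
    refine pullback.hom_ext ?_ ?_
    · simp only [Category.assoc, hm1, pullback.diagonal_fst_assoc, pullback.diagonal_fst,
        Category.comp_id]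
    · simp only [Category.assoc, hm2, pullback.diagonal_snd_assoc, pullback.diagonal_snd,
        Category.comp_id]
  constructor
  · rintro ⟨U, hxU, hU⟩ Y' g s' hs' y' hy'
    let V : (pullback f g).Opens := (pullback.fst f g) ⁻¹ᵁ U
    have hsq1 : IsPullback V.ι ((pullback.fst f g) ∣_ U) (pullback.fst f g) U.ι :=
      (isPullback_morphismRestrict _ _).flip
    have hsq2 : IsPullback (pullback.snd f g) (pullback.fst f g) g f :=
      (IsPullback.of_hasPullback f g).flip
    have hsq : IsPullback ((pullback.fst f g) ∣_ U) (V.ι ≫ pullback.snd f g) (U.ι ≫ f) g :=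
      (hsq1.paste_horiz hsq2).flip
    have h1 : FormallyUnramified (V.ι ≫ pullback.snd f g) :=
      MorphismProperty.of_isPullback hsq hU
    have h2 : LocallyOfFiniteType (V.ι ≫ pullback.snd f g) := inferInstance
    have h3 : MorphismProperty.HasOfPostcompProperty @IsOpenImmersion
        (MorphismProperty.diagonal @IsOpenImmersion) :=
      MorphismProperty.hasOfPostcompProperty_iff_le_diagonal.2 le_rfl
    have h4 : (s' ∣_ V) ≫ V.ι ≫ pullback.snd f g = (s' ⁻¹ᵁ V).ι := by
      rw [morphismRestrict_ι_assoc, hs', Category.comp_id]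
    have h5 : IsOpenImmersion (s' ∣_ V) := by
      refine MorphismProperty.of_postcomp @IsOpenImmersion (s' ∣_ V) (V.ι ≫ pullback.snd f g)
        (W' := MorphismProperty.diagonal @IsOpenImmersion) ?_ ?_
      · exact inferInstanceAs (IsOpenImmersion (pullback.diagonal (V.ι ≫ pullback.snd f g)))
      · rw [h4]; infer_instance
    refine ⟨s' ⁻¹ᵁ V, ?_, ?_⟩
    · show pullback.fst f g (s' y') ∈ U
      rw [hy']
      exact hxU
    · rw [← morphismRestrict_ι]
      infer_instance
  · intro h
    have h1 := h X f (pullback.diagonal f) (pullback.diagonal_snd f) x (by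
      rw [← Scheme.Hom.comp_apply, pullback.diagonal_fst]
      rfl)
    obtain ⟨U, hxU, hU⟩ := h1
    obtain ⟨m, hm, hk⟩ := key U
    refine ⟨U, hxU, ?_⟩
    have h1 : IsOpenImmersion (pullback.diagonal (U.ι ≫ f) ≫ m) := by
      rw [hk]; exact hU
    have h2 : IsOpenImmersion (pullback.diagonal (U.ι ≫ f)) := IsOpenImmersion.of_comp _ m
    infer_instance

end Groth.Agent.S3846
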