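import Groth.Statements.S3859
import Groth.Agent.Lib.H6_FC2

set_option autoImplicit false
universe u
open FCompl

namespace Groth.Agent.S3859

open AlgebraicGeometry in
open CategoryTheory in
/-- In the presentation by systems of thickenings: For morphisms of systems X -> S and Y -> S, the
levelwise fibre product with its two projections is a fibre product in the category of systems; it
presents the fibre product of formal schemes when one factor is adic over the base, and otherwise
only up to cofinality of the levels. -/
theorem result {𝔛 𝔜 𝔖 : FSch.Sys.{u}} (f : 𝔛 ⟶ 𝔖) (g : 𝔜 ⟶ 𝔖) :
    IsPullback (FSch.pullbackFst f g) (FSch.pullbackSnd f g) f g := by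
  exact Groth.Agent.H6FC.result3859 f g

end Groth.Agent.S3859
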