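import Groth.Statements.S3873
import Groth.Agent.Lib.H6_FC

set_option autoImplicit false
universe u
open FCompl

namespace Groth.Agent.S3873

open AlgebraicGeometry in
/-- On the affine schemes underlying the formal spectra, the inverse image ideal of b^Δ is (bA)^Δ: For a
ring homomorphism φ : B -> A and an ideal b of B, the inverse image along Spec(φ) of the ideal sheaf
of b on Spec B is the ideal sheaf on Spec A of the ideal generated by φ(b). -/
theorem result (A B : Type u) [CommRing A] [CommRing B] (φ : B →+* A) (𝔟 : Ideal B) :
    (FSch.idealSpec B 𝔟).comap (Spec.map (CommRingCat.ofHom φ)) = FSch.idealSpec A (𝔟.map φ) := by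
  exact Groth.Agent.H6FC.result3873 A B φ 𝔟

end Groth.Agent.S3873
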