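import Groth.Statements.S3894
import Groth.Agent.Lib.H6_Tors

set_option autoImplicit false
universe u
open CategoryTheory CategoryTheory.Limits Opposite
open Tors

namespace Groth.Agent.S3894

/-- A torsor P under an abelian sheaf G is trivial, i.e. equivariantly isomorphic to G acting on itself
by translations, if and only if P has a global section (a morphism from the final sheaf of sets). -/
theorem result {C : Type u} [SmallCategory C] {J : GrothendieckTopology C}
    {G : Sheaf J AddCommGrpCat.{u}} (T : Tors.Torsor G) : T.IsTrivial ↔ T.HasSection := by
  exact Groth.Agent.H6Tors.result3894 T

end Groth.Agent.S3894
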