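import Groth.Statements.S4336
import Mathlib

set_option autoImplicit false
universe u
open LinTop

namespace Groth.Agent.S4336

theorem aux (A : Type u) [CommRing A] [UniformSpace A] [IsUniformAddGroup A] [IsTopologicalRing A]
    (hA : LinTop.IsAdmissible A) (J : Ideal A) (hJ : LinTop.IsIdealOfDefinition A J) (x : A) (hx : x ∈ J) :
    IsUnit (1 - x) := by
  have := hA.2.1
  have := hA.2.2
  have hlin := hA.1.1
  have hna : NonarchimedeanRing A := ⟨by
    intro U hU
    obtain ⟨I, hI, hIU⟩ := IsLinearTopology.hasBasis_open_ideal.mem_iff.mp hU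
    exact ⟨⟨I.toAddSubgroup, hI⟩, hIU⟩⟩
  have hx0 : Filter.Tendsto (fun n : ℕ => x ^ n) Filter.atTop (nhds 0) := by
    intro U hU
    obtain ⟨n, hn, h⟩ := hJ.2 U hU
    rw [Filter.mem_map, Filter.mem_atTop_sets]
    exact ⟨n, fun m hm => h (Ideal.pow_le_pow_right hm (Ideal.pow_mem_pow hx m))⟩
  have hsum : Summable (fun n : ℕ => x ^ n) := by
    apply NonarchimedeanAddGroup.summable_of_tendsto_cofinite_zero
    rwa [Nat.cofinite_eq_atTop]
  exact IsUnit.of_mul_eq_one _ hsum.one_sub_mul_tsum_pow


/-- Let A be an admissible ring and J an ideal of definition of A. An element of A is invertible if and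
only if its image in A/J is invertible. -/
theorem result
    (A : Type u) [CommRing A] [UniformSpace A] [IsUniformAddGroup A] [IsTopologicalRing A]
    (hA : LinTop.IsAdmissible A) (J : Ideal A) (hJ : LinTop.IsIdealOfDefinition A J) (f : A) :
    IsUnit f ↔ IsUnit (Ideal.Quotient.mk J f) := by
  refine ⟨fun h => h.map _, fun h => ?_⟩
  obtain ⟨g', hg'⟩ := h.exists_right_inv
  obtain ⟨g, rfl⟩ := Ideal.Quotient.mk_surjective g'
  have : Ideal.Quotient.mk J (1 - f * g) = 0 := by
    rw [map_sub, map_mul, hg', map_one, sub_self]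
  have h2 := aux A hA J hJ _ (Ideal.Quotient.eq_zero_iff_mem.mp this)
  rw [sub_sub_cancel] at h2
  exact isUnit_of_mul_isUnit_left h2
end Groth.Agent.S4336
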