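import Groth.Statements.S4337
import Groth.Agent.S4336

set_option autoImplicit false
universe u
open LinTop

namespace Groth.Agent.S4337

open TensorProduct


/-- Let A be an admissible ring, J an ideal of definition, and u : M -> N a homomorphism of A-modules
with N of finite type. Then u is surjective if and only if u tensored with A/J is surjective. -/
theorem result
    (A : Type u) [CommRing A] [UniformSpace A] [IsUniformAddGroup A] [IsTopologicalRing A]
    (hA : LinTop.IsAdmissible A) (J : Ideal A) (hJ : LinTop.IsIdealOfDefinition A J)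
    (M N : Type u) [AddCommGroup M] [Module A M] [AddCommGroup N] [Module A N] [Module.Finite A N]
    (u : M →ₗ[A] N) :
    Function.Surjective u ↔ Function.Surjective (u.rTensor (A ⧸ J)) := by
  refine ⟨fun h => LinearMap.rTensor_surjective _ h, fun h => ?_⟩
  have hJJ : J ≤ Ideal.jacobson ⊥ := by
    intro x hx
    rw [Ideal.mem_jacobson_bot]
    intro y
    have := Groth.Agent.S4336.aux A hA J hJ (-(x*y)) (J.neg_mem (J.mul_mem_right _ hx))
    convert this using 1; ring
  rw [← LinearMap.range_eq_top]
  have := Submodule.le_of_le_smul_of_le_jacobson_bot (N' := ⊤) (N := LinearMap.range u) (Module.Finite.fg_top) hJJ ?_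
  · exact top_le_iff.mp this
  intro y _
  obtain ⟨z, hz⟩ := h (y ⊗ₜ 1)
  obtain ⟨m, rfl⟩ : ∃ m : M, z = m ⊗ₜ 1 := by
    obtain ⟨w, hw⟩ := (TensorProduct.tensorQuotEquivQuotSMul M J).symm.surjective z
    obtain ⟨m, rfl⟩ := Submodule.Quotient.mk_surjective _ w
    exact ⟨m, by rw [← hw]; simp [TensorProduct.tensorQuotEquivQuotSMul_symm_mk]⟩
  rw [LinearMap.rTensor_tmul] at hz
  have h3 := congrArg (TensorProduct.tensorQuotEquivQuotSMul N J) hz
  have h4 : ∀ n : N, TensorProduct.tensorQuotEquivQuotSMul N J (n ⊗ₜ (1 : A ⧸ J)) = Submodule.Quotient.mk n := by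
    intro n
    have := TensorProduct.tensorQuotEquivQuotSMul_tmul_mk J n 1
    simpa using this
  rw [h4, h4, Submodule.Quotient.eq] at h3
  rw [Submodule.mem_sup]
  refine ⟨u m, ⟨m, rfl⟩, y - u m, ?_, by abel⟩
  rw [← neg_sub]
  exact Submodule.neg_mem _ h3
end Groth.Agent.S4337
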