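import Groth.Statements.S4338
import Mathlib

set_option autoImplicit false
universe u
open LinTop

namespace Groth.Agent.S4338

open Filter Topology in
theorem key {A : Type u} [CommRing A] [UniformSpace A] [IsUniformAddGroup A] [IsTopologicalRing A]
    [CompleteSpace A] [NonarchimedeanAddGroup A]
    (I : Ideal A) (hI : I.FG) (hpow : ∀ U ∈ nhds (0:A), ∃ n : ℕ, ((I ^ n : Ideal A) : Set A) ⊆ U)
    (n : ℕ) (d : ℕ → A) (hd : ∀ m, d m ∈ I ^ (n + m)) : ∃ L ∈ I ^ n, HasSum d L := by
  have hfg : (I ^ n).FG := Ideal.FG.pow hI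
  obtain ⟨s, hs⟩ := hfg
  have h1 : ∀ m, ∃ a : s → A, (∀ j, a j ∈ I ^ m) ∧ d m = ∑ j : s, a j * (j : A) := by
    intro m
    have h2 : d m ∈ I ^ m • (Submodule.span A (Set.range (fun j : s => (j : A)))) := by
      have h3 : Set.range (fun j : s => (j : A)) = (s : Set A) := Subtype.range_coe
      rw [h3]
      have h4 : Submodule.span A (s : Set A) = I ^ n := hs
      rw [h4, smul_eq_mul, ← pow_add, add_comm]
      exact hd m
    rw [Submodule.mem_ideal_smul_span_iff_exists_sum] at h2
    obtain ⟨a, ha, h⟩ := h2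
    refine ⟨a, ha, ?_⟩
    rw [← h, Finsupp.sum_fintype _ _ (by simp)]
    rfl
  choose a ha hda using h1
  have hsum : ∀ j : s, Summable (fun m => a m j) := by
    intro j
    apply NonarchimedeanAddGroup.summable_of_tendsto_cofinite_zero
    rw [Nat.cofinite_eq_atTop, tendsto_def]
    intro U hU
    obtain ⟨k, hk⟩ := hpow U hU
    filter_upwards [eventually_ge_atTop k] with m hm
    exact hk (Ideal.pow_le_pow_right hm (ha m j))
  refine ⟨∑ j : s, (∑' m, a m j) * (j : A), ?_, ?_⟩
  · refine Ideal.sum_mem _ (fun j _ => Ideal.mul_mem_left _ _ ?_)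
    rw [← hs]
    exact Ideal.subset_span j.2
  · have : HasSum (fun m => ∑ j : s, a m j * (j : A)) (∑ j : s, (∑' m, a m j) * (j : A)) :=
      hasSum_sum (fun j _ => (hsum j).hasSum.mul_right _)
    have h5 : d = fun m => ∑ j : s, a m j * (j : A) := funext hda
    rw [h5]
    exact this

open Filter Topology in
theorem prec {A : Type u} [CommRing A] [UniformSpace A] [IsUniformAddGroup A] [IsTopologicalRing A]
    [CompleteSpace A] [NonarchimedeanAddGroup A] [T2Space A]
    (I : Ideal A) (hI : I.FG) (hpow : ∀ U ∈ nhds (0:A), ∃ n : ℕ, ((I ^ n : Ideal A) : Set A) ⊆ U)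
    (f : ℕ → A) (hf' : ∀ m, f (m+1) - f m ∈ I ^ m) : ∃ L, ∀ n, f n - L ∈ I ^ n := by
  have hk : ∀ n, ∃ L ∈ I ^ n, HasSum (fun m => f (n + m + 1) - f (n + m)) L :=
    fun n => key I hI hpow n _ (fun m => hf' (n+m))
  choose L hL hLs using hk
  have htel : ∀ n k, ∑ m ∈ Finset.range k, (f (n + m + 1) - f (n + m)) = f (n + k) - f n := by
    intro n k
    exact Finset.sum_range_sub (fun m => f (n + m)) k
  have hlim : ∀ n, Tendsto (fun k => f (n + k) - f n) atTop (𝓝 (L n)) := by
    intro n
    have := (hLs n).tendsto_sum_nat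
    simpa only [htel] using this
  refine ⟨f 0 + L 0, fun n => ?_⟩
  have h3 : Tendsto (fun k => f (n + k)) atTop (𝓝 (L n + f n)) := by simpa using (hlim n).add_const (f n)
  have h4 : Tendsto (fun k => f k) atTop (𝓝 (L 0 + f 0)) := by simpa using (hlim 0).add_const (f 0)
  have h5 : Tendsto (fun k => f (n + k)) atTop (𝓝 (L 0 + f 0)) := by
    have := h4.comp (tendsto_add_atTop_nat n)
    simpa only [Function.comp_def, add_comm n] using this
  have h6 := tendsto_nhds_unique h3 h5
  have h7 : f n - (f 0 + L 0) = - L n := by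
    rw [add_comm (f 0), ← h6]; ring
  rw [h7]
  exact neg_mem (hL n)


/-- For a finitely generated ideal. Let A be an admissible ring and I a finitely generated ideal
contained in an ideal of definition of A. Then A is separated and complete for the I-adic topology.
(The published statement has no finiteness hypothesis on I and is then not correct: the completion
of a polynomial ring in countably many variables over a field along the ideal generated by the
variables, with its inverse-limit topology, is admissible, the kernel of its projection onto the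
field is an ideal of definition, and the ring is not adically complete for that kernel.) -/
theorem result
    (A : Type u) [CommRing A] [UniformSpace A] [IsUniformAddGroup A] [IsTopologicalRing A]
    (hA : LinTop.IsAdmissible A) (J : Ideal A) (hJ : LinTop.IsIdealOfDefinition A J)
    (I : Ideal A) (hI : I.FG) (hIJ : I ≤ J) :
    IsAdicComplete I A := by
  obtain ⟨⟨hlin, -⟩, ht2, hcpl⟩ := hA
  obtain ⟨-, hJpow⟩ := hJ
  have hpow : ∀ U ∈ nhds (0:A), ∃ n : ℕ, ((I ^ n : Ideal A) : Set A) ⊆ U := by
    intro U hU
    obtain ⟨n, -, hn⟩ := hJpow U hU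
    exact ⟨n, (Set.Subset.trans (Ideal.pow_right_mono hIJ n) hn)⟩
  have hna : NonarchimedeanAddGroup A :=
    { is_nonarchimedean := by
        intro U hU
        obtain ⟨K, hK, hKU⟩ := (IsLinearTopology.hasBasis_open_ideal (R := A)).mem_iff.mp hU
        exact ⟨⟨K.toAddSubgroup, hK⟩, hKU⟩ }
  have h1 : IsHausdorff I A := ⟨by
    intro x hx
    by_contra hx0
    have hU : ({x}ᶜ : Set A) ∈ nhds (0 : A) := isOpen_compl_singleton.mem_nhds (Ne.symm hx0)
    obtain ⟨n, hn⟩ := hpow _ hU
    have h2 := hx n
    rw [SModEq.zero, smul_eq_mul, Ideal.mul_top] at h2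
    exact hn h2 rfl⟩
  have h2 : IsPrecomplete I A := ⟨by
    intro f hf
    obtain ⟨L, hL⟩ := prec I hI hpow f (by
      intro m
      have := hf (Nat.le_succ m)
      rw [SModEq.sub_mem, smul_eq_mul, Ideal.mul_top] at this
      rw [← neg_sub]
      exact neg_mem this)
    refine ⟨L, fun n => ?_⟩
    rw [SModEq.sub_mem, smul_eq_mul, Ideal.mul_top]
    exact hL n⟩
  exact { toIsHausdorff := h1, toIsPrecomplete := h2 }
end Groth.Agent.S4338
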