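import Groth.Statements.S4343
import Groth.Agent.Lib.Lead_Spread
-- import your own Groth.Agent.* helpers here

set_option autoImplicit false
universe u
open RatMapD

namespace Groth.Agent.S4343

open AlgebraicGeometry in
open CategoryTheory in
/-- Let X, Y be S-schemes with X irreducible and Y locally of finite type over S. Two S-rational maps
from X to Y to which corresponds the same morphism Spec(O_x) -> Y, x the generic point of X, are
equal. (The published statement has Y of finite type over S; only local finite type is used. X is
not assumed reduced.) -/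
theorem result
    (S X Y : Scheme.{u}) [X.Over S] [Y.Over S] [IrreducibleSpace X]
    [LocallyOfFiniteType (Y ↘ S)] (f g : X ⤏ Y) [f.IsOver S] [g.IsOver S]
    (h : f.fromFunctionField = g.fromFunctionField) : f = g := by
  obtain ⟨f₀, hf₀, rfl⟩ := f.exists_partialMap_over S
  obtain ⟨g₀, hg₀, rfl⟩ := g.exists_partialMap_over S
  refine Scheme.PartialMap.toRationalMap_eq_iff.mpr ?_
  exact Groth.Agent.LeadSpread.equiv_of_fromSpecStalkOfMem_eq_lft (X ↘ S) (Y ↘ S) f₀ g₀
    hf₀.comp_over hg₀.comp_over _ _ h

end Groth.Agent.S4343
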