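import Groth.Statements.S4344
import Mathlib
-- import your own Groth.Agent.* helpers here

set_option autoImplicit false
universe u
open RatMapD

namespace Groth.Agent.S4344

open AlgebraicGeometry in
open CategoryTheory in
/-- Let X be a reduced S-scheme, Y an S-scheme separated over S and f an S-rational map from X to Y.
There is a representative g of f which is an S-morphism and of which every S-morphism representing f
is a restriction; in particular g is the unique S-morphism of the class of f defined on the largest
open where some S-representative is defined. (The published statement speaks of the domain of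
definition among all representatives; over a base that is not separated that domain can be larger
than the one on which an S-representative exists, and this row takes the latter.) -/
theorem result
    (S X Y : Scheme.{u}) [X.Over S] [Y.Over S] [IsReduced X] [IsSeparated (Y ↘ S)]
    (f : X ⤏ Y) [f.IsOver S] :
    ∃ g : X.PartialMap Y, g.IsOver S ∧ g.toRationalMap = f ∧
      ∀ h : X.PartialMap Y, h.IsOver S → h.toRationalMap = f →
        ∃ hle : h.domain ≤ g.domain, h = g.restrict h.domain h.dense_domain hle := by
  classical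
  let J := {h : X.PartialMap Y // h.IsOver S ∧ h.toRationalMap = f}
  obtain ⟨h₀, hh₀, hf₀⟩ := f.exists_partialMap_over S
  let j₀ : J := ⟨h₀, hh₀, hf₀⟩
  let U : J → X.Opens := fun h => h.1.domain
  have hglue : ∀ x y : J, X.homOfLE (inf_le_left : U x ⊓ U y ≤ U x) ≫ x.1.hom =
      X.homOfLE (inf_le_right : U x ⊓ U y ≤ U y) ≫ y.1.hom := by
    intro x y
    have h1 := x.2.1
    have h2 := y.2.1
    have he : x.1.equiv y.1 := Scheme.PartialMap.toRationalMap_eq_iff.1 (x.2.2.trans y.2.2.symm)
    exact (Scheme.PartialMap.equiv_iff_of_isSeparated (S := S)).1 he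
  let φ : (⨆ h, U h : X.Opens).toScheme ⟶ Y := (Scheme.Opens.iSupOpenCover U).glueMorphisms (fun x => x.1.hom) (by
    intro x y
    refine (cancel_epi (isPullback_opens_inf_le (le_iSup U x) (le_iSup U y)).isoPullback.hom).mp ?_
    refine Eq.trans ?_ ((hglue x y).trans ?_)
    · exact IsPullback.isoPullback_hom_fst_assoc _ _
    · exact (IsPullback.isoPullback_hom_snd_assoc _ _).symm)
  have hφ : ∀ x : J, X.homOfLE (le_iSup U x) ≫ φ = x.1.hom := fun x =>
    (Scheme.Opens.iSupOpenCover U).ι_glueMorphisms _ _ x
  have hdense : Dense ((⨆ h, U h : X.Opens) : Set X) :=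
    h₀.dense_domain.mono (le_iSup U j₀)
  let g : X.PartialMap Y := ⟨⨆ h, U h, hdense, φ⟩
  have hres : ∀ x : J, x.1 = g.restrict x.1.domain x.1.dense_domain (le_iSup U x) := by
    intro x
    refine Scheme.PartialMap.ext _ _ rfl ?_
    show x.1.hom = (X.isoOfEq (rfl : x.1.domain = x.1.domain)).hom ≫ X.homOfLE (le_iSup U x) ≫ φ
    rw [hφ x, Scheme.isoOfEq_rfl]
    exact (Category.id_comp _).symm
  refine ⟨g, ?_, ?_, ?_⟩
  · refine ⟨?_⟩
    show φ ≫ (Y ↘ S) = (⨆ h, U h : X.Opens).ι ≫ (X ↘ S)
    refine (Scheme.Opens.iSupOpenCover U).hom_ext _ _ (fun x => ?_)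
    show X.homOfLE (le_iSup U x) ≫ _ = X.homOfLE (le_iSup U x) ≫ _
    rw [← Category.assoc, hφ x, ← Category.assoc, Scheme.homOfLE_ι]
    exact x.2.1.comp_over
  · have h1 := hres j₀
    have h2 : h₀.toRationalMap = g.toRationalMap := by
      have h3 := congrArg Scheme.PartialMap.toRationalMap h1
      exact h3.trans (Scheme.PartialMap.restrict_toRationalMap g _ _ _)
    rw [← h2, hf₀]
  · intro h hS hf'
    exact ⟨le_iSup U (⟨h, hS, hf'⟩ : J), hres ⟨h, hS, hf'⟩⟩

end Groth.Agent.S4344
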