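import Groth.Statements.S4345
import Mathlib

set_option autoImplicit false
universe u
open SchLoc

namespace Groth.Agent.S4345

theorem mem_ofPrime {K : Type u} [Field K] (A : Subring K) (P : Ideal A) [P.IsPrime] (x : K) :
    x ∈ (LocalSubring.ofPrime A P).toSubring ↔ ∃ a s : A, s ∉ P ∧ x = (a : K) * (s : K)⁻¹ := by
  constructor
  · intro hx
    obtain ⟨⟨a, s⟩, h⟩ := IsLocalization.surj P.primeCompl (⟨x, hx⟩ : (LocalSubring.ofPrime A P).toSubring)
    refine ⟨a, s, s.2, ?_⟩
    have h1 : x * ((s : A) : K) = (a : K) := congrArg Subtype.val h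
    have hs : ((s : A) : K) ≠ 0 := fun h0 => s.2 (by rw [show (s : A) = 0 from Subtype.ext h0]; exact P.zero_mem)
    rw [← h1, mul_assoc, mul_inv_cancel₀ hs, mul_one]
  · rintro ⟨a, s, hs, rfl⟩
    refine Subring.mul_mem _ (LocalSubring.le_ofPrime A P a.2) ?_
    obtain ⟨u, hu'⟩ := IsLocalization.map_units (LocalSubring.ofPrime A P).toSubring (⟨s, hs⟩ : P.primeCompl)
    have h1 : (↑u⁻¹ : (LocalSubring.ofPrime A P).toSubring) * (u : (LocalSubring.ofPrime A P).toSubring) = 1 := Units.inv_mul u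
    rw [hu'] at h1
    have h2 : ((↑u⁻¹ : (LocalSubring.ofPrime A P).toSubring) : K) * (s : K) = 1 := congrArg Subtype.val h1
    rw [← eq_inv_of_mul_eq_one_left h2]
    exact Subtype.property _

theorem ofPrime_le {K : Type u} [Field K] (A : Subring K) (Q : LocalSubring K) (hA : A ≤ Q.toSubring) :
    LocalSubring.ofPrime A ((IsLocalRing.maximalIdeal Q.toSubring).comap (Subring.inclusion hA)) ≤ Q := by
  have hunit : ∀ s : A, s ∉ (IsLocalRing.maximalIdeal Q.toSubring).comap (Subring.inclusion hA) → (s:K)⁻¹ ∈ Q.toSubring := by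
    intro s hs
    have hu : IsUnit (Subring.inclusion hA s) := by
      by_contra h; exact hs ((IsLocalRing.mem_maximalIdeal _).mpr h)
    obtain ⟨u, hu'⟩ := hu
    have h1 : (↑u⁻¹ : Q.toSubring) * (Subring.inclusion hA s) = 1 := by rw [← hu', Units.inv_mul]
    have h2 : ((↑u⁻¹ : Q.toSubring) : K) * (s : K) = 1 := congrArg Subtype.val h1
    rw [← eq_inv_of_mul_eq_one_left h2]; exact Subtype.property _
  have h0 : ∀ s : A, s ∉ (IsLocalRing.maximalIdeal Q.toSubring).comap (Subring.inclusion hA) → (s:K) ≠ 0 := by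
    intro s hs h
    exact hs (by rw [show s = 0 from Subtype.ext h]; exact Ideal.zero_mem _)
  refine ⟨fun x hx => ?_, ⟨fun x hx => ?_⟩⟩
  · obtain ⟨a, s, hs, rfl⟩ := (mem_ofPrime _ _ _).mp hx
    exact mul_mem (hA a.2) (hunit s hs)
  · obtain ⟨x, hx0⟩ := x
    obtain ⟨a, s, hs, rfl⟩ := (mem_ofPrime _ _ _).mp hx0
    have ha : a ∉ (IsLocalRing.maximalIdeal Q.toSubring).comap (Subring.inclusion hA) := by
      intro ha
      have h3 : (⟨(a:K) * (s:K)⁻¹, mul_mem (hA a.2) (hunit s hs)⟩ : Q.toSubring) ∈ IsLocalRing.maximalIdeal Q.toSubring := by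
        have : (⟨(a:K) * (s:K)⁻¹, mul_mem (hA a.2) (hunit s hs)⟩ : Q.toSubring) = (Subring.inclusion hA a) * ⟨(s:K)⁻¹, hunit s hs⟩ := rfl
        rw [this]; exact Ideal.mul_mem_right _ _ ha
      exact (IsLocalRing.mem_maximalIdeal _).mp h3 hx
    have ha0 : (a:K) ≠ 0 := h0 a ha
    have hs0 : (s:K) ≠ 0 := h0 s hs
    refine IsUnit.of_mul_eq_one ⟨(s:K) * (a:K)⁻¹, (mem_ofPrime _ _ _).mpr ⟨s, a, ha, rfl⟩⟩ (Subtype.ext ?_)
    show (a:K) * (s:K)⁻¹ * ((s:K) * (a:K)⁻¹) = 1
    field_simp

theorem comap_of_le {K : Type u} [Field K] (A : Subring K) (P : Ideal A) [P.IsPrime] (Q : LocalSubring K)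
    (h : LocalSubring.ofPrime A P ≤ Q) (hA : A ≤ Q.toSubring) :
    (IsLocalRing.maximalIdeal Q.toSubring).comap (Subring.inclusion hA) = P := by
  obtain ⟨h1, h2⟩ := h
  have h3 : (IsLocalRing.maximalIdeal Q.toSubring).comap (Subring.inclusion h1) = IsLocalRing.maximalIdeal (LocalSubring.ofPrime A P).toSubring :=
    ((IsLocalRing.local_hom_TFAE (Subring.inclusion h1)).out 0 4).mp h2
  have h4 : (IsLocalRing.maximalIdeal (LocalSubring.ofPrime A P).toSubring).comap (algebraMap A (LocalSubring.ofPrime A P).toSubring) = P :=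
    IsLocalization.AtPrime.comap_maximalIdeal (LocalSubring.ofPrime A P).toSubring P
  rw [← h3, Ideal.comap_comap] at h4
  exact h4

theorem ofPrime_congr {K : Type u} [Field K] (A : Subring K) {P P' : Ideal A} [P.IsPrime] [P'.IsPrime] (h : P = P') :
    LocalSubring.ofPrime A P = LocalSubring.ofPrime A P' := by
  subst h; rfl


/-- Let A and B be subrings of a field R, C the subring generated by A and B, and for a subring E let
L(E) be the set of local subrings E_p of R, p a prime ideal of E. The following are equivalent: (i)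
for every local subring Q of R containing A and B, the localizations of A and of B at the traces of
the maximal ideal of Q coincide; (ii) for every prime ideal r of C the localizations of A and B at
the traces of r coincide; (iii) two members of L(A) and L(B) dominated by a common local subring of
R are equal; (iv) the intersection of L(A) and L(B) is L(C). -/
theorem result
    (R : Type u) [Field R] (A B : Subring R) :
    [ ∀ (Q : LocalSubring R) (hA : A ≤ Q.toSubring) (hB : B ≤ Q.toSubring),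
        LocalSubring.ofPrime A ((IsLocalRing.maximalIdeal Q.toSubring).comap (Subring.inclusion hA)) =
          LocalSubring.ofPrime B ((IsLocalRing.maximalIdeal Q.toSubring).comap (Subring.inclusion hB)),
      ∀ r : PrimeSpectrum ↥(A ⊔ B),
        LocalSubring.ofPrime A (r.asIdeal.comap (Subring.inclusion (le_sup_left : A ≤ A ⊔ B))) =
          LocalSubring.ofPrime B (r.asIdeal.comap (Subring.inclusion (le_sup_right : B ≤ A ⊔ B))),
      ∀ (p : PrimeSpectrum A) (q : PrimeSpectrum B),
        (∃ Q : LocalSubring R, LocalSubring.ofPrime A p.asIdeal ≤ Q ∧ LocalSubring.ofPrime B q.asIdeal ≤ Q) →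
          LocalSubring.ofPrime A p.asIdeal = LocalSubring.ofPrime B q.asIdeal,
      Set.range (fun p : PrimeSpectrum A ↦ LocalSubring.ofPrime A p.asIdeal) ∩
          Set.range (fun q : PrimeSpectrum B ↦ LocalSubring.ofPrime B q.asIdeal) =
        Set.range (fun r : PrimeSpectrum ↥(A ⊔ B) ↦ LocalSubring.ofPrime (A ⊔ B) r.asIdeal) ].TFAE := by
  have hrA : ∀ r : PrimeSpectrum ↥(A ⊔ B), (r.asIdeal.comap (Subring.inclusion (le_sup_left : A ≤ A ⊔ B))) =
      (IsLocalRing.maximalIdeal (LocalSubring.ofPrime (A ⊔ B) r.asIdeal).toSubring).comap (Subring.inclusion (le_sup_left.trans (LocalSubring.le_ofPrime (A ⊔ B) r.asIdeal))) := by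
    intro r
    have := comap_of_le (A ⊔ B) r.asIdeal _ le_rfl (LocalSubring.le_ofPrime (A ⊔ B) r.asIdeal)
    conv_lhs => rw [← this]
    rw [Ideal.comap_comap]; rfl
  have hrB : ∀ r : PrimeSpectrum ↥(A ⊔ B), (r.asIdeal.comap (Subring.inclusion (le_sup_right : B ≤ A ⊔ B))) =
      (IsLocalRing.maximalIdeal (LocalSubring.ofPrime (A ⊔ B) r.asIdeal).toSubring).comap (Subring.inclusion (le_sup_right.trans (LocalSubring.le_ofPrime (A ⊔ B) r.asIdeal))) := by
    intro r
    have := comap_of_le (A ⊔ B) r.asIdeal _ le_rfl (LocalSubring.le_ofPrime (A ⊔ B) r.asIdeal)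
    conv_lhs => rw [← this]
    rw [Ideal.comap_comap]; rfl
  tfae_have 1 → 2 := by
    intro h1 r
    have := h1 (LocalSubring.ofPrime (A ⊔ B) r.asIdeal) (le_sup_left.trans (LocalSubring.le_ofPrime (A ⊔ B) r.asIdeal)) (le_sup_right.trans (LocalSubring.le_ofPrime (A ⊔ B) r.asIdeal))
    rw [ofPrime_congr A (hrA r), ofPrime_congr B (hrB r)]
    exact this
  tfae_have 2 → 3 := by
    rintro h2 p q ⟨Q, hpQ, hqQ⟩
    have hA : A ≤ Q.toSubring := (LocalSubring.le_ofPrime A p.asIdeal).trans hpQ.1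
    have hB : B ≤ Q.toSubring := (LocalSubring.le_ofPrime B q.asIdeal).trans hqQ.1
    have h := h2 ⟨(IsLocalRing.maximalIdeal Q.toSubring).comap (Subring.inclusion (sup_le hA hB)), inferInstance⟩
    have e1 : ((IsLocalRing.maximalIdeal Q.toSubring).comap (Subring.inclusion (sup_le hA hB))).comap (Subring.inclusion (le_sup_left : A ≤ A ⊔ B)) = p.asIdeal := by
      rw [Ideal.comap_comap]
      exact comap_of_le A p.asIdeal Q hpQ hA
    have e2 : ((IsLocalRing.maximalIdeal Q.toSubring).comap (Subring.inclusion (sup_le hA hB))).comap (Subring.inclusion (le_sup_right : B ≤ A ⊔ B)) = q.asIdeal := by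
      rw [Ideal.comap_comap]
      exact comap_of_le B q.asIdeal Q hqQ hB
    rw [ofPrime_congr A e1.symm, ofPrime_congr B e2.symm]
    exact h
  tfae_have 3 → 1 := by
    intro h3 Q hA hB
    exact h3 ⟨(IsLocalRing.maximalIdeal Q.toSubring).comap (Subring.inclusion hA), inferInstance⟩ ⟨(IsLocalRing.maximalIdeal Q.toSubring).comap (Subring.inclusion hB), inferInstance⟩ ⟨Q, ofPrime_le A Q hA, ofPrime_le B Q hB⟩
  tfae_have 2 → 4 := by
    intro h2
    apply Set.Subset.antisymm
    · rintro M ⟨⟨p, hp⟩, ⟨q, hq⟩⟩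
      simp only at hp hq
      have hA : A ≤ M.toSubring := (LocalSubring.le_ofPrime A p.asIdeal).trans hp.le.1
      have hB : B ≤ M.toSubring := (LocalSubring.le_ofPrime B q.asIdeal).trans hq.le.1
      refine ⟨⟨(IsLocalRing.maximalIdeal M.toSubring).comap (Subring.inclusion (sup_le hA hB)), inferInstance⟩, ?_⟩
      refine le_antisymm (ofPrime_le (A ⊔ B) M (sup_le hA hB)) ?_
      have h5 := ofPrime_le A (LocalSubring.ofPrime (A ⊔ B) ((IsLocalRing.maximalIdeal M.toSubring).comap (Subring.inclusion (sup_le hA hB)))) (le_sup_left.trans (LocalSubring.le_ofPrime (A ⊔ B) _))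
      rw [← ofPrime_congr A (hrA ⟨(IsLocalRing.maximalIdeal M.toSubring).comap (Subring.inclusion (sup_le hA hB)), inferInstance⟩)] at h5
      have e1 : ((IsLocalRing.maximalIdeal M.toSubring).comap (Subring.inclusion (sup_le hA hB))).comap (Subring.inclusion (le_sup_left : A ≤ A ⊔ B)) = p.asIdeal := by
        rw [Ideal.comap_comap]
        exact comap_of_le A p.asIdeal M hp.le hA
      rw [ofPrime_congr A e1, hp] at h5
      exact h5
    · rintro M ⟨r, rfl⟩
      simp only
      have h5 := ofPrime_le A (LocalSubring.ofPrime (A ⊔ B) r.asIdeal) (le_sup_left.trans (LocalSubring.le_ofPrime (A ⊔ B) _))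
      rw [← ofPrime_congr A (hrA r)] at h5
      have hA : A ≤ (LocalSubring.ofPrime A (r.asIdeal.comap (Subring.inclusion (le_sup_left : A ≤ A ⊔ B)))).toSubring := LocalSubring.le_ofPrime _ _
      have hB : B ≤ (LocalSubring.ofPrime A (r.asIdeal.comap (Subring.inclusion (le_sup_left : A ≤ A ⊔ B)))).toSubring := by
        rw [h2 r]; exact LocalSubring.le_ofPrime _ _
      have h6 := ofPrime_le (A ⊔ B) _ (sup_le hA hB)
      have h7 : (IsLocalRing.maximalIdeal (LocalSubring.ofPrime A (r.asIdeal.comap (Subring.inclusion (le_sup_left : A ≤ A ⊔ B)))).toSubring).comap (Subring.inclusion (sup_le hA hB)) = r.asIdeal := by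
        have h8 : (IsLocalRing.maximalIdeal (LocalSubring.ofPrime (A ⊔ B) r.asIdeal).toSubring).comap (Subring.inclusion h5.1) = IsLocalRing.maximalIdeal (LocalSubring.ofPrime A (r.asIdeal.comap (Subring.inclusion (le_sup_left : A ≤ A ⊔ B)))).toSubring :=
          ((IsLocalRing.local_hom_TFAE (Subring.inclusion h5.1)).out 0 4).mp h5.2
        rw [← h8, Ideal.comap_comap]
        exact comap_of_le (A ⊔ B) r.asIdeal _ le_rfl (LocalSubring.le_ofPrime (A ⊔ B) r.asIdeal)
      rw [ofPrime_congr (A ⊔ B) h7] at h6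
      have h9 := le_antisymm h5 h6
      exact ⟨⟨⟨r.asIdeal.comap (Subring.inclusion (le_sup_left : A ≤ A ⊔ B)), inferInstance⟩, h9⟩, ⟨⟨r.asIdeal.comap (Subring.inclusion (le_sup_right : B ≤ A ⊔ B)), inferInstance⟩, (h2 r).symm.trans h9⟩⟩
  tfae_have 4 → 2 := by
    intro h4 r
    have : LocalSubring.ofPrime (A ⊔ B) r.asIdeal ∈ Set.range (fun r : PrimeSpectrum ↥(A ⊔ B) ↦ LocalSubring.ofPrime (A ⊔ B) r.asIdeal) := ⟨r, rfl⟩
    rw [← h4] at this
    obtain ⟨⟨p, hp⟩, ⟨q, hq⟩⟩ := this
    simp only at hp hq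
    have e1 := comap_of_le A p.asIdeal _ hp.le (le_sup_left.trans (LocalSubring.le_ofPrime (A ⊔ B) r.asIdeal))
    have e2 := comap_of_le B q.asIdeal _ hq.le (le_sup_right.trans (LocalSubring.le_ofPrime (A ⊔ B) r.asIdeal))
    rw [ofPrime_congr A ((hrA r).trans e1), ofPrime_congr B ((hrB r).trans e2), hp, hq]
  tfae_finish
end Groth.Agent.S4345
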