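import Groth.Statements.S4346
import Mathlib

set_option autoImplicit false
universe u
open SchLoc

namespace Groth.Agent.S4346

open AlgebraicGeometry CategoryTheory in
theorem aux (X : Scheme.{u}) [IsIntegral X] [X.IsSeparated] :
    Function.Injective (fun x : X ↦ (algebraMap (X.presheaf.stalk x) X.functionField).range) := by
  intro x y hxy
  simp only at hxy
  have hinjx : Function.Injective (algebraMap (X.presheaf.stalk x) X.functionField) := IsFractionRing.injective _ _
  have hinjy : Function.Injective (algebraMap (X.presheaf.stalk y) X.functionField) := IsFractionRing.injective _ _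
  let ex : X.presheaf.stalk x ≃+* (algebraMap (X.presheaf.stalk x) X.functionField).range := RingEquiv.ofBijective (algebraMap (X.presheaf.stalk x) X.functionField).rangeRestrict
    ⟨fun a b h => hinjx (congrArg Subtype.val h), RingHom.rangeRestrict_surjective _⟩
  let ey : X.presheaf.stalk y ≃+* (algebraMap (X.presheaf.stalk y) X.functionField).range := RingEquiv.ofBijective (algebraMap (X.presheaf.stalk y) X.functionField).rangeRestrict
    ⟨fun a b h => hinjy (congrArg Subtype.val h), RingHom.rangeRestrict_surjective _⟩
  let eR : (algebraMap (X.presheaf.stalk y) X.functionField).range ≃+* (algebraMap (X.presheaf.stalk x) X.functionField).range :=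
    RingEquiv.subringCongr hxy.symm
  let θ : X.presheaf.stalk y ≃+* X.presheaf.stalk x := (ey.trans eR).trans ex.symm
  have hθ : ∀ a, algebraMap (X.presheaf.stalk x) X.functionField (θ a) = algebraMap (X.presheaf.stalk y) X.functionField a := by
    intro a
    have h1 : ex (θ a) = eR (ey a) := ex.apply_symm_apply _
    exact congrArg Subtype.val h1
  let ι : Spec X.functionField ⟶ Spec (X.presheaf.stalk x) := Spec.map (CommRingCat.ofHom (algebraMap (X.presheaf.stalk x) X.functionField))
  have hdom : IsDominant ι := by
    constructor
    refine (PrimeSpectrum.denseRange_comap_iff_ker_le_nilRadical _).mpr ?_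
    show RingHom.ker (algebraMap (X.presheaf.stalk x) X.functionField) ≤ _
    rw [(RingHom.injective_iff_ker_eq_bot _).mp hinjx]; exact bot_le
  have h1 : ι ≫ X.fromSpecStalk x = X.fromSpecStalk (genericPoint X) :=
    Scheme.SpecMap_stalkSpecializes_fromSpecStalk ((genericPoint_spec X).specializes trivial)
  have h2 : ι ≫ (Spec.map (CommRingCat.ofHom θ.toRingHom) ≫ X.fromSpecStalk y) = X.fromSpecStalk (genericPoint X) := by
    rw [← Category.assoc, ← Spec.map_comp]
    have h3 : CommRingCat.ofHom θ.toRingHom ≫ CommRingCat.ofHom (algebraMap (X.presheaf.stalk x) X.functionField) = CommRingCat.ofHom (algebraMap (X.presheaf.stalk y) X.functionField) := by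
      ext a; exact hθ a
    exact (congrArg (fun t => Spec.map t ≫ X.fromSpecStalk y) h3).trans (Scheme.SpecMap_stalkSpecializes_fromSpecStalk ((genericPoint_spec X).specializes trivial))
  have h4 : X.fromSpecStalk x = Spec.map (CommRingCat.ofHom θ.toRingHom) ≫ X.fromSpecStalk y :=
    ext_of_isDominant_of_isSeparated (CategoryTheory.Limits.terminal.from X) (Subsingleton.elim _ _) ι (h1.trans h2.symm)
  have h5 := congr(($h4).base (IsLocalRing.closedPoint _))
  rw [show (X.fromSpecStalk x).base (IsLocalRing.closedPoint _) = x from Scheme.fromSpecStalk_closedPoint] at h5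
  rw [h5]
  have : IsLocalHom θ.toRingHom := by
    constructor
    intro a ha
    exact (MulEquiv.isUnit_map θ).mp ha
  have h6 : (Spec.map (CommRingCat.ofHom θ.toRingHom)).base (IsLocalRing.closedPoint _) = IsLocalRing.closedPoint _ :=
    IsLocalRing.comap_closedPoint θ.toRingHom
  show (X.fromSpecStalk y).base ((Spec.map (CommRingCat.ofHom θ.toRingHom)).base (IsLocalRing.closedPoint _)) = y
  rw [h6]
  exact Scheme.fromSpecStalk_closedPoint


open AlgebraicGeometry in
/-- On an integral separated scheme distinct points have distinct local rings inside the function field. -/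
theorem result (X : Scheme.{u}) [IsIntegral X] [X.IsSeparated] :
    Function.Injective (fun x : X ↦ (algebraMap (X.presheaf.stalk x) X.functionField).range) := by
  exact aux X
end Groth.Agent.S4346
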