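import Groth.Statements.S4349
import Mathlib

set_option autoImplicit false
universe u
open RatFun

namespace Groth.Agent.S4349

open CategoryTheory TopologicalSpace AlgebraicGeometry in
theorem aux (X : Scheme.{u}) [IsReduced X] (V : X.Opens) (hV : Dense (V : Set X)) :
    Function.Injective (RatFun.toRing X V hV) := by
  have hcof : IsCofiltered (RatFun.IsDenseOpen X).FullSubcategory :=
    { cone_objs := fun U W => ⟨⟨U.obj ⊓ W.obj, U.property.inter_of_isOpen_left W.property U.obj.isOpen⟩,
        ObjectProperty.homMk (homOfLE inf_le_left), ObjectProperty.homMk (homOfLE inf_le_right), trivial⟩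
      cone_maps := fun U W f g => ⟨U, 𝟙 U, by
        congr 1
        exact ObjectProperty.hom_ext _ (Subsingleton.elim _ _)⟩
      nonempty := ⟨⟨⊤, dense_univ⟩⟩ }
  intro s t hst
  obtain ⟨k, f, g, hk⟩ := Limits.Concrete.isColimit_exists_of_rep_eq (RatFun.sectionsOnDense X) (i := Opposite.op ⟨V, hV⟩) (j := Opposite.op ⟨V, hV⟩) (Limits.colimit.isColimit _) s t hst
  have hk' : X.presheaf.map f.unop.hom.op s = X.presheaf.map g.unop.hom.op t := hk
  rw [← sub_eq_zero, ← AlgebraicGeometry.basicOpen_eq_bot_iff]
  by_contra hne
  have hne' : ((X.basicOpen (s - t) : X.Opens) : Set X).Nonempty := by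
    rw [Set.nonempty_iff_ne_empty]
    intro h
    exact hne (TopologicalSpace.Opens.ext h)
  obtain ⟨x, hx, hxW⟩ := k.unop.property.inter_open_nonempty _ (X.basicOpen (s - t)).isOpen hne'
  have hxV : x ∈ V := X.basicOpen_le _ hx
  have hu : IsUnit (X.presheaf.germ V x hxV (s - t)) := (X.mem_basicOpen _ x hxV).mp hx
  have h1 : X.presheaf.germ V x hxV s = X.presheaf.germ V x hxV t := by
    have e1 := X.presheaf.germ_res_apply f.unop.hom x hxW s
    have e2 := X.presheaf.germ_res_apply g.unop.hom x hxW t
    rw [← e1, ← e2, hk']
  rw [map_sub, h1, sub_self] at hu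
  exact not_isUnit_zero hu


open AlgebraicGeometry in
/-- Second assertion (in the form: sections over a dense open inject into the ring of rational
functions). Let X be a reduced scheme and V a dense open subset of X. The canonical map from the
sections of O_X over V to the ring R(X) of rational functions on X is injective. (The published
statement also assumes X locally integral or locally Noetherian; that hypothesis serves the
quasi-coherence of the sheaf of rational functions and is not needed here.) -/
theorem result (X : Scheme.{u}) [IsReduced X]
    (V : X.Opens) (hV : Dense (V : Set X)) :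
    Function.Injective (RatFun.toRing X V hV) := by
  exact aux X V hV
end Groth.Agent.S4349
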