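import Groth.Statements.S4360
import Groth.Agent.Lib.helper7_AG

set_option autoImplicit false
universe u
open FinCond

namespace Groth.Agent.S4360



open AlgebraicGeometry in
open CategoryTheory in
/-- Let f : X -> Y be an immersion and suppose that the underlying space of Y is locally Noetherian,
i.e. every point of Y has an open neighbourhood which is a Noetherian topological space. Then f is
quasi-compact (and hence of finite type, an immersion being locally of finite type). -/
theorem result
    {X Y : Scheme.{u}} (f : X ⟶ Y) [IsImmersion f]
    (hY : ∀ y : Y, ∃ U : Y.Opens, y ∈ U ∧ TopologicalSpace.NoetherianSpace U) :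
    QuasiCompact f := by
  constructor
  intro V hVo hV
  have hn := Groth.Agent.H7.noetherianSpace_of_isCompact (X := Y) (fun y => ⟨_, (hY y).choose.2, (hY y).choose_spec⟩) V hV
  rw [f.isEmbedding.isCompact_iff]
  have h1 := @TopologicalSpace.NoetherianSpace.isCompact _ _ hn (Subtype.val ⁻¹' (f '' (f ⁻¹' V)))
  have h2 := h1.image continuous_subtype_val
  rw [Subtype.image_preimage_coe] at h2
  convert h2 using 1
  rw [Set.inter_eq_self_of_subset_right]
  rintro _ ⟨x, hx, rfl⟩
  exact hx
end Groth.Agent.S4360
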