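import Groth.Statements.S4361
import Groth.Agent.Lib.helper7_AG

set_option autoImplicit false
universe u
open FinCond

namespace Groth.Agent.S4361



open AlgebraicGeometry in
open CategoryTheory in
/-- Let f : X -> Y and g : Y -> Z be morphisms whose composite is quasi-compact, and suppose the
underlying space of X is locally Noetherian (every point has an open neighbourhood which is a
Noetherian topological space). Then f is quasi-compact. (The published statement also covers the
case g separated, which is the standard cancellation property; this row states only the case of a
locally Noetherian source.) -/
theorem result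
    {X Y Z : Scheme.{u}} (f : X ⟶ Y) (g : Y ⟶ Z) [QuasiCompact (f ≫ g)]
    (hX : ∀ x : X, ∃ U : X.Opens, x ∈ U ∧ TopologicalSpace.NoetherianSpace U) :
    QuasiCompact f := by
  exact Groth.Agent.H7.quasiCompact_of_comp_of_locNoeth f g (fun x => ⟨_, (hX x).choose.2, (hX x).choose_spec⟩)
end Groth.Agent.S4361
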