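import Groth.Statements.S4362
import Mathlib

set_option autoImplicit false
universe u
open FinCond

namespace Groth.Agent.S4362



open AlgebraicGeometry in
open CategoryTheory in
/-- If X is a Noetherian scheme, every increasing sequence of quasi-coherent sheaves of ideals of the
structure sheaf is eventually constant; equivalently the ordered set of quasi-coherent ideal sheaves
of X is well-founded for the reverse order. (On a locally Noetherian scheme quasi-coherent and
coherent ideal sheaves coincide.) -/
theorem result
    (X : Scheme.{u}) [IsNoetherian X] : WellFoundedGT X.IdealSheafData := by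
  rw [wellFoundedGT_iff_monotone_chain_condition]
  intro a
  obtain ⟨t, ht⟩ := isCompact_univ.elim_finite_subcover (fun U : X.affineOpens => (U.1 : Set X)) (fun U => U.1.isOpen) (by
     intro x _
     have : x ∈ (⨆ U : X.affineOpens, (U : X.Opens)) := by rw [iSup_affineOpens_eq_top]; trivial
     rw [TopologicalSpace.Opens.mem_iSup] at this
     obtain ⟨U, hU⟩ := this
     exact Set.mem_iUnion.mpr ⟨U, hU⟩)
  have hst : ∀ U : X.affineOpens, ∃ n, ∀ m, n ≤ m → (a n).ideal U = (a m).ideal U := by
    intro U
    have : IsNoetherianRing Γ(X, U.1) := IsLocallyNoetherian.component_noetherian U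
    exact (monotone_stabilizes_iff_noetherian.mpr this) ⟨fun n => (a n).ideal U, fun i j h => a.monotone h U⟩
  choose N hN using hst
  refine ⟨t.sup N, fun m hm => ?_⟩
  refine Scheme.IdealSheafData.ext_of_iSup_eq_top (fun U : t => U.1) ?_ ?_
  · rw [eq_top_iff]
    intro x _
    obtain ⟨U, hU, hx⟩ := Set.mem_iUnion₂.mp (ht (Set.mem_univ x))
    exact (TopologicalSpace.Opens.mem_iSup).mpr ⟨⟨U, hU⟩, hx⟩
  · intro U
    rw [← hN U.1 _ (Finset.le_sup U.2), ← hN U.1 m ((Finset.le_sup U.2).trans hm)]
end Groth.Agent.S4362
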