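import Groth.Statements.S4364
import Mathlib

set_option autoImplicit false
universe u
open FinCond

namespace Groth.Agent.S4364



open AlgebraicGeometry in
open CategoryTheory in
/-- Let X and Y be S-schemes with Y locally of finite type over S, and let f, g : X -> Y be S-morphisms.
If f x = g x for some point x and the two induced homomorphisms of local rings O_{Y, f x} -> O_{X,
x} coincide, then f and g coincide on an open neighbourhood of x. No condition is imposed on X. (The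
published statement assumes Y of finite type over S; this row assumes Y only locally of finite type
over S, which is all the published proof uses.) -/
theorem result
    {X Y S : Scheme.{u}} (sX : X ⟶ S) (sY : Y ⟶ S) [LocallyOfFiniteType sY]
    (f g : X ⟶ Y) (hf : f ≫ sY = sX) (hg : g ≫ sY = sX) {x : X} (e : f x = g x)
    (H : f.stalkMap x =
      Y.presheaf.stalkSpecializes (Inseparable.of_eq e.symm).specializes ≫ g.stalkMap x) :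
    ∃ U : X.Opens, x ∈ U ∧ U.ι ≫ f = U.ι ≫ g := by
  obtain ⟨_, ⟨W : S.Opens, hW, rfl⟩, hxW, -⟩ :=
    S.isBasis_affineOpens.exists_subset_of_mem_open (Set.mem_univ (sY (f x))) isOpen_univ
  obtain ⟨_, ⟨V : Y.Opens, hV, rfl⟩, hxV, hVW⟩ :=
    Y.isBasis_affineOpens.exists_subset_of_mem_open (show f x ∈ sY ⁻¹ᵁ W from hxW) (sY ⁻¹ᵁ W).isOpen
  have hVW' : V ≤ sY ⁻¹ᵁ W := hVW
  have hxV' : g x ∈ V := e ▸ hxV
  have hft := sY.finiteType_appLE hW hV hVW'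
  have hgerm : ∀ b : Γ(Y, V), ∃ U : X.Opens, ∃ hU : U ≤ f ⁻¹ᵁ V ⊓ g ⁻¹ᵁ V, x ∈ U ∧ f.appLE V U (hU.trans inf_le_left) b = g.appLE V U (hU.trans inf_le_right) b := by
    intro b
    have h1 : X.presheaf.germ (f ⁻¹ᵁ V ⊓ g ⁻¹ᵁ V) x ⟨hxV, hxV'⟩ (f.appLE V _ inf_le_left b) = X.presheaf.germ (f ⁻¹ᵁ V ⊓ g ⁻¹ᵁ V) x ⟨hxV, hxV'⟩ (g.appLE V _ inf_le_right b) := by
      have : f.appLE V _ inf_le_left ≫ X.presheaf.germ (f ⁻¹ᵁ V ⊓ g ⁻¹ᵁ V) x ⟨hxV, hxV'⟩ = g.appLE V _ inf_le_right ≫ X.presheaf.germ (f ⁻¹ᵁ V ⊓ g ⁻¹ᵁ V) x ⟨hxV, hxV'⟩ := by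
        simp only [Scheme.Hom.appLE, Category.assoc, X.presheaf.germ_res', ← Scheme.Hom.germ_stalkMap, H]
        simp only [TopCat.Presheaf.germ_stalkSpecializes_assoc, Scheme.Hom.germ_stalkMap]
      exact congr($this b)
    obtain ⟨U, hxU, i1, i2, h2⟩ := X.presheaf.germ_eq x _ _ _ _ h1
    refine ⟨U, i1.le, hxU, ?_⟩
    have h3 : f.appLE V _ inf_le_left ≫ X.presheaf.map i1.op = f.appLE V U (i1.le.trans inf_le_left) := Scheme.Hom.appLE_map _ _ _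
    have h4 : g.appLE V _ inf_le_right ≫ X.presheaf.map i2.op = g.appLE V U (i2.le.trans inf_le_right) := Scheme.Hom.appLE_map _ _ _
    rw [← h3, ← h4]
    exact h2
  choose U hU hxU hUe using hgerm
  let _ := (sY.appLE W V hVW').hom.toAlgebra
  obtain ⟨s, hs⟩ := (show Algebra.FiniteType Γ(S, W) Γ(Y, V) from hft).out
  have Hx : x ∈ s.inf U ⊓ (f ⁻¹ᵁ V ⊓ g ⁻¹ᵁ V) := by
    rw [← SetLike.mem_coe, TopologicalSpace.Opens.coe_inf, TopologicalSpace.Opens.coe_finset_inf]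
    exact ⟨by simpa using fun b _ ↦ hxU b, (show x ∈ (f ⁻¹ᵁ V ⊓ g ⁻¹ᵁ V) from ⟨hxV, hxV'⟩)⟩
  have hUV : s.inf U ⊓ (f ⁻¹ᵁ V ⊓ g ⁻¹ᵁ V) ≤ f ⁻¹ᵁ V ⊓ g ⁻¹ᵁ V := inf_le_right
  have main : f.appLE V (s.inf U ⊓ (f ⁻¹ᵁ V ⊓ g ⁻¹ᵁ V)) (hUV.trans inf_le_left) =
      g.appLE V (s.inf U ⊓ (f ⁻¹ᵁ V ⊓ g ⁻¹ᵁ V)) (hUV.trans inf_le_right) := by
    have hA : sY.appLE W V hVW' ≫ f.appLE V (s.inf U ⊓ (f ⁻¹ᵁ V ⊓ g ⁻¹ᵁ V)) (hUV.trans inf_le_left) = sY.appLE W V hVW' ≫ 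
      g.appLE V (s.inf U ⊓ (f ⁻¹ᵁ V ⊓ g ⁻¹ᵁ V)) (hUV.trans inf_le_right) := by
      rw [Scheme.Hom.appLE_comp_appLE, Scheme.Hom.appLE_comp_appLE]
      congr 1
      rw [hf, hg]
    let _ := (sY.appLE W V hVW' ≫ f.appLE V (s.inf U ⊓ (f ⁻¹ᵁ V ⊓ g ⁻¹ᵁ V)) (hUV.trans inf_le_left)).hom.toAlgebra
    let F : Γ(Y, V) →ₐ[Γ(S, W)] Γ(X, s.inf U ⊓ (f ⁻¹ᵁ V ⊓ g ⁻¹ᵁ V)) := 
      { (f.appLE V (s.inf U ⊓ (f ⁻¹ᵁ V ⊓ g ⁻¹ᵁ V)) (hUV.trans inf_le_left)).hom with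
        commutes' := fun r => rfl }
    let G : Γ(Y, V) →ₐ[Γ(S, W)] Γ(X, s.inf U ⊓ (f ⁻¹ᵁ V ⊓ g ⁻¹ᵁ V)) := 
      { (g.appLE V (s.inf U ⊓ (f ⁻¹ᵁ V ⊓ g ⁻¹ᵁ V)) (hUV.trans inf_le_right)).hom with
        commutes' := fun r => (congr($hA r)).symm }
    have hFG : F = G := by
      refine AlgHom.ext_of_adjoin_eq_top hs ?_
      intro b hb
      have h3 : f.appLE V _ ((hU b).trans inf_le_left) ≫ X.presheaf.map (homOfLE ((inf_le_left : s.inf U ⊓ (f ⁻¹ᵁ V ⊓ g ⁻¹ᵁ V) ≤ _).trans (Finset.inf_le hb))).op = f.appLE V _ (hUV.trans inf_le_left) := Scheme.Hom.appLE_map _ _ _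
      have h4 : g.appLE V _ ((hU b).trans inf_le_right) ≫ X.presheaf.map (homOfLE ((inf_le_left : s.inf U ⊓ (f ⁻¹ᵁ V ⊓ g ⁻¹ᵁ V) ≤ _).trans (Finset.inf_le hb))).op = g.appLE V _ (hUV.trans inf_le_right) := Scheme.Hom.appLE_map _ _ _
      show f.appLE V _ (hUV.trans inf_le_left) b = g.appLE V _ (hUV.trans inf_le_right) b
      rw [← h3, ← h4]
      show X.presheaf.map _ (f.appLE V _ ((hU b).trans inf_le_left) b) = X.presheaf.map _ (g.appLE V _ ((hU b).trans inf_le_right) b)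
      rw [hUe b]
    ext b
    exact AlgHom.congr_fun hFG b
  refine ⟨s.inf U ⊓ (f ⁻¹ᵁ V ⊓ g ⁻¹ᵁ V), Hx, ?_⟩
  generalize s.inf U ⊓ (f ⁻¹ᵁ V ⊓ g ⁻¹ᵁ V) = U' at *
  rw [← Scheme.Hom.resLE_comp_ι _ (hUV.trans inf_le_left),
    ← Scheme.Hom.resLE_comp_ι _ (hUV.trans inf_le_right)]
  congr 1
  have : IsAffine V := hV
  suffices ∀ (U₀ V₀) (eU : U' = U₀) (eV : V = V₀),
      f.appLE V₀ U₀ (eU ▸ eV ▸ hUV.trans inf_le_left) =
        g.appLE V₀ U₀ (eU ▸ eV ▸ hUV.trans inf_le_right) by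
    rw [← cancel_mono V.toScheme.isoSpec.hom]
    simp only [Scheme.isoSpec, asIso_hom, Scheme.toSpecΓ_naturality,
      Scheme.Hom.app_eq_appLE, Scheme.Hom.resLE_appLE]
    congr 2
    apply this <;> simp
  rintro _ _ rfl rfl
  exact main
end Groth.Agent.S4364
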