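import Groth.Statements.S4366
import Groth.Agent.Lib.helper7_AG

set_option autoImplicit false
universe u
open SchMor

namespace Groth.Agent.S4366



open AlgebraicGeometry in
open CategoryTheory in
open CategoryTheory.Limits in
/-- Let f : X -> Y be a morphism, y a point of Y and Z = Spec O_{Y,y} the local scheme of Y at y with
its canonical morphism to Y. Then the projection p : X x_Y Z -> X induces isomorphisms on all local
rings: for every point t of X x_Y Z the homomorphism O_{X, p t} -> O_{X x_Y Z, t} is bijective. (The
published statement also asserts that p is a homeomorphism onto the preimage of Z; that part is not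
stated here.) -/
theorem result
    {X Y : Scheme.{u}} (f : X ⟶ Y) (y : Y) (t : ↑(pullback f (Y.fromSpecStalk y))) :
    IsIso ((pullback.fst f (Y.fromSpecStalk y)).stalkMap t) := by
  have := Groth.Agent.H7.flat_fromSpecStalk y
  have h1 : ((pullback.fst f (Y.fromSpecStalk y)).stalkMap t).hom.Flat := Flat.stalkMap _ _
  have h2 : Function.Surjective ((pullback.fst f (Y.fromSpecStalk y)).stalkMap t).hom := (pullback.fst f (Y.fromSpecStalk y)).stalkMap_surjective t
  rw [ConcreteCategory.isIso_iff_bijective]
  refine ⟨?_, h2⟩
  have h3 : ((pullback.fst f (Y.fromSpecStalk y)).stalkMap t).hom.FaithfullyFlat := by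
    algebraize [((pullback.fst f (Y.fromSpecStalk y)).stalkMap t).hom]
    have : IsLocalHom (algebraMap (X.presheaf.stalk ((pullback.fst f (Y.fromSpecStalk y)) t)) ((pullback f (Y.fromSpecStalk y)).presheaf.stalk t)) := by
      show IsLocalHom ((pullback.fst f (Y.fromSpecStalk y)).stalkMap t).hom
      infer_instance
    exact Module.FaithfullyFlat.of_flat_of_isLocalHom
  exact h3.injective
end Groth.Agent.S4366
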