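import Groth.Statements.S4367
import Groth.Agent.Lib.helper7_AG

set_option autoImplicit false
universe u
open RedSep

namespace Groth.Agent.S4367



open AlgebraicGeometry in
open CategoryTheory in
/-- Let X be a reduced scheme, f : X -> Y a morphism and j : Z -> Y a closed immersion (a closed
subscheme of Y) such that the image of f is contained, as a set, in the image of j. Then f factors
as a morphism X -> Z followed by j. -/
theorem result
    {X Y Z : Scheme.{u}} [IsReduced X] (f : X ⟶ Y) (j : Z ⟶ Y) [IsClosedImmersion j]
    (h : Set.range f ⊆ Set.range j) :
    ∃ g : X ⟶ Z, g ≫ j = f := by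
  exact Groth.Agent.H7.exists_lift_of_isReduced f j h
end Groth.Agent.S4367
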