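import Groth.Statements.S4368
import Groth.Agent.Lib.helper7_AG

set_option autoImplicit false
universe u
open RedSep

namespace Groth.Agent.S4368



open AlgebraicGeometry in
open CategoryTheory in
/-- Let X be a scheme and I a quasi-coherent sheaf of ideals of O_X whose support is all of X, so that
the closed subscheme it defines has underlying space X. Then that closed subscheme is reduced if and
only if I is the nilradical of O_X. In particular the closed subscheme defined by the nilradical is
the unique reduced closed subscheme of X with underlying space X (and, the support condition being
equivalent to I being contained in the nilradical, the smallest one). -/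
theorem result
    (X : Scheme.{u}) (I : X.IdealSheafData) (hI : I.support = ⊤) :
    IsReduced I.subscheme ↔ I = X.nilradical := by
  constructor
  · intro h
    apply le_antisymm
    · rw [← Scheme.IdealSheafData.vanishingIdeal_top, ← hI, Scheme.IdealSheafData.vanishingIdeal_support]
      exact Scheme.IdealSheafData.le_radical _
    · intro U s hs
      rw [← I.ker_subschemeι, Scheme.Hom.ker_apply, RingHom.mem_ker]
      obtain ⟨n, hn⟩ : ∃ n : ℕ, s ^ n = 0 := by
        simpa [Scheme.nilradical, Ideal.mem_radical_iff] using hs
      have : IsNilpotent ((I.subschemeι.app U).hom s) := ⟨n, by rw [← map_pow, hn, map_zero]⟩
      exact this.eq_zero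
  · rintro rfl
    exact Groth.Agent.H7.isReduced_subscheme_of_isRadical _ (fun U => by
      show (Ideal.radical _).IsRadical
      exact Ideal.radical_isRadical _)
end Groth.Agent.S4368
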