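import Groth.Statements.S4369
import Mathlib

set_option autoImplicit false
universe u
open AffSch

namespace Groth.Agent.S4369



/-- Let φ : A' -> A be a ring homomorphism such that every f in A can be written f = h φ(f') with h
invertible in A (this holds in particular when φ is surjective). Then the associated continuous map
Spec A -> Spec A' is a homeomorphism onto its image. -/
theorem result
    {A' A : Type u} [CommRing A'] [CommRing A] (φ : A' →+* A)
    (h : ∀ f : A, ∃ (u : Aˣ) (f' : A'), f = (u : A) * φ f') :
    Topology.IsEmbedding (PrimeSpectrum.comap φ) := by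
  refine ⟨⟨le_antisymm (continuous_iff_le_induced.mp (PrimeSpectrum.continuous_comap φ)) ?_⟩, ?_⟩
  · rw [(PrimeSpectrum.isTopologicalBasis_basic_opens (R := A)).eq_generateFrom]
    apply le_generateFrom
    rintro _ ⟨f, rfl⟩
    obtain ⟨u, f', rfl⟩ := h f
    refine ⟨PrimeSpectrum.basicOpen f', (PrimeSpectrum.basicOpen f').2, ?_⟩
    ext x
    simp [PrimeSpectrum.mem_basicOpen, Ideal.unit_mul_mem_iff_mem _ u.isUnit]
  · intro p q hpq
    ext x
    obtain ⟨u, x', rfl⟩ := h x
    rw [Ideal.unit_mul_mem_iff_mem _ u.isUnit, Ideal.unit_mul_mem_iff_mem _ u.isUnit]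
    have := congrArg (fun r => x' ∈ r.asIdeal) hpq
    simpa using this
end Groth.Agent.S4369
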