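import Groth.Statements.S4370
import Groth.Agent.Lib.helper7_AG

set_option autoImplicit false
universe u
open RedSep

namespace Groth.Agent.S4370



open AlgebraicGeometry in
open CategoryTheory in
/-- Let f : X -> Y be an open immersion and let g : X_red -> Y_red be the morphism of reduced schemes
induced by f, i.e. the morphism between the closed subschemes defined by the nilradicals whose
composite with the inclusion of Y_red in Y is the inclusion of X_red in X followed by f. Then g is
an open immersion. -/
theorem result
    {X Y : Scheme.{u}} (f : X ⟶ Y) [IsOpenImmersion f]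
    (g : X.nilradical.subscheme ⟶ Y.nilradical.subscheme)
    (hg : g ≫ Y.nilradical.subschemeι = X.nilradical.subschemeι ≫ f) :
    IsOpenImmersion g := by
  have hpb : IsPullback X.nilradical.subschemeι g f Y.nilradical.subschemeι := by
    refine isPullback_of_isClosedImmersion _ _ _ _ hg.symm ?_
    rw [Scheme.IdealSheafData.ker_subschemeι, Scheme.IdealSheafData.ker_subschemeι]
    ext U : 2
    rw [Scheme.IdealSheafData.ideal_comap_of_isOpenImmersion]
    ext s
    have h1 : ∀ (Z : Scheme.{u}) (V : Z.affineOpens) (s : Γ(Z, V)), s ∈ Z.nilradical.ideal V ↔ IsNilpotent s := by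
      intro Z V s
      simp [Scheme.nilradical, Ideal.mem_radical_iff, IsNilpotent]
    rw [Ideal.mem_comap, h1, h1]
    exact IsNilpotent.map_iff (ConcreteCategory.bijective_of_isIso (f.appIso U).inv).1
  exact MorphismProperty.of_isPullback (P := @IsOpenImmersion) hpb inferInstance
end Groth.Agent.S4370
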