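import Groth.Statements.S4372
import Groth.Agent.Lib.helper7_AG

set_option autoImplicit false
universe u
open RedSep

namespace Groth.Agent.S4372



open AlgebraicGeometry in
open CategoryTheory in
/-- Let h : Z -> X be an immersion with Z reduced (a reduced subscheme of X), and let W be the reduced
closed subscheme of X whose underlying space is the closure of h(Z). Then Z is an open subscheme of
W: h factors as an open immersion Z -> W followed by the closed immersion W -> X. Stated as the
existence of such a factorization through a reduced scheme W closed-immersed onto the closure of the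
image. -/
theorem result
    {Z X : Scheme.{u}} (h : Z ⟶ X) [IsImmersion h] [IsReduced Z] :
    ∃ (W : Scheme.{u}) (j : Z ⟶ W) (i : W ⟶ X), IsOpenImmersion j ∧ IsClosedImmersion i ∧
      IsReduced W ∧ Set.range i = closure (Set.range h) ∧ j ≫ i = h := by
  let I := Scheme.IdealSheafData.vanishingIdeal (X := X) ⟨closure (Set.range h), isClosed_closure⟩
  have hr : Set.range I.subschemeι = closure (Set.range h) := by
    rw [Scheme.IdealSheafData.range_subschemeι]
    simp [I]
  have hred : IsReduced I.subscheme := Groth.Agent.H7.isReduced_subscheme_of_isRadical _ (fun U => by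
      show (PrimeSpectrum.vanishingIdeal _).IsRadical
      exact PrimeSpectrum.isRadical_vanishingIdeal _)
  obtain ⟨j, hj⟩ := Groth.Agent.H7.exists_lift_of_isReduced h I.subschemeι (by rw [hr]; exact subset_closure)
  have : IsImmersion (j ≫ I.subschemeι) := by rw [hj]; infer_instance
  have hji : IsImmersion j := IsImmersion.of_comp j I.subschemeι
  refine ⟨I.subscheme, j, I.subschemeι, ?_, inferInstance, hred, hr, hj⟩
  -- j dominant
  have hd : DenseRange j := by
    intro w
    have h1 : I.subschemeι w ∈ closure (Set.range h) := by rw [← hr]; exact ⟨w, rfl⟩
    rw [← hj, Scheme.Hom.comp_base, TopCat.coe_comp, Set.range_comp] at h1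
    rw [I.subschemeι.isEmbedding.isInducing.closure_eq_preimage_closure_image]
    exact h1
  have hsurj : Surjective j.liftCoborder := by
    constructor
    intro w
    have hw : (j.coborderRange.ι w) ∈ coborder (Set.range j) := w.2
    have : Set.range j = coborder (Set.range j) := by
      rw [coborder, hd.closure_range, ← Set.compl_eq_univ_diff, compl_compl]
    rw [← this] at hw
    obtain ⟨z, hz⟩ := hw
    refine ⟨z, ?_⟩
    apply j.coborderRange.ι.isEmbedding.injective
    rw [← hz, ← Scheme.Hom.comp_apply, Scheme.Hom.liftCoborder_ι]
  have : IsIso j.liftCoborder := isIso_of_isClosedImmersion_of_surjective _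
  rw [← Scheme.Hom.liftCoborder_ι j]
  infer_instance
end Groth.Agent.S4372
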