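import Groth.Statements.S4394
import Groth.Agent.Lib.helper7_Graded

set_option autoImplicit false
universe u
open EGA2

namespace Groth.Agent.S4394



/-- Let S be a ring graded in nonnegative degrees which is an S_0-algebra of finite type. Then for every
integer n > 0 there is m₀ such that S_m ⊆ (S_+)^n for all m ≥ m₀. -/
theorem result {R A : Type u} [CommRing R] [CommRing A] [Algebra R A] (𝒜 : ℕ → Submodule R A) [GradedAlgebra 𝒜] [Algebra.FiniteType (𝒜 0) A]
    (n : ℕ) (hn : 0 < n) :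
    ∃ m₀ : ℕ, ∀ m : ℕ, m₀ ≤ m → (𝒜 m : Set A) ⊆ ((HomogeneousIdeal.irrelevant 𝒜).toIdeal ^ n : Ideal A) := by
  classical
  obtain ⟨s, hs, hs'⟩ := GradedAlgebra.exists_finset_adjoin_eq_top_and_homogeneous_ne_zero 𝒜
  have hE : ∀ e ∈ (s : Set A), ∃ d : ℕ, 0 < d ∧ e ∈ 𝒜 d := fun e he => by
      obtain ⟨n, hn, h⟩ := hs' e he
      exact ⟨n, Nat.pos_of_ne_zero hn, h⟩
  have hirr := Groth.Agent.H7.irrelevant_eq_of_adjoin_eq_top 𝒜 s hE hs
  -- bound on degrees of nonzero elements
  obtain ⟨D, hD⟩ : ∃ D : ℕ, ∀ e ∈ s, e ≠ 0 → ∀ d, e ∈ 𝒜 d → d ≤ D := by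
    choose! dg hdg using hs'
    refine ⟨s.sup dg, fun e he he0 d hd => ?_⟩
    have : d = dg e := DirectSum.degree_eq_of_mem_mem 𝒜 hd (hdg e he).2 he0
    rw [this]
    exact Finset.le_sup he
  refine ⟨n * D + 1, ?_⟩
  intro m hm
  have key : ∀ n m : ℕ, n * D + 1 ≤ m → ∀ a ∈ 𝒜 m, a ∈ (HomogeneousIdeal.irrelevant 𝒜).toIdeal ^ n := by
    intro n
    induction n with
    | zero => intro m _ a _; simp
    | succ n ih =>
      intro m hm a ha
      have ha' : a ∈ Ideal.span (s : Set A) := by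
        rw [← hirr]
        exact HomogeneousIdeal.mem_irrelevant_of_mem 𝒜 (by omega) ha
      have := Groth.Agent.H7.component_mem_of_mem_span 𝒜 s hE m ((HomogeneousIdeal.irrelevant 𝒜).toIdeal ^ (n+1)).toAddSubmonoid ?_ a ha'
      · rwa [DirectSum.decompose_of_mem_same _ ha] at this
      · intro e he d hd hed hdm r hr
        by_cases he0 : e = 0
        · rw [he0, mul_zero]; exact AddSubmonoid.zero_mem _
        have hdD := hD e he he0 d hed
        have h1 := ih (m - d) (by rw [Nat.succ_mul] at hm; omega) r hr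
        show r * e ∈ (HomogeneousIdeal.irrelevant 𝒜).toIdeal ^ (n+1)
        rw [pow_succ]
        exact Ideal.mul_mem_mul h1 (HomogeneousIdeal.mem_irrelevant_of_mem 𝒜 hd hed)
  intro a ha
  exact key n m hm a ha
end Groth.Agent.S4394
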