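import Groth.Statements.S4397
import Groth.Agent.Lib.helper7_Graded

set_option autoImplicit false
universe u
open AlgebraicGeometry
open EGA2

namespace Groth.Agent.S4397



/-- Let S be a ring graded in nonnegative degrees which is Noetherian, and f a homogeneous element of
positive degree d. Then the ring S_(f) of degree-zero fractions with denominator a power of f is
Noetherian. -/
theorem result {R A : Type u} [CommRing R] [CommRing A] [Algebra R A] (𝒜 : ℕ → Submodule R A) [GradedAlgebra 𝒜] [IsNoetherianRing A]
    {d : ℕ} (hd : 0 < d) (f : A) (hf : f ∈ 𝒜 d) :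
    IsNoetherianRing (HomogeneousLocalization.Away 𝒜 f) := by
  obtain ⟨h1, h2⟩ := (Groth.Agent.H7.noetherian_iff 𝒜).mp inferInstance
  have := HomogeneousLocalization.Away.finiteType (𝒜 := 𝒜) f d hf
  exact Algebra.FiniteType.isNoetherianRing (𝒜 0) _
end Groth.Agent.S4397
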