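import Groth.Statements.S4404
import Groth.Agent.Lib.helper7_Graded

set_option autoImplicit false
universe u
open EGA2

namespace Groth.Agent.S4404



/-- (a) ⇔ (b): let S be a ring graded in nonnegative degrees and E a subset of the irrelevant ideal S_+.
Then V_+(E) is the whole of Proj S if and only if every element of E is nilpotent. -/
theorem result {R A : Type u} [CommRing R] [CommRing A] [Algebra R A] (𝒜 : ℕ → Submodule R A) [GradedAlgebra 𝒜]
    (E : Set A) (hE : E ⊆ (HomogeneousIdeal.irrelevant 𝒜).toIdeal) :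
    ProjectiveSpectrum.zeroLocus 𝒜 E = Set.univ ↔ ∀ e ∈ E, IsNilpotent e := by
  constructor
  · intro h e he
    rw [← mem_nilradical, nilradical_eq_sInf, Ideal.mem_sInf]
    intro p hp
    have hp' : p.IsPrime := hp
    have hc := Groth.Agent.H7.homogeneousCore_isPrime 𝒜 p
    have hle : (p.homogeneousCore 𝒜).toIdeal ≤ p := Ideal.toIdeal_homogeneousCore_le 𝒜 p
    by_cases hirr : HomogeneousIdeal.irrelevant 𝒜 ≤ p.homogeneousCore 𝒜
    · exact hle (hirr (hE he))
    · let x : ProjectiveSpectrum 𝒜 := ⟨p.homogeneousCore 𝒜, hc, hirr⟩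
      have : x ∈ ProjectiveSpectrum.zeroLocus 𝒜 E := by rw [h]; trivial
      exact hle (this he)
  · intro h
    rw [Set.eq_univ_iff_forall]
    intro x e he
    obtain ⟨n, hn⟩ := h e he
    exact x.isPrime.mem_of_pow_mem n (by rw [hn]; exact Ideal.zero_mem _)
end Groth.Agent.S4404
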