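import Groth.Statements.S4405
import Groth.Agent.Lib.helper7_Graded

set_option autoImplicit false
universe u
open EGA2

namespace Groth.Agent.S4405



/-- Let S be a ring graded in nonnegative degrees and E any subset of the irrelevant ideal S_+. Then the
intersection of S_+ with the vanishing ideal of the closed subset V_+(E) of Proj S equals the
intersection of S_+ with the radical of the graded ideal generated by E (the smallest homogeneous
ideal containing E). -/
theorem result {R A : Type u} [CommRing R] [CommRing A] [Algebra R A] (𝒜 : ℕ → Submodule R A) [GradedAlgebra 𝒜]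
    (E : Set A) (hE : E ⊆ (HomogeneousIdeal.irrelevant 𝒜).toIdeal) :
    (HomogeneousIdeal.irrelevant 𝒜).toIdeal ⊓
        (ProjectiveSpectrum.vanishingIdeal (ProjectiveSpectrum.zeroLocus 𝒜 E)).toIdeal =
      (HomogeneousIdeal.irrelevant 𝒜).toIdeal ⊓ (Ideal.homogeneousHull 𝒜 (Ideal.span E)).toIdeal.radical := by
  ext a
  simp only [Ideal.mem_inf]
  refine and_congr_right fun ha => ?_
  constructor
  · intro h
    rw [Ideal.radical_eq_sInf, Ideal.mem_sInf]
    rintro p ⟨hp, hp'⟩
    have hc := Groth.Agent.H7.homogeneousCore_isPrime 𝒜 p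
    have hle : (p.homogeneousCore 𝒜).toIdeal ≤ p := Ideal.toIdeal_homogeneousCore_le 𝒜 p
    by_cases hirr : HomogeneousIdeal.irrelevant 𝒜 ≤ p.homogeneousCore 𝒜
    · exact hle (hirr ha)
    · let x : ProjectiveSpectrum 𝒜 := ⟨p.homogeneousCore 𝒜, hc, hirr⟩
      have hx : x ∈ ProjectiveSpectrum.zeroLocus 𝒜 E := by
        intro e he
        have h1 : Ideal.homogeneousHull 𝒜 (Ideal.span E) ≤ p.homogeneousCore 𝒜 := by
          have := (Ideal.homogeneousCore.gc 𝒜 (Ideal.homogeneousHull 𝒜 (Ideal.span E)) p).mp hp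
          exact this
        exact h1 (Ideal.le_toIdeal_homogeneousHull 𝒜 _ (Ideal.subset_span he))
      exact hle ((ProjectiveSpectrum.mem_vanishingIdeal _ a).mp h x hx)
  · rintro ⟨n, hn⟩
    rw [HomogeneousIdeal.mem_iff] at *
    refine (ProjectiveSpectrum.mem_vanishingIdeal _ a).mpr fun x hx => ?_
    have h1 : Ideal.homogeneousHull 𝒜 (Ideal.span E) ≤ x.asHomogeneousIdeal := by
      rw [Ideal.homogeneousHull.gc 𝒜]
      rw [Ideal.span_le]
      exact hx
    exact x.isPrime.mem_of_pow_mem n (h1 hn)
end Groth.Agent.S4405
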