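import Groth.Statements.S4429
import Mathlib

set_option autoImplicit false
universe u
open EGA2

namespace Groth.Agent.S4429

theorem charpoly_dvd_pow_aux {K V : Type u} (L : Type u) [Field K] [AddCommGroup V] [Module K V] [Module.Finite K V]
    [Field L] [Algebra K L] [IsAlgClosed L]
    (u : V →ₗ[K] V) (p : Polynomial K) (hp : Polynomial.aeval u p = 0) : 
    u.charpoly.map (algebraMap K L) ∣ (p.map (algebraMap K L)) ^ (u.charpoly.map (algebraMap K L)).roots.card := by
  have hs : (u.charpoly.map (algebraMap K L)).Splits := IsAlgClosed.splits _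
  have h0 : ((u.charpoly.map (algebraMap K L)).roots.map (fun a => Polynomial.X - Polynomial.C a)).prod ∣
      ((u.charpoly.map (algebraMap K L)).roots.map (fun _ => p.map (algebraMap K L))).prod := by
    refine Multiset.prod_dvd_prod_of_dvd _ _ ?_
    intro a ha
    rw [Polynomial.dvd_iff_isRoot]
    have h1 : (u.charpoly.map (algebraMap K L)).IsRoot a := Polynomial.isRoot_of_mem_roots ha
    rw [← LinearMap.charpoly_baseChange, ← Module.End.hasEigenvalue_iff_isRoot_charpoly] at h1
    obtain ⟨v, hv⟩ := h1.exists_hasEigenvector
    have h2 := Module.End.aeval_apply_of_hasEigenvector (p := p.map (algebraMap K L)) hv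
    have h3 : Polynomial.aeval (u.baseChange L) (p.map (algebraMap K L)) = 0 := by
      rw [Polynomial.aeval_map_algebraMap]
      show Polynomial.aeval (Module.End.baseChangeHom K L V u) p = 0
      rw [Polynomial.aeval_algHom_apply, hp, map_zero]
    rw [h3, LinearMap.zero_apply] at h2
    exact (smul_eq_zero.mp h2.symm).resolve_right hv.2
  rw [← hs.eq_prod_roots_of_monic (u.charpoly_monic.map _), Multiset.map_const', Multiset.prod_replicate] at h0
  exact h0

theorem charpoly_dvd_pow {K V : Type u} [Field K] [AddCommGroup V] [Module K V] [Module.Finite K V]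
    (u : V →ₗ[K] V) (p : Polynomial K) (hp : Polynomial.aeval u p = 0) : ∃ n, u.charpoly ∣ p ^ n := by
  have h := charpoly_dvd_pow_aux (AlgebraicClosure K) u p hp
  rw [← Polynomial.map_pow, Polynomial.map_dvd_map'] at h
  exact ⟨_, h⟩


/-- For an integral domain A with fraction field K, a finitely generated A-module E and an endomorphism
u of E, the coefficients of the characteristic polynomial of u ⊗ 1 acting on the K-vector space K
⊗_A E (the elementary symmetric functions of u, among them its trace and determinant) are integral
over A. -/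
theorem result (A : Type u) [CommRing A] [IsDomain A] (K : Type u) [Field K]
    [Algebra A K] [IsFractionRing A K] (E : Type u) [AddCommGroup E] [Module A E] [Module.Finite A E]
    (u : E →ₗ[A] E) (i : ℕ) :
    IsIntegral A (((u.baseChange K).charpoly).coeff i) := by
  obtain ⟨p, hp, hpu⟩ := LinearMap.exists_monic_and_aeval_eq_zero A u
  have h1 : Polynomial.aeval (u.baseChange K) (p.map (algebraMap A K)) = 0 := by
    have h2 : Polynomial.aeval (Module.End.baseChangeHom A K E u) p = 0 := by
      rw [Polynomial.aeval_algHom_apply, hpu, map_zero]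
    rw [Polynomial.aeval_map_algebraMap]
    exact h2
  obtain ⟨n, hn⟩ := charpoly_dvd_pow _ _ h1
  rw [← Polynomial.map_pow] at hn
  exact Polynomial.isIntegral_coeff_of_dvd _ _ (hp.pow n) (LinearMap.charpoly_monic _) hn _
end Groth.Agent.S4429
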