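import Groth.Statements.S4430
import Groth.Agent.S4429

set_option autoImplicit false
universe u
open EGA2

namespace Groth.Agent.S4430

/-- if `d⁻¹ ∈ A` and `d` is integral over `A`, then `d ∈ A`. -/
theorem inv_inv_mem {A K : Type u} [CommRing A] [Field K] [Algebra A K] (a : A) (d : K)
    (hd : d⁻¹ = algebraMap A K a) (hint : IsIntegral A d) : d ∈ (⊥ : Subalgebra A K) := by
  by_cases h0 : d = 0
  · rw [h0]; exact zero_mem _
  obtain ⟨p, hp, hpd⟩ := hint
  rw [← Polynomial.aeval_def] at hpd
  have hda : algebraMap A K a * d = 1 := by rw [← hd]; exact inv_mul_cancel₀ h0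
  rcases Nat.eq_zero_or_pos p.natDegree with hn | hn
  · rw [hp.natDegree_eq_zero.mp hn] at hpd
    simp at hpd
  · have h1 : d ^ p.natDegree = - ∑ i ∈ Finset.range p.natDegree, algebraMap A K (p.coeff i) * d ^ i := by
      rw [Polynomial.aeval_eq_sum_range, Finset.sum_range_succ, hp.coeff_natDegree, one_smul] at hpd
      rw [eq_neg_iff_add_eq_zero, add_comm]
      rw [← hpd]
      congr 1
      refine Finset.sum_congr rfl fun i _ => ?_
      rw [Algebra.smul_def]
    have h2 : d = (algebraMap A K a) ^ (p.natDegree - 1) * d ^ p.natDegree := by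
      conv_rhs => rw [show p.natDegree = (p.natDegree - 1) + 1 by omega, pow_succ d, Nat.add_sub_cancel, ← mul_assoc, ← mul_pow, hda, one_pow, one_mul]
    rw [h2, h1, mul_neg, Finset.mul_sum]
    refine neg_mem (Subalgebra.sum_mem _ fun i hi => ?_)
    have hi' : i ≤ p.natDegree - 1 := by have := Finset.mem_range.mp hi; omega
    refine Algebra.mem_bot.mpr ⟨a ^ (p.natDegree - 1 - i) * p.coeff i, ?_⟩
    have h3 : (algebraMap A K a) ^ (p.natDegree - 1) = (algebraMap A K a) ^ (p.natDegree - 1 - i) * (algebraMap A K a) ^ i := by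
      rw [← pow_add, Nat.sub_add_cancel hi']
    rw [h3, map_mul, map_pow]
    have h4 : (algebraMap A K a) ^ i * d ^ i = 1 := by rw [← mul_pow, hda, one_pow]
    calc _ = (algebraMap A K a) ^ (p.natDegree - 1 - i) * (algebraMap A K (p.coeff i)) * ((algebraMap A K a) ^ i * d ^ i) := by rw [h4, mul_one]
      _ = _ := by ring


/-- Let A be an integral domain with fraction field K, E a finitely generated A-module and u an
endomorphism of E whose characteristic-polynomial coefficients (those of u ⊗ 1 on K ⊗_A E) all lie
in A. If u is an automorphism of E, then its determinant, as an element of A, is invertible in A. -/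
theorem result (A : Type u) [CommRing A] [IsDomain A] (K : Type u) [Field K]
    [Algebra A K] [IsFractionRing A K] (E : Type u) [AddCommGroup E] [Module A E] [Module.Finite A E]
    (u : E →ₗ[A] E) (hcoeff : ∀ i : ℕ, ((u.baseChange K).charpoly).coeff i ∈ (algebraMap A K).range)
    (a : A) (ha : algebraMap A K a = LinearMap.det (u.baseChange K)) (hu : Function.Bijective u) :
    IsUnit a := by
  let w : E →ₗ[A] E := (LinearEquiv.ofBijective u hu).symm.toLinearMap
  have h1 : (w.baseChange K) * (u.baseChange K) = 1 := by
    rw [Module.End.mul_eq_comp, ← LinearMap.baseChange_comp]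
    have : w ∘ₗ u = LinearMap.id := by
      ext x; exact (LinearEquiv.ofBijective u hu).symm_apply_apply x
    rw [this, LinearMap.baseChange_id]; rfl
  have h2 : LinearMap.det (w.baseChange K) * LinearMap.det (u.baseChange K) = 1 := by
    rw [← map_mul, h1, map_one]
  have h3 : IsIntegral A (LinearMap.det (w.baseChange K)) := by
    rw [LinearMap.det_eq_sign_charpoly_coeff]
    exact IsIntegral.mul ((isIntegral_one.neg).pow _) (Groth.Agent.S4429.result A K E w 0)
  have h4 : LinearMap.det (w.baseChange K) ≠ 0 := left_ne_zero_of_mul_eq_one h2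
  have h5 : (LinearMap.det (w.baseChange K))⁻¹ = algebraMap A K a := by
    rw [ha]; exact inv_eq_of_mul_eq_one_right h2
  -- det w integral, so det w ∈ A[(det w)⁻¹] = A
  have h6 : LinearMap.det (w.baseChange K) ∈ (⊥ : Subalgebra A K) := by
    have h8 := (LinearMap.det (w.baseChange K))
    have h9 : IsIntegral A (LinearMap.det (w.baseChange K)) := h3
    have h7 := inv_inv_mem a _ h5 h9
    exact h7
  obtain ⟨b, hb⟩ := Algebra.mem_bot.mp h6
  refine IsUnit.of_mul_eq_one b ?_
  apply IsFractionRing.injective A K
  rw [map_mul, hb, ha, mul_comm, h2, map_one]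
end Groth.Agent.S4430
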