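import Groth.Statements.S4431
import Mathlib

set_option autoImplicit false
universe u
open EGA2

namespace Groth.Agent.S4431

open TensorProduct


/-- Let A be an integral domain with fraction field K, E a finitely generated torsion-free A-module and
u an endomorphism of E whose characteristic-polynomial coefficients (those of u ⊗ 1 on K ⊗_A E) all
lie in A. If the determinant of u is the image of a unit of A, then u is an automorphism of E. -/
theorem result (A : Type u) [CommRing A] [IsDomain A] (K : Type u) [Field K]
    [Algebra A K] [IsFractionRing A K] (E : Type u) [AddCommGroup E] [Module A E] [Module.Finite A E]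
    [Module.IsTorsionFree A E]
    (u : E →ₗ[A] E) (hcoeff : ∀ i : ℕ, ((u.baseChange K).charpoly).coeff i ∈ (algebraMap A K).range)
    (a : A) (ha : algebraMap A K a = LinearMap.det (u.baseChange K)) (hunit : IsUnit a) :
    Function.Bijective u := by
  have hinj : ∀ e : E, (TensorProduct.mk A K E 1) e = 0 → e = 0 := by
    intro e he
    rw [IsLocalizedModule.eq_zero_iff (nonZeroDivisors A)] at he
    obtain ⟨c, hc⟩ := he
    exact (smul_eq_zero.mp hc).resolve_left (nonZeroDivisors.ne_zero c.2)
  obtain ⟨χ, hχ⟩ := (Polynomial.mem_lifts _).mp ((Polynomial.lifts_iff_coeff_lifts (f := algebraMap A K) (u.baseChange K).charpoly).mpr (fun n => by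
    obtain ⟨b, hb⟩ := hcoeff n
    exact ⟨b, hb⟩))
  have hz : ∀ e : E, Polynomial.aeval u χ e = 0 := by
    intro e
    apply hinj
    have h1 : Polynomial.aeval (Module.End.baseChangeHom A K E u) χ = 0 := by
      have h2 := LinearMap.aeval_self_charpoly (u.baseChange K)
      rw [← hχ, Polynomial.aeval_map_algebraMap] at h2
      exact h2
    rw [Polynomial.aeval_algHom_apply] at h1
    have h3 := LinearMap.congr_fun h1 ((1 : K) ⊗ₜ[A] e)
    exact h3
  have hdet := LinearMap.det_eq_sign_charpoly_coeff (u.baseChange K)
  have hc0 : IsUnit (χ.coeff 0) := by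
    have h1 : algebraMap A K (χ.coeff 0) = (u.baseChange K).charpoly.coeff 0 := by
      rw [← hχ, Polynomial.coeff_map]
    rw [← h1, ← ha] at hdet
    have h2 : a = (-1) ^ (Module.finrank K (K ⊗[A] E)) * χ.coeff 0 := by
      apply IsFractionRing.injective A K
      rw [hdet, map_mul, map_pow, map_neg, map_one]
    rw [h2] at hunit
    exact isUnit_of_mul_isUnit_right hunit
  have hdec : ∀ e : E, u (Polynomial.aeval u χ.divX e) + χ.coeff 0 • e = 0 := by
    intro e
    have h2 : Polynomial.aeval u χ = u * Polynomial.aeval u χ.divX + algebraMap A (Module.End A E) (χ.coeff 0) := by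
      conv_lhs => rw [← Polynomial.X_mul_divX_add χ]
      rw [map_add, map_mul, Polynomial.aeval_X, Polynomial.aeval_C]
    have h1 := hz e
    rw [h2] at h1
    exact h1
  have hdec' : ∀ e : E, (Polynomial.aeval u χ.divX (u e)) + χ.coeff 0 • e = 0 := by
    intro e
    have h2 : Polynomial.aeval u χ = Polynomial.aeval u χ.divX * u + algebraMap A (Module.End A E) (χ.coeff 0) := by
      conv_lhs => rw [← Polynomial.divX_mul_X_add χ]
      rw [map_add, map_mul, Polynomial.aeval_X, Polynomial.aeval_C]
    have h1 := hz e
    rw [h2] at h1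
    exact h1
  obtain ⟨v, hv⟩ := hc0
  constructor
  · rw [injective_iff_map_eq_zero]
    intro e he
    have := hdec' e
    rw [he, map_zero, zero_add, ← hv] at this
    have h5 := congrArg (fun z => (↑v⁻¹ : A) • z) this
    simpa [smul_smul] using h5
  · intro e
    refine ⟨Polynomial.aeval u χ.divX (-((↑v⁻¹ : A) • e)), ?_⟩
    have := hdec (-((↑v⁻¹ : A) • e))
    rw [smul_neg, smul_smul, ← hv, Units.mul_inv, one_smul, add_neg_eq_zero] at this
    exact this
end Groth.Agent.S4431
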