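import Groth.Statements.S4447
import Mathlib

set_option autoImplicit false
universe u
open CategoryTheory CategoryTheory.Limits AlgebraicGeometry
open EGA2

namespace Groth.Agent.S4447



/-- Let p : X ⟶ Y be a morphism, x a point of X, y = p(x) and y' a specialization of y distinct from y.
Then there are a valuation ring A which is not a field, with field of fractions the residue field
k(x), and a morphism Spec A ⟶ Y mapping the closed point to y' and restricting on Spec k(x) to the
canonical morphism Spec k(x) ⟶ X ⟶ Y (in particular the generic point of Spec A goes to y). -/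
theorem result {X Y : Scheme.{u}} (p : X ⟶ Y) (x : X) (y' : Y)
    (hsp : p.base x ⤳ y') (hne : y' ≠ p.base x) :
    ∃ (A : ValuationSubring (X.residueField x)) (h : Spec (CommRingCat.of A) ⟶ Y), A ≠ ⊤ ∧
      h.base (IsLocalRing.closedPoint A) = y' ∧
      Spec.map (CommRingCat.ofHom A.subtype) ≫ h = X.fromSpecResidueField x ≫ p := by
  let φ : Y.presheaf.stalk y' ⟶ X.residueField x := Y.presheaf.stalkSpecializes hsp ≫ p.stalkMap x ≫ X.residue x
  obtain ⟨V, hV, hloc⟩ := IsLocalRing.exists_factor_valuationRing φ.hom
  let ψ : Y.presheaf.stalk y' →+* V := φ.hom.codRestrict V.toSubring hV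
  have h3 : Spec.map (CommRingCat.ofHom V.subtype) ≫ (Spec.map (CommRingCat.ofHom ψ) ≫ Y.fromSpecStalk y') = X.fromSpecResidueField x ≫ p := by
    rw [← Category.assoc, ← Spec.map_comp]
    have h4 : CommRingCat.ofHom ψ ≫ CommRingCat.ofHom V.subtype = φ := by
      ext a; rfl
    rw [h4]
    simp only [φ, Spec.map_comp, Category.assoc]
    rw [Scheme.SpecMap_stalkSpecializes_fromSpecStalk, Scheme.SpecMap_stalkMap_fromSpecStalk]
    rfl
  have h2 : (Spec.map (CommRingCat.ofHom ψ) ≫ Y.fromSpecStalk y').base (IsLocalRing.closedPoint V) = y' := by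
    have : IsLocalHom ψ := hloc
    have h5 : (Spec.map (CommRingCat.ofHom ψ)).base (IsLocalRing.closedPoint V) = IsLocalRing.closedPoint (Y.presheaf.stalk y') :=
      IsLocalRing.comap_closedPoint ψ
    show (Y.fromSpecStalk y').base ((Spec.map (CommRingCat.ofHom ψ)).base (IsLocalRing.closedPoint V)) = y'
    rw [h5]
    exact Scheme.fromSpecStalk_closedPoint
  refine ⟨V, Spec.map (CommRingCat.ofHom ψ) ≫ Y.fromSpecStalk y', ?_, h2, h3⟩
  rintro rfl
  apply hne
  have h7 : IsLocalHom (⊤ : ValuationSubring (X.residueField x)).subtype := by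
    constructor
    intro a ha
    have ha0 : (a : X.residueField x) ≠ 0 := ha.ne_zero
    exact IsUnit.of_mul_eq_one ⟨(a : X.residueField x)⁻¹, trivial⟩ (Subtype.ext (mul_inv_cancel₀ ha0))
  have h8 : (Spec.map (CommRingCat.ofHom (⊤ : ValuationSubring (X.residueField x)).subtype)).base (IsLocalRing.closedPoint (X.residueField x)) = IsLocalRing.closedPoint _ :=
    IsLocalRing.comap_closedPoint _
  rw [← h2, ← h8]
  have h9 := congr(($h3).base (IsLocalRing.closedPoint (X.residueField x)))
  have h10 : (X.fromSpecResidueField x ≫ p).base (IsLocalRing.closedPoint (X.residueField x)) = p.base x := by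
    show p.base ((X.fromSpecResidueField x).base (IsLocalRing.closedPoint (X.residueField x))) = p.base x
    rw [show (X.fromSpecResidueField x).base (IsLocalRing.closedPoint (X.residueField x)) = x from Scheme.fromSpecResidueField_apply _ _]
  rw [h10] at h9
  exact h9
end Groth.Agent.S4447
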