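import Groth.Statements.S4459
import Mathlib

set_option autoImplicit false
universe u
open Coherent

namespace Groth.Agent.S4459



open AlgebraicGeometry CategoryTheory in
/-- Let A be a Noetherian ring which is separated and complete for the J-adic topology, and let f : X →
Spec A be a morphism of schemes which is a closed map on underlying spaces. Then every open subset
of X containing the inverse image of V(J) is all of X. (The published statement also assumes X of
finite type over A; that hypothesis is not used.) -/
theorem result (A : Type u) [CommRing A] [IsNoetherianRing A]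
    (J : Ideal A) [IsAdicComplete J A] {X : Scheme.{u}} (f : X ⟶ Spec (CommRingCat.of A))
    (hf : IsClosedMap f.base) (U : X.Opens)
    (hU : f.base ⁻¹' (PrimeSpectrum.zeroLocus (J : Set A)) ⊆ (U : Set X)) : U = ⊤ := by
  by_contra hne
  have hC : ((U : Set X)ᶜ).Nonempty := by
    rw [Set.nonempty_compl]
    intro h
    exact hne (TopologicalSpace.Opens.ext h)
  have hcl : IsClosed (f.base '' (U : Set X)ᶜ) := hf _ U.2.isClosed_compl
  obtain ⟨I, hI⟩ := (PrimeSpectrum.isClosed_iff_zeroLocus_ideal (R := A) _).mp hcl
  have hIne : I ≠ ⊤ := by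
    rintro rfl
    obtain ⟨c, hc⟩ := hC
    have : f.base c ∈ f.base '' (U : Set X)ᶜ := ⟨c, hc, rfl⟩
    rw [hI] at this
    simp at this
    exact this.elim
  obtain ⟨m, hm, hIm⟩ := Ideal.exists_le_maximal I hIne
  have h1 : (⟨m, hm.isPrime⟩ : PrimeSpectrum A) ∈ PrimeSpectrum.zeroLocus (I : Set A) := hIm
  rw [← hI] at h1
  obtain ⟨c, hc, hc'⟩ := h1
  apply hc
  apply hU
  rw [Set.mem_preimage, hc']
  have hJ : J ≤ m := (IsAdicComplete.le_jacobson_bot J).trans (sInf_le ⟨bot_le, hm⟩)
  exact hJ
end Groth.Agent.S4459
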