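import Groth.Statements.S4623
import Groth.Agent.Lib.helper7_Geom

set_option autoImplicit false
open CategoryTheory AlgebraicGeometry
universe u
open FBase

namespace Groth.Agent.S4623



/-- Let h : X → Y be a surjective morphism of schemes over a field k. If X is geometrically irreducible
over k, then Y is geometrically irreducible over k. -/
theorem result {k : Type u} [Field k] {X Y : Scheme.{u}}
    (f : X ⟶ Spec (CommRingCat.of k)) (g : Y ⟶ Spec (CommRingCat.of k)) (h : X ⟶ Y) (w : h ≫ g = f)
    [Surjective h] [GeometricallyIrreducible f] : GeometricallyIrreducible g := by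
  exact ⟨Groth.Agent.H7.geometrically_of_surjective_source (fun Z => IrreducibleSpace Z)
    (fun q _ hq => Groth.Agent.H7.irreducibleSpace_of_surjective q hq) f g h w GeometricallyIrreducible.geometrically_irreducibleSpace⟩
end Groth.Agent.S4623
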