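import Groth.Statements.S4624
import Groth.Agent.Lib.helper7_Geom

set_option autoImplicit false
open CategoryTheory AlgebraicGeometry
universe u
open FBase

namespace Groth.Agent.S4624



/-- Let h : X → Y be a surjective morphism of schemes over a field k. If X is geometrically connected
over k, then Y is geometrically connected over k. -/
theorem result {k : Type u} [Field k] {X Y : Scheme.{u}}
    (f : X ⟶ Spec (CommRingCat.of k)) (g : Y ⟶ Spec (CommRingCat.of k)) (h : X ⟶ Y) (w : h ≫ g = f)
    [Surjective h] [GeometricallyConnected f] : GeometricallyConnected g := by
  exact ⟨Groth.Agent.H7.geometrically_of_surjective_source (fun Z => ConnectedSpace Z)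
    (fun q _ hq => Groth.Agent.H7.connectedSpace_of_surjective q hq) f g h w GeometricallyConnected.geometrically_connectedSpace⟩
end Groth.Agent.S4624
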