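import Groth.Statements.S4627
import Groth.Agent.Lib.helper7_Geom

set_option autoImplicit false
open CategoryTheory AlgebraicGeometry
universe u
open FBase

namespace Groth.Agent.S4627



/-- Let X be a scheme over a field k and K an extension field of k. Then X ⊗_k K, with its structure of
K-scheme, is geometrically integral over K exactly when X is geometrically integral over k. -/
theorem result {k K : Type u} [Field k] [Field K] [Algebra k K]
    {X : Scheme.{u}} (f : X ⟶ Spec (CommRingCat.of k)) :
    GeometricallyIntegral f ↔ GeometricallyIntegral (FBase.bcStr f K) := by
  constructor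
  · intro h
    exact inferInstanceAs (GeometricallyIntegral (Limits.pullback.snd f (Spec.map (CommRingCat.ofHom (algebraMap k K)))))
  · intro h
    have : Surjective (Spec.map (CommRingCat.ofHom (algebraMap k K))) :=
      ⟨fun x => ⟨IsLocalRing.closedPoint _, Subsingleton.elim _ _⟩⟩
    exact ⟨Groth.Agent.H7.geometrically_of_surjective_baseChange (fun Z => IsIntegral Z)
      (fun q _ _ hq => Groth.Agent.H7.isIntegral_of_flat_surjective q hq) f (Spec.map (CommRingCat.ofHom (algebraMap k K))) h.1⟩
end Groth.Agent.S4627
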