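import Groth.Statements.S4650
import Mathlib

set_option autoImplicit false
open CategoryTheory AlgebraicGeometry
universe u
open FDesc

namespace Groth.Agent.S4650



/-- Let f : X → Y be a morphism of schemes along which generizations lift (this holds for flat,
quasi-flat or open morphisms). Then every irreducible component of X dominates an irreducible
component of Y: the closure of its image is an irreducible component of Y. -/
theorem result {X Y : Scheme.{u}} (f : X ⟶ Y)
    (hf : GeneralizingMap ⇑f) (T : Set ↥X) (hT : T ∈ irreducibleComponents ↥X) :
    closure (⇑f '' T) ∈ irreducibleComponents ↥Y := by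
  have hTc : IsClosed T := isClosed_of_mem_irreducibleComponents T hT
  have hTi : IsIrreducible T := hT.1
  obtain ⟨ξ, hξ⟩ := QuasiSober.sober hTi hTc
  have h1 : IsGenericPoint (f ξ) (closure (f '' T)) := by
    have := hξ.image f.continuous
    exact this
  refine ⟨hTi.image f f.continuous.continuousOn |>.closure, ?_⟩
  intro Z hZ hle
  obtain ⟨η, hη⟩ := QuasiSober.sober hZ.closure isClosed_closure
  have h2 : η ⤳ f ξ := by
    rw [specializes_iff_mem_closure, hη.def]
    exact subset_closure (hle h1.mem)
  obtain ⟨ξ', hξ', hξ''⟩ := hf h2
  have h3 : T ≤ closure {ξ'} := by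
    rw [← hξ.def]
    exact closure_minimal (by simpa using hξ'.mem_closure) isClosed_closure
  have h4 : closure {ξ'} ≤ T := hT.2 isIrreducible_singleton.closure h3
  have h5 : η ∈ closure (f '' T) := subset_closure ⟨ξ', h4 (subset_closure rfl), hξ''⟩
  intro z hz
  have : z ∈ closure {η} := by rw [hη.def]; exact subset_closure hz
  exact closure_minimal (by simpa using h5) isClosed_closure this
end Groth.Agent.S4650
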