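import Groth.Statements.S4656
import Mathlib

set_option autoImplicit false
open CategoryTheory AlgebraicGeometry
universe u
open FDesc

namespace Groth.Agent.S4656

open TensorProduct in
theorem flat_of_comp {A B C : Type u} [CommRing A] [CommRing B] [CommRing C] [Algebra A B] [Algebra B C] [Algebra A C]
    [IsScalarTower A B C] [Module.FaithfullyFlat B C] [Module.Flat A C] : Module.Flat A B := by
  rw [Module.Flat.iff_lTensor_preserves_injective_linearMap]
  intro N N' _ _ _ _ l hl
  have h1 : Function.Injective (l.baseChange B) ↔ Function.Injective ((l.baseChange B).lTensor C) :=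
    (Module.FaithfullyFlat.lTensor_injective_iff_injective B C _).symm
  have h2 : Function.Injective (l.baseChange B) := by
    rw [h1]
    have h3 : Function.Injective (l.lTensor C) := Module.Flat.lTensor_preserves_injective_linearMap l hl
    let e₁ := (AlgebraTensorModule.cancelBaseChange A B C C N)
    let e₂ := (AlgebraTensorModule.cancelBaseChange A B C C N')
    have h4 : ∀ z, e₂ ((l.baseChange B).lTensor C z) = l.lTensor C (e₁ z) := by
      intro z
      induction z using TensorProduct.induction_on with
      | zero => simp
      | add a b ha hb => simp only [map_add, ha, hb]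
      | tmul c y =>
        induction y using TensorProduct.induction_on with
        | zero => simp
        | add a b ha hb => simp only [tmul_add, map_add, ha, hb]
        | tmul b n => simp [e₁, e₂]
    intro z w hzw
    apply e₁.injective
    apply h3
    rw [← h4, ← h4, hzw]
  exact h2


/-- Let f : X → Y and g : Y → Z be morphisms of schemes and x a point of X at which f is flat (the local
ring of X at x is flat over that of Y at f(x)). Then the composite g ∘ f is flat at x if and only if
g is flat at f(x). -/
theorem result {X Y Z : Scheme.{u}} (f : X ⟶ Y) (g : Y ⟶ Z) (x : X)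
    (hf : (f.stalkMap x).hom.Flat) :
    ((f ≫ g).stalkMap x).hom.Flat ↔ (g.stalkMap (f x)).hom.Flat := by
  have hc : ((f ≫ g).stalkMap x).hom = (f.stalkMap x).hom.comp (g.stalkMap (f x)).hom := by
    rw [Scheme.Hom.stalkMap_comp]; rfl
  have hff : (f.stalkMap x).hom.FaithfullyFlat := by
    algebraize [(f.stalkMap x).hom]
    have : IsLocalHom (algebraMap (Y.presheaf.stalk (f x)) (X.presheaf.stalk x)) := by
      show IsLocalHom (f.stalkMap x).hom
      infer_instance
    exact Module.FaithfullyFlat.of_flat_of_isLocalHom
  constructor
  · intro h
    have h' : ((f.stalkMap x).hom.comp (g.stalkMap (f x)).hom).Flat := hc ▸ h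
    letI := (f.stalkMap x).hom.toAlgebra
    letI := (g.stalkMap (f x)).hom.toAlgebra
    letI := ((f.stalkMap x).hom.comp (g.stalkMap (f x)).hom).toAlgebra
    haveI : IsScalarTower (Z.presheaf.stalk (g (f x))) (Y.presheaf.stalk (f x)) (X.presheaf.stalk x) := 
      IsScalarTower.of_algebraMap_eq (fun _ => rfl)
    haveI : Module.FaithfullyFlat (Y.presheaf.stalk (f x)) (X.presheaf.stalk x) := hff
    haveI : Module.Flat (Z.presheaf.stalk (g (f x))) (X.presheaf.stalk x) := h'
    exact flat_of_comp (A := Z.presheaf.stalk (g (f x))) (B := Y.presheaf.stalk (f x)) (C := X.presheaf.stalk x)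
  · intro h
    have h' : ((f.stalkMap x).hom.comp (g.stalkMap (f x)).hom).Flat := h.comp hf
    exact hc ▸ h'
end Groth.Agent.S4656
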