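import Groth.Statements.S4664
import Groth.Agent.Lib.helper7_Geom

set_option autoImplicit false
open CategoryTheory AlgebraicGeometry
universe u
open FBase

namespace Groth.Agent.S4664



open CategoryTheory.Limits in
/-- Let f : X → Y and g : Y' → Y be morphisms of schemes with g surjective, and let f' : X ×_Y Y' → Y'
be the base change of f. If every fibre of f' is geometrically irreducible, then every fibre of f is
geometrically irreducible. -/
theorem result {X Y Y' : Scheme.{u}} (f : X ⟶ Y)
    (g : Y' ⟶ Y) [Surjective g] [GeometricallyIrreducible (pullback.snd f g)] : GeometricallyIrreducible f := by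
  exact ⟨Groth.Agent.H7.geometrically_of_surjective_baseChange (fun Z => IrreducibleSpace Z)
      (fun q _ _ hq => Groth.Agent.H7.irreducibleSpace_of_surjective q hq) f g (GeometricallyIrreducible.geometrically_irreducibleSpace (f := pullback.snd f g))⟩
end Groth.Agent.S4664
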