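import Groth.Statements.S4665
import Groth.Agent.Lib.helper7_Geom

set_option autoImplicit false
open CategoryTheory AlgebraicGeometry
universe u
open FBase

namespace Groth.Agent.S4665



open CategoryTheory.Limits in
/-- Let f : X → Y and g : Y' → Y be morphisms of schemes with g surjective, and let f' : X ×_Y Y' → Y'
be the base change of f. Say that a morphism has geometrically connected fibres when, for every
field K and every morphism from Spec K to its target, the base change to Spec K is empty or
connected (so an empty fibre counts as geometrically connected). If f' has geometrically connected
fibres in this sense, then so has f. -/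
theorem result {X Y Y' : Scheme.{u}} (f : X ⟶ Y)
    (g : Y' ⟶ Y) [Surjective g]
    (h : geometrically (fun Z : Scheme.{u} => IsEmpty ↥Z ∨ ConnectedSpace ↥Z) (pullback.snd f g)) :
    geometrically (fun Z : Scheme.{u} => IsEmpty ↥Z ∨ ConnectedSpace ↥Z) f := by
  exact Groth.Agent.H7.geometrically_of_surjective_baseChange _
      (fun {Z' Z} q _ _ hq => by
        rcases hq with hq | hq
        · left
          constructor
          intro z
          obtain ⟨x, -⟩ := q.surjective z
          exact hq.elim x
        · right
          exact Groth.Agent.H7.connectedSpace_of_surjective q hq) f g h
end Groth.Agent.S4665
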