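import Groth.Statements.S4667
import Mathlib

set_option autoImplicit false
open CategoryTheory AlgebraicGeometry
universe u
open FDesc

namespace Groth.Agent.S4667



open CategoryTheory.Limits in
/-- Let f : X → Y be a quasi-compact morphism of schemes and g : Y' → Y a flat morphism, and let f' : X
×_Y Y' → Y' be the base change of f. Then the scheme-theoretic image of the base change f' coincides
with the inverse image under g of the scheme-theoretic image of f: the quasi-coherent ideal sheaf
cutting out the former is the pull-back along g of the one cutting out the latter. (One published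
statement is phrased for a quasi-compact and quasi-separated S-morphism f and a flat base change S′
→ S, which reduces to this case; quasi-compactness of f suffices.) -/
theorem result {X Y Y' : Scheme.{u}} (f : X ⟶ Y) (g : Y' ⟶ Y)
    [QuasiCompact f] [Flat g] :
    (pullback.snd f g).ker = f.ker.comap g := by
  have h1 : IsPullback (pullback.fst f g) (pullback.snd f g) f g := IsPullback.of_hasPullback f g
  have h2 : IsPullback (pullback.fst f.imageι g) (pullback.snd f.imageι g) f.imageι g := IsPullback.of_hasPullback _ _
  let t : pullback f g ⟶ pullback f.imageι g := pullback.lift (pullback.fst f g ≫ f.toImage) (pullback.snd f g) (by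
    rw [Category.assoc, Scheme.Hom.toImage_imageι, pullback.condition])
  have ht1 : t ≫ pullback.fst f.imageι g = pullback.fst f g ≫ f.toImage := pullback.lift_fst _ _ _
  have ht2 : t ≫ pullback.snd f.imageι g = pullback.snd f g := pullback.lift_snd _ _ _
  have h3 : IsPullback (pullback.fst f g) t f.toImage (pullback.fst f.imageι g) := by
    refine IsPullback.of_bot (v₂₁ := pullback.snd f.imageι g) (v₂₂ := f.imageι) (h₃₁ := g) ?_ ht1.symm h2
    rw [ht2, Scheme.Hom.toImage_imageι]; exact h1
  have : QuasiCompact f.toImage := inferInstance
  have : IsSchemeTheoreticallyDominant f.toImage := by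
    constructor
    refine Scheme.IdealSheafData.ext_of_iSup_eq_top (fun U : Y.affineOpens => (⟨f.imageι ⁻¹ᵁ U.1, U.2.preimage f.imageι⟩ : f.image.affineOpens)) ?_ ?_
    · show ⨆ i : Y.affineOpens, f.imageι ⁻¹ᵁ i.1 = ⊤
      rw [← Scheme.Hom.preimage_iSup, iSup_affineOpens_eq_top, Scheme.Hom.preimage_top]
    · intro U
      rw [Scheme.Hom.ker_apply]
      rw [(RingHom.injective_iff_ker_eq_bot _).mp (f.toImage_app_injective U)]
      simp
  have hd : IsSchemeTheoreticallyDominant t := IsSchemeTheoreticallyDominant.of_isPullback h3
  have hqt : QuasiCompact t := MorphismProperty.of_isPullback (P := @QuasiCompact) h3 inferInstance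
  have hk : (t ≫ pullback.snd f.imageι g).ker = (pullback.snd f.imageι g).ker := by
    ext U : 2
    have h6 : ((t ≫ pullback.snd f.imageι g).app U).hom = (t.app _).hom.comp ((pullback.snd f.imageι g).app U).hom := by
      rw [Scheme.Hom.comp_app]; rfl
    rw [Scheme.Hom.ker_apply, Scheme.Hom.ker_apply, h6]
    exact RingHom.ker_comp_of_injective _ (t.app_injective _)
  rw [← ht2, hk]
  rw [← pullbackSymmetry_hom_comp_fst, Scheme.Hom.ker_comp_of_isIso, Scheme.IdealSheafData.ker_fst_of_isClosedImmersion]
  rw [Scheme.Hom.imageι, Scheme.IdealSheafData.ker_subschemeι]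
end Groth.Agent.S4667
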