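import Groth.Statements.S4674
import Mathlib

set_option autoImplicit false
open scoped TensorProduct
universe u v w
open FDesc

namespace Groth.Agent.S4674



/-- Let B be a flat A-algebra and M a finitely presented A-module. Then the annihilator of the B-module
B ⊗_A M is the ideal of B generated by the image of the annihilator of M. -/
theorem result {A : Type u} {B : Type v} [CommRing A] [CommRing B] [Algebra A B]
    [Module.Flat A B] (M : Type w) [AddCommGroup M] [Module A M] [Module.FinitePresentation A M] :
    Module.annihilator B (B ⊗[A] M) = (Module.annihilator A M).map (algebraMap A B) := by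
  obtain ⟨n, m, hm⟩ := Module.Finite.exists_fin (R := A) (M := M)
  apply le_antisymm
  · intro b hb
    rw [Module.mem_annihilator] at hb
    let φ : A →ₗ[A] (Fin n → M) := LinearMap.pi (fun i => LinearMap.toSpanSingleton A M (m i))
    have hker : ∀ a : A, a ∈ LinearMap.ker φ → a ∈ Module.annihilator A M := by
      intro a ha
      rw [Module.mem_annihilator]
      intro x
      have hx : x ∈ Submodule.span A (Set.range m) := by rw [hm]; trivial
      induction hx using Submodule.span_induction with
      | mem x h => 
        obtain ⟨i, rfl⟩ := h
        exact congrFun (LinearMap.mem_ker.mp ha) i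
      | zero => simp
      | add x y _ _ hx hy => rw [smul_add, hx, hy, add_zero]
      | smul c x _ hx => rw [smul_comm, hx, smul_zero]
    have hex : Function.Exact (LinearMap.ker φ).subtype φ := by
      intro y
      simp
    have hex' := Module.Flat.lTensor_exact B hex
    have hz : (φ.lTensor B) (b ⊗ₜ[A] (1 : A)) = 0 := by
      apply (TensorProduct.piRight A A B (fun _ : Fin n => M)).injective
      rw [map_zero]
      ext i
      simp only [LinearMap.lTensor_tmul, TensorProduct.piRight_apply, TensorProduct.piRightHom_tmul, Pi.zero_apply]
      have h1 := hb ((1 : B) ⊗ₜ[A] m i)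
      rw [TensorProduct.smul_tmul', smul_eq_mul, mul_one] at h1
      simpa [φ] using h1
    obtain ⟨z, hz'⟩ := (hex' _).mp hz
    have key : ∀ z : B ⊗[A] (LinearMap.ker φ), (TensorProduct.rid A B) ((LinearMap.ker φ).subtype.lTensor B z) ∈ (Module.annihilator A M).map (algebraMap A B) := by
      intro z
      induction z using TensorProduct.induction_on with
      | zero => simp
      | add x y hx hy => rw [map_add, map_add]; exact Ideal.add_mem _ hx hy
      | tmul c y =>
        simp only [LinearMap.lTensor_tmul, TensorProduct.rid_tmul, Submodule.subtype_apply]
        rw [Algebra.smul_def]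
        exact Ideal.mul_mem_right _ _ (Ideal.mem_map_of_mem _ (hker _ y.2))
    have := key z
    rw [hz'] at this
    simpa using this
  · rw [Ideal.map_le_iff_le_comap]
    intro a ha
    rw [Ideal.mem_comap, Module.mem_annihilator]
    intro x
    rw [Module.mem_annihilator] at ha
    induction x using TensorProduct.induction_on with
    | zero => simp
    | add x y hx hy => rw [smul_add, hx, hy, add_zero]
    | tmul c y => rw [algebraMap_smul, TensorProduct.smul_tmul', TensorProduct.smul_tmul, ha, TensorProduct.tmul_zero]
end Groth.Agent.S4674
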