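import Groth.Statements.S4675
import Mathlib

set_option autoImplicit false
universe u v
open FDesc

namespace Groth.Agent.S4675



/-- Let B be a ring, not necessarily commutative, and V, W two left B-modules which are isomorphic. For
a B-linear map u : V → W the following are equivalent: every B-linear map V → W can be written
uniquely as u ∘ c with c a B-linear endomorphism of V (that is, u is a basis of Hom_B(V, W) for its
right module structure over End_B(V)); u is bijective. -/
theorem result {B : Type u} [Ring B] {V W : Type v} [AddCommGroup V] [AddCommGroup W]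
    [Module B V] [Module B W] (e : V ≃ₗ[B] W) (u : V →ₗ[B] W) :
    (∀ v : V →ₗ[B] W, ∃! c : V →ₗ[B] V, v = u ∘ₗ c) ↔ Function.Bijective u := by
  constructor
  · intro h
    constructor
    · obtain ⟨c0, hc0, -⟩ := h e.toLinearMap
      have h1 : u ∘ₗ (LinearMap.id - c0 ∘ₗ e.symm.toLinearMap ∘ₗ u) = 0 := by
        ext x
        have := LinearMap.congr_fun hc0 (e.symm (u x))
        simp at this
        simp [← this]
      obtain ⟨c1, hc1, huniq⟩ := h 0
      have h2 := (huniq _ h1.symm).trans (huniq 0 (by simp)).symm
      apply Function.LeftInverse.injective (g := c0 ∘ₗ e.symm.toLinearMap)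
      intro x
      have := LinearMap.congr_fun h2 x
      simp only [LinearMap.sub_apply, LinearMap.id_apply, LinearMap.zero_apply, sub_eq_zero] at this
      exact this.symm
    · intro w
      obtain ⟨c, hc, -⟩ := h e.toLinearMap
      refine ⟨c (e.symm w), ?_⟩
      have := LinearMap.congr_fun hc (e.symm w)
      simpa using this.symm
  · intro h v
    let u' := LinearEquiv.ofBijective u h
    refine ⟨u'.symm.toLinearMap ∘ₗ v, ?_, ?_⟩
    · ext x
      exact (u'.apply_symm_apply (v x)).symm
    · intro c hc
      ext x
      apply h.1
      have h1 := LinearMap.congr_fun hc x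
      simp only [LinearMap.comp_apply] at h1 ⊢
      rw [← h1]
      exact (u'.apply_symm_apply (v x)).symm
end Groth.Agent.S4675
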