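import Groth.Statements.S4676
import Mathlib

set_option autoImplicit false
universe u v
open FDesc

namespace Groth.Agent.S4676



/-- Let B be a ring, not necessarily commutative, and V, W two Noetherian left B-modules which are
isomorphic. For a B-linear map u : V → W the following are equivalent: every B-linear map V → W can
be written as u ∘ c for some B-linear endomorphism c of V (that is, u generates Hom_B(V, W) as a
right module over End_B(V)); u is bijective. -/
theorem result {B : Type u} [Ring B] {V W : Type v} [AddCommGroup V]
    [AddCommGroup W] [Module B V] [Module B W] [IsNoetherian B V] [IsNoetherian B W] (e : V ≃ₗ[B] W) (u : V →ₗ[B] W) :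
    (∀ v : V →ₗ[B] W, ∃ c : V →ₗ[B] V, v = u ∘ₗ c) ↔ Function.Bijective u := by
  constructor
  · intro h
    have hs : Function.Surjective u := by
      intro w
      obtain ⟨c, hc⟩ := h e.toLinearMap
      refine ⟨c (e.symm w), ?_⟩
      have := LinearMap.congr_fun hc (e.symm w)
      simpa using this.symm
    refine ⟨?_, hs⟩
    have h1 : Function.Surjective (e.symm.toLinearMap ∘ₗ u) := e.symm.surjective.comp hs
    have h2 := IsNoetherian.injective_of_surjective_endomorphism _ h1
    exact Function.Injective.of_comp h2
  · intro h v
    let u' := LinearEquiv.ofBijective u h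
    refine ⟨u'.symm.toLinearMap ∘ₗ v, ?_⟩
    ext x
    exact (u'.apply_symm_apply (v x)).symm
end Groth.Agent.S4676
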