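import Groth.Statements.S4711
import Mathlib

set_option autoImplicit false
universe u
open EGA4

namespace Groth.Agent.S4711

open AlgebraicGeometry Topology TopologicalSpace in
theorem aux (X : Scheme.{u}) (E : Set X) (hE : Topology.IsLocallyConstructible E) (hne : E.Nonempty) :
    ∃ x ∈ E, IsLocallyClosed ({x} : Set X) := by
  obtain ⟨x₀, hx₀⟩ := hne
  obtain ⟨_, ⟨V : X.Opens, hV, rfl⟩, hxV, -⟩ :=
    X.isBasis_affineOpens.exists_subset_of_mem_open (Set.mem_univ x₀) isOpen_univ
  have h1 : IsLocallyConstructible (hV.fromSpec ⁻¹' E) := hE.preimage_of_isOpenEmbedding hV.fromSpec.isOpenEmbedding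
  have h2 : IsConstructible (hV.fromSpec ⁻¹' E) := h1.isConstructible
  obtain ⟨s, hs⟩ := (PrimeSpectrum.exists_constructibleSetData_iff (R := Γ(X, V))).mpr h2
  have hx₀r : x₀ ∈ Set.range hV.fromSpec := by rw [hV.range_fromSpec]; exact hxV
  obtain ⟨y₀, hy₀⟩ := hx₀r
  have hy₀s : y₀ ∈ s.toSet := by
    rw [hs]
    show hV.fromSpec y₀ ∈ E
    rw [hy₀]; exact hx₀
  obtain ⟨C, hC, hyC⟩ := Set.mem_iUnion₂.mp hy₀s
  let D := PrimeSpectrum.basicOpen C.f
  have hDc : CompactSpace D := isCompact_iff_compactSpace.mp (PrimeSpectrum.isCompact_basicOpen C.f)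
  have hcl : IsClosed ((Subtype.val : D → PrimeSpectrum Γ(X, V)) ⁻¹' (PrimeSpectrum.zeroLocus (Set.range C.g))) :=
    (PrimeSpectrum.isClosed_zeroLocus _).preimage continuous_subtype_val
  have hy₀D : y₀ ∈ D := by
    have := hyC.2
    rw [PrimeSpectrum.mem_zeroLocus, Set.singleton_subset_iff] at this
    exact this
  obtain ⟨x, hx, hxc⟩ := hcl.exists_closed_singleton ⟨⟨y₀, hy₀D⟩, hyC.1⟩
  have hxE : hV.fromSpec x.1 ∈ E := by
    have h3 : x.1 ∈ s.toSet := by
      refine Set.mem_iUnion₂.mpr ⟨C, hC, hx, ?_⟩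
      have := x.2
      rw [PrimeSpectrum.mem_zeroLocus, Set.singleton_subset_iff]
      exact this
    rw [hs] at h3
    exact h3
  refine ⟨hV.fromSpec x.1, hxE, ?_⟩
  have hemb : IsOpenEmbedding (fun z : D => hV.fromSpec z.1) :=
    hV.fromSpec.isOpenEmbedding.comp D.isOpen.isOpenEmbedding_subtypeVal
  have h4 := (hxc.isLocallyClosed).image hemb.isInducing hemb.isOpen_range.isLocallyClosed
  rw [Set.image_singleton] at h4
  exact h4


open AlgebraicGeometry Topology in
/-- In any scheme X, every nonempty locally constructible subset E contains a point x such that the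
one-point set {x} is locally closed in X (equivalently x is isolated in its closure). -/
theorem result (X : Scheme.{u}) (E : Set X)
    (hE : Topology.IsLocallyConstructible E) (hne : E.Nonempty) :
    ∃ x ∈ E, IsLocallyClosed ({x} : Set X) := by
  exact aux X E hE hne
end Groth.Agent.S4711
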