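import Groth.Statements.S4724
import Mathlib

set_option autoImplicit false
universe u
open EGA4

namespace Groth.Agent.S4724

theorem exact' {ι : Type u} [Preorder ι] [Nonempty ι] [IsDirectedOrder ι] {G : ι → Type u}
    [∀ i, CommRing (G i)] {f : ∀ i j, i ≤ j → G i →+* G j} [DirectedSystem G (fun i j h ↦ f i j h)]
    {i : ι} {x : G i} (h : Ring.DirectLimit.of G (fun i j h ↦ f i j h) i x = 0) : ∃ j, ∃ hij : i ≤ j, f i j hij x = 0 :=
  Ring.DirectLimit.of.zero_exact h


/-- Let (A_i) be a directed system of commutative rings with direct limit A. Then the nilradical of A is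
the supremum of the extensions to A of the nilradicals of the A_i; in particular, if every A_i is
reduced then A is reduced. -/
theorem result (ι : Type u) [Preorder ι] [Nonempty ι] [IsDirectedOrder ι] (G : ι → Type u)
    [∀ i, CommRing (G i)] (f : ∀ i j, i ≤ j → G i →+* G j) [DirectedSystem G (fun i j h ↦ f i j h)] :
    nilradical (Ring.DirectLimit G (fun i j h ↦ f i j h)) =
        ⨆ i, (nilradical (G i)).map (Ring.DirectLimit.of G (fun i j h ↦ f i j h) i) ∧
      ((∀ i, IsReduced (G i)) → IsReduced (Ring.DirectLimit G (fun i j h ↦ f i j h))) := by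
  have key : ∀ z : Ring.DirectLimit G (fun i j h ↦ f i j h), IsNilpotent z →
      ∃ i, ∃ x : G i, IsNilpotent x ∧ Ring.DirectLimit.of G (fun i j h ↦ f i j h) i x = z := by
    intro z hz
    obtain ⟨i, x, rfl⟩ := Ring.DirectLimit.exists_of z
    obtain ⟨n, hn⟩ := hz
    rw [← map_pow] at hn
    obtain ⟨j, hij, hj⟩ := exact' hn
    exact ⟨j, f i j hij x, ⟨n, by rw [← map_pow, hj]⟩, Ring.DirectLimit.of_f hij x⟩
  refine ⟨le_antisymm ?_ ?_, ?_⟩
  · intro z hz
    obtain ⟨i, x, hx, rfl⟩ := key z hz
    exact (le_iSup (fun i => (nilradical (G i)).map (Ring.DirectLimit.of G (fun i j h ↦ f i j h) i)) i) (Ideal.mem_map_of_mem _ hx)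
  · refine iSup_le fun i => ?_
    rw [Ideal.map_le_iff_le_comap]
    intro x hx
    exact IsNilpotent.map hx _
  · intro h
    constructor
    intro z hz
    obtain ⟨i, x, hx, rfl⟩ := key z hz
    rw [hx.eq_zero, map_zero]
end Groth.Agent.S4724
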