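import Groth.Statements.S4725
import Groth.Agent.S4724

set_option autoImplicit false
universe u
open EGA4

namespace Groth.Agent.S4725



/-- The direct limit of a nonempty directed system of commutative integral domains is an integral domain
(no injectivity of the transition maps is assumed). -/
theorem result (ι : Type u) [Preorder ι] [Nonempty ι] [IsDirectedOrder ι] (G : ι → Type u)
    [∀ i, CommRing (G i)] (f : ∀ i j, i ≤ j → G i →+* G j) [DirectedSystem G (fun i j h ↦ f i j h)]
    [∀ i, IsDomain (G i)] : IsDomain (Ring.DirectLimit G (fun i j h ↦ f i j h)) := by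
  have hnt : Nontrivial (Ring.DirectLimit G (fun i j h ↦ f i j h)) := by
    refine ⟨⟨0, 1, fun h => ?_⟩⟩
    have i0 : ι := Classical.arbitrary ι
    have h1 : Ring.DirectLimit.of G (fun i j h ↦ f i j h) i0 1 = 0 := by rw [map_one]; exact h.symm
    obtain ⟨j, hij, hj⟩ := Groth.Agent.S4724.exact' h1
    rw [map_one] at hj
    exact one_ne_zero hj
  have hnz : NoZeroDivisors (Ring.DirectLimit G (fun i j h ↦ f i j h)) := by
    constructor
    intro a b hab
    obtain ⟨i, x, rfl⟩ := Ring.DirectLimit.exists_of a
    obtain ⟨j, y, rfl⟩ := Ring.DirectLimit.exists_of b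
    obtain ⟨k, hik, hjk⟩ := exists_ge_ge i j
    rw [← Ring.DirectLimit.of_f hik x, ← Ring.DirectLimit.of_f hjk y, ← map_mul] at hab
    obtain ⟨l, hkl, hl⟩ := Groth.Agent.S4724.exact' hab
    rw [map_mul, mul_eq_zero] at hl
    rcases hl with hl | hl
    · left
      rw [← Ring.DirectLimit.of_f hik x, ← Ring.DirectLimit.of_f hkl, hl, map_zero]
    · right
      rw [← Ring.DirectLimit.of_f hjk y, ← Ring.DirectLimit.of_f hkl, hl, map_zero]
  exact NoZeroDivisors.to_isDomain _
end Groth.Agent.S4725
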