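import Groth.Statements.S4741
import Mathlib

set_option autoImplicit false
universe u
open EGA4

namespace Groth.Agent.S4741

open AlgebraicGeometry CategoryTheory in
theorem dim_stalk {X : Scheme.{u}} {U : X.Opens} (hU : IsAffineOpen U) (x : X) (hx : x ∈ U) :
    ringKrullDim (X.presheaf.stalk x) = (hU.primeIdealOf ⟨x, hx⟩).asIdeal.height := by
  let := X.presheaf.algebra_section_stalk ⟨x, hx⟩
  have := hU.isLocalization_stalk ⟨x, hx⟩
  exact IsLocalization.AtPrime.ringKrullDim_eq_height (hU.primeIdealOf ⟨x, hx⟩).asIdeal (X.presheaf.stalk x)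

open AlgebraicGeometry CategoryTheory in
theorem le_part {X Y : Scheme.{u}} (f : X ⟶ Y) [IsLocallyNoetherian X] [IsLocallyNoetherian Y] (x₀ : X) :
    ∃ x, f x = f x₀ ∧ ringKrullDim (X.presheaf.stalk x) ≤ ringKrullDim (Y.presheaf.stalk (f x₀)) := by
  obtain ⟨_, ⟨V : Y.Opens, hV, rfl⟩, hyV, -⟩ :=
    Y.isBasis_affineOpens.exists_subset_of_mem_open (Set.mem_univ (f x₀)) isOpen_univ
  obtain ⟨_, ⟨U : X.Opens, hU, rfl⟩, hxU, hUV⟩ :=
    X.isBasis_affineOpens.exists_subset_of_mem_open (show x₀ ∈ f ⁻¹ᵁ V from hyV) (f ⁻¹ᵁ V).isOpen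
  have hUV' : U ≤ f ⁻¹ᵁ V := hUV
  have hc := IsAffineOpen.comap_primeIdealOf_appLE V hV U hU hUV' hxU
  have : IsNoetherianRing Γ(X, U) := IsLocallyNoetherian.component_noetherian ⟨U, hU⟩
  have : IsNoetherianRing Γ(Y, V) := IsLocallyNoetherian.component_noetherian ⟨V, hV⟩
  let := (f.appLE V U hUV').hom.toAlgebra
  let p := (hV.primeIdealOf ⟨f x₀, hyV⟩)
  let P₀ := hU.primeIdealOf ⟨x₀, hxU⟩
  have hc' : P₀.asIdeal.comap (algebraMap Γ(Y, V) Γ(X, U)) = p.asIdeal := congrArg PrimeSpectrum.asIdeal hc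
  obtain ⟨P, hP, hPle⟩ := Ideal.exists_minimalPrimes_le (I := p.asIdeal.map (algebraMap Γ(Y,V) Γ(X,U))) (J := P₀.asIdeal) (Ideal.map_le_iff_le_comap.mpr hc'.ge)
  have hPp : P.IsPrime := hP.1.1
  have hover : P.LiesOver p.asIdeal := ⟨le_antisymm (Ideal.map_le_iff_le_comap.mp hP.1.2) ((Ideal.comap_mono hPle).trans hc'.le)⟩
  have hh := Ideal.height_le_height_add_of_liesOver p.asIdeal P
  have h0 : (P.map (Ideal.Quotient.mk (p.asIdeal.map (algebraMap Γ(Y, V) Γ(X, U))))).height = 0 := by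
    rw [Ideal.minimalPrimes_eq_comap] at hP
    obtain ⟨Q, hQ, rfl⟩ := hP
    rw [Ideal.map_comap_of_surjective _ Ideal.Quotient.mk_surjective]
    have : Q.IsPrime := hQ.1.1
    exact Ideal.height_eq_zero_iff.mpr hQ
  rw [h0, add_zero] at hh
  let Pt : PrimeSpectrum Γ(X, U) := ⟨P, hPp⟩
  have hxU' : hU.fromSpec Pt ∈ U := by
    have : hU.fromSpec Pt ∈ Set.range hU.fromSpec := ⟨Pt, rfl⟩
    rwa [hU.range_fromSpec] at this
  have hcp : PrimeSpectrum.comap (f.appLE V U hUV').hom Pt = p := PrimeSpectrum.ext hover.over.symm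
  have hfx : f (hU.fromSpec Pt) = f x₀ := by
    have h1 : hV.fromSpec (PrimeSpectrum.comap (f.appLE V U hUV').hom Pt) = f (hU.fromSpec Pt) := 
      congr($(IsAffineOpen.SpecMap_appLE_fromSpec f hV hU hUV') Pt)
    rw [← h1, hcp]
    exact hV.fromSpec_primeIdealOf _
  have hPt : hU.primeIdealOf ⟨hU.fromSpec Pt, hxU'⟩ = Pt := by
    apply hU.fromSpec.isOpenEmbedding.injective
    rw [hU.fromSpec_primeIdealOf]
  refine ⟨hU.fromSpec Pt, hfx, ?_⟩
  rw [dim_stalk hU _ hxU', dim_stalk hV (f x₀) hyV, hPt]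
  exact_mod_cast hh

open AlgebraicGeometry CategoryTheory in
theorem flat_part {X Y : Scheme.{u}} (f : X ⟶ Y) [IsLocallyNoetherian X] [IsLocallyNoetherian Y] [Flat f] (x₀ : X) :
    ringKrullDim (Y.presheaf.stalk (f x₀)) ≤ ringKrullDim (X.presheaf.stalk x₀) := by
  obtain ⟨_, ⟨V : Y.Opens, hV, rfl⟩, hyV, -⟩ :=
    Y.isBasis_affineOpens.exists_subset_of_mem_open (Set.mem_univ (f x₀)) isOpen_univ
  obtain ⟨_, ⟨U : X.Opens, hU, rfl⟩, hxU, hUV⟩ :=
    X.isBasis_affineOpens.exists_subset_of_mem_open (show x₀ ∈ f ⁻¹ᵁ V from hyV) (f ⁻¹ᵁ V).isOpen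
  have hUV' : U ≤ f ⁻¹ᵁ V := hUV
  have hc := IsAffineOpen.comap_primeIdealOf_appLE V hV U hU hUV' hxU
  have : IsNoetherianRing Γ(X, U) := IsLocallyNoetherian.component_noetherian ⟨U, hU⟩
  have : IsNoetherianRing Γ(Y, V) := IsLocallyNoetherian.component_noetherian ⟨V, hV⟩
  have hfl := f.flat_appLE hV hU hUV'
  let := (f.appLE V U hUV').hom.toAlgebra
  have : Module.Flat Γ(Y, V) Γ(X, U) := hfl
  have hover : (hU.primeIdealOf ⟨x₀, hxU⟩).asIdeal.LiesOver (hV.primeIdealOf ⟨f x₀, hyV⟩).asIdeal :=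
    ⟨(congrArg PrimeSpectrum.asIdeal hc).symm⟩
  have hh := Ideal.height_eq_height_add_of_liesOver_of_hasGoingDown (hV.primeIdealOf ⟨f x₀, hyV⟩).asIdeal (hU.primeIdealOf ⟨x₀, hxU⟩).asIdeal
  rw [dim_stalk hU _ hxU, dim_stalk hV (f x₀) hyV, hh]
  exact_mod_cast le_self_add


open AlgebraicGeometry CategoryTheory in
/-- Suppose X and Y are locally Noetherian schemes, f : X → Y is a morphism that is surjective, and Z is
a closed subset of Y. Then codim(f⁻¹(Z), X) ≤ codim(Z, Y), where the codimension of a closed subset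
means the infimum over its points of the dimensions of the local rings there; when f is in addition
flat, these two codimensions coincide. (In the published version the equality part assumes f
quasi-flat; here f is taken to be flat.) -/
theorem result {X Y : Scheme.{u}} (f : X ⟶ Y) [IsLocallyNoetherian X]
    [IsLocallyNoetherian Y] (hf : Function.Surjective f.base) (Z : Set Y) (hZ : IsClosed Z) :
    (⨅ x ∈ f.base ⁻¹' Z, ringKrullDim (X.presheaf.stalk x)) ≤ ⨅ y ∈ Z, ringKrullDim (Y.presheaf.stalk y) ∧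
      (Flat f → (⨅ x ∈ f.base ⁻¹' Z, ringKrullDim (X.presheaf.stalk x)) = ⨅ y ∈ Z, ringKrullDim (Y.presheaf.stalk y)) := by
  have h1 : (⨅ x ∈ f.base ⁻¹' Z, ringKrullDim (X.presheaf.stalk x)) ≤ ⨅ y ∈ Z, ringKrullDim (Y.presheaf.stalk y) := by
    refine le_iInf₂ fun y hy => ?_
    obtain ⟨x₀, rfl⟩ := hf y
    obtain ⟨x, hx, hle⟩ := le_part f x₀
    refine (iInf₂_le x ?_).trans hle
    show f x ∈ Z
    rw [hx]; exact hy
  refine ⟨h1, fun hfl => le_antisymm h1 ?_⟩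
  refine le_iInf₂ fun x hx => ?_
  exact (iInf₂_le (f x) hx).trans (flat_part f x)
end Groth.Agent.S4741
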