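import Groth.Statements.S4821
import Mathlib

set_option autoImplicit false
universe u
open Cons9

namespace Groth.Agent.S4821



/-- Let A be an integral domain with fraction field K, and (P_i) a finite family of polynomials in
A[T_1, …, T_m], generating an ideal 𝔞; for a point s of Spec A write 𝔞_s for the ideal of κ(s)[T_1,
…, T_m] generated by the images of the P_i. If the zero locus of 𝔞_η in affine m-space over K = κ(η)
is empty, that is if 𝔞_η is the unit ideal, then there is an open neighbourhood D(f) (f ≠ 0) of the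
generic point such that 𝔞_s is the unit ideal (its zero locus is empty) for every s in D(f). -/
theorem result {A : Type u} [CommRing A] [IsDomain A] {m : ℕ}
    (P : Finset (MvPolynomial (Fin m) A))
    (hη : Ideal.span ((MvPolynomial.map (algebraMap A (FractionRing A))) '' (P : Set (MvPolynomial (Fin m) A))) = ⊤) :
    ∃ f : A, f ≠ 0 ∧ ∀ p : PrimeSpectrum A, f ∉ p.asIdeal →
      Ideal.span ((MvPolynomial.map (algebraMap A p.asIdeal.ResidueField)) '' (P : Set (MvPolynomial (Fin m) A))) = ⊤ := by
  letI := MvPolynomial.algebraMvPolynomial (σ := Fin m) (R := A) (S := FractionRing A)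
  have h0 : Ideal.map (algebraMap (MvPolynomial (Fin m) A) (MvPolynomial (Fin m) (FractionRing A))) (Ideal.span (P : Set _)) = ⊤ := by
    rw [Ideal.map_span]; exact hη
  have h1 : ¬ Disjoint (((nonZeroDivisors A).map (MvPolynomial.C (σ := Fin m)) : Submonoid (MvPolynomial (Fin m) A)) : Set (MvPolynomial (Fin m) A)) (Ideal.span (P : Set (MvPolynomial (Fin m) A)) : Set (MvPolynomial (Fin m) A)) := by
    intro hd
    exact ((IsLocalization.map_algebraMap_ne_top_iff_disjoint ((nonZeroDivisors A).map (MvPolynomial.C (σ := Fin m))) (MvPolynomial (Fin m) (FractionRing A)) _).mpr hd) h0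
  obtain ⟨_, ⟨f, hf, rfl⟩, hfP⟩ := Set.not_disjoint_iff.mp h1
  refine ⟨f, nonZeroDivisors.ne_zero hf, ?_⟩
  intro p hp
  rw [← Ideal.map_span]
  refine Ideal.eq_top_of_isUnit_mem _ (Ideal.mem_map_of_mem _ hfP) ?_
  rw [MvPolynomial.map_C]
  refine IsUnit.map MvPolynomial.C ?_
  rw [isUnit_iff_ne_zero, Ne, Ideal.algebraMap_residueField_eq_zero]
  exact hp
end Groth.Agent.S4821
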