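import Groth.Statements.S4836
import Mathlib

set_option autoImplicit false
universe u
open Cons9

namespace Groth.Agent.S4836

open scoped IntermediateField.algebraAdjoinAdjoin


/-- Principle of finite extension. Let k be a field and C a property of extension fields of k (in a
fixed universe) satisfying: (i) if K has C and there is a k-homomorphism K → K', then K' has C; (ii)
if K has C, some subextension K' of K finitely generated over k has C; (iii) if K has C and K is the
field of fractions of an integral k-algebra of finite type A, then there is a nonzero f in A such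
that every field quotient of A_f (as a k-algebra) has C. If some extension of k has C, then some
finite extension of k has C. (By (i) every algebraically closed extension of k then has C too; that
consequence is not asserted here.) -/
theorem result {k : Type u} [Field k]
    (C : ∀ (K : Type u) [Field K] [Algebra k K], Prop)
    (h₁ : ∀ (K K' : Type u) [Field K] [Algebra k K] [Field K'] [Algebra k K'],
      Nonempty (K →ₐ[k] K') → C K → C K')
    (h₂ : ∀ (K : Type u) [Field K] [Algebra k K], C K →
      ∃ K' : IntermediateField k K, K'.FG ∧ C K')
    (h₃ : ∀ (A K : Type u) [CommRing A] [IsDomain A] [Algebra k A] [Algebra.FiniteType k A]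
      [Field K] [Algebra k K] [Algebra A K] [IsScalarTower k A K] [IsFractionRing A K], C K →
      ∃ f : A, f ≠ 0 ∧ ∀ (K' : Type u) [Field K'] [Algebra k K'] (φ : Localization.Away f →ₐ[k] K'),
        Function.Surjective φ → C K')
    (hC : ∃ (K : Type u) (_ : Field K) (_ : Algebra k K), C K) :
    ∃ (K' : Type u) (_ : Field K') (_ : Algebra k K'), Module.Finite k K' ∧ C K' := by
  obtain ⟨K, _, _, hK⟩ := hC
  obtain ⟨K', ⟨s, hs⟩, hK'⟩ := h₂ K hK
  subst hs
  have hft : Algebra.FiniteType k (Algebra.adjoin k (s : Set K)) :=
    (Subalgebra.fg_iff_finiteType _).mp (Subalgebra.fg_adjoin_finset s)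
  obtain ⟨f, hf, hφ⟩ := h₃ (Algebra.adjoin k (s : Set K)) (IntermediateField.adjoin k (s : Set K)) hK'
  have hnt : Nontrivial (Localization.Away f) := by
    exact (IsLocalization.injective (Localization.Away f) (powers_le_nonZeroDivisors_of_noZeroDivisors hf)).nontrivial
  obtain ⟨m, hm⟩ := Ideal.exists_maximal (Localization.Away f)
  letI := Ideal.Quotient.field m
  refine ⟨Localization.Away f ⧸ m, inferInstance, inferInstance, ?_, hφ _ (Ideal.Quotient.mkₐ k m) (Ideal.Quotient.mkₐ_surjective k m)⟩
  have h1 : Algebra.FiniteType (Algebra.adjoin k (s : Set K)) (Localization.Away f) := by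
    have : Algebra.FinitePresentation (Algebra.adjoin k (s : Set K)) (Localization.Away f) := IsLocalization.Away.finitePresentation f
    infer_instance
  have h2 : Algebra.FiniteType k (Localization.Away f) := Algebra.FiniteType.trans hft h1
  have h3 : Algebra.FiniteType k (Localization.Away f ⧸ m) := inferInstance
  exact finite_of_finite_type_of_isJacobsonRing k (Localization.Away f ⧸ m)
end Groth.Agent.S4836
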