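import Groth.Statements.S5139
import Groth.Agent.Lib.H8Fib

set_option autoImplicit false
open CategoryTheory
universe u v u₂ v₂
open FibCat

namespace Groth.Agent.S5139

/-- A functor F : 𝒳 ⟶ 𝒴 over C is an equivalence over C exactly when its underlying functor is fully
faithful and every object η of 𝒴 admits an object ξ of 𝒳 and an isomorphism F ξ ≅ η lying over the
identity of the object of C under η. -/
theorem result {C : Type u} [Category.{v} C]
    {𝒳 𝒴 : BasedCategory.{v₂, u₂} C} (F : 𝒳 ⥤ᵇ 𝒴) :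
    FibCat.IsEquivOver F ↔
      (F.toFunctor.Full ∧ F.toFunctor.Faithful) ∧
        ∀ η : 𝒴.obj, ∃ (ξ : 𝒳.obj) (e : F.toFunctor.obj ξ ≅ η), 𝒴.p.IsHomLift (𝟙 (𝒴.p.obj η)) e.hom := by
  exact Groth.Agent.H8Fib.isEquivOver_iff F

end Groth.Agent.S5139
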