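import Groth.Statements.S5140
import Groth.Agent.Lib.H8Fib

set_option autoImplicit false
open CategoryTheory
universe u v u₂ v₂
open FibCat

namespace Groth.Agent.S5140

/-- If the structure functor of 𝒳 is transportable (isomorphisms of C lift to isomorphisms of 𝒳 with any
prescribed source over their source), then a functor 𝒳 ⟶ 𝒴 over C whose underlying functor is an
equivalence of categories is an equivalence over C. -/
theorem result {C : Type u} [Category.{v} C]
    {𝒳 𝒴 : BasedCategory.{v₂, u₂} C}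
    (h𝒳 : ∀ ⦃T S : C⦄ (α : T ≅ S) (ξ : 𝒳.obj), 𝒳.p.obj ξ = T →
      ∃ (ξ' : 𝒳.obj) (e : ξ ≅ ξ'), 𝒳.p.IsHomLift α.hom e.hom)
    (F : 𝒳 ⥤ᵇ 𝒴) [F.toFunctor.IsEquivalence] : FibCat.IsEquivOver F := by
  exact Groth.Agent.H8Fib.isEquivOver_of_transport h𝒳 F

end Groth.Agent.S5140
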