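import Groth.Statements.S5141
import Groth.Agent.Lib.H8Fib

set_option autoImplicit false
open CategoryTheory
universe u v u₂ v₂
open FibCat

namespace Groth.Agent.S5141

/-- In the sharper form given by its proof: for an equivalence F : 𝒳 ⟶ 𝒴 over C, a morphism φ of 𝒳 is
cartesian (over its image in C) if and only if F φ is; in particular an equivalence over C is a
cartesian functor. -/
theorem result {C : Type u} [Category.{v} C]
    {𝒳 𝒴 : BasedCategory.{v₂, u₂} C} (F : 𝒳 ⥤ᵇ 𝒴) (hF : FibCat.IsEquivOver F) {a b : 𝒳.obj} (φ : a ⟶ b) :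
    𝒴.p.IsCartesian (𝒳.p.map φ) (F.toFunctor.map φ) ↔ 𝒳.p.IsCartesian (𝒳.p.map φ) φ := by
  exact Groth.Agent.H8Fib.isCartesian_map_iff F hF φ

end Groth.Agent.S5141
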