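import Groth.Statements.S5142
import Groth.Agent.Lib.H8Fib2

set_option autoImplicit false
open CategoryTheory
universe u v u₂ v₂
open FibCat

namespace Groth.Agent.S5142

/-- A morphism of the fibre product 𝒳 ×_C 𝒴 of two categories over C is cartesian if and only if its two
components are cartesian (each over its image in C). The fibre product is taken as the 2-fibre
product over C of the two structure functors, whose objects are pairs over one object of C together
with an isomorphism of C lying over an identity. -/
theorem result {C : Type u} [Category.{v} C] {𝒳 𝒴 : BasedCategory.{v₂, u₂} C}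
    {x y : (FibCat.fp (FibCat.toSelf 𝒳) (FibCat.toSelf 𝒴)).obj} (φ : x ⟶ y) :
    (FibCat.fp (FibCat.toSelf 𝒳) (FibCat.toSelf 𝒴)).p.IsCartesian
        ((FibCat.fp (FibCat.toSelf 𝒳) (FibCat.toSelf 𝒴)).p.map φ) φ ↔
      𝒳.p.IsCartesian (𝒳.p.map φ.hom.fst) φ.hom.fst ∧ 𝒴.p.IsCartesian (𝒴.p.map φ.hom.snd) φ.hom.snd := by
  exact Groth.Agent.H8Fib.isCartesian_fp_iff φ

end Groth.Agent.S5142
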