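import Groth.Statements.S5143
import Groth.Agent.Lib.H8Fib2

set_option autoImplicit false
open CategoryTheory
universe u v u₂ v₂
open FibCat

namespace Groth.Agent.S5143

/-- The fibre product over C of two fibred (resp. prefibred) categories over C is fibred (resp.
prefibred); fibred and prefibred are Mathlib's notions for the structure functors, and the fibre
product is the 2-fibre product over C of the two structure functors. -/
theorem result {C : Type u} [Category.{v} C] {𝒳 𝒴 : BasedCategory.{v₂, u₂} C} :
    (𝒳.p.IsFibered → 𝒴.p.IsFibered → (FibCat.fp (FibCat.toSelf 𝒳) (FibCat.toSelf 𝒴)).p.IsFibered) ∧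
      (𝒳.p.IsPreFibered → 𝒴.p.IsPreFibered → (FibCat.fp (FibCat.toSelf 𝒳) (FibCat.toSelf 𝒴)).p.IsPreFibered) := by
  exact Groth.Agent.H8Fib.isFibered_fp

end Groth.Agent.S5143
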