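import Groth.Statements.S5144
import Groth.Agent.Lib.H8Fib3

set_option autoImplicit false
open CategoryTheory
universe u v u₂ v₂
open FibCat

namespace Groth.Agent.S5144

/-- If p : 𝒳 ⥤ C is both prefibred and co-prefibred (its opposite functor is prefibred), then p is
fibred if and only if it is co-fibred (its opposite functor is fibred). Prefibred and fibred are
Mathlib's notions, which are the source's. -/
theorem result {C : Type u} [Category.{v} C] {𝒳 : Type u₂} [Category.{v₂} 𝒳]
    (p : 𝒳 ⥤ C) [p.IsPreFibered] [p.op.IsPreFibered] : p.IsFibered ↔ p.op.IsFibered := by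
  exact Groth.Agent.H8Fib.isFibered_iff_op p

end Groth.Agent.S5144
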