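import Groth.Statements.S5862
import Groth.Agent.H9RadPt

set_option autoImplicit false
universe u
open RadPt

namespace Groth.Agent.S5862

open CategoryTheory AlgebraicGeometry in
/-- Let f : X → Y and g : Y → Z be morphisms of schemes and y a point of Y. If f is radicial at y (fibre
with at most one point, purely inseparable residue field extension) and g is radicial at g(y), then
g ∘ f is radicial at g(y). Conversely, if f is surjective and g ∘ f is radicial at g(y), then f is
radicial at y and g is radicial at g(y). -/
theorem result {X Y Z : Scheme.{u}} (f : X ⟶ Y) (g : Y ⟶ Z) (y : Y) :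
    (RadPt.IsRadicialAt f y → RadPt.IsRadicialAt g (g y) → RadPt.IsRadicialAt (f ≫ g) (g y)) ∧
      (Surjective f → RadPt.IsRadicialAt (f ≫ g) (g y) →
        RadPt.IsRadicialAt f y ∧ RadPt.IsRadicialAt g (g y)) := by
  exact RP9.r5862 f g y

end Groth.Agent.S5862
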