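import Groth.Statements.S6012
import Groth.Agent.H9FibCat

set_option autoImplicit false
open CategoryTheory
universe v₁ v₂ u₁ u₂
open FibCat FibCat.Cleavage

namespace Groth.Agent.S6012

/-- Let `K` be a cleavage of an arbitrary functor `p : 𝒳 ⥤ 𝒮` (one chosen cartesian lift of every base
morphism at every object over its target; `p` is not assumed fibred). Then `p` is a fibred category
(composites of cartesian morphisms are cartesian) if and only if, for all composable base morphisms
`g : R ⟶ T` and `f : T ⟶ S`, the comparison natural transformation `c_{f,g}` from `g^* f^*` to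
`(fg)^*` determined by `K` is an isomorphism. -/
theorem result (𝒮 : Type u₁) (𝒳 : Type u₂) [Category.{v₁} 𝒮] [Category.{v₂} 𝒳] (p : 𝒳 ⥤ 𝒮) (K : FibCat.Cleavage p) :
    p.IsFibered ↔ ∀ (R S T : 𝒮) (f : T ⟶ S) (g : R ⟶ T), IsIso (K.comp f g) := by
  exact FC9.r6012 K

end Groth.Agent.S6012
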