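import Groth.Statements.S6013
import Groth.Agent.H9FibCat

set_option autoImplicit false
open CategoryTheory
universe v₁ v₂ u₁ u₂
open FibCat FibCat.Cleavage

namespace Groth.Agent.S6013

/-- Let `p : 𝒳 ⥤ 𝒮` be a fibred category with a cleavage `K`, and let `f : T ⟶ S` be an isomorphism of
the base. Then the inverse-image functor `f^*` of `K`, from the fibre over `S` to the fibre over
`T`, is an equivalence of categories. -/
theorem result (𝒮 : Type u₁) (𝒳 : Type u₂) [Category.{v₁} 𝒮] [Category.{v₂} 𝒳] (p : 𝒳 ⥤ 𝒮) [p.IsFibered] (K : FibCat.Cleavage p)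
    (S T : 𝒮) (f : T ⟶ S) [IsIso f] : (K.inverseImage f).IsEquivalence := by
  exact FC9.r6013 K S T f

end Groth.Agent.S6013
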