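import Groth.Statements.S6014
import Groth.Agent.H9FibCat

set_option autoImplicit false
open CategoryTheory
universe v₁ v₂ u₁ u₂
open FibCat FibCat.Cleavage

namespace Groth.Agent.S6014

/-- Let `K` be a cleavage of an arbitrary functor `p : 𝒳 ⥤ 𝒮` (not assumed normalised, `p` not assumed
fibred), `f : T ⟶ S` a base morphism and `a` an object over `S`. Then the component at `a` of the
comparison morphism `c_{f, 𝟙_T}` (from `(𝟙_T)^* f^*` to `(𝟙_T ≫ f)^*`), followed by the
identification of the inverse images along `𝟙_T ≫ f` and along `f`, is the chosen transport morphism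
of `𝟙_T` at `f^* a`; the equality is stated in `𝒳`. -/
theorem result (𝒮 : Type u₁) (𝒳 : Type u₂) [Category.{v₁} 𝒮] [Category.{v₂} 𝒳] (p : 𝒳 ⥤ 𝒮) (K : FibCat.Cleavage p) (S T : 𝒮) (f : T ⟶ S) (a : p.Fiber S) :
    Functor.Fiber.fiberInclusion.map ((K.comp f (𝟙 T)).app a ≫ (K.inverseImageCongr (Category.id_comp f)).hom.app a) =
      (K.transport (𝟙 T)).app ((K.inverseImage f).obj a) := by
  exact FC9.r6014 K S T f a

end Groth.Agent.S6014
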