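import Groth.Statements.S6015
import Groth.Agent.H9FibCat

set_option autoImplicit false
open CategoryTheory
universe v₁ v₂ u₁ u₂
open FibCat FibCat.Cleavage

namespace Groth.Agent.S6015

/-- Let `K` be a cleavage of an arbitrary functor `p : 𝒳 ⥤ 𝒮` (not assumed normalised, `p` not assumed
fibred), `f : T ⟶ S` a base morphism and `a` an object over `S`. Then the component at `a` of the
comparison morphism `c_{𝟙_S, f}` (from `f^* (𝟙_S)^*` to `(f ≫ 𝟙_S)^*`), followed by the
identification of the inverse images along `f ≫ 𝟙_S` and along `f`, is the image under `f^*` of the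
chosen transport morphism of `𝟙_S` at `a`, the latter viewed as a morphism of the fibre over `S`. -/
theorem result (𝒮 : Type u₁) (𝒳 : Type u₂) [Category.{v₁} 𝒮] [Category.{v₂} 𝒳] (p : 𝒳 ⥤ 𝒮) (K : FibCat.Cleavage p) (S T : 𝒮) (f : T ⟶ S) (a : p.Fiber S) :
    (K.comp (𝟙 S) f).app a ≫ (K.inverseImageCongr (Category.comp_id f)).hom.app a =
      (K.inverseImage f).map (Functor.Fiber.homMk p S (K.lift a.2 (𝟙 S))) := by
  exact FC9.r6015 K S T f a

end Groth.Agent.S6015
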