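import Groth.Statements.S6016
import Groth.Agent.H9FibCat

set_option autoImplicit false
open CategoryTheory
universe v₁ v₂ u₁ u₂
open FibCat FibCat.Cleavage

namespace Groth.Agent.S6016

/-- Let `K` be a cleavage of an arbitrary functor `p : 𝒳 ⥤ 𝒮` (not assumed normalised, `p` not assumed
fibred) and let `h : V ⟶ U`, `g : U ⟶ T`, `f : T ⟶ S` be base morphisms. Then the two natural
transformations from `h^* g^* f^*` to `(fgh)^*` built from the comparison morphisms agree: `c_{g,h}`
whiskered on the left by `f^*`, followed by `c_{f,gh}`, equals `c_{f,g}` whiskered on the right by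
`h^*`, followed by `c_{fg,h}` (the inverse images along the two bracketings of the triple composite
being identified). -/
theorem result (𝒮 : Type u₁) (𝒳 : Type u₂) [Category.{v₁} 𝒮] [Category.{v₂} 𝒳] (p : 𝒳 ⥤ 𝒮) (K : FibCat.Cleavage p) (S T U V : 𝒮) (f : T ⟶ S) (g : U ⟶ T) (h : V ⟶ U) :
    Functor.whiskerLeft (K.inverseImage f) (K.comp g h) ≫ K.comp f (h ≫ g) ≫ (K.inverseImageCongr (Category.assoc h g f)).hom =
      Functor.whiskerRight (K.comp f g) (K.inverseImage h) ≫ K.comp (g ≫ f) h := by
  exact FC9.r6016 K S T U V f g h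

end Groth.Agent.S6016
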