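import Groth.Statements.S6019
import Groth.Agent.H9FibCat

set_option autoImplicit false
open CategoryTheory
universe v₁ v₂ u₁ u₂
open FibCat FibCat.Cleavage

namespace Groth.Agent.S6019

/-- A pre-fibred category admits a normalised cleavage: if every base morphism `R ⟶ p(a)` has a
cartesian morphism over it with target `a`, then one cartesian lift can be chosen for every base
morphism at every object over its target in such a way that the chosen lift of each identity `𝟙 S`
at each object `a` over `S` is the identity of `a` (identities are transport morphisms). -/
theorem result (𝒮 : Type u₁) (𝒳 : Type u₂) [Category.{v₁} 𝒮] [Category.{v₂} 𝒳]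
    (p : 𝒳 ⥤ 𝒮) [p.IsPreFibered] : ∃ K : FibCat.Cleavage p, K.IsNormalised := by
  exact FC9.r6019

end Groth.Agent.S6019
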