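import Groth.Statements.S6264
import Mathlib

set_option autoImplicit false
universe u
open CAlg

namespace Groth.Agent.S6264

/-- Let R → S be a ring map with the going-up property and p a prime of R such that exactly one prime q
of S lies over p. Then the localization S_p of S at the image of R - p is a localization of S at q,
i.e. S_p = S_q. -/
theorem result {R S : Type u} [CommRing R] [CommRing S] [Algebra R S] [Algebra.HasGoingUp R S] (p : Ideal R) [p.IsPrime] (q : Ideal S) [q.IsPrime] [q.LiesOver p] (huniq : ∀ q' : Ideal S, q'.IsPrime → q'.under R = p → q' = q) : IsLocalization.AtPrime (Localization (Algebra.algebraMapSubmonoid S p.primeCompl)) q := by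
  have hle : Algebra.algebraMapSubmonoid S p.primeCompl ≤ q.primeCompl := by
    rintro _ ⟨x, hx, rfl⟩ h
    apply hx
    have : x ∈ q.under R := h
    rwa [← Ideal.over_def q p] at this
  refine IsLocalization.of_le (Algebra.algebraMapSubmonoid S p.primeCompl) q.primeCompl hle ?_
  intro s hs
  by_contra hu
  obtain ⟨m, hm, hsm⟩ := exists_max_ideal_of_mem_nonunits hu
  have hmp : m.IsPrime := hm.isPrime
  have hcp : (m.comap (algebraMap S (Localization (Algebra.algebraMapSubmonoid S p.primeCompl)))).IsPrime := Ideal.comap_isPrime _ _
  have hund : (m.comap (algebraMap S (Localization (Algebra.algebraMapSubmonoid S p.primeCompl)))).under R ≤ p := by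
    intro x hx
    by_contra hxp
    have hxS : algebraMap R S x ∈ Algebra.algebraMapSubmonoid S p.primeCompl := ⟨x, hxp, rfl⟩
    have hun := IsLocalization.map_units (Localization (Algebra.algebraMapSubmonoid S p.primeCompl)) ⟨_, hxS⟩
    exact hm.ne_top (Ideal.eq_top_of_isUnit_mem _ hx hun)
  obtain ⟨Q, hQ1, hQ2, hQ3⟩ := Ideal.exists_ideal_ge_liesOver_of_le (p := (m.comap (algebraMap S (Localization (Algebra.algebraMapSubmonoid S p.primeCompl)))).under R) (q := p) (m.comap (algebraMap S (Localization (Algebra.algebraMapSubmonoid S p.primeCompl)))) hund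
  have := huniq Q hQ2 (Ideal.over_def Q p).symm
  subst this
  exact hs (hQ1 hsm)

end Groth.Agent.S6264
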