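import Groth.Statements.S6267
import Mathlib

set_option autoImplicit false
universe u
open CAlg

namespace Groth.Agent.S6267

theorem flat_coker {R : Type u} [CommRing R] {M₁ M₂ M₃ : Type u} [AddCommGroup M₁] [Module R M₁] [AddCommGroup M₂] [Module R M₂] [AddCommGroup M₃] [Module R M₃] (f : M₁ →ₗ[R] M₂) (g : M₂ →ₗ[R] M₃) (hexact : Function.Exact f g) (hg : Function.Surjective g) (hf : ∀ I : Ideal R, I.FG → Function.Injective (f.rTensor (R ⧸ I))) [Module.Flat R M₂] : Module.Flat R M₃ := by
  have hc : ∀ (A B : Type u) [AddCommGroup A] [Module R A] [AddCommGroup B] [Module R B] (h : A →ₗ[R] B) {X Y : Type u} [AddCommGroup X] [Module R X] [AddCommGroup Y] [Module R Y] (k : X →ₗ[R] Y) (x : TensorProduct R X A), k.rTensor B (h.lTensor X x) = h.lTensor Y (k.rTensor A x) := by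
    intro A B _ _ _ _ h X Y _ _ _ _ k x
    rw [← LinearMap.comp_apply, ← LinearMap.comp_apply, LinearMap.rTensor_comp_lTensor, LinearMap.lTensor_comp_rTensor]
  rw [Module.Flat.iff_rTensor_injective]
  intro I hI
  have hh : Function.Injective (Submodule.subtype I) := Submodule.subtype_injective _
  rw [← LinearMap.lTensor_inj_iff_rTensor_inj]
  rw [injective_iff_map_eq_zero]
  intro x hx
  obtain ⟨y, rfl⟩ := LinearMap.rTensor_surjective I hg x
  rw [← hc] at hx
  obtain ⟨z, hz⟩ := (rTensor_exact R hexact hg _).mp hx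
  have hex2 : Function.Exact (Submodule.subtype I) (Submodule.mkQ I) := by
    rw [LinearMap.exact_iff, Submodule.ker_mkQ, Submodule.range_subtype]
  have h5 : (Submodule.mkQ I).lTensor M₁ z = 0 := by
    apply hf I hI
    rw [hc, hz, map_zero]
    exact (lTensor_exact M₂ hex2 (Submodule.mkQ_surjective _)).apply_apply_eq_zero y
  obtain ⟨w, rfl⟩ := (lTensor_exact M₁ hex2 (Submodule.mkQ_surjective _) _).mp h5
  have h3 := Module.Flat.lTensor_preserves_injective_linearMap (M := M₂) (Submodule.subtype I) hh
  rw [hc] at hz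
  have h6 := h3 hz
  rw [← h6]
  exact (rTensor_exact I hexact hg).apply_apply_eq_zero w

/-- Let R be a ring and f : M → M' a map of R-modules with M' flat. Then f is universally injective
exactly when, for each finitely generated ideal I of R, the induced map M ⊗ R/I → M' ⊗ R/I (that is,
M/IM → M'/IM') is injective. -/
theorem result {R : Type u} [CommRing R] {M M' : Type u} [AddCommGroup M] [Module R M] [AddCommGroup M'] [Module R M'] [Module.Flat R M'] (f : M →ₗ[R] M') : CAlgX.UniversallyInjective R f ↔ ∀ I : Ideal R, I.FG → Function.Injective (f.rTensor (R ⧸ I)) := by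
  refine ⟨fun h I _ => h (R ⧸ I), fun hf => ?_⟩
  have hg : Function.Surjective (LinearMap.range f).mkQ := Submodule.mkQ_surjective _
  have hexact : Function.Exact f (LinearMap.range f).mkQ := by
    rw [LinearMap.exact_iff, Submodule.ker_mkQ]
  have hinj : Function.Injective f := by
    rw [injective_iff_map_eq_zero]
    intro m hm
    have h0 := hf ⊥ Submodule.fg_bot
    have h1 : TensorProduct.tmul R m (Submodule.Quotient.mk (1 : R) : R ⧸ (⊥ : Ideal R)) = 0 := by
      apply h0
      rw [LinearMap.rTensor_tmul, hm, TensorProduct.zero_tmul, map_zero]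
    have h2 := congrArg (fun z => TensorProduct.rid R M ((Submodule.liftQ (⊥ : Submodule R R) (LinearMap.id : R →ₗ[R] R) bot_le).lTensor M z)) h1
    have h2' : (Submodule.liftQ (⊥ : Submodule R R) (LinearMap.id : R →ₗ[R] R) bot_le (Submodule.Quotient.mk 1)) • m = 0 := by simpa using h2
    exact (one_smul R m).symm.trans h2'
  have hflat : Module.Flat R (M' ⧸ LinearMap.range f) := flat_coker f (LinearMap.range f).mkQ hexact hg hf
  intro Q _ _
  exact (LinearMap.lTensor_inj_iff_rTensor_inj Q f).mp (LinearMap.lTensor_injective_of_exact_of_flat _ hg f hinj hexact Q)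

end Groth.Agent.S6267
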