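import Groth.Statements.S6268
import Mathlib

set_option autoImplicit false
universe u
open CAlg

namespace Groth.Agent.S6268

theorem aux {R S : Type u} [CommRing R] [CommRing S] [Algebra R S] (hS : CAlgX.UniversallyInjective R (Algebra.linearMap R S)) {M : Type u} [AddCommGroup M] [Module R M] (m : M) (h : (1 : S) ⊗ₜ[R] m = 0) : m = 0 := by
  have h1 := hS M
  have h2 : (Algebra.linearMap R S).rTensor M ((1 : R) ⊗ₜ[R] m) = (Algebra.linearMap R S).rTensor M 0 := by
    rw [map_zero, LinearMap.rTensor_tmul]
    simpa using h
  have h3 := h1 h2
  have h4 := congrArg (TensorProduct.lid R M) h3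
  simpa using h4

/-- Suppose the structure map R → S of an R-algebra S is universally injective as an R-linear map. Then
tensoring with S detects injectivity and surjectivity of R-linear maps (and hence reflects
isomorphisms): for an R-linear g : M → N, if S ⊗ g is injective then so is g, and if S ⊗ g is
surjective then so is g. -/
theorem result {R S : Type u} [CommRing R] [CommRing S] [Algebra R S] (hS : CAlgX.UniversallyInjective R (Algebra.linearMap R S)) {M N : Type u} [AddCommGroup M] [Module R M] [AddCommGroup N] [Module R N] (g : M →ₗ[R] N) : (Function.Injective (g.lTensor S) → Function.Injective g) ∧ (Function.Surjective (g.lTensor S) → Function.Surjective g) := by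
  refine ⟨fun h => ?_, fun h => ?_⟩
  · rw [injective_iff_map_eq_zero]
    intro m hm
    apply aux hS
    apply h
    rw [LinearMap.lTensor_tmul, hm, TensorProduct.tmul_zero, map_zero]
  · rw [← LinearMap.range_eq_top, ← Submodule.Quotient.subsingleton_iff]
    have h5 : Function.Exact g (LinearMap.range g).mkQ := by
      rw [LinearMap.exact_iff, Submodule.ker_mkQ]
    have h6 := lTensor_exact S h5 (Submodule.mkQ_surjective _)
    refine ⟨fun a b => ?_⟩
    rw [← sub_eq_zero]
    apply aux hS
    obtain ⟨c, hc⟩ := Submodule.mkQ_surjective _ (a - b)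
    rw [← hc]
    have h7 : (1 : S) ⊗ₜ[R] ((LinearMap.range g).mkQ c) = (LinearMap.lTensor S (LinearMap.range g).mkQ) ((1 : S) ⊗ₜ[R] c) := by
      rw [LinearMap.lTensor_tmul]
    rw [h7]
    exact (h6 _).mpr (h _)

end Groth.Agent.S6268
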