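import Groth.Statements.S6269
import Mathlib

set_option autoImplicit false
universe u
open CAlg

namespace Groth.Agent.S6269

/-- Let 0 → M₁ → M₂ → M₃ → 0 be a universally exact sequence of R-modules (a short exact sequence whose
first map is universally injective) with M₂ flat. Then M₁ and M₃ are flat. -/
theorem result {R : Type u} [CommRing R] {M₁ M₂ M₃ : Type u} [AddCommGroup M₁] [Module R M₁] [AddCommGroup M₂] [Module R M₂] [AddCommGroup M₃] [Module R M₃] (f : M₁ →ₗ[R] M₂) (g : M₂ →ₗ[R] M₃) (hexact : Function.Exact f g) (hg : Function.Surjective g) (hf : CAlgX.UniversallyInjective R f) [Module.Flat R M₂] : Module.Flat R M₁ ∧ Module.Flat R M₃ := by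
  have hc : ∀ (A B : Type u) [AddCommGroup A] [Module R A] [AddCommGroup B] [Module R B] (h : A →ₗ[R] B) {X Y : Type u} [AddCommGroup X] [Module R X] [AddCommGroup Y] [Module R Y] (k : X →ₗ[R] Y) (x : TensorProduct R X A), k.rTensor B (h.lTensor X x) = h.lTensor Y (k.rTensor A x) := by
    intro A B _ _ _ _ h X Y _ _ _ _ k x
    rw [← LinearMap.comp_apply, ← LinearMap.comp_apply, LinearMap.rTensor_comp_lTensor, LinearMap.lTensor_comp_rTensor]
  constructor
  · rw [Module.Flat.iff_lTensor_preserves_injective_linearMap]
    intro N N' _ _ _ _ h hh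
    have h1 := hf N
    have h2 := hf N'
    have h3 := Module.Flat.lTensor_preserves_injective_linearMap (M := M₂) h hh
    intro x y hxy
    apply h1
    apply h3
    rw [← hc, ← hc, hxy]
  · rw [Module.Flat.iff_lTensor_preserves_injective_linearMap]
    intro N N' _ _ _ _ h hh
    rw [injective_iff_map_eq_zero]
    intro x hx
    obtain ⟨y, rfl⟩ := LinearMap.rTensor_surjective N hg x
    rw [← hc] at hx
    obtain ⟨z, hz⟩ := (rTensor_exact N' hexact hg _).mp hx
    have hex2 : Function.Exact h (LinearMap.range h).mkQ := by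
      rw [LinearMap.exact_iff, Submodule.ker_mkQ]
    have h5 : (LinearMap.range h).mkQ.lTensor M₁ z = 0 := by
      apply hf
      rw [hc, hz, map_zero]
      exact (lTensor_exact M₂ hex2 (Submodule.mkQ_surjective _)).apply_apply_eq_zero y
    obtain ⟨w, rfl⟩ := (lTensor_exact M₁ hex2 (Submodule.mkQ_surjective _) _).mp h5
    have h3 := Module.Flat.lTensor_preserves_injective_linearMap (M := M₂) h hh
    rw [hc] at hz
    have h6 := h3 hz
    rw [← h6]
    exact (rTensor_exact N hexact hg).apply_apply_eq_zero w

end Groth.Agent.S6269
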