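import Groth.Statements.S6275
import Mathlib

set_option autoImplicit false
universe u
open CAlg

namespace Groth.Agent.S6275

/-- Let R be a Noetherian ring and p ⊆ R a prime. Then there is f ∈ R, f ∉ p, such that R_f → R_p is
injective; equivalently every x ∈ R mapping to zero in R_p maps to zero in R_f. (The cases of a
domain and of a reduced ring with finitely many minimal primes are not included here.) -/
theorem result {R : Type u} [CommRing R] [IsNoetherianRing R] (p : Ideal R) [p.IsPrime] : ∃ f : R, f ∉ p ∧ ∀ x : R, algebraMap R (Localization.AtPrime p) x = 0 → algebraMap R (Localization.Away f) x = 0 := by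
  obtain ⟨s, hs⟩ := (isNoetherianRing_iff_ideal_fg R).mp inferInstance (RingHom.ker (algebraMap R (Localization.AtPrime p)))
  have h1 : ∀ x ∈ s, ∃ c : p.primeCompl, (c : R) * x = 0 := by
    intro x hx
    have hx' : x ∈ RingHom.ker (algebraMap R (Localization.AtPrime p)) := hs ▸ Ideal.subset_span hx
    rw [RingHom.mem_ker, IsLocalization.map_eq_zero_iff p.primeCompl] at hx'
    exact hx'
  choose! c hc using h1
  refine ⟨∏ x ∈ s, (c x : R), ?_, ?_⟩
  · intro h
    have : (∏ x ∈ s, c x : p.primeCompl).1 ∈ p := by simpa using h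
    exact (∏ x ∈ s, c x : p.primeCompl).2 this
  · intro x hx
    have hx' : x ∈ RingHom.ker (algebraMap R (Localization.AtPrime p)) := hx
    rw [← hs] at hx'
    have hle : Ideal.span (s : Set R) ≤ RingHom.ker (algebraMap R (Localization.Away (∏ x ∈ s, (c x : R)))) := by
      rw [Ideal.span_le]
      intro y hy
      rw [SetLike.mem_coe, RingHom.mem_ker, IsLocalization.map_eq_zero_iff (Submonoid.powers (∏ x ∈ s, (c x : R)))]
      refine ⟨⟨_, Submonoid.mem_powers _⟩, ?_⟩
      obtain ⟨d, hd⟩ := Finset.dvd_prod_of_mem (fun x => (c x : R)) hy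
      change (∏ x ∈ s, (c x : R)) * y = 0
      rw [hd, mul_assoc, mul_comm d, ← mul_assoc, hc y hy, zero_mul]
    exact hle hx'

end Groth.Agent.S6275
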