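import Groth.Statements.S6276
import Mathlib

set_option autoImplicit false
universe u
open scoped TensorProduct
open CAlg

namespace Groth.Agent.S6276

/-- Let k be a field, R a Noetherian k-algebra and K/k a finitely generated field extension. Then K ⊗ₖ R
is a Noetherian ring. -/
theorem result (k : Type u) [Field k] (R : Type u) [CommRing R] [Algebra k R] [IsNoetherianRing R] (K : Type u) [Field K] [Algebra k K] (hK : ∃ s : Finset K, IntermediateField.adjoin k (s : Set K) = ⊤) : IsNoetherianRing (K ⊗[k] R) := by
  have h1 : Algebra.EssFiniteType k K := by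
    rw [← IntermediateField.fg_top_iff]
    exact hK
  have h2 : Algebra.EssFiniteType R (R ⊗[k] K) := inferInstance
  have h3 : IsNoetherianRing (R ⊗[k] K) := Algebra.EssFiniteType.isNoetherianRing R _
  exact isNoetherianRing_of_ringEquiv (R ⊗[k] K) (Algebra.TensorProduct.comm k R K).toRingEquiv

end Groth.Agent.S6276
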