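import Groth.Statements.S6277
import Mathlib

set_option autoImplicit false
universe u
open CAlg

namespace Groth.Agent.S6277

/-- Any surjective ring endomorphism of a Noetherian ring is an isomorphism (bijective). -/
theorem result {R : Type u} [CommRing R] [IsNoetherianRing R] (f : R →+* R) (hf : Function.Surjective f) : Function.Bijective f := by
  refine ⟨?_, hf⟩
  rw [injective_iff_map_eq_zero]
  intro x hx
  have hmono : Monotone (fun n => RingHom.ker (f ^ n) : ℕ → Ideal R) := by
    apply monotone_nat_of_le_succ
    intro n y hy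
    simp only [RingHom.mem_ker] at *
    rw [pow_succ', RingHom.mul_def, RingHom.comp_apply, hy, map_zero]
  obtain ⟨n, hn⟩ := monotone_stabilizes_iff_noetherian.mpr (inferInstance : IsNoetherian R R) ⟨_, hmono⟩
  have hsurj : Function.Surjective ⇑(f ^ n) := by
    rw [RingHom.coe_pow]; exact hf.iterate n
  obtain ⟨y, rfl⟩ := hsurj x
  have h1 : y ∈ RingHom.ker (f ^ (n+1)) := by
    rw [RingHom.mem_ker, pow_succ', RingHom.mul_def, RingHom.comp_apply]; exact hx
  have h2 := hn (n+1) (Nat.le_succ n)
  simp only [OrderHom.coe_mk] at h2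
  rw [← h2] at h1
  exact h1

end Groth.Agent.S6277
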