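import Groth.Statements.S6279
import Mathlib

set_option autoImplicit false
universe u
open CAlg

namespace Groth.Agent.S6279

/-- A finite product of normal rings is normal (a ring is normal when every localization at a prime is
an integrally closed domain). -/
theorem result {ι : Type u} [Finite ι] (A : ι → Type u) [∀ i, CommRing (A i)] (hA : ∀ i, EGA4.IsNormalRing (A i)) : EGA4.IsNormalRing (∀ i, A i) := by
  intro p hp
  classical
  haveI := Fintype.ofFinite ι
  obtain ⟨i, hi⟩ : ∃ i, Pi.single i (1 : A i) ∉ p := by
    by_contra hcon
    push Not at hcon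
    apply hp.ne_top
    rw [Ideal.eq_top_iff_one]
    have : (1 : ∀ i, A i) = ∑ i, Pi.single i (1 : A i) := by
      rw [Finset.univ_sum_single]; rfl
    rw [this]
    exact Ideal.sum_mem _ (fun i _ => hcon i)
  let I : Ideal (A i) := p.map (Pi.evalRingHom A i)
  have hsurj : Function.Surjective (Pi.evalRingHom A i) := fun x => ⟨Pi.single i x, by simp⟩
  have hker : RingHom.ker (Pi.evalRingHom A i) ≤ p := by
    intro x hx
    have h1 : x * Pi.single i (1 : A i) = 0 := by
      ext j
      by_cases h : j = i
      · subst h
        have : x j = 0 := hx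
        simp [this]
      · simp [h]
    have h2 : x * Pi.single i (1 : A i) ∈ p := by rw [h1]; exact p.zero_mem
    exact (hp.mem_or_mem h2).resolve_right hi
  have hI : I.comap (Pi.evalRingHom A i) = p := by
    rw [Ideal.comap_map_of_surjective _ hsurj, sup_eq_left]
    exact hker
  haveI hIp : I.IsPrime := Ideal.map_isPrime_of_surjective hsurj hker
  have key : ∀ (q : Ideal (∀ i, A i)) (hq : q.IsPrime), q = p → (IsDomain (Localization.AtPrime q) ∧ IsIntegrallyClosed (Localization.AtPrime q)) → (IsDomain (Localization.AtPrime p) ∧ IsIntegrallyClosed (Localization.AtPrime p)) := by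
    intro q hq h
    subst h
    exact id
  refine key _ inferInstance hI ?_
  obtain ⟨h1, h2⟩ := hA i I
  let e := RingEquiv.ofBijective _ (Localization.AtPrime.mapPiEvalRingHom_bijective (R := A) I)
  exact ⟨e.toMulEquiv.isDomain _, IsIntegrallyClosed.of_equiv e.symm⟩

end Groth.Agent.S6279
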