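import Groth.Statements.S6281
import Mathlib

set_option autoImplicit false
universe u
open CAlg

namespace Groth.Agent.S6281

/-- For an R-algebra S and an S-module M, flatness of S over R follows once M is both flat over R and
faithfully flat over S. -/
theorem result {R S : Type u} [CommRing R] [CommRing S] [Algebra R S] (M : Type u) [AddCommGroup M] [Module S M] [Module R M] [IsScalarTower R S M] [Module.Flat R M] [Module.FaithfullyFlat S M] : Module.Flat R S := by
  rw [Module.Flat.iff_lTensor_preserves_injective_linearMap]
  intro N N' _ _ _ _ h hh
  have h1 := Module.Flat.lTensor_preserves_injective_linearMap (M := M) h hh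
  have h2 : Function.Injective ((h.baseChange S).lTensor M) := by
    intro x y hxy
    apply (TensorProduct.AlgebraTensorModule.cancelBaseChange R S S M N).injective
    apply h1
    have h3 : ∀ x, h.lTensor M (TensorProduct.AlgebraTensorModule.cancelBaseChange R S S M N x) = TensorProduct.AlgebraTensorModule.cancelBaseChange R S S M N' ((h.baseChange S).lTensor M x) := by
      intro x
      induction x with
      | zero => simp
      | add x y hx hy => rw [map_add, map_add, hx, hy, map_add, map_add]
      | tmul m z =>
        induction z with
        | zero => simp
        | add x y hx hy => rw [TensorProduct.tmul_add, map_add, map_add, hx, hy, map_add, map_add]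
        | tmul s n => simp
    rw [h3, h3, hxy]
  exact (Module.FaithfullyFlat.lTensor_injective_iff_injective S M (h.baseChange S)).mp h2

end Groth.Agent.S6281
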