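import Groth.Statements.S6282
import Mathlib

set_option autoImplicit false
universe u
open scoped TensorProduct
open CAlg

namespace Groth.Agent.S6282

/-- Let S → S' be a homomorphism of R-algebras, M an S-module, and M' = S' ⊗_S M with its induced
R-module structure. (1) When S' is flat over S, R-flatness of M passes to M'. (2) When S' is
faithfully flat over S, M is R-flat exactly when M' is. -/
theorem result {R S S' : Type u} [CommRing R] [CommRing S] [CommRing S'] [Algebra R S] [Algebra R S'] [Algebra S S'] [IsScalarTower R S S'] (M : Type u) [AddCommGroup M] [Module S M] [Module R M] [IsScalarTower R S M] : ([Module.Flat S S'] → Module.Flat R M → Module.Flat R (S' ⊗[S] M)) ∧ ([Module.FaithfullyFlat S S'] → (Module.Flat R M ↔ Module.Flat R (S' ⊗[S] M))) := by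
  have h3 : ∀ (N N' : Type u) [AddCommGroup N] [Module R N] [AddCommGroup N'] [Module R N'] (h : N →ₗ[R] N') (x : (S' ⊗[S] M) ⊗[R] N), (TensorProduct.AlgebraTensorModule.lTensor S M h).lTensor S' (TensorProduct.AlgebraTensorModule.assoc R S S' S' M N x) = TensorProduct.AlgebraTensorModule.assoc R S S' S' M N' (h.lTensor (S' ⊗[S] M) x) := by
    intro N N' _ _ _ _ h x
    induction x with
    | zero => simp
    | add x y hx hy => rw [map_add, map_add, hx, hy, map_add, map_add]
    | tmul z n =>
      induction z with
      | zero => simp
      | add x y hx hy => rw [TensorProduct.add_tmul, map_add, map_add, hx, hy, map_add, map_add]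
      | tmul s m => simp
  constructor
  · intro _ hM
    rw [Module.Flat.iff_lTensor_preserves_injective_linearMap]
    intro N N' _ _ _ _ h hh
    have h1 := Module.Flat.lTensor_preserves_injective_linearMap (M := M) h hh
    have h2 : Function.Injective ((TensorProduct.AlgebraTensorModule.lTensor S M h).lTensor S') :=
      Module.Flat.lTensor_preserves_injective_linearMap (M := S') (TensorProduct.AlgebraTensorModule.lTensor S M h) h1
    intro x y hxy
    apply (TensorProduct.AlgebraTensorModule.assoc R S S' S' M N).injective
    apply h2
    rw [h3, h3, hxy]
  · intro _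
    constructor
    · intro hM
      rw [Module.Flat.iff_lTensor_preserves_injective_linearMap]
      intro N N' _ _ _ _ h hh
      have h1 := Module.Flat.lTensor_preserves_injective_linearMap (M := M) h hh
      have h2 : Function.Injective ((TensorProduct.AlgebraTensorModule.lTensor S M h).lTensor S') :=
        Module.Flat.lTensor_preserves_injective_linearMap (M := S') (TensorProduct.AlgebraTensorModule.lTensor S M h) h1
      intro x y hxy
      apply (TensorProduct.AlgebraTensorModule.assoc R S S' S' M N).injective
      apply h2
      rw [h3, h3, hxy]
    · intro hM
      rw [Module.Flat.iff_lTensor_preserves_injective_linearMap]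
      intro N N' _ _ _ _ h hh
      have h1 := Module.Flat.lTensor_preserves_injective_linearMap (M := (S' ⊗[S] M)) h hh
      have h2 : Function.Injective ((TensorProduct.AlgebraTensorModule.lTensor S M h).lTensor S') := by
        intro x y hxy
        obtain ⟨x, rfl⟩ := (TensorProduct.AlgebraTensorModule.assoc R S S' S' M N).surjective x
        obtain ⟨y, rfl⟩ := (TensorProduct.AlgebraTensorModule.assoc R S S' S' M N).surjective y
        rw [h3, h3] at hxy
        rw [h1 ((TensorProduct.AlgebraTensorModule.assoc R S S' S' M N').injective hxy)]
      exact (Module.FaithfullyFlat.lTensor_injective_iff_injective S S' (TensorProduct.AlgebraTensorModule.lTensor S M h)).mp h2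

end Groth.Agent.S6282
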