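import Groth.Statements.S6283
import Mathlib

set_option autoImplicit false
universe u
open scoped TensorProduct
open CAlg

namespace Groth.Agent.S6283

theorem key {R S : Type u} [CommRing R] [CommRing S] [Algebra R S] [Module.Flat R S] {M : Type u} [AddCommGroup M] [Module R M] {n : ℕ} (m : Fin n → M) (s : S) (hs : ∀ i, s ⊗ₜ[R] (m i) = 0) (I : Ideal R) (hI : ∀ r, (∀ i, r • m i = 0) → r ∈ I) : s ∈ I.map (algebraMap R S) := by
  let φ : R →ₗ[R] (Fin n → M) := LinearMap.pi (fun i => LinearMap.toSpanSingleton R M (m i))
  have hex : Function.Exact (LinearMap.ker φ).subtype φ := LinearMap.exact_subtype_ker_map φ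
  have h1 := Module.Flat.lTensor_exact S hex
  have h2 : φ.lTensor S (s ⊗ₜ[R] (1 : R)) = 0 := by
    apply (TensorProduct.piRight R R S (fun _ : Fin n => M)).injective
    rw [map_zero, LinearMap.lTensor_tmul]
    ext i
    rw [TensorProduct.piRight_apply, TensorProduct.piRightHom_tmul]
    simp [φ, hs]
  obtain ⟨z, hz⟩ := (h1 _).mp h2
  have h3 : ∀ z : TensorProduct R S (LinearMap.ker φ), TensorProduct.rid R S ((LinearMap.ker φ).subtype.lTensor S z) ∈ I.map (algebraMap R S) := by
    intro z
    induction z with
    | zero => simp
    | add x y hx hy => rw [map_add, map_add]; exact Ideal.add_mem _ hx hy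
    | tmul a b =>
      rw [LinearMap.lTensor_tmul, TensorProduct.rid_tmul, Algebra.smul_def]
      apply Ideal.mul_mem_right
      apply Ideal.mem_map_of_mem
      apply hI
      intro i
      exact congrFun b.2 i
  have h4 := h3 z
  rw [hz, TensorProduct.rid_tmul, one_smul] at h4
  exact h4

/-- Let R → S be a flat ring map, M an R-module and m ∈ M. Then Ann_R(m)S = Ann_S(1 ⊗ m), the
annihilator in S of the element 1 ⊗ m of S ⊗_R M. If moreover M is a finite R-module then Ann_R(M)S
= Ann_S(S ⊗_R M). -/
theorem result {R S : Type u} [CommRing R] [CommRing S] [Algebra R S] [Module.Flat R S] (M : Type u) [AddCommGroup M] [Module R M] : (∀ m : M, ((Submodule.span R {m}).annihilator).map (algebraMap R S) = (Submodule.span S {(1 : S) ⊗ₜ[R] m}).annihilator) ∧ (Module.Finite R M → (Module.annihilator R M).map (algebraMap R S) = Module.annihilator S (S ⊗[R] M)) := by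
  constructor
  · intro m
    apply le_antisymm
    · rw [Ideal.map_le_iff_le_comap]
      intro r hr
      rw [Submodule.mem_annihilator_span_singleton] at hr
      rw [Ideal.mem_comap, Submodule.mem_annihilator_span_singleton, algebraMap_smul, ← TensorProduct.tmul_smul, hr, TensorProduct.tmul_zero]
    · intro s hs
      rw [Submodule.mem_annihilator_span_singleton] at hs
      apply key (fun _ : Fin 1 => m) s
      · intro i
        simpa [TensorProduct.smul_tmul'] using hs
      · intro r hr
        rw [Submodule.mem_annihilator_span_singleton]
        exact hr 0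
  · intro hfin
    apply le_antisymm
    · rw [Ideal.map_le_iff_le_comap]
      intro r hr
      rw [Module.mem_annihilator] at hr
      rw [Ideal.mem_comap, Module.mem_annihilator]
      intro z
      rw [algebraMap_smul]
      induction z with
      | zero => simp
      | add x y hx hy => rw [smul_add, hx, hy, add_zero]
      | tmul a b => rw [← TensorProduct.tmul_smul, hr, TensorProduct.tmul_zero]
    · intro s hs
      rw [Module.mem_annihilator] at hs
      obtain ⟨n, m, hm⟩ := Module.Finite.exists_fin (R := R) (M := M)
      apply key m s
      · intro i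
        have := hs (1 ⊗ₜ[R] m i)
        simpa [TensorProduct.smul_tmul'] using this
      · intro r hr
        rw [Module.mem_annihilator]
        intro x
        have hx : x ∈ Submodule.span R (Set.range m) := by rw [hm]; trivial
        have hle : Submodule.span R (Set.range m) ≤ LinearMap.ker (LinearMap.lsmul R M r) := by
          rw [Submodule.span_le]
          rintro _ ⟨i, rfl⟩
          exact hr i
        exact hle hx

end Groth.Agent.S6283
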