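import Groth.Statements.S6284
import Mathlib

set_option autoImplicit false
universe u
open scoped TensorProduct
open CAlg

namespace Groth.Agent.S6284

/-- Let R → R' be a ring map and M a finite R-module. Then the support of R' ⊗_R M is the inverse image
of the support of M under Spec(R') → Spec(R). -/
theorem result {R R' : Type u} [CommRing R] [CommRing R'] [Algebra R R'] (M : Type u) [AddCommGroup M] [Module R M] [Module.Finite R M] : Module.support R' (R' ⊗[R] M) = PrimeSpectrum.comap (algebraMap R R') ⁻¹' Module.support R M := by
  ext p
  rw [Set.mem_preimage, Module.mem_support_iff_nontrivial_residueField_tensorProduct, Module.mem_support_iff_nontrivial_residueField_tensorProduct]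
  let φ := (Ideal.ResidueField.map (PrimeSpectrum.comap (algebraMap R R') p).asIdeal p.asIdeal (algebraMap R R') rfl)
  letI : Algebra (PrimeSpectrum.comap (algebraMap R R') p).asIdeal.ResidueField p.asIdeal.ResidueField := φ.toAlgebra
  haveI : IsScalarTower R (PrimeSpectrum.comap (algebraMap R R') p).asIdeal.ResidueField p.asIdeal.ResidueField := IsScalarTower.of_algebraMap_eq (fun x => 
    (IsScalarTower.algebraMap_apply R R' p.asIdeal.ResidueField x).trans (Ideal.ResidueField.map_algebraMap _ _ (algebraMap R R') rfl x).symm)
  have e1 := (TensorProduct.AlgebraTensorModule.cancelBaseChange R R' R' p.asIdeal.ResidueField M).toEquiv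
  have e2 := (TensorProduct.AlgebraTensorModule.cancelBaseChange R (PrimeSpectrum.comap (algebraMap R R') p).asIdeal.ResidueField p.asIdeal.ResidueField p.asIdeal.ResidueField M).toEquiv
  refine (Equiv.nontrivial_congr e1).trans ((Equiv.nontrivial_congr e2).symm.trans ?_)
  exact Module.FaithfullyFlat.nontrivial_tensorProduct_iff_right _ _

end Groth.Agent.S6284
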