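import Groth.Statements.S6287
import Mathlib

set_option autoImplicit false
universe u
open CAlg

namespace Groth.Agent.S6287

/-- Let (A_i) be a directed system of valuation rings. Then the colimit A = colim A_i is a valuation
ring (in particular a domain). -/
theorem result {ι : Type u} [Preorder ι] [Nonempty ι] [IsDirected ι (· ≤ ·)] (G : ι → Type u) [∀ i, CommRing (G i)] [∀ i, IsDomain (G i)] [∀ i, ValuationRing (G i)] (f : ∀ i j, i ≤ j → G i →+* G j) [DirectedSystem G fun i j h => f i j h] : ∃ _ : IsDomain (Ring.DirectLimit G fun i j h => f i j h), ValuationRing (Ring.DirectLimit G fun i j h => f i j h) := by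
  have hpair : ∀ x y : Ring.DirectLimit G (fun i j h => f i j h), ∃ (k : ι) (a b : G k), Ring.DirectLimit.of G (fun i j h => f i j h) k a = x ∧ Ring.DirectLimit.of G (fun i j h => f i j h) k b = y := by
    intro x y
    obtain ⟨i, a, rfl⟩ := Ring.DirectLimit.exists_of x
    obtain ⟨j, b, rfl⟩ := Ring.DirectLimit.exists_of y
    obtain ⟨k, hik, hjk⟩ := exists_ge_ge i j
    exact ⟨k, f i k hik a, f j k hjk b, Ring.DirectLimit.of_f _ _, Ring.DirectLimit.of_f _ _⟩
  have hnt : Nontrivial (Ring.DirectLimit G (fun i j h => f i j h)) := by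
    refine ⟨⟨0, 1, fun h => ?_⟩⟩
    obtain ⟨i⟩ := ‹Nonempty ι›
    have h1 : Ring.DirectLimit.of G (fun i j h => f i j h) i 1 = 0 := by rw [map_one]; exact h.symm
    obtain ⟨j, hij, h2⟩ := Ring.DirectLimit.of.zero_exact h1
    rw [map_one] at h2
    exact one_ne_zero h2
  have hnzd : NoZeroDivisors (Ring.DirectLimit G (fun i j h => f i j h)) := ⟨by
    intro x y hxy
    obtain ⟨k, a, b, rfl, rfl⟩ := hpair x y
    rw [← map_mul] at hxy
    obtain ⟨j, hij, h2⟩ := Ring.DirectLimit.of.zero_exact hxy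
    rw [map_mul, mul_eq_zero] at h2
    rcases h2 with h2 | h2
    · left; rw [← Ring.DirectLimit.of_f (G := G) (f := fun i j h => f i j h) hij, h2, map_zero]
    · right; rw [← Ring.DirectLimit.of_f (G := G) (f := fun i j h => f i j h) hij, h2, map_zero]⟩
  have hdom : IsDomain (Ring.DirectLimit G (fun i j h => f i j h)) := NoZeroDivisors.to_isDomain _
  refine ⟨hdom, ?_⟩
  rw [ValuationRing.iff_dvd_total]
  refine ⟨fun x y => ?_⟩
  obtain ⟨k, a, b, rfl, rfl⟩ := hpair x y
  rcases (ValuationRing.iff_dvd_total.mp (inferInstance : ValuationRing (G k))).total a b with ⟨c, rfl⟩ | ⟨c, rfl⟩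
  · left; exact ⟨Ring.DirectLimit.of G (fun i j h => f i j h) k c, map_mul _ _ _⟩
  · right; exact ⟨Ring.DirectLimit.of G (fun i j h => f i j h) k c, map_mul _ _ _⟩

end Groth.Agent.S6287
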