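import Groth.Statements.S6288
import Mathlib

set_option autoImplicit false
universe u
open CAlg

namespace Groth.Agent.S6288

/-- Let L/K be an algebraic extension of fields and B ⊆ L a valuation ring with fraction field L which
is not a field. Then A = K ∩ B is a valuation ring of K (automatic) which is again not a field, i.e.
A ≠ K. -/
theorem result (K L : Type u) [Field K] [Field L] [Algebra K L] [Algebra.IsAlgebraic K L] (B : ValuationSubring L) (hB : B ≠ ⊤) : B.comap (algebraMap K L) ≠ ⊤ := by
  intro h
  apply hB
  rw [eq_top_iff]
  intro x _
  have hx : IsIntegral K x := Algebra.IsIntegral.isIntegral x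
  have hK : ∀ y : K, algebraMap K L y ∈ B := by
    intro y
    have : y ∈ B.comap (algebraMap K L) := by rw [h]; trivial
    exact this
  obtain ⟨p, hp, hpx⟩ := hx
  have : IsIntegral B x := by
    refine ⟨p.map (RingHom.codRestrict (algebraMap K L) B.toSubring hK), hp.map _, ?_⟩
    rw [Polynomial.eval₂_map]
    exact hpx
  obtain ⟨y, hy⟩ := (IsIntegrallyClosed.isIntegral_iff (R := B) (K := L)).mp this
  rw [← hy]; exact y.2

end Groth.Agent.S6288
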