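import Groth.Statements.S6289
import Mathlib

set_option autoImplicit false
universe u
open CAlg

namespace Groth.Agent.S6289

/-- Let A' be a valuation ring with residue field K and A ⊆ K a valuation ring with fraction field K.
Then the subring C of A' consisting of the elements whose residue class lies in A is a valuation
ring. -/
theorem result (A' : Type u) [CommRing A'] [IsDomain A'] [ValuationRing A'] (A : ValuationSubring (IsLocalRing.ResidueField A')) : ValuationRing (A.toSubring.comap (IsLocalRing.residue A')) := by
  rw [ValuationRing.iff_dvd_total]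
  refine ⟨fun a b => ?_⟩
  have key : ∀ (a b : A.toSubring.comap (IsLocalRing.residue A')) (c : A'), (a : A') * c = b → a ∣ b ∨ b ∣ a := by
    intro a b c hc
    by_cases h : IsLocalRing.residue A' c ∈ A
    · exact Or.inl ⟨⟨c, h⟩, (Subtype.ext hc).symm⟩
    · have h0 : IsLocalRing.residue A' c ≠ 0 := fun h0 => h (h0 ▸ A.zero_mem)
      have hu : IsUnit c := by
        rwa [IsLocalRing.residue_ne_zero_iff_isUnit] at h0
      obtain ⟨u, rfl⟩ := hu
      refine Or.inr ⟨⟨((u⁻¹ : A'ˣ) : A'), ?_⟩, (Subtype.ext ?_)⟩
      · have := (A.mem_or_inv_mem (IsLocalRing.residue A' u)).resolve_left h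
        change IsLocalRing.residue A' _ ∈ A
        have h9 : IsLocalRing.residue A' ((u⁻¹ : A'ˣ) : A') = (IsLocalRing.residue A' u)⁻¹ := by
          apply eq_inv_of_mul_eq_one_left
          rw [← map_mul, Units.inv_mul, map_one]
        rwa [h9]
      · change (a : A') = (b : A') * _
        rw [← hc, mul_assoc, Units.mul_inv, mul_one]
  obtain ⟨c, hc⟩ := ValuationRing.cond (a : A') (b : A')
  rcases hc with hc | hc
  · exact key a b c hc
  · exact (key b a c hc).symm

end Groth.Agent.S6289
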