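import Groth.Statements.S6290
import Mathlib

set_option autoImplicit false
universe u
open CAlg

namespace Groth.Agent.S6290

/-- Let R be a Noetherian ring, I ⊆ R an ideal, M a finite R-module and N = ⋂ₙ IⁿM. Then for every prime
p ⊇ I there is f ∈ R, f ∉ p, with N_f = 0, i.e. every element of N is annihilated by some power of
f. -/
theorem result {R : Type u} [CommRing R] [IsNoetherianRing R] (I : Ideal R) (M : Type u) [AddCommGroup M] [Module R M] [Module.Finite R M] (p : Ideal R) [p.IsPrime] (hIp : I ≤ p) : ∃ f : R, f ∉ p ∧ ∀ x ∈ (⨅ n : ℕ, I ^ n • (⊤ : Submodule R M)), ∃ k : ℕ, f ^ k • x = 0 := by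
  obtain ⟨s, hs⟩ := IsNoetherian.noetherian (⨅ n : ℕ, I ^ n • (⊤ : Submodule R M))
  have h1 : ∀ x ∈ s, ∃ r : I, (r : R) • x = x := by
    intro x hx
    have : x ∈ (⨅ n : ℕ, I ^ n • (⊤ : Submodule R M)) := hs ▸ Submodule.subset_span hx
    exact (Ideal.mem_iInf_smul_pow_eq_bot_iff I x).mp this
  choose! r hr using h1
  refine ⟨∏ x ∈ s, (1 - (r x : R)), ?_, ?_⟩
  · intro h
    rw [Ideal.IsPrime.prod_mem_iff] at h
    obtain ⟨x, hx, h⟩ := h
    apply (inferInstance : p.IsPrime).ne_top
    rw [Ideal.eq_top_iff_one]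
    have := p.add_mem h (hIp (r x).2)
    simpa using this
  · intro x hx
    refine ⟨1, ?_⟩
    rw [pow_one]
    rw [← hs] at hx
    have hle : Submodule.span R (s : Set M) ≤ LinearMap.ker (LinearMap.lsmul R M (∏ x ∈ s, (1 - (r x : R)))) := by
      rw [Submodule.span_le]
      intro y hy
      obtain ⟨d, hd⟩ := Finset.dvd_prod_of_mem (fun x => (1 - (r x : R))) hy
      rw [SetLike.mem_coe, LinearMap.mem_ker, LinearMap.lsmul_apply, hd, mul_comm, mul_smul, sub_smul, one_smul, hr y hy, sub_self, smul_zero]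
    exact hle hx

end Groth.Agent.S6290
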