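import Groth.Statements.S6291
import Mathlib

set_option autoImplicit false
universe u
open CAlg

namespace Groth.Agent.S6291

/-- Let R be a local ring with maximal ideal m and M an R-module of finite length. Then mⁿM = 0 for some
n. -/
theorem result {R : Type u} [CommRing R] [IsLocalRing R] (M : Type u) [AddCommGroup M] [Module R M] (hM : IsFiniteLength R M) : ∃ n : ℕ, (IsLocalRing.maximalIdeal R) ^ n • (⊤ : Submodule R M) = ⊥ := by
  obtain ⟨h1, h2⟩ := isFiniteLength_iff_isNoetherian_isArtinian.mp hM
  have hanti : Antitone (fun n : ℕ => (IsLocalRing.maximalIdeal R) ^ n • (⊤ : Submodule R M)) := by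
    intro a b hab
    exact Submodule.smul_mono_left (Ideal.pow_le_pow_right hab)
  obtain ⟨n, hn⟩ := IsArtinian.monotone_stabilizes (R := R) (M := M) ⟨fun n => OrderDual.toDual ((IsLocalRing.maximalIdeal R) ^ n • (⊤ : Submodule R M)), fun a b hab => hanti hab⟩
  refine ⟨n, ?_⟩
  have h3 : (IsLocalRing.maximalIdeal R) ^ n • (⊤ : Submodule R M) = (IsLocalRing.maximalIdeal R) ^ (n+1) • (⊤ : Submodule R M) := hn (n+1) (Nat.le_succ n)
  refine Submodule.eq_bot_of_le_smul_of_le_jacobson_bot (IsLocalRing.maximalIdeal R) _ (IsNoetherian.noetherian _) ?_ (IsLocalRing.maximalIdeal_le_jacobson _)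
  rw [← mul_smul, ← pow_succ']
  exact h3.le

end Groth.Agent.S6291
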