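import Groth.Statements.S6292
import Mathlib

set_option autoImplicit false
universe u
open CAlg

namespace Groth.Agent.S6292

/-- Let R be a ring and m ⊆ R a finitely generated maximal ideal (for instance R Noetherian). If M is a
finite R-module with mⁿM = 0 for some n, then M has finite length. -/
theorem result {R : Type u} [CommRing R] (m : Ideal R) [m.IsMaximal] (hm : m.FG) (M : Type u) [AddCommGroup M] [Module R M] [Module.Finite R M] (n : ℕ) (hn : m ^ n • (⊤ : Submodule R M) = ⊥) : IsFiniteLength R M := by
  induction n generalizing M with
  | zero =>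
    have : Subsingleton M := by
      rw [pow_zero, Ideal.one_eq_top, Submodule.top_smul] at hn
      exact (Submodule.subsingleton_iff R).mp (subsingleton_of_bot_eq_top hn.symm) 
    exact IsFiniteLength.of_subsingleton
  | succ n ih =>
    have h1 : Module.Finite R (m • (⊤ : Submodule R M) : Submodule R M) := by
      rw [Module.Finite.iff_fg]
      exact Submodule.FG.smul hm Module.Finite.fg_top
    have h2 := ih (m • (⊤ : Submodule R M) : Submodule R M) (by
      apply Submodule.map_injective_of_injective (Submodule.injective_subtype (m • (⊤ : Submodule R M)))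
      rw [Submodule.map_smul'', Submodule.map_bot, Submodule.map_top, Submodule.range_subtype, ← mul_smul, ← pow_succ]
      exact hn)
    rw [isFiniteLength_iff_isNoetherian_isArtinian] at h2 ⊢
    rw [isNoetherian_iff_submodule_quotient (m • (⊤ : Submodule R M)), isArtinian_iff_submodule_quotient (m • (⊤ : Submodule R M))]
    letI : Field (R ⧸ m) := Ideal.Quotient.field m
    have h3 : Module.Finite (R ⧸ m) (M ⧸ m • (⊤ : Submodule R M)) := Module.Finite.of_restrictScalars_finite R _ _
    have h4 : IsArtinian (R ⧸ m) (M ⧸ m • (⊤ : Submodule R M)) := inferInstance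
    have h5 : IsNoetherian (R ⧸ m) (M ⧸ m • (⊤ : Submodule R M)) := inferInstance
    have h6 : IsArtinian R (M ⧸ m • (⊤ : Submodule R M)) := isArtinian_of_surjective_algebraMap (R := R ⧸ m) Ideal.Quotient.mk_surjective
    have h7 : IsNoetherian R (M ⧸ m • (⊤ : Submodule R M)) := by
      refine ⟨fun N' => ?_⟩
      let N'' : Submodule (R ⧸ m) (M ⧸ m • (⊤ : Submodule R M)) :=
        { N' with
          smul_mem' := by
            intro c x hx
            obtain ⟨r, rfl⟩ := Ideal.Quotient.mk_surjective c
            have h8 : (Ideal.Quotient.mk m r) • x = r • x := by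
              rw [← Ideal.Quotient.algebraMap_eq, algebraMap_smul]
            rw [h8]
            exact N'.smul_mem r hx }
      have h9 : N''.restrictScalars R = N' := rfl
      rw [← h9]
      exact Submodule.fg_restrictScalars (h5.noetherian N'') Ideal.Quotient.mk_surjective
    exact ⟨⟨h2.1, h7⟩, ⟨h2.2, h6⟩⟩

end Groth.Agent.S6292
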