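import Groth.Statements.S6293
import Mathlib

set_option autoImplicit false
universe u
open CAlg

namespace Groth.Agent.S6293

/-- Let R be a ring and L, M, N R-modules. If M is finite projective, then the natural map from Hom_R(M,
N) ⊗_R L to Hom_R(M, N ⊗_R L) is bijective. -/
theorem result (R : Type u) [CommRing R] (L M N : Type u) [AddCommGroup L] [Module R L] [AddCommGroup M] [Module R M] [AddCommGroup N] [Module R N] [Module.Finite R M] [Module.Projective R M] : Function.Bijective (TensorProduct.rTensorHomToHomRTensor (RingHom.id R) M N L) := by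
  obtain ⟨n, g, f, hg, hf, hfg⟩ := Module.Finite.exists_comp_eq_id_of_projective R M
  have hfree : Function.Bijective (TensorProduct.rTensorHomToHomRTensor (RingHom.id R) (Fin n → R) N L) := by
    have := (rTensorHomEquivHomRTensor R (Fin n → R) N L).bijective
    rwa [← LinearEquiv.coe_coe, rTensorHomEquivHomRTensor_toLinearMap] at this
  have hnat : ∀ (A B : Type u) [AddCommGroup A] [Module R A] [AddCommGroup B] [Module R B] (h : A →ₗ[R] B) (x : TensorProduct R (B →ₗ[R] N) L), TensorProduct.rTensorHomToHomRTensor (RingHom.id R) A N L ((LinearMap.lcomp R N h).rTensor L x) = (TensorProduct.rTensorHomToHomRTensor (RingHom.id R) B N L x) ∘ₗ h := by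
    intro A B _ _ _ _ h x
    induction x with
    | zero => simp
    | add x y hx hy => rw [map_add, map_add, hx, hy, map_add, LinearMap.add_comp]
    | tmul a b => 
      ext z
      simp
  constructor
  · intro x y hxy
    have h1 : (LinearMap.lcomp R N g).rTensor L x = (LinearMap.lcomp R N g).rTensor L y := by
      apply hfree.1
      rw [hnat, hnat, hxy]
    have h2 : ∀ z : TensorProduct R (M →ₗ[R] N) L, (LinearMap.lcomp R N f).rTensor L ((LinearMap.lcomp R N g).rTensor L z) = z := by
      intro z
      rw [← LinearMap.comp_apply, ← LinearMap.rTensor_comp]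
      have : (LinearMap.lcomp R N f) ∘ₗ (LinearMap.lcomp R N g) = LinearMap.id := by
        ext φ m
        simp only [LinearMap.comp_apply, LinearMap.lcomp_apply, LinearMap.id_apply]
        exact congrArg φ (LinearMap.congr_fun hfg m)
      rw [this, LinearMap.rTensor_id, LinearMap.id_apply]
    rw [← h2 x, ← h2 y, h1]
  · intro φ
    obtain ⟨x, hx⟩ := hfree.2 (φ ∘ₗ g)
    refine ⟨(LinearMap.lcomp R N f).rTensor L x, ?_⟩
    rw [hnat, hx, LinearMap.comp_assoc, hfg, LinearMap.comp_id]

end Groth.Agent.S6293
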