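import Groth.Statements.S6294
import Mathlib

set_option autoImplicit false
universe u
open CAlg

namespace Groth.Agent.S6294

/-- Let R be a ring with finitely many minimal primes q₁, …, q_t, and assume that the zerodivisors of R
are precisely the elements of q₁ ∪ … ∪ q_t. Then Q(R), the total ring of fractions of R, equals
R_{q₁} × … × R_{q_t}: the diagonal map R → ∏ R_{q_i} is a localization of R at its non-zerodivisors. -/
theorem result {R : Type u} [CommRing R] {ι : Type} [Fintype ι] (q : ι → Ideal R) [∀ i, (q i).IsPrime] (hinj : Function.Injective q) (hmin : ∀ P : Ideal R, P ∈ minimalPrimes R ↔ P ∈ Set.range q) (hzd : ∀ x : R, x ∈ nonZeroDivisors R ↔ ∀ i, x ∉ q i) : IsLocalization (nonZeroDivisors R) (∀ i, Localization.AtPrime (q i)) := by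
  classical
  have hunit : ∀ (i : ι) (x : R), x ∉ q i → IsUnit (algebraMap R (Localization.AtPrime (q i)) x) := fun i x hx => IsLocalization.map_units _ (⟨x, hx⟩ : (q i).primeCompl)
  -- for i ≠ j, no inclusions
  have hne : ∀ i j, i ≠ j → ¬ q i ≤ q j := by
    intro i j hij hle
    have h1 := (hmin (q j)).mpr ⟨j, rfl⟩
    have h2 := (hmin (q i)).mpr ⟨i, rfl⟩
    have h3 : q j ≤ q i := h1.2 ⟨inferInstance, bot_le⟩ hle
    exact hij (hinj (le_antisymm hle h3))
  -- elements x_i: x_i ∉ q i, x_i ∈ q j, and moreover image of x_i in R_{q j} is zero for j ≠ i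
  have hidem : ∀ i, ∃ x : R, x ∉ q i ∧ ∀ j, j ≠ i → algebraMap R (Localization.AtPrime (q j)) x = 0 := by
    intro i
    have h1 : ∀ j, j ≠ i → ∃ x : R, x ∉ q i ∧ algebraMap R (Localization.AtPrime (q j)) x = 0 := by
      intro j hj
      obtain ⟨a, haj, hai⟩ := Set.not_subset.mp (hne j i hj)
      -- a ∈ q j minimal, so a becomes nilpotent in R_{q j}
      have hrad := IsLocalization.AtPrime.radical_map_of_mem_minimalPrimes (A := Localization.AtPrime (q j)) (q j) ⊥ ((hmin (q j)).mpr ⟨j, rfl⟩)
      rw [Ideal.map_bot] at hrad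
      have h2 : algebraMap R (Localization.AtPrime (q j)) a ∈ (q j).map (algebraMap R (Localization.AtPrime (q j))) := Ideal.mem_map_of_mem _ haj
      rw [← hrad] at h2
      obtain ⟨n, hn⟩ := h2
      refine ⟨a ^ n, fun h => hai ((inferInstance : (q i).IsPrime).mem_of_pow_mem n h), ?_⟩
      rw [map_pow]
      exact hn
    choose! x hx1 hx2 using h1
    refine ⟨∏ j ∈ Finset.univ.erase i, x j, ?_, ?_⟩
    · rw [Ideal.IsPrime.prod_mem_iff]
      rintro ⟨j, hj, h⟩
      exact hx1 j (Finset.mem_erase.mp hj).1 h
    · intro j hj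
      rw [map_prod]
      exact Finset.prod_eq_zero (Finset.mem_erase.mpr ⟨hj, Finset.mem_univ j⟩) (hx2 j hj)
  choose x hx1 hx2 using hidem
  refine ⟨?_, ?_, ?_⟩
  · rintro ⟨y, hy⟩
    rw [Pi.isUnit_iff]
    intro i
    exact hunit i y ((hzd y).mp hy i)
  · intro z
    -- z i = a i / s i
    have h1 : ∀ i, ∃ (a s : R), s ∉ q i ∧ z i * algebraMap R _ s = algebraMap R _ a := by
      intro i
      obtain ⟨⟨a, s⟩, h⟩ := IsLocalization.surj (q i).primeCompl (z i)
      exact ⟨a, s, s.2, h⟩
    choose a s hs hz using h1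
    let t : R := ∑ i, s i * x i
    let b : R := ∑ i, a i * x i
    have hmap : ∀ (c : ι → R) (i : ι), algebraMap R (Localization.AtPrime (q i)) (∑ j, c j * x j) = algebraMap R _ (c i) * algebraMap R _ (x i) := by
      intro c i
      rw [map_sum, Finset.sum_eq_single i]
      · rw [map_mul]
      · intro j _ hj
        rw [map_mul, hx2 j i hj.symm, mul_zero]
      · intro h; exact absurd (Finset.mem_univ i) h
    have ht : t ∈ nonZeroDivisors R := by
      rw [hzd]
      intro i hti
      have h2 : IsUnit (algebraMap R (Localization.AtPrime (q i)) t) := by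
        rw [hmap s i]
        exact (hunit i _ (hs i)).mul (hunit i _ (hx1 i))
      have h3 : algebraMap R (Localization.AtPrime (q i)) t ∈ IsLocalRing.maximalIdeal (Localization.AtPrime (q i)) := by
        rw [← Localization.AtPrime.map_eq_maximalIdeal]
        exact Ideal.mem_map_of_mem _ hti
      exact (IsLocalRing.mem_maximalIdeal _).mp h3 h2
    refine ⟨⟨b, ⟨t, ht⟩⟩, ?_⟩
    ext i
    change z i * algebraMap R (Localization.AtPrime (q i)) t = algebraMap R (Localization.AtPrime (q i)) b
    rw [hmap s i, hmap a i, ← mul_assoc, hz i]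
  · intro y z hyz
    -- y - z is killed by nonzerodivisor
    have h1 : ∀ i, ∃ s : R, s ∉ q i ∧ s * y = s * z := by
      intro i
      have h2 := congrFun hyz i
      have h3 : algebraMap R (Localization.AtPrime (q i)) y = algebraMap R (Localization.AtPrime (q i)) z := h2
      obtain ⟨s, hs⟩ := (IsLocalization.eq_iff_exists (q i).primeCompl _).mp h3
      exact ⟨s, s.2, hs⟩
    choose s hs hsy using h1
    let t : R := ∑ i, s i * x i
    have hmap : ∀ (c : ι → R) (i : ι), algebraMap R (Localization.AtPrime (q i)) (∑ j, c j * x j) = algebraMap R _ (c i) * algebraMap R _ (x i) := by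
      intro c i
      rw [map_sum, Finset.sum_eq_single i]
      · rw [map_mul]
      · intro j _ hj
        rw [map_mul, hx2 j i hj.symm, mul_zero]
      · intro h; exact absurd (Finset.mem_univ i) h
    have ht : t ∈ nonZeroDivisors R := by
      rw [hzd]
      intro i hti
      have h2 : IsUnit (algebraMap R (Localization.AtPrime (q i)) t) := by
        rw [hmap s i]
        exact (hunit i _ (hs i)).mul (hunit i _ (hx1 i))
      have h3 : algebraMap R (Localization.AtPrime (q i)) t ∈ IsLocalRing.maximalIdeal (Localization.AtPrime (q i)) := by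
        rw [← Localization.AtPrime.map_eq_maximalIdeal]
        exact Ideal.mem_map_of_mem _ hti
      exact (IsLocalRing.mem_maximalIdeal _).mp h3 h2
    refine ⟨⟨t, ht⟩, ?_⟩
    change t * y = t * z
    change (∑ i, s i * x i) * y = (∑ i, s i * x i) * z
    rw [Finset.sum_mul, Finset.sum_mul]
    apply Finset.sum_congr rfl
    intro i _
    have h4 : s i * x i * y = x i * (s i * y) := by ring
    have h5 : s i * x i * z = x i * (s i * z) := by ring
    rw [h4, h5, hsy i]

end Groth.Agent.S6294
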