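import Groth.Statements.S6295
import Mathlib

set_option autoImplicit false
universe u
open CAlg

namespace Groth.Agent.S6295

/-- Let R be a reduced ring. Then every localization R_p at a minimal prime p is a field and the map R →
∏_{p minimal} R_p is injective (so R is a subring of a product of fields); moreover the set of
zerodivisors of R is the union of the minimal primes. -/
theorem result (R : Type u) [CommRing R] [IsReduced R] : (∀ p : PrimeSpectrum R, p.asIdeal ∈ minimalPrimes R → IsField (Localization.AtPrime p.asIdeal)) ∧ Function.Injective (algebraMap R (∀ p : {p : PrimeSpectrum R // p.asIdeal ∈ minimalPrimes R}, Localization.AtPrime p.1.asIdeal)) ∧ (∀ x : R, x ∉ nonZeroDivisors R ↔ ∃ p ∈ minimalPrimes R, x ∈ p) := by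
  have hmem : ∀ x : R, (∀ p ∈ minimalPrimes R, x ∈ p) → x = 0 := by
    intro x hx
    have : x ∈ sInf (Ideal.minimalPrimes (⊥ : Ideal R)) := by
      rw [Ideal.mem_sInf]
      intro p hp
      exact hx p hp
    rw [Ideal.sInf_minimalPrimes] at this
    have h2 : IsNilpotent x := this
    exact h2.eq_zero
  refine ⟨?_, ?_, ?_⟩
  · intro p hp
    rw [IsLocalRing.isField_iff_maximalIdeal_eq, eq_bot_iff]
    intro x hx
    have h1 : (⊥ : Ideal (Localization.AtPrime p.asIdeal)).radical = IsLocalRing.maximalIdeal _ := by
      have := IsLocalization.AtPrime.radical_map_of_mem_minimalPrimes (A := Localization.AtPrime p.asIdeal) p.asIdeal ⊥ hp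
      rw [Ideal.map_bot] at this
      rw [this, Localization.AtPrime.map_eq_maximalIdeal]
    rw [← h1] at hx
    have h2 : IsNilpotent x := hx
    exact h2.eq_zero
  · rw [injective_iff_map_eq_zero]
    intro x hx
    apply hmem
    intro p hp
    haveI := hp.1.1
    by_contra hxp
    have h1 := congrFun hx ⟨⟨p, this⟩, hp⟩
    have h2 : IsUnit (algebraMap R (Localization.AtPrime p) x) := IsLocalization.map_units (Localization.AtPrime p) (⟨x, hxp⟩ : p.primeCompl)
    have h3 : algebraMap R (Localization.AtPrime p) x = 0 := h1
    rw [h3] at h2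
    exact not_isUnit_zero h2
  · intro x
    constructor
    · intro hx
      rw [mem_nonZeroDivisors_iff_right] at hx
      push Not at hx
      obtain ⟨y, hy, hy0⟩ := hx
      by_contra hcon
      push Not at hcon
      apply hy0
      apply hmem
      intro p hp
      haveI := hp.1.1
      have : y * x ∈ p := by rw [hy]; exact p.zero_mem
      exact (hp.1.1.mem_or_mem this).resolve_right (hcon p hp)
    · rintro ⟨p, hp, hxp⟩ hx
      exact Set.disjoint_left.mp (Ideal.disjoint_nonZeroDivisors_of_mem_minimalPrimes hp) hxp hx

end Groth.Agent.S6295
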