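import Groth.Statements.S6296
import Mathlib

set_option autoImplicit false
universe u
open CAlg

namespace Groth.Agent.S6296

/-- Let A → B be a local homomorphism of local rings such that (1) B is a finite A-module, (2) the
maximal ideal m_B is finitely generated, (3) the induced map of residue fields is an isomorphism,
and (4) m_A/m_A² → m_B/m_B² is surjective, i.e. m_B ⊆ m_A B + m_B². Then A → B is surjective. -/
theorem result {A B : Type u} [CommRing A] [CommRing B] [IsLocalRing A] [IsLocalRing B] [Algebra A B] [IsLocalHom (algebraMap A B)] [Module.Finite A B] (hfg : (IsLocalRing.maximalIdeal B).FG) (hres : Function.Surjective (IsLocalRing.ResidueField.map (algebraMap A B))) (hcot : IsLocalRing.maximalIdeal B ≤ (IsLocalRing.maximalIdeal A).map (algebraMap A B) ⊔ (IsLocalRing.maximalIdeal B) ^ 2) : Function.Surjective (algebraMap A B) := by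
  have hmB : (IsLocalRing.maximalIdeal A).map (algebraMap A B) = IsLocalRing.maximalIdeal B := by
    apply le_antisymm
    · exact ((IsLocalRing.local_hom_TFAE (algebraMap A B)).out 0 2).mp ‹IsLocalHom (algebraMap A B)›
    · apply Submodule.le_of_le_smul_of_le_jacobson_bot hfg (IsLocalRing.maximalIdeal_le_jacobson _)
      rw [smul_eq_mul, ← pow_two]
      exact hcot
  have h1 : LinearMap.range (Algebra.linearMap A B) = ⊤ := by
    rw [eq_top_iff]
    apply Submodule.le_of_le_smul_of_le_jacobson_bot (I := IsLocalRing.maximalIdeal A) Module.Finite.fg_top (IsLocalRing.maximalIdeal_le_jacobson _)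
    intro b _
    obtain ⟨a', ha⟩ := hres (IsLocalRing.residue B b)
    obtain ⟨a, rfl⟩ := IsLocalRing.residue_surjective a'
    rw [IsLocalRing.ResidueField.map_residue] at ha
    have h2 : b - algebraMap A B a ∈ IsLocalRing.maximalIdeal B := by
      rw [← IsLocalRing.residue_eq_zero_iff, map_sub, ha, sub_self]
    rw [← hmB] at h2
    have h3 : b - algebraMap A B a ∈ IsLocalRing.maximalIdeal A • (⊤ : Submodule A B) := by
      rw [Ideal.smul_top_eq_map]
      exact h2
    have h4 : b = algebraMap A B a + (b - algebraMap A B a) := by ring
    rw [h4]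
    exact Submodule.add_mem_sup ⟨a, rfl⟩ h3
  exact LinearMap.range_eq_top.mp h1

end Groth.Agent.S6296
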