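import Groth.Statements.S6298
import Mathlib

set_option autoImplicit false
universe u
open CAlg

namespace Groth.Agent.S6298

/-- Let R be a ring, x ∈ R, I ⊆ R an ideal and p₁, …, p_r prime ideals such that for each i the coset x
+ I is not contained in p_i. Then there is y ∈ I with x + y ∉ p_i for all i. -/
theorem result {R : Type u} [CommRing R] (x : R) (I : Ideal R) {r : ℕ} (p : Fin r → Ideal R) [∀ i, (p i).IsPrime] (h : ∀ i, ∃ y ∈ I, x + y ∉ p i) : ∃ y ∈ I, ∀ i, x + y ∉ p i := by
  classical
  -- by strong form of prime avoidance for cosets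
  induction r with
  | zero => exact ⟨0, I.zero_mem, fun i => i.elim0⟩
  | succ r ih =>
    -- choose an index whose prime is minimal among all
    obtain ⟨i₀, hi₀⟩ : ∃ i₀ : Fin (r+1), ∀ j, p j ≤ p i₀ → p j = p i₀ := by
      obtain ⟨i₀, -, h0⟩ := Finset.exists_minimalFor p Finset.univ Finset.univ_nonempty
      exact ⟨i₀, fun j hj => le_antisymm hj (h0 (Finset.mem_univ j) hj)⟩
    obtain ⟨y, hy, hy2⟩ := ih (fun j => p (i₀.succAbove j)) (fun j => h _)
    by_cases hc : x + y ∈ p i₀
    · -- I not in p i₀
      have hI : ¬ I ≤ p i₀ := by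
        intro hI
        obtain ⟨z, hz, hz2⟩ := h i₀
        apply hz2
        have : x + z = (x + y) + (z - y) := by ring
        rw [this]
        exact (p i₀).add_mem hc (hI (I.sub_mem hz hy))
      have hj : ∀ j : Fin r, ¬ p (i₀.succAbove j) ≤ p i₀ := by
        intro j hj
        have := hi₀ _ hj
        exact hy2 j (this ▸ hc)
      obtain ⟨a, haI, ha⟩ := Set.not_subset.mp hI
      have hb : ∃ b : Fin r → R, ∀ j, b j ∈ p (i₀.succAbove j) ∧ b j ∉ p i₀ := by
        choose b hb using fun j => Set.not_subset.mp (hj j)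
        exact ⟨b, hb⟩
      obtain ⟨b, hb⟩ := hb
      refine ⟨y + a * ∏ j, b j, I.add_mem hy (I.mul_mem_right _ haI), ?_⟩
      intro i
      rcases Fin.eq_self_or_eq_succAbove i₀ i with rfl | ⟨j, rfl⟩
      · intro hmem
        rw [← add_assoc] at hmem
        have h3 := (Ideal.add_mem_iff_right _ hc).mp hmem
        rcases (inferInstance : (p i).IsPrime).mem_or_mem h3 with h4 | h4
        · exact ha h4
        · rw [Ideal.IsPrime.prod_mem_iff] at h4
          obtain ⟨j, _, h5⟩ := h4
          exact (hb j).2 h5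
      · intro hmem
        rw [← add_assoc] at hmem
        have h6 : a * ∏ j, b j ∈ p (i₀.succAbove j) := by
          apply Ideal.mul_mem_left
          exact Ideal.mem_of_dvd _ (Finset.dvd_prod_of_mem b (Finset.mem_univ j)) (hb j).1
        exact hy2 j ((Ideal.add_mem_iff_left _ h6).mp hmem)
    · refine ⟨y, hy, fun i => ?_⟩
      rcases Fin.eq_self_or_eq_succAbove i₀ i with rfl | ⟨j, rfl⟩
      · exact hc
      · exact hy2 j

end Groth.Agent.S6298
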