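import Groth.Statements.S6300
import Mathlib

set_option autoImplicit false
universe u
open CAlg

namespace Groth.Agent.S6300

/-- Let R be a normal ring (every localization at a prime is an integrally closed domain). Then R[x] is
a normal ring. -/
theorem result (R : Type u) [CommRing R] (hR : EGA4.IsNormalRing R) : EGA4.IsNormalRing (Polynomial R) := by
  intro q hq
  let p : Ideal R := q.comap Polynomial.C
  haveI : p.IsPrime := Ideal.comap_isPrime _ _
  obtain ⟨h1, h2⟩ := hR p
  let Rp := Localization.AtPrime p
  letI : Algebra (Polynomial R) (Polynomial Rp) := (Polynomial.mapRingHom (algebraMap R Rp)).toAlgebra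
  haveI hloc : IsLocalization (p.primeCompl.map Polynomial.C) (Polynomial Rp) := Polynomial.isLocalization p.primeCompl Rp
  have hle : (p.primeCompl.map Polynomial.C) ≤ q.primeCompl := by
    rintro _ ⟨x, hx, rfl⟩
    exact hx
  let T := Localization.AtPrime q
  letI : Algebra (Polynomial Rp) T := IsLocalization.localizationAlgebraOfSubmonoidLe (Polynomial Rp) T _ q.primeCompl hle
  haveI : IsScalarTower (Polynomial R) (Polynomial Rp) T := IsLocalization.localization_isScalarTower_of_submonoid_le (Polynomial Rp) T _ q.primeCompl hle
  haveI h3 := IsLocalization.isLocalization_of_submonoid_le (Polynomial Rp) T _ q.primeCompl hle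
  have h4 : q.primeCompl.map (algebraMap (Polynomial R) (Polynomial Rp)) ≤ nonZeroDivisors (Polynomial Rp) := by
    rintro _ ⟨x, hx, rfl⟩
    apply mem_nonZeroDivisors_of_ne_zero
    intro h0
    have h5 : algebraMap (Polynomial R) T x = 0 := by
      rw [IsScalarTower.algebraMap_apply (Polynomial R) (Polynomial Rp) T, h0, map_zero]
    have h6 : IsUnit (algebraMap (Polynomial R) T x) := IsLocalization.map_units T (⟨x, hx⟩ : q.primeCompl)
    rw [h5] at h6
    exact not_isUnit_zero h6
  haveI h7 : IsDomain T := IsLocalization.isDomain_of_le_nonZeroDivisors T h4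
  exact ⟨h7, isIntegrallyClosed_of_isLocalization (R := Polynomial Rp) T _ h4⟩

end Groth.Agent.S6300
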