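import Groth.Statements.S6301
import Mathlib

set_option autoImplicit false
universe u
open CAlg

namespace Groth.Agent.S6301

/-- An R-module M is flat exactly when, for every finitely presented R-module P and every surjective
R-module map N → M, the induced map Hom_R(P, N) → Hom_R(P, M) is surjective (modules P, N taken in
the same universe). -/
theorem result {R : Type u} [CommRing R] (M : Type u) [AddCommGroup M] [Module R M] : Module.Flat R M ↔ ∀ (P : Type u) [AddCommGroup P] [Module R P], Module.FinitePresentation R P → ∀ (N : Type u) [AddCommGroup N] [Module R N] (g : N →ₗ[R] M), Function.Surjective g → ∀ h : P →ₗ[R] M, ∃ h' : P →ₗ[R] N, g.comp h' = h := by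
  constructor
  · intro hM P _ _ hP N _ _ g hg h
    obtain ⟨k, h2, h3, h1⟩ := Module.Flat.exists_factorization_of_finitePresentation (R := R) (M := M) h
    obtain ⟨h4, h5⟩ := Module.projective_lifting_property g h3 hg
    refine ⟨h4 ∘ₗ h2, ?_⟩
    rw [← LinearMap.comp_assoc, h5, ← h1]
  · intro H
    rw [Module.Flat.iff_forall_exists_factorization]
    intro l f x hfx
    have hfp : Module.FinitePresentation R ((Fin l →₀ R) ⧸ (Submodule.span R {f})) := by
      apply Module.finitePresentation_of_surjective (Submodule.mkQ _) (Submodule.mkQ_surjective _)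
      rw [Submodule.ker_mkQ]
      exact Submodule.fg_span_singleton f
    let e : (ULift.{u} (Fin l) →₀ R) ≃ₗ[R] (Fin l →₀ R) := Finsupp.domLCongr Equiv.ulift
    obtain ⟨h', hh'⟩ := H ((Fin l →₀ R) ⧸ (Submodule.span R {f})) hfp (M →₀ R) (Finsupp.linearCombination R id) (Finsupp.linearCombination_id_surjective R M)
      ((Submodule.span R {f}).liftQ x (by
        rw [Submodule.span_singleton_le_iff_mem, LinearMap.mem_ker, hfx]))
    obtain ⟨k, h2, h3, h1⟩ := Module.Flat.exists_factorization_of_finitePresentation (R := R) (M := (M →₀ R)) h'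
    refine ⟨k, h2 ∘ₗ (Submodule.mkQ _), (Finsupp.linearCombination R id) ∘ₗ h3, ?_, ?_⟩
    · have h7 := congrArg (fun z => z ∘ₗ (Submodule.span R {f}).mkQ) hh'
      simp only [Submodule.liftQ_mkQ] at h7
      rw [← h7, h1]
      rfl
    · rw [LinearMap.comp_apply, Submodule.mkQ_apply, (Submodule.Quotient.mk_eq_zero _).mpr (Submodule.mem_span_singleton_self f), map_zero]

end Groth.Agent.S6301
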