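import Groth.Statements.S6302
import Mathlib

set_option autoImplicit false
universe u
open CAlg

namespace Groth.Agent.S6302

theorem split_of_pure {R : Type u} [CommRing R] {M₁ M₂ M₃ : Type u} [AddCommGroup M₁] [Module R M₁] [AddCommGroup M₂] [Module R M₂] [AddCommGroup M₃] [Module R M₃] [Module.FinitePresentation R M₃] (f : M₁ →ₗ[R] M₂) (g : M₂ →ₗ[R] M₃) (hexact : Function.Exact f g) (hg : Function.Surjective g) (hf : CAlgX.UniversallyInjective R f) : ∃ s : M₃ →ₗ[R] M₂, g.comp s = LinearMap.id := by
  classical
  obtain ⟨n, π, hπ⟩ := Module.Finite.exists_fin' R M₃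
  have hker : (LinearMap.ker π).FG := Module.FinitePresentation.fg_ker π hπ
  obtain ⟨m, k, hk⟩ := Submodule.fg_iff_exists_fin_generating_family.mp hker
  obtain ⟨b, hb⟩ := Module.projective_lifting_property g π hg
  have hkj : ∀ j, π (k j) = 0 := fun j => by
    have : k j ∈ LinearMap.ker π := hk ▸ Submodule.subset_span ⟨j, rfl⟩
    exact this
  have ha : ∀ j, ∃ a : M₁, f a = b (k j) := by
    intro j
    apply (hexact _).mp
    rw [← LinearMap.comp_apply, hb, hkj]
  choose a ha using ha
  let T : (Fin n → R) →ₗ[R] (Fin m → R) := LinearMap.pi (fun j => ∑ i, k j i • LinearMap.proj i)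
  have hT : ∀ r j, T r j = ∑ i, k j i * r i := by
    intro r j
    simp [T, LinearMap.sum_apply]
  have hbk : ∀ j, b (k j) = ∑ i, k j i • b (Pi.single i 1) := by
    intro j
    conv_lhs => rw [pi_eq_sum_univ' (k j), map_sum]
    apply Finset.sum_congr rfl
    intro i _
    rw [map_smul]
  have hTe : ∀ i, T (Pi.single i 1) = ∑ j, k j i • (Pi.single j (1 : R) : Fin m → R) := by
    intro i
    ext j
    rw [hT]
    simp [Finset.sum_apply, Pi.single_apply]
  have hex : Function.Exact T (LinearMap.range T).mkQ := by rw [LinearMap.exact_iff, Submodule.ker_mkQ]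
  have hx : (LinearMap.range T).mkQ.lTensor M₁ (∑ j, TensorProduct.tmul R (a j) (Pi.single j (1 : R) : Fin m → R)) = 0 := by
    apply hf
    rw [map_zero, map_sum, map_sum]
    simp only [LinearMap.lTensor_tmul, LinearMap.rTensor_tmul, ha, hbk]
    simp only [TensorProduct.sum_tmul, TensorProduct.smul_tmul]
    rw [Finset.sum_comm]
    apply Finset.sum_eq_zero
    intro i _
    rw [← TensorProduct.tmul_sum]
    have : ∑ j, k j i • (LinearMap.range T).mkQ (Pi.single j (1 : R) : Fin m → R) = 0 := by
      simp only [← map_smul]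
      rw [← map_sum, ← hTe, Submodule.mkQ_apply, Submodule.Quotient.mk_eq_zero]
      exact ⟨_, rfl⟩
    rw [this, TensorProduct.tmul_zero]
  obtain ⟨w, hw⟩ := (lTensor_exact M₁ hex (Submodule.mkQ_surjective _) _).mp hx
  have hps : ∀ w : TensorProduct R M₁ (Fin n → R), ∀ j, TensorProduct.piScalarRight R R M₁ (Fin m) (T.lTensor M₁ w) j = ∑ i, k j i • TensorProduct.piScalarRight R R M₁ (Fin n) w i := by
    intro w j
    induction w with
    | zero => simp
    | add x y hx hy => rw [map_add, map_add, map_add, Pi.add_apply, hx, hy, ← Finset.sum_add_distrib]; simp only [Pi.add_apply, smul_add]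
    | tmul x r =>
      rw [LinearMap.lTensor_tmul, TensorProduct.piScalarRight_apply, TensorProduct.piScalarRight_apply, TensorProduct.piScalarRightHom_tmul, TensorProduct.piScalarRightHom_tmul]
      change T r j • x = ∑ i, k j i • (r i • x)
      rw [hT, Finset.sum_smul]
      simp only [mul_smul]
  have hc : ∀ j, a j = ∑ i, k j i • TensorProduct.piScalarRight R R M₁ (Fin n) w i := by
    intro j
    rw [← hps, hw, map_sum, Finset.sum_apply]
    simp [TensorProduct.piScalarRight_apply, TensorProduct.piScalarRightHom_tmul, Pi.single_apply]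
  let c : (Fin n → R) →ₗ[R] M₁ := Fintype.linearCombination R (TensorProduct.piScalarRight R R M₁ (Fin n) w)
  have hck : ∀ j, c (k j) = a j := by
    intro j
    rw [hc j]
    rfl
  have hkill : LinearMap.ker π ≤ LinearMap.ker (b - f ∘ₗ c) := by
    rw [← hk, Submodule.span_le]
    rintro _ ⟨j, rfl⟩
    rw [SetLike.mem_coe, LinearMap.mem_ker, LinearMap.sub_apply, LinearMap.comp_apply, hck, ha, sub_self]
  refine ⟨((LinearMap.ker π).liftQ (b - f ∘ₗ c) hkill) ∘ₗ (π.quotKerEquivOfSurjective hπ).symm.toLinearMap, ?_⟩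
  refine LinearMap.ext fun x => ?_
  obtain ⟨r, rfl⟩ := hπ x
  have h7 : (π.quotKerEquivOfSurjective hπ).symm (π r) = (LinearMap.ker π).mkQ r := by
    rw [LinearEquiv.symm_apply_eq]
    rfl
  change g (((LinearMap.ker π).liftQ (b - f ∘ₗ c) hkill) ((π.quotKerEquivOfSurjective hπ).symm (π r))) = _
  rw [h7]
  change g (b r - f (c r)) = π r
  rw [map_sub, hexact.apply_apply_eq_zero, sub_zero]
  exact LinearMap.congr_fun hb r

/-- Let 0 → M₁ → M₂ → M₃ → 0 be a short exact sequence of R-modules with M₃ of finite presentation. If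
the sequence is universally exact (its first map is universally injective) then it is split: M₂ → M₃
admits a section. (The converse, split implies universally exact, is elementary and not stated.) -/
theorem result {R : Type u} [CommRing R] {M₁ M₂ M₃ : Type u} [AddCommGroup M₁] [Module R M₁] [AddCommGroup M₂] [Module R M₂] [AddCommGroup M₃] [Module R M₃] [Module.FinitePresentation R M₃] (f : M₁ →ₗ[R] M₂) (g : M₂ →ₗ[R] M₃) (hexact : Function.Exact f g) (hg : Function.Surjective g) (hf : CAlgX.UniversallyInjective R f) : ∃ s : M₃ →ₗ[R] M₂, g.comp s = LinearMap.id := by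
  exact split_of_pure f g hexact hg hf

end Groth.Agent.S6302
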