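import Groth.Statements.S6303
import Mathlib

set_option autoImplicit false
universe u
open CAlg

namespace Groth.Agent.S6303

/-- Let R be a ring, I, J ⊆ R ideals and M a flat R-module. Then IM ∩ JM = (I ∩ J)M. -/
theorem result {R : Type u} [CommRing R] (I J : Ideal R) (M : Type u) [AddCommGroup M] [Module R M] [Module.Flat R M] : (I • (⊤ : Submodule R M)) ⊓ (J • ⊤) = (I ⊓ J) • (⊤ : Submodule R M) := by
  apply le_antisymm
  · rintro m ⟨h1, h2⟩
    let F : R →ₗ[R] (R ⧸ I) × (R ⧸ J) := (Submodule.mkQ I).prod (Submodule.mkQ J)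
    have hex : Function.Exact (Submodule.subtype (I ⊓ J)) F := by
      rw [LinearMap.exact_iff, Submodule.range_subtype]
      ext x
      simp [F]
    have h3 := Module.Flat.rTensor_exact M hex
    have h4 : F.rTensor M ((1 : R) ⊗ₜ[R] m) = 0 := by
      apply (TensorProduct.prodLeft R R (R ⧸ I) (R ⧸ J) M).injective
      rw [map_zero, LinearMap.rTensor_tmul]
      have h8 : ∀ (K : Ideal R) (m : M), m ∈ K • (⊤ : Submodule R M) → TensorProduct.tmul R (Submodule.Quotient.mk (1 : R) : R ⧸ K) m = 0 := by
        intro K m hm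
        induction hm using Submodule.smul_induction_on' with
        | smul r hr n hn =>
          rw [← TensorProduct.smul_tmul, ← Submodule.Quotient.mk_smul, smul_eq_mul, mul_one, (Submodule.Quotient.mk_eq_zero _).mpr hr, TensorProduct.zero_tmul]
        | add x hx y hy h1 h2 => rw [TensorProduct.tmul_add, h1, h2, add_zero]
      have h9 : F 1 = (Submodule.Quotient.mk (1 : R), Submodule.Quotient.mk (1 : R)) := rfl
      rw [h9, TensorProduct.prodLeft_tmul, h8 I m h1, h8 J m h2]
      rfl
    obtain ⟨z, hz⟩ := (h3 _).mp h4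
    have h5 : ∀ z : TensorProduct R (I ⊓ J : Ideal R) M, TensorProduct.lid R M ((Submodule.subtype (I ⊓ J)).rTensor M z) ∈ (I ⊓ J) • (⊤ : Submodule R M) := by
      intro z
      induction z with
      | zero => simp
      | add x y hx hy => rw [map_add, map_add]; exact Submodule.add_mem _ hx hy
      | tmul a b =>
        rw [LinearMap.rTensor_tmul, TensorProduct.lid_tmul]
        exact Submodule.smul_mem_smul a.2 trivial
    have h6 := h5 z
    rw [hz, TensorProduct.lid_tmul, one_smul] at h6
    exact h6
  · exact le_inf (Submodule.smul_mono_left inf_le_left) (Submodule.smul_mono_left inf_le_right)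

end Groth.Agent.S6303
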