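import Groth.Statements.S6304
import Mathlib

set_option autoImplicit false
universe u
open CAlg

namespace Groth.Agent.S6304

/-- In a short exact sequence 0 → M' → M → M'' → 0 of R-modules whose right-hand term M'' is flat, the
middle term M is flat when M' is, and M' is flat when M is. -/
theorem result {R : Type u} [CommRing R] {M' M M'' : Type u} [AddCommGroup M'] [Module R M'] [AddCommGroup M] [Module R M] [AddCommGroup M''] [Module R M''] (f : M' →ₗ[R] M) (g : M →ₗ[R] M'') (hf : Function.Injective f) (hexact : Function.Exact f g) (hg : Function.Surjective g) [Module.Flat R M''] : (Module.Flat R M' → Module.Flat R M) ∧ (Module.Flat R M → Module.Flat R M') := by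
  have hc : ∀ (A B : Type u) [AddCommGroup A] [Module R A] [AddCommGroup B] [Module R B] (h : A →ₗ[R] B) {X Y : Type u} [AddCommGroup X] [Module R X] [AddCommGroup Y] [Module R Y] (k : X →ₗ[R] Y) (x : TensorProduct R X A), k.rTensor B (h.lTensor X x) = h.lTensor Y (k.rTensor A x) := by
    intro A B _ _ _ _ h X Y _ _ _ _ k x
    rw [← LinearMap.comp_apply, ← LinearMap.comp_apply, LinearMap.rTensor_comp_lTensor, LinearMap.lTensor_comp_rTensor]
  have hinj : ∀ (A : Type u) [AddCommGroup A] [Module R A], Function.Injective (f.rTensor A) := by
    intro A _ _ 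
    exact (LinearMap.lTensor_inj_iff_rTensor_inj A f).mp (LinearMap.lTensor_injective_of_exact_of_flat g hg f hf hexact A)
  refine ⟨fun h1 => ?_, fun h1 => ?_⟩
  · rw [Module.Flat.iff_lTensor_preserves_injective_linearMap]
    intro N N' _ _ _ _ h hh
    rw [injective_iff_map_eq_zero]
    intro x hx
    have h2 : g.rTensor N x = 0 := by
      apply Module.Flat.lTensor_preserves_injective_linearMap (M := M'') h hh
      rw [← hc, hx, map_zero, map_zero]
    obtain ⟨y, rfl⟩ := (rTensor_exact N hexact hg _).mp h2
    rw [← hc] at hx
    have h3 := hinj _ (hx.trans (map_zero _).symm)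
    have h4 := Module.Flat.lTensor_preserves_injective_linearMap (M := M') h hh (h3.trans (map_zero _).symm)
    rw [h4, map_zero]
  · rw [Module.Flat.iff_lTensor_preserves_injective_linearMap]
    intro N N' _ _ _ _ h hh
    intro x y hxy
    apply hinj
    apply Module.Flat.lTensor_preserves_injective_linearMap (M := M) h hh
    rw [← hc, ← hc, hxy]

end Groth.Agent.S6304
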