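import Groth.Statements.S6305
import Mathlib

set_option autoImplicit false
universe u
open CAlg

namespace Groth.Agent.S6305

theorem flat_coker {R : Type u} [CommRing R] {M₁ M₂ M₃ : Type u} [AddCommGroup M₁] [Module R M₁] [AddCommGroup M₂] [Module R M₂] [AddCommGroup M₃] [Module R M₃] (f : M₁ →ₗ[R] M₂) (g : M₂ →ₗ[R] M₃) (hexact : Function.Exact f g) (hg : Function.Surjective g) (hf : ∀ I : Ideal R, I.FG → Function.Injective (f.rTensor (R ⧸ I))) [Module.Flat R M₂] : Module.Flat R M₃ := by
  have hc : ∀ (A B : Type u) [AddCommGroup A] [Module R A] [AddCommGroup B] [Module R B] (h : A →ₗ[R] B) {X Y : Type u} [AddCommGroup X] [Module R X] [AddCommGroup Y] [Module R Y] (k : X →ₗ[R] Y) (x : TensorProduct R X A), k.rTensor B (h.lTensor X x) = h.lTensor Y (k.rTensor A x) := by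
    intro A B _ _ _ _ h X Y _ _ _ _ k x
    rw [← LinearMap.comp_apply, ← LinearMap.comp_apply, LinearMap.rTensor_comp_lTensor, LinearMap.lTensor_comp_rTensor]
  rw [Module.Flat.iff_rTensor_injective]
  intro I hI
  have hh : Function.Injective (Submodule.subtype I) := Submodule.subtype_injective _
  rw [← LinearMap.lTensor_inj_iff_rTensor_inj]
  rw [injective_iff_map_eq_zero]
  intro x hx
  obtain ⟨y, rfl⟩ := LinearMap.rTensor_surjective I hg x
  rw [← hc] at hx
  obtain ⟨z, hz⟩ := (rTensor_exact R hexact hg _).mp hx
  have hex2 : Function.Exact (Submodule.subtype I) (Submodule.mkQ I) := by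
    rw [LinearMap.exact_iff, Submodule.ker_mkQ, Submodule.range_subtype]
  have h5 : (Submodule.mkQ I).lTensor M₁ z = 0 := by
    apply hf I hI
    rw [hc, hz, map_zero]
    exact (lTensor_exact M₂ hex2 (Submodule.mkQ_surjective _)).apply_apply_eq_zero y
  obtain ⟨w, rfl⟩ := (lTensor_exact M₁ hex2 (Submodule.mkQ_surjective _) _).mp h5
  have h3 := Module.Flat.lTensor_preserves_injective_linearMap (M := M₂) (Submodule.subtype I) hh
  rw [hc] at hz
  have h6 := h3 hz
  rw [← h6]
  exact (rTensor_exact I hexact hg).apply_apply_eq_zero w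

/-- An R-module M is flat exactly when every short exact sequence 0 → M₁ → M₂ → M → 0 of R-modules is
universally exact, i.e. its first map M₁ → M₂ is universally injective. -/
theorem result {R : Type u} [CommRing R] (M : Type u) [AddCommGroup M] [Module R M] : Module.Flat R M ↔ ∀ (M₁ M₂ : Type u) [AddCommGroup M₁] [Module R M₁] [AddCommGroup M₂] [Module R M₂] (f : M₁ →ₗ[R] M₂) (g : M₂ →ₗ[R] M), Function.Injective f → Function.Exact f g → Function.Surjective g → CAlgX.UniversallyInjective R f := by
  constructor
  · intro hM M₁ M₂ _ _ _ _ f g hf hfg hg Q _ _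
    exact (LinearMap.lTensor_inj_iff_rTensor_inj Q f).mp (LinearMap.lTensor_injective_of_exact_of_flat g hg f hf hfg Q)
  · intro H
    have hg : Function.Surjective (Finsupp.linearCombination R (id : M → M)) := Finsupp.linearCombination_id_surjective R M
    have hexact := LinearMap.exact_subtype_ker_map (Finsupp.linearCombination R (id : M → M))
    have hf := H (LinearMap.ker (Finsupp.linearCombination R (id : M → M))) (M →₀ R) _ _ (Submodule.subtype_injective _) hexact hg
    exact flat_coker (M₁ := LinearMap.ker (Finsupp.linearCombination R (id : M → M))) (LinearMap.ker (Finsupp.linearCombination R (id : M → M))).subtype (Finsupp.linearCombination R (id : M → M)) hexact hg (fun I _ => hf (R ⧸ I))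

end Groth.Agent.S6305
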