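import Groth.Statements.S6306
import Mathlib

set_option autoImplicit false
universe u
open CAlg

namespace Groth.Agent.S6306

/-- Let R be a nonzero ring such that every nonzero prime ideal of R contains a non-zerodivisor. Then R
is a domain. -/
theorem result (R : Type u) [CommRing R] [Nontrivial R] (h : ∀ p : Ideal R, p.IsPrime → p ≠ ⊥ → ∃ x ∈ p, x ∈ nonZeroDivisors R) : IsDomain R := by
  obtain ⟨p, hp, -, hdis⟩ := Ideal.exists_le_prime_disjoint (⊥ : Ideal R) (nonZeroDivisors R) (by
    rw [Set.disjoint_left]
    rintro x hx hx2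
    have hx3 : x = 0 := hx
    subst hx3
    exact zero_notMem_nonZeroDivisors hx2)
  have : p = ⊥ := by
    by_contra hne
    obtain ⟨x, hx1, hx2⟩ := h p hp hne
    exact Set.disjoint_left.mp hdis hx1 hx2
  subst this
  exact IsDomain.of_bot_isPrime R

end Groth.Agent.S6306
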