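import Groth.Statements.S6307
import Mathlib

set_option autoImplicit false
universe u
open CAlg

namespace Groth.Agent.S6307

/-- Let R be a ring, J ⊆ R a principal ideal and I ⊆ J an ideal. Then I = J · (I : J). -/
theorem result {R : Type u} [CommRing R] (I J : Ideal R) (hJ : J.IsPrincipal) (hIJ : I ≤ J) : I = J * I.colon J := by
  obtain ⟨x, rfl⟩ := hJ
  apply le_antisymm
  · intro y hy
    have hy2 : y ∈ Ideal.span {x} := hIJ hy
    obtain ⟨c, hc'⟩ := Ideal.mem_span_singleton'.mp hy2
    rw [← hc', mul_comm c x]
    apply Ideal.mul_mem_mul (Submodule.mem_span_singleton_self x)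
    rw [Submodule.mem_colon]
    intro s hs
    have hs2 : s ∈ Ideal.span {x} := hs
    obtain ⟨d, hd'⟩ := Ideal.mem_span_singleton'.mp hs2
    have : c • s = d * y := by rw [← hd', ← hc', smul_eq_mul]; ring
    rw [this]
    exact I.mul_mem_left _ hy
  · rw [Ideal.mul_le]
    intro r hr s hs
    have := Submodule.mem_colon.mp hs r hr
    rwa [smul_eq_mul, mul_comm] at this

end Groth.Agent.S6307
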