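import Groth.Statements.S6308
import Mathlib

set_option autoImplicit false
universe u
open scoped TensorProduct
open CAlg

namespace Groth.Agent.S6308

/-- Let R be a ring and φ : M → N a map of R-modules with N finite. For a prime p, the localization φ_p
: M_p → N_p is surjective if and only if φ ⊗ κ(p) : M ⊗ κ(p) → N ⊗ κ(p) is surjective; the set U of
such primes is open in Spec(R); and for every f ∈ R with D(f) ⊆ U the map M_f → N_f is surjective. -/
theorem result {R : Type u} [CommRing R] {M N : Type u} [AddCommGroup M] [Module R M] [AddCommGroup N] [Module R N] [Module.Finite R N] (φ : M →ₗ[R] N) : (∀ p : PrimeSpectrum R, Function.Surjective (LocalizedModule.map p.asIdeal.primeCompl φ) ↔ Function.Surjective (φ.lTensor p.asIdeal.ResidueField)) ∧ IsOpen {p : PrimeSpectrum R | Function.Surjective (LocalizedModule.map p.asIdeal.primeCompl φ)} ∧ (∀ f : R, (↑(PrimeSpectrum.basicOpen f) : Set (PrimeSpectrum R)) ⊆ {p : PrimeSpectrum R | Function.Surjective (LocalizedModule.map p.asIdeal.primeCompl φ)} → Function.Surjective (LocalizedModule.map (Submonoid.powers f) φ)) := by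
  have key : ∀ p : PrimeSpectrum R, Function.Surjective (LocalizedModule.map p.asIdeal.primeCompl φ) ↔ p ∉ Module.support R (N ⧸ LinearMap.range φ) := by
    intro p
    rw [Module.notMem_support_iff]
    have hex : Function.Exact φ (LinearMap.range φ).mkQ := by rw [LinearMap.exact_iff, Submodule.ker_mkQ]
    have h1 : Function.Exact (LocalizedModule.map p.asIdeal.primeCompl φ) (LocalizedModule.map p.asIdeal.primeCompl (LinearMap.range φ).mkQ) := LocalizedModule.map_exact p.asIdeal.primeCompl φ _ hex
    have h2 : Function.Surjective (LocalizedModule.map p.asIdeal.primeCompl (LinearMap.range φ).mkQ) := LocalizedModule.map_surjective _ _ (Submodule.mkQ_surjective _)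
    constructor
    · intro h
      refine ⟨fun a b => ?_⟩
      obtain ⟨a, rfl⟩ := h2 a
      obtain ⟨b, rfl⟩ := h2 b
      obtain ⟨a, rfl⟩ := h a
      obtain ⟨b, rfl⟩ := h b
      rw [h1.apply_apply_eq_zero, h1.apply_apply_eq_zero]
    · intro h x
      exact (h1 x).mp (Subsingleton.elim _ _)
  have key2 : ∀ p : PrimeSpectrum R, Function.Surjective (φ.lTensor p.asIdeal.ResidueField) ↔ p ∉ Module.support R (N ⧸ LinearMap.range φ) := by
    intro p
    rw [Module.mem_support_iff_nontrivial_residueField_tensorProduct, not_nontrivial_iff_subsingleton]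
    have hex : Function.Exact φ (LinearMap.range φ).mkQ := by rw [LinearMap.exact_iff, Submodule.ker_mkQ]
    have h1 := lTensor_exact p.asIdeal.ResidueField hex (Submodule.mkQ_surjective _)
    have h2 := LinearMap.lTensor_surjective p.asIdeal.ResidueField (Submodule.mkQ_surjective (LinearMap.range φ))
    constructor
    · intro h
      refine ⟨fun a b => ?_⟩
      obtain ⟨a, rfl⟩ := h2 a
      obtain ⟨b, rfl⟩ := h2 b
      obtain ⟨a, rfl⟩ := h a
      obtain ⟨b, rfl⟩ := h b
      rw [h1.apply_apply_eq_zero, h1.apply_apply_eq_zero]
    · intro h x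
      exact (h1 x).mp (Subsingleton.elim _ _)
  refine ⟨fun p => (key p).trans (key2 p).symm, ?_, ?_⟩
  · have : {p : PrimeSpectrum R | Function.Surjective (LocalizedModule.map p.asIdeal.primeCompl φ)} = (Module.support R (N ⧸ LinearMap.range φ))ᶜ := by
      ext p
      exact key p
    rw [this, isOpen_compl_iff]
    exact Module.isClosed_support
  · intro f hf
    have hsub : Subsingleton (LocalizedModule (Submonoid.powers f) (N ⧸ LinearMap.range φ)) := by
      rw [LocalizedModule.subsingleton_iff_support_subset]
      intro p hp
      by_contra hcon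
      have h3 : p ∈ (↑(PrimeSpectrum.basicOpen f) : Set (PrimeSpectrum R)) := by
        intro hfp
        apply hcon
        rw [PrimeSpectrum.mem_zeroLocus, Set.singleton_subset_iff]
        exact hfp
      exact (key p).mp (hf h3) hp
    have hex : Function.Exact φ (LinearMap.range φ).mkQ := by rw [LinearMap.exact_iff, Submodule.ker_mkQ]
    have h1 : Function.Exact (LocalizedModule.map (Submonoid.powers f) φ) (LocalizedModule.map (Submonoid.powers f) (LinearMap.range φ).mkQ) := LocalizedModule.map_exact _ φ _ hex
    intro x
    exact (h1 x).mp (Subsingleton.elim _ _)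

end Groth.Agent.S6308
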