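import Groth.Statements.S6312
import Mathlib

set_option autoImplicit false
universe u
open CAlg

namespace Groth.Agent.S6312

/-- Let R be a ring, M an R-module and S ⊆ R a multiplicative subset. Then length_{S⁻¹R}(S⁻¹M) ≤
length_R(M). -/
theorem result {R : Type u} [CommRing R] (S : Submonoid R) (M : Type u) [AddCommGroup M] [Module R M] : Module.length (Localization S) (LocalizedModule S M) ≤ Module.length R M := by
  rw [← WithBot.coe_le_coe, Module.coe_length, Module.coe_length]
  have hmono : Monotone (fun N : Submodule (Localization S) (LocalizedModule S M) => (N.restrictScalars R).comap (LocalizedModule.mkLinearMap S M)) := by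
    intro N N' h x hx
    exact h hx
  refine Order.krullDim_le_of_strictMono (fun N : Submodule (Localization S) (LocalizedModule S M) => (N.restrictScalars R).comap (LocalizedModule.mkLinearMap S M)) (hmono.strictMono_of_injective ?_)
  have key : ∀ N N' : Submodule (Localization S) (LocalizedModule S M), (N.restrictScalars R).comap (LocalizedModule.mkLinearMap S M) ≤ (N'.restrictScalars R).comap (LocalizedModule.mkLinearMap S M) → N ≤ N' := by
    intro N N' h x hx
    induction x using LocalizedModule.induction_on with
    | _ m s =>
      have h1 : m ∈ (N.restrictScalars R).comap (LocalizedModule.mkLinearMap S M) := by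
        change LocalizedModule.mkLinearMap S M m ∈ N
        have h2 : LocalizedModule.mkLinearMap S M m = (algebraMap R (Localization S) s) • (LocalizedModule.mk m s) := by
          rw [algebraMap_smul, LocalizedModule.mkLinearMap_apply, LocalizedModule.smul'_mk, ← LocalizedModule.mk_cancel_common_left s 1 m]
          simp [Submonoid.smul_def]
        rw [h2]
        exact N.smul_mem _ hx
      have h3 : LocalizedModule.mkLinearMap S M m ∈ N' := h h1
      have h4 : LocalizedModule.mk m s = (Localization.mk 1 s : Localization S) • LocalizedModule.mkLinearMap S M m := by
        rw [LocalizedModule.mkLinearMap_apply, LocalizedModule.mk_smul_mk, one_smul, mul_one]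
      rw [h4]
      exact N'.smul_mem _ h3
  intro N N' h
  exact le_antisymm (key N N' h.le) (key N' N h.ge)

end Groth.Agent.S6312
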