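import Groth.Statements.S6314
import Mathlib

set_option autoImplicit false
universe u
open CategoryTheory
open CAlg

namespace Groth.Agent.S6314

/-- Let R be a ring and M a flat R-module. Then Torᵢᴿ(M, N) = 0 for all R-modules N and all i > 0. -/
theorem result (R : Type u) [CommRing R] (M : Type u) [AddCommGroup M] [Module R M] [Module.Flat R M] (N : ModuleCat.{u} R) (i : ℕ) (hi : 0 < i) : Limits.IsZero (((CategoryTheory.Tor (ModuleCat.{u} R) i).obj (ModuleCat.of R M)).obj N) := by
  obtain ⟨n, rfl⟩ : ∃ n, i = n + 1 := ⟨i - 1, by omega⟩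
  refine Limits.IsZero.of_iso ?_ ((projectiveResolution N).isoLeftDerivedObj ((MonoidalCategory.tensoringLeft (ModuleCat.{u} R)).obj (ModuleCat.of R M)) (n+1))
  have h1 : (projectiveResolution N).complex.ExactAt (n+1) := (projectiveResolution N).complex_exactAt_succ n
  have h2 := Module.Flat.lTensor_shortComplex_exact (ModuleCat.of R M) _ h1
  have h3 : (((MonoidalCategory.tensoringLeft (ModuleCat.{u} R)).obj (ModuleCat.of R M)).mapHomologicalComplex _ |>.obj (projectiveResolution N).complex).ExactAt (n+1) := h2
  exact (HomologicalComplex.exactAt_iff_isZero_homology _ _).mp h3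

end Groth.Agent.S6314
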