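import Groth.Statements.S6323
import Mathlib

set_option autoImplicit false
universe u
open CAlg

namespace Groth.Agent.S6323

/-- Let A → B be a ring homomorphism and S ⊆ A, S' ⊆ B multiplicative subsets with S carried into S', so
that there is an induced homomorphism S⁻¹A → (S')⁻¹B. For a linear map f : M → M' between
(S')⁻¹B-modules, f is universally injective over A (scalars restricted along A → (S')⁻¹B) precisely
when it is universally injective over S⁻¹A (scalars restricted along S⁻¹A → (S')⁻¹B). -/
theorem result {A B : Type u} [CommRing A] [CommRing B] [Algebra A B] (S : Submonoid A) (S' : Submonoid B) (hSS' : ∀ s ∈ S, algebraMap A B s ∈ S') (As Bs : Type u) [CommRing As] [CommRing Bs] [Algebra A As] [IsLocalization S As] [Algebra B Bs] [IsLocalization S' Bs] [Algebra As Bs] [Algebra A Bs] [IsScalarTower A B Bs] [IsScalarTower A As Bs] {M M' : Type u} [AddCommGroup M] [AddCommGroup M'] [Module Bs M] [Module Bs M'] [Module As M] [Module As M'] [Module A M] [Module A M'] [IsScalarTower As Bs M] [IsScalarTower As Bs M'] [IsScalarTower A As M] [IsScalarTower A As M'] [IsScalarTower A Bs M] [IsScalarTower A Bs M'] (f : M →ₗ[Bs] M') : CAlgX.UniversallyInjective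 A (f.restrictScalars A) ↔ CAlgX.UniversallyInjective As (f.restrictScalars As) := by
  constructor
  · intro h Q _ _
    letI : Module A Q := Module.compHom Q (algebraMap A As)
    haveI : IsScalarTower A As Q := ⟨fun r s q => by
      rw [Algebra.smul_def, mul_smul]; rfl⟩
    have he : ∀ x : TensorProduct As M Q, IsLocalization.moduleTensorEquiv S As M' Q ((f.restrictScalars As).rTensor Q x) = (f.restrictScalars A).rTensor Q (IsLocalization.moduleTensorEquiv S As M Q x) := by
      intro x
      induction x with
      | zero => simp
      | add x y hx hy => simp only [map_add, hx, hy]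
      | tmul m q => rfl
    intro x y hxy
    apply (IsLocalization.moduleTensorEquiv S As M Q).injective
    apply h Q
    rw [← he, ← he, hxy]
  · intro h Q _ _
    have he : ∀ x : TensorProduct As M (TensorProduct A As Q), TensorProduct.AlgebraTensorModule.cancelBaseChange A As As M' Q ((f.restrictScalars As).rTensor (TensorProduct A As Q) x) = (f.restrictScalars A).rTensor Q (TensorProduct.AlgebraTensorModule.cancelBaseChange A As As M Q x) := by
      intro x
      induction x with
      | zero => simp
      | add x y hx hy => simp only [map_add, hx, hy]
      | tmul m z =>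
        induction z with
        | zero => simp
        | add x y hx hy => simp only [TensorProduct.tmul_add, map_add, hx, hy]
        | tmul a q => simp
    intro x y hxy
    obtain ⟨x, rfl⟩ := (TensorProduct.AlgebraTensorModule.cancelBaseChange A As As M Q).surjective x
    obtain ⟨y, rfl⟩ := (TensorProduct.AlgebraTensorModule.cancelBaseChange A As As M Q).surjective y
    rw [← he, ← he] at hxy
    rw [h (TensorProduct A As Q) ((TensorProduct.AlgebraTensorModule.cancelBaseChange A As As M' Q).injective hxy)]

end Groth.Agent.S6323
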