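import Groth.Statements.S6330
import Mathlib

set_option autoImplicit false
universe u
open scoped TensorProduct
open CAlg

namespace Groth.Agent.S6330

theorem key1 {R : Type u} [CommRing R] {M N : Type u} [AddCommGroup M] [Module R M] [AddCommGroup N] [Module R N] [Module.Finite R N] (φ : M →ₗ[R] N) (p : PrimeSpectrum R) : Function.Surjective (φ.lTensor p.asIdeal.ResidueField) ↔ p ∉ Module.support R (N ⧸ LinearMap.range φ) := by
  rw [Module.mem_support_iff_nontrivial_residueField_tensorProduct, not_nontrivial_iff_subsingleton]
  have hex : Function.Exact φ (LinearMap.range φ).mkQ := by rw [LinearMap.exact_iff, Submodule.ker_mkQ]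
  have h1 := lTensor_exact p.asIdeal.ResidueField hex (Submodule.mkQ_surjective _)
  have h2 := LinearMap.lTensor_surjective p.asIdeal.ResidueField (Submodule.mkQ_surjective (LinearMap.range φ))
  constructor
  · intro h
    refine ⟨fun a b => ?_⟩
    obtain ⟨a, rfl⟩ := h2 a
    obtain ⟨b, rfl⟩ := h2 b
    obtain ⟨a, rfl⟩ := h a
    obtain ⟨b, rfl⟩ := h b
    rw [h1.apply_apply_eq_zero, h1.apply_apply_eq_zero]
  · intro h x
    exact (h1 x).mp (Subsingleton.elim _ _)

theorem key3 {R : Type u} [CommRing R] {M N : Type u} [AddCommGroup M] [Module R M] [AddCommGroup N] [Module R N] [Module.Finite R N] (φ : M →ₗ[R] N) :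
   IsOpen {p : PrimeSpectrum R | Function.Surjective (φ.lTensor p.asIdeal.ResidueField)} ∧ ∀ f : R, (↑(PrimeSpectrum.basicOpen f) : Set (PrimeSpectrum R)) ⊆ {p : PrimeSpectrum R | Function.Surjective (φ.lTensor p.asIdeal.ResidueField)} → Function.Surjective (LocalizedModule.map (Submonoid.powers f) φ) := by
  constructor
  · have : {p : PrimeSpectrum R | Function.Surjective (φ.lTensor p.asIdeal.ResidueField)} = (Module.support R (N ⧸ LinearMap.range φ))ᶜ := by
      ext p
      exact key1 φ p
    rw [this, isOpen_compl_iff]
    exact Module.isClosed_support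
  · intro f hf
    have hsub : Subsingleton (LocalizedModule (Submonoid.powers f) (N ⧸ LinearMap.range φ)) := by
      rw [LocalizedModule.subsingleton_iff_support_subset]
      intro p hp
      by_contra hcon
      have h3 : p ∈ (↑(PrimeSpectrum.basicOpen f) : Set (PrimeSpectrum R)) := by
        intro hfp
        apply hcon
        rw [PrimeSpectrum.mem_zeroLocus, Set.singleton_subset_iff]
        exact hfp
      exact (key1 φ p).mp (hf h3) hp
    have hex : Function.Exact φ (LinearMap.range φ).mkQ := by rw [LinearMap.exact_iff, Submodule.ker_mkQ]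
    have h1 : Function.Exact (LocalizedModule.map (Submonoid.powers f) φ) (LocalizedModule.map (Submonoid.powers f) (LinearMap.range φ).mkQ) := LocalizedModule.map_exact _ φ _ hex
    intro x
    exact (h1 x).mp (Subsingleton.elim _ _)

/-- Let R be a ring and φ : P₁ → P₂ a map of finite projective R-modules. Write W for the set of primes
p of R at which φ ⊗ κ(p) is surjective; then W is open, and for every f ∈ R with D(f) ⊆ W the map
(P₁)_f → (P₂)_f is surjective and Ker(φ)_f is a finite projective module over R_f. -/
theorem result {R : Type u} [CommRing R] {P₁ P₂ : Type u} [AddCommGroup P₁] [Module R P₁] [AddCommGroup P₂] [Module R P₂] [Module.Finite R P₁] [Module.Projective R P₁] [Module.Finite R P₂] [Module.Projective R P₂] (φ : P₁ →ₗ[R] P₂) : IsOpen {p : PrimeSpectrum R | Function.Surjective (φ.lTensor p.asIdeal.ResidueField)} ∧ ∀ f : R, (↑(PrimeSpectrum.basicOpen f) : Set (PrimeSpectrum R)) ⊆ {p : PrimeSpectrum R | Function.Surjective (φ.lTensor p.asIdeal.ResidueField)} → Function.Surjective (LocalizedModule.map (Submonoid.powers f) φ) ∧ Module.Finite (Localization.Away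 f) (LocalizedModule (Submonoid.powers f) (LinearMap.ker φ)) ∧ Module.Projective (Localization.Away f) (LocalizedModule (Submonoid.powers f) (LinearMap.ker φ)) := by
  obtain ⟨ho, hs⟩ := key3 φ
  refine ⟨ho, fun f hf => ?_⟩
  have hsurj := hs f hf
  refine ⟨hsurj, ?_⟩
  have hex : Function.Exact (LocalizedModule.map (Submonoid.powers f) (LinearMap.ker φ).subtype) (LocalizedModule.map (Submonoid.powers f) φ) := LocalizedModule.map_exact _ _ φ (LinearMap.exact_subtype_ker_map φ)
  have hinj : Function.Injective (LocalizedModule.map (Submonoid.powers f) (LinearMap.ker φ).subtype) := LocalizedModule.map_injective _ _ (Submodule.injective_subtype _)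
  haveI : Module.Finite (Localization (Submonoid.powers f)) (LocalizedModule (Submonoid.powers f) P₁) := inferInstance
  haveI : Module.Projective (Localization (Submonoid.powers f)) (LocalizedModule (Submonoid.powers f) P₂) := Module.projective_of_isLocalizedModule (Submonoid.powers f) (LocalizedModule.mkLinearMap (Submonoid.powers f) P₂)
  haveI : Module.Projective (Localization (Submonoid.powers f)) (LocalizedModule (Submonoid.powers f) P₁) := Module.projective_of_isLocalizedModule (Submonoid.powers f) (LocalizedModule.mkLinearMap (Submonoid.powers f) P₁)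
  obtain ⟨s, hss⟩ := Module.projective_lifting_property (LocalizedModule.map (Submonoid.powers f) φ) LinearMap.id hsurj
  have h8 := hex.split_tfae'.out 0 1
  have h9 : Function.Injective (LocalizedModule.map (Submonoid.powers f) (LinearMap.ker φ).subtype) ∧ ∃ l, (LocalizedModule.map (Submonoid.powers f) φ) ∘ₗ l = LinearMap.id := ⟨hinj, s, hss⟩
  obtain ⟨-, l, hl⟩ := h8.mp h9
  have hlsurj : Function.Surjective l := fun x => ⟨_, LinearMap.congr_fun hl x⟩
  exact ⟨Module.Finite.of_surjective l hlsurj, Module.Projective.of_split _ l hl⟩

end Groth.Agent.S6330
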