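import Groth.Statements.S6331
import Mathlib

set_option autoImplicit false
universe u
open CAlg

namespace Groth.Agent.S6331

open Polynomial in
theorem nthroot {R : Type u} [CommRing R] (n : ℕ) (u x : R) (h : IsNilpotent (x ^ n - u)) (h' : IsUnit ((n : R) * x ^ (n - 1))) : ∃! r, IsNilpotent (x - r) ∧ r ^ n = u := by
  have := Polynomial.existsUnique_nilpotent_sub_and_aeval_eq_zero (R := R) (S := R) (P := X ^ n - C u) (x := x) (by simpa using h) (by rw [derivative_sub, derivative_X_pow, derivative_C, sub_zero]; simpa using h')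
  simpa [sub_eq_zero] using this

theorem unit_lift {R : Type u} [CommRing R] (I : Ideal R) (hI : ∀ x ∈ I, IsNilpotent x) (x : R) (h : IsUnit (Ideal.Quotient.mk I x)) : IsUnit x := by
  obtain ⟨y, hy⟩ := h.exists_right_inv
  obtain ⟨y, rfl⟩ := Ideal.Quotient.mk_surjective y
  have h1 : x * y - 1 ∈ I := by
    rw [← Ideal.Quotient.eq_zero_iff_mem, map_sub, map_mul, hy, map_one, sub_self]
  have h2 := (hI _ h1).isUnit_one_add
  have h3 : 1 + (x * y - 1) = x * y := by ring
  rw [h3] at h2
  exact isUnit_of_mul_isUnit_left h2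

/-- Let R be a ring, I ⊆ R an ideal all of whose elements are nilpotent, and n ≥ 1 an integer whose
image in R/I is invertible. Then (1) raising to the n-th power is a bijection of the subset 1 + I of
R onto itself: for every y ∈ I there is exactly one x ∈ I with (1 + x)ⁿ = 1 + y; (2) a unit u of R
has an n-th root in R exactly when the residue class of u has an n-th root in R/I. -/
theorem result {R : Type u} [CommRing R] (I : Ideal R) (hI : ∀ x ∈ I, IsNilpotent x) (n : ℕ) (hn : 1 ≤ n) (hinv : IsUnit ((n : ℕ) : R ⧸ I)) : (∀ y ∈ I, ∃! x : R, x ∈ I ∧ (1 + x) ^ n = 1 + y) ∧ (∀ u : Rˣ, (∃ v : R, v ^ n = (u : R)) ↔ ∃ w : R ⧸ I, w ^ n = Ideal.Quotient.mk I (u : R)) := by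
  have hn' : IsUnit (n : R) := unit_lift I hI _ (by simpa using hinv)
  have hmem : ∀ (x u r : R), x ^ n - u ∈ I → IsUnit x → IsNilpotent (x - r) → r ^ n = u → x - r ∈ I := by
    intro x u r h1 hx h2 h3
    rw [← Ideal.Quotient.eq_zero_iff_mem, map_sub, sub_eq_zero]
    have h4 := nthroot (R := R ⧸ I) n (Ideal.Quotient.mk I u) (Ideal.Quotient.mk I x) (by
      rw [← map_pow, ← map_sub, Ideal.Quotient.eq_zero_iff_mem.mpr h1]; exact IsNilpotent.zero) (by
      have := (hn'.mul (hx.pow (n-1))).map (Ideal.Quotient.mk I)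
      simpa using this)
    have h5 := h4.unique (y₁ := Ideal.Quotient.mk I x) (y₂ := Ideal.Quotient.mk I r) ⟨by rw [sub_self]; exact IsNilpotent.zero, by
      rw [← map_pow, ← sub_eq_zero, ← map_sub, Ideal.Quotient.eq_zero_iff_mem.mpr h1]⟩ ⟨by rw [← map_sub]; exact h2.map _, by rw [← map_pow, h3]⟩
    exact h5
  constructor
  · intro y hy
    have h1 := nthroot n (1 + y) 1 (by
      have : (1 : R) ^ n - (1 + y) = - y := by rw [one_pow]; ring
      rw [this]; exact (hI y hy).neg) (by simpa using hn')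
    obtain ⟨r, ⟨hr1, hr2⟩, hr3⟩ := h1
    have h2 : (1 : R) - r ∈ I := hmem 1 (1 + y) r (by
      have : (1 : R) ^ n - (1 + y) = - y := by rw [one_pow]; ring
      rw [this]; exact I.neg_mem hy) isUnit_one hr1 hr2
    refine ⟨r - 1, ⟨?_, ?_⟩, ?_⟩
    · have : r - 1 = - (1 - r) := by ring
      rw [this]; exact I.neg_mem h2
    · have : 1 + (r - 1) = r := by ring
      rw [this]; exact hr2
    · rintro x ⟨hx1, hx2⟩
      have h3 := hr3 (1 + x) ⟨by
        have : 1 - (1 + x) = - x := by ring
        rw [this]; exact (hI x hx1).neg, hx2⟩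
      rw [← h3]; ring
  · intro u
    constructor
    · rintro ⟨v, hv⟩
      exact ⟨Ideal.Quotient.mk I v, by rw [← map_pow, hv]⟩
    · rintro ⟨w, hw⟩
      obtain ⟨w, rfl⟩ := Ideal.Quotient.mk_surjective w
      have h1 : w ^ n - (u : R) ∈ I := by
        rw [← Ideal.Quotient.eq_zero_iff_mem, map_sub, map_pow, hw, sub_self]
      have h2 : IsUnit w := by
        apply unit_lift I hI
        have h3 : IsUnit ((Ideal.Quotient.mk I w) ^ n) := by rw [hw]; exact u.isUnit.map _
        exact (isUnit_pow_iff (by omega)).mp h3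
      obtain ⟨r, ⟨hr1, hr2⟩, -⟩ := nthroot n (u : R) w (hI _ h1) (hn'.mul (h2.pow _))
      exact ⟨r, hr2⟩

end Groth.Agent.S6331
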