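import Groth.Statements.S6332
import Mathlib

set_option autoImplicit false
universe u
open Fields

namespace Groth.Agent.S6332

open IntermediateField in
/-- Let L/K be a finite Galois extension of fields of characteristic p > 0 whose degree equals the prime
p (equivalently, the Galois group is cyclic of order p). Then there is an element z of L with z ^ p
- z in K which generates L over K. -/
theorem result {K L : Type u} [Field K] [Field L] [Algebra K L] (p : ℕ)
    [Fact p.Prime] [CharP K p] [FiniteDimensional K L] [IsGalois K L]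
    (hdeg : Module.finrank K L = p) :
    ∃ z : L, z ^ p - z ∈ Set.range (algebraMap K L) ∧ K⟮z⟯ = ⊤ := by
  classical
  have hp : p.Prime := Fact.out
  have hcard : Nat.card (L ≃ₐ[K] L) = p := by rw [IsGalois.card_aut_eq_finrank, hdeg]
  have hcyc : IsCyclic (L ≃ₐ[K] L) := isCyclic_of_prime_card hcard
  obtain ⟨σ, hσ⟩ := IsCyclic.exists_generator (α := L ≃ₐ[K] L)
  haveI : CharP L p := charP_of_injective_algebraMap (algebraMap K L).injective p
  have hord : orderOf σ = p := by rw [← hcard]; exact orderOf_eq_card_of_forall_mem_zpowers hσ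
  obtain ⟨θ, hθ⟩ := Algebra.trace_surjective K L 1
  have hsum : ∑ i ∈ Finset.range p, (σ ^ i) θ = 1 := by
    have h1 := trace_eq_sum_automorphisms (K := K) (L := L) θ
    rw [hθ, map_one] at h1
    rw [h1]
    have h2 : (Finset.univ : Finset (L ≃ₐ[K] L)) = Finset.image (fun i => σ ^ i) (Finset.range p) := by
      rw [← IsCyclic.image_range_orderOf hσ, hord]
    rw [h2, Finset.sum_image]
    intro i hi j hj hij
    have hi' : i < orderOf σ := by rw [hord]; exact Finset.mem_range.mp hi
    have hj' : j < orderOf σ := by rw [hord]; exact Finset.mem_range.mp hj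
    exact pow_injOn_Iio_orderOf hi' hj' hij
  let g : ℕ → L := fun i => (σ ^ i) θ
  have hgp : g p = g 0 := by
    change (σ ^ p) θ = (σ ^ 0) θ
    rw [← hord, pow_orderOf_eq_one, pow_zero]
  have hσg : ∀ i, σ (g i) = g (i+1) := by
    intro i
    change σ ((σ ^ i) θ) = (σ ^ (i+1)) θ
    rw [pow_succ']; rfl
  let z : L := ∑ i ∈ Finset.range p, (i : L) * g i
  have hz : σ z = z - 1 := by
    have h1 : σ z = ∑ i ∈ Finset.range p, (i : L) * g (i+1) := by
      change σ (∑ i ∈ Finset.range p, (i : L) * g i) = _
      rw [map_sum]
      apply Finset.sum_congr rfl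
      intro i _
      rw [map_mul, map_natCast, hσg]
    have h2 : ∑ i ∈ Finset.range p, ((i + 1 : ℕ) : L) * g (i+1) = z := by
      have h3 := Finset.sum_range_succ (fun i => ((i : ℕ) : L) * g i) p
      have h4 := Finset.sum_range_succ' (fun i => ((i : ℕ) : L) * g i) p
      rw [h3] at h4
      simp only [CharP.cast_eq_zero, zero_mul, add_zero, Nat.cast_zero] at h4
      exact h4.symm
    have h5 : ∑ i ∈ Finset.range p, g (i+1) = 1 := by
      have h3 := Finset.sum_range_succ g p
      have h4 := Finset.sum_range_succ' g p
      rw [h3, hgp] at h4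
      rw [← hsum]
      exact (add_right_cancel h4).symm
    rw [h1, ← h2, ← h5, ← Finset.sum_sub_distrib]
    apply Finset.sum_congr rfl
    intro i _
    push_cast
    ring
  have hfix : ∀ x : L, σ x = x → x ∈ (⊥ : IntermediateField K L) := by
    intro x hx
    rw [IsGalois.mem_bot_iff_fixed]
    intro τ
    have h1 : τ ∈ Subgroup.zpowers σ := hσ τ
    have h2 : Subgroup.zpowers σ ≤ MulAction.stabilizer (L ≃ₐ[K] L) x := by
      rw [Subgroup.zpowers_le]
      exact hx
    exact h2 h1
  refine ⟨z, ?_, ?_⟩
  · have h1 : z ^ p - z ∈ (⊥ : IntermediateField K L) := by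
      apply hfix
      rw [map_sub, map_pow, hz, sub_pow_char, one_pow]
      ring
    exact IntermediateField.mem_bot.mp h1
  · haveI := IntermediateField.isSimpleOrder_of_finrank_prime K L (by rw [hdeg]; exact hp)
    rcases eq_bot_or_eq_top K⟮z⟯ with h | h
    · exfalso
      have h1 : z ∈ (⊥ : IntermediateField K L) := by
        rw [← h]; exact IntermediateField.mem_adjoin_simple_self K z
      rw [IsGalois.mem_bot_iff_fixed] at h1
      have h2 := h1 σ
      rw [hz] at h2
      exact one_ne_zero (sub_eq_self.mp h2)
    · exact h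

end Groth.Agent.S6332
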