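import Groth.Statements.S6335
import Mathlib

set_option autoImplicit false
universe u
open Fields

namespace Groth.Agent.S6335

/-- Let K be a field of characteristic p > 0, L/K a separable algebraic extension and a an element of L.
If a is a root of a polynomial P over K which is separable (pairwise distinct roots in an algebraic
closure) and all of whose coefficients are p-th powers in K, then a is a p-th power in L. (Part (1),
the case where P is the minimal polynomial of a, is a special case.) -/
theorem result {K L : Type u} [Field K] [Field L] [Algebra K L]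
    (p : ℕ) [Fact p.Prime] [CharP K p] [Algebra.IsSeparable K L] (a : L) (P : Polynomial K)
    (hroot : Polynomial.aeval a P = 0) (hsep : P.Separable) (hcoeff : ∀ i : ℕ, ∃ b : K, b ^ p = P.coeff i) :
    ∃ c : L, c ^ p = a := by
  classical
  have hp : p.Prime := Fact.out
  choose b hb using hcoeff
  let Q : Polynomial K := ∑ i ∈ Finset.range (P.natDegree + 1), Polynomial.monomial i (b i)
  haveI : ExpChar K p := ExpChar.prime hp
  have hQ : Q.map (frobenius K p) = P := by
    rw [Polynomial.map_sum]
    conv_rhs => rw [P.as_sum_range]
    apply Finset.sum_congr rfl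
    intro i _
    rw [Polynomial.map_monomial, frobenius_def, hb]
  have hQsep : Q.Separable := by
    rw [← Polynomial.separable_map (frobenius K p), hQ]
    exact hsep
  let Ω := AlgebraicClosure L
  haveI : CharP Ω p := charP_of_injective_algebraMap (algebraMap K Ω).injective p
  haveI : CharP L p := charP_of_injective_algebraMap (algebraMap K L).injective p
  haveI : ExpChar L p := ExpChar.prime hp
  haveI : ExpChar Ω p := ExpChar.prime hp
  obtain ⟨c, hc⟩ := IsAlgClosed.exists_pow_nat_eq (algebraMap L Ω a) hp.pos
  have hQc : Polynomial.aeval c Q = 0 := by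
    have h1 : (Polynomial.aeval c Q) ^ p = 0 := by
      have h2 : (Polynomial.aeval c Q) ^ p = Polynomial.aeval (algebraMap L Ω a) P := by
        conv_rhs => rw [P.as_sum_range]
        rw [← frobenius_def, map_sum, map_sum, map_sum]
        apply Finset.sum_congr rfl
        intro i _
        rw [Polynomial.aeval_monomial, Polynomial.aeval_monomial, frobenius_def, mul_pow, ← map_pow, hb, ← pow_mul, mul_comm i p, pow_mul, hc]
      rw [h2, Polynomial.aeval_algebraMap_apply, hroot, map_zero]
    exact pow_eq_zero_iff hp.ne_zero |>.mp h1
  have hsepc : IsSeparable K c := hQsep.of_dvd (minpoly.dvd K c hQc)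
  have hsepL : IsSeparable L c := hsepc.tower_top L
  haveI h3 : Algebra.IsSeparable L (IntermediateField.adjoin L {c}) := (IntermediateField.isSeparable_adjoin_simple_iff_isSeparable L Ω).mpr hsepL
  haveI h4 : IsPurelyInseparable L (IntermediateField.adjoin L {c}) := 
    (IntermediateField.isPurelyInseparable_adjoin_simple_iff_pow_mem L Ω p).mpr ⟨1, ⟨a, by rw [pow_one, hc]⟩⟩
  obtain ⟨d, hd⟩ := IsPurelyInseparable.surjective_algebraMap_of_isSeparable L (IntermediateField.adjoin L {c}) ⟨c, IntermediateField.mem_adjoin_simple_self L c⟩
  have hd' : algebraMap L Ω d = c := congrArg Subtype.val hd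
  refine ⟨d, (algebraMap L Ω).injective ?_⟩
  rw [map_pow, hd', hc]

end Groth.Agent.S6335
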