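import Groth.Statements.S6336
import Mathlib

set_option autoImplicit false
universe u
open Fields

namespace Groth.Agent.S6336

theorem prod_form {K Ω : Type u} [Field K] [Field Ω] [Algebra K Ω] (a : Ω) (s : Multiset Ω) (h : ∀ r ∈ s, ∃ ζ : K, ζ ≠ 0 ∧ r = algebraMap K Ω ζ * a) : ∃ ζ : K, ζ ≠ 0 ∧ s.prod = algebraMap K Ω ζ * a ^ Multiset.card s := by
  induction s using Multiset.induction_on with
  | empty => exact ⟨1, one_ne_zero, by simp⟩
  | cons r s ih =>
    obtain ⟨ζ, h0, h1⟩ := ih (fun r hr => h r (Multiset.mem_cons_of_mem hr))
    obtain ⟨ζ', h0', h1'⟩ := h r (Multiset.mem_cons_self r s)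
    refine ⟨ζ' * ζ, mul_ne_zero h0' h0, ?_⟩
    rw [Multiset.prod_cons, h1, h1', Multiset.card_cons, map_mul, pow_succ]
    ring

open IntermediateField Polynomial in
theorem fin_eq {K L : Type u} [Field K] [Field L] [Algebra K L]
    [FiniteDimensional K L] (a : L) (ha : K⟮a⟯ = ⊤) (L' : IntermediateField K L) : (minpoly L' a).natDegree = Module.finrank L' L := by
  have hgen : IntermediateField.adjoin L' {a} = ⊤ := by
    rw [← IntermediateField.restrictScalars_eq_top_iff (K := K), eq_top_iff, ← ha]
    rw [IntermediateField.adjoin_simple_le_iff]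
    exact IntermediateField.mem_adjoin_simple_self L' a
  have hint : IsIntegral L' a := Algebra.IsIntegral.isIntegral a
  rw [← IntermediateField.adjoin.finrank hint, hgen, IntermediateField.finrank_top']

open IntermediateField Polynomial in
/-- With an added hypothesis: let L/K be a finite extension of degree e generated by a single element a
whose e-th power lies in K, and assume that the polynomial X ^ e - 1 splits into linear factors over
K (so every e-th root of unity of any extension of K already lies in K; this holds when K contains a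
primitive e-th root of unity, and when e is a power of the characteristic). Then every intermediate
field of L/K is generated by a ^ d for some divisor d of e. (The published statement has no
hypothesis on roots of unity; for K the rationals and a a primitive 8-th root of unity, e = 4 and a
^ 4 = -1, the intermediate field generated by a + a⁻¹, a square root of 2, is none of K(a), K(a ^
2), K(a ^ 4); the published proof uses that the e-th roots of unity met are fixed by the
automorphisms it constructs, which the splitting hypothesis guarantees.) -/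
theorem result {K L : Type u} [Field K] [Field L] [Algebra K L]
    [FiniteDimensional K L] (a : L) (ha : K⟮a⟯ = ⊤)
    (hpow : a ^ Module.finrank K L ∈ Set.range (algebraMap K L))
    (hroots : (X ^ Module.finrank K L - 1 : K[X]).Splits) (L' : IntermediateField K L) :
    ∃ d : ℕ, d ∣ Module.finrank K L ∧ L' = K⟮a ^ d⟯ := by
  classical
  have hn : 0 < Module.finrank K L := Module.finrank_pos
  have he : 0 < Module.finrank L' L := Module.finrank_pos
  have hdvd : Module.finrank L' L ∣ Module.finrank K L := ⟨_, (by rw [mul_comm]; exact (Module.finrank_mul_finrank K L' L).symm)⟩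
  refine ⟨Module.finrank L' L, hdvd, ?_⟩
  have hint : IsIntegral L' a := Algebra.IsIntegral.isIntegral a
  have hdeg := fin_eq a ha L'
  -- a ^ e ∈ L'
  have hae : a ^ Module.finrank L' L ∈ L' := by
    by_cases ha0 : a = 0
    · rw [ha0, zero_pow he.ne']
      exact L'.zero_mem
    let Ω := AlgebraicClosure L
    have hs : ((minpoly L' a).map (algebraMap L' Ω)).Splits := IsAlgClosed.splits _
    have hmonic : ((minpoly L' a).map (algebraMap L' Ω)).Monic := (minpoly.monic hint).map _
    have hroots' : ∀ r ∈ ((minpoly L' a).map (algebraMap L' Ω)).roots, ∃ ζ : K, ζ ≠ 0 ∧ r = algebraMap K Ω ζ * (algebraMap L Ω a) := by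
      intro r hr
      have ha0' : algebraMap L Ω a ≠ 0 := by
        rwa [Ne, map_eq_zero]
      obtain ⟨c, hc⟩ := hpow
      have h1 : minpoly L' a ∣ (X ^ Module.finrank K L - C (algebraMap K L' c)) := by
        apply minpoly.dvd
        simp only [map_sub, map_pow, aeval_X, aeval_C]
        rw [← hc, ← IsScalarTower.algebraMap_apply, sub_self]
      have h2 : (minpoly L' a).map (algebraMap L' Ω) ∣ (X ^ Module.finrank K L - C (algebraMap K L' c)).map (algebraMap L' Ω) := Polynomial.map_dvd _ h1
      have h3 := (mem_roots'.mp hr).2
      have h4 : IsRoot ((X ^ Module.finrank K L - C (algebraMap K L' c)).map (algebraMap L' Ω)) r := h3.dvd h2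
      have h5 : r ^ Module.finrank K L = (algebraMap L Ω a) ^ Module.finrank K L := by
        have h6 : r ^ Module.finrank K L - algebraMap L' Ω (algebraMap K L' c) = 0 := by simpa using h4
        rw [sub_eq_zero.mp h6, ← map_pow, ← hc, ← IsScalarTower.algebraMap_apply, ← IsScalarTower.algebraMap_apply]
      have h7 : (r / algebraMap L Ω a) ^ Module.finrank K L = 1 := by
        rw [div_pow, h5, div_self (pow_ne_zero _ ha0')]
      have h8 : aeval (r / algebraMap L Ω a) (X ^ Module.finrank K L - 1 : K[X]) = 0 := by
        simp [h7]
      have hmon : (X ^ Module.finrank K L - 1 : K[X]).Monic := by simpa using monic_X_pow_sub_C (1 : K) hn.ne'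
      have hprod := hroots.eq_prod_roots_of_monic hmon
      rw [hprod] at h8
      have h9 : ∃ ζ ∈ (X ^ Module.finrank K L - 1 : K[X]).roots, r / algebraMap L Ω a = algebraMap K Ω ζ := by
        rw [map_multiset_prod, Multiset.map_map, Multiset.prod_eq_zero_iff, Multiset.mem_map] at h8
        obtain ⟨ζ, hζ, h10⟩ := h8
        refine ⟨ζ, hζ, ?_⟩
        simpa [sub_eq_zero] using h10
      obtain ⟨ζ, -, h10⟩ := h9
      refine ⟨ζ, ?_, ?_⟩
      · rintro rfl
        rw [map_zero] at h10
        rw [h10, zero_pow hn.ne'] at h7
        exact zero_ne_one h7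
      · rw [← h10, div_mul_cancel₀ _ ha0']
    obtain ⟨ζ, hζ0, hζ⟩ := prod_form _ _ hroots'
    have hcard : Multiset.card ((minpoly L' a).map (algebraMap L' Ω)).roots = Module.finrank L' L := by
      rw [← hs.natDegree_eq_card_roots, natDegree_map, hdeg]
    have hcoeff := hs.coeff_zero_eq_prod_roots_of_monic hmonic
    rw [hζ, hcard, natDegree_map, hdeg, coeff_map] at hcoeff
    have h11 : algebraMap L Ω (algebraMap L' L ((minpoly L' a).coeff 0)) = algebraMap L Ω ((-1) ^ Module.finrank L' L * (algebraMap K L ζ * a ^ Module.finrank L' L)) := by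
      rw [← IsScalarTower.algebraMap_apply, hcoeff]
      simp only [map_mul, map_pow, map_neg, map_one]
      rw [← IsScalarTower.algebraMap_apply]
    have h12 := (algebraMap L Ω).injective h11
    have h13 : a ^ Module.finrank L' L = ((-1) ^ Module.finrank L' L * (algebraMap K L ζ⁻¹)) * (algebraMap L' L ((minpoly L' a).coeff 0)) := by
      rw [h12]
      have h14 : (algebraMap K L ζ⁻¹) * (algebraMap K L ζ) = 1 := by
        rw [← map_mul, inv_mul_cancel₀ hζ0, map_one]
      have h15 : ((-1 : L) ^ Module.finrank L' L) * ((-1) ^ Module.finrank L' L) = 1 := by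
        rw [← mul_pow]; simp
      calc a ^ Module.finrank L' L = 1 * 1 * a ^ Module.finrank L' L := by ring
        _ = (((-1 : L) ^ Module.finrank L' L) * ((-1) ^ Module.finrank L' L)) * ((algebraMap K L ζ⁻¹) * (algebraMap K L ζ)) * a ^ Module.finrank L' L := by rw [h14, h15]
        _ = _ := by ring
    rw [h13]
    apply L'.mul_mem
    · apply L'.mul_mem
      · exact pow_mem (neg_mem (one_mem L')) _
      · exact L'.algebraMap_mem _
    · exact ((minpoly L' a).coeff 0).2
  have hle : K⟮a ^ Module.finrank L' L⟯ ≤ L' := by
    rw [IntermediateField.adjoin_simple_le_iff]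
    exact hae
  symm
  apply IntermediateField.eq_of_le_of_finrank_le' hle
  rw [← fin_eq a ha K⟮a ^ Module.finrank L' L⟯]
  have h1 : minpoly K⟮a ^ Module.finrank L' L⟯ a ∣ (X ^ Module.finrank L' L - C (IntermediateField.AdjoinSimple.gen K (a ^ Module.finrank L' L))) := by
    apply minpoly.dvd
    simp
  have h2 := natDegree_le_of_dvd h1 (X_pow_sub_C_ne_zero he _)
  rwa [natDegree_X_pow_sub_C] at h2

end Groth.Agent.S6336
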