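import Groth.Statements.S6337
import Mathlib

set_option autoImplicit false
universe u
open CAlg

namespace Groth.Agent.S6337

/-- A direct sum of modules is Mittag-Leffler exactly when every summand is Mittag-Leffler. -/
theorem result (R : Type u) [CommRing R] {ι : Type u} (M : ι → Type u)
    [∀ i, AddCommGroup (M i)] [∀ i, Module R (M i)] :
    CAlg.IsMittagLeffler R (DirectSum ι M) ↔ ∀ i, CAlg.IsMittagLeffler R (M i) := by
  classical
  have hnat : ∀ {ι' : Type u} {Q : ι' → Type u} [∀ i, AddCommGroup (Q i)] [∀ i, Module R (Q i)] {A B : Type u} [AddCommGroup A] [Module R A] [AddCommGroup B] [Module R B] (f : A →ₗ[R] B) (x), (fun i => f.rTensor (Q i) (TensorProduct.piRightHom R R A Q x i)) = TensorProduct.piRightHom R R B Q (f.rTensor (∀ i, Q i) x) := by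
    intro ι' Q _ _ A B _ _ _ _ f x
    induction x with
    | zero => ext i; simp
    | add x y hx hy =>
      rw [map_add, map_add, map_add, ← hx, ← hy]
      ext i
      simp
    | tmul m q => ext i; simp
  constructor
  · intro h j κ Q _ _
    have h1 : ∀ y, (DirectSum.component R ι M j).rTensor (∀ i, Q i) ((DirectSum.lof R ι M j).rTensor _ y) = y := by
      intro y
      rw [← LinearMap.comp_apply, ← LinearMap.rTensor_comp]
      have : DirectSum.component R ι M j ∘ₗ DirectSum.lof R ι M j = LinearMap.id := by
        refine LinearMap.ext fun z => ?_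
        simp [DirectSum.component.lof_self]
      rw [this, LinearMap.rTensor_id, LinearMap.id_apply]
    rw [injective_iff_map_eq_zero]
    intro x hx
    rw [← h1 x]
    have : (DirectSum.lof R ι M j).rTensor (∀ i, Q i) x = 0 := by
      apply h κ Q
      rw [← hnat, hx, map_zero]
      ext i
      simp
    rw [this, map_zero]
  · intro h κ Q _ _
    have hc : ∀ (P : Type u) [AddCommGroup P] [Module R P] (x : TensorProduct R (DirectSum ι M) P) (j : ι), TensorProduct.directSumLeft R R M P x j = (DirectSum.component R ι M j).rTensor P x := by
      intro P _ _ x j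
      induction x with
      | zero => simp
      | add x y hx hy => rw [map_add, map_add, DirectSum.add_apply, hx, hy]
      | tmul m p => rw [TensorProduct.directSumLeft_tmul]; rfl
    rw [injective_iff_map_eq_zero]
    intro x hx
    apply (TensorProduct.directSumLeft R R M (∀ i, Q i)).injective
    rw [map_zero]
    ext j
    rw [hc, DirectSum.zero_apply]
    apply h j κ Q
    rw [← hnat, hx, map_zero]
    ext i
    simp

end Groth.Agent.S6337
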