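import Groth.Statements.S6338
import Mathlib

set_option autoImplicit false
universe u
open CAlg

namespace Groth.Agent.S6338

/-- Let M₁ → M₂ be a universally injective map of modules over a commutative ring (equivalently the
first map of a universally exact short exact sequence). If M₂ is Mittag-Leffler then so is M₁. -/
theorem result (R : Type u) [CommRing R] {M₁ M₂ : Type u}
    [AddCommGroup M₁] [Module R M₁] [AddCommGroup M₂] [Module R M₂] (f : M₁ →ₗ[R] M₂)
    (hf : CAlgX.UniversallyInjective R f) (h₂ : CAlg.IsMittagLeffler R M₂) :
    CAlg.IsMittagLeffler R M₁ := by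
  intro ι Q _ _
  have hnat : ∀ x, (fun i => f.rTensor (Q i) (TensorProduct.piRightHom R R M₁ Q x i)) = TensorProduct.piRightHom R R M₂ Q (f.rTensor (∀ i, Q i) x) := by
    intro x
    induction x with
    | zero => ext i; simp
    | add x y hx hy =>
      rw [map_add, map_add, map_add, ← hx, ← hy]
      ext i
      simp
    | tmul m q => ext i; simp
  intro x y hxy
  apply hf (∀ i, Q i)
  apply h₂ ι Q
  rw [← hnat, ← hnat, hxy]

end Groth.Agent.S6338
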