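import Groth.Statements.S6339
import Mathlib

set_option autoImplicit false
universe u
open CAlg

namespace Groth.Agent.S6339

/-- Let 0 → M₁ → M₂ → M₃ → 0 be a universally exact short exact sequence of modules over a commutative
ring (the first map is universally injective, the second is surjective with kernel the image of the
first). If M₁ and M₃ are Mittag-Leffler then so is M₂. -/
theorem result (R : Type u) [CommRing R] {M₁ M₂ M₃ : Type u}
    [AddCommGroup M₁] [Module R M₁] [AddCommGroup M₂] [Module R M₂] [AddCommGroup M₃] [Module R M₃]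
    (f : M₁ →ₗ[R] M₂) (g : M₂ →ₗ[R] M₃) (hf : CAlgX.UniversallyInjective R f)
    (hg : Function.Surjective g) (hfg : LinearMap.range f = LinearMap.ker g)
    (h₁ : CAlg.IsMittagLeffler R M₁) (h₃ : CAlg.IsMittagLeffler R M₃) :
    CAlg.IsMittagLeffler R M₂ := by
  intro ι Q _ _
  have hnat : ∀ {A B : Type u} [AddCommGroup A] [Module R A] [AddCommGroup B] [Module R B] (f : A →ₗ[R] B) (x), (fun i => f.rTensor (Q i) (TensorProduct.piRightHom R R A Q x i)) = TensorProduct.piRightHom R R B Q (f.rTensor (∀ i, Q i) x) := by
    intro A B _ _ _ _ f x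
    induction x with
    | zero => ext i; simp
    | add x y hx hy =>
      rw [map_add, map_add, map_add, ← hx, ← hy]
      ext i
      simp
    | tmul m q => ext i; simp
  have hexact : Function.Exact f g := by rw [LinearMap.exact_iff, hfg]
  rw [injective_iff_map_eq_zero]
  intro x hx
  have h1 : g.rTensor (∀ i, Q i) x = 0 := by
    apply h₃ ι Q
    rw [← hnat, hx, map_zero]
    ext i
    simp
  obtain ⟨y, rfl⟩ := (rTensor_exact _ hexact hg _).mp h1
  have h2 : y = 0 := by
    apply h₁ ι Q
    rw [map_zero]
    ext i
    apply hf (Q i)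
    have h3 := congrFun (hnat f y) i
    rw [hx] at h3
    rw [Pi.zero_apply, map_zero]
    exact h3
  rw [h2, map_zero]

end Groth.Agent.S6339
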