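import Groth.Statements.S6340
import Mathlib

set_option autoImplicit false
universe u
open CAlg

namespace Groth.Agent.S6340

/-- Let M₁ → M₂ → M₃ → 0 be exact with M₁ finitely generated; if M₂ is Mittag-Leffler then so is M₃.
Equivalently, as stated here: the quotient of a Mittag-Leffler module by a finitely generated
submodule is Mittag-Leffler. -/
theorem result (R : Type u) [CommRing R] {M : Type u} [AddCommGroup M] [Module R M]
    (N : Submodule R M) (hN : N.FG) (hM : CAlg.IsMittagLeffler R M) :
    CAlg.IsMittagLeffler R (M ⧸ N) := by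
  intro ι Q _ _
  have hnat : ∀ {A B : Type u} [AddCommGroup A] [Module R A] [AddCommGroup B] [Module R B] (f : A →ₗ[R] B) (x), (fun i => f.rTensor (Q i) (TensorProduct.piRightHom R R A Q x i)) = TensorProduct.piRightHom R R B Q (f.rTensor (∀ i, Q i) x) := by
    intro A B _ _ _ _ f x
    induction x with
    | zero => ext i; simp
    | add x y hx hy =>
      rw [map_add, map_add, map_add, ← hx, ← hy]
      ext i
      simp
    | tmul m q => ext i; simp
  have hexact : Function.Exact N.subtype N.mkQ := by rw [LinearMap.exact_iff, Submodule.ker_mkQ, Submodule.range_subtype]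
  have hsurj : Function.Surjective (TensorProduct.piRightHom R R N Q) := by
    haveI : Module.Finite R N := Module.Finite.iff_fg.mpr hN
    obtain ⟨n, π, hπ⟩ := Module.Finite.exists_fin' R N
    intro z
    have : ∀ i, ∃ y : Fin n → Q i, ∑ k, TensorProduct.tmul R (π (Pi.single k 1)) (y k) = z i := by
      intro i
      obtain ⟨w, hw⟩ := LinearMap.rTensor_surjective (Q i) hπ (z i)
      rw [← hw]
      clear hw
      induction w with
      | zero => exact ⟨0, by simp⟩
      | add x y hx hy =>
        obtain ⟨a, ha⟩ := hx
        obtain ⟨b, hb⟩ := hy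
        refine ⟨a + b, ?_⟩
        rw [map_add, ← ha, ← hb, ← Finset.sum_add_distrib]
        simp [TensorProduct.tmul_add]
      | tmul r q =>
        refine ⟨fun k => r k • q, ?_⟩
        rw [LinearMap.rTensor_tmul]
        conv_rhs => rw [pi_eq_sum_univ' r, map_sum, TensorProduct.sum_tmul]
        apply Finset.sum_congr rfl
        intro k _
        rw [map_smul, TensorProduct.smul_tmul]
    choose y hy using this
    refine ⟨∑ k, TensorProduct.tmul R (π (Pi.single k 1)) (fun i => y i k), ?_⟩
    ext i
    rw [map_sum, Finset.sum_apply, ← hy i]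
    simp
  rw [injective_iff_map_eq_zero]
  intro x hx
  obtain ⟨y, rfl⟩ := LinearMap.rTensor_surjective (∀ i, Q i) (Submodule.mkQ_surjective N) x
  have h1 : ∀ i, ∃ z, N.subtype.rTensor (Q i) z = TensorProduct.piRightHom R R M Q y i := by
    intro i
    apply (rTensor_exact (Q i) hexact (Submodule.mkQ_surjective N) _).mp
    have h3 := congrFun (hnat N.mkQ y) i
    rw [hx] at h3
    exact h3
  choose z hz using h1
  obtain ⟨w, hw⟩ := hsurj z
  have h4 : N.subtype.rTensor _ w = y := by
    apply hM ι Q
    rw [← hnat, hw]
    ext i
    exact hz i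
  rw [← h4]
  exact (rTensor_exact _ hexact (Submodule.mkQ_surjective N)).apply_apply_eq_zero w

end Groth.Agent.S6340
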