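import Groth.Statements.S6341
import Mathlib

set_option autoImplicit false
universe u
open CAlg

namespace Groth.Agent.S6341

/-- The colimit of a directed system of Mittag-Leffler modules with universally injective transition
maps is Mittag-Leffler. -/
theorem result (R : Type u) [CommRing R] {ι : Type u}
    [Preorder ι] [IsDirected ι (· ≤ ·)] [DecidableEq ι] (G : ι → Type u) [∀ i, AddCommGroup (G i)]
    [∀ i, Module R (G i)] (f : ∀ i j, i ≤ j → G i →ₗ[R] G j) [DirectedSystem G fun i j h => f i j h]
    (hf : ∀ i j (h : i ≤ j), CAlgX.UniversallyInjective R (f i j h))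
    (hG : ∀ i, CAlg.IsMittagLeffler R (G i)) :
    CAlg.IsMittagLeffler R (Module.DirectLimit G f) := by
  haveI : ∀ (P : Type u) [AddCommGroup P] [Module R P], DirectedSystem (fun i => TensorProduct R (G i) P) (fun i j h => (f i j h).rTensor P) := fun P _ _ => inferInstance
  by_cases hne : Nonempty ι
  swap
  · intro κ Q _ _
    haveI : IsEmpty ι := not_nonempty_iff.mp hne
    haveI : Subsingleton (Module.DirectLimit G f) := by
      refine ⟨fun a b => ?_⟩
      have h0 : ∀ a : Module.DirectLimit G f, a = 0 := by
        intro a
        have h1 : (LinearMap.id : Module.DirectLimit G f →ₗ[R] Module.DirectLimit G f) = 0 := by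
          apply Module.DirectLimit.hom_ext
          intro i
          exact isEmptyElim i
        exact LinearMap.congr_fun h1 a
      rw [h0 a, h0 b]
    intro x y _
    have h0 : ∀ x : TensorProduct R (Module.DirectLimit G f) (∀ i, Q i), x = 0 := by
      intro x
      induction x with
      | zero => rfl
      | add x y hx hy => rw [hx, hy, add_zero]
      | tmul a b => rw [Subsingleton.elim a 0, TensorProduct.zero_tmul]
    rw [h0 x, h0 y]
  haveI := hne
  have hof : ∀ (P : Type u) [AddCommGroup P] [Module R P] (i : ι) (y : TensorProduct R (G i) P), (Module.DirectLimit.of R ι G f i).rTensor P y = 0 → y = 0 := by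
    intro P _ _ i y hy
    have h1 := TensorProduct.directLimitLeft_rTensor_of f P y
    rw [hy, map_zero] at h1
    obtain ⟨j, hij, h2⟩ := Module.DirectLimit.of.zero_exact h1.symm
    apply hf i j hij P
    rw [map_zero]
    exact h2
  have hsurj : ∀ (P : Type u) [AddCommGroup P] [Module R P] (x : TensorProduct R (Module.DirectLimit G f) P), ∃ (i : ι) (y : TensorProduct R (G i) P), (Module.DirectLimit.of R ι G f i).rTensor P y = x := by
    intro P _ _ x
    obtain ⟨i, y, hy⟩ := Module.DirectLimit.exists_of (TensorProduct.directLimitLeft f P x)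
    refine ⟨i, y, ?_⟩
    apply (TensorProduct.directLimitLeft f P).injective
    rw [← hy, TensorProduct.directLimitLeft_rTensor_of]
  intro κ Q _ _
  have hnat : ∀ {A B : Type u} [AddCommGroup A] [Module R A] [AddCommGroup B] [Module R B] (f : A →ₗ[R] B) (x), (fun i => f.rTensor (Q i) (TensorProduct.piRightHom R R A Q x i)) = TensorProduct.piRightHom R R B Q (f.rTensor (∀ i, Q i) x) := by
    intro A B _ _ _ _ f x
    induction x with
    | zero => ext i; simp
    | add x y hx hy =>
      rw [map_add, map_add, map_add, ← hx, ← hy]
      ext i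
      simp
    | tmul m q => ext i; simp
  rw [injective_iff_map_eq_zero]
  intro x hx
  obtain ⟨i, y, rfl⟩ := hsurj _ x
  have h1 : y = 0 := by
    apply hG i κ Q
    rw [map_zero]
    ext a
    apply hof
    have h2 := congrFun (hnat (Module.DirectLimit.of R ι G f i) y) a
    rw [hx] at h2
    exact h2
  rw [h1, map_zero]

end Groth.Agent.S6341
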