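import Groth.Statements.S6342
import Mathlib

set_option autoImplicit false
universe u
open CAlg

namespace Groth.Agent.S6342

/-- Let R → S be a ring map such that S is Mittag-Leffler as an R-module, and let M be an S-module which
is flat and Mittag-Leffler over S. Then M is Mittag-Leffler as an R-module. -/
theorem result (R S : Type u) [CommRing R] [CommRing S] [Algebra R S]
    (M : Type u) [AddCommGroup M] [Module S M] [Module R M] [IsScalarTower R S M]
    (hS : CAlg.IsMittagLeffler R S) [Module.Flat S M] (hM : CAlg.IsMittagLeffler S M) :
    CAlg.IsMittagLeffler R M := by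
  intro κ Q _ _
  have hproj : ∀ (x : TensorProduct R M (∀ i, Q i)) (i : κ), TensorProduct.piRightHom R R M Q x i = (LinearMap.proj i).lTensor M x := by
    intro x i
    induction x with
    | zero => simp
    | add x y hx hy => rw [map_add, map_add, Pi.add_apply, hx, hy]
    | tmul m p => simp
  have he : ∀ (y : TensorProduct S M (TensorProduct R S (∀ i, Q i))) (i : κ), (LinearMap.proj i).lTensor M (TensorProduct.AlgebraTensorModule.cancelBaseChange R S S M (∀ i, Q i) y) = TensorProduct.AlgebraTensorModule.cancelBaseChange R S S M (Q i) (TensorProduct.piRightHom S S M (fun i => TensorProduct R S (Q i)) ((TensorProduct.piRightHom R S S Q).lTensor M y) i) := by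
    intro y i
    induction y with
    | zero => simp
    | add x y hx hy => simp only [map_add, Pi.add_apply, hx, hy]
    | tmul m z =>
      induction z with
      | zero => simp
      | add x y hx hy => simp only [TensorProduct.tmul_add, map_add, Pi.add_apply, hx, hy]
      | tmul s q => simp
  rw [injective_iff_map_eq_zero]
  intro x hx
  obtain ⟨y, rfl⟩ := (TensorProduct.AlgebraTensorModule.cancelBaseChange R S S M (∀ i, Q i)).surjective x
  have h1 : (TensorProduct.piRightHom R S S Q).lTensor M y = 0 := by
    apply hM κ (fun i => TensorProduct R S (Q i))
    rw [map_zero]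
    ext i
    apply (TensorProduct.AlgebraTensorModule.cancelBaseChange R S S M (Q i)).injective
    rw [← he, ← hproj, hx]
    simp
  have h2 : y = 0 := by
    apply Module.Flat.lTensor_preserves_injective_linearMap (M := M) (TensorProduct.piRightHom R S S Q) (hS κ Q)
    rw [h1, map_zero]
  rw [h2, map_zero]

end Groth.Agent.S6342
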