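import Groth.Statements.S6348
import Mathlib

set_option autoImplicit false
universe u
open scoped TensorProduct
open CAlg

namespace Groth.Agent.S6348

/-- For a ring map R → S and a Mittag-Leffler R-module M, the S-module S ⊗_R M is Mittag-Leffler. (The
companion parts on flat modules, projective modules and direct sums of countably generated modules
are standard base-change facts.) -/
theorem result (R S : Type u) [CommRing R] [CommRing S] [Algebra R S] (M : Type u)
    [AddCommGroup M] [Module R M] (hM : CAlg.IsMittagLeffler R M) :
    CAlg.IsMittagLeffler S (S ⊗[R] M) := by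
  intro κ Q _ _
  letI : ∀ i, Module R (Q i) := fun i => Module.compHom (Q i) (algebraMap R S)
  haveI : ∀ i, IsScalarTower R S (Q i) := fun i => ⟨fun r s q => by
    rw [Algebra.smul_def, mul_smul]; rfl⟩
  have hproj : ∀ (x : TensorProduct R M (∀ i, Q i)) (i : κ), TensorProduct.piRightHom R R M Q x i = (LinearMap.proj i).lTensor M x := by
    intro x i
    induction x with
    | zero => simp
    | add x y hx hy => rw [map_add, map_add, Pi.add_apply, hx, hy]
    | tmul m p => simp
  have he : ∀ (y : TensorProduct S (TensorProduct R S M) (∀ i, Q i)) (i : κ), (LinearMap.proj i).lTensor M (TensorProduct.comm R _ _ (TensorProduct.AlgebraTensorModule.cancelBaseChange R S S (∀ i, Q i) M (TensorProduct.comm S _ _ y))) = TensorProduct.comm R _ _ (TensorProduct.AlgebraTensorModule.cancelBaseChange R S S (Q i) M (TensorProduct.comm S _ _ (TensorProduct.piRightHom S S (TensorProduct R S M) Q y i))) := by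
    intro y i
    induction y with
    | zero => simp
    | add x y hx hy => simp only [map_add, Pi.add_apply, hx, hy]
    | tmul z q =>
      induction z with
      | zero => simp
      | add x y hx hy => simp only [TensorProduct.add_tmul, map_add, Pi.add_apply, hx, hy]
      | tmul s m => simp
  rw [injective_iff_map_eq_zero]
  intro x hx
  have h1 : TensorProduct.comm R _ _ (TensorProduct.AlgebraTensorModule.cancelBaseChange R S S (∀ i, Q i) M (TensorProduct.comm S _ _ x)) = 0 := by
    apply hM κ Q
    rw [map_zero]
    ext i
    rw [hproj, he, hx]
    simp
  simpa using h1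

end Groth.Agent.S6348
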