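import Groth.Statements.S6388
import Mathlib

set_option autoImplicit false
universe u
open CAlg

namespace Groth.Agent.S6388

theorem dom_iff (R : Type u) [CommRing R] {M N M' : Type u}
    [AddCommGroup M] [Module R M] [AddCommGroup N] [Module R N] [AddCommGroup M'] [Module R M']
    (f : M →ₗ[R] N) (g : M →ₗ[R] M') :
    (∀ (Q : Type u) [AddCommGroup Q] [Module R Q], LinearMap.ker (f.rTensor Q) ≤ LinearMap.ker (g.rTensor Q)) ↔
      CAlgX.UniversallyInjective R
        ((LinearMap.range (g.prod (-f))).mkQ ∘ₗ LinearMap.inl R M' N) := by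
  have hex : Function.Exact (g.prod (-f)) (LinearMap.range (g.prod (-f))).mkQ := by rw [LinearMap.exact_iff, Submodule.ker_mkQ]
  have hfst : ∀ (Q : Type u) [AddCommGroup Q] [Module R Q] (z : TensorProduct R M Q), (LinearMap.fst R M' N).rTensor Q ((g.prod (-f)).rTensor Q z) = g.rTensor Q z := by
    intro Q _ _ z
    rw [← LinearMap.comp_apply, ← LinearMap.rTensor_comp, LinearMap.fst_prod]
  have hsnd : ∀ (Q : Type u) [AddCommGroup Q] [Module R Q] (z : TensorProduct R M Q), (LinearMap.snd R M' N).rTensor Q ((g.prod (-f)).rTensor Q z) = - f.rTensor Q z := by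
    intro Q _ _ z
    rw [← LinearMap.comp_apply, ← LinearMap.rTensor_comp, LinearMap.snd_prod, LinearMap.rTensor_neg, LinearMap.neg_apply]
  have hdec : ∀ (Q : Type u) [AddCommGroup Q] [Module R Q] (w : TensorProduct R (M' × N) Q), w = (LinearMap.inl R M' N).rTensor Q ((LinearMap.fst R M' N).rTensor Q w) + (LinearMap.inr R M' N).rTensor Q ((LinearMap.snd R M' N).rTensor Q w) := by
    intro Q _ _ w
    induction w with
    | zero => simp
    | add x y hx hy => 
      conv_lhs => rw [hx, hy]
      simp only [map_add]
      abel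
    | tmul a q =>
      simp only [LinearMap.rTensor_tmul]
      rw [← TensorProduct.add_tmul]
      congr 1
      ext <;> simp
  constructor
  · intro h Q _ _
    rw [injective_iff_map_eq_zero]
    intro y hy
    rw [LinearMap.rTensor_comp, LinearMap.comp_apply] at hy
    obtain ⟨z, hz⟩ := (rTensor_exact Q hex (Submodule.mkQ_surjective _) _).mp hy
    have h1 := hsnd Q z
    have h2 := hfst Q z
    rw [hz, ← LinearMap.comp_apply, ← LinearMap.rTensor_comp] at h1 h2
    rw [LinearMap.snd_comp_inl, LinearMap.rTensor_zero, LinearMap.zero_apply] at h1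
    rw [LinearMap.fst_comp_inl, LinearMap.rTensor_id, LinearMap.id_apply] at h2
    have h3 : z ∈ LinearMap.ker (f.rTensor Q) := neg_eq_zero.mp h1.symm
    have h4 : g.rTensor Q z = 0 := h Q h3
    rw [h2, h4]
  · intro h Q _ _ z hz
    have hz' : f.rTensor Q z = 0 := hz
    change g.rTensor Q z = 0
    apply h Q
    rw [map_zero, LinearMap.rTensor_comp, LinearMap.comp_apply]
    have h1 : (LinearMap.inl R M' N).rTensor Q (g.rTensor Q z) = (g.prod (-f)).rTensor Q z := by
      conv_rhs => rw [hdec Q ((g.prod (-f)).rTensor Q z)]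
      rw [hfst, hsnd, hz', neg_zero, map_zero, add_zero]
    rw [h1]
    exact (rTensor_exact Q hex (Submodule.mkQ_surjective _)).apply_apply_eq_zero z

/-- Let f : M → N and g : M → M' be maps of R-modules and let N' be their pushout, realised as the
quotient of M' × N by the submodule of elements (g x, -f x). Then g dominates f — for every module Q
the kernel of f ⊗ id_Q is contained in the kernel of g ⊗ id_Q — if and only if the canonical map M'
→ N' is universally injective. -/
theorem result (R : Type u) [CommRing R] {M N M' : Type u}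
    [AddCommGroup M] [Module R M] [AddCommGroup N] [Module R N] [AddCommGroup M'] [Module R M']
    (f : M →ₗ[R] N) (g : M →ₗ[R] M') :
    (∀ (Q : Type u) [AddCommGroup Q] [Module R Q], LinearMap.ker (f.rTensor Q) ≤ LinearMap.ker (g.rTensor Q)) ↔
      CAlgX.UniversallyInjective R
        ((LinearMap.range (g.prod (-f))).mkQ ∘ₗ LinearMap.inl R M' N) := by
  exact dom_iff R f g

end Groth.Agent.S6388
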