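import Groth.Statements.S6359
import Mathlib
import Groth.Agent.S6388
import Groth.Agent.S6302

set_option autoImplicit false
universe u
open CAlg

namespace Groth.Agent.S6359

/-- Let f : M → N and g : M → M' be maps of R-modules such that the cokernel of f is finitely presented.
Then g dominates f (for every module Q the kernel of f ⊗ id_Q is contained in the kernel of g ⊗
id_Q) if and only if g factors through f. -/
theorem result (R : Type u) [CommRing R] {M N M' : Type u}
    [AddCommGroup M] [Module R M] [AddCommGroup N] [Module R N] [AddCommGroup M'] [Module R M']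
    (f : M →ₗ[R] N) (g : M →ₗ[R] M') [Module.FinitePresentation R (N ⧸ LinearMap.range f)] :
    (∀ (Q : Type u) [AddCommGroup Q] [Module R Q], LinearMap.ker (f.rTensor Q) ≤ LinearMap.ker (g.rTensor Q)) ↔
      ∃ h : N →ₗ[R] M', g = h ∘ₗ f := by
  constructor
  · intro hdom
    have hui := (Groth.Agent.S6388.dom_iff R f g).mp hdom
    have hle : LinearMap.range (g.prod (-f)) ≤ LinearMap.ker ((LinearMap.range f).mkQ ∘ₗ LinearMap.snd R M' N) := by
      rintro _ ⟨m, rfl⟩
      rw [LinearMap.mem_ker]
      change (LinearMap.range f).mkQ (- f m) = 0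
      rw [Submodule.mkQ_apply, Submodule.Quotient.mk_eq_zero]
      exact neg_mem ⟨m, rfl⟩
    have hrel : ∀ m : M, (LinearMap.range (g.prod (-f))).mkQ (0, f m) = (LinearMap.range (g.prod (-f))).mkQ (g m, 0) := by
      intro m
      symm
      rw [← sub_eq_zero, ← map_sub, Submodule.mkQ_apply, Submodule.Quotient.mk_eq_zero]
      refine ⟨m, ?_⟩
      ext <;> simp
    have hex : Function.Exact ((LinearMap.range (g.prod (-f))).mkQ ∘ₗ LinearMap.inl R M' N) ((LinearMap.range (g.prod (-f))).liftQ _ hle) := by
      intro p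
      obtain ⟨⟨a, n⟩, rfl⟩ := Submodule.mkQ_surjective _ p
      constructor
      · intro hp
        have hp' : (LinearMap.range f).mkQ n = 0 := hp
        rw [Submodule.mkQ_apply, Submodule.Quotient.mk_eq_zero] at hp'
        obtain ⟨m, rfl⟩ := hp'
        refine ⟨a + g m, ?_⟩
        change (LinearMap.range (g.prod (-f))).mkQ (a + g m, 0) = (LinearMap.range (g.prod (-f))).mkQ (a, f m)
        have h1 : ((a + g m, 0) : M' × N) = (a, 0) + (g m, 0) := by simp
        have h2 : ((a, f m) : M' × N) = (a, 0) + (0, f m) := by simp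
        rw [h1, h2, map_add, map_add, hrel]
      · rintro ⟨b, hb⟩
        rw [← hb]
        change (LinearMap.range f).mkQ 0 = 0
        rw [map_zero]
    have hsurj : Function.Surjective ((LinearMap.range (g.prod (-f))).liftQ _ hle) := by
      intro y
      obtain ⟨n, rfl⟩ := Submodule.mkQ_surjective _ y
      exact ⟨(LinearMap.range (g.prod (-f))).mkQ (0, n), rfl⟩
    obtain ⟨s, hs⟩ := Groth.Agent.S6302.split_of_pure _ _ hex hsurj hui
    have hinj : Function.Injective ((LinearMap.range (g.prod (-f))).mkQ ∘ₗ LinearMap.inl R M' N) := by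
      intro x y hxy
      have h1 := @hui R _ _ (TensorProduct.tmul R x 1) (TensorProduct.tmul R y 1) (by
        rw [LinearMap.rTensor_tmul, LinearMap.rTensor_tmul, hxy])
      simpa using congrArg (TensorProduct.rid R M') h1
    obtain ⟨_, ρ, hρ⟩ := (List.TFAE.out hex.split_tfae' 0 1).mp (And.intro hinj (Exists.intro s hs))
    refine ⟨ρ ∘ₗ (LinearMap.range (g.prod (-f))).mkQ ∘ₗ LinearMap.inr R M' N, ?_⟩
    refine LinearMap.ext fun m => ?_
    change g m = ρ ((LinearMap.range (g.prod (-f))).mkQ (0, f m))
    rw [hrel]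
    exact (LinearMap.congr_fun hρ (g m)).symm
  · rintro ⟨h, rfl⟩ Q _ _ x hx
    rw [LinearMap.mem_ker] at hx ⊢
    rw [LinearMap.rTensor_comp, LinearMap.comp_apply, hx, map_zero]

end Groth.Agent.S6359
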