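import Groth.Statements.S6380
import Mathlib

set_option autoImplicit false
universe u
open scoped TensorProduct
open CAlg

namespace Groth.Agent.S6380

/-- Given a linear map f : P → M of R-modules with P finitely presented, an R-module Q and an element x
of P ⊗ Q in the kernel of f ⊗ id_Q, one can factor f as h ∘ f' through some finitely presented
module P' (with f' : P → P' and h : P' → M) so that already f' ⊗ id_Q sends x to zero. -/
theorem result (R : Type u) [CommRing R] {P M Q : Type u}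
    [AddCommGroup P] [Module R P] [Module.FinitePresentation R P] [AddCommGroup M] [Module R M]
    [AddCommGroup Q] [Module R Q] (f : P →ₗ[R] M) (x : P ⊗[R] Q) (hx : f.rTensor Q x = 0) :
    ∃ (P' : Type u) (_ : AddCommGroup P') (_ : Module R P') (_ : Module.FinitePresentation R P')
      (f' : P →ₗ[R] P') (h : P' →ₗ[R] M), f = h ∘ₗ f' ∧ f'.rTensor Q x = 0 := by
  classical
  obtain ⟨n, S, hS⟩ : ∃ (n : ℕ) (S : Fin n → P × Q), x = ∑ k, (S k).1 ⊗ₜ[R] (S k).2 := by
    obtain ⟨S, hS⟩ := TensorProduct.exists_finset x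
    refine ⟨S.card, fun k => (S.equivFin.symm k : P × Q), ?_⟩
    rw [hS, ← Finset.sum_coe_sort S, ← S.equivFin.symm.sum_comp]
  let P₀ : Submodule R M := Submodule.span R (Set.range fun k => f (S k).1)
  have hP₀ : P₀.FG := Submodule.fg_span (Set.finite_range _)
  have hmem : ∀ k, f (S k).1 ∈ P₀ := fun k => Submodule.subset_span ⟨k, rfl⟩
  have h0 : P₀.subtype.rTensor Q (∑ k, (⟨f (S k).1, hmem k⟩ : P₀) ⊗ₜ[R] (S k).2) = 0 := by
    rw [map_sum, ← hx, hS, map_sum]
    rfl
  obtain ⟨Q₀, hle, hQ₀, h1⟩ := TensorProduct.eq_zero_of_fg_of_subtype_eq_zero hP₀ h0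
  rw [map_sum] at h1
  simp only [LinearMap.rTensor_tmul] at h1
  haveI : Module.Finite R Q₀ := Module.Finite.iff_fg.mpr hQ₀
  obtain ⟨r, π, hπ⟩ := Module.Finite.exists_fin' R Q₀
  choose c hc using fun k => hπ (Submodule.inclusion hle ⟨f (S k).1, hmem k⟩)
  have hex : Function.Exact (LinearMap.ker π).subtype π := by rw [LinearMap.exact_iff, Submodule.range_subtype]
  have h2 : π.rTensor Q (∑ k, c k ⊗ₜ[R] (S k).2) = 0 := by
    rw [map_sum]
    simp only [LinearMap.rTensor_tmul, hc]
    exact h1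
  obtain ⟨w, hw⟩ := (rTensor_exact Q hex hπ _).mp h2
  obtain ⟨T, hT⟩ := TensorProduct.exists_finset w
  let K : Submodule R (P × (Fin r → R)) := Submodule.span R ((Set.range fun k => ((S k).1, - c k)) ∪ ((fun t : (LinearMap.ker π) × Q => ((0 : P), (t.1 : Fin r → R))) '' (T : Set _)))
  have hK : K.FG := Submodule.fg_span ((Set.finite_range _).union (T.finite_toSet.image _))
  have hKle : K ≤ LinearMap.ker (f.coprod (Q₀.subtype ∘ₗ π)) := by
    rw [Submodule.span_le]
    rintro _ (⟨k, rfl⟩ | ⟨t, ht, rfl⟩)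
    · rw [SetLike.mem_coe, LinearMap.mem_ker, LinearMap.coprod_apply, LinearMap.comp_apply, map_neg, hc]
      simp
    · rw [SetLike.mem_coe, LinearMap.mem_ker, LinearMap.coprod_apply, LinearMap.comp_apply]
      have : π (t.1 : Fin r → R) = 0 := t.1.2
      rw [this]
      simp
  refine ⟨(P × (Fin r → R)) ⧸ K, inferInstance, inferInstance, Module.finitePresentation_of_surjective K.mkQ (Submodule.mkQ_surjective K) (by rw [Submodule.ker_mkQ]; exact hK), K.mkQ ∘ₗ LinearMap.inl R P (Fin r → R), K.liftQ _ hKle, ?_, ?_⟩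
  · refine LinearMap.ext fun p => ?_
    change f p = f p + Q₀.subtype (π 0)
    rw [map_zero, map_zero, add_zero]
  · rw [hS, map_sum]
    simp only [LinearMap.rTensor_tmul]
    have h3 : ∀ k, (K.mkQ ∘ₗ LinearMap.inl R P (Fin r → R)) (S k).1 = K.mkQ (0, c k) := by
      intro k
      change K.mkQ ((S k).1, 0) = _
      rw [← sub_eq_zero, ← map_sub, Submodule.mkQ_apply, Submodule.Quotient.mk_eq_zero]
      apply Submodule.subset_span
      left
      refine ⟨k, ?_⟩
      ext <;> simp
    simp only [h3]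
    have h4 : ∑ k, K.mkQ (0, c k) ⊗ₜ[R] (S k).2 = (K.mkQ ∘ₗ LinearMap.inr R P (Fin r → R)).rTensor Q (∑ k, c k ⊗ₜ[R] (S k).2) := by
      rw [map_sum]
      rfl
    rw [h4, ← hw, hT, map_sum, map_sum]
    apply Finset.sum_eq_zero
    intro t ht
    rw [LinearMap.rTensor_tmul, LinearMap.rTensor_tmul]
    have h5 : (K.mkQ ∘ₗ LinearMap.inr R P (Fin r → R)) ((LinearMap.ker π).subtype t.1) = 0 := by
      change K.mkQ (0, (t.1 : Fin r → R)) = 0
      rw [Submodule.mkQ_apply, Submodule.Quotient.mk_eq_zero]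
      apply Submodule.subset_span
      right
      exact ⟨t, ht, rfl⟩
    rw [h5, TensorProduct.zero_tmul]

end Groth.Agent.S6380
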