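import Groth.Statements.S6360
import Mathlib
import Groth.Agent.S6380

set_option autoImplicit false
universe u
open CAlg

namespace Groth.Agent.S6360

/-- For maps of R-modules f : M → N and g : M → M', g dominates f (the kernel of f ⊗ id_Q is contained
in that of g ⊗ id_Q for every module Q) if and only if this containment holds for every finitely
presented module Q. -/
theorem result (R : Type u) [CommRing R] {M N M' : Type u}
    [AddCommGroup M] [Module R M] [AddCommGroup N] [Module R N] [AddCommGroup M'] [Module R M']
    (f : M →ₗ[R] N) (g : M →ₗ[R] M') :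
    (∀ (Q : Type u) [AddCommGroup Q] [Module R Q], LinearMap.ker (f.rTensor Q) ≤ LinearMap.ker (g.rTensor Q)) ↔
      ∀ (Q : Type u) [AddCommGroup Q] [Module R Q], Module.FinitePresentation R Q →
        LinearMap.ker (f.rTensor Q) ≤ LinearMap.ker (g.rTensor Q) := by
  constructor
  · intro h Q _ _ _
    exact h Q
  · intro h Q _ _ x hx
    classical
    rw [LinearMap.mem_ker] at hx ⊢
    obtain ⟨S, hS⟩ := TensorProduct.exists_finset x
    have hS' : x = ∑ k : S, TensorProduct.tmul R k.1.1 k.1.2 := by
      rw [hS, ← Finset.sum_coe_sort S]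
    have hπ : ∀ k : S, Fintype.linearCombination R (fun k : S => k.1.2) (Pi.single k (1 : R)) = k.1.2 := by
      intro k
      rw [Fintype.linearCombination_apply_single, one_smul]
    have hx' : (Fintype.linearCombination R (fun k : S => k.1.2)).rTensor N (∑ k : S, TensorProduct.tmul R (Pi.single k (1 : R) : S → R) (f k.1.1)) = 0 := by
      rw [map_sum]
      simp only [LinearMap.rTensor_tmul, hπ]
      have h1 := congrArg (TensorProduct.comm R N Q) hx
      rw [hS', map_sum, map_sum, map_zero] at h1
      exact h1
    obtain ⟨P', _, _, hP', f', h', hf', hx''⟩ := Groth.Agent.S6380.result R (Fintype.linearCombination R (fun k : S => k.1.2)) _ hx'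
    have h2 : f.rTensor P' (∑ k : S, TensorProduct.tmul R k.1.1 (f' (Pi.single k (1 : R)))) = 0 := by
      have h3 := congrArg (TensorProduct.comm R P' N) hx''
      rw [map_sum, map_sum, map_zero] at h3
      rw [map_sum]
      exact h3
    have h4 : g.rTensor P' (∑ k : S, TensorProduct.tmul R k.1.1 (f' (Pi.single k (1 : R)))) = 0 := h P' hP' h2
    have h5 : x = h'.lTensor M (∑ k : S, TensorProduct.tmul R k.1.1 (f' (Pi.single k (1 : R)))) := by
      rw [hS', map_sum]
      apply Finset.sum_congr rfl
      intro k _
      rw [LinearMap.lTensor_tmul, ← LinearMap.comp_apply, ← hf', hπ]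
    rw [h5, ← LinearMap.comp_apply, LinearMap.rTensor_comp_lTensor, ← LinearMap.lTensor_comp_rTensor, LinearMap.comp_apply, h4, map_zero]

end Groth.Agent.S6360
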