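import Groth.Statements.S6362
import Mathlib

set_option autoImplicit false
universe u
open scoped TensorProduct
open Fields

namespace Groth.Agent.S6362

/-- Let K/F be a finite separable extension and L/F an extension with L algebraically closed. Then the
L-algebra map K ⊗_F L → ∏_σ L, indexed by the F-algebra maps σ : K → L and sending a ⊗ b to (σ(a)
b)_σ, is an isomorphism; stated as bijectivity of that map. -/
theorem result {F K L : Type u} [Field F] [Field K] [Field L]
    [Algebra F K] [Algebra F L] [FiniteDimensional F K] [Algebra.IsSeparable F K] [IsAlgClosed L] :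
    Function.Bijective (fun x : K ⊗[F] L => fun σ : K →ₐ[F] L =>
      Algebra.TensorProduct.lift σ (AlgHom.id F L) (fun a b => Commute.all (σ a) b) x) := by
  classical
  let b := Module.finBasis F K
  have hcard : Fintype.card (Fin (Module.finrank F K)) = Fintype.card (K →ₐ[F] L) := by
    rw [Fintype.card_fin]
    exact (AlgHom.card F K L).symm
  let e : Fin (Module.finrank F K) ≃ (K →ₐ[F] L) := Fintype.equivOfCardEq hcard
  have hdet : (Algebra.embeddingsMatrixReindex F L b e).det ≠ 0 := by
    intro h
    have h1 := Algebra.discr_eq_det_embeddingsMatrixReindex_pow_two F L b e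
    rw [h] at h1
    have h2 : algebraMap F L (Algebra.discr F b) = algebraMap F L 0 := by rw [h1, map_zero]; simp
    exact Algebra.discr_not_zero_of_basis F b ((algebraMap F L).injective h2)
  have hunit : IsUnit (Algebra.embeddingsMatrixReindex F L b e) := (Matrix.isUnit_iff_isUnit_det _).mpr (isUnit_iff_ne_zero.mpr hdet)
  have hkey : ∀ (x : K ⊗[F] L) j, Algebra.TensorProduct.lift (e j) (AlgHom.id F L) (fun a b => Commute.all ((e j) a) b) x = ∑ i, (TensorProduct.equivFinsuppOfBasisLeft b x) i * (e j) (b i) := by
    intro x j
    induction x with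
    | zero => simp
    | add x y hx hy => rw [map_add, map_add, hx, hy, ← Finset.sum_add_distrib]; simp [add_mul]
    | tmul k l =>
      refine (Algebra.TensorProduct.lift_tmul (e j) (AlgHom.id F L) (fun a b => Commute.all ((e j) a) b) k l).trans ?_
      change (e j) k * l = _
      conv_lhs => rw [← b.sum_repr k, map_sum, Finset.sum_mul]
      apply Finset.sum_congr rfl
      intro i _
      rw [TensorProduct.equivFinsuppOfBasisLeft_apply_tmul_apply, map_smul]
      simp only [Algebra.smul_def]
      ring
  have hkey2 : ∀ (x : K ⊗[F] L) j, Algebra.TensorProduct.lift (e j) (AlgHom.id F L) (fun a b => Commute.all ((e j) a) b) x = Matrix.vecMul (TensorProduct.equivFinsuppOfBasisLeft b x) (Algebra.embeddingsMatrixReindex F L b e) j := by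
    intro x j
    rw [hkey]
    rfl
  constructor
  · intro x y hxy
    apply (TensorProduct.equivFinsuppOfBasisLeft b).injective
    apply DFunLike.coe_injective
    apply Matrix.vecMul_injective_iff_isUnit.mpr hunit
    ext j
    have h3 := congrFun hxy (e j)
    have h4 := hkey2 x j
    have h5 := hkey2 y j
    exact h4.symm.trans (Eq.trans h3 h5)
  · intro z
    obtain ⟨v, hv⟩ := Matrix.vecMul_surjective_iff_isUnit.mpr hunit (fun j => z (e j))
    refine ⟨(TensorProduct.equivFinsuppOfBasisLeft b).symm (Finsupp.equivFunOnFinite.symm v), ?_⟩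
    ext σ
    obtain ⟨j, rfl⟩ := e.surjective σ
    have h4 := hkey2 ((TensorProduct.equivFinsuppOfBasisLeft b).symm (Finsupp.equivFunOnFinite.symm v)) j
    refine h4.trans ?_
    rw [LinearEquiv.apply_symm_apply]
    exact congrFun hv j

end Groth.Agent.S6362
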