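import Groth.Statements.S6364
import Mathlib

set_option autoImplicit false
universe u
open Fields

namespace Groth.Agent.S6364

theorem charmatrix_bd {R : Type u} [CommRing R] {n o : Type u} [Fintype n] [DecidableEq n] [Fintype o] [DecidableEq o] (M : Matrix n n R) : (Matrix.blockDiagonal (fun _ : o => M)).charpoly = M.charpoly ^ (Fintype.card o) := by
  have h1 : (Matrix.blockDiagonal (fun _ : o => M)).charmatrix = Matrix.blockDiagonal (fun _ : o => M.charmatrix) := by
    ext ⟨i, k⟩ ⟨j, l⟩ : 2
    simp only [Matrix.charmatrix_apply, Matrix.blockDiagonal_apply, Matrix.diagonal_apply, Prod.mk.injEq]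
    by_cases hkl : k = l <;> by_cases hij : i = j <;> simp [hkl, hij]
  rw [Matrix.charpoly, h1, Matrix.det_blockDiagonal, Finset.prod_const, Finset.card_univ]
  rfl

open IntermediateField in
/-- Let L/K be a finite extension and a ∈ L with minimal polynomial P over K. Then P ^ e, with e = [L :
K(a)], is the characteristic polynomial of multiplication by a (the K-linear map x ↦ a x on L), and
e · deg P = [L : K]. -/
theorem result {K L : Type u} [Field K] [Field L] [Algebra K L] [FiniteDimensional K L]
    (a : L) :
    (Algebra.lmul K L a).charpoly = minpoly K a ^ Module.finrank K⟮a⟯ L ∧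
      Module.finrank K⟮a⟯ L * (minpoly K a).natDegree = Module.finrank K L := by
  classical
  have h2 : Module.finrank K⟮a⟯ L * (minpoly K a).natDegree = Module.finrank K L := by
    rw [← IntermediateField.adjoin.finrank (Algebra.IsIntegral.isIntegral a), mul_comm]
    exact Module.finrank_mul_finrank K K⟮a⟯ L
  refine ⟨?_, h2⟩
  let pb := IntermediateField.adjoin.powerBasis (Algebra.IsIntegral.isIntegral (R := K) a)
  let c := Module.finBasis K⟮a⟯ L
  let b' := pb.basis.reindex (Equiv.ulift.{u} (α := Fin pb.dim)).symm
  let c' := c.reindex (Equiv.ulift.{u}).symm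
  have h3 := Algebra.smulTower_leftMulMatrix_algebraMap b' c' (AdjoinSimple.gen K a)
  rw [IntermediateField.AdjoinSimple.algebraMap_gen, Algebra.leftMulMatrix_apply] at h3
  have h4 := congrArg Matrix.charpoly h3
  rw [LinearMap.charpoly_toMatrix, charmatrix_bd, Algebra.leftMulMatrix_apply, LinearMap.charpoly_toMatrix] at h4
  have h5 : (Algebra.lmul K K⟮a⟯ (AdjoinSimple.gen K a)).charpoly = minpoly K a := by
    rw [← LinearMap.charpoly_toMatrix _ pb.basis, ← Algebra.leftMulMatrix_apply]
    have h6 := charpoly_leftMulMatrix pb
    have h7 : pb.gen = AdjoinSimple.gen K a := IntermediateField.adjoin.powerBasis_gen _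
    rw [h7] at h6
    rw [h6, IntermediateField.minpoly_gen]
  rw [h5] at h4
  rw [h4]
  congr 1
  simp

end Groth.Agent.S6364
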