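import Groth.Statements.S6366
import Mathlib

set_option autoImplicit false
universe u
open CAlg

namespace Groth.Agent.S6366

theorem ext {R : Type u} [CommRing R] {M₁ M₂ M₃ : Type u}
    [AddCommGroup M₁] [Module R M₁] [AddCommGroup M₂] [Module R M₂] [AddCommGroup M₃] [Module R M₃]
    (f : M₁ →ₗ[R] M₂) (g : M₂ →ₗ[R] M₃) (hf : Function.Injective f) (hg : Function.Surjective g)
    (hfg : LinearMap.range f = LinearMap.ker g)
    (hfp1 : (∀ N : Submodule R M₁, N.FG → Module.FinitePresentation R N))
    (hfp3 : (∀ N : Submodule R M₃, N.FG → Module.FinitePresentation R N)) :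
    (∀ N : Submodule R M₂, N.FG → Module.FinitePresentation R N) := by
  intro N hN
  have h3 : Module.FinitePresentation R (N.map g) := hfp3 _ (hN.map g)
  let g' : N →ₗ[R] (N.map g) := g.submoduleMap N
  have hg' : Function.Surjective g' := g.submoduleMap_surjective N
  haveI : Module.Finite R N := Module.Finite.iff_fg.mpr hN
  have h4 : (LinearMap.ker g').FG := Module.FinitePresentation.fg_ker g' hg'
  have h5 : Module.FinitePresentation R (LinearMap.ker g') := by
    let K : Submodule R M₁ := ((LinearMap.ker g').map N.subtype).comap f
    have hK : K.map f = (LinearMap.ker g').map N.subtype := by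
      rw [Submodule.map_comap_eq, inf_eq_right]
      rintro _ ⟨x, hx, rfl⟩
      rw [hfg]
      have : g' x = 0 := hx
      exact congrArg Subtype.val this
    have e1 : K ≃ₗ[R] (LinearMap.ker g') :=
      (Submodule.equivMapOfInjective f hf K).trans ((LinearEquiv.ofEq _ _ hK).trans (Submodule.equivMapOfInjective N.subtype (Submodule.injective_subtype N) _).symm)
    have h6 : K.FG := by
      haveI : Module.Finite R (LinearMap.ker g') := Module.Finite.iff_fg.mpr h4
      exact Module.Finite.iff_fg.mp (Module.Finite.equiv e1.symm)
    haveI := hfp1 K h6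
    exact Module.FinitePresentation.of_equiv e1
  exact Module.finitePresentation_of_ker g' hg'

theorem cohPi {R : Type u} [CommRing R] (hR : ∀ I : Ideal R, I.FG → Module.FinitePresentation R I) (n : ℕ) : ∀ N : Submodule R (Fin n → R), N.FG → Module.FinitePresentation R N := by
  induction n with
  | zero =>
    intro N _
    haveI : Subsingleton N := inferInstance
    infer_instance
  | succ n ih =>
    let e : (Fin (n+1) → R) ≃ₗ[R] R × (Fin n → R) := (Fin.consLinearEquiv R (fun _ : Fin (n+1) => R)).symm
    exact ext (e.symm.toLinearMap ∘ₗ LinearMap.inl R R (Fin n → R)) (LinearMap.snd R R (Fin n → R) ∘ₗ e.toLinearMap)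
      (e.symm.injective.comp LinearMap.inl_injective) (fun x => ⟨e.symm (0, x), by simp⟩) (by
        ext x
        simp only [LinearMap.mem_range, LinearMap.mem_ker, LinearMap.comp_apply]
        constructor
        · rintro ⟨y, rfl⟩
          simp
        · intro h
          refine ⟨(e x).1, ?_⟩
          have : (e x) = ((e x).1, (0 : Fin n → R)) := Prod.ext rfl h
          apply e.injective
          rw [this]
          simp) hR ih

/-- Let R be a coherent ring, i.e. every finitely generated ideal of R is finitely presented. Then an
R-module is coherent (finitely generated, and every finitely generated submodule is finitely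
presented) if and only if it is finitely presented. -/
theorem result (R : Type u) [CommRing R]
    (hR : ∀ I : Ideal R, I.FG → Module.FinitePresentation R I) (M : Type u) [AddCommGroup M] [Module R M] :
    (Module.Finite R M ∧ ∀ N : Submodule R M, N.FG → Module.FinitePresentation R N) ↔ Module.FinitePresentation R M := by
  constructor
  · rintro ⟨h1, h2⟩
    haveI := h2 ⊤ Module.Finite.fg_top
    exact Module.FinitePresentation.of_equiv (Submodule.topEquiv : (⊤ : Submodule R M) ≃ₗ[R] M)
  · intro h
    refine ⟨inferInstance, fun N hN => ?_⟩
    obtain ⟨n, π, hπ⟩ := Module.Finite.exists_fin' R M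
    have hker : (LinearMap.ker π).FG := Module.FinitePresentation.fg_ker π hπ
    have hN' : (N.comap π).FG := by
      apply Submodule.fg_of_fg_map_of_fg_inf_ker π
      · rwa [Submodule.map_comap_eq_of_surjective hπ]
      · rwa [inf_eq_right.mpr (LinearMap.ker_le_comap π)]
    haveI := cohPi hR n _ hN'
    let g : (N.comap π) →ₗ[R] N := π.restrict (fun x hx => hx)
    have hg : Function.Surjective g := by
      rintro ⟨y, hy⟩
      obtain ⟨x, rfl⟩ := hπ y
      exact ⟨⟨x, hy⟩, rfl⟩
    refine Module.finitePresentation_of_surjective g hg ?_
    have : LinearMap.ker g = (LinearMap.ker π).comap (N.comap π).subtype := by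
      ext x
      simp [g, LinearMap.restrict_apply]
    rw [this]
    apply Submodule.fg_of_fg_map_injective (N.comap π).subtype (Submodule.injective_subtype _)
    rw [Submodule.map_comap_subtype, inf_eq_right.mpr (LinearMap.ker_le_comap π)]
    exact hker

end Groth.Agent.S6366
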