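import Groth.Statements.S6367
import Mathlib

set_option autoImplicit false
universe u
open CAlg

namespace Groth.Agent.S6367

/-- Let 0 → M₁ → M₂ → M₃ → 0 be a short exact sequence of R-modules (f injective, g surjective, image of
f = kernel of g). If M₁ and M₃ are coherent — finitely generated with every finitely generated
submodule finitely presented — then so is M₂. -/
theorem result (R : Type u) [CommRing R] {M₁ M₂ M₃ : Type u}
    [AddCommGroup M₁] [Module R M₁] [AddCommGroup M₂] [Module R M₂] [AddCommGroup M₃] [Module R M₃]
    (f : M₁ →ₗ[R] M₂) (g : M₂ →ₗ[R] M₃) (hf : Function.Injective f) (hg : Function.Surjective g)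
    (hfg : LinearMap.range f = LinearMap.ker g)
    (h₁ : (Module.Finite R M₁ ∧ ∀ N : Submodule R M₁, N.FG → Module.FinitePresentation R N))
    (h₃ : (Module.Finite R M₃ ∧ ∀ N : Submodule R M₃, N.FG → Module.FinitePresentation R N)) :
    (Module.Finite R M₂ ∧ ∀ N : Submodule R M₂, N.FG → Module.FinitePresentation R N) := by
  obtain ⟨hf1, hfp1⟩ := h₁
  obtain ⟨hf3, hfp3⟩ := h₃
  constructor
  · have h1 : (LinearMap.ker g).FG := by
      rw [← hfg, LinearMap.range_eq_map]
      exact Module.Finite.fg_top.map f
    rw [← Module.Finite.iff_fg] at h1
    have h2 : Module.Finite R (M₂ ⧸ LinearMap.ker g) := Module.Finite.equiv (g.quotKerEquivOfSurjective hg).symm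
    exact Module.Finite.of_submodule_quotient (LinearMap.ker g)
  · intro N hN
    have h3 : Module.FinitePresentation R (N.map g) := hfp3 _ (hN.map g)
    let g' : N →ₗ[R] (N.map g) := g.submoduleMap N
    have hg' : Function.Surjective g' := g.submoduleMap_surjective N
    haveI : Module.Finite R N := Module.Finite.iff_fg.mpr hN
    have h4 : (LinearMap.ker g').FG := Module.FinitePresentation.fg_ker g' hg'
    have h5 : Module.FinitePresentation R (LinearMap.ker g') := by
      let K : Submodule R M₁ := ((LinearMap.ker g').map N.subtype).comap f
      have hK : K.map f = (LinearMap.ker g').map N.subtype := by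
        rw [Submodule.map_comap_eq, inf_eq_right]
        rintro _ ⟨x, hx, rfl⟩
        rw [hfg]
        have : g' x = 0 := hx
        exact congrArg Subtype.val this
      have e1 : K ≃ₗ[R] (LinearMap.ker g') :=
        (Submodule.equivMapOfInjective f hf K).trans ((LinearEquiv.ofEq _ _ hK).trans (Submodule.equivMapOfInjective N.subtype (Submodule.injective_subtype N) _).symm)
      have h6 : K.FG := by
        haveI : Module.Finite R (LinearMap.ker g') := Module.Finite.iff_fg.mpr h4
        exact Module.Finite.iff_fg.mp (Module.Finite.equiv e1.symm)
      haveI := hfp1 K h6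
      exact Module.FinitePresentation.of_equiv e1
    exact Module.finitePresentation_of_ker g' hg'

end Groth.Agent.S6367
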