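import Groth.Statements.S6372
import Mathlib

set_option autoImplicit false
universe u
open CAlg

namespace Groth.Agent.S6372

/-- A faithfully flat epimorphism of rings is an isomorphism: if R → S is faithfully flat and an
epimorphism in the category of rings then it is bijective. -/
theorem result (R S : Type u) [CommRing R] [CommRing S] [Algebra R S]
    [Module.FaithfullyFlat R S] [Algebra.IsEpi R S] : Function.Bijective (algebraMap R S) := by
  have h1 : Function.Bijective (Algebra.linearMap R S) := by
    rw [← Module.FaithfullyFlat.lTensor_bijective_iff_bijective R S]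
    constructor
    · have h2 : Function.Injective ((TensorProduct.rid R S).symm.toLinearMap) := (TensorProduct.rid R S).symm.injective
      intro a b hab
      have h3 := congrArg (TensorProduct.lift (LinearMap.mul R S)) hab
      obtain ⟨a, rfl⟩ := (TensorProduct.rid R S).symm.surjective a
      obtain ⟨b, rfl⟩ := (TensorProduct.rid R S).symm.surjective b
      have h8 : a = b := by simpa using h3
      rw [h8]
    · intro x
      have h5 : ∀ a b : S, a ⊗ₜ[R] b = (a * b) ⊗ₜ[R] (1 : S) := by
        intro a b
        have h4 := (Algebra.isEpi_iff_forall_one_tmul_eq R S).mp inferInstance b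
        have h6 := congrArg (fun z => a • z) h4
        simpa [TensorProduct.smul_tmul'] using h6
      induction x with
      | zero => exact ⟨0, map_zero _⟩
      | add x y hx hy =>
        obtain ⟨a, rfl⟩ := hx
        obtain ⟨b, rfl⟩ := hy
        exact ⟨a + b, map_add _ _ _⟩
      | tmul a b =>
        refine ⟨(a * b) ⊗ₜ[R] 1, ?_⟩
        rw [LinearMap.lTensor_tmul, h5 a b]
        simp
  exact h1

end Groth.Agent.S6372
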