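import Groth.Statements.S6373
import Mathlib

set_option autoImplicit false
universe u
open CAlg

namespace Groth.Agent.S6373

/-- If k is a field and k → S is an epimorphism of rings, then S is the zero ring or k → S is an
isomorphism. -/
theorem result (k S : Type u) [Field k] [CommRing S] [Algebra k S] [Algebra.IsEpi k S] :
    Subsingleton S ∨ Function.Bijective (algebraMap k S) := by
  rcases subsingleton_or_nontrivial S with h | h
  · exact Or.inl h
  · right
    have h1 : Function.Bijective (Algebra.linearMap k S) := by
      rw [← Module.FaithfullyFlat.lTensor_bijective_iff_bijective k S]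
      constructor
      · intro a b hab
        have h3 := congrArg (TensorProduct.lift (LinearMap.mul k S)) hab
        obtain ⟨a, rfl⟩ := (TensorProduct.rid k S).symm.surjective a
        obtain ⟨b, rfl⟩ := (TensorProduct.rid k S).symm.surjective b
        have h8 : a = b := by simpa using h3
        rw [h8]
      · intro x
        have h5 : ∀ a b : S, a ⊗ₜ[k] b = (a * b) ⊗ₜ[k] (1 : S) := by
          intro a b
          have h4 := (Algebra.isEpi_iff_forall_one_tmul_eq k S).mp inferInstance b
          have h6 := congrArg (fun z => a • z) h4
          simpa [TensorProduct.smul_tmul'] using h6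
        induction x with
        | zero => exact ⟨0, map_zero _⟩
        | add x y hx hy =>
          obtain ⟨a, rfl⟩ := hx
          obtain ⟨b, rfl⟩ := hy
          exact ⟨a + b, map_add _ _ _⟩
        | tmul a b =>
          refine ⟨(a * b) ⊗ₜ[k] 1, ?_⟩
          rw [LinearMap.lTensor_tmul, h5 a b]
          simp
    exact h1

end Groth.Agent.S6373
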