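import Groth.Statements.S6374
import Mathlib

set_option autoImplicit false
universe u
open CAlg

namespace Groth.Agent.S6374

theorem epi_field (k S : Type u) [Field k] [CommRing S] [Algebra k S] [Algebra.IsEpi k S] :
    Subsingleton S ∨ Function.Bijective (algebraMap k S) := by
  rcases subsingleton_or_nontrivial S with h | h
  · exact Or.inl h
  · right
    have h1 : Function.Bijective (Algebra.linearMap k S) := by
      rw [← Module.FaithfullyFlat.lTensor_bijective_iff_bijective k S]
      constructor
      · intro a b hab
        have h3 := congrArg (TensorProduct.lift (LinearMap.mul k S)) hab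
        obtain ⟨a, rfl⟩ := (TensorProduct.rid k S).symm.surjective a
        obtain ⟨b, rfl⟩ := (TensorProduct.rid k S).symm.surjective b
        have h8 : a = b := by simpa using h3
        rw [h8]
      · intro x
        have h5 : ∀ a b : S, a ⊗ₜ[k] b = (a * b) ⊗ₜ[k] (1 : S) := by
          intro a b
          have h4 := (Algebra.isEpi_iff_forall_one_tmul_eq k S).mp inferInstance b
          have h6 := congrArg (fun z => a • z) h4
          simpa [TensorProduct.smul_tmul'] using h6
        induction x with
        | zero => exact ⟨0, map_zero _⟩
        | add x y hx hy =>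
          obtain ⟨a, rfl⟩ := hx
          obtain ⟨b, rfl⟩ := hy
          exact ⟨a + b, map_add _ _ _⟩
        | tmul a b =>
          refine ⟨(a * b) ⊗ₜ[k] 1, ?_⟩
          rw [LinearMap.lTensor_tmul, h5 a b]
          simp
    exact h1

theorem epi_baseChange (R S T : Type u) [CommRing R] [CommRing S] [CommRing T] [Algebra R S] [Algebra R T] [Algebra.IsEpi R S] : Algebra.IsEpi T (TensorProduct R T S) := by
  rw [Algebra.isEpi_iff_forall_one_tmul_eq]
  intro x
  let f : S →ₐ[R] TensorProduct T (TensorProduct R T S) (TensorProduct R T S) :=
    ((Algebra.TensorProduct.includeLeft : (TensorProduct R T S) →ₐ[T] TensorProduct T (TensorProduct R T S) (TensorProduct R T S)).restrictScalars R).comp Algebra.TensorProduct.includeRight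
  let g : S →ₐ[R] TensorProduct T (TensorProduct R T S) (TensorProduct R T S) :=
    ((Algebra.TensorProduct.includeRight : (TensorProduct R T S) →ₐ[T] TensorProduct T (TensorProduct R T S) (TensorProduct R T S)).restrictScalars R).comp Algebra.TensorProduct.includeRight
  let φ : TensorProduct R S S →ₐ[R] TensorProduct T (TensorProduct R T S) (TensorProduct R T S) := Algebra.TensorProduct.lift f g (fun _ _ => Commute.all _ _)
  have key : ∀ s : S, f s = g s := by
    intro s
    have h1 := (Algebra.isEpi_iff_forall_one_tmul_eq R S).mp inferInstance s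
    have h2 := congrArg φ h1
    simpa [φ] using h2.symm
  induction x with
  | zero => simp
  | add x y hx hy => rw [TensorProduct.tmul_add, TensorProduct.add_tmul, hx, hy]
  | tmul t s =>
    have h3 : t ⊗ₜ[R] s = t • ((1 : T) ⊗ₜ[R] s) := by rw [TensorProduct.smul_tmul', smul_eq_mul, mul_one]
    rw [h3, TensorProduct.tmul_smul, ← TensorProduct.smul_tmul']
    congr 1
    exact (key s).symm

/-- For an epimorphism of rings R → S, the induced map Spec S → Spec R is injective and induces trivial
residue field extensions; stated in the form the proof gives: for every prime p of R the fibre ring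
S ⊗_R κ(p) is either zero or κ(p) → S ⊗_R κ(p) is bijective, together with injectivity of Spec S →
Spec R. -/
theorem result (R S : Type u) [CommRing R] [CommRing S] [Algebra R S]
    [Algebra.IsEpi R S] :
    Function.Injective (PrimeSpectrum.comap (algebraMap R S)) ∧
      ∀ (p : Ideal R) [p.IsPrime],
        Subsingleton (p.Fiber S) ∨ Function.Bijective (algebraMap p.ResidueField (p.Fiber S)) := by
  have hfib : ∀ (p : Ideal R) [p.IsPrime], Subsingleton (p.Fiber S) ∨ Function.Bijective (algebraMap p.ResidueField (p.Fiber S)) := by
    intro p _
    haveI : Algebra.IsEpi p.ResidueField (p.Fiber S) := epi_baseChange R S p.ResidueField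
    exact epi_field p.ResidueField (p.Fiber S)
  refine ⟨?_, hfib⟩
  intro q₁ q₂ h
  have hsub : Subsingleton (PrimeSpectrum ((PrimeSpectrum.comap (algebraMap R S) q₁).asIdeal.Fiber S)) := by
    rcases hfib (PrimeSpectrum.comap (algebraMap R S) q₁).asIdeal with h1 | h1
    · infer_instance
    · have h2 : IsField ((PrimeSpectrum.comap (algebraMap R S) q₁).asIdeal.Fiber S) :=
        MulEquiv.isField (Field.toIsField (PrimeSpectrum.comap (algebraMap R S) q₁).asIdeal.ResidueField) (RingEquiv.ofBijective _ h1).symm.toMulEquiv
      letI := h2.toField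
      exact inferInstanceAs (Subsingleton (PrimeSpectrum ((PrimeSpectrum.comap (algebraMap R S) q₁).asIdeal.Fiber S)))
  have e := PrimeSpectrum.preimageEquivFiber R S (PrimeSpectrum.comap (algebraMap R S) q₁)
  have h3 : (⟨q₁, rfl⟩ : PrimeSpectrum.comap (algebraMap R S) ⁻¹' {PrimeSpectrum.comap (algebraMap R S) q₁}) = ⟨q₂, h.symm⟩ := e.injective (Subsingleton.elim _ _)
  exact congrArg Subtype.val h3

end Groth.Agent.S6374
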