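import Groth.Statements.S6376
import Mathlib

set_option autoImplicit false
universe u
open CAlg

namespace Groth.Agent.S6376

/-- A ring map R → S is an epimorphism if and only if for all S-modules N₁, N₂ every R-linear map N₁ →
N₂ is S-linear, i.e. restriction of scalars from S-modules to R-modules is fully faithful. -/
theorem result (R S : Type u) [CommRing R] [CommRing S] [Algebra R S] :
    Algebra.IsEpi R S ↔
      ∀ (N₁ N₂ : Type u) [AddCommGroup N₁] [Module S N₁] [Module R N₁] [IsScalarTower R S N₁]
        [AddCommGroup N₂] [Module S N₂] [Module R N₂] [IsScalarTower R S N₂] (φ : N₁ →ₗ[R] N₂),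
        ∀ (s : S) (x : N₁), φ (s • x) = s • φ x := by
  constructor
  · intro hE N₁ N₂ _ _ _ _ _ _ _ _ φ s x
    have h1 : (TensorProduct.lid' R S N₁).symm (s • x) = TensorProduct.tmul R s x := by
      rw [LinearEquiv.symm_apply_eq, TensorProduct.lid'_apply_tmul]
    have h1' : TensorProduct.tmul R (1 : S) (s • x) = TensorProduct.tmul R s x := by
      rw [← h1, TensorProduct.lid'_symm_apply]
    have h2 := congrArg (fun z => TensorProduct.lid' R S N₂ (φ.lTensor S z)) h1'
    simpa using h2
  · intro H
    rw [Algebra.isEpi_iff_forall_one_tmul_eq]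
    intro a
    have := H S (TensorProduct R S S) (TensorProduct.mk R S S 1) a 1
    simpa [TensorProduct.smul_tmul'] using this

end Groth.Agent.S6376
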