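import Groth.Statements.S6416
import Mathlib

set_option autoImplicit false
open CategoryTheory
universe v₁ u₁ v₂ u₂ v₃ u₃
open FibCat

namespace Groth.Agent.S6416

theorem comp_sc {𝒜 : Type u₁} [Category.{v₁} 𝒜] {ℬ : Type u₂} [Category.{v₂} ℬ] {𝒞 : Type u₃} [Category.{v₃} 𝒞] (F : 𝒜 ⥤ ℬ) (G : ℬ ⥤ 𝒞) {x y : 𝒜} (φ : x ⟶ y)
    [F.IsStronglyCartesian (F.map φ) φ] [G.IsStronglyCartesian (G.map (F.map φ)) (F.map φ)] :
    (F ⋙ G).IsStronglyCartesian ((F ⋙ G).map φ) φ := by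
  haveI : (F ⋙ G).IsHomLift ((F ⋙ G).map φ) φ := inferInstance
  refine { universal_property' := ?_ }
  intro a' g φ' hφ'
  have h1 : g ≫ (F ⋙ G).map φ = (F ⋙ G).map φ' := IsHomLift.eq_of_isHomLift (F ⋙ G) (g ≫ (F ⋙ G).map φ) φ'
  haveI h2 : G.IsHomLift (g ≫ G.map (F.map φ)) (F.map φ') := by
    have : g ≫ G.map (F.map φ) = G.map (F.map φ') := h1
    rw [this]
    infer_instance
  obtain ⟨χ₁, ⟨hχ₁, hχ₁'⟩, hu₁⟩ := Functor.IsStronglyCartesian.universal_property' (p := G) (f := G.map (F.map φ)) (φ := F.map φ) g (F.map φ')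
  haveI h3 : F.IsHomLift (χ₁ ≫ F.map φ) φ' := by
    rw [hχ₁']
    infer_instance
  obtain ⟨χ, ⟨hχ, hχ'⟩, hu⟩ := Functor.IsStronglyCartesian.universal_property' (p := F) (f := F.map φ) (φ := φ) χ₁ φ'
  have h4 : χ₁ = F.map χ := IsHomLift.eq_of_isHomLift F χ₁ χ
  have h5 : g = G.map χ₁ := IsHomLift.eq_of_isHomLift G g χ₁
  refine ⟨χ, ⟨?_, hχ'⟩, ?_⟩
  · have : g = (F ⋙ G).map χ := by rw [h5, h4]; rfl
    rw [this]
    infer_instance
  · rintro χ' ⟨hχ'1, hχ'2⟩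
    have h6 : g = (F ⋙ G).map χ' := IsHomLift.eq_of_isHomLift (F ⋙ G) g χ'
    have h7 : F.map χ' = χ₁ := by
      apply hu₁
      refine ⟨?_, ?_⟩
      · rw [h6]
        change G.IsHomLift (G.map (F.map χ')) (F.map χ')
        infer_instance
      · rw [← F.map_comp, hχ'2]
    apply hu
    refine ⟨?_, hχ'2⟩
    rw [← h7]
    infer_instance

/-- The composite of two functors fibred in groupoids is fibred in groupoids. -/
theorem result {𝒜 : Type u₁} [Category.{v₁} 𝒜] {ℬ : Type u₂} [Category.{v₂} ℬ] {𝒞 : Type u₃} [Category.{v₃} 𝒞] (F : 𝒜 ⥤ ℬ) (G : ℬ ⥤ 𝒞) (hF : FibCat.IsFibGrpd F) (hG : FibCat.IsFibGrpd G) : FibCat.IsFibGrpd (F ⋙ G) := by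
  constructor
  · intro x V f
    obtain ⟨b, ψ, hψ⟩ := hG.exists_lift (x := F.obj x) f
    obtain ⟨a', φ, hφ⟩ := hF.exists_lift ψ
    obtain rfl := IsHomLift.domain_eq F ψ φ
    obtain rfl := IsHomLift.domain_eq G f ψ
    have h3 : ψ = F.map φ := IsHomLift.eq_of_isHomLift F ψ φ
    subst h3
    have h4 : f = G.map (F.map φ) := IsHomLift.eq_of_isHomLift G f (F.map φ)
    subst h4
    exact ⟨a', φ, IsHomLift.map (F ⋙ G) φ⟩
  · intro y x φ
    haveI := hF.isStronglyCartesian φ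
    haveI := hG.isStronglyCartesian (F.map φ)
    exact comp_sc F G φ

end Groth.Agent.S6416
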