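import Groth.Statements.S6417
import Mathlib

set_option autoImplicit false
open CategoryTheory CategoryTheory.Limits
universe v₁ u₁ v₂ u₂
open FibCat

namespace Groth.Agent.S6417

/-- For `p : 𝒮 ⥤ C`, a strongly cartesian `φ : x ⟶ y`, any `ψ : z ⟶ y`, and a strongly cartesian `a : w
⟶ z` lying over the second projection of `p x ×_{p y} p z`, the object `w` is a fibre product `x ×_y
z`: there is `b : w ⟶ x` over the first projection with `(b, a)` a pullback square. -/
theorem result {𝒮 : Type u₁} [Category.{v₁} 𝒮] {C : Type u₂} [Category.{v₂} C] (p : 𝒮 ⥤ C) {x y z w : 𝒮} (φ : x ⟶ y) (ψ : z ⟶ y)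
    [p.IsStronglyCartesian (p.map φ) φ] [HasPullback (p.map φ) (p.map ψ)] (a : w ⟶ z)
    [p.IsStronglyCartesian (pullback.snd (p.map φ) (p.map ψ)) a] :
    ∃ b : w ⟶ x, p.IsHomLift (pullback.fst (p.map φ) (p.map ψ)) b ∧ IsPullback b a φ ψ := by
  have hw : pullback.fst (p.map φ) (p.map ψ) ≫ p.map φ = pullback.snd (p.map φ) (p.map ψ) ≫ p.map ψ := pullback.condition
  haveI hl1 : p.IsHomLift (pullback.fst (p.map φ) (p.map ψ) ≫ p.map φ) (a ≫ ψ) := by
    rw [hw]
    infer_instance
  obtain ⟨b, ⟨hb, hb'⟩, hbu⟩ := Functor.IsStronglyCartesian.universal_property p (p.map φ) φ (pullback.fst (p.map φ) (p.map ψ)) (pullback.fst (p.map φ) (p.map ψ) ≫ p.map φ) rfl (a ≫ ψ)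
  have key : ∀ {t : 𝒮} (u : t ⟶ x) (v : t ⟶ z) (h : u ≫ φ = v ≫ ψ), ∃ l : t ⟶ w, l ≫ b = u ∧ l ≫ a = v ∧ ∀ m : t ⟶ w, m ≫ b = u → m ≫ a = v → m = l := by
    intro t u v h
    have h' : p.map u ≫ p.map φ = p.map v ≫ p.map ψ := by rw [← p.map_comp, h, p.map_comp]
    haveI : p.IsHomLift (pullback.lift (p.map u) (p.map v) h' ≫ pullback.snd (p.map φ) (p.map ψ)) v := by
      rw [pullback.lift_snd]
      infer_instance
    obtain ⟨l, ⟨hl, hl'⟩, hlu⟩ := Functor.IsStronglyCartesian.universal_property' (p := p) (f := pullback.snd (p.map φ) (p.map ψ)) (φ := a) (pullback.lift (p.map u) (p.map v) h') v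
    have hb1 : p.IsHomLift (pullback.lift (p.map u) (p.map v) h' ≫ pullback.fst (p.map φ) (p.map ψ)) (l ≫ b) := inferInstance
    rw [pullback.lift_fst] at hb1
    have h7 : l ≫ b = u := Functor.IsStronglyCartesian.ext p (p.map φ) φ (p.map u) (by rw [Category.assoc, hb', ← Category.assoc, hl', h])
    refine ⟨l, h7, hl', fun m hm1 hm2 => hlu m ⟨?_, hm2⟩⟩
    have hd : p.obj w = pullback (p.map φ) (p.map ψ) := IsHomLift.domain_eq p (pullback.snd (p.map φ) (p.map ψ)) a
    have hfa : p.map a = eqToHom hd ≫ pullback.snd (p.map φ) (p.map ψ) := by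
      have := IsHomLift.fac' p (pullback.snd (p.map φ) (p.map ψ)) a
      simpa using this
    have hfb : p.map b = eqToHom hd ≫ pullback.fst (p.map φ) (p.map ψ) := by
      have := IsHomLift.fac' p (pullback.fst (p.map φ) (p.map ψ)) b
      simpa using this
    have hm : p.map m ≫ eqToHom hd = pullback.lift (p.map u) (p.map v) h' := by
      apply pullback.hom_ext
      · rw [Category.assoc, ← hfb, ← p.map_comp, hm1, pullback.lift_fst]
      · rw [Category.assoc, ← hfa, ← p.map_comp, hm2, pullback.lift_snd]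
    rw [← hm]
    exact IsHomLift.of_fac' p (p.map m ≫ eqToHom hd) m rfl hd (by simp)
  refine ⟨b, hb, ⟨⟨hb'⟩, ⟨PullbackCone.IsLimit.mk _ (fun s => (key s.fst s.snd s.condition).choose) ?_ ?_ ?_⟩⟩⟩
  · intro s
    exact (key s.fst s.snd s.condition).choose_spec.1
  · intro s
    exact (key s.fst s.snd s.condition).choose_spec.2.1
  · intro s m h1 h2
    exact (key s.fst s.snd s.condition).choose_spec.2.2 m h1 h2

end Groth.Agent.S6417
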