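import Groth.Statements.S6419
import Mathlib

set_option autoImplicit false
open CategoryTheory
universe v₁ u₁ v₂ u₂
open FibCat

namespace Groth.Agent.S6419

theorem sc_over {𝒮 : Type u₁} [Category.{v₁} 𝒮] {C : Type u₂} [Category.{v₂} C] {U : C} (p' : 𝒮 ⥤ Over U) {y x : 𝒮} (φ : y ⟶ x) [(p' ⋙ Over.forget U).IsStronglyCartesian ((p' ⋙ Over.forget U).map φ) φ] : p'.IsStronglyCartesian (p'.map φ) φ := by
  refine { universal_property' := ?_ }
  intro a' g φ' hφ'
  have h1 : g ≫ p'.map φ = p'.map φ' := IsHomLift.eq_of_isHomLift p' (g ≫ p'.map φ) φ'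
  haveI : (p' ⋙ Over.forget U).IsHomLift ((Over.forget U).map g ≫ (p' ⋙ Over.forget U).map φ) φ' := by
    have : (Over.forget U).map g ≫ (p' ⋙ Over.forget U).map φ = (p' ⋙ Over.forget U).map φ' := congrArg (Over.forget U).map h1
    rw [this]
    infer_instance
  obtain ⟨χ, ⟨hχ, hχ'⟩, hu⟩ := Functor.IsStronglyCartesian.universal_property' (p := p' ⋙ Over.forget U) (f := (p' ⋙ Over.forget U).map φ) (φ := φ) ((Over.forget U).map g) φ'
  have h4 : (Over.forget U).map g = (p' ⋙ Over.forget U).map χ := IsHomLift.eq_of_isHomLift (p' ⋙ Over.forget U) ((Over.forget U).map g) χ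
  have h5 : g = p'.map χ := (Over.forget U).map_injective h4
  refine ⟨χ, ⟨?_, hχ'⟩, ?_⟩
  · rw [h5]
    infer_instance
  · rintro χ' ⟨hχ'1, hχ'2⟩
    have h6 : g = p'.map χ' := IsHomLift.eq_of_isHomLift p' g χ'
    apply hu
    refine ⟨?_, hχ'2⟩
    rw [h6]
    exact IsHomLift.map (p' ⋙ Over.forget U) χ'

theorem lift_over {𝒮 : Type u₁} [Category.{v₁} 𝒮] {C : Type u₂} [Category.{v₂} C] {U : C} (p' : 𝒮 ⥤ Over U) {y x : 𝒮} (V : Over U) (f : V ⟶ p'.obj x) (φ : y ⟶ x) [h : (p' ⋙ Over.forget U).IsHomLift ((Over.forget U).map f) φ] : p'.IsHomLift f φ := by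
  have hd0 : (p'.obj y).left = V.left := @IsHomLift.domain_eq _ _ _ _ (p' ⋙ Over.forget U) _ _ _ _ ((Over.forget U).map f) φ h
  obtain ⟨l, ⟨⟨⟩⟩, hm⟩ := V
  have hd : (p'.obj y).left = l := hd0
  subst hd
  have h1 : f.left = (p'.map φ).left := @IsHomLift.eq_of_isHomLift _ _ _ _ (p' ⋙ Over.forget U) y x f.left φ h
  have h2 : hm = (p'.obj y).hom := by
    have h3 := Over.w f
    rw [h1] at h3
    exact h3.symm.trans (Over.w (p'.map φ))
  subst h2
  have key : ∀ f' : p'.obj y ⟶ p'.obj x, f' = p'.map φ → p'.IsHomLift f' φ := by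
    rintro _ rfl
    exact IsHomLift.map p' φ
  exact key f (Over.OverMorphism.ext h1)

/-- If `p' : 𝒮 ⥤ C/U` composed with the forgetful functor `C/U ⥤ C` is fibred in groupoids, then so is
`p'`. -/
theorem result {𝒮 : Type u₁} [Category.{v₁} 𝒮] {C : Type u₂} [Category.{v₂} C] {U : C} (p' : 𝒮 ⥤ Over U) (h : FibCat.IsFibGrpd (p' ⋙ Over.forget U)) : FibCat.IsFibGrpd p' := by
  constructor
  · intro x V f
    obtain ⟨y, φ, hφ⟩ := h.exists_lift (x := x) ((Over.forget U).map f)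
    exact ⟨y, φ, @lift_over _ _ _ _ _ p' _ _ V f φ hφ⟩
  · intro y x φ
    haveI := h.isStronglyCartesian φ
    exact sc_over p' φ

end Groth.Agent.S6419
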