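import Groth.Statements.S6421
import Mathlib

set_option autoImplicit false
open CategoryTheory CategoryTheory.Limits
universe v u
open FibCat

namespace Groth.Agent.S6421

theorem faith {X Y Z A B C : Type u} [Category.{v} X] [Category.{v} Y] [Category.{v} Z] [Category.{v} A] [Category.{v} B] [Category.{v} C] {H : X ⥤ Z} {I : Y ⥤ Z} {F : A ⥤ C} {G : B ⥤ C} (ψ : CatCospanTransform H I F G) [ψ.left.Faithful] [ψ.right.Faithful] :
    (FibCat.categoricalPullbackMap ψ).Faithful := by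
  constructor
  intro a b f g h
  ext
  · apply ψ.left.map_injective
    exact congrArg CategoricalPullback.Hom.fst h
  · apply ψ.right.map_injective
    exact congrArg CategoricalPullback.Hom.snd h

theorem abs_cancel {C : Type u} [Category.{v} C] {F1 F1' B1 B1' B2 B2' G2 G2' : C} (fm : F1 ⟶ F1') (ia : F1 ⟶ B1) (ib : F1' ⟶ B1') (hm : B1 ⟶ B1') (n1 : fm ≫ ib = ia ≫ hm) (β : B1' ⟶ B2') (α : B1 ⟶ B2) (im : B2 ⟶ B2') (ja : B2 ⟶ G2) (jb : B2' ⟶ G2') (gm : G2 ⟶ G2') (n2 : im ≫ jb = ja ≫ gm) (h1 : IsIso ia) (h2 : IsIso jb) (hw : fm ≫ ib ≫ β ≫ jb = (ia ≫ α ≫ ja) ≫ gm) : hm ≫ β = α ≫ im := by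
  rw [← cancel_epi ia, ← cancel_mono jb]
  simp only [Category.assoc]
  rw [n2, ← reassoc_of% n1, hw]
  simp only [Category.assoc]

theorem isoform {X Y Z A B C : Type u} [Category.{v} X] [Category.{v} Y] [Category.{v} Z] [Category.{v} A] [Category.{v} B] [Category.{v} C] {H : X ⥤ Z} {I : Y ⥤ Z} {F : A ⥤ C} {G : B ⥤ C} (ψ : CatCospanTransform H I F G) (a : CategoricalPullback H I) :
    ((FibCat.categoricalPullbackMap ψ).obj a).iso.hom = ψ.squareLeft.iso.inv.app a.fst ≫ ψ.base.map a.iso.hom ≫ ψ.squareRight.iso.hom.app a.snd := by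
  simp [FibCat.categoricalPullbackMap]
  rfl

/-- For a 2-commutative morphism of cospans of categories whose outer functors `X ⥤ A`, `Y ⥤ B` are
fully faithful and whose middle functor `Z ⥤ C` is faithful, the induced functor `X ×_Z Y ⥤ A ×_C B`
is fully faithful. -/
theorem result {X Y Z A B C : Type u} [Category.{v} X] [Category.{v} Y] [Category.{v} Z] [Category.{v} A] [Category.{v} B] [Category.{v} C] {H : X ⥤ Z} {I : Y ⥤ Z} {F : A ⥤ C} {G : B ⥤ C} (ψ : CatCospanTransform H I F G) [ψ.left.Full] [ψ.left.Faithful] [ψ.right.Full] [ψ.right.Faithful] [ψ.base.Faithful] :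
    (FibCat.categoricalPullbackMap ψ).Full ∧ (FibCat.categoricalPullbackMap ψ).Faithful := by
  refine ⟨⟨fun {a b} g => ?_⟩, faith ψ⟩
  obtain ⟨f1, hf1⟩ : ∃ f1 : a.fst ⟶ b.fst, ψ.left.map f1 = g.fst := ⟨ψ.left.preimage (show ψ.left.obj a.fst ⟶ ψ.left.obj b.fst from g.fst), ψ.left.map_preimage _⟩
  obtain ⟨f2, hf2⟩ : ∃ f2 : a.snd ⟶ b.snd, ψ.right.map f2 = g.snd := ⟨ψ.right.preimage (show ψ.right.obj a.snd ⟶ ψ.right.obj b.snd from g.snd), ψ.right.map_preimage _⟩
  have h3 := g.w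
  have ib := isoform ψ b
  have ia := isoform ψ a
  have hw : F.map (ψ.left.map f1) ≫ (ψ.squareLeft.iso.inv.app b.fst ≫ ψ.base.map b.iso.hom ≫ ψ.squareRight.iso.hom.app b.snd) = (ψ.squareLeft.iso.inv.app a.fst ≫ ψ.base.map a.iso.hom ≫ ψ.squareRight.iso.hom.app a.snd) ≫ G.map (ψ.right.map f2) := by
    have e0 := congrArg (fun t : F.obj (ψ.left.obj b.fst) ⟶ G.obj (ψ.right.obj b.snd) => F.map (ψ.left.map f1) ≫ t) ib
    have e1 := congrArg (fun t : ψ.left.obj a.fst ⟶ ψ.left.obj b.fst => F.map t ≫ (show F.obj (ψ.left.obj b.fst) ⟶ G.obj (ψ.right.obj b.snd) from ((FibCat.categoricalPullbackMap ψ).obj b).iso.hom)) hf1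
    have e2 := congrArg (fun t : ψ.right.obj a.snd ⟶ ψ.right.obj b.snd => (show F.obj (ψ.left.obj a.fst) ⟶ G.obj (ψ.right.obj a.snd) from ((FibCat.categoricalPullbackMap ψ).obj a).iso.hom) ≫ G.map t) hf2
    have e4 := congrArg (fun t : F.obj (ψ.left.obj a.fst) ⟶ G.obj (ψ.right.obj a.snd) => t ≫ G.map (ψ.right.map f2)) ia
    exact e0.symm.trans (e1.trans (Eq.trans h3 (e2.symm.trans e4)))
  have key : ψ.base.map (H.map f1) ≫ ψ.base.map b.iso.hom = ψ.base.map a.iso.hom ≫ ψ.base.map (I.map f2) :=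
    abs_cancel (F.map (ψ.left.map f1)) (ψ.squareLeft.iso.inv.app a.fst) (ψ.squareLeft.iso.inv.app b.fst) _ (ψ.squareLeft.iso.inv.naturality f1) _ _ _ (ψ.squareRight.iso.hom.app a.snd) (ψ.squareRight.iso.hom.app b.snd) _ (ψ.squareRight.iso.hom.naturality f2) inferInstance inferInstance hw
  have hc : H.map f1 ≫ b.iso.hom = a.iso.hom ≫ I.map f2 := by
    apply ψ.base.map_injective
    rw [Functor.map_comp, Functor.map_comp]
    exact key
  refine ⟨⟨f1, f2, hc⟩, ?_⟩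
  ext
  · exact hf1
  · exact hf2

end Groth.Agent.S6421
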