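import Groth.Statements.S6424
import Mathlib

set_option autoImplicit false
open CategoryTheory CategoryTheory.Limits
universe v u
open CatLim

namespace Groth.Agent.S6424

theorem hasProduct_fin_succ {C : Type u} [Category.{v} C] [HasBinaryProducts C] : ∀ (n : ℕ) (f : Fin (n + 1) → C), HasProduct f
  | 0 => fun f => by
    haveI : Subsingleton (Fin (0+1)) := ⟨fun a b => by omega⟩
    haveI : Nonempty (Fin (0+1)) := ⟨0⟩
    exact hasProduct_unique f
  | n + 1 => fun f =>
    haveI := hasProduct_fin_succ (C := C) n
    HasLimit.mk ⟨_, extendFanIsLimit f (limit.isLimit _) (limit.isLimit _)⟩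

/-- (2) ⇒ (1): a category with products of pairs and equalizers has all finite nonempty limits. -/
theorem result {C : Type u} [Category.{v} C] [HasBinaryProducts C] [HasEqualizers C]
    (J : Type) [SmallCategory J] [FinCategory J] [Nonempty J] : HasLimitsOfShape J C := by
  have h1 : ∀ (β : Type) [Finite β] [Nonempty β] (g : β → C), HasProduct g := by
    intro β _ _ g
    obtain ⟨n, ⟨e⟩⟩ := Finite.exists_equiv_fin β
    cases n with
    | zero => exact (IsEmpty.false (α := Fin 0) (e (Classical.arbitrary β))).elim
    | succ n =>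
      haveI := hasProduct_fin_succ n (fun k => g (e.symm k))
      exact hasProduct_of_equiv_of_iso (fun k => g (e.symm k)) g e (fun j => eqToIso (by simp))
  constructor
  intro F
  haveI : Finite (Σ p : J × J, p.1 ⟶ p.2) := inferInstance
  haveI : Nonempty (Σ p : J × J, p.1 ⟶ p.2) := ⟨⟨(Classical.arbitrary J, Classical.arbitrary J), 𝟙 _⟩⟩
  haveI : HasLimit (Discrete.functor F.obj) := h1 J F.obj
  haveI : HasLimit (Discrete.functor fun f : Σ p : J × J, p.1 ⟶ p.2 => F.obj f.1.2) := h1 _ _
  exact hasLimit_of_equalizer_and_product F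

end Groth.Agent.S6424
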