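import Groth.Statements.S6425
import Mathlib

set_option autoImplicit false
open CategoryTheory CategoryTheory.Limits
universe v
open CatLim

namespace Groth.Agent.S6425

theorem prod_ext' {A B : Type v} (y y' : (A ⨯ B : Type v)) (h1 : (prod.fst : A ⨯ B ⟶ A) y = (prod.fst : A ⨯ B ⟶ A) y') (h2 : (prod.snd : A ⨯ B ⟶ B) y = (prod.snd : A ⨯ B ⟶ B) y') : y = y' := by
  apply (Types.binaryProductIso A B).toEquiv.injective
  apply Prod.ext
  · have h3 := fun z => ConcreteCategory.congr_hom (Types.binaryProductIso_hom_comp_fst A B) z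
    have h4 := h3 y
    have h5 := h3 y'
    rw [← h4, ← h5] at h1
    exact h1
  · have h3 := fun z => ConcreteCategory.congr_hom (Types.binaryProductIso_hom_comp_snd A B) z
    have h4 := h3 y
    have h5 := h3 y'
    rw [← h4, ← h5] at h2
    exact h2

/-- Over an index category in which any two objects map to a common object, the comparison map `colim (M
× N) → colim M × colim N` for diagrams of sets is surjective. -/
theorem result {I : Type v} [SmallCategory I]
    (hI : ∀ x y : I, ∃ (z : I) (_ : x ⟶ z) (_ : y ⟶ z), True) (M N : I ⥤ Type v) :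
    Function.Surjective (prodComparison (colim : (I ⥤ Type v) ⥤ Type v) M N) := by
  intro y
  obtain ⟨i, m, hm⟩ := Types.jointly_surjective' ((prod.fst : colim.obj M ⨯ colim.obj N ⟶ colim.obj M) y)
  obtain ⟨j, n, hn⟩ := Types.jointly_surjective' ((prod.snd : colim.obj M ⨯ colim.obj N ⟶ colim.obj N) y)
  obtain ⟨z, a, b, -⟩ := hI i j
  obtain ⟨w, hw1, hw2⟩ : ∃ w : (M ⨯ N).obj z, (prod.fst : M ⨯ N ⟶ M).app z w = M.map a m ∧ (prod.snd : M ⨯ N ⟶ N).app z w = N.map b n := by
    refine ⟨coyonedaEquiv (prod.lift (coyonedaEquiv.symm (M.map a m)) (coyonedaEquiv.symm (N.map b n))), ?_, ?_⟩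
    · have h1 := congrArg coyonedaEquiv (prod.lift_fst (coyonedaEquiv.symm (M.map a m)) (coyonedaEquiv.symm (N.map b n)))
      rw [Equiv.apply_symm_apply] at h1
      exact h1
    · have h1 := congrArg coyonedaEquiv (prod.lift_snd (coyonedaEquiv.symm (M.map a m)) (coyonedaEquiv.symm (N.map b n)))
      rw [Equiv.apply_symm_apply] at h1
      exact h1
  refine ⟨colimit.ι (M ⨯ N) z w, ?_⟩
  apply prod_ext'
  · have h1 := ConcreteCategory.congr_hom (prodComparison_fst (colim : (I ⥤ Type v) ⥤ Type v) (A := M) (B := N)) (colimit.ι (M ⨯ N) z w)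
    have h2 := ConcreteCategory.congr_hom (colimit.ι_map (prod.fst : M ⨯ N ⟶ M) z) w
    have h3 := ConcreteCategory.congr_hom (colimit.w M a) m
    rw [← hm]
    refine h1.trans (h2.trans ?_)
    refine Eq.trans ?_ h3
    exact congrArg _ hw1
  · have h1 := ConcreteCategory.congr_hom (prodComparison_snd (colim : (I ⥤ Type v) ⥤ Type v) (A := M) (B := N)) (colimit.ι (M ⨯ N) z w)
    have h2 := ConcreteCategory.congr_hom (colimit.ι_map (prod.snd : M ⨯ N ⟶ N) z) w
    have h3 := ConcreteCategory.congr_hom (colimit.w N b) n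
    rw [← hn]
    refine h1.trans (h2.trans ?_)
    refine Eq.trans ?_ h3
    exact congrArg _ hw2

end Groth.Agent.S6425
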