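import Groth.Statements.S6426
import Mathlib

set_option autoImplicit false
open CategoryTheory CategoryTheory.Limits
universe v
open CatLim

namespace Groth.Agent.S6426

/-- Over a nonempty index category in which any two objects map to a common object, the set-theoretic
colimit of a diagram of abelian groups surjects onto its colimit in abelian groups. (The published
statement does not require the index category to be nonempty; this row assumes it, because for the
empty index category the colimit of sets is empty while the colimit of abelian groups is the zero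
group.) -/
theorem result {I : Type v} [SmallCategory I] [Nonempty I]
    (hI : ∀ x y : I, ∃ (z : I) (_ : x ⟶ z) (_ : y ⟶ z), True) (M : I ⥤ AddCommGrpCat.{v}) :
    Function.Surjective (colimit.post M (forget AddCommGrpCat.{v})) := by
  classical
  intro y
  let H : AddSubgroup (colimit M : AddCommGrpCat.{v}) :=
    { carrier := {g | ∃ (i : I) (x : M.obj i), (colimit.ι M i) x = g}
      zero_mem' := by
        obtain ⟨i⟩ := ‹Nonempty I›
        exact ⟨i, 0, map_zero _⟩
      add_mem' := by
        rintro _ _ ⟨i, x, rfl⟩ ⟨j, x', rfl⟩
        obtain ⟨z, a, b, -⟩ := hI i j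
        refine ⟨z, M.map a x + M.map b x', ?_⟩
        rw [map_add]
        have h3 := ConcreteCategory.congr_hom (colimit.w M a) x
        have h4 := ConcreteCategory.congr_hom (colimit.w M b) x'
        rw [ConcreteCategory.comp_apply] at h3 h4
        rw [h3, h4]
      neg_mem' := by
        rintro _ ⟨i, x, rfl⟩
        exact ⟨i, -x, map_neg _ _⟩ }
  have h0 : AddCommGrpCat.ofHom (QuotientAddGroup.mk' H) = 0 := by
    apply colimit.hom_ext
    intro i
    ext x
    rw [ConcreteCategory.comp_apply]
    have : (QuotientAddGroup.mk' H) (colimit.ι M i x) = 0 := by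
      rw [← AddMonoidHom.mem_ker, QuotientAddGroup.ker_mk']
      exact ⟨i, x, rfl⟩
    rw [comp_zero]
    exact this
  have hy : (y : (colimit M : AddCommGrpCat.{v})) ∈ H := by
    have h1 := ConcreteCategory.congr_hom h0 (y : (colimit M : AddCommGrpCat.{v}))
    rw [← QuotientAddGroup.ker_mk' H, AddMonoidHom.mem_ker]
    exact h1
  obtain ⟨i, x, hx⟩ := hy
  refine ⟨colimit.ι (M ⋙ forget AddCommGrpCat.{v}) i x, ?_⟩
  have h5 := ConcreteCategory.congr_hom (colimit.ι_post M (forget AddCommGrpCat.{v}) i) x
  exact h5.trans hx

end Groth.Agent.S6426
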