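import Groth.Statements.S6427
import Mathlib

set_option autoImplicit false
open CategoryTheory CategoryTheory.Limits
universe v
open CatLim

namespace Groth.Agent.S6427

/-- Over an index category in which every pair of morphisms with common source can be completed to a
commutative square, colimits of sets preserve injective morphisms of diagrams. -/
theorem result {I : Type v} [SmallCategory I]
    (hI : ∀ ⦃x y z : I⦄ (f : x ⟶ y) (g : x ⟶ z), ∃ (w : I) (f' : y ⟶ w) (g' : z ⟶ w), f ≫ f' = g ≫ g')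
    {M N : I ⥤ Type v} (φ : M ⟶ N) (hφ : ∀ i, Function.Injective (φ.app i)) :
    Function.Injective (colimMap φ) := by
  have key : ∀ (p q : Σ i, N.obj i), Relation.EqvGen (N.ColimitTypeRel) p q → ∃ (k : I) (f : p.1 ⟶ k) (g : q.1 ⟶ k), N.map f p.2 = N.map g q.2 := by
    intro p q h
    induction h with
    | rel x y h =>
      obtain ⟨f, hf⟩ := h
      refine ⟨y.1, f, 𝟙 _, ?_⟩
      rw [← hf, N.map_id]
      rfl
    | refl x => exact ⟨x.1, 𝟙 _, 𝟙 _, rfl⟩
    | symm x y _ ih =>
      obtain ⟨k, f, g, h⟩ := ih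
      exact ⟨k, g, f, h.symm⟩
    | trans x y z _ _ ih1 ih2 =>
      obtain ⟨k, f, g, h⟩ := ih1
      obtain ⟨k', f', g', h'⟩ := ih2
      obtain ⟨w, a, b, hab⟩ := hI g f'
      refine ⟨w, f ≫ a, g' ≫ b, ?_⟩
      have e1 : N.map (f ≫ a) x.2 = N.map a (N.map f x.2) := by rw [N.map_comp]; rfl
      have e2 : N.map (g' ≫ b) z.2 = N.map b (N.map g' z.2) := by rw [N.map_comp]; rfl
      have e3 : N.map (g ≫ a) y.2 = N.map a (N.map g y.2) := by rw [N.map_comp]; rfl
      have e4 : N.map (f' ≫ b) y.2 = N.map b (N.map f' y.2) := by rw [N.map_comp]; rfl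
      rw [e1, h, ← e3, hab, e4, h', e2]
  intro x y hxy
  obtain ⟨i, a, rfl⟩ := Types.jointly_surjective' x
  obtain ⟨j, b, rfl⟩ := Types.jointly_surjective' y
  have h1 := ConcreteCategory.congr_hom (colimit.ι_map φ i) a
  have h2 := ConcreteCategory.congr_hom (colimit.ι_map φ j) b
  have h3 : colimit.ι N i (φ.app i a) = colimit.ι N j (φ.app j b) := h1.symm.trans (Eq.trans hxy h2)
  obtain ⟨k, f, g, h4⟩ := key ⟨i, φ.app i a⟩ ⟨j, φ.app j b⟩ (Types.colimit_eq h3)
  have h5 : φ.app k (M.map f a) = φ.app k (M.map g b) := by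
    have n1 := ConcreteCategory.congr_hom (φ.naturality f) a
    have n2 := ConcreteCategory.congr_hom (φ.naturality g) b
    exact n1.trans (Eq.trans h4 n2.symm)
  have h6 := hφ k h5
  have w1 := ConcreteCategory.congr_hom (colimit.w M f) a
  have w2 := ConcreteCategory.congr_hom (colimit.w M g) b
  refine w1.symm.trans (Eq.trans ?_ w2)
  exact congrArg _ h6

end Groth.Agent.S6427
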