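import Groth.Statements.S6429
import Mathlib

set_option autoImplicit false
open CategoryTheory CategoryTheory.MonoidalCategory
universe v u
open MonCat

namespace Groth.Agent.S6429

/-- An object `X` of a monoidal category is invertible (some `X'` has `X ⊗ X' ≅ 𝟙` and `X' ⊗ X ≅ 𝟙`) if
and only if tensoring on the left by `X` is an equivalence, if and only if tensoring on the right by
`X` is an equivalence. -/
theorem result {C : Type u} [Category.{v} C] [MonoidalCategory C] (X : C) :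
    ((tensorLeft X).IsEquivalence ↔ ∃ X' : C, Nonempty (X ⊗ X' ≅ 𝟙_ C) ∧ Nonempty (X' ⊗ X ≅ 𝟙_ C)) ∧
      ((tensorRight X).IsEquivalence ↔ ∃ X' : C, Nonempty (X ⊗ X' ≅ 𝟙_ C) ∧ Nonempty (X' ⊗ X ≅ 𝟙_ C)) := by
  constructor
  · constructor
    · intro h
      let e : X ⊗ (tensorLeft X).objPreimage (𝟙_ C) ≅ 𝟙_ C := (tensorLeft X).objObjPreimageIso (𝟙_ C)
      refine ⟨(tensorLeft X).objPreimage (𝟙_ C), ⟨e⟩, ⟨(tensorLeft X).preimageIso ?_⟩⟩
      exact ((α_ X _ X).symm ≪≫ whiskerRightIso e X ≪≫ λ_ X ≪≫ (ρ_ X).symm : X ⊗ ((tensorLeft X).objPreimage (𝟙_ C) ⊗ X) ≅ X ⊗ 𝟙_ C)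
    · rintro ⟨X', ⟨e1⟩, ⟨e2⟩⟩
      let η : 𝟭 C ≅ tensorLeft X ⋙ tensorLeft X' := (leftUnitorNatIso C).symm ≪≫ (tensoringLeft C).mapIso e2.symm ≪≫ tensorLeftTensor X' X
      let ε : tensorLeft X' ⋙ tensorLeft X ≅ 𝟭 C := (tensorLeftTensor X X').symm ≪≫ (tensoringLeft C).mapIso e1 ≪≫ leftUnitorNatIso C
      exact (CategoryTheory.Equivalence.mk (tensorLeft X) (tensorLeft X') η ε).isEquivalence_functor
  · constructor
    · intro h
      let e : (tensorRight X).objPreimage (𝟙_ C) ⊗ X ≅ 𝟙_ C := (tensorRight X).objObjPreimageIso (𝟙_ C)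
      refine ⟨(tensorRight X).objPreimage (𝟙_ C), ⟨(tensorRight X).preimageIso ?_⟩, ⟨e⟩⟩
      exact (α_ X _ X ≪≫ whiskerLeftIso X e ≪≫ ρ_ X ≪≫ (λ_ X).symm : (X ⊗ (tensorRight X).objPreimage (𝟙_ C)) ⊗ X ≅ 𝟙_ C ⊗ X)
    · rintro ⟨X', ⟨e1⟩, ⟨e2⟩⟩
      let η : 𝟭 C ≅ tensorRight X ⋙ tensorRight X' := (rightUnitorNatIso C).symm ≪≫ (tensoringRight C).mapIso e1.symm ≪≫ tensorRightTensor X X'
      let ε : tensorRight X' ⋙ tensorRight X ≅ 𝟭 C := (tensorRightTensor X' X).symm ≪≫ (tensoringRight C).mapIso e2 ≪≫ rightUnitorNatIso C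
      exact (CategoryTheory.Equivalence.mk (tensorRight X) (tensorRight X') η ε).isEquivalence_functor

end Groth.Agent.S6429
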