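import Groth.Statements.S6430
import Mathlib

set_option autoImplicit false
open CategoryTheory
universe v₂ u₂ v u
open FibCat

namespace Groth.Agent.S6430

theorem aux1 {C : Type u} [Category.{v} C] {𝒮 : Type u₂} [Category.{v₂} 𝒮] (p : 𝒮 ⥤ C) {y x a' : 𝒮} (φ : y ⟶ x) (φ' : a' ⟶ x) (hc : p.IsStronglyCartesian (p.map φ) φ) (hc' : p.IsStronglyCartesian (p.map φ') φ') (g : p.obj a' ⟶ p.obj y) (h1 : g ≫ p.map φ = p.map φ') : ∃ χ : a' ⟶ y, g = p.map χ ∧ χ ≫ φ = φ' ∧ p.IsStronglyCartesian (p.map χ) χ ∧ ∀ χ' : a' ⟶ y, g = p.map χ' → χ' ≫ φ = φ' → χ' = χ := by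
  haveI : p.IsHomLift (g ≫ p.map φ) φ' := by
    rw [h1]
    infer_instance
  obtain ⟨χ, ⟨hχ, hχ'⟩, hu⟩ := Functor.IsStronglyCartesian.universal_property' (p := p) (f := p.map φ) (φ := φ) g φ'
  have h4 : g = p.map χ := IsHomLift.eq_of_isHomLift p g χ
  haveI h5 : p.IsStronglyCartesian (p.map χ ≫ p.map φ) (χ ≫ φ) := by
    rw [hχ', ← h4, h1]
    exact hc'
  have h6 : p.IsStronglyCartesian (p.map χ) χ := Functor.IsStronglyCartesian.of_comp p (g := p.map φ) (ψ := φ)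
  refine ⟨χ, h4, hχ', h6, ?_⟩
  intro χ' h7 h8
  apply hu
  refine ⟨?_, h8⟩
  rw [h7]
  infer_instance

theorem aux2 {C : Type u} [Category.{v} C] {𝒮 : Type u₂} [Category.{v₂} 𝒮] (p : 𝒮 ⥤ C) [p.IsFibered] {x : 𝒮} {V : C} (f : V ⟶ p.obj x) : ∃ (b : 𝒮) (φ : b ⟶ x) (hb : V = p.obj b), p.IsStronglyCartesian (p.map φ) φ ∧ f = eqToHom hb ≫ p.map φ := by
  obtain ⟨b, φ, hφ⟩ := Functor.IsPreFibered.exists_isCartesian' (p := p) (a := x) f
  haveI h1 : p.IsStronglyCartesian f φ := inferInstance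
  obtain rfl := IsHomLift.domain_eq p f φ
  have h3 : f = p.map φ := IsHomLift.eq_of_isHomLift p f φ
  subst h3
  exact ⟨b, φ, rfl, h1, by simp⟩

/-- For a fibred category `p : 𝒮 ⥤ C`, the wide subcategory of `𝒮` on the strongly cartesian morphisms
is fibred in groupoids over `C`. -/
theorem result {C : Type u} [Category.{v} C] {𝒮 : Type u₂} [Category.{v₂} 𝒮] (p : 𝒮 ⥤ C) [p.IsFibered] :
    FibCat.IsFibGrpd (FibCat.cartSubProj p) := by
  constructor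
  · intro x V f
    obtain ⟨b, φ, hb, h1, h2⟩ := aux2 p (x := x.obj) f
    subst hb
    have h3 : f = p.map φ := by rw [h2, eqToHom_refl, Category.id_comp]
    subst h3
    exact ⟨⟨b⟩, ⟨φ, h1⟩, IsHomLift.map (FibCat.cartSubProj p) (a := ⟨b⟩) (b := x) ⟨φ, h1⟩⟩
  · intro y x φ
    refine { toIsHomLift := IsHomLift.map (FibCat.cartSubProj p) φ, universal_property' := ?_ }
    intro a' g φ' hφ'
    have h1 : g ≫ p.map φ.hom = p.map φ'.hom := IsHomLift.eq_of_isHomLift (FibCat.cartSubProj p) (g ≫ (FibCat.cartSubProj p).map φ) φ'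
    obtain ⟨χ, h4, hχ', h6, hu⟩ := aux1 p φ.hom φ'.hom φ.property φ'.property g h1
    have key : ∀ g' : (FibCat.cartSubProj p).obj a' ⟶ (FibCat.cartSubProj p).obj y, g' = p.map χ → (FibCat.cartSubProj p).IsHomLift g' (⟨χ, h6⟩ : a' ⟶ y) := by
      rintro _ rfl
      exact IsHomLift.map (FibCat.cartSubProj p) (a := a') (b := y) ⟨χ, h6⟩
    refine ⟨⟨χ, h6⟩, ⟨key g h4, ?_⟩, ?_⟩
    · exact WideSubcategory.hom_ext _ hχ'
    · rintro χ' ⟨hχ'1, hχ'2⟩
      apply WideSubcategory.hom_ext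
      refine hu _ ?_ (congrArg InducedWideCategory.Hom.hom hχ'2)
      exact IsHomLift.eq_of_isHomLift (FibCat.cartSubProj p) g χ'

end Groth.Agent.S6430
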