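import Groth.Statements.S6433
import Mathlib

set_option autoImplicit false
open CategoryTheory
universe v u v' u'
open CatLoc

namespace Groth.Agent.S6433

/-- For a left multiplicative system `W` and a localization functor `L`, any finite family of morphisms
`L X_i ⟶ L Y` admits a common denominator: some `s : Y ⟶ Y'` in `W` and morphisms `f_i : X_i ⟶ Y'`
with `g_i = L(s)⁻¹ L(f_i)`. -/
theorem result {C : Type u} [Category.{v} C] {D : Type u'} [Category.{v'} D] (W : MorphismProperty C) (L : C ⥤ D) [L.IsLocalization W] [W.HasLeftCalculusOfFractions]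
    {ι : Type} [Finite ι] (X : ι → C) (Y : C) (g : ∀ i, L.obj (X i) ⟶ L.obj Y) :
    ∃ (Y' : C) (s : Y ⟶ Y') (_ : W s) (f : ∀ i, X i ⟶ Y'), ∀ i, g i ≫ L.map s = L.map (f i) := by
  have key : ∀ (n : ℕ) (X : Fin n → C) (g : ∀ i, L.obj (X i) ⟶ L.obj Y), ∃ (Y' : C) (s : Y ⟶ Y') (_ : W s) (f : ∀ i, X i ⟶ Y'), ∀ i, g i ≫ L.map s = L.map (f i) := by
    intro n
    induction n with
    | zero => intro X g; exact ⟨Y, 𝟙 Y, W.id_mem Y, fun i => i.elim0, fun i => i.elim0⟩
    | succ n ih =>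
      intro X g
      obtain ⟨Y₁, s₁, hs₁, f₁, h₁⟩ := ih (fun i => X i.succ) (fun i => g i.succ)
      obtain ⟨φ, hφ⟩ := Localization.exists_leftFraction L W (g 0)
      obtain ⟨ψ, hψ⟩ := MorphismProperty.RightFraction.exists_leftFraction (MorphismProperty.RightFraction.mk φ.s φ.hs s₁)
      have hψ' : s₁ ≫ ψ.s = φ.s ≫ ψ.f := hψ
      have h0 : g 0 ≫ L.map φ.s = L.map φ.f := by
        rw [hφ, MorphismProperty.LeftFraction.map_comp_map_s]
      refine ⟨ψ.Y', s₁ ≫ ψ.s, W.comp_mem _ _ hs₁ ψ.hs, fun i => Fin.cases (motive := fun i => X i ⟶ ψ.Y') (φ.f ≫ ψ.f) (fun i => f₁ i ≫ ψ.s) i, ?_⟩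
      intro i
      refine Fin.cases ?_ (fun i => ?_) i
      · rw [hψ', L.map_comp, ← Category.assoc, h0, ← L.map_comp]
        rfl
      · rw [L.map_comp, ← Category.assoc, h₁ i, ← L.map_comp]
        rfl
  obtain ⟨n, ⟨e⟩⟩ := Finite.exists_equiv_fin ι
  obtain ⟨Y', s, hs, f, h⟩ := key n (fun k => X (e.symm k)) (fun k => g (e.symm k))
  have hall : ∀ i, ∃ fi : X i ⟶ Y', g i ≫ L.map s = L.map fi := by
    intro i
    have h1 := h (e i)
    obtain ⟨k, rfl⟩ := e.symm.surjective i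
    exact ⟨f k, h k⟩
  choose f' hf' using hall
  exact ⟨Y', s, hs, f', hf'⟩

end Groth.Agent.S6433
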