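import Groth.Statements.S6448
import Mathlib

set_option autoImplicit false
open CategoryTheory
universe v u
open CatLim

namespace Groth.Agent.S6448

/-- In a category where spans complete to commutative squares and parallel pairs are coequalized by a
later arrow, every connected component is filtered (so the category is a disjoint union of filtered
categories). -/
theorem result {I : Type u} [Category.{v} I]
    (h1 : ∀ ⦃w x y : I⦄ (a : w ⟶ x) (b : w ⟶ y), ∃ (z : I) (c : x ⟶ z) (d : y ⟶ z), a ≫ c = b ≫ d)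
    (h2 : ∀ ⦃x y : I⦄ (a b : x ⟶ y), ∃ (z : I) (c : y ⟶ z), a ≫ c = b ≫ c)
    (j : ConnectedComponents I) : IsFiltered j.Component := by
  have hz : ∀ {x : j.Component} {z : I} (c : x.obj ⟶ z), j.objectProperty z := by
    intro x z c
    have h3 : (Quotient.mk'' x.obj : ConnectedComponents I) = j := x.property
    change (Quotient.mk'' z : ConnectedComponents I) = j
    rw [← h3]
    exact Quotient.sound' (Relation.ReflTransGen.single (Or.inr ⟨c⟩))
  have h1' : ∀ ⦃w x y : j.Component⦄ (a : w ⟶ x) (b : w ⟶ y), ∃ (z : j.Component) (c : x ⟶ z) (d : y ⟶ z), a ≫ c = b ≫ d := by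
    intro w x y a b
    obtain ⟨z, c, d, h⟩ := h1 a.hom b.hom
    refine ⟨⟨z, hz c⟩, ObjectProperty.homMk c, ObjectProperty.homMk d, ?_⟩
    ext
    exact h
  have h2' : ∀ ⦃x y : j.Component⦄ (a b : x ⟶ y), ∃ (z : j.Component) (c : y ⟶ z), a ≫ c = b ≫ c := by
    intro x y a b
    obtain ⟨z, c, h⟩ := h2 a.hom b.hom
    refine ⟨⟨z, hz c⟩, ObjectProperty.homMk c, ?_⟩
    ext
    exact h
  have h3' : ∀ x y : j.Component, ∃ (z : j.Component) (_ : x ⟶ z) (_ : y ⟶ z), True := by
    intro x y
    refine induct_on_objects {y : j.Component | ∃ (z : j.Component) (_ : x ⟶ z) (_ : y ⟶ z), True} (j₀ := x) ⟨x, 𝟙 x, 𝟙 x, trivial⟩ ?_ y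
    intro y₁ y₂ f
    constructor
    · rintro ⟨z, a, b, -⟩
      obtain ⟨w, c, d, -⟩ := h1' b f
      exact ⟨w, a ≫ c, d, trivial⟩
    · rintro ⟨z, a, b, -⟩
      exact ⟨z, a, f ≫ b, trivial⟩
  haveI : IsFilteredOrEmpty j.Component := { cocone_objs := h3', cocone_maps := h2' }
  haveI : Nonempty j.Component := inferInstance
  exact { }

end Groth.Agent.S6448
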