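import Groth.Statements.S6580
import Mathlib.CategoryTheory.Triangulated.Pretriangulated
import Mathlib.Tactic.NoncommRing

set_option autoImplicit false
universe v u
open CategoryTheory CategoryTheory.Limits
open CohDer

namespace Groth.Agent.S6580


open CategoryTheory.Pretriangulated in
/-- Let (X, Y, Z, f, g, h) be a distinguished triangle of a pretriangulated category, and let a : X ⟶ X
and c : Z ⟶ Z be idempotents with h ≫ a⟦1⟧ = c ≫ h. Then there is an idempotent b : Y ⟶ Y making (a,
b, c) an endomorphism of the triangle. -/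
theorem result {D : Type u} [Category.{v} D] [Preadditive D] [HasZeroObject D] [HasShift D ℤ]
    [∀ n : ℤ, (shiftFunctor D n).Additive] [Pretriangulated D]
    (T : Triangle D) (hT : T ∈ distinguishedTriangles) (a : T.obj₁ ⟶ T.obj₁) (c : T.obj₃ ⟶ T.obj₃)
    (ha : a ≫ a = a) (hc : c ≫ c = c) (comm : T.mor₃ ≫ (shiftFunctor D (1 : ℤ)).map a = c ≫ T.mor₃) :
    ∃ b : T.obj₂ ⟶ T.obj₂, b ≫ b = b ∧ T.mor₁ ≫ b = a ≫ T.mor₁ ∧ T.mor₂ ≫ c = b ≫ T.mor₂ := by
  obtain ⟨b, hb₁, hb₂⟩ := complete_distinguished_triangle_morphism₂ T T hT hT a c comm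
  let d := b ≫ b - b
  have hd₁ : T.mor₁ ≫ d = 0 := by
    simp only [d, Preadditive.comp_sub, hb₁]
    rw [← Category.assoc, hb₁, Category.assoc, hb₁, ← Category.assoc, ha, sub_self]
  have hd₂ : d ≫ T.mor₂ = 0 := by
    simp only [d, Preadditive.sub_comp, Category.assoc, ← hb₂]
    rw [← Category.assoc, ← hb₂, Category.assoc, hc, sub_self]
  have hdd : d ≫ d = 0 := by
    obtain ⟨y, hy⟩ := Triangle.coyoneda_exact₂ T hT d hd₂
    have : d ≫ d = y ≫ T.mor₁ ≫ d := by
      rw [← Category.assoc, ← hy]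
    rw [this, hd₁, comp_zero]
  have hbb : b ≫ b = b + d := by simp [d]
  have hbd : d ≫ b = b ≫ d := by simp [d, Preadditive.sub_comp, Preadditive.comp_sub]
  refine ⟨b + d - b ≫ d - b ≫ d, ?_, ?_, ?_⟩
  · have e1 : b ≫ b ≫ d = b ≫ d := by
      rw [← Category.assoc, hbb, Preadditive.add_comp, hdd, add_zero]
    have e2 : d ≫ b ≫ d = 0 := by
      rw [← Category.assoc, hbd, Category.assoc, hdd, comp_zero]
    simp only [Preadditive.add_comp, Preadditive.comp_add, Preadditive.sub_comp,
      Preadditive.comp_sub, Category.assoc, hbb, hdd, hbd, e1, e2, comp_zero, add_zero, sub_zero]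
    abel
  · simp only [Preadditive.comp_sub, Preadditive.comp_add, hb₁, hd₁, add_zero]
    rw [← Category.assoc, hb₁, Category.assoc, hd₁, comp_zero, sub_zero, sub_zero]
  · simp only [Preadditive.sub_comp, Preadditive.add_comp, Category.assoc, hd₂, comp_zero, add_zero,
      sub_zero, hb₂]


end Groth.Agent.S6580
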