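import Groth.Statements.S6582
import Mathlib.CategoryTheory.Triangulated.Functor
import Mathlib.CategoryTheory.Triangulated.Subcategory

set_option autoImplicit false
universe v u v' u'
open CategoryTheory CategoryTheory.Limits
open CohDer

namespace Groth.Agent.S6582

open CategoryTheory.Limits CategoryTheory.Pretriangulated
open scoped ZeroObject

open CategoryTheory.Pretriangulated in
/-- Let F : D ⥤ D' be an exact functor of pretriangulated categories. The full subcategory of D on the
objects X with F(X) ≅ 0 is a strictly full pretriangulated subcategory (it contains a zero object,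
is stable under shifts and isomorphisms and is closed under extensions) and it is saturated:
whenever X ⊞ Y belongs to it, so do X and Y. -/
theorem result {D : Type u} [Category.{v} D] [Preadditive D] [HasZeroObject D] [HasShift D ℤ]
    [∀ n : ℤ, (shiftFunctor D n).Additive] [Pretriangulated D]
    {D' : Type u'} [Category.{v'} D'] [Preadditive D'] [HasZeroObject D'] [HasShift D' ℤ]
    [∀ n : ℤ, (shiftFunctor D' n).Additive] [Pretriangulated D']
    (F : D ⥤ D') [F.Additive] [F.CommShift ℤ] [F.IsTriangulated] :
    (ObjectProperty.IsTriangulated (fun X : D => IsZero (F.obj X))) ∧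
    (ObjectProperty.IsClosedUnderIsomorphisms (fun X : D => IsZero (F.obj X))) ∧
    (∀ X Y : D, IsZero (F.obj (X ⊞ Y)) → IsZero (F.obj X) ∧ IsZero (F.obj Y)) := by
  have hI : ObjectProperty.IsClosedUnderIsomorphisms (fun X : D => IsZero (F.obj X)) :=
    ⟨fun e h => h.of_iso (F.mapIso e.symm)⟩
  have hS : ObjectProperty.IsStableUnderShift (fun X : D => IsZero (F.obj X)) ℤ :=
    ⟨fun a => ⟨fun X hX => by
      have h1 : IsZero ((shiftFunctor D' a).obj (F.obj X)) := (shiftFunctor D' a).map_isZero hX
      exact h1.of_iso ((F.commShiftIso a).app X)⟩⟩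
  have hZ : ObjectProperty.ContainsZero (fun X : D => IsZero (F.obj X)) :=
    ⟨_, isZero_zero D, F.map_isZero (isZero_zero D)⟩
  have hE : ObjectProperty.IsTriangulatedClosed₂ (fun X : D => IsZero (F.obj X)) :=
    .mk' fun T hT h1 h3 => by
      have h := F.map_distinguished T hT
      have h5 : IsIso (F.mapTriangle.obj T).mor₁ := (Triangle.isZero₃_iff_isIso₁ _ h).mp h3
      exact h1.of_iso (asIso (F.mapTriangle.obj T).mor₁).symm
  refine ⟨{ }, hI, fun X Y h => ?_⟩
  constructor
  · rw [IsZero.iff_id_eq_zero]
    have : 𝟙 (F.obj X) = F.map biprod.inl ≫ F.map (biprod.fst : X ⊞ Y ⟶ X) := by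
      rw [← F.map_comp, biprod.inl_fst, F.map_id]
    rw [this, h.eq_of_tgt (F.map biprod.inl) 0, zero_comp]
  · rw [IsZero.iff_id_eq_zero]
    have : 𝟙 (F.obj Y) = F.map biprod.inr ≫ F.map (biprod.snd : X ⊞ Y ⟶ Y) := by
      rw [← F.map_comp, biprod.inr_snd, F.map_id]
    rw [this, h.eq_of_tgt (F.map biprod.inr) 0, zero_comp]


end Groth.Agent.S6582
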