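import Groth.Statements.S6583
import Mathlib.CategoryTheory.Triangulated.HomologicalFunctor
import Mathlib.CategoryTheory.Triangulated.Subcategory

set_option autoImplicit false
universe v u v' u'
open CategoryTheory CategoryTheory.Limits
open CohDer

namespace Groth.Agent.S6583

open CategoryTheory.Limits CategoryTheory.Pretriangulated
open scoped ZeroObject

open CategoryTheory.Pretriangulated in
/-- Let H : D ⥤ A be a homological functor from a pretriangulated category to an abelian category. The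
full subcategory of D on the objects X with H(X⟦n⟧) = 0 for all n ≪ 0 is a strictly full
pretriangulated subcategory (zero object, stable under shifts and isomorphisms, closed under
extensions) and is saturated: if X ⊞ Y belongs to it then so do X and Y. -/
theorem result {D : Type u} [Category.{v} D] [Preadditive D] [HasZeroObject D] [HasShift D ℤ]
    [∀ n : ℤ, (shiftFunctor D n).Additive] [Pretriangulated D]
    {A : Type u'} [Category.{v'} A] [Abelian A] (H : D ⥤ A) [H.IsHomological] :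
    (ObjectProperty.IsTriangulated (fun X : D => ∃ N : ℤ, ∀ n : ℤ, n ≤ N → IsZero (H.obj ((shiftFunctor D n).obj X)))) ∧
    (ObjectProperty.IsClosedUnderIsomorphisms (fun X : D => ∃ N : ℤ, ∀ n : ℤ, n ≤ N → IsZero (H.obj ((shiftFunctor D n).obj X)))) ∧
    (∀ X Y : D, (∃ N : ℤ, ∀ n : ℤ, n ≤ N → IsZero (H.obj ((shiftFunctor D n).obj (X ⊞ Y)))) →
      (∃ N : ℤ, ∀ n : ℤ, n ≤ N → IsZero (H.obj ((shiftFunctor D n).obj X))) ∧
      (∃ N : ℤ, ∀ n : ℤ, n ≤ N → IsZero (H.obj ((shiftFunctor D n).obj Y)))) := by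
  have retr : ∀ (X Y : D) (i : X ⟶ Y) (r : Y ⟶ X) (hir : i ≫ r = 𝟙 X) (n : ℤ),
      IsZero (H.obj ((shiftFunctor D n).obj Y)) → IsZero (H.obj ((shiftFunctor D n).obj X)) := by
    intro X Y i r hir n h
    rw [IsZero.iff_id_eq_zero]
    have : 𝟙 (H.obj ((shiftFunctor D n).obj X)) =
        H.map ((shiftFunctor D n).map i) ≫ H.map ((shiftFunctor D n).map r) := by
      rw [← H.map_comp, ← Functor.map_comp, hir, CategoryTheory.Functor.map_id, H.map_id]
    rw [this, h.eq_of_tgt (H.map ((shiftFunctor D n).map i)) 0, zero_comp]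
  have hI : ObjectProperty.IsClosedUnderIsomorphisms (fun X : D => ∃ N : ℤ, ∀ n : ℤ, n ≤ N → IsZero (H.obj ((shiftFunctor D n).obj X))) :=
    ⟨fun {X Y} e ⟨N, h⟩ => ⟨N, fun n hn => retr _ _ e.inv e.hom (by simp) n (h n hn)⟩⟩
  have hS : ObjectProperty.IsStableUnderShift (fun X : D => ∃ N : ℤ, ∀ n : ℤ, n ≤ N → IsZero (H.obj ((shiftFunctor D n).obj X))) ℤ :=
    ⟨fun a => ⟨fun X ⟨N, h⟩ => ⟨N - a, fun n hn => (h (a + n) (by omega)).of_iso
      (H.mapIso ((shiftFunctorAdd D a n).app X).symm)⟩⟩⟩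
  have hZ : ObjectProperty.ContainsZero (fun X : D => ∃ N : ℤ, ∀ n : ℤ, n ≤ N → IsZero (H.obj ((shiftFunctor D n).obj X))) :=
    ⟨_, isZero_zero D, 0, fun n _ => H.map_isZero ((shiftFunctor D n).map_isZero (isZero_zero D))⟩
  have hE : ObjectProperty.IsTriangulatedClosed₂ (fun X : D => ∃ N : ℤ, ∀ n : ℤ, n ≤ N → IsZero (H.obj ((shiftFunctor D n).obj X))) :=
    .mk' fun T hT ⟨N₁, h1⟩ ⟨N₃, h3⟩ => ⟨min N₁ N₃, fun n hn => by
      have hT' := Triangle.shift_distinguished T hT n
      have ex := H.map_distinguished_exact _ hT'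
      exact ex.isZero_X₂ ((h1 n (by omega)).eq_of_src _ _) ((h3 n (by omega)).eq_of_tgt _ _)⟩
  refine ⟨{ }, hI, fun X Y ⟨N, h⟩ => ⟨⟨N, fun n hn => ?_⟩, ⟨N, fun n hn => ?_⟩⟩⟩
  · exact retr _ _ biprod.inl biprod.fst (by simp) n (h n hn)
  · exact retr _ _ biprod.inr biprod.snd (by simp) n (h n hn)


end Groth.Agent.S6583
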