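import Groth.Statements.S6585
import Groth.Agent.Lib.Helper2_Tri

set_option autoImplicit false
universe v u
open CategoryTheory CategoryTheory.Limits
open CohDer

namespace Groth.Agent.S6585

open CategoryTheory.Limits

open CategoryTheory.Pretriangulated in
/-- Let D be a triangulated category and E, K objects of D. Then Hom(E, K⟦i⟧) = 0 for all integers i if
and only if Hom(E', K) = 0 for every E' in ⟨E⟩, the smallest strictly full saturated triangulated
subcategory of D containing E (the objects obtained from E by shifts, finite direct sums, direct
summands and extensions). -/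
theorem result {D : Type u} [Category.{v} D] [Preadditive D] [HasZeroObject D] [HasShift D ℤ]
    [∀ n : ℤ, (shiftFunctor D n).Additive] [Pretriangulated D] [IsTriangulated D]
    (E K : D) :
    (∀ (i : ℤ) (f : E ⟶ (shiftFunctor D i).obj K), f = 0) ↔
      ∀ (E' : D), (ObjectProperty.singleton E).triangEnvelope E' → ∀ f : E' ⟶ K, f = 0 := by
  constructor
  · intro h E' hE' f
    have h1 : (ObjectProperty.singleton E).triangEnvelope ≤ Groth.Agent.H2.Tri.PK K := by
      apply Groth.Agent.H2.Tri.le_PK
      intro Y hY
      rw [ObjectProperty.singleton_iff] at hY
      subst hY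
      exact fun m g => h m g
    have h2 := h1 _ hE' 0 (f ≫ (shiftFunctorZero D ℤ).inv.app K)
    have := congrArg (fun t => t ≫ (shiftFunctorZero D ℤ).hom.app K) h2
    simpa using this
  · intro h i f
    apply Groth.Agent.H2.Tri.eq_zero_of_shift'
    intro g
    refine h _ ?_ g
    exact (ObjectProperty.singleton E).triangEnvelope.le_shift (-i) _
      ((ObjectProperty.singleton E).le_triangEnvelope _ (by rw [ObjectProperty.singleton_iff]))


end Groth.Agent.S6585
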