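import Groth.Statements.S6586
import Groth.Agent.Lib.Helper2_Hocolim

set_option autoImplicit false
universe v u
open CategoryTheory CategoryTheory.Limits
open CohDer

namespace Groth.Agent.S6586

open CategoryTheory.Limits CategoryTheory.Pretriangulated

/-- objects with no maps to any shift of `K` -/
def PK {D : Type u} [Category.{v} D] [Preadditive D] [HasShift D ℤ] (K : D) : ObjectProperty D :=
  fun X => ∀ (m : ℤ) (g : X ⟶ (shiftFunctor D m).obj K), g = 0

theorem le_PK {D : Type u} [Category.{v} D] [Preadditive D] [HasZeroObject D] [HasShift D ℤ]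
    [∀ n : ℤ, (shiftFunctor D n).Additive] [Pretriangulated D] [IsTriangulated D] (Q : ObjectProperty D)
    (K : D) (h : Q ≤ PK K) : Q.triangEnvelope ≤ PK K := by
  have hPr : (PK K).IsStableUnderRetracts := ⟨fun {X Y} r hY m g => by
      have := hY m (r.r ≫ g)
      have h2 := congrArg (fun t => r.i ≫ t) this
      simpa using h2⟩
  have hPs : (PK K).IsStableUnderShift ℤ := ⟨fun a => ⟨fun X hX => by
      show PK K _
      intro m g
      let adj := (shiftEquiv D a).toAdjunction
      have e : (shiftFunctor D (-a)).obj ((shiftFunctor D m).obj K) ≅ (shiftFunctor D (m + -a)).obj K :=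
        ((shiftFunctorAdd D m (-a)).app K).symm
      let φ : X ⟶ (shiftFunctor D (-a)).obj ((shiftFunctor D m).obj K) :=
        (adj.homEquiv X ((shiftFunctor D m).obj K)) g
      have h1 : φ = 0 := by
        rw [← cancel_mono e.hom, zero_comp]
        exact hX _ _
      have h2 : (adj.homEquiv X ((shiftFunctor D m).obj K)).symm φ = (adj.homEquiv _ _).symm 0 :=
        congrArg (adj.homEquiv X ((shiftFunctor D m).obj K)).symm h1
      have h3 : (adj.homEquiv X ((shiftFunctor D m).obj K)).symm φ = g := Equiv.symm_apply_apply _ _
      rw [h3] at h2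
      rw [h2, Adjunction.homEquiv_counit]
      erw [Functor.map_zero, zero_comp]
      rfl⟩⟩
  have hPz : (PK K).ContainsZero := ⟨_, isZero_zero D, fun m g => (isZero_zero D).eq_of_src _ _⟩
  have hPe : (PK K).IsTriangulatedClosed₂ := .mk' fun T hT h1 h3 m g => by
      obtain ⟨k, hk⟩ := Triangle.yoneda_exact₂ T hT g (h1 m _)
      rw [hk, h3 m k, comp_zero]
  have hPt : (PK K).IsTriangulated := { }
  exact (ObjectProperty.triangEnvelope_le_iff (P := Q) (Q := PK K)).mpr h


/-- Fix a triangulated category D together with an object E in it. Suppose E classically generates D,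
i.e. ⟨E⟩ = D; then E is a generator of D: an object K with Hom(E, K⟦n⟧) = 0 for all n is zero. -/
theorem result {D : Type u} [Category.{v} D] [Preadditive D] [HasZeroObject D] [HasShift D ℤ]
    [∀ n : ℤ, (shiftFunctor D n).Additive] [Pretriangulated D] [IsTriangulated D]
    (E : D) (hE : (ObjectProperty.singleton E).IsClassicalTriangulatedGenerator) :
    CohDer.Generates (fun _ : PUnit.{1} => E) := by
  intro K hK
  have h1 : (ObjectProperty.singleton E).triangEnvelope ≤ PK K := by
    apply le_PK
    intro Y hY
    rw [ObjectProperty.singleton_iff] at hY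
    subst hY
    exact fun m g => hK PUnit.unit m g
  have h2 : PK K K := h1 _ (by rw [hE]; trivial)
  have h3 := h2 0 ((shiftFunctorZero D ℤ).inv.app K)
  rw [Limits.IsZero.iff_id_eq_zero]
  have := congrArg (fun t => t ≫ (shiftFunctorZero D ℤ).hom.app K) h3
  simpa using this


end Groth.Agent.S6586
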