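import Groth.Statements.S6593
import Groth.Agent.Lib.Helper2_Tri

set_option autoImplicit false
universe w v u
open CategoryTheory CategoryTheory.Limits
open CohDer

namespace Groth.Agent.S6593

open CategoryTheory.Limits CategoryTheory.Pretriangulated

open CategoryTheory.Pretriangulated in
/-- Let D be a pretriangulated category and (X_i → Y_i → Z_i → X_i⟦1⟧)_{i ∈ I} a family of distinguished
triangles. If the direct sums ⨁ X_i, ⨁ Y_i, ⨁ Z_i exist, then ⨁ X_i → ⨁ Y_i → ⨁ Z_i → (⨁ X_i)⟦1⟧ is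
a distinguished triangle (the last map is induced by the composites Z_i → X_i⟦1⟧ → (⨁ X_i)⟦1⟧). -/
theorem result {D : Type u} [Category.{v} D] [Preadditive D] [HasZeroObject D] [HasShift D ℤ]
    [∀ n : ℤ, (shiftFunctor D n).Additive] [Pretriangulated D]
    {J : Type w} (T : J → Triangle D) (hT : ∀ j, T j ∈ distinguishedTriangles)
    [HasCoproduct (fun j => (T j).obj₁)] [HasCoproduct (fun j => (T j).obj₂)] [HasCoproduct (fun j => (T j).obj₃)] :
    Triangle.mk (Limits.Sigma.map (fun j => (T j).mor₁)) (Limits.Sigma.map (fun j => (T j).mor₂))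
      (Sigma.desc (fun j => (T j).mor₃ ≫ (shiftFunctor D (1 : ℤ)).map (Sigma.ι (fun j => (T j).obj₁) j))) ∈ distinguishedTriangles := by
  obtain ⟨C, v, c, hC⟩ := distinguished_cocone_triangle (Limits.Sigma.map (fun j => (T j).mor₁))
  have h1 : ∀ j, ∃ t : (T j).obj₃ ⟶ C, (T j).mor₂ ≫ t = Sigma.ι (fun j => (T j).obj₂) j ≫ v ∧
      (T j).mor₃ ≫ (shiftFunctor D (1 : ℤ)).map (Sigma.ι (fun j => (T j).obj₁) j) = t ≫ c := by
    intro j
    obtain ⟨t, ht, ht'⟩ := complete_distinguished_triangle_morphism _ _ (hT j) hC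
      (Sigma.ι (fun j => (T j).obj₁) j) (Sigma.ι (fun j => (T j).obj₂) j)
      (show (T j).mor₁ ≫ Sigma.ι (fun j => (T j).obj₂) j =
        Sigma.ι (fun j => (T j).obj₁) j ≫ Limits.Sigma.map (fun j => (T j).mor₁) by rw [Sigma.ι_map])
    exact ⟨t, ht, ht'⟩
  choose t ht ht' using h1
  let τ : (∐ fun j => (T j).obj₃) ⟶ C := Sigma.desc t
  let ω : (∐ fun j => (T j).obj₃) ⟶ (shiftFunctor D (1 : ℤ)).obj (∐ fun j => (T j).obj₁) :=
    Sigma.desc (fun j => (T j).mor₃ ≫ (shiftFunctor D (1 : ℤ)).map (Sigma.ι (fun j => (T j).obj₁) j))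
  have hτ₂ : Limits.Sigma.map (fun j => (T j).mor₂) ≫ τ = v := by
    apply Sigma.hom_ext
    intro j
    simp [τ, ht]
  have hτ₃ : τ ≫ c = ω := by
    apply Sigma.hom_ext
    intro j
    simp [τ, ω, ht']
  -- every object is a shift
  have hc1 : c ≫ (shiftFunctor D (1 : ℤ)).map (Limits.Sigma.map (fun j => (T j).mor₁)) = 0 :=
    comp_distTriang_mor_zero₃₁ _ hC
  have inj : ∀ {W : D} (g : C ⟶ (shiftFunctor D (1 : ℤ)).obj W), τ ≫ g = 0 → g = 0 := by
    intro W g hg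
    have h2 : v ≫ g = 0 := by rw [← hτ₂, Category.assoc, hg, comp_zero]
    obtain ⟨g', hg'⟩ : ∃ g' : (shiftFunctor D (1 : ℤ)).obj (∐ fun j => (T j).obj₁) ⟶ (shiftFunctor D (1 : ℤ)).obj W,
      g = c ≫ g' := Triangle.yoneda_exact₃ _ hC g h2
    obtain ⟨g₀, rfl⟩ := (shiftFunctor D (1 : ℤ)).map_surjective g'
    have h3 : ∀ j, ∃ k : (T j).obj₂ ⟶ W, Sigma.ι (fun j => (T j).obj₁) j ≫ g₀ = (T j).mor₁ ≫ k := by
      intro j
      have h4 : (T j).mor₃ ≫ (shiftFunctor D (1 : ℤ)).map (Sigma.ι (fun j => (T j).obj₁) j ≫ g₀) = 0 := by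
        rw [Functor.map_comp, ← Category.assoc, ht', Category.assoc, ← hg']
        have := congrArg (fun s => Sigma.ι (fun j => (T j).obj₃) j ≫ s) hg
        simpa [τ] using this
      obtain ⟨k, hk⟩ := Triangle.yoneda_exact₃ _ (rot_of_distTriang _ (hT j)) _ h4
      obtain ⟨k₀, rfl⟩ : ∃ k₀ : (T j).obj₂ ⟶ W, (shiftFunctor D (1 : ℤ)).map k₀ = k :=
        (shiftFunctor D (1 : ℤ)).map_surjective k
      have hk' : (shiftFunctor D (1 : ℤ)).map (Sigma.ι (fun j => (T j).obj₁) j ≫ g₀) =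
        (-(shiftFunctor D (1 : ℤ)).map (T j).mor₁) ≫ (shiftFunctor D (1 : ℤ)).map k₀ := hk
      refine ⟨-k₀, (shiftFunctor D (1 : ℤ)).map_injective ?_⟩
      rw [hk', Preadditive.neg_comp, Preadditive.comp_neg, Functor.map_neg, Functor.map_comp]
    choose k hk using h3
    have h5 : g₀ = Limits.Sigma.map (fun j => (T j).mor₁) ≫ Sigma.desc k := by
      apply Sigma.hom_ext
      intro j
      simp [hk]
    rw [hg', h5, Functor.map_comp, ← Category.assoc, hc1, zero_comp]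
  have surj : ∀ {W : D} (h : (∐ fun j => (T j).obj₃) ⟶ (shiftFunctor D (1 : ℤ)).obj W), ∃ g, τ ≫ g = h := by
    intro W h
    have h12 : Limits.Sigma.map (fun j => (T j).mor₁) ≫ Limits.Sigma.map (fun j => (T j).mor₂) = 0 := by
      apply Sigma.hom_ext
      intro j
      rw [comp_zero, Sigma.ι_map_assoc, Sigma.ι_map, ← Category.assoc,
        comp_distTriang_mor_zero₁₂ _ (hT j), zero_comp]
    obtain ⟨g₁, hg₁⟩ : ∃ g₁ : C ⟶ (shiftFunctor D (1 : ℤ)).obj W,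
        Limits.Sigma.map (fun j => (T j).mor₂) ≫ h = v ≫ g₁ :=
      Triangle.yoneda_exact₂ _ hC _ (by
        show Limits.Sigma.map (fun j => (T j).mor₁) ≫ Limits.Sigma.map (fun j => (T j).mor₂) ≫ h = 0
        rw [← Category.assoc, h12, zero_comp])
    have h3 : ∀ j, ∃ l : (T j).obj₁ ⟶ W, Sigma.ι (fun j => (T j).obj₃) j ≫ (h - τ ≫ g₁) =
        (T j).mor₃ ≫ (shiftFunctor D (1 : ℤ)).map l := by
      intro j
      obtain ⟨l, hl⟩ := Triangle.yoneda_exact₃ _ (hT j) (Sigma.ι (fun j => (T j).obj₃) j ≫ (h - τ ≫ g₁)) (by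
        have h6 : Limits.Sigma.map (fun j => (T j).mor₂) ≫ (h - τ ≫ g₁) = 0 := by
          rw [Preadditive.comp_sub, hg₁, ← Category.assoc, hτ₂, sub_self]
        have := congrArg (fun s => Sigma.ι (fun j => (T j).obj₂) j ≫ s) h6
        simpa only [Sigma.ι_map_assoc, comp_zero] using this)
      obtain ⟨l₀, rfl⟩ := (shiftFunctor D (1 : ℤ)).map_surjective l
      exact ⟨l₀, hl⟩
    choose l hl using h3
    have h7 : h - τ ≫ g₁ = ω ≫ (shiftFunctor D (1 : ℤ)).map (Sigma.desc l) := by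
      apply Sigma.hom_ext
      intro j
      rw [hl]
      simp only [ω, Sigma.ι_desc_assoc, Category.assoc, ← Functor.map_comp, Sigma.ι_desc]
    refine ⟨g₁ + c ≫ (shiftFunctor D (1 : ℤ)).map (Sigma.desc l), ?_⟩
    rw [Preadditive.comp_add, ← Category.assoc, hτ₃, ← h7]
    abel
  have hiso : IsIso τ := by
    -- use the objects themselves as shifts
    have ex : ∀ X : D, ∃ W : D, Nonempty ((shiftFunctor D (1 : ℤ)).obj W ≅ X) := fun X =>
      ⟨(shiftFunctor D (-1 : ℤ)).obj X, ⟨(shiftFunctorCompIsoId D (-1 : ℤ) 1 (by norm_num)).app X⟩⟩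
    obtain ⟨W, ⟨e⟩⟩ := ex (∐ fun j => (T j).obj₃)
    obtain ⟨W', ⟨e'⟩⟩ := ex C
    obtain ⟨g, hg⟩ := surj e.inv
    have h8 : τ ≫ (g ≫ e.hom) = 𝟙 _ := by rw [← Category.assoc, hg, e.inv_hom_id]
    refine ⟨g ≫ e.hom, h8, ?_⟩
    have h9 := inj (((g ≫ e.hom) ≫ τ - 𝟙 C) ≫ e'.inv) (by
      rw [← Category.assoc, Preadditive.comp_sub, ← Category.assoc, h8, Category.id_comp,
        Category.comp_id, sub_self, zero_comp])
    rw [← sub_eq_zero, ← cancel_mono e'.inv, h9, zero_comp]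
  have eτ : { i : (∐ fun j => (T j).obj₃) ≅ C // i.hom = τ } := ⟨@asIso _ _ _ _ τ hiso, rfl⟩
  obtain ⟨eτ, heτ⟩ := eτ
  refine isomorphic_distinguished _ hC _ (Triangle.isoMk _ _ (Iso.refl _) (Iso.refl _) eτ ?_ ?_ ?_)
  · show Limits.Sigma.map (fun j => (T j).mor₁) ≫ 𝟙 _ = 𝟙 _ ≫ Limits.Sigma.map (fun j => (T j).mor₁)
    rw [Category.comp_id, Category.id_comp]
  · show Limits.Sigma.map (fun j => (T j).mor₂) ≫ eτ.hom = 𝟙 _ ≫ v
    rw [heτ, hτ₂, Category.id_comp]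
  · show ω ≫ (shiftFunctor D (1 : ℤ)).map (𝟙 _) = eτ.hom ≫ c
    rw [heτ, CategoryTheory.Functor.map_id, Category.comp_id, hτ₃]


end Groth.Agent.S6593
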