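import Groth.Statements.S6594
import Mathlib.CategoryTheory.Triangulated.Pretriangulated

set_option autoImplicit false
universe v u
open CategoryTheory CategoryTheory.Limits
open CohDer

namespace Groth.Agent.S6594

open CategoryTheory.Limits CategoryTheory.Pretriangulated

open CategoryTheory.Pretriangulated in
/-- (1) ⇔ (3): let D be a pretriangulated category and f : X ⟶ Y a morphism. Then f has a kernel if and
only if f is isomorphic to a composite K ⊞ Z → Z → Z ⊞ Q of a projection and a coprojection for some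
objects K, Z, Q. -/
theorem result {D : Type u} [Category.{v} D] [Preadditive D] [HasZeroObject D] [HasShift D ℤ]
    [∀ n : ℤ, (shiftFunctor D n).Additive] [Pretriangulated D]
    {X Y : D} (f : X ⟶ Y) :
    HasKernel f ↔ ∃ (K Z Q : D) (e₁ : X ≅ K ⊞ Z) (e₂ : Y ≅ Z ⊞ Q),
      f = e₁.hom ≫ biprod.snd ≫ biprod.inl ≫ e₂.inv := by
  constructor
  · intro hK
    let κ := kernel.ι f
    obtain ⟨Z, q, w, hT⟩ := distinguished_cocone_triangle κ
    have hw : w = 0 := (Triangle.mor₃_eq_zero_iff_mono₁ _ hT).mpr (show Mono κ from inferInstance)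
    obtain ⟨e₁, h1, h2⟩ : ∃ e₁ : X ≅ kernel f ⊞ Z, κ ≫ e₁.hom = biprod.inl ∧ q = e₁.hom ≫ biprod.snd :=
      exists_iso_binaryBiproduct_of_distTriang _ hT hw
    obtain ⟨f', hf'⟩ : ∃ f' : Z ⟶ Y, f = q ≫ f' := Triangle.yoneda_exact₂ _ hT f (kernel.condition f)
    have hs : (biprod.inr ≫ e₁.inv) ≫ q = 𝟙 Z := by
      rw [h2, Category.assoc, e₁.inv_hom_id_assoc, biprod.inr_snd]
    have hκq : κ ≫ q = 0 := comp_distTriang_mor_zero₁₂ _ hT
    have hmono : Mono f' := by
      rw [Preadditive.mono_iff_cancel_zero]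
      intro T x hx
      have h3 : (x ≫ biprod.inr ≫ e₁.inv) ≫ f = 0 := by
        have h30 : (x ≫ biprod.inr ≫ e₁.inv) ≫ q ≫ f' = 0 := by
          rw [← Category.assoc (x ≫ biprod.inr ≫ e₁.inv), Category.assoc x, hs, Category.comp_id, hx]
        exact (congrArg (fun t => (x ≫ biprod.inr ≫ e₁.inv) ≫ t) hf').trans h30
      have h4 : kernel.lift f _ h3 ≫ κ = x ≫ biprod.inr ≫ e₁.inv := kernel.lift_ι _ _ _
      calc x = (x ≫ biprod.inr ≫ e₁.inv) ≫ q := by rw [Category.assoc, hs, Category.comp_id]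
        _ = 0 := by rw [← h4, Category.assoc, hκq, comp_zero]
    obtain ⟨Q, g, w', hT'⟩ := distinguished_cocone_triangle f'
    have hw' : w' = 0 := (Triangle.mor₃_eq_zero_iff_mono₁ _ hT').mpr hmono
    obtain ⟨e₂, h5, -⟩ : ∃ e₂ : Y ≅ Z ⊞ Q, f' ≫ e₂.hom = biprod.inl ∧ g = e₂.hom ≫ biprod.snd :=
      exists_iso_binaryBiproduct_of_distTriang _ hT' hw'
    refine ⟨kernel f, Z, Q, e₁, e₂, ?_⟩
    refine hf'.trans ?_
    have h6 : f' = biprod.inl ≫ e₂.inv := by
      rw [← h5, Category.assoc, e₂.hom_inv_id, Category.comp_id]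
    rw [h2, h6, Category.assoc]
  · rintro ⟨K, Z, Q, e₁, e₂, rfl⟩
    refine ⟨⟨⟨KernelFork.ofι (biprod.inl ≫ e₁.inv) ?_, ?_⟩⟩⟩
    · simp
    · refine KernelFork.IsLimit.ofι _ _ (fun {W} k hk => k ≫ e₁.hom ≫ biprod.fst) ?_ ?_
      · intro W k hk
        have h1 : k ≫ e₁.hom ≫ biprod.snd = 0 := by
          have h2 := congrArg (fun t => t ≫ e₂.hom ≫ biprod.fst) hk
          simpa using h2
        rw [← cancel_mono e₁.hom]
        apply biprod.hom_ext
        · simp
        · simp [h1]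
      · intro W k hk m hm
        rw [← hm]; simp


end Groth.Agent.S6594
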