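import Groth.Statements.S6598
import Mathlib.Algebra.Homology.HomotopyCategory.Pretriangulated
import Mathlib.Algebra.Homology.Embedding.CochainComplex

set_option autoImplicit false
universe v u
open CategoryTheory CategoryTheory.Limits
open CohDer

namespace Groth.Agent.S6598

open CochainComplex

/-- Let α : K ⟶ L be a morphism of cochain complexes over an additive category. There is a factorization
K ⟶ L' ⟶ L of α such that (1) K ⟶ L' is a termwise split injection (in each degree isomorphic to the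
inclusion of a direct summand) and (2) L' ⟶ L admits a section s : L ⟶ L' (s followed by L' ⟶ L is
the identity) such that L' ⟶ L followed by s is homotopic to the identity of L'. Moreover if K and L
are both bounded below, resp. both bounded above, then L' may be chosen bounded below, resp. bounded
above. -/
theorem result {V : Type u} [Category.{v} V] [Preadditive V] [HasBinaryBiproducts V] [HasZeroObject V]
    (K L : CochainComplex V ℤ) (α : K ⟶ L) :
    ∃ (L' : CochainComplex V ℤ) (α' : K ⟶ L') (π : L' ⟶ L) (s : L ⟶ L'),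
      α' ≫ π = α ∧ s ≫ π = 𝟙 L ∧ Nonempty (Homotopy (π ≫ s) (𝟙 L')) ∧
      (∀ n : ℤ, ∃ (C : V) (e : L'.X n ≅ K.X n ⊞ C), α'.f n ≫ e.hom = biprod.inl) ∧
      (∀ a : ℤ, K.IsStrictlyGE a → L.IsStrictlyGE a → ∃ a' : ℤ, L'.IsStrictlyGE a') ∧
      (∀ a : ℤ, K.IsStrictlyLE a → L.IsStrictlyLE a → ∃ a' : ℤ, L'.IsStrictlyLE a') := by
  let M := mappingCone (𝟙 K)
  let α' : K ⟶ L ⊞ M := biprod.lift α (mappingCone.inr (𝟙 K))
  have key : ∀ n : ℤ, ∃ e : (L ⊞ M).X n ≅ K.X n ⊞ (L.X n ⊞ K.X (n + 1)), α'.f n ≫ e.hom = biprod.inl := by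
    intro n
    let r : (L ⊞ M).X n ⟶ K.X n :=
      (biprod.snd : L ⊞ M ⟶ M).f n ≫ (mappingCone.snd (𝟙 K)).v n n (add_zero n)
    let q₂ : (L ⊞ M).X n ⟶ K.X (n + 1) :=
      (biprod.snd : L ⊞ M ⟶ M).f n ≫ (mappingCone.fst (𝟙 K)).1.v n (n + 1) rfl
    let q₁ : (L ⊞ M).X n ⟶ L.X n := (biprod.fst : L ⊞ M ⟶ L).f n - r ≫ α.f n
    let t₁ : L.X n ⟶ (L ⊞ M).X n := (biprod.inl : L ⟶ L ⊞ M).f n
    let t₂ : K.X (n + 1) ⟶ (L ⊞ M).X n :=
      (mappingCone.inl (𝟙 K)).v (n + 1) n (by lia) ≫ (biprod.inr : M ⟶ L ⊞ M).f n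
    have a1 : α'.f n ≫ (biprod.snd : L ⊞ M ⟶ M).f n = (mappingCone.inr (𝟙 K)).f n := by
      rw [← HomologicalComplex.comp_f, biprod.lift_snd]
    have a2 : α'.f n ≫ (biprod.fst : L ⊞ M ⟶ L).f n = α.f n := by
      rw [← HomologicalComplex.comp_f, biprod.lift_fst]
    have i11 : (biprod.inl : L ⟶ L ⊞ M).f n ≫ (biprod.fst : L ⊞ M ⟶ L).f n = 𝟙 _ := by
      rw [← HomologicalComplex.comp_f, biprod.inl_fst]; rfl
    have i12 : (biprod.inl : L ⟶ L ⊞ M).f n ≫ (biprod.snd : L ⊞ M ⟶ M).f n = 0 := by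
      rw [← HomologicalComplex.comp_f, biprod.inl_snd]; rfl
    have i21 : (biprod.inr : M ⟶ L ⊞ M).f n ≫ (biprod.fst : L ⊞ M ⟶ L).f n = 0 := by
      rw [← HomologicalComplex.comp_f, biprod.inr_fst]; rfl
    have i22 : (biprod.inr : M ⟶ L ⊞ M).f n ≫ (biprod.snd : L ⊞ M ⟶ M).f n = 𝟙 _ := by
      rw [← HomologicalComplex.comp_f, biprod.inr_snd]; rfl
    have tot : (biprod.fst : L ⊞ M ⟶ L).f n ≫ (biprod.inl : L ⟶ L ⊞ M).f n +
        (biprod.snd : L ⊞ M ⟶ M).f n ≫ (biprod.inr : M ⟶ L ⊞ M).f n = 𝟙 _ := by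
      rw [← HomologicalComplex.comp_f, ← HomologicalComplex.comp_f, ← HomologicalComplex.add_f_apply,
        biprod.total]; rfl
    have m1 : (mappingCone.inr (𝟙 K)).f n ≫ (mappingCone.snd (𝟙 K)).v n n (add_zero n) = 𝟙 _ :=
      mappingCone.inr_f_snd_v _ _
    have m2 : (mappingCone.inr (𝟙 K)).f n ≫ (mappingCone.fst (𝟙 K)).1.v n (n + 1) rfl = 0 :=
      mappingCone.inr_f_fst_v _ _ _ _
    have m3 : (mappingCone.inl (𝟙 K)).v (n + 1) n (by lia) ≫
        (mappingCone.snd (𝟙 K)).v n n (add_zero n) = 0 := mappingCone.inl_v_snd_v _ _ _ _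
    have m4 : (mappingCone.inl (𝟙 K)).v (n + 1) n (by lia) ≫
        (mappingCone.fst (𝟙 K)).1.v n (n + 1) rfl = 𝟙 _ := mappingCone.inl_v_fst_v _ _ _ _
    have m5 : (mappingCone.fst (𝟙 K)).1.v n (n + 1) rfl ≫ (mappingCone.inl (𝟙 K)).v (n + 1) n (by lia) +
        (mappingCone.snd (𝟙 K)).v n n (add_zero n) ≫ (mappingCone.inr (𝟙 K)).f n = 𝟙 _ :=
      mappingCone.id_X _ _ _ _
    have b1 : α'.f n ≫ r = 𝟙 _ := by rw [← Category.assoc, a1, m1]
    have b2 : α'.f n ≫ q₂ = 0 := by rw [← Category.assoc, a1, m2]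
    have b3 : α'.f n ≫ q₁ = 0 := by
      rw [Preadditive.comp_sub, a2, ← Category.assoc, b1, Category.id_comp, sub_self]
    have c1 : t₁ ≫ r = 0 := by rw [← Category.assoc, i12, zero_comp]
    have c2 : t₁ ≫ q₂ = 0 := by rw [← Category.assoc, i12, zero_comp]
    have c3 : t₁ ≫ q₁ = 𝟙 _ := by
      rw [Preadditive.comp_sub, i11, ← Category.assoc, c1, zero_comp, sub_zero]
    have d1 : t₂ ≫ r = 0 := by
      simp only [t₂, r, Category.assoc]
      rw [← Category.assoc ((biprod.inr : M ⟶ L ⊞ M).f n), i22, Category.id_comp, m3]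
    have d2 : t₂ ≫ q₂ = 𝟙 _ := by
      simp only [t₂, q₂, Category.assoc]
      rw [← Category.assoc ((biprod.inr : M ⟶ L ⊞ M).f n), i22, Category.id_comp, m4]
    have d3 : t₂ ≫ q₁ = 0 := by
      rw [Preadditive.comp_sub, ← Category.assoc t₂ r, d1, zero_comp, sub_zero]
      simp only [t₂, Category.assoc, i21, comp_zero]
    have a3 : α'.f n = α.f n ≫ (biprod.inl : L ⟶ L ⊞ M).f n +
        (mappingCone.inr (𝟙 K)).f n ≫ (biprod.inr : M ⟶ L ⊞ M).f n := by
      rw [← a1, ← a2, Category.assoc, Category.assoc, ← Preadditive.comp_add, tot, Category.comp_id]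
    have tt : r ≫ α'.f n + (q₁ ≫ t₁ + q₂ ≫ t₂) = 𝟙 _ := by
      rw [← tot, a3]
      have e2 : (biprod.snd : L ⊞ M ⟶ M).f n ≫ (biprod.inr : M ⟶ L ⊞ M).f n =
          (biprod.snd : L ⊞ M ⟶ M).f n ≫ ((mappingCone.fst (𝟙 K)).1.v n (n + 1) rfl ≫ (mappingCone.inl (𝟙 K)).v (n + 1) n (by lia) +
        (mappingCone.snd (𝟙 K)).v n n (add_zero n) ≫ (mappingCone.inr (𝟙 K)).f n) ≫ (biprod.inr : M ⟶ L ⊞ M).f n := by
        rw [m5]; erw [Category.id_comp]
      rw [e2]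
      simp only [q₁, q₂, t₁, t₂, r, Preadditive.comp_add, Preadditive.add_comp, Preadditive.sub_comp, Category.assoc]
      abel
    refine ⟨{ hom := biprod.lift r (biprod.lift q₁ q₂)
              inv := biprod.desc (α'.f n) (biprod.desc t₁ t₂)
              hom_inv_id := ?_
              inv_hom_id := ?_ }, ?_⟩
    · rw [biprod.lift_desc, biprod.lift_desc, tt]
    · ext <;> simp [b1, b2, b3, c1, c2, c3, d1, d2, d3]
    · ext <;> simp [b1, b2, b3]
  refine ⟨L ⊞ M, α', biprod.fst, biprod.inl, biprod.lift_fst _ _, biprod.inl_fst, ?_, ?_, ?_, ?_⟩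
  · have H : Homotopy (𝟙 M) 0 := mappingCone.homotopyToZeroOfId K
    have H1 : Homotopy ((biprod.snd : L ⊞ M ⟶ M) ≫ 𝟙 M ≫ (biprod.inr : M ⟶ L ⊞ M)) 0 := by
      have := (H.compRight (biprod.inr : M ⟶ L ⊞ M)).compLeft (biprod.snd : L ⊞ M ⟶ M)
      rwa [zero_comp, comp_zero] at this
    have H2 := (Homotopy.refl ((biprod.fst : L ⊞ M ⟶ L) ≫ (biprod.inl : L ⟶ L ⊞ M))).add H1
    rw [add_zero, Category.id_comp, biprod.total] at H2
    exact ⟨H2.symm⟩
  · intro n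
    obtain ⟨e, he⟩ := key n
    exact ⟨_, e, he⟩
  · intro a hK hL
    refine ⟨a - 1, ?_⟩
    rw [isStrictlyGE_iff]
    intro i hi
    obtain ⟨e, -⟩ := key i
    refine IsZero.of_iso ?_ e
    rw [biprod_isZero_iff, biprod_isZero_iff]
    exact ⟨K.isZero_of_isStrictlyGE a i (by lia), L.isZero_of_isStrictlyGE a i (by lia), K.isZero_of_isStrictlyGE a (i + 1) (by lia)⟩
  · intro a hK hL
    refine ⟨a, ?_⟩
    rw [isStrictlyLE_iff]
    intro i hi
    obtain ⟨e, -⟩ := key i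
    refine IsZero.of_iso ?_ e
    rw [biprod_isZero_iff, biprod_isZero_iff]
    exact ⟨K.isZero_of_isStrictlyLE a i (by lia), L.isZero_of_isStrictlyLE a i (by lia), K.isZero_of_isStrictlyLE a (i + 1) (by lia)⟩


end Groth.Agent.S6598
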