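import Groth.Statements.S6600
import Groth.Agent.Lib.Helper2_Tri

set_option autoImplicit false
universe v u
open CategoryTheory CategoryTheory.Limits
open CohDer

namespace Groth.Agent.S6600


open CategoryTheory.Pretriangulated in
/-- Let D be a triangulated category, A ⊂ D a full subcategory invariant under all shifts, and X → Y → Z
→ X⟦1⟧ a distinguished triangle. Then Z lies in the right orthogonal A^⊥ if and only if Hom(A, X) →
Hom(A, Y) is bijective for every object A of A. -/
theorem result {D : Type u} [Category.{v} D] [Preadditive D] [HasZeroObject D] [HasShift D ℤ]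
    [∀ n : ℤ, (shiftFunctor D n).Additive] [Pretriangulated D] [IsTriangulated D]
    (P : ObjectProperty D) [P.IsStableUnderShift ℤ] (T : Triangle D) (hT : T ∈ distinguishedTriangles) :
    P.rightOrthogonal T.obj₃ ↔ ∀ A : D, P A → Function.Bijective (fun u : A ⟶ T.obj₁ => u ≫ T.mor₁) := by
  exact Groth.Agent.H2.Tri.rightOrthogonal_third_iff P T hT


end Groth.Agent.S6600
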