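import Groth.Statements.S6601
import Groth.Agent.Lib.Helper2_Tri

set_option autoImplicit false
universe v u
open CategoryTheory CategoryTheory.Limits
open CohDer

namespace Groth.Agent.S6601


open CategoryTheory.Pretriangulated in
/-- Let D be a triangulated category, B ⊂ D a full subcategory invariant under all shifts, and X → Y → Z
→ X⟦1⟧ a distinguished triangle. Then X lies in the left orthogonal ^⊥B if and only if Hom(Z, B) →
Hom(Y, B) is bijective for every object B of B. -/
theorem result {D : Type u} [Category.{v} D] [Preadditive D] [HasZeroObject D] [HasShift D ℤ]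
    [∀ n : ℤ, (shiftFunctor D n).Additive] [Pretriangulated D] [IsTriangulated D]
    (P : ObjectProperty D) [P.IsStableUnderShift ℤ] (T : Triangle D) (hT : T ∈ distinguishedTriangles) :
    P.leftOrthogonal T.obj₁ ↔ ∀ B : D, P B → Function.Bijective (fun u : T.obj₃ ⟶ B => T.mor₂ ≫ u) := by
  exact Groth.Agent.H2.Tri.leftOrthogonal_first_iff P T hT


end Groth.Agent.S6601
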