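import Groth.Statements.S6602
import Groth.Agent.Lib.Helper2_Tri
import Mathlib.CategoryTheory.Adjunction.PartialAdjoint

set_option autoImplicit false
universe v u
open CategoryTheory CategoryTheory.Limits
open CohDer

namespace Groth.Agent.S6602

open CategoryTheory.Limits

open CategoryTheory.Pretriangulated in
/-- (1) ⇔ (2): let D be a triangulated category and B a full triangulated subcategory. The inclusion
functor B → D has a left adjoint if and only if for every X in D there is a distinguished triangle A
→ X → B → A⟦1⟧ with B in B and A in the left orthogonal ^⊥B. (The published statement further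
asserts that B is then saturated and, when strictly full, equals the right orthogonal of its left
orthogonal; this row asserts only the equivalence.) -/
theorem result {D : Type u} [Category.{v} D] [Preadditive D] [HasZeroObject D] [HasShift D ℤ]
    [∀ n : ℤ, (shiftFunctor D n).Additive] [Pretriangulated D] [IsTriangulated D]
    (P : ObjectProperty D) [P.IsTriangulated] :
    P.ι.IsRightAdjoint ↔ ∀ X : D, ∃ (A B : D) (f : A ⟶ X) (g : X ⟶ B) (h : B ⟶ (shiftFunctor D (1 : ℤ)).obj A),
      Triangle.mk f g h ∈ distinguishedTriangles ∧ P B ∧ P.leftOrthogonal A := by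
  constructor
  · intro hadj X
    let adj := Adjunction.ofIsRightAdjoint P.ι
    let R := P.ι.leftAdjoint
    let B := (R.obj X).obj
    obtain ⟨A, f, h, hT⟩ := distinguished_cocone_triangle₁ (adj.unit.app X : X ⟶ B)
    refine ⟨A, B, f, adj.unit.app X, h, hT, (R.obj X).property, ?_⟩
    refine (Groth.Agent.H2.Tri.leftOrthogonal_first_iff P _ hT).mpr ?_
    intro B'' hB''
    let B₀ : P.FullSubcategory := ⟨B'', hB''⟩
    refine ⟨fun u u' huu => ?_, fun v => ?_⟩
    · have := (adj.homEquiv X B₀).injective (a₁ := ObjectProperty.homMk u) (a₂ := ObjectProperty.homMk u') (by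
        rw [Adjunction.homEquiv_unit, Adjunction.homEquiv_unit]
        exact huu)
      exact congrArg (fun t => t.hom) this
    · refine ⟨((adj.homEquiv X B₀).symm v).hom, ?_⟩
      have := (adj.homEquiv X B₀).apply_symm_apply v
      rw [Adjunction.homEquiv_unit] at this
      exact this
  · intro h
    apply Functor.isRightAdjoint_of_leftAdjointObjIsDefined_eq_top
    ext X
    simp only [Pi.top_apply, Prop.top_eq_true, iff_true]
    obtain ⟨A, B, f, g, c, hT, hB, hA⟩ := h X
    have hbij := (Groth.Agent.H2.Tri.leftOrthogonal_first_iff P _ hT).mp hA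
    refine ⟨⟨B, hB⟩, ⟨{ homEquiv := fun {B'} => Equiv.ofBijective (fun u => g ≫ u.hom) ?_, homEquiv_comp := ?_ }⟩⟩
    · refine ⟨fun u u' huu => ?_, fun v => ?_⟩
      · have := (hbij B'.obj B'.property).1 huu
        ext
        exact this
      · obtain ⟨u, hu⟩ := (hbij B'.obj B'.property).2 v
        exact ⟨ObjectProperty.homMk u, hu⟩
    · intro B' B'' u u'
      simp


end Groth.Agent.S6602
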