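import Groth.Statements.S6603
import Mathlib.CategoryTheory.Localization.Triangulated
import Mathlib.CategoryTheory.Localization.CalculusOfFractions.Preadditive

set_option autoImplicit false
universe v u v' u'
open CategoryTheory CategoryTheory.Limits
open CohDer

namespace Groth.Agent.S6603

open CategoryTheory.Limits CategoryTheory.Pretriangulated
open scoped ZeroObject

section
variable {D : Type u} [Category.{v} D] [Preadditive D] [HasZeroObject D] [HasShift D ℤ]
    [∀ n : ℤ, (shiftFunctor D n).Additive] [Pretriangulated D]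
    (S : MorphismProperty D) [S.HasLeftCalculusOfFractions] [S.HasRightCalculusOfFractions]
    {E : Type u'} [Category.{v'} E] (Q : D ⥤ E) [Q.IsLocalization S]

include S

theorem isZero_zero' : IsZero (Q.obj (0 : D)) := by
  letI := Localization.preadditive Q S
  haveI := Localization.functor_additive Q S
  exact Q.map_isZero (isZero_zero D)

theorem isZero_of_zero_left {Z Z' : D} (h : S (0 : Z ⟶ Z')) : IsZero (Q.obj Z) := by
  letI := Localization.preadditive Q S
  haveI := Localization.functor_additive Q S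
  have h1 : IsIso (Q.map (0 : Z ⟶ Z')) := Localization.inverts Q S _ h
  rw [IsZero.iff_id_eq_zero, ← cancel_mono (Q.map (0 : Z ⟶ Z'))]
  rw [Q.map_zero, comp_zero, comp_zero]

theorem isZero_of_zero_right {Z Z' : D} (h : S (0 : Z' ⟶ Z)) : IsZero (Q.obj Z) := by
  letI := Localization.preadditive Q S
  haveI := Localization.functor_additive Q S
  have h1 : IsIso (Q.map (0 : Z' ⟶ Z)) := Localization.inverts Q S _ h
  rw [IsZero.iff_id_eq_zero, ← cancel_epi (Q.map (0 : Z' ⟶ Z))]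
  rw [Q.map_zero, zero_comp, zero_comp]

theorem zero_left_of_isZero {Z : D} (h : IsZero (Q.obj Z)) : ∃ Z' : D, S (0 : Z ⟶ Z') := by
  have h1 : Q.map (𝟙 Z) = Q.map 0 := h.eq_of_src _ _
  obtain ⟨Z', s, hs, e⟩ := (MorphismProperty.map_eq_iff_postcomp Q S (𝟙 Z) 0).mp h1
  refine ⟨Z', ?_⟩
  rw [Category.id_comp, zero_comp] at e
  rwa [← e]

theorem zero_right_of_isZero {Z : D} (h : IsZero (Q.obj Z)) : ∃ Z' : D, S (0 : Z' ⟶ Z) := by
  have h1 : Q.map (𝟙 Z) = Q.map 0 := h.eq_of_src _ _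
  obtain ⟨Z', s, hs, e⟩ := (MorphismProperty.map_eq_iff_precomp Q S (𝟙 Z) 0).mp h1
  refine ⟨Z', ?_⟩
  rw [Category.comp_id, comp_zero] at e
  rwa [← e]

theorem isZero_left_of_biprod {Z Z' : D} (h0 : IsZero (Q.obj (Z ⊞ Z'))) : IsZero (Q.obj Z) := by
  letI := Localization.preadditive Q S
  haveI := Localization.functor_additive Q S
  rw [IsZero.iff_id_eq_zero]
  have : 𝟙 (Q.obj Z) = Q.map biprod.inl ≫ Q.map (biprod.fst : Z ⊞ Z' ⟶ Z) := by
    rw [← Q.map_comp, biprod.inl_fst, Q.map_id]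
  rw [this, h0.eq_of_tgt (Q.map biprod.inl) 0, zero_comp]

omit S in
/-- the cone of a zero morphism -/
theorem cone_zero (X Y : D) : ∃ (g : Y ⟶ Y ⊞ (shiftFunctor D (1 : ℤ)).obj X)
    (h : Y ⊞ (shiftFunctor D (1 : ℤ)).obj X ⟶ (shiftFunctor D (1 : ℤ)).obj X),
    Triangle.mk (0 : X ⟶ Y) g h ∈ distinguishedTriangles := by
  obtain ⟨C, g, h, hT⟩ := distinguished_cocone_triangle (0 : X ⟶ Y)
  obtain ⟨e0, -, -⟩ := exists_iso_binaryBiproduct_of_distTriang _ (rot_of_distTriang _ hT) (by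
    show -(shiftFunctor D (1 : ℤ)).map (0 : X ⟶ Y) = 0
    rw [Functor.map_zero, neg_zero])
  let e : C ≅ Y ⊞ (shiftFunctor D (1 : ℤ)).obj X := e0
  refine ⟨g ≫ e.hom, e.inv ≫ h, isomorphic_distinguished _ hT _ (Triangle.isoMk _ _ (Iso.refl _)
    (Iso.refl _) e.symm ?_ ?_ ?_)⟩
  · show (0 : X ⟶ Y) ≫ 𝟙 Y = 𝟙 X ≫ 0
    simp
  · show (g ≫ e.hom) ≫ e.inv = 𝟙 Y ≫ g
    rw [Category.assoc, e.hom_inv_id, Category.comp_id, Category.id_comp]
  · show (e.inv ≫ h) ≫ (shiftFunctor D (1 : ℤ)).map (𝟙 X) = e.inv ≫ h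
    rw [CategoryTheory.Functor.map_id, Category.comp_id]

end


open CategoryTheory.Pretriangulated in
/-- (1) ⇔ (2) ⇔ (3) ⇔ (4): let D be a pretriangulated category, S a multiplicative system compatible
with the triangulated structure, and Q : D → S⁻¹D the localization functor. For an object Z of D the
following are equivalent: (1) Q(Z) = 0; (2) 0 : Z ⟶ Z' is in S for some Z'; (3) 0 : Z' ⟶ Z is in S
for some Z'; (4) there are an object Z' and a distinguished triangle (X, Y, Z ⊞ Z', f, g, h) with f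
∈ S. (The further equivalences (5)–(7) for saturated S are not asserted.) -/
theorem result {D : Type u} [Category.{v} D] [Preadditive D] [HasZeroObject D] [HasShift D ℤ]
    [∀ n : ℤ, (shiftFunctor D n).Additive] [Pretriangulated D]
    (S : MorphismProperty D) [S.HasLeftCalculusOfFractions] [S.HasRightCalculusOfFractions]
    [S.IsCompatibleWithTriangulation]
    {E : Type u'} [Category.{v'} E] (Q : D ⥤ E) [Q.IsLocalization S] (Z : D) :
    (IsZero (Q.obj Z) ↔ ∃ Z' : D, S (0 : Z ⟶ Z')) ∧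
    (IsZero (Q.obj Z) ↔ ∃ Z' : D, S (0 : Z' ⟶ Z)) ∧
    (IsZero (Q.obj Z) ↔ ∃ (Z' X Y : D) (f : X ⟶ Y) (g : Y ⟶ Z ⊞ Z') (h : Z ⊞ Z' ⟶ (shiftFunctor D (1 : ℤ)).obj X),
      Triangle.mk f g h ∈ distinguishedTriangles ∧ S f) := by
  refine ⟨⟨zero_left_of_isZero S Q, fun ⟨Z', h⟩ => isZero_of_zero_left S Q h⟩,
    ⟨zero_right_of_isZero S Q, fun ⟨Z', h⟩ => isZero_of_zero_right S Q h⟩, ⟨fun h => ?_, ?_⟩⟩
  · obtain ⟨Z'', hZ''⟩ := zero_right_of_isZero S Q h
    obtain ⟨g, k, hT⟩ := cone_zero Z'' Z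
    exact ⟨_, _, _, _, g, k, hT, hZ''⟩
  · rintro ⟨Z', X, Y, f, g, h, hT, hf⟩
    -- compare with the triangle `Y = Y → 0`
    obtain ⟨c, hc⟩ : ∃ c : Z ⊞ Z' ⟶ (0 : D), S c := by
      obtain ⟨c, hc, -, -⟩ := MorphismProperty.compatible_with_triangulation (W := S) _ _ hT
        (contractible_distinguished Y) f (𝟙 Y) hf (S.id_mem _) (show f ≫ 𝟙 Y = f ≫ 𝟙 Y from rfl)
      exact ⟨c, hc⟩
    have h0 : IsZero (Q.obj (Z ⊞ Z')) := by
      have : IsIso (Q.map c) := Localization.inverts Q S _ hc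
      exact (isZero_zero' S Q).of_iso (asIso (Q.map c))
    exact isZero_left_of_biprod S Q h0


end Groth.Agent.S6603
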