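import Groth.Statements.S6604
import Groth.Agent.S6603

set_option autoImplicit false
universe v u v' u'
open CategoryTheory CategoryTheory.Limits
open CohDer

namespace Groth.Agent.S6604

open CategoryTheory.Limits CategoryTheory.Pretriangulated
open scoped ZeroObject

/-- Let D be a triangulated category, B a full triangulated subcategory and Q : D → D/B the quotient
functor. Q sends an object Z of D to zero (Q(Z) = 0, i.e. Z belongs to the kernel of Q) exactly
when, for a suitable object Z' of D, the direct sum Z ⊞ Z' is isomorphic to some object lying in B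
(the reformulation 'the kernel is the smallest saturated strictly full triangulated subcategory
containing B' is not part of this row). -/
theorem result {D : Type u} [Category.{v} D] [Preadditive D] [HasZeroObject D] [HasShift D ℤ]
    [∀ n : ℤ, (shiftFunctor D n).Additive] [Pretriangulated D] [IsTriangulated D]
    (B : ObjectProperty D) [B.IsTriangulated]
    {E : Type u'} [Category.{v'} E] (Q : D ⥤ E) [Q.IsLocalization B.trW] (Z : D) :
    IsZero (Q.obj Z) ↔ ∃ (Z' Y : D), B Y ∧ Nonempty (Z ⊞ Z' ≅ Y) := by
  constructor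
  · intro h
    obtain ⟨Z', X, Y, f, g, k, hT, hf⟩ := ((Groth.Agent.S6603.result B.trW Q Z).2.2).mp h
    obtain ⟨W, g', k', hT', hW⟩ := hf
    obtain ⟨e, -⟩ := exists_iso_of_arrow_iso _ _ hT hT' (Iso.refl (Arrow.mk f))
    exact ⟨Z', W, hW, ⟨Triangle.π₃.mapIso e⟩⟩
  · rintro ⟨Z', Y, hY, ⟨e⟩⟩
    have h1 : B.trW (0 : Y ⟶ 0) := ⟨_, _, _, contractible_distinguished₂ Y, B.le_shift (1 : ℤ) _ hY⟩
    have h2 : IsZero (Q.obj Y) := Groth.Agent.S6603.isZero_of_zero_left B.trW Q h1
    exact Groth.Agent.S6603.isZero_left_of_biprod B.trW Q (h2.of_iso (Q.mapIso e))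


end Groth.Agent.S6604
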