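import Groth.Statements.S6607
import Groth.Agent.Lib.Helper2_Tri2

set_option autoImplicit false
universe v u
open CategoryTheory CategoryTheory.Limits
open CohDer

namespace Groth.Agent.S6607


open CategoryTheory.Pretriangulated in
/-- Let D be a triangulated category and B a full triangulated subcategory. Let P(X) be the property:
there is a distinguished triangle A → X → B → A⟦1⟧ with B in B and A in ^⊥B. Then P satisfies
two-out-of-three in distinguished triangles, i.e. it is stable under all shifts and closed under
extensions (a triangulated object property). -/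
theorem result {D : Type u} [Category.{v} D] [Preadditive D] [HasZeroObject D] [HasShift D ℤ]
    [∀ n : ℤ, (shiftFunctor D n).Additive] [Pretriangulated D] [IsTriangulated D]
    (B : ObjectProperty D) [B.IsTriangulated] :
    ObjectProperty.IsTriangulated (fun X : D => ∃ (A Y : D) (f : A ⟶ X) (g : X ⟶ Y) (h : Y ⟶ (shiftFunctor D (1 : ℤ)).obj A),
      Triangle.mk f g h ∈ distinguishedTriangles ∧ B Y ∧ B.leftOrthogonal A) := by
  have := Groth.Agent.H2.Tri.isTriangulated_extensionProduct B.leftOrthogonal B
    (fun A B hA hB f => hA f hB)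
  have e : ObjectProperty.extensionProduct B.leftOrthogonal B = (fun X : D => ∃ (A Y : D) (f : A ⟶ X) (g : X ⟶ Y) (h : Y ⟶ (shiftFunctor D (1 : ℤ)).obj A),
      Triangle.mk f g h ∈ distinguishedTriangles ∧ B Y ∧ B.leftOrthogonal A) := by
    ext X
    exact ⟨fun ⟨A, Y, f, g, h, hT, h1, h2⟩ => ⟨A, Y, f, g, h, hT, h2, h1⟩,
      fun ⟨A, Y, f, g, h, hT, h1, h2⟩ => ⟨A, Y, f, g, h, hT, h2, h1⟩⟩
  rw [← e]
  exact this


end Groth.Agent.S6607
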