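import Groth.Statements.S6608
import Mathlib.CategoryTheory.Localization.Triangulated

set_option autoImplicit false
universe v u
open CategoryTheory CategoryTheory.Limits
open CohDer

namespace Groth.Agent.S6608

open CategoryTheory.Limits
open scoped ZeroObject

open CategoryTheory.Pretriangulated in
/-- Let D be a pretriangulated category and S a set of arrows of D containing the identities and
satisfying MS6 (compatibility with the triangulated structure; here together with stability under
shifts, MS5). Then every isomorphism of D lies in S. -/
theorem result {D : Type u} [Category.{v} D] [Preadditive D] [HasZeroObject D] [HasShift D ℤ]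
    [∀ n : ℤ, (shiftFunctor D n).Additive] [Pretriangulated D]
    (S : MorphismProperty D) [S.ContainsIdentities] [S.IsCompatibleWithTriangulation]
    {X Y : D} (f : X ⟶ Y) [IsIso f] : S f := by
  have hT : Triangle.mk (0 : (0 : D) ⟶ X) f 0 ∈ distinguishedTriangles := by
    refine isomorphic_distinguished _ (contractible_distinguished₁ X) _
      (Triangle.isoMk _ _ (Iso.refl _) (Iso.refl _) (asIso f).symm ?_ ?_ ?_)
    · exact (isZero_zero D).eq_of_src _ _
    · show f ≫ inv f = 𝟙 X ≫ 𝟙 X
      simp
    · exact (((shiftFunctor D (1 : ℤ)).map_isZero (isZero_zero D))).eq_of_tgt _ _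
  obtain ⟨c, hc, h1, h2⟩ := MorphismProperty.compatible_with_triangulation (W := S) _ _
    (contractible_distinguished₁ X) hT (𝟙 (0 : D)) (𝟙 X) (S.id_mem _) (S.id_mem _)
    ((isZero_zero D).eq_of_src _ _)
  have : c = f := by
    have h3 : 𝟙 X ≫ c = 𝟙 X ≫ f := h1
    exact (Category.id_comp (X := X) c).symm.trans (h3.trans (Category.id_comp f))
  rw [← this]
  exact hc


end Groth.Agent.S6608
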