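import Groth.Statements.S6609
import Mathlib.CategoryTheory.Localization.Triangulated

set_option autoImplicit false
universe v u
open CategoryTheory CategoryTheory.Limits
open CohDer

namespace Groth.Agent.S6609

open CategoryTheory.Limits CategoryTheory.Pretriangulated

open CategoryTheory.Pretriangulated in
/-- Let D be a pretriangulated category and S a set of arrows satisfying MS1 (identities, stable under
composition), MS5 (stable under shifts in both directions) and MS6 (compatibility with distinguished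
triangles). Then MS2 holds: (LMS2) for f : X ⟶ Y and t : X ⟶ X' in S there are f' : X' ⟶ Y' and s' :
Y ⟶ Y' in S with f ≫ s' = t ≫ f'; (RMS2) for f : X ⟶ Y and s : Y' ⟶ Y in S there are f' : X' ⟶ Y'
and t' : X' ⟶ X in S with t' ≫ f = f' ≫ s. -/
theorem result {D : Type u} [Category.{v} D] [Preadditive D] [HasZeroObject D] [HasShift D ℤ]
    [∀ n : ℤ, (shiftFunctor D n).Additive] [Pretriangulated D]
    (S : MorphismProperty D) [S.IsMultiplicative] [S.IsCompatibleWithTriangulation] :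
    (∀ {X Y X' : D} (f : X ⟶ Y) (t : X ⟶ X'), S t →
      ∃ (Y' : D) (f' : X' ⟶ Y') (s' : Y ⟶ Y'), S s' ∧ f ≫ s' = t ≫ f') ∧
    (∀ {X Y Y' : D} (f : X ⟶ Y) (s : Y' ⟶ Y), S s →
      ∃ (X' : D) (f' : X' ⟶ Y') (t' : X' ⟶ X), S t' ∧ t' ≫ f = f' ≫ s) := by
  constructor
  · intro X Y X' f t ht
    obtain ⟨Z, u, w, hT⟩ := distinguished_cocone_triangle₁ f
    obtain ⟨Y', f', w', hT'⟩ := distinguished_cocone_triangle (u ≫ t)
    obtain ⟨c, hc, h1, -⟩ := MorphismProperty.compatible_with_triangulation (W := S) _ _ hT hT'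
      (𝟙 Z) t (S.id_mem _) ht (show u ≫ t = 𝟙 Z ≫ (u ≫ t) from (Category.id_comp _).symm)
    exact ⟨Y', f', c, hc, h1⟩
  · intro X Y Y' f s hs
    obtain ⟨Z, g, w, hT⟩ := distinguished_cocone_triangle f
    obtain ⟨X', f', w', hT'⟩ := distinguished_cocone_triangle₁ (s ≫ g)
    obtain ⟨c, hc, -, h2⟩ : ∃ c : (shiftFunctor D (1 : ℤ)).obj X' ⟶ (shiftFunctor D (1 : ℤ)).obj X,
        S c ∧ (w' ≫ c = 𝟙 Z ≫ w) ∧
        (-(shiftFunctor D (1 : ℤ)).map f') ≫ (shiftFunctor D (1 : ℤ)).map s =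
          c ≫ (-(shiftFunctor D (1 : ℤ)).map f) := by
      obtain ⟨c, hc, h1, h2⟩ := MorphismProperty.compatible_with_triangulation (W := S) _ _
        (rot_of_distTriang _ hT') (rot_of_distTriang _ hT) s (𝟙 Z) hs (S.id_mem _)
        (show (s ≫ g) ≫ 𝟙 Z = s ≫ g from Category.comp_id _)
      exact ⟨c, hc, h1, h2⟩
    obtain ⟨t', rfl⟩ := (shiftFunctor D (1 : ℤ)).map_surjective c
    refine ⟨X', f', t', (MorphismProperty.IsCompatibleWithShift.iff S t' (1 : ℤ)).mp hc, ?_⟩
    apply (shiftFunctor D (1 : ℤ)).map_injective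
    rw [Functor.map_comp, Functor.map_comp]
    rw [Preadditive.neg_comp, Preadditive.comp_neg, neg_inj] at h2
    exact h2.symm


end Groth.Agent.S6609
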