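import Groth.Statements.S6611
import Mathlib.Algebra.Homology.ModelCategory.Injective

set_option autoImplicit false
universe v u
open CategoryTheory CategoryTheory.Limits
open CohDer

namespace Groth.Agent.S6611

open CategoryTheory.Limits CochainComplex CochainComplex.HomComplex ZeroObject

/-- Let A be an abelian category, α : K ⟶ L a quasi-isomorphism of cochain complexes which is injective
in every degree, I a bounded below complex of injective objects and γ : K ⟶ I a morphism. Then there
is a morphism β : L ⟶ I with α ≫ β = γ. -/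
theorem result {A : Type u} [Category.{v} A] [Abelian A]
    (K L I : CochainComplex A ℤ) (α : K ⟶ L) [QuasiIso α] (hα : ∀ n : ℤ, Mono (α.f n))
    (a : ℤ) [I.IsStrictlyGE a] (hI : ∀ n : ℤ, Injective (I.X n)) (γ : K ⟶ I) :
    ∃ β : L ⟶ I, α ≫ β = γ := by
  have hi : Mono α := HomologicalComplex.mono_of_mono_f α hα
  have : I.IsKInjective := isKInjective_of_injective I a
  let p : I ⟶ (0 : CochainComplex A ℤ) := 0
  have sq : CommSq γ α p (0 : L ⟶ 0) := ⟨by simp [p]⟩
  have hsq : ∀ n : ℤ, ∃ l : L.X n ⟶ I.X n, α.f n ≫ l = γ.f n := fun n =>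
    have := hα n
    have := hI n
    ⟨Injective.factorThru (γ.f n) (α.f n), Injective.comp_factorThru _ _⟩
  have hz : IsZero (0 : CochainComplex A ℤ) := Limits.isZero_zero _
  have hzn : ∀ n : ℤ, IsZero ((0 : CochainComplex A ℤ).X n) := fun n =>
    (HomologicalComplex.eval A (ComplexShape.up ℤ) n).map_isZero hz
  let hsq' : ∀ n, (sq.map (HomologicalComplex.eval _ _ n)).LiftStruct := fun n =>
    { l := (hsq n).choose
      fac_left := (hsq n).choose_spec
      fac_right := (hzn n).eq_of_tgt _ _ }
  let β : Cocycle (cokernel α) I 1 :=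
    Lifting.cocycle₁ sq hsq' (hπ := cokernel.condition α) (cokernelIsCokernel α)
      (KernelFork.IsLimit.ofId p rfl)
  obtain ⟨φ, hφ⟩ : ∃ (φ : Cochain (cokernel α) I 0), δ 0 1 φ = β.1 := by
    refine IsKInjective.eq_δ_of_cocycle β ?_ 0 (by simp)
    have : (ShortComplex.mk _ _ (cokernel.condition α)).ShortExact :=
      { exact := ShortComplex.exact_cokernel α }
    exact this.acyclic_X₃ (by dsimp; infer_instance)
  have hl := Lifting.hasLift sq hsq' (cokernelIsCokernel α) (KernelFork.IsLimit.ofId p rfl) φ hφ
  exact ⟨sq.lift, sq.fac_left⟩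


end Groth.Agent.S6611
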