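import Groth.Statements.S6612


set_option autoImplicit false
universe v u
open CategoryTheory CategoryTheory.Limits
open CohDer

namespace Groth.Agent.S6612


/-- Let A be an additive category and 0 → A₂ → B₂ → C₂ → 0 a termwise split exact sequence of complexes.
Given a chain map b from a complex B₁ into B₂ and a chain map b' from B₂ into a complex B₃, suppose
that both composites b ≫ (B₂ → C₂) and (A₂ → B₂) ≫ b' are null-homotopic. Then b ≫ b' is homotopic
to zero. (The published statement has three termwise split sequences Aᵢ → Bᵢ → Cᵢ and asks both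
squares of each diagram to commute up to homotopy; this row keeps only the middle sequence and the
two conditions at B₂ that the argument uses, so it is more general.) -/
theorem result {V : Type u} [Category.{v} V] [Preadditive V] [HasBinaryBiproducts V]
    (S : ShortComplex (CochainComplex V ℤ))
    (σ : ∀ n : ℤ, (S.map (HomologicalComplex.eval V (ComplexShape.up ℤ) n)).Splitting)
    {B₁ B₃ : CochainComplex V ℤ} (b : B₁ ⟶ S.X₂) (b' : S.X₂ ⟶ B₃)
    (hb : Nonempty (Homotopy (b ≫ S.g) 0)) (hb' : Nonempty (Homotopy (S.f ≫ b') 0)) :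
    Nonempty (Homotopy (b ≫ b') 0) := by
  obtain ⟨h⟩ := hb
  obtain ⟨h'⟩ := hb'
  obtain ⟨s, r, hsg, hfr, hid⟩ : ∃ (s : ∀ n, S.X₃.X n ⟶ S.X₂.X n) (r : ∀ n, S.X₂.X n ⟶ S.X₁.X n),
      (∀ n, s n ≫ S.g.f n = 𝟙 _) ∧ (∀ n, S.f.f n ≫ r n = 𝟙 _) ∧
      (∀ n, r n ≫ S.f.f n + S.g.f n ≫ s n = 𝟙 _) :=
    ⟨fun n => (σ n).s, fun n => (σ n).r, fun n => (σ n).s_g, fun n => (σ n).f_r, fun n => (σ n).id⟩
  let k : ∀ i j, B₁.X i ⟶ S.X₂.X j := fun i j => h.hom i j ≫ s j
  let N : B₁ ⟶ S.X₂ := Homotopy.nullHomotopicMap k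
  have hN : Homotopy N 0 := Homotopy.nullHomotopy k (fun i j hij => by simp [k, h.zero i j hij])
  have hNg : N ≫ S.g = b ≫ S.g := by
    have e1 : N ≫ S.g = Homotopy.nullHomotopicMap h.hom := by
      dsimp only [N]
      rw [Homotopy.nullHomotopicMap_comp]
      congr 1
      funext i j
      simp [k, hsg]
    rw [e1]
    ext i
    have := h.comm i
    simpa [Homotopy.nullHomotopicMap] using this.symm
  have hc0 : ∀ n, (b - N).f n ≫ S.g.f n = 0 := by
    intro n
    have : ((b - N) ≫ S.g).f n = 0 := by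
      rw [Preadditive.sub_comp, hNg, sub_self]; rfl
    simpa using this
  have hrf : ∀ n, (b - N).f n ≫ r n ≫ S.f.f n = (b - N).f n := by
    intro n
    have e : r n ≫ S.f.f n = 𝟙 _ - S.g.f n ≫ s n := by
      rw [eq_sub_iff_add_eq]
      exact hid n
    rw [e, Preadditive.comp_sub, Category.comp_id, ← Category.assoc, hc0, zero_comp, sub_zero]
  have hmono : ∀ n, Mono (S.f.f n) := fun n => ⟨fun {Z} u v huv => by
    have := congrArg (fun t => t ≫ r n) huv
    simpa only [Category.assoc, hfr, Category.comp_id] using this⟩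
  let c : B₁ ⟶ S.X₁ :=
    { f := fun n => (b - N).f n ≫ r n
      comm' := fun i j _ => by
        have := hmono j
        rw [← cancel_mono (S.f.f j)]
        simp only [Category.assoc]
        rw [hrf j, ← S.f.comm i j]
        rw [← Category.assoc (r i), ← Category.assoc ((b - N).f i), hrf i]
        exact (b - N).comm i j }
  have hc : c ≫ S.f = b - N := by
    ext n
    show ((b - N).f n ≫ r n) ≫ S.f.f n = _
    rw [Category.assoc, hrf]
  have e2 : b ≫ b' = c ≫ (S.f ≫ b') + N ≫ b' := by
    rw [← Category.assoc, hc, Preadditive.sub_comp, sub_add_cancel]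
  rw [e2]
  have H1 : Homotopy (c ≫ (S.f ≫ b')) 0 := by
    have := h'.compLeft c
    rwa [comp_zero] at this
  have H2 : Homotopy (N ≫ b') 0 := by
    have := hN.compRight b'
    rwa [zero_comp] at this
  have H3 := H1.add H2
  rw [add_zero] at H3
  exact ⟨H3⟩


end Groth.Agent.S6612
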