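import Groth.Statements.S6617
import Groth.Agent.S6598

set_option autoImplicit false
universe v u
open CategoryTheory CategoryTheory.Limits
open CohDer

namespace Groth.Agent.S6617

open CochainComplex

/-- Let A be an additive category and A₀ → A₁ → A₂ → … a sequence of composable morphisms of complexes.
There are complexes Bᵢ, homotopy equivalences Bᵢ ⟶ Aᵢ and termwise split injections Bᵢ ⟶ Bᵢ₊₁
forming a commutative ladder over the given sequence. Moreover if all Aᵢ are bounded below, resp.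
bounded above, then the Bᵢ may be chosen bounded below, resp. bounded above. (The published
statement is for finite sequences A₁ → … → A_n; this row takes a sequence indexed by ℕ, built by the
same step-by-step construction.) -/
theorem result {V : Type u} [Category.{v} V] [Preadditive V] [HasBinaryBiproducts V] [HasZeroObject V]
    (X : ℕ → CochainComplex V ℤ) (a : ∀ i, X i ⟶ X (i + 1)) :
    ∃ (B : ℕ → CochainComplex V ℤ) (b : ∀ i, B i ⟶ B (i + 1)) (e : ∀ i, HomotopyEquiv (B i) (X i)),
      (∀ i, b i ≫ (e (i + 1)).hom = (e i).hom ≫ a i) ∧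
      (∀ (i : ℕ) (n : ℤ), ∃ (C : V) (ε : (B (i + 1)).X n ≅ (B i).X n ⊞ C), (b i).f n ≫ ε.hom = biprod.inl) ∧
      ((∀ i, ∃ m : ℤ, (X i).IsStrictlyGE m) → ∀ i, ∃ m : ℤ, (B i).IsStrictlyGE m) ∧
      ((∀ i, ∃ m : ℤ, (X i).IsStrictlyLE m) → ∀ i, ∃ m : ℤ, (B i).IsStrictlyLE m) := by
  choose L' α' π s h1 h2 h3 h4 h5 h6 using
    (fun (K L : CochainComplex V ℤ) (α : K ⟶ L) => Groth.Agent.S6598.result K L α)
  let step : ∀ i, (Σ B : CochainComplex V ℤ, HomotopyEquiv B (X i)) →
      (Σ B : CochainComplex V ℤ, HomotopyEquiv B (X (i+1))) := fun i P =>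
    ⟨L' P.1 (X (i+1)) (P.2.hom ≫ a i),
     { hom := π _ _ _
       inv := s _ _ _
       homotopyHomInvId := (h3 _ _ _).some
       homotopyInvHomId := Homotopy.ofEq (h2 _ _ _) }⟩
  let S : ∀ i, Σ B : CochainComplex V ℤ, HomotopyEquiv B (X i) := fun i =>
    Nat.rec ⟨X 0, HomotopyEquiv.refl _⟩ (fun i P => step i P) i
  refine ⟨fun i => (S i).1, fun i => α' (S i).1 (X (i+1)) ((S i).2.hom ≫ a i), fun i => (S i).2,
    fun i => h1 _ _ _, fun i n => h4 _ _ _ n, fun h i => ?_, fun h i => ?_⟩
  · induction i with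
    | zero => exact h 0
    | succ i ih =>
      obtain ⟨m, hm⟩ := ih
      obtain ⟨m', hm'⟩ := h (i + 1)
      have e1 : ((S i).1).IsStrictlyGE m := hm
      exact h5 (S i).1 (X (i+1)) ((S i).2.hom ≫ a i) (min m m')
        (isStrictlyGE_of_ge _ _ m (min_le_left _ _)) (isStrictlyGE_of_ge _ _ m' (min_le_right _ _))
  · induction i with
    | zero => exact h 0
    | succ i ih =>
      obtain ⟨m, hm⟩ := ih
      obtain ⟨m', hm'⟩ := h (i + 1)
      have e1 : ((S i).1).IsStrictlyLE m := hm
      exact h6 (S i).1 (X (i+1)) ((S i).2.hom ≫ a i) (max m m')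
        (isStrictlyLE_of_le _ m _ (le_max_left _ _)) (isStrictlyLE_of_le _ m' _ (le_max_right _ _))


end Groth.Agent.S6617
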