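import Groth.Statements.S6621
import Mathlib.CategoryTheory.Localization.Triangulated
import Mathlib.CategoryTheory.Triangulated.Subcategory

set_option autoImplicit false
universe v u v' u'
open CategoryTheory CategoryTheory.Limits
open CohDer

namespace Groth.Agent.S6621

open CategoryTheory.Limits CategoryTheory.Pretriangulated

theorem isZero_map {E E' : Type*} [Category E] [Category E'] (e : E ≌ E') {X : E} (h : IsZero X) :
    IsZero (e.functor.obj X) where
  unique_to W := by
    obtain ⟨u⟩ := h.unique_to (e.inverse.obj W)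
    exact ⟨@Equiv.unique _ _ u (e.toAdjunction.homEquiv X W)⟩
  unique_from W := by
    obtain ⟨u⟩ := h.unique_from (e.inverse.obj W)
    exact ⟨@Equiv.unique _ _ u (e.symm.toAdjunction.homEquiv W X).symm⟩


/-- Let D be a triangulated category, S a multiplicative system compatible with the triangulated
structure, Q : D → S⁻¹D the localization and B(S) = Ker(Q) the full subcategory of objects Z with
Q(Z) = 0. Then the multiplicative system S(B(S)) attached to B(S) (morphisms whose cone lies in B(S)
up to isomorphism) consists exactly of the morphisms f such that Q(f) is an isomorphism, i.e. it is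
the saturation of S. -/
theorem result {D : Type u} [Category.{v} D] [Preadditive D] [HasZeroObject D] [HasShift D ℤ]
    [∀ n : ℤ, (shiftFunctor D n).Additive] [Pretriangulated D] [IsTriangulated D]
    (S : MorphismProperty D) [S.HasLeftCalculusOfFractions] [S.HasRightCalculusOfFractions] [S.IsCompatibleWithTriangulation]
    {E : Type u'} [Category.{v'} E] (Q : D ⥤ E) [Q.IsLocalization S] {X Y : D} (f : X ⟶ Y) :
    ObjectProperty.trW (fun Z : D => IsZero (Q.obj Z)) f ↔ IsIso (Q.map f) := by
  have hsh : S.IsCompatibleWithShift ℤ := inferInstance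
  let e := Localization.uniq Q S.Q S
  let i : Q ⋙ e.functor ≅ S.Q := Localization.compUniqFunctor Q S.Q S
  have hiso : IsIso (Q.map f) ↔ IsIso (S.Q.map f) := by
    rw [← NatIso.isIso_map_iff i f]
    constructor
    · intro h
      exact (inferInstance : IsIso (e.functor.map (Q.map f)))
    · intro h
      have : IsIso (e.functor.map (Q.map f)) := h
      exact isIso_of_reflects_iso (Q.map f) e.functor
  have hzero : ∀ Z : D, IsZero (Q.obj Z) ↔ IsZero (S.Q.obj Z) := by
    intro Z
    constructor
    · intro h
      exact (isZero_map e h).of_iso (i.app Z).symm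
    · intro h
      have h1 : IsZero (e.inverse.obj (S.Q.obj Z)) := isZero_map e.symm h
      exact h1.of_iso ((e.unitIso.app (Q.obj Z)) ≪≫ e.inverse.mapIso (i.app Z))
  have hloc : ∀ {X Y : D} (f : X ⟶ Y), ObjectProperty.trW (fun Z : D => IsZero (S.Q.obj Z)) f ↔ IsIso (S.Q.map f) := by
    intro X Y f
    constructor
    · rintro ⟨Z, g, h, hT, hZ⟩
      exact (Triangle.isZero₃_iff_isIso₁ _ (S.Q.map_distinguished _ hT)).mp hZ
    · intro h
      obtain ⟨Z, g, h', hT⟩ := distinguished_cocone_triangle f
      exact ⟨Z, g, h', hT, (Triangle.isZero₃_iff_isIso₁ _ (S.Q.map_distinguished _ hT)).mpr h⟩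
  rw [hiso, ← hloc]
  constructor
  · rintro ⟨Z, g, h, hT, hZ⟩
    exact ⟨Z, g, h, hT, (hzero Z).mp hZ⟩
  · rintro ⟨Z, g, h, hT, hZ⟩
    exact ⟨Z, g, h, hT, (hzero Z).mpr hZ⟩


end Groth.Agent.S6621
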