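import Groth.Statements.S6775
import Mathlib

set_option autoImplicit false
open CategoryTheory CategoryTheory.Limits
universe v u
open CategoryTheory CategoryTheory.Abelian

namespace Groth.Agent.S6775

/-- In an abelian category a cartesian square whose bottom arrow `k` is an epimorphism is also
cocartesian, and the arrow `f` opposite to `k` is an epimorphism. -/
theorem result {A : Type u} [Category.{v} A] [Abelian A] {w x y z : A} (f : w ⟶ y) (g : w ⟶ x) (h : y ⟶ z) (k : x ⟶ z) (sq : IsPullback f g h k) [Epi k] : IsPushout f g h k ∧ Epi f := by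
  have hf : Epi f := by
    have : (MorphismProperty.epimorphisms A).IsStableUnderBaseChange := inferInstance
    exact MorphismProperty.of_isPullback (P := MorphismProperty.epimorphisms A) sq.flip (MorphismProperty.epimorphisms.infer_property k)
  refine ⟨?_, hf⟩
  have hex : (ShortComplex.mk (kernel.ι k) k (kernel.condition k)).Exact := ShortComplex.exact_of_f_is_kernel _ (kernelIsKernel k)
  have hkey : ∀ (s : PushoutCocone f g), kernel.ι k ≫ s.inr = 0 := by
    intro s
    have h1 := sq.lift_snd (0 : kernel k ⟶ y) (kernel.ι k) (by simp)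
    have h2 := sq.lift_fst (0 : kernel k ⟶ y) (kernel.ι k) (by simp)
    rw [← h1, Category.assoc, ← s.condition, ← Category.assoc, h2, zero_comp]
  haveI : Epi (ShortComplex.mk (kernel.ι k) k (kernel.condition k)).g := inferInstanceAs (Epi k)
  refine ⟨⟨sq.w⟩, ⟨PushoutCocone.IsColimit.mk sq.w (fun s => hex.desc s.inr (hkey s)) ?_ ?_ ?_⟩⟩
  · intro s
    rw [← cancel_epi f, ← Category.assoc, sq.w, Category.assoc]
    have := hex.g_desc s.inr (hkey s)
    dsimp at this
    rw [this, s.condition]
  · intro s
    exact hex.g_desc s.inr (hkey s)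
  · intro s m h1 h2
    rw [← cancel_epi k]
    have := hex.g_desc s.inr (hkey s)
    dsimp at this
    rw [this, h2]

end Groth.Agent.S6775
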