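import Groth.Statements.S6776
import Mathlib

set_option autoImplicit false
open CategoryTheory CategoryTheory.Limits
universe v u
open CategoryTheory CategoryTheory.Abelian

namespace Groth.Agent.S6776

/-- In an abelian category a cocartesian square whose left arrow `g` is a monomorphism is also
cartesian, and the arrow `h` opposite to `g` is a monomorphism. -/
theorem result {A : Type u} [Category.{v} A] [Abelian A] {w x y z : A} (f : w ⟶ y) (g : w ⟶ x) (h : y ⟶ z) (k : x ⟶ z) (sq : IsPushout f g h k) [Mono g] : IsPullback f g h k ∧ Mono h := by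
  have hh : Mono h := by
    exact MorphismProperty.of_isPushout (P := MorphismProperty.monomorphisms A) sq (MorphismProperty.monomorphisms.infer_property g)
  refine ⟨?_, hh⟩
  have hex : (ShortComplex.mk g (cokernel.π g) (cokernel.condition g)).Exact := ShortComplex.exact_of_g_is_cokernel _ (cokernelIsCokernel g)
  have hkey : ∀ (s : PullbackCone h k), s.snd ≫ cokernel.π g = 0 := by
    intro s
    have h1 := sq.inr_desc (0 : y ⟶ cokernel g) (cokernel.π g) (by simp)
    have h2 := sq.inl_desc (0 : y ⟶ cokernel g) (cokernel.π g) (by simp)
    rw [← h1, ← Category.assoc, ← s.condition, Category.assoc, h2, comp_zero]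
  haveI : Mono (ShortComplex.mk g (cokernel.π g) (cokernel.condition g)).f := inferInstanceAs (Mono g)
  refine ⟨⟨sq.w⟩, ⟨PullbackCone.IsLimit.mk sq.w (fun s => hex.lift s.snd (hkey s)) ?_ ?_ ?_⟩⟩
  · intro s
    rw [← cancel_mono h, Category.assoc, sq.w, ← Category.assoc]
    have := hex.lift_f s.snd (hkey s)
    dsimp at this
    rw [this, s.condition]
  · intro s
    exact hex.lift_f s.snd (hkey s)
  · intro s m h1 h2
    rw [← cancel_mono g]
    have := hex.lift_f s.snd (hkey s)
    dsimp at this
    rw [this, h2]

end Groth.Agent.S6776
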