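import Groth.Statements.S6778
import Mathlib

set_option autoImplicit false
open CategoryTheory CategoryTheory.Limits
universe v u
open CategoryTheory CategoryTheory.Abelian

namespace Groth.Agent.S6778

/-- For a commutative diagram with rows `x ⟶ y ⟶ z` and `u ⟶ v ⟶ w` in an abelian category, if the
second row is exact and the second map `g` of the first row is an epimorphism, then the induced
sequence of cokernels of the vertical maps is exact. -/
theorem result {A : Type u} [Category.{v} A] [Abelian A] {x y z u' v' w : A} (f : x ⟶ y) (g : y ⟶ z) (k : u' ⟶ v') (l : v' ⟶ w) (α : x ⟶ u') (β : y ⟶ v') (γ : z ⟶ w) (h₁ : α ≫ k = f ≫ β) (h₂ : β ≫ l = g ≫ γ) (hkl : k ≫ l = 0) (hex : (ShortComplex.mk k l hkl).Exact) [Epi g] : ∃ hc : cokernel.map α β f k h₁ ≫ cokernel.map β γ g l h₂ = 0, (ShortComplex.mk _ _ hc).Exact := by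
  have hc : cokernel.map α β f k h₁ ≫ cokernel.map β γ g l h₂ = 0 := by
    rw [← cancel_epi (cokernel.π α)]
    simp [reassoc_of% hkl]
  refine ⟨hc, ?_⟩
  rw [ShortComplex.exact_iff_exact_up_to_refinements]
  intro T t ht
  dsimp at t ht
  obtain ⟨T₁, π₁, hπ₁, b, hb⟩ := surjective_up_to_refinements_of_epi (cokernel.π β) t
  have hexγ : (ShortComplex.mk γ (cokernel.π γ) (cokernel.condition γ)).Exact := ShortComplex.exact_of_g_is_cokernel _ (cokernelIsCokernel γ)
  have h3 : (b ≫ l) ≫ cokernel.π γ = 0 := by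
    have h4 := congrArg (fun z => π₁ ≫ z) ht
    simp only [← Category.assoc, hb, comp_zero] at h4
    simpa using h4
  obtain ⟨T₂, π₂, hπ₂, c, hcc⟩ := hexγ.exact_up_to_refinements (b ≫ l) h3
  dsimp at c hcc
  obtain ⟨T₃, π₃, hπ₃, b', hb'⟩ := surjective_up_to_refinements_of_epi g c
  have h5 : (π₃ ≫ π₂ ≫ b - b' ≫ β) ≫ l = 0 := by
    rw [Preadditive.sub_comp, Category.assoc, Category.assoc, hcc, Category.assoc, h₂, ← Category.assoc, hb', Category.assoc, sub_self]
  obtain ⟨T₄, π₄, hπ₄, a, haa⟩ := hex.exact_up_to_refinements _ h5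
  dsimp at a haa
  refine ⟨T₄, π₄ ≫ π₃ ≫ π₂ ≫ π₁, inferInstance, a ≫ cokernel.π α, ?_⟩
  dsimp
  have h6 := congrArg (fun z => z ≫ cokernel.π β) haa
  simp only [Preadditive.comp_sub, Preadditive.sub_comp, Category.assoc, cokernel.condition, comp_zero, sub_zero] at h6
  simp only [Category.assoc, hb]
  rw [h6]
  simp

end Groth.Agent.S6778
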