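import Groth.Statements.S6797
import Mathlib

set_option autoImplicit false
open CategoryTheory CategoryTheory.Limits
universe v u
open CategoryTheory CategoryTheory.Preadditive

namespace Groth.Agent.S6797

/-- For an idempotent `f` with a kernel, the factorisation `p : x ⟶ Ker f` of `𝟙 - f` through the kernel
inclusion is a retraction of it and is a cokernel of `f`. -/
theorem result {A : Type u} [Category.{v} A] [Preadditive A] {x : A} (f : x ⟶ x) (hf : f ≫ f = f) [HasKernel f] (p : x ⟶ kernel f) (hp : p ≫ kernel.ι f = 𝟙 x - f) : kernel.ι f ≫ p = 𝟙 (kernel f) ∧ ∃ hc : f ≫ p = 0, Nonempty (IsColimit (CokernelCofork.ofπ p hc)) := by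
  have h1 : kernel.ι f ≫ p = 𝟙 (kernel f) := by
    rw [← cancel_mono (kernel.ι f), Category.assoc, hp, Preadditive.comp_sub, kernel.condition, Category.comp_id, sub_zero, Category.id_comp]
  have hc : f ≫ p = 0 := by
    rw [← cancel_mono (kernel.ι f), Category.assoc, hp, Preadditive.comp_sub, hf, Category.comp_id, sub_self, zero_comp]
  refine ⟨h1, hc, ⟨?_⟩⟩
  refine CokernelCofork.IsColimit.ofπ _ _ (fun {W} g hg => kernel.ι f ≫ g) ?_ ?_
  · intro W g hg
    rw [← Category.assoc, hp, Preadditive.sub_comp, Category.id_comp, hg, sub_zero]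
  · intro W g hg m hm
    rw [← hm, ← Category.assoc, h1, Category.id_comp]

end Groth.Agent.S6797
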