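import Groth.Statements.S6798
import Mathlib

set_option autoImplicit false
open CategoryTheory CategoryTheory.Limits
universe v u
open CategoryTheory CategoryTheory.Preadditive

namespace Groth.Agent.S6798

/-- If `q ∘ j = 𝟙` in a preadditive category then `j` is a kernel and `q` a cokernel of `𝟙 - j ∘ q`. -/
theorem result {A : Type u} [Category.{v} A] [Preadditive A] {x y : A} (j : y ⟶ x) (q : x ⟶ y) (hqj : j ≫ q = 𝟙 y) : ∃ (hk : j ≫ (𝟙 x - q ≫ j) = 0) (hc : (𝟙 x - q ≫ j) ≫ q = 0), Nonempty (IsLimit (KernelFork.ofι j hk)) ∧ Nonempty (IsColimit (CokernelCofork.ofπ q hc)) := by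
  have hk : j ≫ (𝟙 x - q ≫ j) = 0 := by
    rw [Preadditive.comp_sub, Category.comp_id, ← Category.assoc, hqj, Category.id_comp, sub_self]
  have hc : (𝟙 x - q ≫ j) ≫ q = 0 := by
    rw [Preadditive.sub_comp, Category.id_comp, Category.assoc, hqj, Category.comp_id, sub_self]
  refine ⟨hk, hc, ⟨?_⟩, ⟨?_⟩⟩
  · refine KernelFork.IsLimit.ofι _ _ (fun {W} g hg => g ≫ q) ?_ ?_
    · intro W g hg
      rw [Preadditive.comp_sub, Category.comp_id, sub_eq_zero] at hg
      rw [Category.assoc]
      exact hg.symm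
    · intro W g hg m hm
      rw [← hm, Category.assoc, hqj, Category.comp_id]
  · refine CokernelCofork.IsColimit.ofπ _ _ (fun {W} g hg => j ≫ g) ?_ ?_
    · intro W g hg
      rw [Preadditive.sub_comp, Category.id_comp, sub_eq_zero] at hg
      rw [← Category.assoc]
      exact hg.symm
    · intro W g hg m hm
      rw [← hm, ← Category.assoc, hqj, Category.id_comp]

end Groth.Agent.S6798
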