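import Groth.Statements.S6808
import Mathlib

set_option autoImplicit false
open CategoryTheory Opposite
universe u
open SSet

namespace Groth.Agent.S6808

/-- A map of simplicial sets preserving non-degeneracy of simplices and injective on non-degenerate
simplices is injective in every dimension. -/
theorem result {U V : SSet.{u}} (f : U ⟶ V) (ha : ∀ (n : ℕ) (x : U.obj (op (SimplexCategory.mk n))), x ∈ U.nonDegenerate n → f.app (op (SimplexCategory.mk n)) x ∈ V.nonDegenerate n) (hb : ∀ n : ℕ, Set.InjOn (f.app (op (SimplexCategory.mk n))) (U.nonDegenerate n)) (n : ℕ) : Function.Injective (f.app (op (SimplexCategory.mk n))) := by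
  intro x y hxy
  obtain ⟨m, g, hg, ⟨z, hz⟩, rfl⟩ := U.exists_nonDegenerate x
  obtain ⟨m', g', hg', ⟨z', hz'⟩, rfl⟩ := U.exists_nonDegenerate y
  dsimp only at hxy ⊢
  rw [FunctorToTypes.naturality, FunctorToTypes.naturality] at hxy
  have h1 := ha m z hz
  have h2 := ha m' z' hz'
  obtain rfl := V.unique_nonDegenerate_dim (V.map g.op (f.app _ z)) g ⟨_, h1⟩ rfl g' ⟨_, h2⟩ hxy
  have h3 := V.unique_nonDegenerate_simplex (V.map g.op (f.app _ z)) g ⟨_, h1⟩ rfl g' ⟨_, h2⟩ hxy
  have h4 := V.unique_nonDegenerate_map (V.map g.op (f.app _ z)) g ⟨_, h1⟩ rfl g' ⟨_, h2⟩ hxy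
  have h5 : z = z' := hb m hz hz' (congrArg Subtype.val h3)
  rw [h4, h5]

end Groth.Agent.S6808
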