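import Groth.Statements.S6809
import Mathlib

set_option autoImplicit false
open CategoryTheory Opposite
universe u
open SSet

namespace Groth.Agent.S6809

/-- A map of simplicial sets preserving non-degeneracy of simplices and surjective from non-degenerate
simplices onto non-degenerate simplices is surjective in every dimension. -/
theorem result {U V : SSet.{u}} (f : U ⟶ V) (ha : ∀ (n : ℕ) (x : U.obj (op (SimplexCategory.mk n))), x ∈ U.nonDegenerate n → f.app (op (SimplexCategory.mk n)) x ∈ V.nonDegenerate n) (hb : ∀ n : ℕ, Set.SurjOn (f.app (op (SimplexCategory.mk n))) (U.nonDegenerate n) (V.nonDegenerate n)) (n : ℕ) : Function.Surjective (f.app (op (SimplexCategory.mk n))) := by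
  intro y
  obtain ⟨m, g, hg, z, rfl⟩ := V.exists_nonDegenerate y
  obtain ⟨x, hx, hxz⟩ := hb m z.2
  refine ⟨U.map g.op x, ?_⟩
  rw [FunctorToTypes.naturality, hxz]

end Groth.Agent.S6809
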