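import Groth.Statements.S6862
import Mathlib

set_option autoImplicit false
universe u
open CAlg

namespace Groth.Agent.S6862

/-- Let `R` be a commutative ring and `P'`, `P`, `P''` finitely generated projective `R`-modules in an
exact sequence `0 → P' → P → P'' → 0`. Whenever two of the three are stably free, the remaining one
is stably free too (all three cases are stated). -/
theorem result {R : Type u} [CommRing R] {P' P P'' : Type u}
    [AddCommGroup P'] [Module R P'] [Module.Finite R P'] [Module.Projective R P']
    [AddCommGroup P] [Module R P] [Module.Finite R P] [Module.Projective R P]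
    [AddCommGroup P''] [Module R P''] [Module.Finite R P''] [Module.Projective R P'']
    (f : P' →ₗ[R] P) (g : P →ₗ[R] P'') (hf : Function.Injective f) (hg : Function.Surjective g)
    (hfg : Function.Exact f g) :
    (Module.IsStablyFree R P' → Module.IsStablyFree R P → Module.IsStablyFree R P'') ∧
    (Module.IsStablyFree R P' → Module.IsStablyFree R P'' → Module.IsStablyFree R P) ∧
    (Module.IsStablyFree R P → Module.IsStablyFree R P'' → Module.IsStablyFree R P') := by
  obtain ⟨s, hs⟩ := Module.projective_lifting_property g LinearMap.id hg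
  have hgs : ∀ x, g (s x) = x := fun x => LinearMap.congr_fun hs x
  have hgf : ∀ x, g (f x) = 0 := fun x => hfg.apply_apply_eq_zero x
  have hbij : Function.Bijective (f.coprod s) := by
    constructor
    · rw [injective_iff_map_eq_zero]
      rintro ⟨a, b⟩ h
      rw [LinearMap.coprod_apply] at h
      have h1 := congrArg g h
      rw [map_add, hgf, hgs, zero_add, map_zero] at h1
      dsimp at h1
      subst h1
      dsimp at h
      rw [map_zero, add_zero] at h
      have h2 := hf (h.trans (map_zero f).symm)
      rw [h2]; rfl
    · intro x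
      obtain ⟨a, ha⟩ := (hfg (x - s (g x))).mp (by rw [map_sub, hgs, sub_self])
      refine ⟨(a, g x), ?_⟩
      rw [LinearMap.coprod_apply]
      dsimp
      rw [ha, sub_add_cancel]
  let e : (P' × P'') ≃ₗ[R] P := LinearEquiv.ofBijective (f.coprod s) hbij
  refine ⟨fun h1 h2 => ?_, fun h1 h2 => ?_, fun h1 h2 => ?_⟩
  · obtain ⟨F, _, _, _, _, _⟩ := Module.IsStablyFree.exist_free_prod R P'
    obtain ⟨G, _, _, _, _, _⟩ := Module.IsStablyFree.exist_free_prod R P
    let e2 : (P'' × ((P' × F) × G)) ≃ₗ[R] (((P' × P'') × G) × F) :=
      { toFun := fun x => (((x.2.1.1, x.1), x.2.2), x.2.1.2)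
        invFun := fun x => (x.1.1.2, ((x.1.1.1, x.2), x.1.2))
        map_add' := fun _ _ => rfl
        map_smul' := fun _ _ => rfl
        left_inv := fun _ => rfl
        right_inv := fun _ => rfl }
    haveI : Module.Free R (P'' × ((P' × F) × G)) := Module.Free.of_equiv (e2.trans ((e.prodCongr (LinearEquiv.refl R G)).prodCongr (LinearEquiv.refl R F))).symm
    exact Module.IsStablyFree.of_free_prod R P'' ((P' × F) × G)
  · obtain ⟨F, _, _, _, _, _⟩ := Module.IsStablyFree.exist_free_prod R P'
    obtain ⟨G, _, _, _, _, _⟩ := Module.IsStablyFree.exist_free_prod R P''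
    let e2 : ((P' × P'') × (F × G)) ≃ₗ[R] ((P' × F) × (P'' × G)) :=
      { toFun := fun x => ((x.1.1, x.2.1), (x.1.2, x.2.2))
        invFun := fun x => ((x.1.1, x.2.1), (x.1.2, x.2.2))
        map_add' := fun _ _ => rfl
        map_smul' := fun _ _ => rfl
        left_inv := fun _ => rfl
        right_inv := fun _ => rfl }
    haveI : Module.Free R (P × (F × G)) := Module.Free.of_equiv ((e.symm.prodCongr (LinearEquiv.refl R (F × G))).trans e2).symm
    exact Module.IsStablyFree.of_free_prod R P (F × G)
  · obtain ⟨F, _, _, _, _, _⟩ := Module.IsStablyFree.exist_free_prod R P''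
    obtain ⟨G, _, _, _, _, _⟩ := Module.IsStablyFree.exist_free_prod R P
    let e2 : (P' × ((P'' × F) × G)) ≃ₗ[R] (((P' × P'') × G) × F) :=
      { toFun := fun x => (((x.1, x.2.1.1), x.2.2), x.2.1.2)
        invFun := fun x => (x.1.1.1, ((x.1.1.2, x.2), x.1.2))
        map_add' := fun _ _ => rfl
        map_smul' := fun _ _ => rfl
        left_inv := fun _ => rfl
        right_inv := fun _ => rfl }
    haveI : Module.Free R (P' × ((P'' × F) × G)) := Module.Free.of_equiv (e2.trans ((e.prodCongr (LinearEquiv.refl R G)).prodCongr (LinearEquiv.refl R F))).symm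
    exact Module.IsStablyFree.of_free_prod R P' ((P'' × F) × G)

end Groth.Agent.S6862
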