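import Groth.Statements.S6864
import Mathlib

set_option autoImplicit false
universe u
open TensorProduct
open CAlg

namespace Groth.Agent.S6864

theorem mem_of_tmul {R : Type u} [CommRing R] (I : Ideal R) {M : Type u} [AddCommGroup M] [Module R M] (x : M) (h : (TensorProduct.tmul R (1 : R ⧸ I) x) = 0) : x ∈ I • (⊤ : Submodule R M) := by
  have h1 := TensorProduct.quotTensorEquivQuotSMul_mk_tmul I 1 x
  rw [map_one, h, map_zero, one_smul] at h1
  exact (Submodule.Quotient.mk_eq_zero _).mp h1.symm

theorem exists_rep {R : Type u} [CommRing R] (I : Ideal R) {M : Type u} [AddCommGroup M] [Module R M] (x : TensorProduct R (R ⧸ I) M) : ∃ m : M, x = TensorProduct.tmul R (1 : R ⧸ I) m := by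
  induction x with
  | zero => exact ⟨0, by simp⟩
  | add x y hx hy =>
    obtain ⟨a, rfl⟩ := hx
    obtain ⟨b, rfl⟩ := hy
    exact ⟨a + b, by rw [TensorProduct.tmul_add]⟩
  | tmul r m =>
    obtain ⟨r, rfl⟩ := Ideal.Quotient.mk_surjective r
    refine ⟨r • m, ?_⟩
    rw [TensorProduct.tmul_smul, TensorProduct.smul_tmul', ← Ideal.Quotient.mk_eq_mk, ← map_one (Ideal.Quotient.mk I), ← Ideal.Quotient.mk_eq_mk, ← Submodule.Quotient.mk_smul, smul_eq_mul, mul_one]

theorem surj {R : Type u} [CommRing R] (I : Ideal R)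
    (hI : I ≤ Ideal.jacobson (⊥ : Ideal R)) {P P' : Type u}
    [AddCommGroup P] [Module R P]
    [AddCommGroup P'] [Module R P'] [Module.Finite R P'] (φ : P →ₗ[R] P')
    (h : Function.Surjective (φ.baseChange (R ⧸ I))) : Function.Surjective φ := by
  rw [← LinearMap.range_eq_top, eq_top_iff]
  apply Submodule.le_of_le_smul_of_le_jacobson_bot (I := I) Module.Finite.fg_top hI
  intro y _
  obtain ⟨x, hx⟩ := h (TensorProduct.tmul R (1 : R ⧸ I) y)
  obtain ⟨m, rfl⟩ := exists_rep I x
  rw [LinearMap.baseChange_tmul] at hx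
  have h1 : y - φ m ∈ I • (⊤ : Submodule R P') := by
    apply mem_of_tmul
    rw [TensorProduct.tmul_sub, hx, sub_self]
  have h2 : y = φ m + (y - φ m) := by abel
  rw [h2]
  exact Submodule.add_mem_sup ⟨m, rfl⟩ h1

theorem bij {R : Type u} [CommRing R] (I : Ideal R)
    (hI : I ≤ Ideal.jacobson (⊥ : Ideal R)) {P P' : Type u}
    [AddCommGroup P] [Module R P] [Module.Finite R P] [Module.Projective R P]
    [AddCommGroup P'] [Module R P'] [Module.Finite R P'] [Module.Projective R P'] (φ : P →ₗ[R] P')
    (h : Function.Bijective (φ.baseChange (R ⧸ I))) : Function.Bijective φ := by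
  have h1 := surj I hI φ h.2
  obtain ⟨s, hs⟩ := Module.projective_lifting_property φ LinearMap.id h1
  have h2 : Function.Surjective s := by
    apply surj I hI s
    intro x
    refine ⟨φ.baseChange (R ⧸ I) x, ?_⟩
    apply h.1
    rw [← LinearMap.comp_apply, ← LinearMap.baseChange_comp, hs, LinearMap.baseChange_id, LinearMap.id_apply]
  refine ⟨?_, h1⟩
  rw [injective_iff_map_eq_zero]
  intro x hx
  obtain ⟨y, rfl⟩ := h2 x
  have h3 : φ (s y) = y := LinearMap.congr_fun hs y
  rw [hx] at h3
  rw [← h3, map_zero]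

/-- Let `I` be an ideal of a commutative ring `R` contained in the Jacobson radical and let `φ : P → P'`
be an `R`-linear map between finite projective `R`-modules. If the induced map `P/IP → P'/IP'` is
bijective, then `φ` is bijective. -/
theorem result {R : Type u} [CommRing R] (I : Ideal R)
    (hI : I ≤ Ideal.jacobson (⊥ : Ideal R)) {P P' : Type u}
    [AddCommGroup P] [Module R P] [Module.Finite R P] [Module.Projective R P]
    [AddCommGroup P'] [Module R P'] [Module.Finite R P'] [Module.Projective R P'] (φ : P →ₗ[R] P')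
    (h : Function.Bijective (φ.baseChange (R ⧸ I))) : Function.Bijective φ := by
  exact bij I hI φ h

end Groth.Agent.S6864
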