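import Groth.Statements.S6866
import Mathlib

set_option autoImplicit false
universe u
open TensorProduct
open CAlg

namespace Groth.Agent.S6866

/-- If `M` is a torsion free module over a domain `R` and `R → R'` is a flat ring map to another domain,
then `R' ⊗_R M` is torsion free over `R'`. -/
theorem result (R R' : Type u) [CommRing R] [IsDomain R] [CommRing R']
    [IsDomain R'] [Algebra R R'] [Module.Flat R R'] (M : Type u) [AddCommGroup M] [Module R M]
    [Module.IsTorsionFree R M] : Module.IsTorsionFree R' (R' ⊗[R] M) := by
  rw [Module.isTorsionFree_iff_smul_eq_zero]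
  intro r x hrx
  by_cases hr : r = 0
  · exact Or.inl hr
  right
  have hV : Module.Flat R (LocalizedModule (nonZeroDivisors R) M) := by
    haveI : Module.Flat (FractionRing R) (LocalizedModule (nonZeroDivisors R) M) := inferInstance
    exact Module.Flat.trans R (FractionRing R) _
  have hinj : Function.Injective (LocalizedModule.mkLinearMap (nonZeroDivisors R) M) := by
    rw [injective_iff_map_eq_zero]
    intro m hm
    rw [IsLocalizedModule.eq_zero_iff (nonZeroDivisors R)] at hm
    obtain ⟨c, hc⟩ := hm
    have hc0 : (c : R) ≠ 0 := nonZeroDivisors.coe_ne_zero c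
    exact (smul_eq_zero_iff_right hc0).mp hc
  have h1 := Module.Flat.lTensor_preserves_injective_linearMap (M := R') _ hinj
  apply h1
  rw [map_zero]
  have h2 : Function.Injective ((LinearMap.mulLeft R r : R' →ₗ[R] R').rTensor (LocalizedModule (nonZeroDivisors R) M)) := by
    apply Module.Flat.rTensor_preserves_injective_linearMap
    exact mul_right_injective₀ hr
  apply h2
  rw [map_zero]
  have h3 : ∀ z : R' ⊗[R] M, ((LinearMap.mulLeft R r : R' →ₗ[R] R').rTensor (LocalizedModule (nonZeroDivisors R) M)) ((LocalizedModule.mkLinearMap (nonZeroDivisors R) M).lTensor R' z) = (LocalizedModule.mkLinearMap (nonZeroDivisors R) M).lTensor R' (r • z) := by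
    intro z
    induction z with
    | zero => simp
    | add x y hx hy => rw [map_add, map_add, hx, hy, smul_add, map_add]
    | tmul a b => 
      rw [TensorProduct.smul_tmul', LinearMap.lTensor_tmul, LinearMap.rTensor_tmul, LinearMap.lTensor_tmul]
      rfl
  rw [h3, hrx, map_zero]

end Groth.Agent.S6866
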