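import Groth.Statements.S6869
import Mathlib

set_option autoImplicit false
universe u
open CAlg

namespace Groth.Agent.S6869

theorem tf_emb (R : Type u) [CommRing R] [IsDomain R] (M : Type u)
    [AddCommGroup M] [Module R M] [Module.Finite R M] [Module.IsTorsionFree R M] : ∃ (n : ℕ) (f : M →ₗ[R] (Fin n → R)), Function.Injective f := by
  have hinj : Function.Injective (LocalizedModule.mkLinearMap (nonZeroDivisors R) M) := by
    rw [injective_iff_map_eq_zero]
    intro m hm
    rw [IsLocalizedModule.eq_zero_iff (nonZeroDivisors R)] at hm
    obtain ⟨c, hc⟩ := hm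
    have hc0 : (c : R) ≠ 0 := nonZeroDivisors.coe_ne_zero c
    exact (smul_eq_zero_iff_right hc0).mp hc
  let V := LocalizedModule (nonZeroDivisors R) M
  have hV : Module.Finite (FractionRing R) V := inferInstanceAs (Module.Finite (Localization (nonZeroDivisors R)) (LocalizedModule (nonZeroDivisors R) M))
  let b := Module.finBasis (FractionRing R) V
  let f0 : M →ₗ[R] (Fin (Module.finrank (FractionRing R) V) → FractionRing R) := (b.equivFun.toLinearMap.restrictScalars R) ∘ₗ (LocalizedModule.mkLinearMap (nonZeroDivisors R) M)
  have hf0 : Function.Injective f0 := b.equivFun.injective.comp hinj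
  obtain ⟨s, hs⟩ := Module.Finite.fg_top (R := R) (M := M)
  obtain ⟨d, hd⟩ := IsLocalization.exist_integer_multiples_of_finite (nonZeroDivisors R) (fun x : s × Fin (Module.finrank (FractionRing R) V) => f0 x.1 x.2)
  let ι : (Fin (Module.finrank (FractionRing R) V) → R) →ₗ[R] (Fin (Module.finrank (FractionRing R) V) → FractionRing R) := (Algebra.linearMap R (FractionRing R)).compLeft _
  have hι : Function.Injective ι := by
    intro x y hxy
    ext i
    exact IsFractionRing.injective R (FractionRing R) (congrFun hxy i)
  have hrange : ∀ m : M, ((d : R) • f0) m ∈ LinearMap.range ι := by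
    intro m
    have hm : m ∈ Submodule.span R (s : Set M) := by rw [hs]; trivial
    have hle : Submodule.span R (s : Set M) ≤ (LinearMap.range ι).comap ((d : R) • f0) := by
      rw [Submodule.span_le]
      intro x hx
      choose r hr using fun i => hd (⟨x, hx⟩, i)
      refine ⟨r, ?_⟩
      ext i
      exact hr i
    exact hle hm
  refine ⟨_, (LinearEquiv.ofInjective ι hι).symm.toLinearMap ∘ₗ (((d : R) • f0).codRestrict (LinearMap.range ι) hrange), ?_⟩
  apply (LinearEquiv.ofInjective ι hι).symm.injective.comp
  intro x y hxy
  have h1 : (d : R) • f0 x = (d : R) • f0 y := congrArg Subtype.val hxy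
  have hd0 : (d : R) ≠ 0 := nonZeroDivisors.coe_ne_zero d
  apply hf0
  ext i
  have h2 := congrFun h1 i
  simp only [Pi.smul_apply] at h2
  rw [Algebra.smul_def, Algebra.smul_def] at h2
  exact mul_left_cancel₀ (by rwa [Ne, map_eq_zero_iff _ (IsFractionRing.injective R (FractionRing R))]) h2

/-- For a domain `R` and a finite `R`-module `M`, the evaluation map `M → M**` into the double dual is
injective exactly when `M` is torsion free. -/
theorem result (R : Type u) [CommRing R] [IsDomain R] (M : Type u)
    [AddCommGroup M] [Module R M] [Module.Finite R M] :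
    Function.Injective (Module.Dual.eval R M) ↔ Module.IsTorsionFree R M := by
  constructor
  · intro h
    exact h.moduleIsTorsionFree _ (map_smul _)
  · intro h
    obtain ⟨n, f, hf⟩ := tf_emb R M
    rw [injective_iff_map_eq_zero]
    intro x hx
    apply hf
    rw [map_zero]
    ext i
    exact LinearMap.congr_fun hx ((LinearMap.proj i) ∘ₗ f)

end Groth.Agent.S6869
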