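import Groth.Statements.S6872
import Mathlib

set_option autoImplicit false
universe u
open CAlg

namespace Groth.Agent.S6872

theorem tf_emb (R : Type u) [CommRing R] [IsDomain R] (M : Type u)
    [AddCommGroup M] [Module R M] [Module.Finite R M] [Module.IsTorsionFree R M] : ∃ (n : ℕ) (f : M →ₗ[R] (Fin n → R)), Function.Injective f := by
  have hinj : Function.Injective (LocalizedModule.mkLinearMap (nonZeroDivisors R) M) := by
    rw [injective_iff_map_eq_zero]
    intro m hm
    rw [IsLocalizedModule.eq_zero_iff (nonZeroDivisors R)] at hm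
    obtain ⟨c, hc⟩ := hm
    have hc0 : (c : R) ≠ 0 := nonZeroDivisors.coe_ne_zero c
    exact (smul_eq_zero_iff_right hc0).mp hc
  let V := LocalizedModule (nonZeroDivisors R) M
  have hV : Module.Finite (FractionRing R) V := inferInstanceAs (Module.Finite (Localization (nonZeroDivisors R)) (LocalizedModule (nonZeroDivisors R) M))
  let b := Module.finBasis (FractionRing R) V
  let f0 : M →ₗ[R] (Fin (Module.finrank (FractionRing R) V) → FractionRing R) := (b.equivFun.toLinearMap.restrictScalars R) ∘ₗ (LocalizedModule.mkLinearMap (nonZeroDivisors R) M)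
  have hf0 : Function.Injective f0 := b.equivFun.injective.comp hinj
  obtain ⟨s, hs⟩ := Module.Finite.fg_top (R := R) (M := M)
  obtain ⟨d, hd⟩ := IsLocalization.exist_integer_multiples_of_finite (nonZeroDivisors R) (fun x : s × Fin (Module.finrank (FractionRing R) V) => f0 x.1 x.2)
  let ι : (Fin (Module.finrank (FractionRing R) V) → R) →ₗ[R] (Fin (Module.finrank (FractionRing R) V) → FractionRing R) := (Algebra.linearMap R (FractionRing R)).compLeft _
  have hι : Function.Injective ι := by
    intro x y hxy
    ext i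
    exact IsFractionRing.injective R (FractionRing R) (congrFun hxy i)
  have hrange : ∀ m : M, ((d : R) • f0) m ∈ LinearMap.range ι := by
    intro m
    have hm : m ∈ Submodule.span R (s : Set M) := by rw [hs]; trivial
    have hle : Submodule.span R (s : Set M) ≤ (LinearMap.range ι).comap ((d : R) • f0) := by
      rw [Submodule.span_le]
      intro x hx
      choose r hr using fun i => hd (⟨x, hx⟩, i)
      refine ⟨r, ?_⟩
      ext i
      exact hr i
    exact hle hm
  refine ⟨_, (LinearEquiv.ofInjective ι hι).symm.toLinearMap ∘ₗ (((d : R) • f0).codRestrict (LinearMap.range ι) hrange), ?_⟩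
  apply (LinearEquiv.ofInjective ι hι).symm.injective.comp
  intro x y hxy
  have h1 : (d : R) • f0 x = (d : R) • f0 y := congrArg Subtype.val hxy
  have hd0 : (d : R) ≠ 0 := nonZeroDivisors.coe_ne_zero d
  apply hf0
  ext i
  have h2 := congrFun h1 i
  simp only [Pi.smul_apply] at h2
  rw [Algebra.smul_def, Algebra.smul_def] at h2
  exact mul_left_cancel₀ (by rwa [Ne, map_eq_zero_iff _ (IsFractionRing.injective R (FractionRing R))]) h2

theorem tf_eval (R : Type u) [CommRing R] [IsDomain R] (M : Type u)
    [AddCommGroup M] [Module R M] [Module.Finite R M] [Module.IsTorsionFree R M] : Function.Injective (Module.Dual.eval R M) := by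
  obtain ⟨n, f, hf⟩ := tf_emb R M
  rw [injective_iff_map_eq_zero]
  intro x hx
  apply hf
  rw [map_zero]
  ext i
  exact LinearMap.congr_fun hx ((LinearMap.proj i) ∘ₗ f)

/-- a functional on a submodule of a finite module extends, after multiplication by a nonzero scalar. -/
theorem extend_functional (R : Type u) [CommRing R] [IsDomain R] {M M' : Type u}
    [AddCommGroup M] [Module R M] [AddCommGroup M'] [Module R M'] [Module.Finite R M'] (f : M →ₗ[R] M') (hf : Function.Injective f) (φ : M →ₗ[R] R) : ∃ (c : R) (ψ : M' →ₗ[R] R), c ≠ 0 ∧ ψ ∘ₗ f = c • φ := by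
  have hfl : Function.Injective (LocalizedModule.map (nonZeroDivisors R) f) := LocalizedModule.map_injective (nonZeroDivisors R) f hf
  let f' : LocalizedModule (nonZeroDivisors R) M →ₗ[FractionRing R] LocalizedModule (nonZeroDivisors R) M' := LocalizedModule.map (nonZeroDivisors R) f
  obtain ⟨ρ, hρ⟩ := f'.exists_leftInverse_of_injective (LinearMap.ker_eq_bot.mpr hfl)
  let φ' : LocalizedModule (nonZeroDivisors R) M →ₗ[FractionRing R] LocalizedModule (nonZeroDivisors R) R := LocalizedModule.map (nonZeroDivisors R) φ
  let ε : LocalizedModule (nonZeroDivisors R) R ≃ₗ[R] FractionRing R := IsLocalizedModule.linearEquiv (nonZeroDivisors R) (LocalizedModule.mkLinearMap (nonZeroDivisors R) R) (Algebra.linearMap R (FractionRing R))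
  let Φ : M' →ₗ[R] FractionRing R := ε.toLinearMap ∘ₗ ((φ' ∘ₗ ρ).restrictScalars R) ∘ₗ (LocalizedModule.mkLinearMap (nonZeroDivisors R) M')
  have hΦ : ∀ m : M, Φ (f m) = algebraMap R (FractionRing R) (φ m) := by
    intro m
    have h1 : LocalizedModule.mkLinearMap (nonZeroDivisors R) M' (f m) = f' (LocalizedModule.mkLinearMap (nonZeroDivisors R) M m) := by
      rw [LocalizedModule.mkLinearMap_apply, LocalizedModule.mkLinearMap_apply]
      exact (LocalizedModule.map_mk _ _ _ _).symm
    change ε (φ' (ρ (LocalizedModule.mkLinearMap (nonZeroDivisors R) M' (f m)))) = _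
    rw [h1]
    have h2 : ρ (f' (LocalizedModule.mkLinearMap (nonZeroDivisors R) M m)) = LocalizedModule.mkLinearMap (nonZeroDivisors R) M m := LinearMap.congr_fun hρ _
    rw [h2]
    have h3 : φ' (LocalizedModule.mkLinearMap (nonZeroDivisors R) M m) = LocalizedModule.mkLinearMap (nonZeroDivisors R) R (φ m) := by
      rw [LocalizedModule.mkLinearMap_apply, LocalizedModule.mkLinearMap_apply]
      exact LocalizedModule.map_mk _ _ _ _
    rw [h3]
    exact IsLocalizedModule.linearEquiv_apply _ _ _ _
  obtain ⟨s, hs⟩ := Module.Finite.fg_top (R := R) (M := M')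
  obtain ⟨d, hd⟩ := IsLocalization.exist_integer_multiples_of_finite (nonZeroDivisors R) (fun x : s => Φ x.1)
  have hι : Function.Injective (Algebra.linearMap R (FractionRing R)) := IsFractionRing.injective R (FractionRing R)
  have hrange : ∀ m : M', ((d : R) • Φ) m ∈ LinearMap.range (Algebra.linearMap R (FractionRing R)) := by
    intro m
    have hm : m ∈ Submodule.span R (s : Set M') := by rw [hs]; trivial
    have hle : Submodule.span R (s : Set M') ≤ (LinearMap.range (Algebra.linearMap R (FractionRing R))).comap ((d : R) • Φ) := by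
      rw [Submodule.span_le]
      intro x hx
      obtain ⟨r, hr⟩ := hd ⟨x, hx⟩
      exact ⟨r, hr⟩
    exact hle hm
  refine ⟨(d : R), (LinearEquiv.ofInjective _ hι).symm.toLinearMap ∘ₗ (((d : R) • Φ).codRestrict _ hrange), nonZeroDivisors.coe_ne_zero d, ?_⟩
  ext m
  apply hι
  have h4 : ∀ z, (Algebra.linearMap R (FractionRing R)) ((LinearEquiv.ofInjective _ hι).symm z) = z.1 := by
    intro z
    exact congrArg Subtype.val ((LinearEquiv.ofInjective _ hι).apply_symm_apply z)
  rw [LinearMap.comp_apply, LinearMap.comp_apply, LinearEquiv.coe_coe, h4]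
  change (d : R) • Φ (f m) = _
  rw [hΦ, Algebra.smul_def, ← map_mul]
  rfl

/-- Let `R` be a Noetherian domain and `f : M → M'`, `g : M' → M''` linear maps between finite
`R`-modules with `f` injective and image of `f` equal to kernel of `g` (so `0 → M → M' → M''` is
exact). Then reflexivity of `M'` together with torsion-freeness of `M''` forces `M` to be reflexive. -/
theorem result (R : Type u) [CommRing R] [IsDomain R]
    [IsNoetherianRing R] {M M' M'' : Type u} [AddCommGroup M] [Module R M] [Module.Finite R M]
    [AddCommGroup M'] [Module R M'] [Module.Finite R M'] [AddCommGroup M''] [Module R M''] [Module.Finite R M'']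
    (f : M →ₗ[R] M') (g : M' →ₗ[R] M'') (hf : Function.Injective f) (hfg : Function.Exact f g)
    [Module.IsReflexive R M'] [Module.IsTorsionFree R M''] : Module.IsReflexive R M := by
  haveI : Module.IsTorsionFree R M' := inferInstance
  haveI : Module.IsTorsionFree R M := hf.moduleIsTorsionFree f (map_smul f)
  refine ⟨tf_eval R M, ?_⟩
  intro y
  obtain ⟨m', hm'⟩ := (Module.evalEquiv R M').surjective (f.dualMap.dualMap y)
  have hgf : g ∘ₗ f = 0 := hfg.linearMap_comp_eq_zero
  have hgm : g m' = 0 := by
    apply tf_eval R M''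
    rw [map_zero]
    ext ψ
    have h1 := LinearMap.congr_fun hm' (ψ ∘ₗ g)
    have h2 : (f.dualMap.dualMap y) (ψ ∘ₗ g) = y ((ψ ∘ₗ g) ∘ₗ f) := rfl
    rw [h2, LinearMap.comp_assoc, hgf, LinearMap.comp_zero, map_zero] at h1
    exact h1
  obtain ⟨m, rfl⟩ := (hfg m').mp hgm
  refine ⟨m, ?_⟩
  ext φ
  obtain ⟨c, ψ, hc, hψ⟩ := extend_functional R f hf φ
  have h1 := LinearMap.congr_fun hm' ψ
  have h2 : (f.dualMap.dualMap y) ψ = y (ψ ∘ₗ f) := rfl
  have h3 : (Module.evalEquiv R M' (f m)) ψ = (ψ ∘ₗ f) m := rfl
  rw [h2, h3, hψ, map_smul] at h1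
  have h4 : c * (φ m) = c * (y φ) := h1
  exact mul_left_cancel₀ hc h4

end Groth.Agent.S6872
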