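import Groth.Statements.S6874
import Mathlib
import Groth.Agent.S6873
import Groth.Agent.S6872
import Groth.Agent.S6866

set_option autoImplicit false
universe u
open TensorProduct
open CAlg

namespace Groth.Agent.S6874

/-- For a flat ring map `R → R'` between Noetherian domains and a finite reflexive `R`-module `M`, the
base change `R' ⊗_R M` is a (finite) reflexive `R'`-module. -/
theorem result (R R' : Type u) [CommRing R] [IsDomain R]
    [IsNoetherianRing R] [CommRing R'] [IsDomain R'] [IsNoetherianRing R'] [Algebra R R'] [Module.Flat R R']
    (M : Type u) [AddCommGroup M] [Module R M] [Module.Finite R M] [Module.IsReflexive R M] :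
    Module.IsReflexive R' (R' ⊗[R] M) := by
  obtain ⟨n, f, hf, htf⟩ := (Groth.Agent.S6873.result R M).mp inferInstance
  have h1 : Function.Injective (f.baseChange R') := Module.Flat.lTensor_preserves_injective_linearMap (M := R') f hf
  haveI : Module.IsTorsionFree R' (R' ⊗[R] ((Fin n → R) ⧸ LinearMap.range f)) := Groth.Agent.S6866.result R R' _
  haveI : Module.IsReflexive R' (R' ⊗[R] (Fin n → R)) := inferInstance
  have h2 : Function.Exact (f.baseChange R') ((LinearMap.range f).mkQ.baseChange R') :=
    lTensor_exact R' (by rw [LinearMap.exact_iff, Submodule.ker_mkQ]) (Submodule.mkQ_surjective _)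
  exact Groth.Agent.S6872.result R' (f.baseChange R') ((LinearMap.range f).mkQ.baseChange R') h1 h2

end Groth.Agent.S6874
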