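import Groth.Statements.S6878
import Mathlib

set_option autoImplicit false
universe u
open CAlg

namespace Groth.Agent.S6878

/-- Let `R` be a Noetherian ring and `φ : M → N` a map of `R`-modules. Suppose that for every prime `𝔭`
of `R` either `M_𝔭 → N_𝔭` is injective or `𝔭` is not an associated prime of `M`. Then `φ` is
injective. -/
theorem result (R : Type u) [CommRing R]
    [IsNoetherianRing R] {M N : Type u} [AddCommGroup M] [Module R M] [AddCommGroup N] [Module R N] (φ : M →ₗ[R] N)
    (h : ∀ (p : Ideal R) [p.IsPrime],
      Function.Injective (LocalizedModule.map p.primeCompl φ) ∨ p ∉ associatedPrimes R M) :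
    Function.Injective φ := by
  rw [← LinearMap.ker_eq_bot, ← Submodule.subsingleton_iff_eq_bot]
  by_contra hcon
  rw [not_subsingleton_iff_nontrivial] at hcon
  obtain ⟨p, hp⟩ := associatedPrimes.nonempty R (LinearMap.ker φ)
  haveI : p.IsPrime := hp.isPrime
  have hpM : p ∈ associatedPrimes R M := associatedPrimes.subset_of_injective (Submodule.injective_subtype (LinearMap.ker φ)) hp
  rcases h p with h1 | h1
  · obtain ⟨-, f, hf⟩ := (isAssociatedPrime_iff_exists_injective_linearMap p _).mp hp
    let x : LinearMap.ker φ := f 1
    have h2 : LocalizedModule.mkLinearMap p.primeCompl M (x : M) = 0 := by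
      apply h1
      rw [map_zero]
      rw [LocalizedModule.mkLinearMap_apply, LocalizedModule.map_mk, x.2]
      simp
    rw [IsLocalizedModule.eq_zero_iff p.primeCompl] at h2
    obtain ⟨c, hc⟩ := h2
    have h3 : (c : R) • x = 0 := Subtype.ext hc
    have h4 : f ((c : R) • 1) = 0 := by rw [map_smul]; exact h3
    have h5 := hf (h4.trans (map_zero f).symm)
    have h6 : (Ideal.Quotient.mk p (c : R)) = 0 := by
      rw [← h5]
      rw [Algebra.smul_def, mul_one]
      rfl
    exact c.2 (Ideal.Quotient.eq_zero_iff_mem.mp h6)
  · exact h1 hpM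

end Groth.Agent.S6878
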