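import Groth.Statements.S6882
import Mathlib

set_option autoImplicit false
universe u
open CAlg

namespace Groth.Agent.S6882

/-- For a finite module `M` over a discrete valuation ring `R`, the evaluation map from `M` to its
double dual `M**` is surjective. -/
theorem result (R : Type u) [CommRing R] [IsDomain R]
    [IsDiscreteValuationRing R] (M : Type u) [AddCommGroup M] [Module R M] [Module.Finite R M] :
    Function.Surjective (Module.Dual.eval R M) := by
  let N := M ⧸ Submodule.torsion R M
  let π : M →ₗ[R] N := (Submodule.torsion R M).mkQ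
  have hπ : Function.Surjective π := Submodule.mkQ_surjective _
  haveI : Module.IsTorsionFree R N := inferInstance
  haveI : Module.Free R N := inferInstance
  intro y
  obtain ⟨n, hn⟩ := (Module.evalEquiv R N).surjective (π.dualMap.dualMap y)
  obtain ⟨m, rfl⟩ := hπ n
  refine ⟨m, ?_⟩
  ext φ
  have hφ : ∃ ψ : Module.Dual R N, φ = π.dualMap ψ := by
    refine ⟨(Submodule.torsion R M).liftQ φ ?_, ?_⟩
    · intro x hx
      obtain ⟨a, ha⟩ := hx
      have h1 : (a : R) * φ x = 0 := by
        rw [← smul_eq_mul, ← map_smul]
        have : (a : R) • x = 0 := ha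
        rw [this, map_zero]
      exact (mul_eq_zero.mp h1).resolve_left (nonZeroDivisors.coe_ne_zero a)
    · ext x; rfl
  obtain ⟨ψ, rfl⟩ := hφ
  exact LinearMap.congr_fun hn ψ

end Groth.Agent.S6882
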