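import Groth.Statements.S6888
import Mathlib

set_option autoImplicit false
universe u
open Polynomial
open CAlg

namespace Groth.Agent.S6888

theorem jac_idem {A : Type u} [CommRing A] (I : Ideal A) (hI : I ≤ Ideal.jacobson (⊥ : Ideal A)) (x : A) (hx : x ∈ I) (he : x * x = x) : x = 0 := by
  have h1 : IsUnit (1 - x) := by
    have h2 := (Ideal.mem_jacobson_bot.mp (hI hx)) (-1)
    have h3 : x * (-1) + 1 = 1 - x := by ring
    rwa [h3] at h2
  have h4 : (1 - x) * x = (1 - x) * 0 := by
    rw [sub_mul, one_mul, he, sub_self, mul_zero]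
  exact h1.mul_left_cancel h4

/-- Let `A` be absolutely integrally closed (every monic polynomial over `A` is a product of linear
factors) and `I ⊆ A` an ideal contained in the Jacobson radical such that `A → A/I` is surjective
(hence bijective) on idempotents. Then `(A, I)` is a henselian pair. (The published statement also
records the converse, which holds for every henselian pair; this row states the sufficiency only.) -/
theorem result (A : Type u) [CommRing A]
    (hA : ∀ f : A[X], f.Monic → ∃ s : Multiset A, f = (s.map fun a => X - C a).prod) (I : Ideal A)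
    (hI : I ≤ Ideal.jacobson (⊥ : Ideal A))
    (hidem : ∀ e : A ⧸ I, IsIdempotentElem e → ∃ e' : A, IsIdempotentElem e' ∧ Ideal.Quotient.mk I e' = e) :
    HenselianRing A I := by
  classical
  refine ⟨hI, ?_⟩
  intro f hf a₀ h0 hu
  obtain ⟨s, hs⟩ := hA f hf
  obtain ⟨n, α, hα⟩ : ∃ (n : ℕ) (α : Fin n → A), f = ∏ i, (X - C (α i)) := by
    refine ⟨s.toList.length, fun i => s.toList[i], ?_⟩
    rw [hs]
    conv_lhs => rw [← Multiset.coe_toList s]
    rw [Multiset.map_coe, Multiset.prod_coe]
    exact (Fin.prod_univ_fun_getElem s.toList (fun a => X - C a)).symm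
  let b : Fin n → A := fun i => a₀ - α i
  let c : Fin n → A := fun i => ∏ j ∈ Finset.univ.erase i, b j
  have hprod : ∏ i, b i ∈ I := by
    rw [hα, eval_prod] at h0
    simpa [b] using h0
  have hder : eval a₀ (derivative f) = ∑ i, c i := by
    rw [hα, derivative_prod_finset, eval_finset_sum]
    apply Finset.sum_congr rfl
    intro i _
    simp [c, b, eval_prod]
  rw [hder] at hu
  obtain ⟨v, hv⟩ := hu.exists_right_inv
  obtain ⟨w, rfl⟩ := Ideal.Quotient.mk_surjective v
  let π := Ideal.Quotient.mk I
  have hbc : ∀ i, b i * c i = ∏ i, b i := fun i => Finset.mul_prod_erase _ _ (Finset.mem_univ i)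
  have hcc : ∀ i j, i ≠ j → π (c i) * π (c j) = 0 := by
    intro i j hij
    obtain ⟨d, hd⟩ := Finset.dvd_prod_of_mem b (Finset.mem_erase.mpr ⟨hij.symm, Finset.mem_univ j⟩ : j ∈ Finset.univ.erase i)
    have h1 : c i * c j = d * ∏ i, b i := by
      rw [← hbc j]
      change (∏ j ∈ Finset.univ.erase i, b j) * c j = _
      rw [hd]; ring
    rw [← map_mul, h1]
    exact Ideal.Quotient.eq_zero_iff_mem.mpr (I.mul_mem_left _ hprod)
  let e : Fin n → A ⧸ I := fun i => π (c i) * π w
  have hsum : ∑ i, e i = 1 := by
    rw [← Finset.sum_mul, ← map_sum]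
    exact hv
  have horth : ∀ i j, i ≠ j → e i * e j = 0 := by
    intro i j hij
    change π (c i) * π w * (π (c j) * π w) = 0
    have : π (c i) * π w * (π (c j) * π w) = (π (c i) * π (c j)) * (π w * π w) := by ring
    rw [this, hcc i j hij, zero_mul]
  have hid : ∀ i, IsIdempotentElem (e i) := by
    intro i
    have h1 : e i * ∑ j, e j = e i * e i := by
      rw [Finset.mul_sum, Finset.sum_eq_single i]
      · intro j _ hj
        exact horth i j hj.symm
      · intro h; exact absurd (Finset.mem_univ i) h
    rw [hsum, mul_one] at h1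
    exact h1.symm
  choose e' he' hee' using fun i => hidem (e i) (hid i)
  have horth' : ∀ i j, i ≠ j → e' i * e' j = 0 := by
    intro i j hij
    apply jac_idem I hI
    · apply Ideal.Quotient.eq_zero_iff_mem.mp
      rw [map_mul, hee', hee', horth i j hij]
    · have h1 : e' i * e' j * (e' i * e' j) = (e' i * e' i) * (e' j * e' j) := by ring
      rw [h1, (he' i).eq, (he' j).eq]
  have hss : (∑ i, e' i) * (∑ i, e' i) = ∑ i, e' i := by
    rw [Finset.sum_mul]
    apply Finset.sum_congr rfl
    intro i _
    rw [Finset.mul_sum, Finset.sum_eq_single i]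
    · exact (he' i).eq
    · intro j _ hj
      exact horth' i j hj.symm
    · intro h; exact absurd (Finset.mem_univ i) h
  have hsum' : ∑ i, e' i = 1 := by
    have h1 : 1 - ∑ i, e' i = 0 := by
      apply jac_idem I hI
      · apply Ideal.Quotient.eq_zero_iff_mem.mp
        rw [map_sub, map_one, map_sum]
        simp only [hee']
        rw [hsum, sub_self]
      · have : (1 - ∑ i, e' i) * (1 - ∑ i, e' i) = 1 - 2 * (∑ i, e' i) + (∑ i, e' i) * (∑ i, e' i) := by ring
        rw [this, hss]; ring
    exact (sub_eq_zero.mp h1).symm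
  let a := ∑ i, α i * e' i
  have hea : ∀ k, e' k * a = e' k * α k := by
    intro k
    change e' k * ∑ i, α i * e' i = _
    rw [Finset.mul_sum, Finset.sum_eq_single k]
    · have : e' k * (α k * e' k) = (e' k * e' k) * α k := by ring
      rw [this, (he' k).eq]
    · intro j _ hj
      have : e' k * (α j * e' j) = α j * (e' k * e' j) := by ring
      rw [this, horth' k j hj.symm, mul_zero]
    · intro h; exact absurd (Finset.mem_univ k) h
  refine ⟨a, ?_, ?_⟩
  · rw [IsRoot.def]
    have h1 : ∀ k, e' k * eval a f = 0 := by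
      intro k
      rw [hα, eval_prod, ← Finset.mul_prod_erase _ _ (Finset.mem_univ k), ← mul_assoc]
      have h2 : e' k * eval a (X - C (α k)) = 0 := by
        rw [eval_sub, eval_X, eval_C, mul_sub, hea, sub_self]
      rw [h2, zero_mul]
    rw [← one_mul (eval a f), ← hsum', Finset.sum_mul]
    exact Finset.sum_eq_zero (fun k _ => h1 k)
  · apply Ideal.Quotient.eq_zero_iff_mem.mp
    have h1 : π a = ∑ i, π (α i) * e i := by
      change π (∑ i, α i * e' i) = _
      rw [map_sum]
      apply Finset.sum_congr rfl
      intro i _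
      rw [map_mul]
      congr 1
      exact hee' i
    have h2 : π a₀ = ∑ i, π a₀ * e i := by
      rw [← Finset.mul_sum, hsum, mul_one]
    rw [map_sub]
    change π a - π a₀ = 0
    rw [h1, h2, ← Finset.sum_sub_distrib]
    apply Finset.sum_eq_zero
    intro i _
    have h3 : π (α i) * e i - π a₀ * e i = - (π (b i) * π (c i)) * π w := by
      change π (α i) * (π (c i) * π w) - π a₀ * (π (c i) * π w) = - (π (a₀ - α i) * π (c i)) * π w
      rw [map_sub]; ring
    rw [h3, ← map_mul, hbc]
    have h4 : π (∏ i, b i) = 0 := Ideal.Quotient.eq_zero_iff_mem.mpr hprod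
    rw [h4, neg_zero, zero_mul]

end Groth.Agent.S6888
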