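import Groth.Statements.S6912
import Mathlib

set_option autoImplicit false
universe u
open TensorProduct
open CAlg

namespace Groth.Agent.S6912

/-- Let `R` be a domain and `M`, `N` two `R`-modules; rank means dimension over the fraction field after
base change. Then `rank (M ⊗_R N) = rank M · rank N`, and when `M` is finitely presented also `rank
Hom_R(M, N) = rank M · rank N`. -/
theorem result (R : Type u) [CommRing R] [IsDomain R] (M N : Type u)
    [AddCommGroup M] [Module R M] [AddCommGroup N] [Module R N] :
    Module.rank R (M ⊗[R] N) = Module.rank R M * Module.rank R N ∧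
    (Module.FinitePresentation R M → Module.rank R (M →ₗ[R] N) = Module.rank R M * Module.rank R N) := by
  let K := FractionRing R
  have hr : ∀ (A B : Type u) [AddCommGroup A] [Module R A] [AddCommGroup B] [Module R B] [Module K B] [IsScalarTower R K B] (f : A →ₗ[R] B) [IsLocalizedModule (nonZeroDivisors R) f], Module.rank R A = Module.rank K B := by
    intro A B _ _ _ _ _ _ f _
    rw [IsLocalization.rank_eq K (nonZeroDivisors R) le_rfl]
    exact (IsLocalizedModule.rank_eq (nonZeroDivisors R) le_rfl f).symm
  constructor
  · rw [hr _ _ (TensorProduct.mk R K (M ⊗[R] N) 1), hr _ _ (TensorProduct.mk R K M 1), hr _ _ (TensorProduct.mk R K N 1), ← rank_tensorProduct' (R := K)]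
    exact (TensorProduct.AlgebraTensorModule.distribBaseChange R K M N).rank_eq
  · intro hM
    let V := LocalizedModule (nonZeroDivisors R) M
    let W := LocalizedModule (nonZeroDivisors R) N
    haveI : Module.Finite K V := inferInstanceAs (Module.Finite (Localization (nonZeroDivisors R)) (LocalizedModule (nonZeroDivisors R) M))
    rw [hr (M →ₗ[R] N) (V →ₗ[K] W) (LocalizedModule.map (nonZeroDivisors R)), hr M V (LocalizedModule.mkLinearMap (nonZeroDivisors R) M), hr N W (LocalizedModule.mkLinearMap (nonZeroDivisors R) N)]
    rw [← ((Module.finBasis K V).constr (M' := W) K).rank_eq, rank_fun_eq_lift_mul, Fintype.card_fin, ← Module.finrank_eq_rank K V]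
    simp

end Groth.Agent.S6912
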