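import Groth.Statements.S6916
import Mathlib

set_option autoImplicit false
universe u
open TensorProduct
open EtAlg

namespace Groth.Agent.S6916

/-- Let `B' = B ×_A A'` be a fibre square of rings with `A' → A` surjective and `L'` any `B'`-module.
Then the canonical map from `L'` to the glueing of `(L' ⊗_{B'} B, L' ⊗_{B'} A')` is surjective:
every pair `(x, y) ∈ (B ⊗_{B'} L') × (A' ⊗_{B'} L')` with equal images in `A ⊗_{B'} L'` is of the
form `(1 ⊗ l, 1 ⊗ l)`. (It is in general not injective.) -/
theorem result (B' B A' A : Type u) [CommRing B'] [CommRing B] [CommRing A'] [CommRing A]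
    [Algebra B' B] [Algebra B' A'] [Algebra B A] [Algebra A' A] [Algebra B' A] [IsScalarTower B' B A] [IsScalarTower B' A' A]
    (hsq : EtMil.IsFibreSquare B' B A' A)
    (L' : Type u) [AddCommGroup L'] [Module B' L'] (x : B ⊗[B'] L') (y : A' ⊗[B'] L')
    (hxy : (IsScalarTower.toAlgHom B' B A).toLinearMap.rTensor L' x = (IsScalarTower.toAlgHom B' A' A).toLinearMap.rTensor L' y) :
    ∃ l : L', (1 : B) ⊗ₜ[B'] l = x ∧ (1 : A') ⊗ₜ[B'] l = y := by
  obtain ⟨hs, hex⟩ := hsq
  let α : B' →ₗ[B'] (B × A') := (Algebra.linearMap B' B).prod (Algebra.linearMap B' A')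
  let β : (B × A') →ₗ[B'] A := ((IsScalarTower.toAlgHom B' B A).toLinearMap).coprod (-(IsScalarTower.toAlgHom B' A' A).toLinearMap)
  have hβ : Function.Surjective β := by
    intro a
    obtain ⟨a', rfl⟩ := hs a
    refine ⟨(0, -a'), ?_⟩
    simp [β]
  have hexact : Function.Exact α β := by
    rintro ⟨b, a'⟩
    have h0 : β (b, a') = algebraMap B A b - algebraMap A' A a' := by
      simp [β, sub_eq_add_neg]
    constructor
    · intro h
      rw [h0, sub_eq_zero] at h
      obtain ⟨b', ⟨h1, h2⟩, -⟩ := hex b a' h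
      exact ⟨b', Prod.ext h1 h2⟩
    · rintro ⟨b', hb'⟩
      have h1 : algebraMap B' B b' = b := congrArg Prod.fst hb'
      have h2 : algebraMap B' A' b' = a' := congrArg Prod.snd hb'
      rw [h0, ← h1, ← h2, ← IsScalarTower.algebraMap_apply, ← IsScalarTower.algebraMap_apply, sub_self]
  have h1 := rTensor_exact L' hexact hβ
  let z : TensorProduct B' (B × A') L' := (LinearMap.inl B' B A').rTensor L' x + (LinearMap.inr B' B A').rTensor L' y
  have hz : β.rTensor L' z = 0 := by
    change β.rTensor L' ((LinearMap.inl B' B A').rTensor L' x + (LinearMap.inr B' B A').rTensor L' y) = 0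
    rw [map_add, ← LinearMap.comp_apply, ← LinearMap.comp_apply, ← LinearMap.rTensor_comp, ← LinearMap.rTensor_comp, LinearMap.coprod_inl, LinearMap.coprod_inr, LinearMap.rTensor_neg, LinearMap.neg_apply, hxy, add_neg_cancel]
  obtain ⟨w, hw⟩ := (h1 z).mp hz
  obtain ⟨l, rfl⟩ : ∃ l : L', (1 : B') ⊗ₜ[B'] l = w := by
    refine ⟨TensorProduct.lid B' L' w, ?_⟩
    rw [← TensorProduct.lid_symm_apply, LinearEquiv.symm_apply_apply]
  refine ⟨l, ?_, ?_⟩
  · have h2 := congrArg ((LinearMap.fst B' B A').rTensor L') hw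
    have h3 : (LinearMap.fst B' B A').rTensor L' z = x := by
      change (LinearMap.fst B' B A').rTensor L' ((LinearMap.inl B' B A').rTensor L' x + (LinearMap.inr B' B A').rTensor L' y) = x
      rw [map_add, ← LinearMap.comp_apply, ← LinearMap.comp_apply, ← LinearMap.rTensor_comp, ← LinearMap.rTensor_comp]
      simp
    rw [h3] at h2
    rw [← h2]
    simp [α]
  · have h2 := congrArg ((LinearMap.snd B' B A').rTensor L') hw
    have h3 : (LinearMap.snd B' B A').rTensor L' z = y := by
      change (LinearMap.snd B' B A').rTensor L' ((LinearMap.inl B' B A').rTensor L' x + (LinearMap.inr B' B A').rTensor L' y) = y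
      rw [map_add, ← LinearMap.comp_apply, ← LinearMap.comp_apply, ← LinearMap.rTensor_comp, ← LinearMap.rTensor_comp]
      simp
    rw [h3] at h2
    rw [← h2]
    simp [α]

end Groth.Agent.S6916
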