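import Groth.Statements.S6931
import Mathlib

set_option autoImplicit false
universe u
open TensorProduct
open CAlg

namespace Groth.Agent.S6931


/-- For an injective map of domains `R → R'` and any `R`-module `M`, the rank of `R' ⊗_R M` over `R'`
equals the rank of `M` over `R` (rank over a domain = dimension over the fraction field after base
change). -/
theorem result (R R' : Type u) [CommRing R] [IsDomain R] [CommRing R'] [IsDomain R']
    [Algebra R R'] (h : Function.Injective (algebraMap R R')) (M : Type u) [AddCommGroup M] [Module R M] :
    Module.rank R' (R' ⊗[R] M) = Module.rank R M := by
  haveI : FaithfulSMul R R' := (faithfulSMul_iff_algebraMap_injective R R').2 h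
  exact (TensorProduct.isBaseChange R M R').rank_eq


end Groth.Agent.S6931
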