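import Groth.Statements.S6933
import Mathlib

set_option autoImplicit false
universe u
open CategoryTheory
open InjHull

namespace Groth.Agent.S6933


/-- An abelian group `J` that is injective as an object of the category of abelian groups is divisible:
`n J = J` for every nonzero integer `n`. (The published statement is an equivalence; this row states
the implication from injective to divisible.) -/
theorem result (J : Type u) [AddCommGroup J] (hJ : Injective (AddCommGrpCat.of J))
    (n : ℤ) (hn : n ≠ 0) (x : J) : ∃ y : J, n • y = x := by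
  let f : AddCommGrpCat.of (ULift.{u} ℤ) ⟶ AddCommGrpCat.of (ULift.{u} ℤ) :=
    AddCommGrpCat.ofHom ((n • AddMonoidHom.id (ULift.{u} ℤ)))
  let g : AddCommGrpCat.of (ULift.{u} ℤ) ⟶ AddCommGrpCat.of J :=
    AddCommGrpCat.ofHom (((zmultiplesHom J) x).comp (AddEquiv.ulift : ULift.{u} ℤ ≃+ ℤ).toAddMonoidHom)
  haveI : Mono f := by
    rw [AddCommGrpCat.mono_iff_injective]
    rintro ⟨a⟩ ⟨b⟩ h
    have h' : n • (⟨a⟩ : ULift.{u} ℤ) = n • ⟨b⟩ := h
    have h2 : n * a = n * b := congrArg ULift.down h'
    exact congrArg _ (mul_left_cancel₀ hn h2)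
  refine ⟨(Injective.factorThru g f).hom ⟨1⟩, ?_⟩
  have h1 : f ≫ Injective.factorThru g f = g := Injective.comp_factorThru g f
  have h2 := congrArg (fun k => k.hom (⟨1⟩ : ULift.{u} ℤ)) h1
  have h3 : (Injective.factorThru g f).hom (n • (⟨1⟩ : ULift.{u} ℤ)) = (1 : ℤ) • x := h2
  rw [map_zsmul, one_smul] at h3
  exact h3


end Groth.Agent.S6933
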