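import Groth.Statements.S7038
import Mathlib

set_option autoImplicit false
universe u
open LocCoh

namespace Groth.Agent.S7038


/-- For an ideal I of a commutative ring R and an R-module M, if each m ∈ M is annihilated by some power
I^n of I, then the support of M is contained in the closed set V(I); conversely, when I is finitely
generated and the support of M is contained in V(I), each m ∈ M is annihilated by some power I^n of
I. (Finite generation is used only for the converse.) -/
theorem result {R : Type u} [CommRing R] (I : Ideal R)
    (M : Type u) [AddCommGroup M] [Module R M] :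
    (LocCoh.IsPowerTorsion I M → Module.support R M ⊆ PrimeSpectrum.zeroLocus (I : Set R)) ∧
    (I.FG → Module.support R M ⊆ PrimeSpectrum.zeroLocus (I : Set R) → LocCoh.IsPowerTorsion I M) := by
  constructor
  · intro h p hp
    obtain ⟨m, hm⟩ := Module.mem_support_iff_exists_annihilator.1 hp
    obtain ⟨n, hn⟩ := h m
    have h1 : I ^ n ≤ p.asIdeal := by
      refine le_trans ?_ hm
      intro a ha
      rw [Submodule.mem_annihilator_span_singleton]
      exact hn a ha
    exact p.2.le_of_pow_le h1
  · intro hI hs m
    have h1 : I ≤ (Submodule.span R {m}).annihilator.radical := by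
      rw [Ideal.radical_eq_sInf]
      refine le_sInf ?_
      rintro p ⟨hp, hpp⟩
      have : (⟨p, hpp⟩ : PrimeSpectrum R) ∈ Module.support R M :=
        Module.mem_support_iff_exists_annihilator.2 ⟨m, hp⟩
      exact hs this
    obtain ⟨n, hn⟩ := Ideal.exists_pow_le_of_le_radical_of_fg h1 hI
    refine ⟨n, fun a ha => ?_⟩
    have := hn ha
    rwa [Submodule.mem_annihilator_span_singleton] at this

end Groth.Agent.S7038
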