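import Groth.Statements.S7039
import Mathlib

set_option autoImplicit false
universe u
open LocCoh

namespace Groth.Agent.S7039
open CategoryTheory CategoryTheory.Limits TensorProduct

/-- For a finitely generated ideal I of a commutative ring R and any R-module M, the quotient of M by
its submodule of I-power torsion elements has no nonzero element annihilated by I. -/
theorem result {R : Type u} [CommRing R] (I : Ideal R) (hI : I.FG)
    (M : Type u) [AddCommGroup M] [Module R M] :
    LocCoh.torsionBy I (M ⧸ DRing.torsionSub I M) = ⊥ := by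
  rw [eq_bot_iff]
  intro x hx
  obtain ⟨m, rfl⟩ := Submodule.Quotient.mk_surjective _ x
  have h1 : ∀ a ∈ I, a • m ∈ DRing.torsionSub I M := by
    intro a ha
    have := (Submodule.mem_torsionBySet_iff _ _).1 hx ⟨a, ha⟩
    have h2 : a • (Submodule.Quotient.mk m : M ⧸ DRing.torsionSub I M) = 0 := this
    rwa [← Submodule.Quotient.mk_smul, Submodule.Quotient.mk_eq_zero] at h2
  have h2 : ∀ a ∈ I, ∃ n : ℕ, ∀ b ∈ I ^ n, b • (a • m) = 0 := h1
  obtain ⟨s, hs⟩ := hI
  have h3 : ∃ n : ℕ, ∀ a ∈ s, ∀ b ∈ I ^ n, b • (a • m) = 0 := by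
    classical
    have hsub : ∀ a ∈ s, a ∈ I := fun a ha => by rw [← hs]; exact Ideal.subset_span ha
    clear hs
    induction s using Finset.induction_on with
    | empty => exact ⟨0, by simp⟩
    | insert a s _ ih =>
      obtain ⟨n, hn⟩ := ih (fun b hb => hsub b (Finset.mem_insert_of_mem hb))
      obtain ⟨n', hn'⟩ := h2 a (hsub a (Finset.mem_insert_self a s))
      refine ⟨n + n', fun b hb c hc => ?_⟩
      rcases Finset.mem_insert.1 hb with rfl | hb
      · exact hn' c (Ideal.pow_le_pow_right (Nat.le_add_left _ _) hc)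
      · exact hn b hb c (Ideal.pow_le_pow_right (Nat.le_add_right _ _) hc)
  obtain ⟨n, hn⟩ := h3
  rw [Submodule.mem_bot, Submodule.Quotient.mk_eq_zero]
  show ∃ n : ℕ, ∀ a ∈ I ^ n, a • m = 0
  refine ⟨n + 1, fun c hc => ?_⟩
  rw [pow_succ] at hc
  refine Submodule.mul_induction_on hc ?_ ?_
  · intro b hb a ha
    rw [mul_smul]
    rw [← hs] at ha
    refine Submodule.span_induction ?_ ?_ ?_ ?_ ha
    · intro a ha; exact hn a ha b hb
    · simp
    · intro x y _ _ h4 h5; rw [add_smul, smul_add, h4, h5, add_zero]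
    · intro r x _ h4
      rw [smul_eq_mul, mul_smul, smul_comm, h4, smul_zero]
  · intro x y h4 h5; rw [add_smul, h4, h5, add_zero]

end Groth.Agent.S7039
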