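import Groth.Statements.S7040
import Mathlib
import Groth.Agent.S7038

set_option autoImplicit false
universe u
open CategoryTheory
open LocCoh

namespace Groth.Agent.S7040
open CategoryTheory CategoryTheory.Limits

/-- For a finitely generated ideal I of a commutative ring R, the property of being an I-power torsion
module (every element killed by a power of I) is a Serre class in the category of R-modules: it
holds for 0 and is closed under subobjects, quotients and extensions. -/
theorem result {R : Type u} [CommRing R] (I : Ideal R) (hI : I.FG) :
    ObjectProperty.IsSerreClass (C := ModuleCat.{u} R) (fun M => LocCoh.IsPowerTorsion I M) := by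
  have key : ∀ (M : Type u) [AddCommGroup M] [Module R M],
      Module.support R M ⊆ PrimeSpectrum.zeroLocus (I : Set R) → LocCoh.IsPowerTorsion I M :=
    fun M _ _ => (Groth.Agent.S7038.result I M).2 hI
  have key' : ∀ (M : Type u) [AddCommGroup M] [Module R M],
      LocCoh.IsPowerTorsion I M → Module.support R M ⊆ PrimeSpectrum.zeroLocus (I : Set R) :=
    fun M _ _ => (Groth.Agent.S7038.result I M).1
  exact
    { exists_zero := ⟨ModuleCat.of R PUnit, ModuleCat.isZero_of_subsingleton _, fun m => ⟨0, fun a _ => Subsingleton.elim _ _⟩⟩
      prop_of_mono := fun {X Y} f _ hY m => by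
        obtain ⟨n, hn⟩ := hY (f.hom m)
        refine ⟨n, fun a ha => ?_⟩
        apply (ModuleCat.mono_iff_injective f).1 inferInstance
        rw [map_zero, map_smul]
        exact hn a ha
      prop_of_epi := fun {X Y} f _ hX m => by
        obtain ⟨m, rfl⟩ := (ModuleCat.epi_iff_surjective f).1 inferInstance m
        obtain ⟨n, hn⟩ := hX m
        refine ⟨n, fun a ha => ?_⟩
        rw [← map_smul, hn a ha, map_zero]
      prop_X₂_of_shortExact := fun {S} hS h1 h3 => by
        refine key _ ?_
        have hex : Function.Exact S.f.hom S.g.hom := (ShortComplex.ShortExact.moduleCat_exact_iff_function_exact S).1 hS.exact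
        rw [Module.support_of_exact hex ((ModuleCat.mono_iff_injective S.f).1 hS.mono_f) ((ModuleCat.epi_iff_surjective S.g).1 hS.epi_g)]
        exact Set.union_subset (key' _ h1) (key' _ h3) }

end Groth.Agent.S7040
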