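import Groth.Statements.S7065
import Mathlib

set_option autoImplicit false
universe u
open EtGlue

namespace Groth.Agent.S7065
open Topology

/-- Let R → R' be a homomorphism of commutative rings and f an element of R such that the induced map
R/fR → R'/fR' is bijective. Then Spec(R') ⊔ Spec(R_f) → Spec(R) is surjective: every prime of R is
the contraction of a prime of R' or of a prime of R_f. -/
theorem result {R R' : Type u} [CommRing R] [CommRing R']
    [Algebra R R'] (f : R)
    (hq : Function.Bijective
      (Ideal.quotientMap (Ideal.map (algebraMap R R') (Ideal.span {f})) (algebraMap R R') Ideal.le_comap_map))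
    (p : PrimeSpectrum R) :
    (∃ q : PrimeSpectrum R', PrimeSpectrum.comap (algebraMap R R') q = p) ∨
      ∃ q : PrimeSpectrum (Localization.Away f), PrimeSpectrum.comap (algebraMap R (Localization.Away f)) q = p := by
  by_cases hf : f ∈ p.asIdeal
  · left
    let e := RingEquiv.ofBijective _ hq
    have hle : Ideal.span {f} ≤ p.asIdeal := by rwa [Ideal.span_singleton_le_iff_mem]
    have hker : ∀ a : R, a ∈ Ideal.span {f} → (Ideal.Quotient.mk p.asIdeal) a = 0 := fun a ha =>
      Ideal.Quotient.eq_zero_iff_mem.2 (hle ha)
    let ψ : R' →+* R ⧸ p.asIdeal := ((Ideal.Quotient.lift (Ideal.span {f}) (Ideal.Quotient.mk p.asIdeal) hker).comp e.symm.toRingHom).comp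
      (Ideal.Quotient.mk _)
    haveI : (RingHom.ker ψ).IsPrime := RingHom.ker_isPrime ψ
    refine ⟨⟨RingHom.ker ψ, inferInstance⟩, ?_⟩
    ext r
    show ψ (algebraMap R R' r) = 0 ↔ r ∈ p.asIdeal
    have h1 : e.symm (Ideal.Quotient.mk (Ideal.map (algebraMap R R') (Ideal.span {f})) (algebraMap R R' r)) = Ideal.Quotient.mk (Ideal.span {f}) r := by
      rw [RingEquiv.symm_apply_eq]
      rfl
    have h2 : ψ (algebraMap R R' r) = Ideal.Quotient.mk p.asIdeal r := by
      show Ideal.Quotient.lift (Ideal.span {f}) (Ideal.Quotient.mk p.asIdeal) hker (e.symm _) = _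
      rw [h1]
      rfl
    rw [h2, Ideal.Quotient.eq_zero_iff_mem]
  · right
    have := PrimeSpectrum.localization_away_comap_range (Localization.Away f) f
    have hp : p ∈ Set.range (PrimeSpectrum.comap (algebraMap R (Localization.Away f))) := by
      rw [this]; exact hf
    exact hp


end Groth.Agent.S7065
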