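import Groth.Statements.S7085
import Mathlib

set_option autoImplicit false
universe u
open LocCoh

namespace Groth.Agent.S7085

theorem tors_pow {R : Type u} [CommRing R] (I : Ideal R) (M : Type u) [AddCommGroup M] [Module R M]
    (h : ∀ m : M, (∀ a ∈ I, a • m = 0) → m = 0) (n : ℕ) : ∀ m : M, (∀ a ∈ I ^ n, a • m = 0) → m = 0 := by
  induction n with
  | zero => intro m hm; simpa using hm 1 (by simp)
  | succ n ih =>
    intro m hm
    apply ih
    intro a ha
    apply h
    intro b hb
    rw [smul_smul]
    exact hm _ (by rw [pow_succ']; exact Ideal.mul_mem_mul hb ha)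

theorem tors_iff {R : Type u} [CommRing R] (I : Ideal R) (M : Type u) [AddCommGroup M] [Module R M] :
    LocCoh.torsionBy I M = ⊥ ↔ ∀ m : M, (∀ a ∈ I, a • m = 0) → m = 0 := by
  constructor
  · intro h m hm
    have : m ∈ LocCoh.torsionBy I M := (Submodule.mem_torsionBySet_iff _ _).2 fun a => hm a a.2
    rw [h] at this
    exact this
  · intro h
    rw [eq_bot_iff]
    intro m hm
    exact h m fun a ha => (Submodule.mem_torsionBySet_iff _ _).1 hm ⟨a, ha⟩


/-- Let R be a commutative ring, I an ideal generated by finitely many elements f_1, …, f_t, and M an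
R-module. Then: M has no nonzero element killed by I if and only if it has no nonzero element killed
by I^n for every n ≥ 1; and M has no nonzero element killed by I if and only if an element of M
vanishing in every localization M_{f_i} is zero. -/
theorem result {R : Type u} [CommRing R] {t : ℕ} (f : Fin t → R)
    (I : Ideal R) (hI : Ideal.span (Set.range f) = I) (M : Type u) [AddCommGroup M] [Module R M] :
    (LocCoh.torsionBy I M = ⊥ ↔ ∀ n : ℕ, 1 ≤ n → LocCoh.torsionBy (I ^ n) M = ⊥) ∧
    (LocCoh.torsionBy I M = ⊥ ↔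
      ∀ m : M, (∀ i : Fin t, LocalizedModule.mkLinearMap (Submonoid.powers (f i)) M m = 0) → m = 0) := by
  refine ⟨⟨fun h n _ => (tors_iff _ M).2 (tors_pow I M ((tors_iff I M).1 h) n), fun h => by simpa using h 1 le_rfl⟩, ?_⟩
  constructor
  · intro h m hm
    have hfg : I.FG := by rw [← hI]; exact ⟨(Set.finite_range f).toFinset, by simp⟩
    have h1 : I ≤ (Submodule.span R {m}).annihilator.radical := by
      rw [← hI, Ideal.span_le]
      rintro _ ⟨i, rfl⟩
      obtain ⟨⟨_, k, rfl⟩, hc⟩ := (IsLocalizedModule.eq_zero_iff (Submonoid.powers (f i)) _).1 (hm i)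
      exact ⟨k, (Submodule.mem_annihilator_span_singleton _ _).2 hc⟩
    obtain ⟨n, hn⟩ := Ideal.exists_pow_le_of_le_radical_of_fg h1 hfg
    exact tors_pow I M ((tors_iff I M).1 h) n m fun a ha => (Submodule.mem_annihilator_span_singleton _ _).1 (hn ha)
  · intro h
    rw [tors_iff]
    intro m hm
    apply h
    intro i
    rw [IsLocalizedModule.eq_zero_iff (Submonoid.powers (f i))]
    exact ⟨⟨f i, Submonoid.mem_powers _⟩, hm _ (by rw [← hI]; exact Ideal.subset_span ⟨i, rfl⟩)⟩

end Groth.Agent.S7085
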