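import Groth.Statements.S7086
import Mathlib

set_option autoImplicit false
universe u
open LocCoh

namespace Groth.Agent.S7086
open Topology

/-- Let R be a commutative ring, f_1, …, f_n elements of R and N an R-module. The group of tuples (x_1,
…, x_n) in N^n with f_i x_j = f_j x_i for all i, j, taken modulo the tuples of the form (f_1 y, …,
f_n y) — a Koszul cohomology group of N in degree one — is annihilated by the ideal (f_1, …, f_n):
for every such tuple x and every a in that ideal, a • x is of the form (f_1 y, …, f_n y). -/
theorem result {R : Type u} [CommRing R] {n : ℕ} (f : Fin n → R)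
    (N : Type u) [AddCommGroup N] [Module R N] (x : Fin n → N) (hx : ∀ i j : Fin n, f i • x j = f j • x i)
    (a : R) (ha : a ∈ Ideal.span (Set.range f)) :
    ∃ y : N, ∀ j : Fin n, a • x j = f j • y := by
  rw [Ideal.mem_span_range_iff_exists_fun] at ha
  obtain ⟨c, rfl⟩ := ha
  refine ⟨∑ i, c i • x i, fun j => ?_⟩
  rw [Finset.sum_smul, Finset.smul_sum]
  apply Finset.sum_congr rfl
  intro i _
  rw [mul_smul, hx i j, smul_comm]


end Groth.Agent.S7086
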