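import Groth.Statements.S7087
import Mathlib

set_option autoImplicit false
universe u
open LocCoh

namespace Groth.Agent.S7087
open Topology

/-- Let R be a commutative ring and f_1, …, f_n elements generating an ideal I. Let M be the module with
generators e_1, …, e_n and relations f_i e_j = f_j e_i. Then e_i ↦ f_i defines a surjection M → I
whose kernel is annihilated by I. Elementwise: if a tuple (a_1, …, a_n) in R^n satisfies Σ a_i f_i =
0, then for every b in I the tuple b • a lies in the submodule of R^n spanned by the vectors f_i e_j
− f_j e_i. -/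
theorem result {R : Type u} [CommRing R] {n : ℕ} (f : Fin n → R)
    (a : Fin n → R) (ha : ∑ i, a i * f i = 0) (b : R) (hb : b ∈ Ideal.span (Set.range f)) :
    b • a ∈ Submodule.span R {v : Fin n → R | ∃ i j : Fin n, v = f i • Pi.single j (1 : R) - f j • Pi.single i (1 : R)} := by
  rw [Ideal.mem_span_range_iff_exists_fun] at hb
  obtain ⟨c, rfl⟩ := hb
  rw [Finset.sum_smul]
  apply Submodule.sum_mem
  intro k _
  rw [mul_smul]
  apply Submodule.smul_mem
  have : f k • a = ∑ i, a i • (f k • Pi.single i (1 : R) - f i • Pi.single k (1 : R)) := by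
    have h1 : ∑ i, a i • (f k • (Pi.single i (1 : R) : Fin n → R)) = f k • a := by
      ext j
      simp [Finset.sum_apply, Pi.single_apply, mul_comm]
    have h2 : ∑ i, a i • (f i • (Pi.single k (1 : R) : Fin n → R)) = 0 := by
      simp_rw [← mul_smul]
      rw [← Finset.sum_smul, ha, zero_smul]
    simp_rw [smul_sub]
    rw [Finset.sum_sub_distrib, h1, h2, sub_zero]
  rw [this]
  apply Submodule.sum_mem
  intro i _
  apply Submodule.smul_mem
  exact Submodule.subset_span ⟨k, i, rfl⟩


end Groth.Agent.S7087
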