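import Groth.Statements.S7107
import Mathlib

set_option autoImplicit false
universe u
open CAlg

namespace Groth.Agent.S7107


noncomputable def finsuppProdEquiv' (R : Type u) [CommRing R] (P Q : Type u) [AddCommGroup P] [Module R P]
    [AddCommGroup Q] [Module R Q] (κ : Type) : (κ →₀ (P × Q)) ≃ₗ[R] (κ →₀ P) × (κ →₀ Q) :=
  LinearEquiv.ofLinear
    ((Finsupp.mapRange.linearMap (LinearMap.fst R P Q)).prod (Finsupp.mapRange.linearMap (LinearMap.snd R P Q)))
    (((Finsupp.mapRange.linearMap (LinearMap.inl R P Q)).coprod (Finsupp.mapRange.linearMap (LinearMap.inr R P Q))))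
    (by ext <;> simp)
    (by ext <;> simp)


theorem swindle (R : Type u) [CommRing R] (P Q : Type u) [AddCommGroup P] [Module R P]
    [AddCommGroup Q] [Module R Q] (ι : Type u) (e : (P × Q) ≃ₗ[R] (ι →₀ R)) :
    Nonempty ((P × (ℕ × ι →₀ R)) ≃ₗ[R] (ℕ × ι →₀ R)) := by
  have e1 : (ℕ × ι →₀ R) ≃ₗ[R] (ℕ →₀ P) × (ℕ →₀ Q) :=
    (Finsupp.curryLinearEquiv (M := R) R).trans ((Finsupp.mapRange.linearEquiv e.symm).trans (finsuppProdEquiv' R P Q ℕ))
  have e2 : (P × (ℕ →₀ P)) ≃ₗ[R] (ℕ →₀ P) := by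
    refine ((LinearEquiv.prodCongr (Finsupp.uniqueLinearEquiv R P (Unit.unit)).symm (LinearEquiv.refl R _)).trans
      (Finsupp.sumFinsuppLEquivProdFinsupp R).symm).trans (Finsupp.domLCongr ?_)
    exact (Equiv.sumComm _ _).trans (Equiv.natSumPUnitEquivNat)
  exact ⟨((LinearEquiv.prodCongr (LinearEquiv.refl R P) e1).trans ((LinearEquiv.prodAssoc R P (ℕ →₀ P) (ℕ →₀ Q)).symm.trans
    (LinearEquiv.prodCongr e2 (LinearEquiv.refl R _)))).trans e1.symm⟩



/-- Let R be a ring and P, Q modules such that P ⊕ Q is isomorphic to a free module F on an infinite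
basis. Then P ⊕ F is isomorphic to F. -/
theorem result (R : Type u) [CommRing R] (P Q : Type u) [AddCommGroup P] [Module R P]
    [AddCommGroup Q] [Module R Q] (ι : Type u) [Infinite ι] (e : (P × Q) ≃ₗ[R] (ι →₀ R)) :
    Nonempty ((P × (ι →₀ R)) ≃ₗ[R] (ι →₀ R)) := by
  obtain ⟨s⟩ := swindle R P Q ι e
  have hc : Cardinal.mk (ℕ × ι) = Cardinal.mk ι := by
    rw [Cardinal.mk_prod, Cardinal.lift_id', Cardinal.mk_nat, Cardinal.lift_aleph0, Cardinal.aleph0_mul_eq]
    exact Cardinal.aleph0_le_mk ι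
  obtain ⟨f⟩ := Cardinal.eq.1 hc
  let g : (ℕ × ι →₀ R) ≃ₗ[R] (ι →₀ R) := Finsupp.domLCongr f
  exact ⟨((LinearEquiv.prodCongr (LinearEquiv.refl R P) g.symm).trans s).trans g⟩


end Groth.Agent.S7107
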