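import Groth.Statements.S7108
import Mathlib

set_option autoImplicit false
universe u
open CAlg

namespace Groth.Agent.S7108


noncomputable def finsuppProdEquiv' (R : Type u) [CommRing R] (P Q : Type u) [AddCommGroup P] [Module R P]
    [AddCommGroup Q] [Module R Q] (κ : Type) : (κ →₀ (P × Q)) ≃ₗ[R] (κ →₀ P) × (κ →₀ Q) :=
  LinearEquiv.ofLinear
    ((Finsupp.mapRange.linearMap (LinearMap.fst R P Q)).prod (Finsupp.mapRange.linearMap (LinearMap.snd R P Q)))
    (((Finsupp.mapRange.linearMap (LinearMap.inl R P Q)).coprod (Finsupp.mapRange.linearMap (LinearMap.inr R P Q))))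
    (by ext <;> simp)
    (by ext <;> simp)


theorem swindle (R : Type u) [CommRing R] (P Q : Type u) [AddCommGroup P] [Module R P]
    [AddCommGroup Q] [Module R Q] (ι : Type u) (e : (P × Q) ≃ₗ[R] (ι →₀ R)) :
    Nonempty ((P × (ℕ × ι →₀ R)) ≃ₗ[R] (ℕ × ι →₀ R)) := by
  have e1 : (ℕ × ι →₀ R) ≃ₗ[R] (ℕ →₀ P) × (ℕ →₀ Q) :=
    (Finsupp.curryLinearEquiv (M := R) R).trans ((Finsupp.mapRange.linearEquiv e.symm).trans (finsuppProdEquiv' R P Q ℕ))
  have e2 : (P × (ℕ →₀ P)) ≃ₗ[R] (ℕ →₀ P) := by
    refine ((LinearEquiv.prodCongr (Finsupp.uniqueLinearEquiv R P (Unit.unit)).symm (LinearEquiv.refl R _)).trans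
      (Finsupp.sumFinsuppLEquivProdFinsupp R).symm).trans (Finsupp.domLCongr ?_)
    exact (Equiv.sumComm _ _).trans (Equiv.natSumPUnitEquivNat)
  exact ⟨((LinearEquiv.prodCongr (LinearEquiv.refl R P) e1).trans ((LinearEquiv.prodAssoc R P (ℕ →₀ P) (ℕ →₀ Q)).symm.trans
    (LinearEquiv.prodCongr e2 (LinearEquiv.refl R _)))).trans e1.symm⟩



/-- Every projective module P over a ring R becomes free after adding a suitable free module: P ⊕ F is
free for some free module F (here F is the free module on some index type). -/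
theorem result (R : Type u) [CommRing R] (P : Type u) [AddCommGroup P]
    [Module R P] [Module.Projective R P] : ∃ ι : Type u, Module.Free R (P × (ι →₀ R)) := by
  obtain ⟨s, hs⟩ := (Module.projective_def' (R := R) (P := P)).1 inferInstance
  have hs' : ∀ x, Finsupp.linearCombination R id (s x) = x := fun x => LinearMap.congr_fun hs x
  let K := LinearMap.ker (Finsupp.linearCombination R (id : P → P))
  let e : (P × K) ≃ₗ[R] (P →₀ R) := LinearEquiv.ofBijective (s.coprod K.subtype) (by
    constructor
    · rw [injective_iff_map_eq_zero]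
      rintro ⟨p, k, hk⟩ h
      simp only [LinearMap.coprod_apply, Submodule.subtype_apply] at h
      have h1 := congrArg (Finsupp.linearCombination R (id : P → P)) h
      rw [map_add, hs', LinearMap.mem_ker.1 hk, map_zero, add_zero] at h1
      subst h1
      simp only [map_zero, zero_add] at h
      subst h
      rfl
    · intro y
      refine ⟨(Finsupp.linearCombination R (id : P → P) y, ⟨y - s (Finsupp.linearCombination R (id : P → P) y), ?_⟩), ?_⟩
      · rw [LinearMap.mem_ker, map_sub, hs', sub_self]
      · simp)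
  obtain ⟨f⟩ := swindle R P K P e
  exact ⟨ℕ × P, Module.Free.of_equiv f.symm⟩


end Groth.Agent.S7108
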