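import Groth.Statements.S7127
import Groth.Agent.Lib.Helper11_Vnr

set_option autoImplicit false
universe u
open EtAlg

namespace Groth.Agent.S7127
open Groth.Agent.H11Vnr TensorProduct

/-- Let A be a ring and B → C an A-algebra homomorphism between weakly étale A-algebras. Then C is
weakly étale over B. -/
theorem result (A B C : Type u) [CommRing A] [CommRing B] [CommRing C]
    [Algebra A B] [Algebra A C] [Algebra B C] [IsScalarTower A B C] [Algebra.WeaklyEtale A B]
    [Algebra.WeaklyEtale A C] : Algebra.WeaklyEtale B C := by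
  refine ⟨flat_alg A B C (Algebra.WeaklyEtale.flat_lmul' A B), ?_⟩
  have h1 := Algebra.WeaklyEtale.flat_lmul' A C
  refine surj_flat (Algebra.TensorProduct.mapOfCompatibleSMul B A A C C).toRingHom
    (Algebra.TensorProduct.lmul' B (S := C)).toRingHom ?_ ?_
  · intro x
    induction x with
    | zero => exact ⟨0, map_zero _⟩
    | tmul a b => exact ⟨a ⊗ₜ b, rfl⟩
    | add a b ha hb =>
      obtain ⟨p, hp⟩ := ha
      obtain ⟨q, hq⟩ := hb
      exact ⟨p + q, by rw [map_add, hp, hq]⟩
  · convert h1
    ext <;> simp


end Groth.Agent.S7127
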