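import Groth.Statements.S7128
import Groth.Agent.Lib.Helper11_Vnr

set_option autoImplicit false
universe u
open EtAlg

namespace Groth.Agent.S7128
open Groth.Agent.H11Vnr

/-- A weakly étale algebra over a reduced ring is itself reduced. -/
theorem result (A B : Type u) [CommRing A] [CommRing B] [Algebra A B] [IsReduced A]
    [Algebra.WeaklyEtale A B] : IsReduced B := by
  refine reduced_aux A B (∀ p : PrimeSpectrum A, p.asIdeal.ResidueField) ?_ (vnr_pi _)
  rw [injective_iff_map_eq_zero]
  intro a ha
  have : a ∈ nilradical A := by
    rw [nilradical_eq_sInf, Ideal.mem_sInf]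
    intro q hq
    have hq' : q.IsPrime := hq
    have := congrFun ha ⟨q, hq'⟩
    have h2 : algebraMap A q.ResidueField a = 0 := this
    rwa [Ideal.algebraMap_residueField_eq_zero] at h2
  rw [nilradical_eq_zero] at this
  exact this


end Groth.Agent.S7128
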