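import Groth.Statements.S7129
import Groth.Agent.Lib.Helper11_Vnr

set_option autoImplicit false
universe u
open EtAlg

namespace Groth.Agent.S7129
open Groth.Agent.H11Vnr

/-- Every module over a product of fields ∏ K_i is flat over it (the product is an absolutely flat
ring). -/
theorem result (ι : Type u) (K : ι → Type u) [∀ i, Field (K i)] (M : Type u)
    [AddCommGroup M] [Module (∀ i, K i) M] : Module.Flat (∀ i, K i) M := by
  apply vnr_flat
  intro a
  refine ⟨fun i => (a i)⁻¹, ?_⟩
  ext i
  by_cases h : a i = 0
  · simp [h]
  · simp [h]


end Groth.Agent.S7129
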