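import Groth.Statements.S7130
import Groth.Agent.Lib.Helper11_Vnr

set_option autoImplicit false
universe u
open EtAlg

namespace Groth.Agent.S7130
open Groth.Agent.H11Vnr

/-- (2) ⇔ (3) ⇔ (4): for a ring A the following are equivalent: every A-module is flat; A is reduced of
Krull dimension zero, in the sense that every prime ideal of A is maximal; the local ring A_p is a
field for every prime p. (The further equivalent condition 'A has weak dimension at most zero'
coincides with the first condition by definition and is not listed separately.) -/
theorem result (A : Type u) [CommRing A] :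
    List.TFAE [∀ (M : Type u) [AddCommGroup M] [Module A M], Module.Flat A M,
      IsReduced A ∧ ∀ p : Ideal A, p.IsPrime → p.IsMaximal,
      ∀ (p : Ideal A) [p.IsPrime], IsField (Localization.AtPrime p)] := by
  tfae_have 1 → 2 := by
    intro h
    have hv := vnr_of_flat A h
    refine ⟨?_, ?_⟩
    · constructor
      intro a ha
      obtain ⟨x, hx⟩ := hv a
      obtain ⟨n, hn⟩ := ha
      have hpow : ∀ k : ℕ, a = (a * x) ^ k * a := by
        intro k
        induction k with
        | zero => simp
        | succ k ih =>
          calc a = (a * x) ^ k * a := ih
            _ = (a * x) ^ k * (a * x * a) := by rw [hx]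
            _ = (a * x) ^ (k + 1) * a := by ring
      rw [hpow n, mul_pow, hn]; ring
    · intro p hp
      rw [Ideal.isMaximal_iff]
      refine ⟨(Ideal.ne_top_iff_one p).1 hp.ne_top, ?_⟩
      intro J a hpJ hap haJ
      obtain ⟨x, hx⟩ := hv a
      have : a * (1 - a * x) ∈ p := by
        have h0 : a * (1 - a * x) = 0 := by linear_combination -hx
        rw [h0]; exact p.zero_mem
      rcases hp.mem_or_mem this with h1 | h1
      · exact absurd h1 hap
      · have h2 : (1 : A) = (1 - a * x) + a * x := by ring
        rw [h2]
        exact J.add_mem (hpJ h1) (J.mul_mem_right x haJ)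
  tfae_have 2 → 3 := by
    rintro ⟨hr, hm⟩ p hp
    rw [IsLocalRing.isField_iff_maximalIdeal_eq]
    have hred : IsReduced (Localization.AtPrime p) := inferInstance
    rw [eq_bot_iff]
    intro x hx
    have hn : x ∈ nilradical (Localization.AtPrime p) := by
      rw [nilradical_eq_sInf, Ideal.mem_sInf]
      intro q hq
      have hq' : q.IsPrime := hq
      have hle : Ideal.under A q ≤ p := by
        have : Ideal.under A q ≤ Ideal.under A (IsLocalRing.maximalIdeal (Localization.AtPrime p)) :=
          Ideal.comap_mono (f := algebraMap A (Localization.AtPrime p)) (IsLocalRing.le_maximalIdeal hq'.ne_top)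
        rwa [Localization.AtPrime.under_maximalIdeal] at this
      have heq : Ideal.under A q = p :=
        (hm _ (Ideal.IsPrime.comap _)).eq_of_le hp.ne_top hle
      have h3 := IsLocalization.map_comap p.primeCompl (Localization.AtPrime p) q
      rw [heq] at h3
      have h4 := IsLocalization.map_comap p.primeCompl (Localization.AtPrime p) (IsLocalRing.maximalIdeal (Localization.AtPrime p))
      rw [Localization.AtPrime.under_maximalIdeal] at h4
      rw [← h3, h4]; exact hx
    rw [nilradical_eq_zero] at hn
    exact hn
  tfae_have 3 → 1 := by
    intro h M _ _
    apply Module.flat_of_localized_maximal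
    intro P hP
    letI := (h P).toField
    haveI : Module.Flat (Localization.AtPrime P) (LocalizedModule P.primeCompl M) := inferInstance
    exact Module.Flat.trans A (Localization.AtPrime P) (LocalizedModule P.primeCompl M)
  tfae_finish


end Groth.Agent.S7130
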