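import Groth.Statements.S7144
import Mathlib

set_option autoImplicit false
universe u
open CAlg

namespace Groth.Agent.S7144


/-- (1) ⇔ (2): let R be a nonzero ring. Then for all a, b in R one of a, b divides the other if and only
if R is local and every finitely generated ideal of R is principal. (The further equivalence with
the total ordering of the set of ideals by inclusion is standard and not restated here.) -/
theorem result (R : Type u) [CommRing R] [Nontrivial R] :
    PreValuationRing R ↔ IsLocalRing R ∧ IsBezout R := by
  constructor
  · intro h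
    refine ⟨?_, ?_⟩
    · apply IsLocalRing.of_isUnit_or_isUnit_one_sub_self
      intro a
      obtain ⟨c, hc | hc⟩ := PreValuationRing.cond a (1 - a)
      · left
        have : a * (1 + c) = 1 := by rw [mul_add, hc]; ring
        exact IsUnit.of_mul_eq_one _ this
      · right
        have : (1 - a) * (1 + c) = 1 := by rw [mul_add, hc]; ring
        exact IsUnit.of_mul_eq_one _ this
    · rw [IsBezout.iff_span_pair_isPrincipal]
      intro x y
      rcases (PreValuationRing.iff_dvd_total.1 h).total x y with hxy | hxy
      · refine ⟨x, ?_⟩
        rw [Ideal.span_pair_comm]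
        show Ideal.span {y, x} = Ideal.span {x}
        rw [Ideal.span_insert, sup_eq_right, Ideal.span_singleton_le_span_singleton]
        exact hxy
      · refine ⟨y, ?_⟩
        show Ideal.span {x, y} = Ideal.span {y}
        rw [Ideal.span_insert, sup_eq_right, Ideal.span_singleton_le_span_singleton]
        exact hxy
  · rintro ⟨h1, h2⟩
    rw [PreValuationRing.iff_dvd_total]
    refine ⟨fun a b => ?_⟩
    obtain ⟨g, hg⟩ := (IsBezout.iff_span_pair_isPrincipal.1 h2 a b)
    change Ideal.span {a, b} = Ideal.span {g} at hg
    have ha : a ∈ Ideal.span {g} := by rw [← hg]; exact Ideal.subset_span (by simp)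
    have hb : b ∈ Ideal.span {g} := by rw [← hg]; exact Ideal.subset_span (by simp)
    have hgg : g ∈ Ideal.span {a, b} := by rw [hg]; exact Ideal.mem_span_singleton_self g
    rw [Ideal.mem_span_singleton] at ha hb
    obtain ⟨a', rfl⟩ := ha
    obtain ⟨b', rfl⟩ := hb
    rw [Ideal.mem_span_pair] at hgg
    obtain ⟨p, q, hpq⟩ := hgg
    rcases IsLocalRing.isUnit_or_isUnit_one_sub_self (p * a' + q * b') with hu | hu
    · rcases IsLocalRing.isUnit_or_isUnit_of_isUnit_add hu with hu | hu
      · left
        have ha' : IsUnit a' := isUnit_of_mul_isUnit_right hu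
        obtain ⟨v, rfl⟩ := ha'
        exact ⟨(↑v⁻¹ : R) * b', by rw [mul_assoc, ← mul_assoc (v : R), Units.mul_inv, one_mul]⟩
      · right
        have ha' : IsUnit b' := isUnit_of_mul_isUnit_right hu
        obtain ⟨v, rfl⟩ := ha'
        exact ⟨(↑v⁻¹ : R) * a', by rw [mul_assoc, ← mul_assoc (v : R), Units.mul_inv, one_mul]⟩
    · have : g * (1 - (p * a' + q * b')) = 0 := by rw [mul_sub, mul_add]; linear_combination -hpq
      have hg0 : g = 0 := (hu.mul_left_eq_zero).1 this
      subst hg0
      left; simp


end Groth.Agent.S7144
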