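import Groth.Statements.S7178
import Mathlib

set_option autoImplicit false
universe u
open FlatMor

namespace Groth.Agent.S7178
open CategoryTheory AlgebraicGeometry Limits TensorProduct
theorem we_Spec (R S : Type u) [CommRing R] [CommRing S] [Algebra R S] :
    WeaklyEtale (Spec.map (CommRingCat.ofHom (algebraMap R S))) ↔ Algebra.WeaklyEtale R S := by
  rw [weaklyEtale_iff, Algebra.weaklyEtale_iff, diagonal_SpecMap, MorphismProperty.cancel_right_of_respectsIso @Flat,
    HasRingHomProperty.Spec_iff (P := @Flat), HasRingHomProperty.Spec_iff (P := @Flat)]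
  rw [CommRingCat.hom_ofHom, RingHom.flat_algebraMap_iff]
  rfl

instance weHRP : HasRingHomProperty @WeaklyEtale (fun f ↦ WeaklyEtale (Spec.map (CommRingCat.ofHom f))) :=
  HasRingHomProperty.of_isZariskiLocalAtSource_of_isZariskiLocalAtTarget @WeaklyEtale


open AlgebraicGeometry CategoryTheory Limits in
/-- (1) ⇔ (2): f : X → S is weakly étale if and only if, whenever U ⊆ X and V ⊆ S are affine opens and f
maps U into V, the ring O_X(U) is a weakly étale O_S(V)-algebra (flat, with flat multiplication map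
O_X(U) ⊗ O_X(U) → O_X(U) over O_S(V)). -/
theorem result {X S : Scheme.{u}} (f : X ⟶ S) :
    WeaklyEtale f ↔ ∀ (U : X.Opens) (V : S.Opens) (_ : IsAffineOpen U) (_ : IsAffineOpen V) (hUV : U ≤ f ⁻¹ᵁ V),
      (letI := (f.appLE V U hUV).hom.toAlgebra
       Algebra.WeaklyEtale Γ(S, V) Γ(X, U)) := by
  rw [HasRingHomProperty.iff_appLE (P := @WeaklyEtale)]
  constructor
  · intro h U V hU hV hUV
    have hh := h ⟨V, hV⟩ ⟨U, hU⟩ hUV
    letI := (f.appLE V U hUV).hom.toAlgebra
    exact (we_Spec _ _).1 hh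
  · intro h V U hUV
    have hh := h U.1 V.1 U.2 V.2 hUV
    letI := (f.appLE V.1 U.1 hUV).hom.toAlgebra
    exact (we_Spec _ _).2 hh

end Groth.Agent.S7178
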