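import Groth.Statements.S7179
import Mathlib
import Groth.Agent.S7178
import Groth.Agent.S7128

set_option autoImplicit false
universe u
open FlatMor

namespace Groth.Agent.S7179
open CategoryTheory AlgebraicGeometry Limits TensorProduct

open AlgebraicGeometry CategoryTheory Limits in
/-- The source of a weakly étale morphism with reduced target is reduced. -/
theorem result {X Y : Scheme.{u}} (f : X ⟶ Y) [WeaklyEtale f] [IsReduced Y] : IsReduced X := by
  have key : ∀ x : X, ∃ U : X.Opens, x ∈ U ∧ _root_.IsReduced Γ(X, U) ∧ IsAffineOpen U := by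
    intro x
    obtain ⟨V, hV, hxV, -⟩ := AlgebraicGeometry.exists_isAffineOpen_mem_and_subset (X := Y) (x := f x) (U := ⊤) trivial
    obtain ⟨U, hU, hxU, hUV⟩ := AlgebraicGeometry.exists_isAffineOpen_mem_and_subset (X := X) (x := x) (U := f ⁻¹ᵁ V) hxV
    refine ⟨U, hxU, ?_, hU⟩
    letI := (f.appLE V U hUV).hom.toAlgebra
    haveI : Algebra.WeaklyEtale Γ(Y, V) Γ(X, U) := (Groth.Agent.S7178.result f).1 inferInstance U V hU hV hUV
    exact Groth.Agent.S7128.result Γ(Y, V) Γ(X, U)
  refine @isReduced_of_isReduced_stalk X ?_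
  intro x
  obtain ⟨U, hxU, hr, hU⟩ := key x
  have hx2 : x ∈ Set.range hU.fromSpec := by rw [hU.range_fromSpec]; exact hxU
  obtain ⟨y, rfl⟩ := hx2
  haveI : AlgebraicGeometry.IsReduced (Spec Γ(X, U)) := inferInstance
  haveI : _root_.IsReduced ((Spec Γ(X, U)).presheaf.stalk y) := inferInstance
  have hinj : Function.Injective (hU.fromSpec.stalkMap y).hom :=
    (ConcreteCategory.bijective_of_isIso (hU.fromSpec.stalkMap y)).1
  exact isReduced_of_injective (hU.fromSpec.stalkMap y).hom hinj

end Groth.Agent.S7179
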