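import Groth.Statements.S7318
import Groth.Agent.Lib.Helper11_NumType2
import Mathlib.Combinatorics.SimpleGraph.Acyclic
import Mathlib.Combinatorics.SimpleGraph.Connectivity.Connected

set_option autoImplicit false
open Finset
open Models Models.NumericalType

namespace Groth.Agent.S7318
open Groth.Agent.H11NT

/-- For a numerical type T on n indices with e pairs i < j such that a_ij > 0, the topological genus 1 -
n + e is ≥ 0. -/
theorem result {n : ℕ} (T : Models.NumericalType n) : 0 ≤ T.topGenus := by
  classical
  let G : SimpleGraph (Fin n) := { Adj := fun i j => i ≠ j ∧ 0 < T.a i j, symm := ⟨fun i j h => ⟨h.1.symm, by rw [a_symm T]; exact h.2⟩⟩, loopless := ⟨fun i h => h.1 rfl⟩ }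
  have hGc : G.Connected := by
    haveI : Nonempty (Fin n) := ⟨⟨0, T.pos⟩⟩
    refine SimpleGraph.Connected.mk ?_
    intro a b
    by_contra hab
    obtain ⟨i, hi, j, hj, hij⟩ := T.connected (univ.filter fun c => G.Reachable a c) ⟨a, by simp⟩ (by
      intro h
      have : b ∈ (univ.filter fun c => G.Reachable a c) := by rw [h]; exact mem_univ _
      simp at this
      exact hab this)
    simp only [mem_filter, mem_univ, true_and] at hi hj
    have hne : i ≠ j := by rintro rfl; exact hj hi
    exact hj (hi.trans (SimpleGraph.Adj.reachable (show G.Adj i j from ⟨hne, pos_of_ne T hne hij⟩)))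
  have h1 := hGc.card_vert_le_card_edgeSet_add_one
  have h2 : Nat.card G.edgeSet ≤ T.edgeCount := by
    rw [Nat.card_eq_fintype_card, ← SimpleGraph.edgeFinset_card]
    unfold Models.NumericalType.edgeCount
    apply Finset.card_le_card_of_surjOn (fun p : Fin n × Fin n => s(p.1, p.2))
    intro e he
    simp only [SimpleGraph.coe_edgeFinset] at he
    induction e using Sym2.ind with
    | _ x y =>
      rw [SimpleGraph.mem_edgeSet] at he
      rcases lt_or_gt_of_ne he.1 with h | h
      · exact ⟨(x, y), by simpa using ⟨h, he.2⟩, rfl⟩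
      · exact ⟨(y, x), by simpa using ⟨h, by rw [a_symm T]; exact he.2⟩, Sym2.eq_swap⟩
  rw [Nat.card_eq_fintype_card, Fintype.card_fin] at h1
  unfold Models.NumericalType.topGenus
  omega


end Groth.Agent.S7318
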