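import Groth.Statements.S7341
import Groth.Agent.Lib.Helper11_NumType

set_option autoImplicit false
open Finset
open Models Models.NumericalType

namespace Groth.Agent.S7341
open Groth.Agent.H11NT

theorem aux {n : ℕ} (T : Models.NumericalType n) (hn : 3 < n) (v : Fin 3 ↪ Fin n) (hv : ∀ j, T.IsMinusTwo (v j))
    (h01 : T.a (v 0) (v 1) ≠ 0) (h12 : T.a (v 1) (v 2) ≠ 0) :
    T.a (v 0) (v 2) = 0 ∧ ∃ (i' k' : Fin n) (w : ℤ), ((i' = v 0 ∧ k' = v 2) ∨ (i' = v 2 ∧ k' = v 0)) ∧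
      ((T.w i' = w ∧ T.w (v 1) = w ∧ T.w k' = w ∧ T.a i' (v 1) = w ∧ T.a (v 1) k' = w ∧
          T.m (v 1) ≤ 2 * T.m i' ∧ T.m i' + T.m k' ≤ 2 * T.m (v 1) ∧ T.m (v 1) ≤ 2 * T.m k') ∨
        (T.w i' = w ∧ T.w (v 1) = w ∧ T.w k' = 2 * w ∧ T.a i' (v 1) = w ∧ T.a (v 1) k' = 2 * w ∧
          T.m (v 1) ≤ 2 * T.m i' ∧ T.m i' + 2 * T.m k' ≤ 2 * T.m (v 1) ∧ T.m (v 1) ≤ 2 * T.m k') ∨
        (T.w i' = 2 * w ∧ T.w (v 1) = 2 * w ∧ T.w k' = w ∧ T.a i' (v 1) = 2 * w ∧ T.a (v 1) k' = 2 * w ∧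
          T.m (v 1) ≤ 2 * T.m i' ∧ T.m i' + T.m k' ≤ 2 * T.m (v 1) ∧ T.m (v 1) ≤ T.m k')) := by
  have n01 := edge T (v.injective.ne (by decide : (0 : Fin 3) ≠ 1)) h01
  have n12 := edge T (v.injective.ne (by decide : (1 : Fin 3) ≠ 2)) h12
  have z02 : T.a (v 0) (v 2) = 0 := by
    by_contra h
    exact no_config_list T (by omega) v hv [(0, 2, 1, 1), (0, 1, 1, 1), (1, 2, 1, 1)] (List.forall_mem_cons.2 ⟨(edge T (v.injective.ne (by decide : (0 : Fin 3) ≠ 2)) h), (List.forall_mem_cons.2 ⟨n01, (List.forall_mem_cons.2 ⟨n12, (List.forall_mem_nil _)⟩)⟩)⟩) ![1, 1, 1] (by decide) ⟨0, by decide⟩ (by decide)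
  refine ⟨z02, ?_⟩
  have s10 : T.a (v 1) (v 0) = T.a (v 0) (v 1) := a_symm T _ _
  have t0 := edge_tri T (v.injective.ne (by decide : (0 : Fin 3) ≠ 1)) h01 (fun h => no_config_list T (by omega) v hv [(0, 1, 3, 1), (1, 2, 1, 1)] (List.forall_mem_cons.2 ⟨h, (List.forall_mem_cons.2 ⟨n12, (List.forall_mem_nil _)⟩)⟩) ![3, 2, 1] (by decide) ⟨0, by decide⟩ (by decide)) (fun h => no_config_list T (by omega) v hv [(0, 1, 1, 3), (1, 2, 1, 1)] (List.forall_mem_cons.2 ⟨h, (List.forall_mem_cons.2 ⟨n12, (List.forall_mem_nil _)⟩)⟩) ![1, 2, 1] (by decide) ⟨0, by decide⟩ (by decide)) (fun h => no_config_list T (by omega) v hv [(0, 1, 2, 2), (1, 2, 1, 1)] (List.forall_mem_cons.2 ⟨h, (List.forall_mem_cons.2 ⟨n12, (List.forall_mem_nil _)⟩)⟩) ![1, 1, 0] (by decide) ⟨0, by decide⟩ (by decide))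
  have s21 : T.a (v 2) (v 1) = T.a (v 1) (v 2) := a_symm T _ _
  have t1 := edge_tri T (v.injective.ne (by decide : (1 : Fin 3) ≠ 2)) h12 (fun h => no_config_list T (by omega) v hv [(0, 1, 1, 1), (1, 2, 3, 1)] (List.forall_mem_cons.2 ⟨n01, (List.forall_mem_cons.2 ⟨h, (List.forall_mem_nil _)⟩)⟩) ![1, 2, 1] (by decide) ⟨0, by decide⟩ (by decide)) (fun h => no_config_list T (by omega) v hv [(0, 1, 1, 1), (1, 2, 1, 3)] (List.forall_mem_cons.2 ⟨n01, (List.forall_mem_cons.2 ⟨h, (List.forall_mem_nil _)⟩)⟩) ![1, 2, 3] (by decide) ⟨0, by decide⟩ (by decide)) (fun h => no_config_list T (by omega) v hv [(0, 1, 1, 1), (1, 2, 2, 2)] (List.forall_mem_cons.2 ⟨n01, (List.forall_mem_cons.2 ⟨h, (List.forall_mem_nil _)⟩)⟩) ![0, 1, 1] (by decide) ⟨1, by decide⟩ (by decide))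
  rcases t0 with ⟨a0, b0⟩ | ⟨a0, b0⟩ | ⟨a0, b0⟩
  · skip
    rcases t1 with ⟨a1, b1⟩ | ⟨a1, b1⟩ | ⟨a1, b1⟩
    · skip
      have r0 := row1 T (v.injective.ne (by decide : (0 : Fin 3) ≠ 1)) (hv 0) 1 (by omega)
      have r1 := row2 T (v.injective.ne (by decide : (1 : Fin 3) ≠ 0)) (v.injective.ne (by decide : (1 : Fin 3) ≠ 2)) (v.injective.ne (by decide : (0 : Fin 3) ≠ 2)) (hv 1) 1 1 (by omega) (by omega)
      have r2 := row1 T (v.injective.ne (by decide : (2 : Fin 3) ≠ 1)) (hv 2) 1 (by omega)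
      refine ⟨v 0, v 2, T.w (v 0), Or.inl ⟨rfl, rfl⟩, ?_⟩
      left
      refine ⟨?_, ?_, ?_, ?_, ?_, ?_, ?_, ?_⟩ <;> first | trivial | omega
    · skip
      have r0 := row1 T (v.injective.ne (by decide : (0 : Fin 3) ≠ 1)) (hv 0) 1 (by omega)
      have r1 := row2 T (v.injective.ne (by decide : (1 : Fin 3) ≠ 0)) (v.injective.ne (by decide : (1 : Fin 3) ≠ 2)) (v.injective.ne (by decide : (0 : Fin 3) ≠ 2)) (hv 1) 1 2 (by omega) (by omega)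
      have r2 := row1 T (v.injective.ne (by decide : (2 : Fin 3) ≠ 1)) (hv 2) 1 (by omega)
      refine ⟨v 0, v 2, T.w (v 0), Or.inl ⟨rfl, rfl⟩, ?_⟩
      right
      left
      refine ⟨?_, ?_, ?_, ?_, ?_, ?_, ?_, ?_⟩ <;> first | trivial | omega
    · skip
      have r0 := row1 T (v.injective.ne (by decide : (0 : Fin 3) ≠ 1)) (hv 0) 1 (by omega)
      have r1 := row2 T (v.injective.ne (by decide : (1 : Fin 3) ≠ 0)) (v.injective.ne (by decide : (1 : Fin 3) ≠ 2)) (v.injective.ne (by decide : (0 : Fin 3) ≠ 2)) (hv 1) 1 1 (by omega) (by omega)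
      have r2 := row1 T (v.injective.ne (by decide : (2 : Fin 3) ≠ 1)) (hv 2) 2 (by omega)
      refine ⟨v 0, v 2, T.w (v 2), Or.inl ⟨rfl, rfl⟩, ?_⟩
      right
      right
      refine ⟨?_, ?_, ?_, ?_, ?_, ?_, ?_, ?_⟩ <;> first | trivial | omega
  · skip
    rcases t1 with ⟨a1, b1⟩ | ⟨a1, b1⟩ | ⟨a1, b1⟩
    · skip
      have r0 := row1 T (v.injective.ne (by decide : (0 : Fin 3) ≠ 1)) (hv 0) 2 (by omega)
      have r1 := row2 T (v.injective.ne (by decide : (1 : Fin 3) ≠ 0)) (v.injective.ne (by decide : (1 : Fin 3) ≠ 2)) (v.injective.ne (by decide : (0 : Fin 3) ≠ 2)) (hv 1) 1 1 (by omega) (by omega)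
      have r2 := row1 T (v.injective.ne (by decide : (2 : Fin 3) ≠ 1)) (hv 2) 1 (by omega)
      refine ⟨v 2, v 0, T.w (v 0), Or.inr ⟨rfl, rfl⟩, ?_⟩
      right
      right
      refine ⟨?_, ?_, ?_, ?_, ?_, ?_, ?_, ?_⟩ <;> first | trivial | omega
    · skip
      exact (no_config_list T (by omega) v hv [(0, 1, 2, 1), (1, 2, 2, 1)] (List.forall_mem_cons.2 ⟨⟨(by omega : (2 : ℤ) * T.w (v 0) ≤ T.a (v 0) (v 1)), (by omega : (1 : ℤ) * T.w (v 1) ≤ T.a (v 0) (v 1))⟩, (List.forall_mem_cons.2 ⟨⟨(by omega : (2 : ℤ) * T.w (v 1) ≤ T.a (v 1) (v 2)), (by omega : (1 : ℤ) * T.w (v 2) ≤ T.a (v 1) (v 2))⟩, (List.forall_mem_nil _)⟩)⟩) ![2, 2, 1] (by decide) ⟨0, by decide⟩ (by decide)).elim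
    · skip
      exact (no_config_list T (by omega) v hv [(0, 1, 2, 1), (1, 2, 1, 2)] (List.forall_mem_cons.2 ⟨⟨(by omega : (2 : ℤ) * T.w (v 0) ≤ T.a (v 0) (v 1)), (by omega : (1 : ℤ) * T.w (v 1) ≤ T.a (v 0) (v 1))⟩, (List.forall_mem_cons.2 ⟨⟨(by omega : (1 : ℤ) * T.w (v 1) ≤ T.a (v 1) (v 2)), (by omega : (2 : ℤ) * T.w (v 2) ≤ T.a (v 1) (v 2))⟩, (List.forall_mem_nil _)⟩)⟩) ![1, 1, 1] (by decide) ⟨0, by decide⟩ (by decide)).elim
  · skip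
    rcases t1 with ⟨a1, b1⟩ | ⟨a1, b1⟩ | ⟨a1, b1⟩
    · skip
      have r0 := row1 T (v.injective.ne (by decide : (0 : Fin 3) ≠ 1)) (hv 0) 1 (by omega)
      have r1 := row2 T (v.injective.ne (by decide : (1 : Fin 3) ≠ 0)) (v.injective.ne (by decide : (1 : Fin 3) ≠ 2)) (v.injective.ne (by decide : (0 : Fin 3) ≠ 2)) (hv 1) 2 1 (by omega) (by omega)
      have r2 := row1 T (v.injective.ne (by decide : (2 : Fin 3) ≠ 1)) (hv 2) 1 (by omega)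
      refine ⟨v 2, v 0, T.w (v 1), Or.inr ⟨rfl, rfl⟩, ?_⟩
      right
      left
      refine ⟨?_, ?_, ?_, ?_, ?_, ?_, ?_, ?_⟩ <;> first | trivial | omega
    · skip
      exact (no_config_list T (by omega) v hv [(0, 1, 1, 2), (1, 2, 2, 1)] (List.forall_mem_cons.2 ⟨⟨(by omega : (1 : ℤ) * T.w (v 0) ≤ T.a (v 0) (v 1)), (by omega : (2 : ℤ) * T.w (v 1) ≤ T.a (v 0) (v 1))⟩, (List.forall_mem_cons.2 ⟨⟨(by omega : (2 : ℤ) * T.w (v 1) ≤ T.a (v 1) (v 2)), (by omega : (1 : ℤ) * T.w (v 2) ≤ T.a (v 1) (v 2))⟩, (List.forall_mem_nil _)⟩)⟩) ![1, 2, 1] (by decide) ⟨0, by decide⟩ (by decide)).elim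
    · skip
      exact (no_config_list T (by omega) v hv [(0, 1, 1, 2), (1, 2, 1, 2)] (List.forall_mem_cons.2 ⟨⟨(by omega : (1 : ℤ) * T.w (v 0) ≤ T.a (v 0) (v 1)), (by omega : (2 : ℤ) * T.w (v 1) ≤ T.a (v 0) (v 1))⟩, (List.forall_mem_cons.2 ⟨⟨(by omega : (1 : ℤ) * T.w (v 1) ≤ T.a (v 1) (v 2)), (by omega : (2 : ℤ) * T.w (v 2) ≤ T.a (v 1) (v 2))⟩, (List.forall_mem_nil _)⟩)⟩) ![1, 2, 2] (by decide) ⟨0, by decide⟩ (by decide)).elim

/-- Classification of proper subgraphs which are chains of three vertices: let T be a numerical type on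
n > 3 indices and i, j, k distinct (-2)-indices with a_ij > 0 and a_jk > 0. Then a_ik = 0 and, up to
reversing the order of i, j, k, one of the following holds for some integer w: (A3) w_i = w_j = w_k
= w, a_ij = a_jk = w, with 2 m_i ≥ m_j, 2 m_j ≥ m_i + m_k, 2 m_k ≥ m_j; (C3) w_i = w_j = w, w_k =
2w, a_ij = w, a_jk = 2w, with 2 m_i ≥ m_j, 2 m_j ≥ m_i + 2 m_k, 2 m_k ≥ m_j; (B3) w_i = w_j = 2w,
w_k = w, a_ij = a_jk = 2w, with 2 m_i ≥ m_j, 2 m_j ≥ m_i + m_k, m_k ≥ m_j. -/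
theorem result {n : ℕ} (T : Models.NumericalType n) (hn : 3 < n) (i j k : Fin n)
    (hij : i ≠ j) (hjk : j ≠ k) (hik : i ≠ k) (hi : T.IsMinusTwo i) (hj : T.IsMinusTwo j) (hk : T.IsMinusTwo k)
    (h1 : 0 < T.a i j) (h2 : 0 < T.a j k) :
    T.a i k = 0 ∧ ∃ (i' k' : Fin n) (w : ℤ), ((i' = i ∧ k' = k) ∨ (i' = k ∧ k' = i)) ∧
      ((T.w i' = w ∧ T.w j = w ∧ T.w k' = w ∧ T.a i' j = w ∧ T.a j k' = w ∧
          T.m j ≤ 2 * T.m i' ∧ T.m i' + T.m k' ≤ 2 * T.m j ∧ T.m j ≤ 2 * T.m k') ∨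
        (T.w i' = w ∧ T.w j = w ∧ T.w k' = 2 * w ∧ T.a i' j = w ∧ T.a j k' = 2 * w ∧
          T.m j ≤ 2 * T.m i' ∧ T.m i' + 2 * T.m k' ≤ 2 * T.m j ∧ T.m j ≤ 2 * T.m k') ∨
        (T.w i' = 2 * w ∧ T.w j = 2 * w ∧ T.w k' = w ∧ T.a i' j = 2 * w ∧ T.a j k' = 2 * w ∧
          T.m j ≤ 2 * T.m i' ∧ T.m i' + T.m k' ≤ 2 * T.m j ∧ T.m j ≤ T.m k')) := by
  have hinj : Function.Injective (![i, j, k] : Fin 3 → Fin n) := by
    intro a b hab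
    fin_cases a <;> fin_cases b <;> first | rfl | (exfalso; simp at hab; first | exact hij hab | exact hjk hab | exact hik hab | exact hij hab.symm | exact hjk hab.symm | exact hik hab.symm)
  exact aux T hn ⟨![i, j, k], hinj⟩ (by intro a; fin_cases a <;> assumption) h1.ne' h2.ne'


end Groth.Agent.S7341
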