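import Groth.Statements.S7342
import Groth.Agent.Lib.Helper11_NumType

set_option autoImplicit false
open Finset
open Models Models.NumericalType

namespace Groth.Agent.S7342
open Groth.Agent.H11NT

/-- Let T be a numerical type on n indices, t ≥ 4 and n > t + 2. Then no t + 2 (-2)-indices of T,
pairwise distinct and numbered i_0, …, i_{t+1}, satisfy: a_{i_j i_{j+1}} > 0 for 1 ≤ j ≤ t - 1,
a_{i_0 i_2} > 0 and a_{i_{t-1} i_{t+1}} > 0. -/
theorem result {n : ℕ} (T : Models.NumericalType n) (t : ℕ) (ht : 4 ≤ t) (hn : t + 2 < n)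
    (v : Fin (t + 2) ↪ Fin n) (hv : ∀ j, T.IsMinusTwo (v j))
    (hchain : ∀ j j' : Fin (t + 2), 1 ≤ j.val → j.val + 1 ≤ t → j'.val = j.val + 1 → 0 < T.a (v j) (v j'))
    (h02 : ∀ j j' : Fin (t + 2), j.val = 0 → j'.val = 2 → 0 < T.a (v j) (v j'))
    (hlast : ∀ j j' : Fin (t + 2), j.val = t - 1 → j'.val = t + 1 → 0 < T.a (v j) (v j')) : False := by
  have hE : ∀ (p q : ℕ) (hp : p < t + 2) (hq : q < t + 2), p ≠ q → T.a (v ⟨p, hp⟩) (v ⟨q, hq⟩) ≠ 0 →
      1 * T.w (v ⟨p, hp⟩) ≤ T.a (v ⟨p, hp⟩) (v ⟨q, hq⟩) ∧ 1 * T.w (v ⟨q, hq⟩) ≤ T.a (v ⟨p, hp⟩) (v ⟨q, hq⟩) := by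
    intro p q hp hq hpq h
    exact edge T (v.injective.ne (by simpa [Fin.ext_iff] using hpq)) h
  have hA : ∀ (p : ℕ) (hp : p < t + 2) (hq : p + 1 < t + 2), 1 ≤ p → p + 1 ≤ t →
      1 * T.w (v ⟨p, hp⟩) ≤ T.a (v ⟨p, hp⟩) (v ⟨p + 1, hq⟩) ∧ 1 * T.w (v ⟨p + 1, hq⟩) ≤ T.a (v ⟨p, hp⟩) (v ⟨p + 1, hq⟩) := by
    intro p hp hq h1 h2
    exact hE p (p + 1) hp hq (by omega) (hchain ⟨p, hp⟩ ⟨p + 1, hq⟩ h1 h2 rfl).ne'
  have hB := hE 0 2 (by omega) (by omega) (by omega) (h02 ⟨0, by omega⟩ ⟨2, by omega⟩ rfl rfl).ne'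
  have hC := hE (t - 1) (t + 1) (by omega) (by omega) (by omega) (hlast ⟨t - 1, by omega⟩ ⟨t + 1, by omega⟩ rfl rfl).ne'
  set x : Fin (t + 2) → ℤ := fun i => if i.val ≤ 1 ∨ t ≤ i.val then 1 else 2 with hx
  have hx1 : ∀ (p : ℕ) (hp : p < t + 2), (p ≤ 1 ∨ t ≤ p) → x ⟨p, hp⟩ = 1 := by
    intro p hp h; simp only [hx]; rw [if_pos h]
  have hx2 : ∀ (p : ℕ) (hp : p < t + 2), ¬ (p ≤ 1 ∨ t ≤ p) → x ⟨p, hp⟩ = 2 := by
    intro p hp h; simp only [hx]; rw [if_neg h]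
  have hne : ∀ (p q : ℕ) (hp : p < t + 2) (hq : q < t + 2), p ≠ q → (⟨p, hp⟩ : Fin (t + 2)) ≠ ⟨q, hq⟩ := by
    intro p q hp hq h; simpa [Fin.ext_iff] using h
  have hL : ∀ (p : ℕ) (hp : p < t + 2) (hq : p - 1 < t + 2), 2 ≤ p → p ≤ t →
      1 * T.w (v ⟨p, hp⟩) ≤ T.a (v ⟨p, hp⟩) (v ⟨p - 1, hq⟩) := by
    intro p hp hq h1 h2
    obtain ⟨q, rfl⟩ : ∃ q, p = q + 1 := ⟨p - 1, by omega⟩
    have := (hA q hq hp (by omega) (by omega)).2
    rw [a_symm T (v ⟨q + 1, hp⟩)]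
    exact this
  refine no_config_pt T hn v hv x (fun i => ?_) ⟨⟨0, by omega⟩, ?_⟩ (fun i _ => ?_)
  · simp only [hx]; split_ifs <;> norm_num
  · rw [hx1 0 (by omega) (by omega)]; norm_num
  · obtain ⟨p, hp⟩ := i
    by_cases c0 : p = 0
    · subst c0
      refine good1 T ⟨2, by omega⟩ 1 (hne _ _ _ _ (by omega)) hB.1 ?_
      rw [hx1 0 (by omega) (by omega), hx2 2 (by omega) (by omega)]; norm_num
    by_cases c1 : p = 1
    · subst c1
      refine good1 T ⟨2, by omega⟩ 1 (hne _ _ _ _ (by omega)) (hA 1 (by omega) (by omega) (by omega) (by omega)).1 ?_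
      rw [hx1 1 (by omega) (by omega), hx2 2 (by omega) (by omega)]; norm_num
    by_cases c2 : p = t
    · subst c2
      refine good1 T ⟨p - 1, by omega⟩ 1 (hne _ _ _ _ (by omega)) (hL p (by omega) (by omega) (by omega) (by omega)) ?_
      rw [hx1 p (by omega) (by omega), hx2 (p - 1) (by omega) (by omega)]; norm_num
    by_cases c3 : p = t + 1
    · subst c3
      refine good1 T ⟨t - 1, by omega⟩ 1 (hne _ _ _ _ (by omega)) ?_ ?_
      · rw [a_symm T]; exact hC.2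
      · rw [hx1 (t + 1) (by omega) (by omega), hx2 (t - 1) (by omega) (by omega)]; norm_num
    by_cases c4 : p = 2
    · subst c4
      refine good3 T ⟨0, by omega⟩ ⟨1, by omega⟩ ⟨3, by omega⟩ 1 1 1 (hne _ _ _ _ (by omega)) (hne _ _ _ _ (by omega))
        (hne _ _ _ _ (by omega)) (hne _ _ _ _ (by omega)) (hne _ _ _ _ (by omega)) (hne _ _ _ _ (by omega)) ?_
        (hL 2 (by omega) (by omega) (by omega) (by omega)) (hA 2 (by omega) (by omega) (by omega) (by omega)).1 ?_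
      · rw [a_symm T]; exact hB.2
      · rw [hx1 0 (by omega) (by omega), hx1 1 (by omega) (by omega), hx2 2 (by omega) (by omega), hx2 3 (by omega) (by omega)]
        norm_num
    by_cases c5 : p = t - 1
    · subst c5
      have h6 : t - 1 + 1 = t := by omega
      have h7 := (hA (t - 1) (by omega) (by omega) (by omega) (by omega)).1
      refine good3 T ⟨t - 1 - 1, by omega⟩ ⟨t - 1 + 1, by omega⟩ ⟨t + 1, by omega⟩ 1 1 1 (hne _ _ _ _ (by omega)) (hne _ _ _ _ (by omega))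
        (hne _ _ _ _ (by omega)) (hne _ _ _ _ (by omega)) (hne _ _ _ _ (by omega)) (hne _ _ _ _ (by omega))
        (hL (t - 1) (by omega) (by omega) (by omega) (by omega)) h7 hC.1 ?_
      rw [hx2 (t - 1 - 1) (by omega) (by omega), hx1 (t - 1 + 1) (by omega) (by omega), hx1 (t + 1) (by omega) (by omega),
        hx2 (t - 1) (by omega) (by omega)]
      norm_num
    · refine good2 T ⟨p - 1, by omega⟩ ⟨p + 1, by omega⟩ 1 1 (hne _ _ _ _ (by omega)) (hne _ _ _ _ (by omega))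
        (hne _ _ _ _ (by omega)) (hL p (by omega) (by omega) (by omega) (by omega)) (hA p (by omega) (by omega) (by omega) (by omega)).1 ?_
      rw [hx2 (p - 1) (by omega) (by omega), hx2 (p + 1) (by omega) (by omega), hx2 p (by omega) (by omega)]
      norm_num


end Groth.Agent.S7342
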