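import Groth.Statements.S7343
import Groth.Agent.Lib.Helper11_NumType

set_option autoImplicit false
open Finset
open Models Models.NumericalType

namespace Groth.Agent.S7343
open Groth.Agent.H11NT

/-- Let T be a numerical type on n > 7 indices. Then no seven (-2)-indices of T, pairwise distinct and
named f, g, h, i, j, k, l, have a_fg, a_gh, a_ij, a_jh, a_kl and a_lh all nonzero (three chains of
length two attached to h). -/
theorem result {n : ℕ} (T : Models.NumericalType n) (hn : 7 < n)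
    (v : Fin 7 ↪ Fin n) (hv : ∀ j, T.IsMinusTwo (v j))
    (h01 : T.a (v 0) (v 1) ≠ 0) (h12 : T.a (v 1) (v 2) ≠ 0) (h34 : T.a (v 3) (v 4) ≠ 0)
    (h42 : T.a (v 4) (v 2) ≠ 0) (h56 : T.a (v 5) (v 6) ≠ 0) (h62 : T.a (v 6) (v 2) ≠ 0) : False := by
  exact no_config_list T (by omega) v hv [(0, 1, 1, 1), (1, 2, 1, 1), (3, 4, 1, 1), (4, 2, 1, 1), (5, 6, 1, 1), (6, 2, 1, 1)] (List.forall_mem_cons.2 ⟨(edge T (v.injective.ne (by decide : (0 : Fin 7) ≠ 1)) h01), (List.forall_mem_cons.2 ⟨(edge T (v.injective.ne (by decide : (1 : Fin 7) ≠ 2)) h12), (List.forall_mem_cons.2 ⟨(edge T (v.injective.ne (by decide : (3 : Fin 7) ≠ 4)) h34), (List.forall_mem_cons.2 ⟨(edge T (v.injective.ne (by decide : (4 : Fin 7) ≠ 2)) h42), (List.forall_mem_cons.2 ⟨(edge T (v.injective.ne (by decide : (5 : Fin 7) ≠ 6)) h56), (List.forall_mem_cons.2 ⟨(edge T (v.injective.ne (by decide : (6 : Fin 7) ≠ 2)) h62), (List.forall_mem_nil _)⟩)⟩)⟩)⟩)⟩)⟩) ![1, 2, 3, 1,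 2, 1, 2] (by decide) ⟨0, by decide⟩ (by decide)


end Groth.Agent.S7343
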