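import Groth.Statements.S7344
import Groth.Agent.Lib.Helper11_NumType

set_option autoImplicit false
open Finset
open Models Models.NumericalType

namespace Groth.Agent.S7344
open Groth.Agent.H11NT

/-- Let T be a numerical type on n > 8 indices. Then no eight (-2)-indices of T, pairwise distinct and
named e, f, g, h, i, j, k, l, have a_ef, a_fg, a_gh, a_hi, a_ij, a_jk and a_lh all nonzero (a chain
of seven, e to k, with l joined to its fourth vertex h). -/
theorem result {n : ℕ} (T : Models.NumericalType n) (hn : 8 < n)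
    (v : Fin 8 ↪ Fin n) (hv : ∀ j, T.IsMinusTwo (v j))
    (h01 : T.a (v 0) (v 1) ≠ 0) (h12 : T.a (v 1) (v 2) ≠ 0) (h23 : T.a (v 2) (v 3) ≠ 0)
    (h34 : T.a (v 3) (v 4) ≠ 0) (h45 : T.a (v 4) (v 5) ≠ 0) (h56 : T.a (v 5) (v 6) ≠ 0)
    (h73 : T.a (v 7) (v 3) ≠ 0) : False := by
  exact no_config_list T (by omega) v hv [(0, 1, 1, 1), (1, 2, 1, 1), (2, 3, 1, 1), (3, 4, 1, 1), (4, 5, 1, 1), (5, 6, 1, 1), (7, 3, 1, 1)] (List.forall_mem_cons.2 ⟨(edge T (v.injective.ne (by decide : (0 : Fin 8) ≠ 1)) h01), (List.forall_mem_cons.2 ⟨(edge T (v.injective.ne (by decide : (1 : Fin 8) ≠ 2)) h12), (List.forall_mem_cons.2 ⟨(edge T (v.injective.ne (by decide : (2 : Fin 8) ≠ 3)) h23), (List.forall_mem_cons.2 ⟨(edge T (v.injective.ne (by decide : (3 : Fin 8) ≠ 4)) h34), (List.forall_mem_cons.2 ⟨(edge T (v.injective.ne (by decide : (4 : Fin 8) ≠ 5)) h45), (List.forall_mem_cons.2 ⟨(edge T (v.injective.ne (by decide : (5 : Fin 8) ≠ 6))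 h56), (List.forall_mem_cons.2 ⟨(edge T (v.injective.ne (by decide : (7 : Fin 8) ≠ 3)) h73), (List.forall_mem_nil _)⟩)⟩)⟩)⟩)⟩)⟩)⟩) ![1, 2, 3, 4, 3, 2, 1, 2] (by decide) ⟨0, by decide⟩ (by decide)


end Groth.Agent.S7344
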