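import Groth.Statements.S7346
import Groth.Agent.Lib.Helper11_NumType

set_option autoImplicit false
open Finset
open Models Models.NumericalType

namespace Groth.Agent.S7346
open Groth.Agent.H11NT

/-- Classification of proper subgraphs of type D4 (one vertex joined to three others): let T be a
numerical type on n > 4 indices and i_1, …, i_4 distinct (-2)-indices with a_{12}, a_{13}, a_{14}
nonzero. Then for some integer w all w_{i_j} equal w, these intersection numbers equal w, all other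
a_{i_j i_k} (j ≠ k) vanish, and 2 m_1 ≥ m_2 + m_3 + m_4, 2 m_2 ≥ m_1, 2 m_3 ≥ m_1, 2 m_4 ≥ m_1. -/
theorem result {n : ℕ} (T : Models.NumericalType n) (hn : 4 < n)
    (v : Fin 4 ↪ Fin n) (hv : ∀ j, T.IsMinusTwo (v j)) (h01 : T.a (v 0) (v 1) ≠ 0) (h02 : T.a (v 0) (v 2) ≠ 0) (h03 : T.a (v 0) (v 3) ≠ 0) :
    ∃ w : ℤ, (∀ j : Fin 4, T.w (v j) = w) ∧
      T.a (v 0) (v 1) = w ∧
      T.a (v 0) (v 2) = w ∧
      T.a (v 0) (v 3) = w ∧
      T.a (v 1) (v 2) = 0 ∧
      T.a (v 1) (v 3) = 0 ∧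
      T.a (v 2) (v 3) = 0 ∧
      T.m (v 1) + T.m (v 2) + T.m (v 3) ≤ 2 * T.m (v 0) ∧
      T.m (v 0) ≤ 2 * T.m (v 1) ∧
      T.m (v 0) ≤ 2 * T.m (v 2) ∧
      T.m (v 0) ≤ 2 * T.m (v 3) := by
  have n01 := edge T (v.injective.ne (by decide : (0 : Fin 4) ≠ 1)) h01
  have n02 := edge T (v.injective.ne (by decide : (0 : Fin 4) ≠ 2)) h02
  have n03 := edge T (v.injective.ne (by decide : (0 : Fin 4) ≠ 3)) h03
  have e01 : T.a (v 0) (v 1) = T.w (v 0) ∧ T.a (v 0) (v 1) = T.w (v 1) := by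
    rcases edge_cases T (v.injective.ne (by decide : (0 : Fin 4) ≠ 1)) h01 with h | h | h
    · exact h
    · exact (no_config_list T (by omega) v hv [(0, 1, 2, 1), (0, 2, 1, 1), (0, 3, 1, 1)] (List.forall_mem_cons.2 ⟨h, (List.forall_mem_cons.2 ⟨n02, (List.forall_mem_cons.2 ⟨n03, (List.forall_mem_nil _)⟩)⟩)⟩) ![2, 1, 1, 1] (by decide) ⟨0, by decide⟩ (by decide)).elim
    · exact (no_config_list T (by omega) v hv [(0, 1, 1, 2), (0, 2, 1, 1), (0, 3, 1, 1)] (List.forall_mem_cons.2 ⟨h, (List.forall_mem_cons.2 ⟨n02, (List.forall_mem_cons.2 ⟨n03, (List.forall_mem_nil _)⟩)⟩)⟩) ![2, 2, 1, 1] (by decide) ⟨0, by decide⟩ (by decide)).elim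
  have e02 : T.a (v 0) (v 2) = T.w (v 0) ∧ T.a (v 0) (v 2) = T.w (v 2) := by
    rcases edge_cases T (v.injective.ne (by decide : (0 : Fin 4) ≠ 2)) h02 with h | h | h
    · exact h
    · exact (no_config_list T (by omega) v hv [(0, 1, 1, 1), (0, 2, 2, 1), (0, 3, 1, 1)] (List.forall_mem_cons.2 ⟨n01, (List.forall_mem_cons.2 ⟨h, (List.forall_mem_cons.2 ⟨n03, (List.forall_mem_nil _)⟩)⟩)⟩) ![2, 1, 1, 1] (by decide) ⟨0, by decide⟩ (by decide)).elim
    · exact (no_config_list T (by omega) v hv [(0, 1, 1, 1), (0, 2, 1, 2), (0, 3, 1, 1)] (List.forall_mem_cons.2 ⟨n01, (List.forall_mem_cons.2 ⟨h, (List.forall_mem_cons.2 ⟨n03, (List.forall_mem_nil _)⟩)⟩)⟩) ![2, 1, 2, 1] (by decide) ⟨0, by decide⟩ (by decide)).elim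
  have e03 : T.a (v 0) (v 3) = T.w (v 0) ∧ T.a (v 0) (v 3) = T.w (v 3) := by
    rcases edge_cases T (v.injective.ne (by decide : (0 : Fin 4) ≠ 3)) h03 with h | h | h
    · exact h
    · exact (no_config_list T (by omega) v hv [(0, 1, 1, 1), (0, 2, 1, 1), (0, 3, 2, 1)] (List.forall_mem_cons.2 ⟨n01, (List.forall_mem_cons.2 ⟨n02, (List.forall_mem_cons.2 ⟨h, (List.forall_mem_nil _)⟩)⟩)⟩) ![2, 1, 1, 1] (by decide) ⟨0, by decide⟩ (by decide)).elim
    · exact (no_config_list T (by omega) v hv [(0, 1, 1, 1), (0, 2, 1, 1), (0, 3, 1, 2)] (List.forall_mem_cons.2 ⟨n01, (List.forall_mem_cons.2 ⟨n02, (List.forall_mem_cons.2 ⟨h, (List.forall_mem_nil _)⟩)⟩)⟩) ![2, 1, 1, 2] (by decide) ⟨0, by decide⟩ (by decide)).elim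
  have z12 : T.a (v 1) (v 2) = 0 := by
    by_contra h
    exact no_config_list T (by omega) v hv [(1, 2, 1, 1), (0, 1, 1, 1), (0, 2, 1, 1), (0, 3, 1, 1)] (List.forall_mem_cons.2 ⟨(edge T (v.injective.ne (by decide : (1 : Fin 4) ≠ 2)) h), (List.forall_mem_cons.2 ⟨n01, (List.forall_mem_cons.2 ⟨n02, (List.forall_mem_cons.2 ⟨n03, (List.forall_mem_nil _)⟩)⟩)⟩)⟩) ![1, 1, 1, 0] (by decide) ⟨0, by decide⟩ (by decide)
  have z13 : T.a (v 1) (v 3) = 0 := by
    by_contra h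
    exact no_config_list T (by omega) v hv [(1, 3, 1, 1), (0, 1, 1, 1), (0, 2, 1, 1), (0, 3, 1, 1)] (List.forall_mem_cons.2 ⟨(edge T (v.injective.ne (by decide : (1 : Fin 4) ≠ 3)) h), (List.forall_mem_cons.2 ⟨n01, (List.forall_mem_cons.2 ⟨n02, (List.forall_mem_cons.2 ⟨n03, (List.forall_mem_nil _)⟩)⟩)⟩)⟩) ![1, 1, 0, 1] (by decide) ⟨0, by decide⟩ (by decide)
  have z23 : T.a (v 2) (v 3) = 0 := by
    by_contra h
    exact no_config_list T (by omega) v hv [(2, 3, 1, 1), (0, 1, 1, 1), (0, 2, 1, 1), (0, 3, 1, 1)] (List.forall_mem_cons.2 ⟨(edge T (v.injective.ne (by decide : (2 : Fin 4) ≠ 3)) h), (List.forall_mem_cons.2 ⟨n01, (List.forall_mem_cons.2 ⟨n02, (List.forall_mem_cons.2 ⟨n03, (List.forall_mem_nil _)⟩)⟩)⟩)⟩) ![1, 0, 1, 1] (by decide) ⟨0, by decide⟩ (by decide)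
  have r0 := row_le_c T v 0 (hv 0) {1, 2, 3} (by decide) (fun _ => 1) (by
    intro j hj
    simp only [Finset.mem_insert, Finset.mem_singleton] at hj
    rcases hj with rfl | rfl | rfl
    · exact n01.1
    · exact n02.1
    · exact n03.1)
  simp only [one_mul] at r0
  rw [Finset.sum_insert (by decide)] at r0; rw [Finset.sum_insert (by decide)] at r0; rw [Finset.sum_singleton] at r0
  have r1 := row_le_c T v 1 (hv 1) {0} (by decide) (fun _ => 1) (by
    intro j hj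
    simp only [Finset.mem_insert, Finset.mem_singleton] at hj
    subst hj
    · rw [a_symm T (v 1) (v 0)]; exact n01.2)
  simp only [one_mul] at r1
  rw [Finset.sum_singleton] at r1
  have r2 := row_le_c T v 2 (hv 2) {0} (by decide) (fun _ => 1) (by
    intro j hj
    simp only [Finset.mem_insert, Finset.mem_singleton] at hj
    subst hj
    · rw [a_symm T (v 2) (v 0)]; exact n02.2)
  simp only [one_mul] at r2
  rw [Finset.sum_singleton] at r2
  have r3 := row_le_c T v 3 (hv 3) {0} (by decide) (fun _ => 1) (by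
    intro j hj
    simp only [Finset.mem_insert, Finset.mem_singleton] at hj
    subst hj
    · rw [a_symm T (v 3) (v 0)]; exact n03.2)
  simp only [one_mul] at r3
  rw [Finset.sum_singleton] at r3
  refine ⟨T.w (v 0), ?_, ?_⟩
  · intro j; fin_cases j <;> simp <;> omega
  · refine ⟨?_, ?_, ?_, ?_, ?_, ?_, ?_, ?_, ?_, ?_⟩ <;> omega


end Groth.Agent.S7346
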