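import Groth.Statements.S7350
import Groth.Agent.Lib.Helper11_NumType

set_option autoImplicit false
open Finset
open Models Models.NumericalType

namespace Groth.Agent.S7350
open Groth.Agent.H11NT

/-- Classification of proper subgraphs of type E8 (a chain i_1 … i_7 with i_8 joined to i_5): let T be a
numerical type on n > 8 indices and i_1, …, i_8 distinct (-2)-indices with a_{12}, a_{23}, a_{34},
a_{45}, a_{56}, a_{67}, a_{58} nonzero. Then for some integer w all w_{i_j} equal w, these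
intersection numbers equal w, all other a_{i_j i_k} (j ≠ k) vanish, and 2 m_1 ≥ m_2, 2 m_2 ≥ m_1 +
m_3, 2 m_3 ≥ m_2 + m_4, 2 m_4 ≥ m_3 + m_5, 2 m_5 ≥ m_4 + m_6 + m_8, 2 m_6 ≥ m_5 + m_7, 2 m_7 ≥ m_6,
2 m_8 ≥ m_5. (The published statement lists a_{65} and a_{57} among the nonzero entries, which
contradicts its own conclusion a_{57} = 0; this row uses the edges of the E8 graph, a_{67} and
a_{58}, as the pictured graph and the matrix give them.) -/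
theorem result {n : ℕ} (T : Models.NumericalType n) (hn : 8 < n)
    (v : Fin 8 ↪ Fin n) (hv : ∀ j, T.IsMinusTwo (v j)) (h01 : T.a (v 0) (v 1) ≠ 0) (h12 : T.a (v 1) (v 2) ≠ 0) (h23 : T.a (v 2) (v 3) ≠ 0) (h34 : T.a (v 3) (v 4) ≠ 0) (h45 : T.a (v 4) (v 5) ≠ 0) (h56 : T.a (v 5) (v 6) ≠ 0) (h47 : T.a (v 4) (v 7) ≠ 0) :
    ∃ w : ℤ, (∀ j : Fin 8, T.w (v j) = w) ∧
      T.a (v 0) (v 1) = w ∧
      T.a (v 1) (v 2) = w ∧
      T.a (v 2) (v 3) = w ∧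
      T.a (v 3) (v 4) = w ∧
      T.a (v 4) (v 5) = w ∧
      T.a (v 5) (v 6) = w ∧
      T.a (v 4) (v 7) = w ∧
      T.a (v 0) (v 2) = 0 ∧
      T.a (v 0) (v 3) = 0 ∧
      T.a (v 0) (v 4) = 0 ∧
      T.a (v 0) (v 5) = 0 ∧
      T.a (v 0) (v 6) = 0 ∧
      T.a (v 0) (v 7) = 0 ∧
      T.a (v 1) (v 3) = 0 ∧
      T.a (v 1) (v 4) = 0 ∧
      T.a (v 1) (v 5) = 0 ∧
      T.a (v 1) (v 6) = 0 ∧
      T.a (v 1) (v 7) = 0 ∧
      T.a (v 2) (v 4) = 0 ∧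
      T.a (v 2) (v 5) = 0 ∧
      T.a (v 2) (v 6) = 0 ∧
      T.a (v 2) (v 7) = 0 ∧
      T.a (v 3) (v 5) = 0 ∧
      T.a (v 3) (v 6) = 0 ∧
      T.a (v 3) (v 7) = 0 ∧
      T.a (v 4) (v 6) = 0 ∧
      T.a (v 5) (v 7) = 0 ∧
      T.a (v 6) (v 7) = 0 ∧
      T.m (v 1) ≤ 2 * T.m (v 0) ∧
      T.m (v 0) + T.m (v 2) ≤ 2 * T.m (v 1) ∧
      T.m (v 1) + T.m (v 3) ≤ 2 * T.m (v 2) ∧
      T.m (v 2) + T.m (v 4) ≤ 2 * T.m (v 3) ∧
      T.m (v 3) + T.m (v 5) + T.m (v 7) ≤ 2 * T.m (v 4) ∧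
      T.m (v 4) + T.m (v 6) ≤ 2 * T.m (v 5) ∧
      T.m (v 5) ≤ 2 * T.m (v 6) ∧
      T.m (v 4) ≤ 2 * T.m (v 7) := by
  have n01 := edge T (v.injective.ne (by decide : (0 : Fin 8) ≠ 1)) h01
  have n12 := edge T (v.injective.ne (by decide : (1 : Fin 8) ≠ 2)) h12
  have n23 := edge T (v.injective.ne (by decide : (2 : Fin 8) ≠ 3)) h23
  have n34 := edge T (v.injective.ne (by decide : (3 : Fin 8) ≠ 4)) h34
  have n45 := edge T (v.injective.ne (by decide : (4 : Fin 8) ≠ 5)) h45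
  have n56 := edge T (v.injective.ne (by decide : (5 : Fin 8) ≠ 6)) h56
  have n47 := edge T (v.injective.ne (by decide : (4 : Fin 8) ≠ 7)) h47
  have e01 : T.a (v 0) (v 1) = T.w (v 0) ∧ T.a (v 0) (v 1) = T.w (v 1) := by
    rcases edge_cases T (v.injective.ne (by decide : (0 : Fin 8) ≠ 1)) h01 with h | h | h
    · exact h
    · exact (no_config_list T (by omega) v hv [(0, 1, 2, 1), (1, 2, 1, 1), (2, 3, 1, 1), (3, 4, 1, 1), (4, 5, 1, 1), (5, 6, 1, 1), (4, 7, 1, 1)] (List.forall_mem_cons.2 ⟨h, (List.forall_mem_cons.2 ⟨n12, (List.forall_mem_cons.2 ⟨n23, (List.forall_mem_cons.2 ⟨n34, (List.forall_mem_cons.2 ⟨n45, (List.forall_mem_cons.2 ⟨n56, (List.forall_mem_cons.2 ⟨n47, (List.forall_mem_nil _)⟩)⟩)⟩)⟩)⟩)⟩)⟩) ![2, 2, 2, 2, 2, 1, 0, 1] (by decide) ⟨0, by decide⟩ (by decide)).elim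
    · exact (no_config_list T (by omega) v hv [(0, 1, 1, 2), (1, 2, 1, 1), (2, 3, 1, 1), (3, 4, 1, 1), (4, 5, 1, 1), (5, 6, 1, 1), (4, 7, 1, 1)] (List.forall_mem_cons.2 ⟨h, (List.forall_mem_cons.2 ⟨n12, (List.forall_mem_cons.2 ⟨n23, (List.forall_mem_cons.2 ⟨n34, (List.forall_mem_cons.2 ⟨n45, (List.forall_mem_cons.2 ⟨n56, (List.forall_mem_cons.2 ⟨n47, (List.forall_mem_nil _)⟩)⟩)⟩)⟩)⟩)⟩)⟩) ![1, 2, 2, 2, 2, 1, 0, 1] (by decide) ⟨0, by decide⟩ (by decide)).elim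
  have e12 : T.a (v 1) (v 2) = T.w (v 1) ∧ T.a (v 1) (v 2) = T.w (v 2) := by
    rcases edge_cases T (v.injective.ne (by decide : (1 : Fin 8) ≠ 2)) h12 with h | h | h
    · exact h
    · exact (no_config_list T (by omega) v hv [(0, 1, 1, 1), (1, 2, 2, 1), (2, 3, 1, 1), (3, 4, 1, 1), (4, 5, 1, 1), (5, 6, 1, 1), (4, 7, 1, 1)] (List.forall_mem_cons.2 ⟨n01, (List.forall_mem_cons.2 ⟨h, (List.forall_mem_cons.2 ⟨n23, (List.forall_mem_cons.2 ⟨n34, (List.forall_mem_cons.2 ⟨n45, (List.forall_mem_cons.2 ⟨n56, (List.forall_mem_cons.2 ⟨n47, (List.forall_mem_nil _)⟩)⟩)⟩)⟩)⟩)⟩)⟩) ![0, 2, 2, 2, 2, 1, 0, 1] (by decide) ⟨1, by decide⟩ (by decide)).elim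
    · exact (no_config_list T (by omega) v hv [(0, 1, 1, 1), (1, 2, 1, 2), (2, 3, 1, 1), (3, 4, 1, 1), (4, 5, 1, 1), (5, 6, 1, 1), (4, 7, 1, 1)] (List.forall_mem_cons.2 ⟨n01, (List.forall_mem_cons.2 ⟨h, (List.forall_mem_cons.2 ⟨n23, (List.forall_mem_cons.2 ⟨n34, (List.forall_mem_cons.2 ⟨n45, (List.forall_mem_cons.2 ⟨n56, (List.forall_mem_cons.2 ⟨n47, (List.forall_mem_nil _)⟩)⟩)⟩)⟩)⟩)⟩)⟩) ![0, 1, 2, 2, 2, 1, 0, 1] (by decide) ⟨1, by decide⟩ (by decide)).elim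
  have e23 : T.a (v 2) (v 3) = T.w (v 2) ∧ T.a (v 2) (v 3) = T.w (v 3) := by
    rcases edge_cases T (v.injective.ne (by decide : (2 : Fin 8) ≠ 3)) h23 with h | h | h
    · exact h
    · exact (no_config_list T (by omega) v hv [(0, 1, 1, 1), (1, 2, 1, 1), (2, 3, 2, 1), (3, 4, 1, 1), (4, 5, 1, 1), (5, 6, 1, 1), (4, 7, 1, 1)] (List.forall_mem_cons.2 ⟨n01, (List.forall_mem_cons.2 ⟨n12, (List.forall_mem_cons.2 ⟨h, (List.forall_mem_cons.2 ⟨n34, (List.forall_mem_cons.2 ⟨n45, (List.forall_mem_cons.2 ⟨n56, (List.forall_mem_cons.2 ⟨n47, (List.forall_mem_nil _)⟩)⟩)⟩)⟩)⟩)⟩)⟩) ![0, 0, 2, 2, 2, 1, 0, 1] (by decide) ⟨2, by decide⟩ (by decide)).elim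
    · exact (no_config_list T (by omega) v hv [(0, 1, 1, 1), (1, 2, 1, 1), (2, 3, 1, 2), (3, 4, 1, 1), (4, 5, 1, 1), (5, 6, 1, 1), (4, 7, 1, 1)] (List.forall_mem_cons.2 ⟨n01, (List.forall_mem_cons.2 ⟨n12, (List.forall_mem_cons.2 ⟨h, (List.forall_mem_cons.2 ⟨n34, (List.forall_mem_cons.2 ⟨n45, (List.forall_mem_cons.2 ⟨n56, (List.forall_mem_cons.2 ⟨n47, (List.forall_mem_nil _)⟩)⟩)⟩)⟩)⟩)⟩)⟩) ![0, 0, 1, 2, 2, 1, 0, 1] (by decide) ⟨2, by decide⟩ (by decide)).elim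
  have e34 : T.a (v 3) (v 4) = T.w (v 3) ∧ T.a (v 3) (v 4) = T.w (v 4) := by
    rcases edge_cases T (v.injective.ne (by decide : (3 : Fin 8) ≠ 4)) h34 with h | h | h
    · exact h
    · exact (no_config_list T (by omega) v hv [(0, 1, 1, 1), (1, 2, 1, 1), (2, 3, 1, 1), (3, 4, 2, 1), (4, 5, 1, 1), (5, 6, 1, 1), (4, 7, 1, 1)] (List.forall_mem_cons.2 ⟨n01, (List.forall_mem_cons.2 ⟨n12, (List.forall_mem_cons.2 ⟨n23, (List.forall_mem_cons.2 ⟨h, (List.forall_mem_cons.2 ⟨n45, (List.forall_mem_cons.2 ⟨n56, (List.forall_mem_cons.2 ⟨n47, (List.forall_mem_nil _)⟩)⟩)⟩)⟩)⟩)⟩)⟩) ![0, 0, 0, 2, 2, 1, 0, 1] (by decide) ⟨3, by decide⟩ (by decide)).elim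
    · exact (no_config_list T (by omega) v hv [(0, 1, 1, 1), (1, 2, 1, 1), (2, 3, 1, 1), (3, 4, 1, 2), (4, 5, 1, 1), (5, 6, 1, 1), (4, 7, 1, 1)] (List.forall_mem_cons.2 ⟨n01, (List.forall_mem_cons.2 ⟨n12, (List.forall_mem_cons.2 ⟨n23, (List.forall_mem_cons.2 ⟨h, (List.forall_mem_cons.2 ⟨n45, (List.forall_mem_cons.2 ⟨n56, (List.forall_mem_cons.2 ⟨n47, (List.forall_mem_nil _)⟩)⟩)⟩)⟩)⟩)⟩)⟩) ![0, 0, 0, 1, 2, 1, 0, 1] (by decide) ⟨3, by decide⟩ (by decide)).elim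
  have e45 : T.a (v 4) (v 5) = T.w (v 4) ∧ T.a (v 4) (v 5) = T.w (v 5) := by
    rcases edge_cases T (v.injective.ne (by decide : (4 : Fin 8) ≠ 5)) h45 with h | h | h
    · exact h
    · exact (no_config_list T (by omega) v hv [(0, 1, 1, 1), (1, 2, 1, 1), (2, 3, 1, 1), (3, 4, 1, 1), (4, 5, 2, 1), (5, 6, 1, 1), (4, 7, 1, 1)] (List.forall_mem_cons.2 ⟨n01, (List.forall_mem_cons.2 ⟨n12, (List.forall_mem_cons.2 ⟨n23, (List.forall_mem_cons.2 ⟨n34, (List.forall_mem_cons.2 ⟨h, (List.forall_mem_cons.2 ⟨n56, (List.forall_mem_cons.2 ⟨n47, (List.forall_mem_nil _)⟩)⟩)⟩)⟩)⟩)⟩)⟩) ![0, 0, 0, 1, 2, 1, 0, 1] (by decide) ⟨3, by decide⟩ (by decide)).elim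
    · exact (no_config_list T (by omega) v hv [(0, 1, 1, 1), (1, 2, 1, 1), (2, 3, 1, 1), (3, 4, 1, 1), (4, 5, 1, 2), (5, 6, 1, 1), (4, 7, 1, 1)] (List.forall_mem_cons.2 ⟨n01, (List.forall_mem_cons.2 ⟨n12, (List.forall_mem_cons.2 ⟨n23, (List.forall_mem_cons.2 ⟨n34, (List.forall_mem_cons.2 ⟨h, (List.forall_mem_cons.2 ⟨n56, (List.forall_mem_cons.2 ⟨n47, (List.forall_mem_nil _)⟩)⟩)⟩)⟩)⟩)⟩)⟩) ![0, 0, 0, 1, 2, 2, 0, 1] (by decide) ⟨3, by decide⟩ (by decide)).elim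
  have e56 : T.a (v 5) (v 6) = T.w (v 5) ∧ T.a (v 5) (v 6) = T.w (v 6) := by
    rcases edge_cases T (v.injective.ne (by decide : (5 : Fin 8) ≠ 6)) h56 with h | h | h
    · exact h
    · exact (no_config_list T (by omega) v hv [(0, 1, 1, 1), (1, 2, 1, 1), (2, 3, 1, 1), (3, 4, 1, 1), (4, 5, 1, 1), (5, 6, 2, 1), (4, 7, 1, 1)] (List.forall_mem_cons.2 ⟨n01, (List.forall_mem_cons.2 ⟨n12, (List.forall_mem_cons.2 ⟨n23, (List.forall_mem_cons.2 ⟨n34, (List.forall_mem_cons.2 ⟨n45, (List.forall_mem_cons.2 ⟨h, (List.forall_mem_cons.2 ⟨n47, (List.forall_mem_nil _)⟩)⟩)⟩)⟩)⟩)⟩)⟩) ![0, 0, 0, 1, 2, 2, 1, 1] (by decide) ⟨3, by decide⟩ (by decide)).elim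
    · exact (no_config_list T (by omega) v hv [(0, 1, 1, 1), (1, 2, 1, 1), (2, 3, 1, 1), (3, 4, 1, 1), (4, 5, 1, 1), (5, 6, 1, 2), (4, 7, 1, 1)] (List.forall_mem_cons.2 ⟨n01, (List.forall_mem_cons.2 ⟨n12, (List.forall_mem_cons.2 ⟨n23, (List.forall_mem_cons.2 ⟨n34, (List.forall_mem_cons.2 ⟨n45, (List.forall_mem_cons.2 ⟨h, (List.forall_mem_cons.2 ⟨n47, (List.forall_mem_nil _)⟩)⟩)⟩)⟩)⟩)⟩)⟩) ![0, 0, 0, 1, 2, 2, 2, 1] (by decide) ⟨3, by decide⟩ (by decide)).elim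
  have e47 : T.a (v 4) (v 7) = T.w (v 4) ∧ T.a (v 4) (v 7) = T.w (v 7) := by
    rcases edge_cases T (v.injective.ne (by decide : (4 : Fin 8) ≠ 7)) h47 with h | h | h
    · exact h
    · exact (no_config_list T (by omega) v hv [(0, 1, 1, 1), (1, 2, 1, 1), (2, 3, 1, 1), (3, 4, 1, 1), (4, 5, 1, 1), (5, 6, 1, 1), (4, 7, 2, 1)] (List.forall_mem_cons.2 ⟨n01, (List.forall_mem_cons.2 ⟨n12, (List.forall_mem_cons.2 ⟨n23, (List.forall_mem_cons.2 ⟨n34, (List.forall_mem_cons.2 ⟨n45, (List.forall_mem_cons.2 ⟨n56, (List.forall_mem_cons.2 ⟨h, (List.forall_mem_nil _)⟩)⟩)⟩)⟩)⟩)⟩)⟩) ![0, 0, 0, 1, 2, 1, 0, 1] (by decide) ⟨3, by decide⟩ (by decide)).elim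
    · exact (no_config_list T (by omega) v hv [(0, 1, 1, 1), (1, 2, 1, 1), (2, 3, 1, 1), (3, 4, 1, 1), (4, 5, 1, 1), (5, 6, 1, 1), (4, 7, 1, 2)] (List.forall_mem_cons.2 ⟨n01, (List.forall_mem_cons.2 ⟨n12, (List.forall_mem_cons.2 ⟨n23, (List.forall_mem_cons.2 ⟨n34, (List.forall_mem_cons.2 ⟨n45, (List.forall_mem_cons.2 ⟨n56, (List.forall_mem_cons.2 ⟨h, (List.forall_mem_nil _)⟩)⟩)⟩)⟩)⟩)⟩)⟩) ![0, 0, 0, 1, 2, 1, 0, 2] (by decide) ⟨3, by decide⟩ (by decide)).elim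
  have z02 : T.a (v 0) (v 2) = 0 := by
    by_contra h
    exact no_config_list T (by omega) v hv [(0, 2, 1, 1), (0, 1, 1, 1), (1, 2, 1, 1), (2, 3, 1, 1), (3, 4, 1, 1), (4, 5, 1, 1), (5, 6, 1, 1), (4, 7, 1, 1)] (List.forall_mem_cons.2 ⟨(edge T (v.injective.ne (by decide : (0 : Fin 8) ≠ 2)) h), (List.forall_mem_cons.2 ⟨n01, (List.forall_mem_cons.2 ⟨n12, (List.forall_mem_cons.2 ⟨n23, (List.forall_mem_cons.2 ⟨n34, (List.forall_mem_cons.2 ⟨n45, (List.forall_mem_cons.2 ⟨n56, (List.forall_mem_cons.2 ⟨n47, (List.forall_mem_nil _)⟩)⟩)⟩)⟩)⟩)⟩)⟩)⟩) ![1, 1, 1, 0, 0, 0, 0, 0] (by decide) ⟨0, by decide⟩ (by decide)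
  have z03 : T.a (v 0) (v 3) = 0 := by
    by_contra h
    exact no_config_list T (by omega) v hv [(0, 3, 1, 1), (0, 1, 1, 1), (1, 2, 1, 1), (2, 3, 1, 1), (3, 4, 1, 1), (4, 5, 1, 1), (5, 6, 1, 1), (4, 7, 1, 1)] (List.forall_mem_cons.2 ⟨(edge T (v.injective.ne (by decide : (0 : Fin 8) ≠ 3)) h), (List.forall_mem_cons.2 ⟨n01, (List.forall_mem_cons.2 ⟨n12, (List.forall_mem_cons.2 ⟨n23, (List.forall_mem_cons.2 ⟨n34, (List.forall_mem_cons.2 ⟨n45, (List.forall_mem_cons.2 ⟨n56, (List.forall_mem_cons.2 ⟨n47, (List.forall_mem_nil _)⟩)⟩)⟩)⟩)⟩)⟩)⟩)⟩) ![1, 1, 1, 1, 0, 0, 0, 0] (by decide) ⟨0, by decide⟩ (by decide)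
  have z04 : T.a (v 0) (v 4) = 0 := by
    by_contra h
    exact no_config_list T (by omega) v hv [(0, 4, 1, 1), (0, 1, 1, 1), (1, 2, 1, 1), (2, 3, 1, 1), (3, 4, 1, 1), (4, 5, 1, 1), (5, 6, 1, 1), (4, 7, 1, 1)] (List.forall_mem_cons.2 ⟨(edge T (v.injective.ne (by decide : (0 : Fin 8) ≠ 4)) h), (List.forall_mem_cons.2 ⟨n01, (List.forall_mem_cons.2 ⟨n12, (List.forall_mem_cons.2 ⟨n23, (List.forall_mem_cons.2 ⟨n34, (List.forall_mem_cons.2 ⟨n45, (List.forall_mem_cons.2 ⟨n56, (List.forall_mem_cons.2 ⟨n47, (List.forall_mem_nil _)⟩)⟩)⟩)⟩)⟩)⟩)⟩)⟩) ![1, 1, 1, 1, 1, 0, 0, 0] (by decide) ⟨0, by decide⟩ (by decide)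
  have z05 : T.a (v 0) (v 5) = 0 := by
    by_contra h
    exact no_config_list T (by omega) v hv [(0, 5, 1, 1), (0, 1, 1, 1), (1, 2, 1, 1), (2, 3, 1, 1), (3, 4, 1, 1), (4, 5, 1, 1), (5, 6, 1, 1), (4, 7, 1, 1)] (List.forall_mem_cons.2 ⟨(edge T (v.injective.ne (by decide : (0 : Fin 8) ≠ 5)) h), (List.forall_mem_cons.2 ⟨n01, (List.forall_mem_cons.2 ⟨n12, (List.forall_mem_cons.2 ⟨n23, (List.forall_mem_cons.2 ⟨n34, (List.forall_mem_cons.2 ⟨n45, (List.forall_mem_cons.2 ⟨n56, (List.forall_mem_cons.2 ⟨n47, (List.forall_mem_nil _)⟩)⟩)⟩)⟩)⟩)⟩)⟩)⟩) ![1, 1, 1, 1, 1, 1, 0, 0] (by decide) ⟨0, by decide⟩ (by decide)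
  have z06 : T.a (v 0) (v 6) = 0 := by
    by_contra h
    exact no_config_list T (by omega) v hv [(0, 6, 1, 1), (0, 1, 1, 1), (1, 2, 1, 1), (2, 3, 1, 1), (3, 4, 1, 1), (4, 5, 1, 1), (5, 6, 1, 1), (4, 7, 1, 1)] (List.forall_mem_cons.2 ⟨(edge T (v.injective.ne (by decide : (0 : Fin 8) ≠ 6)) h), (List.forall_mem_cons.2 ⟨n01, (List.forall_mem_cons.2 ⟨n12, (List.forall_mem_cons.2 ⟨n23, (List.forall_mem_cons.2 ⟨n34, (List.forall_mem_cons.2 ⟨n45, (List.forall_mem_cons.2 ⟨n56, (List.forall_mem_cons.2 ⟨n47, (List.forall_mem_nil _)⟩)⟩)⟩)⟩)⟩)⟩)⟩)⟩) ![1, 1, 1, 1, 1, 1, 1, 0] (by decide) ⟨0, by decide⟩ (by decide)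
  have z07 : T.a (v 0) (v 7) = 0 := by
    by_contra h
    exact no_config_list T (by omega) v hv [(0, 7, 1, 1), (0, 1, 1, 1), (1, 2, 1, 1), (2, 3, 1, 1), (3, 4, 1, 1), (4, 5, 1, 1), (5, 6, 1, 1), (4, 7, 1, 1)] (List.forall_mem_cons.2 ⟨(edge T (v.injective.ne (by decide : (0 : Fin 8) ≠ 7)) h), (List.forall_mem_cons.2 ⟨n01, (List.forall_mem_cons.2 ⟨n12, (List.forall_mem_cons.2 ⟨n23, (List.forall_mem_cons.2 ⟨n34, (List.forall_mem_cons.2 ⟨n45, (List.forall_mem_cons.2 ⟨n56, (List.forall_mem_cons.2 ⟨n47, (List.forall_mem_nil _)⟩)⟩)⟩)⟩)⟩)⟩)⟩)⟩) ![1, 1, 1, 1, 1, 0, 0, 1] (by decide) ⟨0, by decide⟩ (by decide)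
  have z13 : T.a (v 1) (v 3) = 0 := by
    by_contra h
    exact no_config_list T (by omega) v hv [(1, 3, 1, 1), (0, 1, 1, 1), (1, 2, 1, 1), (2, 3, 1, 1), (3, 4, 1, 1), (4, 5, 1, 1), (5, 6, 1, 1), (4, 7, 1, 1)] (List.forall_mem_cons.2 ⟨(edge T (v.injective.ne (by decide : (1 : Fin 8) ≠ 3)) h), (List.forall_mem_cons.2 ⟨n01, (List.forall_mem_cons.2 ⟨n12, (List.forall_mem_cons.2 ⟨n23, (List.forall_mem_cons.2 ⟨n34, (List.forall_mem_cons.2 ⟨n45, (List.forall_mem_cons.2 ⟨n56, (List.forall_mem_cons.2 ⟨n47, (List.forall_mem_nil _)⟩)⟩)⟩)⟩)⟩)⟩)⟩)⟩) ![0, 1, 1, 1, 0, 0, 0, 0] (by decide) ⟨1, by decide⟩ (by decide)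
  have z14 : T.a (v 1) (v 4) = 0 := by
    by_contra h
    exact no_config_list T (by omega) v hv [(1, 4, 1, 1), (0, 1, 1, 1), (1, 2, 1, 1), (2, 3, 1, 1), (3, 4, 1, 1), (4, 5, 1, 1), (5, 6, 1, 1), (4, 7, 1, 1)] (List.forall_mem_cons.2 ⟨(edge T (v.injective.ne (by decide : (1 : Fin 8) ≠ 4)) h), (List.forall_mem_cons.2 ⟨n01, (List.forall_mem_cons.2 ⟨n12, (List.forall_mem_cons.2 ⟨n23, (List.forall_mem_cons.2 ⟨n34, (List.forall_mem_cons.2 ⟨n45, (List.forall_mem_cons.2 ⟨n56, (List.forall_mem_cons.2 ⟨n47, (List.forall_mem_nil _)⟩)⟩)⟩)⟩)⟩)⟩)⟩)⟩) ![0, 1, 1, 1, 1, 0, 0, 0] (by decide) ⟨1, by decide⟩ (by decide)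
  have z15 : T.a (v 1) (v 5) = 0 := by
    by_contra h
    exact no_config_list T (by omega) v hv [(1, 5, 1, 1), (0, 1, 1, 1), (1, 2, 1, 1), (2, 3, 1, 1), (3, 4, 1, 1), (4, 5, 1, 1), (5, 6, 1, 1), (4, 7, 1, 1)] (List.forall_mem_cons.2 ⟨(edge T (v.injective.ne (by decide : (1 : Fin 8) ≠ 5)) h), (List.forall_mem_cons.2 ⟨n01, (List.forall_mem_cons.2 ⟨n12, (List.forall_mem_cons.2 ⟨n23, (List.forall_mem_cons.2 ⟨n34, (List.forall_mem_cons.2 ⟨n45, (List.forall_mem_cons.2 ⟨n56, (List.forall_mem_cons.2 ⟨n47, (List.forall_mem_nil _)⟩)⟩)⟩)⟩)⟩)⟩)⟩)⟩) ![0, 1, 1, 1, 1, 1, 0, 0] (by decide) ⟨1, by decide⟩ (by decide)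
  have z16 : T.a (v 1) (v 6) = 0 := by
    by_contra h
    exact no_config_list T (by omega) v hv [(1, 6, 1, 1), (0, 1, 1, 1), (1, 2, 1, 1), (2, 3, 1, 1), (3, 4, 1, 1), (4, 5, 1, 1), (5, 6, 1, 1), (4, 7, 1, 1)] (List.forall_mem_cons.2 ⟨(edge T (v.injective.ne (by decide : (1 : Fin 8) ≠ 6)) h), (List.forall_mem_cons.2 ⟨n01, (List.forall_mem_cons.2 ⟨n12, (List.forall_mem_cons.2 ⟨n23, (List.forall_mem_cons.2 ⟨n34, (List.forall_mem_cons.2 ⟨n45, (List.forall_mem_cons.2 ⟨n56, (List.forall_mem_cons.2 ⟨n47, (List.forall_mem_nil _)⟩)⟩)⟩)⟩)⟩)⟩)⟩)⟩) ![0, 1, 1, 1, 1, 1, 1, 0] (by decide) ⟨1, by decide⟩ (by decide)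
  have z17 : T.a (v 1) (v 7) = 0 := by
    by_contra h
    exact no_config_list T (by omega) v hv [(1, 7, 1, 1), (0, 1, 1, 1), (1, 2, 1, 1), (2, 3, 1, 1), (3, 4, 1, 1), (4, 5, 1, 1), (5, 6, 1, 1), (4, 7, 1, 1)] (List.forall_mem_cons.2 ⟨(edge T (v.injective.ne (by decide : (1 : Fin 8) ≠ 7)) h), (List.forall_mem_cons.2 ⟨n01, (List.forall_mem_cons.2 ⟨n12, (List.forall_mem_cons.2 ⟨n23, (List.forall_mem_cons.2 ⟨n34, (List.forall_mem_cons.2 ⟨n45, (List.forall_mem_cons.2 ⟨n56, (List.forall_mem_cons.2 ⟨n47, (List.forall_mem_nil _)⟩)⟩)⟩)⟩)⟩)⟩)⟩)⟩) ![0, 1, 1, 1, 1, 0, 0, 1] (by decide) ⟨1, by decide⟩ (by decide)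
  have z24 : T.a (v 2) (v 4) = 0 := by
    by_contra h
    exact no_config_list T (by omega) v hv [(2, 4, 1, 1), (0, 1, 1, 1), (1, 2, 1, 1), (2, 3, 1, 1), (3, 4, 1, 1), (4, 5, 1, 1), (5, 6, 1, 1), (4, 7, 1, 1)] (List.forall_mem_cons.2 ⟨(edge T (v.injective.ne (by decide : (2 : Fin 8) ≠ 4)) h), (List.forall_mem_cons.2 ⟨n01, (List.forall_mem_cons.2 ⟨n12, (List.forall_mem_cons.2 ⟨n23, (List.forall_mem_cons.2 ⟨n34, (List.forall_mem_cons.2 ⟨n45, (List.forall_mem_cons.2 ⟨n56, (List.forall_mem_cons.2 ⟨n47, (List.forall_mem_nil _)⟩)⟩)⟩)⟩)⟩)⟩)⟩)⟩) ![0, 0, 1, 1, 1, 0, 0, 0] (by decide) ⟨2, by decide⟩ (by decide)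
  have z25 : T.a (v 2) (v 5) = 0 := by
    by_contra h
    exact no_config_list T (by omega) v hv [(2, 5, 1, 1), (0, 1, 1, 1), (1, 2, 1, 1), (2, 3, 1, 1), (3, 4, 1, 1), (4, 5, 1, 1), (5, 6, 1, 1), (4, 7, 1, 1)] (List.forall_mem_cons.2 ⟨(edge T (v.injective.ne (by decide : (2 : Fin 8) ≠ 5)) h), (List.forall_mem_cons.2 ⟨n01, (List.forall_mem_cons.2 ⟨n12, (List.forall_mem_cons.2 ⟨n23, (List.forall_mem_cons.2 ⟨n34, (List.forall_mem_cons.2 ⟨n45, (List.forall_mem_cons.2 ⟨n56, (List.forall_mem_cons.2 ⟨n47, (List.forall_mem_nil _)⟩)⟩)⟩)⟩)⟩)⟩)⟩)⟩) ![0, 0, 1, 1, 1, 1, 0, 0] (by decide) ⟨2, by decide⟩ (by decide)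
  have z26 : T.a (v 2) (v 6) = 0 := by
    by_contra h
    exact no_config_list T (by omega) v hv [(2, 6, 1, 1), (0, 1, 1, 1), (1, 2, 1, 1), (2, 3, 1, 1), (3, 4, 1, 1), (4, 5, 1, 1), (5, 6, 1, 1), (4, 7, 1, 1)] (List.forall_mem_cons.2 ⟨(edge T (v.injective.ne (by decide : (2 : Fin 8) ≠ 6)) h), (List.forall_mem_cons.2 ⟨n01, (List.forall_mem_cons.2 ⟨n12, (List.forall_mem_cons.2 ⟨n23, (List.forall_mem_cons.2 ⟨n34, (List.forall_mem_cons.2 ⟨n45, (List.forall_mem_cons.2 ⟨n56, (List.forall_mem_cons.2 ⟨n47, (List.forall_mem_nil _)⟩)⟩)⟩)⟩)⟩)⟩)⟩)⟩) ![0, 0, 1, 1, 1, 1, 1, 0] (by decide) ⟨2, by decide⟩ (by decide)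
  have z27 : T.a (v 2) (v 7) = 0 := by
    by_contra h
    exact no_config_list T (by omega) v hv [(2, 7, 1, 1), (0, 1, 1, 1), (1, 2, 1, 1), (2, 3, 1, 1), (3, 4, 1, 1), (4, 5, 1, 1), (5, 6, 1, 1), (4, 7, 1, 1)] (List.forall_mem_cons.2 ⟨(edge T (v.injective.ne (by decide : (2 : Fin 8) ≠ 7)) h), (List.forall_mem_cons.2 ⟨n01, (List.forall_mem_cons.2 ⟨n12, (List.forall_mem_cons.2 ⟨n23, (List.forall_mem_cons.2 ⟨n34, (List.forall_mem_cons.2 ⟨n45, (List.forall_mem_cons.2 ⟨n56, (List.forall_mem_cons.2 ⟨n47, (List.forall_mem_nil _)⟩)⟩)⟩)⟩)⟩)⟩)⟩)⟩) ![0, 0, 1, 1, 1, 0, 0, 1] (by decide) ⟨2, by decide⟩ (by decide)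
  have z35 : T.a (v 3) (v 5) = 0 := by
    by_contra h
    exact no_config_list T (by omega) v hv [(3, 5, 1, 1), (0, 1, 1, 1), (1, 2, 1, 1), (2, 3, 1, 1), (3, 4, 1, 1), (4, 5, 1, 1), (5, 6, 1, 1), (4, 7, 1, 1)] (List.forall_mem_cons.2 ⟨(edge T (v.injective.ne (by decide : (3 : Fin 8) ≠ 5)) h), (List.forall_mem_cons.2 ⟨n01, (List.forall_mem_cons.2 ⟨n12, (List.forall_mem_cons.2 ⟨n23, (List.forall_mem_cons.2 ⟨n34, (List.forall_mem_cons.2 ⟨n45, (List.forall_mem_cons.2 ⟨n56, (List.forall_mem_cons.2 ⟨n47, (List.forall_mem_nil _)⟩)⟩)⟩)⟩)⟩)⟩)⟩)⟩) ![0, 0, 0, 1, 1, 1, 0, 0] (by decide) ⟨3, by decide⟩ (by decide)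
  have z36 : T.a (v 3) (v 6) = 0 := by
    by_contra h
    exact no_config_list T (by omega) v hv [(3, 6, 1, 1), (0, 1, 1, 1), (1, 2, 1, 1), (2, 3, 1, 1), (3, 4, 1, 1), (4, 5, 1, 1), (5, 6, 1, 1), (4, 7, 1, 1)] (List.forall_mem_cons.2 ⟨(edge T (v.injective.ne (by decide : (3 : Fin 8) ≠ 6)) h), (List.forall_mem_cons.2 ⟨n01, (List.forall_mem_cons.2 ⟨n12, (List.forall_mem_cons.2 ⟨n23, (List.forall_mem_cons.2 ⟨n34, (List.forall_mem_cons.2 ⟨n45, (List.forall_mem_cons.2 ⟨n56, (List.forall_mem_cons.2 ⟨n47, (List.forall_mem_nil _)⟩)⟩)⟩)⟩)⟩)⟩)⟩)⟩) ![0, 0, 0, 1, 1, 1, 1, 0] (by decide) ⟨3, by decide⟩ (by decide)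
  have z37 : T.a (v 3) (v 7) = 0 := by
    by_contra h
    exact no_config_list T (by omega) v hv [(3, 7, 1, 1), (0, 1, 1, 1), (1, 2, 1, 1), (2, 3, 1, 1), (3, 4, 1, 1), (4, 5, 1, 1), (5, 6, 1, 1), (4, 7, 1, 1)] (List.forall_mem_cons.2 ⟨(edge T (v.injective.ne (by decide : (3 : Fin 8) ≠ 7)) h), (List.forall_mem_cons.2 ⟨n01, (List.forall_mem_cons.2 ⟨n12, (List.forall_mem_cons.2 ⟨n23, (List.forall_mem_cons.2 ⟨n34, (List.forall_mem_cons.2 ⟨n45, (List.forall_mem_cons.2 ⟨n56, (List.forall_mem_cons.2 ⟨n47, (List.forall_mem_nil _)⟩)⟩)⟩)⟩)⟩)⟩)⟩)⟩) ![0, 0, 0, 1, 1, 0, 0, 1] (by decide) ⟨3, by decide⟩ (by decide)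
  have z46 : T.a (v 4) (v 6) = 0 := by
    by_contra h
    exact no_config_list T (by omega) v hv [(4, 6, 1, 1), (0, 1, 1, 1), (1, 2, 1, 1), (2, 3, 1, 1), (3, 4, 1, 1), (4, 5, 1, 1), (5, 6, 1, 1), (4, 7, 1, 1)] (List.forall_mem_cons.2 ⟨(edge T (v.injective.ne (by decide : (4 : Fin 8) ≠ 6)) h), (List.forall_mem_cons.2 ⟨n01, (List.forall_mem_cons.2 ⟨n12, (List.forall_mem_cons.2 ⟨n23, (List.forall_mem_cons.2 ⟨n34, (List.forall_mem_cons.2 ⟨n45, (List.forall_mem_cons.2 ⟨n56, (List.forall_mem_cons.2 ⟨n47, (List.forall_mem_nil _)⟩)⟩)⟩)⟩)⟩)⟩)⟩)⟩) ![0, 0, 0, 0, 1, 1, 1, 0] (by decide) ⟨4, by decide⟩ (by decide)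
  have z57 : T.a (v 5) (v 7) = 0 := by
    by_contra h
    exact no_config_list T (by omega) v hv [(5, 7, 1, 1), (0, 1, 1, 1), (1, 2, 1, 1), (2, 3, 1, 1), (3, 4, 1, 1), (4, 5, 1, 1), (5, 6, 1, 1), (4, 7, 1, 1)] (List.forall_mem_cons.2 ⟨(edge T (v.injective.ne (by decide : (5 : Fin 8) ≠ 7)) h), (List.forall_mem_cons.2 ⟨n01, (List.forall_mem_cons.2 ⟨n12, (List.forall_mem_cons.2 ⟨n23, (List.forall_mem_cons.2 ⟨n34, (List.forall_mem_cons.2 ⟨n45, (List.forall_mem_cons.2 ⟨n56, (List.forall_mem_cons.2 ⟨n47, (List.forall_mem_nil _)⟩)⟩)⟩)⟩)⟩)⟩)⟩)⟩) ![0, 0, 0, 0, 1, 1, 0, 1] (by decide) ⟨4, by decide⟩ (by decide)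
  have z67 : T.a (v 6) (v 7) = 0 := by
    by_contra h
    exact no_config_list T (by omega) v hv [(6, 7, 1, 1), (0, 1, 1, 1), (1, 2, 1, 1), (2, 3, 1, 1), (3, 4, 1, 1), (4, 5, 1, 1), (5, 6, 1, 1), (4, 7, 1, 1)] (List.forall_mem_cons.2 ⟨(edge T (v.injective.ne (by decide : (6 : Fin 8) ≠ 7)) h), (List.forall_mem_cons.2 ⟨n01, (List.forall_mem_cons.2 ⟨n12, (List.forall_mem_cons.2 ⟨n23, (List.forall_mem_cons.2 ⟨n34, (List.forall_mem_cons.2 ⟨n45, (List.forall_mem_cons.2 ⟨n56, (List.forall_mem_cons.2 ⟨n47, (List.forall_mem_nil _)⟩)⟩)⟩)⟩)⟩)⟩)⟩)⟩) ![0, 0, 0, 0, 1, 1, 1, 1] (by decide) ⟨4, by decide⟩ (by decide)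
  have r0 := row_le_c T v 0 (hv 0) {1} (by decide) (fun _ => 1) (by
    intro j hj
    simp only [Finset.mem_insert, Finset.mem_singleton] at hj
    subst hj
    · exact n01.1)
  simp only [one_mul] at r0
  rw [Finset.sum_singleton] at r0
  have r1 := row_le_c T v 1 (hv 1) {0, 2} (by decide) (fun _ => 1) (by
    intro j hj
    simp only [Finset.mem_insert, Finset.mem_singleton] at hj
    rcases hj with rfl | rfl
    · rw [a_symm T (v 1) (v 0)]; exact n01.2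
    · exact n12.1)
  simp only [one_mul] at r1
  rw [Finset.sum_insert (by decide)] at r1; rw [Finset.sum_singleton] at r1
  have r2 := row_le_c T v 2 (hv 2) {1, 3} (by decide) (fun _ => 1) (by
    intro j hj
    simp only [Finset.mem_insert, Finset.mem_singleton] at hj
    rcases hj with rfl | rfl
    · rw [a_symm T (v 2) (v 1)]; exact n12.2
    · exact n23.1)
  simp only [one_mul] at r2
  rw [Finset.sum_insert (by decide)] at r2; rw [Finset.sum_singleton] at r2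
  have r3 := row_le_c T v 3 (hv 3) {2, 4} (by decide) (fun _ => 1) (by
    intro j hj
    simp only [Finset.mem_insert, Finset.mem_singleton] at hj
    rcases hj with rfl | rfl
    · rw [a_symm T (v 3) (v 2)]; exact n23.2
    · exact n34.1)
  simp only [one_mul] at r3
  rw [Finset.sum_insert (by decide)] at r3; rw [Finset.sum_singleton] at r3
  have r4 := row_le_c T v 4 (hv 4) {3, 5, 7} (by decide) (fun _ => 1) (by
    intro j hj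
    simp only [Finset.mem_insert, Finset.mem_singleton] at hj
    rcases hj with rfl | rfl | rfl
    · rw [a_symm T (v 4) (v 3)]; exact n34.2
    · exact n45.1
    · exact n47.1)
  simp only [one_mul] at r4
  rw [Finset.sum_insert (by decide)] at r4; rw [Finset.sum_insert (by decide)] at r4; rw [Finset.sum_singleton] at r4
  have r5 := row_le_c T v 5 (hv 5) {4, 6} (by decide) (fun _ => 1) (by
    intro j hj
    simp only [Finset.mem_insert, Finset.mem_singleton] at hj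
    rcases hj with rfl | rfl
    · rw [a_symm T (v 5) (v 4)]; exact n45.2
    · exact n56.1)
  simp only [one_mul] at r5
  rw [Finset.sum_insert (by decide)] at r5; rw [Finset.sum_singleton] at r5
  have r6 := row_le_c T v 6 (hv 6) {5} (by decide) (fun _ => 1) (by
    intro j hj
    simp only [Finset.mem_insert, Finset.mem_singleton] at hj
    subst hj
    · rw [a_symm T (v 6) (v 5)]; exact n56.2)
  simp only [one_mul] at r6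
  rw [Finset.sum_singleton] at r6
  have r7 := row_le_c T v 7 (hv 7) {4} (by decide) (fun _ => 1) (by
    intro j hj
    simp only [Finset.mem_insert, Finset.mem_singleton] at hj
    subst hj
    · rw [a_symm T (v 7) (v 4)]; exact n47.2)
  simp only [one_mul] at r7
  rw [Finset.sum_singleton] at r7
  refine ⟨T.w (v 0), ?_, ?_⟩
  · intro j; fin_cases j <;> simp <;> omega
  · refine ⟨?_, ?_, ?_, ?_, ?_, ?_, ?_, ?_, ?_, ?_, ?_, ?_, ?_, ?_, ?_, ?_, ?_, ?_, ?_, ?_, ?_, ?_, ?_, ?_, ?_, ?_, ?_, ?_, ?_, ?_, ?_, ?_, ?_, ?_, ?_, ?_⟩ <;> omega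


end Groth.Agent.S7350
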