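import Groth.Statements.S7351
import Groth.Agent.Lib.Helper11_NumType

set_option autoImplicit false
open Finset
open Models Models.NumericalType

namespace Groth.Agent.S7351
open Groth.Agent.H11NT

/-- Let T be a numerical type on n > 5 indices. There do not exist five distinct (-2)-indices h, i, j,
k, l with a_hi > 0, a_hj > 0, a_hk > 0 and a_hl > 0. -/
theorem result {n : ℕ} (T : Models.NumericalType n) (hn : 5 < n)
    (v : Fin 5 ↪ Fin n) (hv : ∀ j, T.IsMinusTwo (v j))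
    (h01 : 0 < T.a (v 0) (v 1)) (h02 : 0 < T.a (v 0) (v 2)) (h03 : 0 < T.a (v 0) (v 3)) (h04 : 0 < T.a (v 0) (v 4)) : False := by
  exact no_config_list T (by omega) v hv [(0, 1, 1, 1), (0, 2, 1, 1), (0, 3, 1, 1), (0, 4, 1, 1)] (List.forall_mem_cons.2 ⟨(edge T (v.injective.ne (by decide : (0 : Fin 5) ≠ 1)) h01.ne'), (List.forall_mem_cons.2 ⟨(edge T (v.injective.ne (by decide : (0 : Fin 5) ≠ 2)) h02.ne'), (List.forall_mem_cons.2 ⟨(edge T (v.injective.ne (by decide : (0 : Fin 5) ≠ 3)) h03.ne'), (List.forall_mem_cons.2 ⟨(edge T (v.injective.ne (by decide : (0 : Fin 5) ≠ 4)) h04.ne'), (List.forall_mem_nil _)⟩)⟩)⟩)⟩) ![2, 1, 1, 1, 1] (by decide) ⟨0, by decide⟩ (by decide)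


end Groth.Agent.S7351
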