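import Groth.Statements.S7352
import Groth.Agent.Lib.Helper11_NumType

set_option autoImplicit false
open Finset
open Models Models.NumericalType

namespace Groth.Agent.S7352
open Groth.Agent.H11NT

/-- Classification of proper subgraphs which are chains of four vertices: let T be a numerical type on n
> 4 indices and i_1, …, i_4 distinct (-2)-indices with a_{i_j i_{j+1}} nonzero for j < 4. Then
a_{i_j i_l} = 0 for |j - l| ≥ 2 and, after possibly reversing the order of the indices, for some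
integer w one of the following holds: (A4) w = (w, w, w, w), consecutive a = (w, w, w), with 2m_1 ≥
m_2, 2m_2 ≥ m_1 + m_3, 2m_3 ≥ m_2 + m_4, 2m_4 ≥ m_3; (C4) w = (w, w, w, 2w), consecutive a = (w, w,
2w), with 2m_1 ≥ m_2, 2m_2 ≥ m_1 + m_3, 2m_3 ≥ m_2 + 2m_4, 2m_4 ≥ m_3; (B4) w = (2w, 2w, 2w, w),
consecutive a = (2w, 2w, 2w), with 2m_1 ≥ m_2, 2m_2 ≥ m_1 + m_3, 2m_3 ≥ m_2 + m_4, m_4 ≥ m_3; (F4) w
= (w, w, 2w, 2w), consecutive a = (w, 2w, 2w), with 2m_1 ≥ m_2, 2m_2 ≥ m_1 + 2m_3, 2m_3 ≥ m_2 + m_4,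
2m_4 ≥ m_3. -/
theorem result {n : ℕ} (T : Models.NumericalType n) (hn : 4 < n)
    (v : Fin 4 ↪ Fin n) (hv : ∀ j, T.IsMinusTwo (v j)) (h01 : T.a (v 0) (v 1) ≠ 0) (h12 : T.a (v 1) (v 2) ≠ 0) (h23 : T.a (v 2) (v 3) ≠ 0) :
    (T.a (v 0) (v 2) = 0 ∧ T.a (v 0) (v 3) = 0 ∧ T.a (v 1) (v 3) = 0) ∧
    ∃ (u : Fin 4 → Fin n) (w : ℤ), ((∀ j, u j = v j) ∨ (∀ j, u j = v (Fin.rev j))) ∧
      ((T.w (u 0) = w ∧ T.w (u 1) = w ∧ T.w (u 2) = w ∧ T.w (u 3) = w ∧ T.a (u 0) (u 1) = w ∧ T.a (u 1) (u 2) = w ∧ T.a (u 2) (u 3) = w ∧ T.m (u 1) ≤ 2 * T.m (u 0) ∧ T.m (u 0) + T.m (u 2) ≤ 2 * T.m (u 1) ∧ T.m (u 1) + T.m (u 3) ≤ 2 * T.m (u 2) ∧ T.m (u 2) ≤ 2 * T.m (u 3)) ∨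
      (T.w (u 0) = w ∧ T.w (u 1) = w ∧ T.w (u 2) = w ∧ T.w (u 3) = 2 * w ∧ T.a (u 0) (u 1) = w ∧ T.a (u 1) (u 2) = w ∧ T.a (u 2) (u 3) = 2 * w ∧ T.m (u 1) ≤ 2 * T.m (u 0) ∧ T.m (u 0) + T.m (u 2) ≤ 2 * T.m (u 1) ∧ T.m (u 1) + 2 * T.m (u 3) ≤ 2 * T.m (u 2) ∧ T.m (u 2) ≤ 2 * T.m (u 3)) ∨
      (T.w (u 0) = 2 * w ∧ T.w (u 1) = 2 * w ∧ T.w (u 2) = 2 * w ∧ T.w (u 3) = w ∧ T.a (u 0) (u 1) = 2 * w ∧ T.a (u 1) (u 2) = 2 * w ∧ T.a (u 2) (u 3) = 2 * w ∧ T.m (u 1) ≤ 2 * T.m (u 0) ∧ T.m (u 0) + T.m (u 2) ≤ 2 * T.m (u 1) ∧ T.m (u 1) + T.m (u 3) ≤ 2 * T.m (u 2) ∧ T.m (u 2) ≤ T.m (u 3)) ∨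
      (T.w (u 0) = w ∧ T.w (u 1) = w ∧ T.w (u 2) = 2 * w ∧ T.w (u 3) = 2 * w ∧ T.a (u 0) (u 1) = w ∧ T.a (u 1) (u 2) = 2 * w ∧ T.a (u 2) (u 3) = 2 * w ∧ T.m (u 1) ≤ 2 * T.m (u 0) ∧ T.m (u 0) + 2 * T.m (u 2) ≤ 2 * T.m (u 1) ∧ T.m (u 1) + T.m (u 3) ≤ 2 * T.m (u 2) ∧ T.m (u 2) ≤ 2 * T.m (u 3))) := by
  have n01 := edge T (v.injective.ne (by decide : (0 : Fin 4) ≠ 1)) h01
  have n12 := edge T (v.injective.ne (by decide : (1 : Fin 4) ≠ 2)) h12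
  have n23 := edge T (v.injective.ne (by decide : (2 : Fin 4) ≠ 3)) h23
  have z02 : T.a (v 0) (v 2) = 0 := by
    by_contra h
    exact no_config_list T (by omega) v hv [(0, 2, 1, 1), (0, 1, 1, 1), (1, 2, 1, 1), (2, 3, 1, 1)] (List.forall_mem_cons.2 ⟨(edge T (v.injective.ne (by decide : (0 : Fin 4) ≠ 2)) h), (List.forall_mem_cons.2 ⟨n01, (List.forall_mem_cons.2 ⟨n12, (List.forall_mem_cons.2 ⟨n23, (List.forall_mem_nil _)⟩)⟩)⟩)⟩) ![1, 1, 1, 0] (by decide) ⟨0, by decide⟩ (by decide)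
  have z03 : T.a (v 0) (v 3) = 0 := by
    by_contra h
    exact no_config_list T (by omega) v hv [(0, 3, 1, 1), (0, 1, 1, 1), (1, 2, 1, 1), (2, 3, 1, 1)] (List.forall_mem_cons.2 ⟨(edge T (v.injective.ne (by decide : (0 : Fin 4) ≠ 3)) h), (List.forall_mem_cons.2 ⟨n01, (List.forall_mem_cons.2 ⟨n12, (List.forall_mem_cons.2 ⟨n23, (List.forall_mem_nil _)⟩)⟩)⟩)⟩) ![1, 1, 1, 1] (by decide) ⟨0, by decide⟩ (by decide)
  have z13 : T.a (v 1) (v 3) = 0 := by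
    by_contra h
    exact no_config_list T (by omega) v hv [(1, 3, 1, 1), (0, 1, 1, 1), (1, 2, 1, 1), (2, 3, 1, 1)] (List.forall_mem_cons.2 ⟨(edge T (v.injective.ne (by decide : (1 : Fin 4) ≠ 3)) h), (List.forall_mem_cons.2 ⟨n01, (List.forall_mem_cons.2 ⟨n12, (List.forall_mem_cons.2 ⟨n23, (List.forall_mem_nil _)⟩)⟩)⟩)⟩) ![0, 1, 1, 1] (by decide) ⟨1, by decide⟩ (by decide)
  have s10 : T.a (v 1) (v 0) = T.a (v 0) (v 1) := a_symm T _ _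
  have t0 := edge_tri T (v.injective.ne (by decide : (0 : Fin 4) ≠ 1)) h01 (fun h => no_config_list T (by omega) v hv [(0, 1, 3, 1), (1, 2, 1, 1), (2, 3, 1, 1)] (List.forall_mem_cons.2 ⟨h, (List.forall_mem_cons.2 ⟨n12, (List.forall_mem_cons.2 ⟨n23, (List.forall_mem_nil _)⟩)⟩)⟩) ![3, 2, 1, 0] (by decide) ⟨0, by decide⟩ (by decide)) (fun h => no_config_list T (by omega) v hv [(0, 1, 1, 3), (1, 2, 1, 1), (2, 3, 1, 1)] (List.forall_mem_cons.2 ⟨h, (List.forall_mem_cons.2 ⟨n12, (List.forall_mem_cons.2 ⟨n23, (List.forall_mem_nil _)⟩)⟩)⟩) ![1, 2, 1, 0] (by decide) ⟨0, by decide⟩ (by decide)) (fun h => no_config_list T (by omega) v hv [(0, 1, 2, 2), (1, 2, 1, 1), (2, 3, 1, 1)] (List.forall_mem_cons.2 ⟨h, (List.forall_mem_cons.2 ⟨n12, (List.forall_mem_cons.2 ⟨n23, (List.forall_mem_nil _)⟩)⟩)⟩) ![1, 1, 0, 0] (by decide) ⟨0, by decide⟩ (by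 decide))
  have s21 : T.a (v 2) (v 1) = T.a (v 1) (v 2) := a_symm T _ _
  have t1 := edge_tri T (v.injective.ne (by decide : (1 : Fin 4) ≠ 2)) h12 (fun h => no_config_list T (by omega) v hv [(0, 1, 1, 1), (1, 2, 3, 1), (2, 3, 1, 1)] (List.forall_mem_cons.2 ⟨n01, (List.forall_mem_cons.2 ⟨h, (List.forall_mem_cons.2 ⟨n23, (List.forall_mem_nil _)⟩)⟩)⟩) ![1, 2, 1, 0] (by decide) ⟨0, by decide⟩ (by decide)) (fun h => no_config_list T (by omega) v hv [(0, 1, 1, 1), (1, 2, 1, 3), (2, 3, 1, 1)] (List.forall_mem_cons.2 ⟨n01, (List.forall_mem_cons.2 ⟨h, (List.forall_mem_cons.2 ⟨n23, (List.forall_mem_nil _)⟩)⟩)⟩) ![0, 1, 2, 1] (by decide) ⟨1, by decide⟩ (by decide)) (fun h => no_config_list T (by omega) v hv [(0, 1, 1, 1), (1, 2, 2, 2), (2, 3, 1, 1)] (List.forall_mem_cons.2 ⟨n01, (List.forall_mem_cons.2 ⟨h, (List.forall_mem_cons.2 ⟨n23, (List.forall_mem_nil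 _)⟩)⟩)⟩) ![0, 1, 1, 0] (by decide) ⟨1, by decide⟩ (by decide))
  have s32 : T.a (v 3) (v 2) = T.a (v 2) (v 3) := a_symm T _ _
  have t2 := edge_tri T (v.injective.ne (by decide : (2 : Fin 4) ≠ 3)) h23 (fun h => no_config_list T (by omega) v hv [(0, 1, 1, 1), (1, 2, 1, 1), (2, 3, 3, 1)] (List.forall_mem_cons.2 ⟨n01, (List.forall_mem_cons.2 ⟨n12, (List.forall_mem_cons.2 ⟨h, (List.forall_mem_nil _)⟩)⟩)⟩) ![0, 1, 2, 1] (by decide) ⟨1, by decide⟩ (by decide)) (fun h => no_config_list T (by omega) v hv [(0, 1, 1, 1), (1, 2, 1, 1), (2, 3, 1, 3)] (List.forall_mem_cons.2 ⟨n01, (List.forall_mem_cons.2 ⟨n12, (List.forall_mem_cons.2 ⟨h, (List.forall_mem_nil _)⟩)⟩)⟩) ![0, 1, 2, 3] (by decide) ⟨1, by decide⟩ (by decide)) (fun h => no_config_list T (by omega) v hv [(0, 1, 1, 1), (1, 2, 1, 1), (2, 3, 2, 2)] (List.forall_mem_cons.2 ⟨n01, (List.forall_mem_cons.2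 ⟨n12, (List.forall_mem_cons.2 ⟨h, (List.forall_mem_nil _)⟩)⟩)⟩) ![0, 0, 1, 1] (by decide) ⟨2, by decide⟩ (by decide))
  refine ⟨⟨z02, z03, z13⟩, ?_⟩
  have hr0 : Fin.rev (0 : Fin 4) = 3 := by decide
  have hr1 : Fin.rev (1 : Fin 4) = 2 := by decide
  have hr2 : Fin.rev (2 : Fin 4) = 1 := by decide
  have hr3 : Fin.rev (3 : Fin 4) = 0 := by decide
  rcases t0 with ⟨a0, b0⟩ | ⟨a0, b0⟩ | ⟨a0, b0⟩
  · skip
    rcases t1 with ⟨a1, b1⟩ | ⟨a1, b1⟩ | ⟨a1, b1⟩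
    · skip
      rcases t2 with ⟨a2, b2⟩ | ⟨a2, b2⟩ | ⟨a2, b2⟩
      · skip
        have r0 := row1 T (v.injective.ne (by decide : (0 : Fin 4) ≠ 1)) (hv 0) 1 (by omega)
        have r1 := row2 T (v.injective.ne (by decide : (1 : Fin 4) ≠ 0)) (v.injective.ne (by decide : (1 : Fin 4) ≠ 2)) (v.injective.ne (by decide : (0 : Fin 4) ≠ 2)) (hv 1) 1 1 (by omega) (by omega)
        have r2 := row2 T (v.injective.ne (by decide : (2 : Fin 4) ≠ 1)) (v.injective.ne (by decide : (2 : Fin 4) ≠ 3)) (v.injective.ne (by decide : (1 : Fin 4) ≠ 3)) (hv 2) 1 1 (by omega) (by omega)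
        have r3 := row1 T (v.injective.ne (by decide : (3 : Fin 4) ≠ 2)) (hv 3) 1 (by omega)
        refine ⟨fun j => v j, T.w (v 0), Or.inl (fun _ => rfl), ?_⟩
        left
        beta_reduce
        refine ⟨?_, ?_, ?_, ?_, ?_, ?_, ?_, ?_, ?_, ?_, ?_⟩ <;> first | trivial | omega
      · skip
        have r0 := row1 T (v.injective.ne (by decide : (0 : Fin 4) ≠ 1)) (hv 0) 1 (by omega)
        have r1 := row2 T (v.injective.ne (by decide : (1 : Fin 4) ≠ 0)) (v.injective.ne (by decide : (1 : Fin 4) ≠ 2)) (v.injective.ne (by decide : (0 : Fin 4) ≠ 2)) (hv 1) 1 1 (by omega) (by omega)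
        have r2 := row2 T (v.injective.ne (by decide : (2 : Fin 4) ≠ 1)) (v.injective.ne (by decide : (2 : Fin 4) ≠ 3)) (v.injective.ne (by decide : (1 : Fin 4) ≠ 3)) (hv 2) 1 2 (by omega) (by omega)
        have r3 := row1 T (v.injective.ne (by decide : (3 : Fin 4) ≠ 2)) (hv 3) 1 (by omega)
        refine ⟨fun j => v j, T.w (v 0), Or.inl (fun _ => rfl), ?_⟩
        right
        left
        beta_reduce
        refine ⟨?_, ?_, ?_, ?_, ?_, ?_, ?_, ?_, ?_, ?_, ?_⟩ <;> first | trivial | omega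
      · skip
        have r0 := row1 T (v.injective.ne (by decide : (0 : Fin 4) ≠ 1)) (hv 0) 1 (by omega)
        have r1 := row2 T (v.injective.ne (by decide : (1 : Fin 4) ≠ 0)) (v.injective.ne (by decide : (1 : Fin 4) ≠ 2)) (v.injective.ne (by decide : (0 : Fin 4) ≠ 2)) (hv 1) 1 1 (by omega) (by omega)
        have r2 := row2 T (v.injective.ne (by decide : (2 : Fin 4) ≠ 1)) (v.injective.ne (by decide : (2 : Fin 4) ≠ 3)) (v.injective.ne (by decide : (1 : Fin 4) ≠ 3)) (hv 2) 1 1 (by omega) (by omega)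
        have r3 := row1 T (v.injective.ne (by decide : (3 : Fin 4) ≠ 2)) (hv 3) 2 (by omega)
        refine ⟨fun j => v j, T.w (v 3), Or.inl (fun _ => rfl), ?_⟩
        right
        right
        left
        beta_reduce
        refine ⟨?_, ?_, ?_, ?_, ?_, ?_, ?_, ?_, ?_, ?_, ?_⟩ <;> first | trivial | omega
    · skip
      rcases t2 with ⟨a2, b2⟩ | ⟨a2, b2⟩ | ⟨a2, b2⟩
      · skip
        have r0 := row1 T (v.injective.ne (by decide : (0 : Fin 4) ≠ 1)) (hv 0) 1 (by omega)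
        have r1 := row2 T (v.injective.ne (by decide : (1 : Fin 4) ≠ 0)) (v.injective.ne (by decide : (1 : Fin 4) ≠ 2)) (v.injective.ne (by decide : (0 : Fin 4) ≠ 2)) (hv 1) 1 2 (by omega) (by omega)
        have r2 := row2 T (v.injective.ne (by decide : (2 : Fin 4) ≠ 1)) (v.injective.ne (by decide : (2 : Fin 4) ≠ 3)) (v.injective.ne (by decide : (1 : Fin 4) ≠ 3)) (hv 2) 1 1 (by omega) (by omega)
        have r3 := row1 T (v.injective.ne (by decide : (3 : Fin 4) ≠ 2)) (hv 3) 1 (by omega)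
        refine ⟨fun j => v j, T.w (v 0), Or.inl (fun _ => rfl), ?_⟩
        right
        right
        right
        beta_reduce
        refine ⟨?_, ?_, ?_, ?_, ?_, ?_, ?_, ?_, ?_, ?_, ?_⟩ <;> first | trivial | omega
      · skip
        exact (no_config_list T (by omega) v hv [(0, 1, 1, 1), (1, 2, 2, 1), (2, 3, 2, 1)] (List.forall_mem_cons.2 ⟨⟨(by omega : (1 : ℤ) * T.w (v 0) ≤ T.a (v 0) (v 1)), (by omega : (1 : ℤ) * T.w (v 1) ≤ T.a (v 0) (v 1))⟩, (List.forall_mem_cons.2 ⟨⟨(by omega : (2 : ℤ) * T.w (v 1) ≤ T.a (v 1) (v 2)), (by omega : (1 : ℤ) * T.w (v 2) ≤ T.a (v 1) (v 2))⟩, (List.forall_mem_cons.2 ⟨⟨(by omega : (2 : ℤ) * T.w (v 2) ≤ T.a (v 2) (v 3)), (by omega : (1 : ℤ) * T.w (v 3) ≤ T.a (v 2) (v 3))⟩, (List.forall_mem_nil _)⟩)⟩)⟩) ![0, 2, 2, 1] (by decide) ⟨1, by decide⟩ (by decide)).elim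
      · skip
        exact (no_config_list T (by omega) v hv [(0, 1, 1, 1), (1, 2, 2, 1), (2, 3, 1, 2)] (List.forall_mem_cons.2 ⟨⟨(by omega : (1 : ℤ) * T.w (v 0) ≤ T.a (v 0) (v 1)), (by omega : (1 : ℤ) * T.w (v 1) ≤ T.a (v 0) (v 1))⟩, (List.forall_mem_cons.2 ⟨⟨(by omega : (2 : ℤ) * T.w (v 1) ≤ T.a (v 1) (v 2)), (by omega : (1 : ℤ) * T.w (v 2) ≤ T.a (v 1) (v 2))⟩, (List.forall_mem_cons.2 ⟨⟨(by omega : (1 : ℤ) * T.w (v 2) ≤ T.a (v 2) (v 3)), (by omega : (2 : ℤ) * T.w (v 3) ≤ T.a (v 2) (v 3))⟩, (List.forall_mem_nil _)⟩)⟩)⟩) ![0, 1, 1, 1] (by decide) ⟨1, by decide⟩ (by decide)).elim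
    · skip
      rcases t2 with ⟨a2, b2⟩ | ⟨a2, b2⟩ | ⟨a2, b2⟩
      · skip
        have r0 := row1 T (v.injective.ne (by decide : (0 : Fin 4) ≠ 1)) (hv 0) 1 (by omega)
        have r1 := row2 T (v.injective.ne (by decide : (1 : Fin 4) ≠ 0)) (v.injective.ne (by decide : (1 : Fin 4) ≠ 2)) (v.injective.ne (by decide : (0 : Fin 4) ≠ 2)) (hv 1) 1 1 (by omega) (by omega)
        have r2 := row2 T (v.injective.ne (by decide : (2 : Fin 4) ≠ 1)) (v.injective.ne (by decide : (2 : Fin 4) ≠ 3)) (v.injective.ne (by decide : (1 : Fin 4) ≠ 3)) (hv 2) 2 1 (by omega) (by omega)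
        have r3 := row1 T (v.injective.ne (by decide : (3 : Fin 4) ≠ 2)) (hv 3) 1 (by omega)
        refine ⟨fun j => v (Fin.rev j), T.w (v 2), Or.inr (fun _ => rfl), ?_⟩
        right
        right
        right
        beta_reduce
        simp only [hr0, hr1, hr2, hr3]
        refine ⟨?_, ?_, ?_, ?_, ?_, ?_, ?_, ?_, ?_, ?_, ?_⟩ <;> first | trivial | omega
      · skip
        exact (no_config_list T (by omega) v hv [(0, 1, 1, 1), (1, 2, 1, 2), (2, 3, 2, 1)] (List.forall_mem_cons.2 ⟨⟨(by omega : (1 : ℤ) * T.w (v 0) ≤ T.a (v 0) (v 1)), (by omega : (1 : ℤ) * T.w (v 1) ≤ T.a (v 0) (v 1))⟩, (List.forall_mem_cons.2 ⟨⟨(by omega : (1 : ℤ) * T.w (v 1) ≤ T.a (v 1) (v 2)), (by omega : (2 : ℤ) * T.w (v 2) ≤ T.a (v 1) (v 2))⟩, (List.forall_mem_cons.2 ⟨⟨(by omega : (2 : ℤ) * T.w (v 2) ≤ T.a (v 2) (v 3)), (by omega : (1 : ℤ) * T.w (v 3) ≤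 T.a (v 2) (v 3))⟩, (List.forall_mem_nil _)⟩)⟩)⟩) ![0, 1, 2, 1] (by decide) ⟨1, by decide⟩ (by decide)).elim
      · skip
        exact (no_config_list T (by omega) v hv [(0, 1, 1, 1), (1, 2, 1, 2), (2, 3, 1, 2)] (List.forall_mem_cons.2 ⟨⟨(by omega : (1 : ℤ) * T.w (v 0) ≤ T.a (v 0) (v 1)), (by omega : (1 : ℤ) * T.w (v 1) ≤ T.a (v 0) (v 1))⟩, (List.forall_mem_cons.2 ⟨⟨(by omega : (1 : ℤ) * T.w (v 1) ≤ T.a (v 1) (v 2)), (by omega : (2 : ℤ) * T.w (v 2) ≤ T.a (v 1) (v 2))⟩, (List.forall_mem_cons.2 ⟨⟨(by omega : (1 : ℤ) * T.w (v 2) ≤ T.a (v 2) (v 3)), (by omega : (2 : ℤ) * T.w (v 3) ≤ T.a (v 2) (v 3))⟩, (List.forall_mem_nil _)⟩)⟩)⟩) ![0, 1, 2, 2] (by decide) ⟨1, by decide⟩ (by decide)).elim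
  · skip
    rcases t1 with ⟨a1, b1⟩ | ⟨a1, b1⟩ | ⟨a1, b1⟩
    · skip
      rcases t2 with ⟨a2, b2⟩ | ⟨a2, b2⟩ | ⟨a2, b2⟩
      · skip
        have r0 := row1 T (v.injective.ne (by decide : (0 : Fin 4) ≠ 1)) (hv 0) 2 (by omega)
        have r1 := row2 T (v.injective.ne (by decide : (1 : Fin 4) ≠ 0)) (v.injective.ne (by decide : (1 : Fin 4) ≠ 2)) (v.injective.ne (by decide : (0 : Fin 4) ≠ 2)) (hv 1) 1 1 (by omega) (by omega)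
        have r2 := row2 T (v.injective.ne (by decide : (2 : Fin 4) ≠ 1)) (v.injective.ne (by decide : (2 : Fin 4) ≠ 3)) (v.injective.ne (by decide : (1 : Fin 4) ≠ 3)) (hv 2) 1 1 (by omega) (by omega)
        have r3 := row1 T (v.injective.ne (by decide : (3 : Fin 4) ≠ 2)) (hv 3) 1 (by omega)
        refine ⟨fun j => v (Fin.rev j), T.w (v 0), Or.inr (fun _ => rfl), ?_⟩
        right
        right
        left
        beta_reduce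
        simp only [hr0, hr1, hr2, hr3]
        refine ⟨?_, ?_, ?_, ?_, ?_, ?_, ?_, ?_, ?_, ?_, ?_⟩ <;> first | trivial | omega
      · skip
        exact (no_config_list T (by omega) v hv [(0, 1, 2, 1), (1, 2, 1, 1), (2, 3, 2, 1)] (List.forall_mem_cons.2 ⟨⟨(by omega : (2 : ℤ) * T.w (v 0) ≤ T.a (v 0) (v 1)), (by omega : (1 : ℤ) * T.w (v 1) ≤ T.a (v 0) (v 1))⟩, (List.forall_mem_cons.2 ⟨⟨(by omega : (1 : ℤ) * T.w (v 1) ≤ T.a (v 1) (v 2)), (by omega : (1 : ℤ) * T.w (v 2) ≤ T.a (v 1) (v 2))⟩, (List.forall_mem_cons.2 ⟨⟨(by omega : (2 : ℤ) * T.w (v 2) ≤ T.a (v 2) (v 3)), (by omega : (1 : ℤ) * T.w (v 3) ≤ T.a (v 2) (v 3))⟩, (List.forall_mem_nil _)⟩)⟩)⟩) ![2, 2, 2, 1] (by decide) ⟨0, by decide⟩ (by decide)).elim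
      · skip
        exact (no_config_list T (by omega) v hv [(0, 1, 2, 1), (1, 2, 1, 1), (2, 3, 1, 2)] (List.forall_mem_cons.2 ⟨⟨(by omega : (2 : ℤ) * T.w (v 0) ≤ T.a (v 0) (v 1)), (by omega : (1 : ℤ) * T.w (v 1) ≤ T.a (v 0) (v 1))⟩, (List.forall_mem_cons.2 ⟨⟨(by omega : (1 : ℤ) * T.w (v 1) ≤ T.a (v 1) (v 2)), (by omega : (1 : ℤ) * T.w (v 2) ≤ T.a (v 1) (v 2))⟩, (List.forall_mem_cons.2 ⟨⟨(by omega : (1 : ℤ) * T.w (v 2) ≤ T.a (v 2) (v 3)), (by omega : (2 : ℤ) * T.w (v 3) ≤ T.a (v 2) (v 3))⟩, (List.forall_mem_nil _)⟩)⟩)⟩) ![1, 1, 1, 1] (by decide) ⟨0, by decide⟩ (by decide)).elim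
    · skip
      rcases t2 with ⟨a2, b2⟩ | ⟨a2, b2⟩ | ⟨a2, b2⟩
      · skip
        exact (no_config_list T (by omega) v hv [(0, 1, 2, 1), (1, 2, 2, 1), (2, 3, 1, 1)] (List.forall_mem_cons.2 ⟨⟨(by omega : (2 : ℤ) * T.w (v 0) ≤ T.a (v 0) (v 1)), (by omega : (1 : ℤ) * T.w (v 1) ≤ T.a (v 0) (v 1))⟩, (List.forall_mem_cons.2 ⟨⟨(by omega : (2 : ℤ) * T.w (v 1) ≤ T.a (v 1) (v 2)), (by omega : (1 : ℤ) * T.w (v 2) ≤ T.a (v 1) (v 2))⟩, (List.forall_mem_cons.2 ⟨⟨(by omega : (1 : ℤ) * T.w (v 2) ≤ T.a (v 2) (v 3)), (by omega : (1 : ℤ) * T.w (v 3) ≤ T.a (v 2) (v 3))⟩, (List.forall_mem_nil _)⟩)⟩)⟩) ![2, 2, 1, 0] (by decide) ⟨0, by decide⟩ (by decide)).elim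
      · skip
        exact (no_config_list T (by omega) v hv [(0, 1, 2, 1), (1, 2, 2, 1), (2, 3, 2, 1)] (List.forall_mem_cons.2 ⟨⟨(by omega : (2 : ℤ) * T.w (v 0) ≤ T.a (v 0) (v 1)), (by omega : (1 : ℤ) * T.w (v 1) ≤ T.a (v 0) (v 1))⟩, (List.forall_mem_cons.2 ⟨⟨(by omega : (2 : ℤ) * T.w (v 1) ≤ T.a (v 1) (v 2)), (by omega : (1 : ℤ) * T.w (v 2) ≤ T.a (v 1) (v 2))⟩, (List.forall_mem_cons.2 ⟨⟨(by omega : (2 : ℤ) * T.w (v 2) ≤ T.a (v 2) (v 3)), (by omega : (1 : ℤ) * T.w (v 3) ≤ T.a (v 2) (v 3))⟩, (List.forall_mem_nil _)⟩)⟩)⟩) ![0, 2, 2, 1] (by decide) ⟨1, by decide⟩ (by decide)).elim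
      · skip
        exact (no_config_list T (by omega) v hv [(0, 1, 2, 1), (1, 2, 2, 1), (2, 3, 1, 2)] (List.forall_mem_cons.2 ⟨⟨(by omega : (2 : ℤ) * T.w (v 0) ≤ T.a (v 0) (v 1)), (by omega : (1 : ℤ) * T.w (v 1) ≤ T.a (v 0) (v 1))⟩, (List.forall_mem_cons.2 ⟨⟨(by omega : (2 : ℤ) * T.w (v 1) ≤ T.a (v 1) (v 2)), (by omega : (1 : ℤ) * T.w (v 2) ≤ T.a (v 1) (v 2))⟩, (List.forall_mem_cons.2 ⟨⟨(by omega : (1 : ℤ) * T.w (v 2) ≤ T.a (v 2) (v 3)), (by omega : (2 : ℤ) * T.w (v 3) ≤ T.a (v 2) (v 3))⟩, (List.forall_mem_nil _)⟩)⟩)⟩) ![0, 1, 1, 1] (by decide) ⟨1, by decide⟩ (by decide)).elim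
    · skip
      rcases t2 with ⟨a2, b2⟩ | ⟨a2, b2⟩ | ⟨a2, b2⟩
      · skip
        exact (no_config_list T (by omega) v hv [(0, 1, 2, 1), (1, 2, 1, 2), (2, 3, 1, 1)] (List.forall_mem_cons.2 ⟨⟨(by omega : (2 : ℤ) * T.w (v 0) ≤ T.a (v 0) (v 1)), (by omega : (1 : ℤ) * T.w (v 1) ≤ T.a (v 0) (v 1))⟩, (List.forall_mem_cons.2 ⟨⟨(by omega : (1 : ℤ) * T.w (v 1) ≤ T.a (v 1) (v 2)), (by omega : (2 : ℤ) * T.w (v 2) ≤ T.a (v 1) (v 2))⟩, (List.forall_mem_cons.2 ⟨⟨(by omega : (1 : ℤ) * T.w (v 2) ≤ T.a (v 2) (v 3)), (by omega : (1 : ℤ) * T.w (v 3) ≤ T.a (v 2) (v 3))⟩, (List.forall_mem_nil _)⟩)⟩)⟩) ![1, 1, 1, 0] (by decide) ⟨0, by decide⟩ (by decide)).elim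
      · skip
        exact (no_config_list T (by omega) v hv [(0, 1, 2, 1), (1, 2, 1, 2), (2, 3, 2, 1)] (List.forall_mem_cons.2 ⟨⟨(by omega : (2 : ℤ) * T.w (v 0) ≤ T.a (v 0) (v 1)), (by omega : (1 : ℤ) * T.w (v 1) ≤ T.a (v 0) (v 1))⟩, (List.forall_mem_cons.2 ⟨⟨(by omega : (1 : ℤ) * T.w (v 1) ≤ T.a (v 1) (v 2)), (by omega : (2 : ℤ) * T.w (v 2) ≤ T.a (v 1) (v 2))⟩, (List.forall_mem_cons.2 ⟨⟨(by omega : (2 : ℤ) * T.w (v 2) ≤ T.a (v 2) (v 3)), (by omega : (1 : ℤ) * T.w (v 3) ≤ T.a (v 2) (v 3))⟩, (List.forall_mem_nil _)⟩)⟩)⟩) ![1, 1, 1, 0] (by decide) ⟨0, by decide⟩ (by decide)).elim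
      · skip
        exact (no_config_list T (by omega) v hv [(0, 1, 2, 1), (1, 2, 1, 2), (2, 3, 1, 2)] (List.forall_mem_cons.2 ⟨⟨(by omega : (2 : ℤ) * T.w (v 0) ≤ T.a (v 0) (v 1)), (by omega : (1 : ℤ) * T.w (v 1) ≤ T.a (v 0) (v 1))⟩, (List.forall_mem_cons.2 ⟨⟨(by omega : (1 : ℤ) * T.w (v 1) ≤ T.a (v 1) (v 2)), (by omega : (2 : ℤ) * T.w (v 2) ≤ T.a (v 1) (v 2))⟩, (List.forall_mem_cons.2 ⟨⟨(by omega : (1 : ℤ) * T.w (v 2) ≤ T.a (v 2) (v 3)), (by omega : (2 : ℤ) * T.w (v 3) ≤ T.a (v 2) (v 3))⟩, (List.forall_mem_nil _)⟩)⟩)⟩) ![1, 1, 1, 0] (by decide) ⟨0, by decide⟩ (by decide)).elim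
  · skip
    rcases t1 with ⟨a1, b1⟩ | ⟨a1, b1⟩ | ⟨a1, b1⟩
    · skip
      rcases t2 with ⟨a2, b2⟩ | ⟨a2, b2⟩ | ⟨a2, b2⟩
      · skip
        have r0 := row1 T (v.injective.ne (by decide : (0 : Fin 4) ≠ 1)) (hv 0) 1 (by omega)
        have r1 := row2 T (v.injective.ne (by decide : (1 : Fin 4) ≠ 0)) (v.injective.ne (by decide : (1 : Fin 4) ≠ 2)) (v.injective.ne (by decide : (0 : Fin 4) ≠ 2)) (hv 1) 2 1 (by omega) (by omega)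
        have r2 := row2 T (v.injective.ne (by decide : (2 : Fin 4) ≠ 1)) (v.injective.ne (by decide : (2 : Fin 4) ≠ 3)) (v.injective.ne (by decide : (1 : Fin 4) ≠ 3)) (hv 2) 1 1 (by omega) (by omega)
        have r3 := row1 T (v.injective.ne (by decide : (3 : Fin 4) ≠ 2)) (hv 3) 1 (by omega)
        refine ⟨fun j => v (Fin.rev j), T.w (v 1), Or.inr (fun _ => rfl), ?_⟩
        right
        left
        beta_reduce
        simp only [hr0, hr1, hr2, hr3]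
        refine ⟨?_, ?_, ?_, ?_, ?_, ?_, ?_, ?_, ?_, ?_, ?_⟩ <;> first | trivial | omega
      · skip
        exact (no_config_list T (by omega) v hv [(0, 1, 1, 2), (1, 2, 1, 1), (2, 3, 2, 1)] (List.forall_mem_cons.2 ⟨⟨(by omega : (1 : ℤ) * T.w (v 0) ≤ T.a (v 0) (v 1)), (by omega : (2 : ℤ) * T.w (v 1) ≤ T.a (v 0) (v 1))⟩, (List.forall_mem_cons.2 ⟨⟨(by omega : (1 : ℤ) * T.w (v 1) ≤ T.a (v 1) (v 2)), (by omega : (1 : ℤ) * T.w (v 2) ≤ T.a (v 1) (v 2))⟩, (List.forall_mem_cons.2 ⟨⟨(by omega : (2 : ℤ) * T.w (v 2) ≤ T.a (v 2) (v 3)), (by omega : (1 : ℤ) * T.w (v 3) ≤ T.a (v 2) (v 3))⟩, (List.forall_mem_nil _)⟩)⟩)⟩) ![1, 2, 2, 1] (by decide) ⟨0, by decide⟩ (by decide)).elim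
      · skip
        exact (no_config_list T (by omega) v hv [(0, 1, 1, 2), (1, 2, 1, 1), (2, 3, 1, 2)] (List.forall_mem_cons.2 ⟨⟨(by omega : (1 : ℤ) * T.w (v 0) ≤ T.a (v 0) (v 1)), (by omega : (2 : ℤ) * T.w (v 1) ≤ T.a (v 0) (v 1))⟩, (List.forall_mem_cons.2 ⟨⟨(by omega : (1 : ℤ) * T.w (v 1) ≤ T.a (v 1) (v 2)), (by omega : (1 : ℤ) * T.w (v 2) ≤ T.a (v 1) (v 2))⟩, (List.forall_mem_cons.2 ⟨⟨(by omega : (1 : ℤ) * T.w (v 2) ≤ T.a (v 2) (v 3)), (by omega : (2 : ℤ) * T.w (v 3) ≤ T.a (v 2) (v 3))⟩, (List.forall_mem_nil _)⟩)⟩)⟩) ![1, 2, 2, 2] (by decide) ⟨0, by decide⟩ (by decide)).elim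
    · skip
      rcases t2 with ⟨a2, b2⟩ | ⟨a2, b2⟩ | ⟨a2, b2⟩
      · skip
        exact (no_config_list T (by omega) v hv [(0, 1, 1, 2), (1, 2, 2, 1), (2, 3, 1, 1)] (List.forall_mem_cons.2 ⟨⟨(by omega : (1 : ℤ) * T.w (v 0) ≤ T.a (v 0) (v 1)), (by omega : (2 : ℤ) * T.w (v 1) ≤ T.a (v 0) (v 1))⟩, (List.forall_mem_cons.2 ⟨⟨(by omega : (2 : ℤ) * T.w (v 1) ≤ T.a (v 1) (v 2)), (by omega : (1 : ℤ) * T.w (v 2) ≤ T.a (v 1) (v 2))⟩, (List.forall_mem_cons.2 ⟨⟨(by omega : (1 : ℤ) * T.w (v 2) ≤ T.a (v 2) (v 3)), (by omega : (1 : ℤ) * T.w (v 3) ≤ T.a (v 2) (v 3))⟩, (List.forall_mem_nil _)⟩)⟩)⟩) ![1, 2, 1, 0] (by decide) ⟨0, by decide⟩ (by decide)).elim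
      · skip
        exact (no_config_list T (by omega) v hv [(0, 1, 1, 2), (1, 2, 2, 1), (2, 3, 2, 1)] (List.forall_mem_cons.2 ⟨⟨(by omega : (1 : ℤ) * T.w (v 0) ≤ T.a (v 0) (v 1)), (by omega : (2 : ℤ) * T.w (v 1) ≤ T.a (v 0) (v 1))⟩, (List.forall_mem_cons.2 ⟨⟨(by omega : (2 : ℤ) * T.w (v 1) ≤ T.a (v 1) (v 2)), (by omega : (1 : ℤ) * T.w (v 2) ≤ T.a (v 1) (v 2))⟩, (List.forall_mem_cons.2 ⟨⟨(by omega : (2 : ℤ) * T.w (v 2) ≤ T.a (v 2) (v 3)), (by omega : (1 : ℤ) * T.w (v 3) ≤ T.a (v 2) (v 3))⟩, (List.forall_mem_nil _)⟩)⟩)⟩) ![0, 2, 2, 1] (by decide) ⟨1, by decide⟩ (by decide)).elim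
      · skip
        exact (no_config_list T (by omega) v hv [(0, 1, 1, 2), (1, 2, 2, 1), (2, 3, 1, 2)] (List.forall_mem_cons.2 ⟨⟨(by omega : (1 : ℤ) * T.w (v 0) ≤ T.a (v 0) (v 1)), (by omega : (2 : ℤ) * T.w (v 1) ≤ T.a (v 0) (v 1))⟩, (List.forall_mem_cons.2 ⟨⟨(by omega : (2 : ℤ) * T.w (v 1) ≤ T.a (v 1) (v 2)), (by omega : (1 : ℤ) * T.w (v 2) ≤ T.a (v 1) (v 2))⟩, (List.forall_mem_cons.2 ⟨⟨(by omega : (1 : ℤ) * T.w (v 2) ≤ T.a (v 2) (v 3)), (by omega : (2 : ℤ) * T.w (v 3) ≤ T.a (v 2) (v 3))⟩, (List.forall_mem_nil _)⟩)⟩)⟩) ![0, 1, 1, 1] (by decide) ⟨1, by decide⟩ (by decide)).elim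
    · skip
      rcases t2 with ⟨a2, b2⟩ | ⟨a2, b2⟩ | ⟨a2, b2⟩
      · skip
        exact (no_config_list T (by omega) v hv [(0, 1, 1, 2), (1, 2, 1, 2), (2, 3, 1, 1)] (List.forall_mem_cons.2 ⟨⟨(by omega : (1 : ℤ) * T.w (v 0) ≤ T.a (v 0) (v 1)), (by omega : (2 : ℤ) * T.w (v 1) ≤ T.a (v 0) (v 1))⟩, (List.forall_mem_cons.2 ⟨⟨(by omega : (1 : ℤ) * T.w (v 1) ≤ T.a (v 1) (v 2)), (by omega : (2 : ℤ) * T.w (v 2) ≤ T.a (v 1) (v 2))⟩, (List.forall_mem_cons.2 ⟨⟨(by omega : (1 : ℤ) * T.w (v 2) ≤ T.a (v 2) (v 3)), (by omega : (1 : ℤ) * T.w (v 3) ≤ T.a (v 2) (v 3))⟩, (List.forall_mem_nil _)⟩)⟩)⟩) ![1, 2, 2, 0] (by decide) ⟨0, by decide⟩ (by decide)).elim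
      · skip
        exact (no_config_list T (by omega) v hv [(0, 1, 1, 2), (1, 2, 1, 2), (2, 3, 2, 1)] (List.forall_mem_cons.2 ⟨⟨(by omega : (1 : ℤ) * T.w (v 0) ≤ T.a (v 0) (v 1)), (by omega : (2 : ℤ) * T.w (v 1) ≤ T.a (v 0) (v 1))⟩, (List.forall_mem_cons.2 ⟨⟨(by omega : (1 : ℤ) * T.w (v 1) ≤ T.a (v 1) (v 2)), (by omega : (2 : ℤ) * T.w (v 2) ≤ T.a (v 1) (v 2))⟩, (List.forall_mem_cons.2 ⟨⟨(by omega : (2 : ℤ) * T.w (v 2) ≤ T.a (v 2) (v 3)), (by omega : (1 : ℤ) * T.w (v 3) ≤ T.a (v 2) (v 3))⟩, (List.forall_mem_nil _)⟩)⟩)⟩) ![0, 1, 2, 1] (by decide) ⟨1, by decide⟩ (by decide)).elim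
      · skip
        exact (no_config_list T (by omega) v hv [(0, 1, 1, 2), (1, 2, 1, 2), (2, 3, 1, 2)] (List.forall_mem_cons.2 ⟨⟨(by omega : (1 : ℤ) * T.w (v 0) ≤ T.a (v 0) (v 1)), (by omega : (2 : ℤ) * T.w (v 1) ≤ T.a (v 0) (v 1))⟩, (List.forall_mem_cons.2 ⟨⟨(by omega : (1 : ℤ) * T.w (v 1) ≤ T.a (v 1) (v 2)), (by omega : (2 : ℤ) * T.w (v 2) ≤ T.a (v 1) (v 2))⟩, (List.forall_mem_cons.2 ⟨⟨(by omega : (1 : ℤ) * T.w (v 2) ≤ T.a (v 2) (v 3)), (by omega : (2 : ℤ) * T.w (v 3) ≤ T.a (v 2) (v 3))⟩, (List.forall_mem_nil _)⟩)⟩)⟩) ![0, 1, 2, 2] (by decide) ⟨1, by decide⟩ (by decide)).elim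


end Groth.Agent.S7352
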