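import Groth.Statements.S7354
import Groth.Agent.Lib.Helper11_NumType2

set_option autoImplicit false
open Finset
open Models Models.NumericalType

namespace Groth.Agent.S7354
open Groth.Agent.H11NT

/-- Let T be a numerical type on n indices, t > 5 with n > t, and i_1, …, i_t distinct (-2)-indices with
a_{i_j i_{j+1}} nonzero for j = 1, …, t - 1. Then, after possibly reversing the order of the
indices, for some integer w either (A) w_{i_1} = … = w_{i_t} = w and a_{i_j i_{j+1}} = w for all j;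
or (C) w_{i_1} = … = w_{i_{t-1}} = w, w_{i_t} = 2w, a_{i_j i_{j+1}} = w for j < t - 1 and a_{i_{t-1}
i_t} = 2w; or (B) w_{i_1} = … = w_{i_{t-1}} = 2w, w_{i_t} = w and a_{i_j i_{j+1}} = 2w for all j;
and in every case a_{i_j i_k} = 0 whenever k > j + 1. -/
theorem result {n : ℕ} (T : Models.NumericalType n) (t : ℕ) (ht : 5 < t) (hn : t < n)
    (v : Fin t ↪ Fin n) (hv : ∀ j, T.IsMinusTwo (v j))
    (hchain : ∀ j j' : Fin t, j'.val = j.val + 1 → T.a (v j) (v j') ≠ 0) :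
    ∃ (u : Fin t → Fin n) (w : ℤ), ((∀ j, u j = v j) ∨ (∀ j, u j = v (Fin.rev j))) ∧
      (∀ j k : Fin t, j.val + 1 < k.val → T.a (u j) (u k) = 0) ∧
      ((∀ j : Fin t, T.w (u j) = w) ∧ (∀ j j' : Fin t, j'.val = j.val + 1 → T.a (u j) (u j') = w) ∨
        ((∀ j : Fin t, j.val + 1 < t → T.w (u j) = w) ∧ (∀ j : Fin t, j.val + 1 = t → T.w (u j) = 2 * w) ∧
          (∀ j j' : Fin t, j'.val = j.val + 1 → j'.val + 1 < t → T.a (u j) (u j') = w) ∧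
          (∀ j j' : Fin t, j'.val = j.val + 1 → j'.val + 1 = t → T.a (u j) (u j') = 2 * w)) ∨
        ((∀ j : Fin t, j.val + 1 < t → T.w (u j) = 2 * w) ∧ (∀ j : Fin t, j.val + 1 = t → T.w (u j) = w) ∧
          (∀ j j' : Fin t, j'.val = j.val + 1 → T.a (u j) (u j') = 2 * w))) := by
  have hne : ∀ (p q : ℕ) (hp : p < t) (hq : q < t), p ≠ q → (⟨p, hp⟩ : Fin t) ≠ ⟨q, hq⟩ := by
    intro p q hp hq h; simpa [Fin.ext_iff] using h
  have hch : ∀ (i : ℕ) (hi : i < t) (hi' : i + 1 < t), T.a (v ⟨i, hi⟩) (v ⟨i + 1, hi'⟩) ≠ 0 :=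
    fun i hi hi' => hchain _ _ rfl
  have Z : ∀ j k : Fin t, j.val + 1 < k.val → T.a (v j) (v k) = 0 := by
    intro j k hjk
    exact chain_zero T hn v hv j.val k.val hjk k.isLt (fun i hi hi' _ _ => hch i hi hi')
  have p0 : 0 < t := by omega
  have p1 : 1 < t := by omega
  have p2 : 2 < t := by omega
  have q1 : t - 1 < t := by omega
  have q2 : t - 2 < t := by omega
  have q3 : t - 3 < t := by omega
  -- interior edges are single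
  have hmid : ∀ (s : ℕ) (h0 : s < t) (h1 : s + 1 < t) (h2 : s + 1 + 1 < t) (h3 : s + 1 + 1 + 1 < t) (h4 : s + 1 + 1 + 1 + 1 < t),
      (T.a (v ⟨s + 1, h1⟩) (v ⟨s + 1 + 1, h2⟩) = T.w (v ⟨s + 1, h1⟩) ∧ T.a (v ⟨s + 1, h1⟩) (v ⟨s + 1 + 1, h2⟩) = T.w (v ⟨s + 1 + 1, h2⟩)) ∧
      (T.a (v ⟨s + 1 + 1, h2⟩) (v ⟨s + 1 + 1 + 1, h3⟩) = T.w (v ⟨s + 1 + 1, h2⟩) ∧
        T.a (v ⟨s + 1 + 1, h2⟩) (v ⟨s + 1 + 1 + 1, h3⟩) = T.w (v ⟨s + 1 + 1 + 1, h3⟩)) := by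
    intro s h0 h1 h2 h3 h4
    have hinj : Function.Injective (![v ⟨s, h0⟩, v ⟨s + 1, h1⟩, v ⟨s + 1 + 1, h2⟩, v ⟨s + 1 + 1 + 1, h3⟩, v ⟨s + 1 + 1 + 1 + 1, h4⟩] : Fin 5 → Fin n) := by
      intro a b hab
      fin_cases a <;> fin_cases b <;> first | rfl | (exfalso; simp at hab; done) | (exfalso; simp at hab; omega)
    exact mid_single T (by omega) ⟨_, hinj⟩ (by intro a; fin_cases a <;> exact hv _) (hch s h0 h1) (hch _ h1 h2) (hch _ h2 h3) (hch _ h3 h4)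
  have hI : ∀ (j : ℕ) (hj : j < t) (hj' : j + 1 < t), 1 ≤ j → j + 3 ≤ t →
      T.a (v ⟨j, hj⟩) (v ⟨j + 1, hj'⟩) = T.w (v ⟨j, hj⟩) ∧ T.a (v ⟨j, hj⟩) (v ⟨j + 1, hj'⟩) = T.w (v ⟨j + 1, hj'⟩) := by
    intro j hj hj' h1 h3
    by_cases h4 : j + 4 ≤ t
    · obtain ⟨s, rfl⟩ : ∃ s, j = s + 1 := ⟨j - 1, by omega⟩
      exact (hmid s (by omega) hj hj' (by omega) (by omega)).1
    · obtain ⟨s, rfl⟩ : ∃ s, j = s + 1 + 1 := ⟨j - 2, by omega⟩
      exact (hmid s (by omega) (by omega) hj hj' (by omega)).2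
  -- interior weights are constant
  have hW : ∀ (j : ℕ) (hj : j < t), 1 ≤ j → j + 2 ≤ t → T.w (v ⟨j, hj⟩) = T.w (v ⟨1, p1⟩) := by
    intro j
    induction j with
    | zero => intro _ h; omega
    | succ j ih =>
      intro hj _ h2
      by_cases hj0 : j = 0
      · subst hj0; rfl
      · rw [← ih (by omega) (by omega) (by omega)]
        have := hI j (by omega) hj (by omega) (by omega)
        omega
  set w1 := T.w (v ⟨1, p1⟩) with hw1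
  have F1 : ∀ j : Fin t, 1 ≤ j.val → j.val + 2 ≤ t → T.w (v j) = w1 := fun j h h' => hW j.val j.isLt h h'
  have F2 : ∀ j j' : Fin t, j'.val = j.val + 1 → 1 ≤ j.val → j'.val + 1 < t → T.a (v j) (v j') = w1 := by
    rintro ⟨j, hj⟩ ⟨j', hj'⟩ h h1 h2
    simp only at h h1 h2
    subst h
    rw [(hI j hj hj' h1 (by omega)).1]
    exact F1 ⟨j, hj⟩ h1 (by simp only; omega)
  -- end edges
  have h2t : t - 2 + 1 = t - 1 := by omega
  have h3t : t - 3 + 1 = t - 2 := by omega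
  have hinj0 : Function.Injective (![v ⟨0, p0⟩, v ⟨1, p1⟩, v ⟨2, p2⟩] : Fin 3 → Fin n) := by
    intro a b hab
    fin_cases a <;> fin_cases b <;> first | rfl | (exfalso; simp at hab)
  have E0 := (tri3 T (by omega) ⟨_, hinj0⟩ (by intro a; fin_cases a <;> exact hv _) (hch 0 (by omega) (by omega)) (hch 1 (by omega) (by omega))).1
  have hinj1 : Function.Injective (![v ⟨t - 3, q3⟩, v ⟨t - 2, q2⟩, v ⟨t - 1, q1⟩] : Fin 3 → Fin n) := by
    intro a b hab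
    fin_cases a <;> fin_cases b <;> first | rfl | (exfalso; simp at hab; done) | (exfalso; simp at hab; omega)
  have c1 := hch (t - 3) (by omega) (by omega)
  have c2 := hch (t - 2) (by omega) (by omega)
  simp only [h3t] at c1
  simp only [h2t] at c2
  have E1 := (tri3 T (by omega) ⟨_, hinj1⟩ (by intro a; fin_cases a <;> exact hv _) c1 c2).2
  change (T.a (v ⟨0, p0⟩) (v ⟨1, p1⟩) = T.w (v ⟨0, p0⟩) ∧ T.a (v ⟨0, p0⟩) (v ⟨1, p1⟩) = T.w (v ⟨1, p1⟩)) ∨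
    (T.a (v ⟨0, p0⟩) (v ⟨1, p1⟩) = 2 * T.w (v ⟨0, p0⟩) ∧ T.a (v ⟨0, p0⟩) (v ⟨1, p1⟩) = T.w (v ⟨1, p1⟩)) ∨
    (T.a (v ⟨0, p0⟩) (v ⟨1, p1⟩) = T.w (v ⟨0, p0⟩) ∧ T.a (v ⟨0, p0⟩) (v ⟨1, p1⟩) = 2 * T.w (v ⟨1, p1⟩)) at E0
  change (T.a (v ⟨t - 2, q2⟩) (v ⟨t - 1, q1⟩) = T.w (v ⟨t - 2, q2⟩) ∧ T.a (v ⟨t - 2, q2⟩) (v ⟨t - 1, q1⟩) = T.w (v ⟨t - 1, q1⟩)) ∨
    (T.a (v ⟨t - 2, q2⟩) (v ⟨t - 1, q1⟩) = 2 * T.w (v ⟨t - 2, q2⟩) ∧ T.a (v ⟨t - 2, q2⟩) (v ⟨t - 1, q1⟩) = T.w (v ⟨t - 1, q1⟩)) ∨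
    (T.a (v ⟨t - 2, q2⟩) (v ⟨t - 1, q1⟩) = T.w (v ⟨t - 2, q2⟩) ∧ T.a (v ⟨t - 2, q2⟩) (v ⟨t - 1, q1⟩) = 2 * T.w (v ⟨t - 1, q1⟩)) at E1
  have h3t' : 3 ≤ t := by omega
  have hends : (2 * T.w (v ⟨0, p0⟩) ≤ T.a (v ⟨0, p0⟩) (v ⟨1, p1⟩) ∨ 2 * T.w (v ⟨1, p1⟩) ≤ T.a (v ⟨0, p0⟩) (v ⟨1, p1⟩)) →
      (2 * T.w (v ⟨t - 2, q2⟩) ≤ T.a (v ⟨t - 2, q2⟩) (v ⟨t - 1, q1⟩) ∨ 2 * T.w (v ⟨t - 1, q1⟩) ≤ T.a (v ⟨t - 2, q2⟩) (v ⟨t - 1, q1⟩)) → False :=
    fun h0 h1 => chain_ends T hn v hv h3t' hch h0 h1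
  have hw2 : T.w (v ⟨t - 2, q2⟩) = w1 := F1 ⟨t - 2, q2⟩ (show 1 ≤ t - 2 by omega) (show t - 2 + 2 ≤ t by omega)
  rw [hw2] at E1
  rw [hw2] at hends
  simp only [← hw1] at E0 hends
  -- named values
  set α := T.w (v ⟨0, p0⟩) with hα
  set β := T.a (v ⟨0, p0⟩) (v ⟨1, p1⟩) with hβ
  set γ := T.w (v ⟨t - 1, q1⟩) with hγ
  set δ := T.a (v ⟨t - 2, q2⟩) (v ⟨t - 1, q1⟩) with hδ
  have Fα : ∀ j : Fin t, j.val = 0 → T.w (v j) = α := by
    rintro ⟨j, hj⟩ h; simp only at h; subst h; rfl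
  have Fβ : ∀ j j' : Fin t, j.val = 0 → j'.val = 1 → T.a (v j) (v j') = β := by
    rintro ⟨j, hj⟩ ⟨j', hj'⟩ h h'; simp only at h h'; subst h; subst h'; rfl
  have Fγ : ∀ j : Fin t, j.val + 1 = t → T.w (v j) = γ := by
    rintro ⟨j, hj⟩ h
    have : j = t - 1 := by simp only at h; omega
    subst this; rfl
  have Fδ : ∀ j j' : Fin t, j.val + 2 = t → j'.val + 1 = t → T.a (v j) (v j') = δ := by
    rintro ⟨j, hj⟩ ⟨j', hj'⟩ h h'
    have : j = t - 2 := by simp only at h; omega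
    have : j' = t - 1 := by simp only at h'; omega
    subst j; subst j'; rfl
  -- forward or reversed reading
  have Wf : ∀ j : Fin t, (j.val = 0 ∧ T.w (v j) = α) ∨ (j.val + 1 = t ∧ T.w (v j) = γ) ∨ (1 ≤ j.val ∧ j.val + 2 ≤ t ∧ T.w (v j) = w1) := by
    intro j
    by_cases h0 : j.val = 0
    · exact Or.inl ⟨h0, Fα j h0⟩
    · by_cases h1 : j.val + 1 = t
      · exact Or.inr (Or.inl ⟨h1, Fγ j h1⟩)
      · exact Or.inr (Or.inr ⟨by omega, by omega, F1 j (by omega) (by omega)⟩)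
  have Af : ∀ j j' : Fin t, j'.val = j.val + 1 → (j.val = 0 ∧ T.a (v j) (v j') = β) ∨ (j'.val + 1 = t ∧ T.a (v j) (v j') = δ) ∨
      (1 ≤ j.val ∧ j'.val + 2 ≤ t ∧ T.a (v j) (v j') = w1) := by
    intro j j' hjj
    by_cases h0 : j.val = 0
    · exact Or.inl ⟨h0, Fβ j j' h0 (by omega)⟩
    · by_cases h1 : j'.val + 1 = t
      · exact Or.inr (Or.inl ⟨h1, Fδ j j' (by omega) h1⟩)
      · exact Or.inr (Or.inr ⟨by omega, by omega, F2 j j' hjj (by omega) (by omega)⟩)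
  have Wr : ∀ j : Fin t, (j.val + 1 = t ∧ T.w (v (Fin.rev j)) = α) ∨ (j.val = 0 ∧ T.w (v (Fin.rev j)) = γ) ∨
      (1 ≤ j.val ∧ j.val + 2 ≤ t ∧ T.w (v (Fin.rev j)) = w1) := by
    intro j
    have := Fin.val_rev j
    have hj := j.isLt
    rcases Wf (Fin.rev j) with ⟨h, e⟩ | ⟨h, e⟩ | ⟨h, h', e⟩
    · exact Or.inl ⟨by omega, e⟩
    · exact Or.inr (Or.inl ⟨by omega, e⟩)
    · exact Or.inr (Or.inr ⟨by omega, by omega, e⟩)
  have Ar : ∀ j j' : Fin t, j'.val = j.val + 1 → (j'.val + 1 = t ∧ T.a (v (Fin.rev j)) (v (Fin.rev j')) = β) ∨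
      (j.val = 0 ∧ T.a (v (Fin.rev j)) (v (Fin.rev j')) = δ) ∨
      (1 ≤ j.val ∧ j'.val + 2 ≤ t ∧ T.a (v (Fin.rev j)) (v (Fin.rev j')) = w1) := by
    intro j j' hjj
    have h1 := Fin.val_rev j
    have h2 := Fin.val_rev j'
    have hj := j.isLt
    have hj' := j'.isLt
    rw [a_symm T (v (Fin.rev j))]
    rcases Af (Fin.rev j') (Fin.rev j) (by omega) with ⟨h, e⟩ | ⟨h, e⟩ | ⟨h, h', e⟩
    · exact Or.inl ⟨by omega, e⟩
    · exact Or.inr (Or.inl ⟨by omega, e⟩)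
    · exact Or.inr (Or.inr ⟨by omega, by omega, e⟩)
  have Zr : ∀ j k : Fin t, j.val + 1 < k.val → T.a (v (Fin.rev j)) (v (Fin.rev k)) = 0 := by
    intro j k hjk
    have h1 := Fin.val_rev j
    have h2 := Fin.val_rev k
    have hj := j.isLt
    have hj' := k.isLt
    rw [a_symm T]
    exact Z _ _ (by omega)
  clear_value α β γ δ w1
  rcases E0 with ⟨a0, b0⟩ | ⟨a0, b0⟩ | ⟨a0, b0⟩
  · rcases E1 with ⟨a1, b1⟩ | ⟨a1, b1⟩ | ⟨a1, b1⟩
    · refine ⟨fun j => v j, w1, Or.inl (fun _ => rfl), Z, Or.inl ⟨?_, ?_⟩⟩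
      · intro j; have := Wf j; beta_reduce; omega
      · intro j j' h; have := Af j j' h; beta_reduce; omega
    · refine ⟨fun j => v j, w1, Or.inl (fun _ => rfl), Z, Or.inr (Or.inl ⟨?_, ?_, ?_, ?_⟩)⟩
      · intro j; have := Wf j; beta_reduce; omega
      · intro j; have := Wf j; beta_reduce; omega
      · intro j j' h; have := Af j j' h; beta_reduce; omega
      · intro j j' h; have := Af j j' h; beta_reduce; omega
    · refine ⟨fun j => v j, γ, Or.inl (fun _ => rfl), Z, Or.inr (Or.inr ⟨?_, ?_, ?_⟩)⟩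
      · intro j; have := Wf j; beta_reduce; omega
      · intro j; have := Wf j; beta_reduce; omega
      · intro j j' h; have := Af j j' h; beta_reduce; omega
  · rcases E1 with ⟨a1, b1⟩ | ⟨a1, b1⟩ | ⟨a1, b1⟩
    · refine ⟨fun j => v (Fin.rev j), α, Or.inr (fun _ => rfl), Zr, Or.inr (Or.inr ⟨?_, ?_, ?_⟩)⟩
      · intro j; have := Wr j; beta_reduce; omega
      · intro j; have := Wr j; beta_reduce; omega
      · intro j j' h; have := Ar j j' h; beta_reduce; omega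
    · exact (hends (by omega) (by omega)).elim
    · exact (hends (by omega) (by omega)).elim
  · rcases E1 with ⟨a1, b1⟩ | ⟨a1, b1⟩ | ⟨a1, b1⟩
    · refine ⟨fun j => v (Fin.rev j), w1, Or.inr (fun _ => rfl), Zr, Or.inr (Or.inl ⟨?_, ?_, ?_, ?_⟩)⟩
      · intro j; have := Wr j; beta_reduce; omega
      · intro j; have := Wr j; beta_reduce; omega
      · intro j j' h; have := Ar j j' h; beta_reduce; omega
      · intro j j' h; have := Ar j j' h; beta_reduce; omega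
    · exact (hends (by omega) (by omega)).elim
    · exact (hends (by omega) (by omega)).elim


end Groth.Agent.S7354
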