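import Groth.Statements.S7355
import Groth.Agent.Lib.Helper11_NumType2
import Groth.Agent.S7346

set_option autoImplicit false
open Finset
open Models Models.NumericalType

namespace Groth.Agent.S7355
open Groth.Agent.H11NT

/-- Classification of proper subgraphs of type D: let T be a numerical type on n indices, t > 4 with n >
t + 1, and i_1, …, i_{t+1} distinct (-2)-indices such that a_{i_j i_{j+1}} is nonzero for j = 1, …,
t - 1 and a_{i_{t-1} i_{t+1}} is nonzero. Then for some integer w one has w_{i_1} = … = w_{i_{t+1}}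
= w, a_{i_j i_{j+1}} = w for j < t, a_{i_{t-1} i_{t+1}} = w, and a_{i_j i_k} = 0 for all other pairs
j ≠ k. -/
theorem result {n : ℕ} (T : Models.NumericalType n) (t : ℕ) (ht : 4 < t) (hn : t + 1 < n)
    (v : Fin (t + 1) ↪ Fin n) (hv : ∀ j, T.IsMinusTwo (v j))
    (hchain : ∀ j j' : Fin (t + 1), j'.val = j.val + 1 → j'.val < t → T.a (v j) (v j') ≠ 0)
    (hbranch : ∀ j j' : Fin (t + 1), j.val + 2 = t → j'.val = t → T.a (v j) (v j') ≠ 0) :
    ∃ w : ℤ, (∀ j : Fin (t + 1), T.w (v j) = w) ∧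
      (∀ j j' : Fin (t + 1), j'.val = j.val + 1 → j'.val < t → T.a (v j) (v j') = w) ∧
      (∀ j j' : Fin (t + 1), j.val + 2 = t → j'.val = t → T.a (v j) (v j') = w) ∧
      (∀ j k : Fin (t + 1), j.val < k.val → ¬ (k.val = j.val + 1 ∧ k.val < t) → ¬ (j.val + 2 = t ∧ k.val = t) →
        T.a (v j) (v k) = 0) := by
  have hne : ∀ (p q : ℕ) (hp : p < t + 1) (hq : q < t + 1), p ≠ q → (⟨p, hp⟩ : Fin (t + 1)) ≠ ⟨q, hq⟩ := by
    intro p q hp hq h; simpa [Fin.ext_iff] using h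
  have hch : ∀ (i : ℕ) (hi : i < t + 1) (hi' : i + 1 < t + 1), i + 1 < t → T.a (v ⟨i, hi⟩) (v ⟨i + 1, hi'⟩) ≠ 0 :=
    fun i hi hi' h => hchain _ _ rfl h
  obtain ⟨s, rfl⟩ : ∃ s, t = s + 3 := ⟨t - 3, by omega⟩
  have l0 : s < s + 3 + 1 := by omega
  have l1 : s + 1 < s + 3 + 1 := by omega
  have l2 : s + 2 < s + 3 + 1 := by omega
  have l3 : s + 3 < s + 3 + 1 := by omega
  have cA : T.a (v ⟨s, l0⟩) (v ⟨s + 1, l1⟩) ≠ 0 := hch s l0 l1 (by omega)
  have cB : T.a (v ⟨s + 1, l1⟩) (v ⟨s + 2, l2⟩) ≠ 0 := hch (s + 1) l1 l2 (by omega)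
  have cC : T.a (v ⟨s + 1, l1⟩) (v ⟨s + 3, l3⟩) ≠ 0 := hbranch ⟨s + 1, l1⟩ ⟨s + 3, l3⟩ rfl rfl
  have hinj : Function.Injective (![v ⟨s + 1, l1⟩, v ⟨s, l0⟩, v ⟨s + 2, l2⟩, v ⟨s + 3, l3⟩] : Fin 4 → Fin n) := by
    intro a b hab
    fin_cases a <;> fin_cases b <;> first | rfl | (exfalso; simp at hab; done) | (exfalso; simp at hab; omega)
  obtain ⟨w, hw, d01, d02, d03, d12, d13, d23, -⟩ := Groth.Agent.S7346.result T (by omega) ⟨_, hinj⟩
    (by intro a; fin_cases a <;> exact hv _) (by show T.a (v ⟨s + 1, l1⟩) (v ⟨s, l0⟩) ≠ 0; rw [a_symm T]; exact cA) cB cC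
  have w0 : T.w (v ⟨s + 1, l1⟩) = w := hw 0
  have w1 : T.w (v ⟨s, l0⟩) = w := hw 1
  have w2 : T.w (v ⟨s + 2, l2⟩) = w := hw 2
  have w3 : T.w (v ⟨s + 3, l3⟩) = w := hw 3
  change T.a (v ⟨s + 1, l1⟩) (v ⟨s, l0⟩) = w at d01
  change T.a (v ⟨s + 1, l1⟩) (v ⟨s + 2, l2⟩) = w at d02
  change T.a (v ⟨s + 1, l1⟩) (v ⟨s + 3, l3⟩) = w at d03
  change T.a (v ⟨s, l0⟩) (v ⟨s + 2, l2⟩) = 0 at d12
  change T.a (v ⟨s, l0⟩) (v ⟨s + 3, l3⟩) = 0 at d13
  change T.a (v ⟨s + 2, l2⟩) (v ⟨s + 3, l3⟩) = 0 at d23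
  clear hw
  rw [a_symm T] at d01
  have hA : ∀ (i : ℕ) (hi : i < s + 3 + 1) (hi' : i + 1 < s + 3 + 1), i + 1 < s + 3 →
      1 * T.w (v ⟨i, hi⟩) ≤ T.a (v ⟨i, hi⟩) (v ⟨i + 1, hi'⟩) ∧ 1 * T.w (v ⟨i + 1, hi'⟩) ≤ T.a (v ⟨i, hi⟩) (v ⟨i + 1, hi'⟩) := by
    intro i hi hi' h2
    exact edge T (v.injective.ne (hne _ _ _ _ (by omega))) (hch i hi hi' h2)
  have hL : ∀ (i : ℕ) (hi : i < s + 3 + 1) (hi' : i - 1 < s + 3 + 1), 1 ≤ i → i < s + 3 →
      1 * T.w (v ⟨i, hi⟩) ≤ T.a (v ⟨i, hi⟩) (v ⟨i - 1, hi'⟩) := by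
    intro i hi hi' h1 h2
    obtain ⟨j, rfl⟩ : ∃ j, i = j + 1 := ⟨i - 1, by omega⟩
    have := (hA j hi' hi h2).2
    rw [a_symm T (v ⟨j + 1, hi⟩)]
    exact this
  have hC1 : 1 * T.w (v ⟨s + 1, l1⟩) ≤ T.a (v ⟨s + 1, l1⟩) (v ⟨s + 3, l3⟩) := by rw [w0, d03]; omega
  have hC2 : 1 * T.w (v ⟨s + 3, l3⟩) ≤ T.a (v ⟨s + 3, l3⟩) (v ⟨s + 1, l1⟩) := by rw [a_symm T, w3, d03]; omega
  -- chain edges are single
  have hS : ∀ (j : ℕ) (hj : j < s + 3 + 1) (hj' : j + 1 < s + 3 + 1), j + 1 ≤ s →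
      T.a (v ⟨j, hj⟩) (v ⟨j + 1, hj'⟩) = T.w (v ⟨j, hj⟩) ∧ T.a (v ⟨j, hj⟩) (v ⟨j + 1, hj'⟩) = T.w (v ⟨j + 1, hj'⟩) := by
    intro j hj hj' hjs
    have key : ∀ α α' : ℤ, α * T.w (v ⟨j, hj⟩) ≤ T.a (v ⟨j, hj⟩) (v ⟨j + 1, hj'⟩) →
        α' * T.w (v ⟨j + 1, hj'⟩) ≤ T.a (v ⟨j, hj⟩) (v ⟨j + 1, hj'⟩) → ((α = 2 ∧ α' = 1) ∨ (α = 1 ∧ α' = 2)) → False := by
      intro α α' hα hα' hαα
      set x : Fin (s + 3 + 1) → ℤ := fun i => if i.val < j then 0 else if i.val = j then α else if i.val ≤ s + 1 then 2 else 1 with hx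
      have x0 : x ⟨j, hj⟩ = α := by simp [hx]
      have x2 : ∀ (i : ℕ) (hi : i < s + 3 + 1), j < i → i ≤ s + 1 → x ⟨i, hi⟩ = 2 := by
        intro i hi h h'; simp only [hx]; rw [if_neg (by omega), if_neg (by omega), if_pos h']
      have x1 : ∀ (i : ℕ) (hi : i < s + 3 + 1), s + 2 ≤ i → x ⟨i, hi⟩ = 1 := by
        intro i hi h; simp only [hx]; rw [if_neg (by omega), if_neg (by omega), if_neg (by omega)]
      refine no_config_pt T hn v hv x (fun i => ?_) ⟨⟨j, hj⟩, ?_⟩ (fun i hi => ?_)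
      · simp only [hx]; split_ifs <;> omega
      · rw [x0]; omega
      · obtain ⟨i, hik⟩ := i
        have hij : j ≤ i := by
          by_contra hc
          simp only [hx] at hi
          rw [if_pos (by omega)] at hi
          exact lt_irrefl _ hi
        by_cases c0 : i = j
        · subst c0
          refine good1 T ⟨i + 1, by omega⟩ α (hne _ _ _ _ (by omega)) hα ?_
          rw [x0, x2 (i + 1) (by omega) (by omega) (by omega)]; omega
        by_cases c1 : i = j + 1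
        · subst c1
          refine good2 T ⟨j, by omega⟩ ⟨j + 1 + 1, by omega⟩ α' 1 (hne _ _ _ _ (by omega)) (hne _ _ _ _ (by omega)) (hne _ _ _ _ (by omega))
            (by rw [a_symm T]; exact hα') (hA (j + 1) (by omega) (by omega) (by omega)).1 ?_
          rw [x0, x2 (j + 1) (by omega) (by omega) (by omega), x2 (j + 1 + 1) (by omega) (by omega) (by omega)]
          rcases hαα with ⟨rfl, rfl⟩ | ⟨rfl, rfl⟩ <;> norm_num
        by_cases c2 : i = s + 1
        · subst c2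
          refine good3 T ⟨s, l0⟩ ⟨s + 2, l2⟩ ⟨s + 3, l3⟩ 1 1 1 (hne _ _ _ _ (by omega)) (hne _ _ _ _ (by omega))
            (hne _ _ _ _ (by omega)) (hne _ _ _ _ (by omega)) (hne _ _ _ _ (by omega)) (hne _ _ _ _ (by omega))
            (hL (s + 1) (by omega) (by omega) (by omega) (by omega)) (hA (s + 1) (by omega) (by omega) (by omega)).1 hC1 ?_
          rw [x2 (s + 1) (by omega) (by omega) (by omega), x2 s (by omega) (by omega) (by omega), x1 (s + 2) (by omega) (by omega),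
            x1 (s + 3) (by omega) (by omega)]
          norm_num
        by_cases c3 : i = s + 2
        · subst c3
          refine good1 T ⟨s + 1, l1⟩ 1 (hne _ _ _ _ (by omega)) (hL (s + 2) (by omega) (by omega) (by omega) (by omega)) ?_
          rw [x1 (s + 2) (by omega) (by omega), x2 (s + 1) (by omega) (by omega) (by omega)]; norm_num
        by_cases c4 : i = s + 3
        · subst c4
          refine good1 T ⟨s + 1, l1⟩ 1 (hne _ _ _ _ (by omega)) hC2 ?_
          rw [x1 (s + 3) (by omega) (by omega), x2 (s + 1) (by omega) (by omega) (by omega)]; norm_num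
        · refine good2 T ⟨i - 1, by omega⟩ ⟨i + 1, by omega⟩ 1 1 (hne _ _ _ _ (by omega)) (hne _ _ _ _ (by omega)) (hne _ _ _ _ (by omega))
            (hL i (by omega) (by omega) (by omega) (by omega)) (hA i (by omega) (by omega) (by omega)).1 ?_
          rw [x2 (i - 1) (by omega) (by omega) (by omega), x2 (i + 1) (by omega) (by omega) (by omega), x2 i (by omega) (by omega) (by omega)]
          norm_num
    rcases edge_cases T (v.injective.ne (hne _ _ _ _ (by omega))) (hch j hj hj' (by omega)) with h | h | h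
    · exact h
    · exact (key 2 1 h.1 h.2 (Or.inl ⟨rfl, rfl⟩)).elim
    · exact (key 1 2 h.1 h.2 (Or.inr ⟨rfl, rfl⟩)).elim
  -- weights
  have hW : ∀ (d j : ℕ) (hj : j < s + 3 + 1), j + d = s → T.w (v ⟨j, hj⟩) = w := by
    intro d
    induction d with
    | zero => intro j hj h; have : j = s := by omega
              subst this; exact w1
    | succ d ih =>
      intro j hj h
      have h1 := ih (j + 1) (by omega) (by omega)
      have h2 := hS j hj (by omega) (by omega)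
      omega
  have F1 : ∀ j : Fin (s + 3 + 1), T.w (v j) = w := by
    rintro ⟨j, hj⟩
    by_cases c0 : j ≤ s
    · exact hW (s - j) j hj (by omega)
    by_cases c1 : j = s + 1
    · subst c1; exact w0
    by_cases c2 : j = s + 2
    · subst c2; exact w2
    · have : j = s + 3 := by omega
      subst this; exact w3
  refine ⟨w, F1, ?_, ?_, ?_⟩
  · rintro ⟨j, hj⟩ ⟨j', hj'⟩ h h'
    simp only at h h'
    subst h
    by_cases c0 : j + 1 ≤ s
    · rw [(hS j hj hj' c0).1]; exact F1 _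
    by_cases c1 : j = s
    · subst c1; exact d01
    · have : j = s + 1 := by omega
      subst this; exact d02
  · rintro ⟨j, hj⟩ ⟨j', hj'⟩ h h'
    simp only at h h'
    have h1 : j = s + 1 := by omega
    subst h'; subst h1; exact d03
  · rintro ⟨p, hp⟩ ⟨q, hq⟩ hpq h1 h2
    simp only at hpq h1 h2
    by_cases c0 : q < s + 3
    · exact chain_zero T hn v hv p q (by omega) hq (fun i hi hi' _ _ => hch i hi hi' (by omega))
    have hq3 : q = s + 3 := by omega
    subst hq3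
    by_cases c1 : p = s + 2
    · subst c1; exact d23
    by_cases c2 : p = s
    · subst c2; exact d13
    -- reroute the chain through the branch
    have hp' : p < s := by omega
    have hinj2 : Function.Injective (fun i : Fin (s + 3) => if h : i.val = s + 2 then v ⟨s + 3, l3⟩ else v ⟨i.val, by omega⟩) := by
      intro a b hab
      have ha := a.isLt
      have hb := b.isLt
      dsimp only at hab
      split_ifs at hab with h1 h2 h2
      · exact Fin.ext (by omega)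
      · have := v.injective hab
        simp only [Fin.mk.injEq] at this
        omega
      · have := v.injective hab
        simp only [Fin.mk.injEq] at this
        omega
      · have := v.injective hab
        simp only [Fin.mk.injEq] at this
        exact Fin.ext this
    set v' : Fin (s + 3) ↪ Fin n := ⟨_, hinj2⟩ with hv'
    have e1 : ∀ (i : ℕ) (hi : i < s + 3) (hi' : i < s + 3 + 1), i ≠ s + 2 → v' ⟨i, hi⟩ = v ⟨i, hi'⟩ := by
      intro i hi hi' h
      show (if h : i = s + 2 then v ⟨s + 3, l3⟩ else v ⟨i, by omega⟩) = _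
      rw [dif_neg h]
    have e2 : v' ⟨s + 2, by omega⟩ = v ⟨s + 3, l3⟩ := by
      show (if h : s + 2 = s + 2 then v ⟨s + 3, l3⟩ else v ⟨s + 2, by omega⟩) = _
      rw [dif_pos rfl]
    have hm2 : ∀ j, T.IsMinusTwo (v' j) := by
      intro j
      show T.IsMinusTwo (if h : j.val = s + 2 then v ⟨s + 3, l3⟩ else v ⟨j.val, by omega⟩)
      split_ifs
      · exact hv _
      · exact hv _
    have := chain_zero T (by omega) v' hm2 p (s + 2) (by omega) (by omega) (fun i hi hi' _ _ => by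
      by_cases c5 : i = s + 1
      · subst c5
        rw [e1 (s + 1) hi (by omega) (by omega)]
        rw [show v' ⟨s + 1 + 1, hi'⟩ = v ⟨s + 3, l3⟩ from e2]
        exact cC
      · rw [e1 i hi (by omega) (by omega), e1 (i + 1) hi' (by omega) (by omega)]
        exact hch i (by omega) (by omega) (by omega))
    rw [e1 p (by omega) (by omega) (by omega), e2] at this
    exact this


end Groth.Agent.S7355
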