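import Groth.Statements.S7362
import Groth.Agent.Lib.Helper11_NumType3
import Mathlib.Tactic.IntervalCases

set_option autoImplicit false
open Finset
open Models Models.NumericalType

namespace Groth.Agent.S7362
open Groth.Agent.H11NT

theorem aux (T : Models.NumericalType 2) (i j : Fin 2) (hij : i ≠ j) (h2i : T.IsMinusTwo i) (h2j : T.IsMinusTwo j)
    (c d : ℤ) (hc : T.a i j = T.w i * c) (hd : T.a i j = T.w j * d) (hcd : (c = 2 ∧ d = 2) ∨ (c = 4 ∧ d = 1))
    (r : -2 * T.w i * T.m i + T.a i j * T.m j = 0) :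
    ∃ (i j : Fin 2) (m w : ℤ), i ≠ j ∧ T.g i = 0 ∧ T.g j = 0 ∧
      ((T.m i = m ∧ T.m j = m ∧ T.a i i = -2 * w ∧ T.a i j = 2 * w ∧ T.a j j = -2 * w ∧ T.w i = w ∧ T.w j = w) ∨
        (T.m i = 2 * m ∧ T.m j = m ∧ T.a i i = -2 * w ∧ T.a i j = 4 * w ∧ T.a j j = -8 * w ∧ T.w i = w ∧ T.w j = 4 * w)) := by
  have hw := T.w_pos i
  refine ⟨i, j, T.m j, T.w i, hij, h2i.1, h2j.1, ?_⟩
  have hm : 2 * T.m i = c * T.m j := by
    have : T.w i * (2 * T.m i) = T.w i * (c * T.m j) := by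
      rw [hc] at r; linarith
    exact mul_left_cancel₀ hw.ne' this
  have e1 := h2i.2
  have e2 := h2j.2
  rcases hcd with ⟨rfl, rfl⟩ | ⟨rfl, rfl⟩
  · left; refine ⟨?_, ?_, ?_, ?_, ?_, ?_, ?_⟩ <;> omega
  · right; refine ⟨?_, ?_, ?_, ?_, ?_, ?_, ?_⟩ <;> omega

/-- Genus one classification: case n = 2: let T be a minimal numerical type of genus 1 on two indices.
Then for some ordering i, j of the indices and some integers m, w, either m_i = m_j = m, a_ii = a_jj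
= -2w, a_ij = 2w, w_i = w_j = w, g_i = g_j = 0; or m_i = 2m, m_j = m, a_ii = -2w, a_ij = 4w, a_jj =
-8w, w_i = w, w_j = 4w, g_i = g_j = 0. Only the classification direction is stated. -/
theorem result (T : Models.NumericalType 2) (hmin : T.IsMinimal) (hg : T.genus = 1) :
    ∃ (i j : Fin 2) (m w : ℤ), i ≠ j ∧ T.g i = 0 ∧ T.g j = 0 ∧
      ((T.m i = m ∧ T.m j = m ∧ T.a i i = -2 * w ∧ T.a i j = 2 * w ∧ T.a j j = -2 * w ∧ T.w i = w ∧ T.w j = w) ∨
        (T.m i = 2 * m ∧ T.m j = m ∧ T.a i i = -2 * w ∧ T.a i j = 4 * w ∧ T.a j j = -8 * w ∧ T.w i = w ∧ T.w j = 4 * w)) := by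
  have h2 := all_minusTwo T (by norm_num) hmin hg
  have r0 := row_sum T 0
  have r1 := row_sum T 1
  rw [Fin.sum_univ_two] at r0 r1
  rw [(h2 0).2] at r0
  rw [(h2 1).2, a_symm T 1 0] at r1
  obtain ⟨c, hc⟩ := T.w_dvd 0 1
  obtain ⟨d, hd⟩ := T.w_dvd 1 0
  rw [a_symm T 1 0] at hd
  have hw0 := T.w_pos 0
  have hw1 := T.w_pos 1
  have hm0 := T.m_pos 0
  have hm1 := T.m_pos 1
  have e0 : 2 * T.m 0 = c * T.m 1 := by
    have : T.w 0 * (2 * T.m 0) = T.w 0 * (c * T.m 1) := by rw [hc] at r0; linarith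
    exact mul_left_cancel₀ hw0.ne' this
  have e1 : 2 * T.m 1 = d * T.m 0 := by
    have : T.w 1 * (2 * T.m 1) = T.w 1 * (d * T.m 0) := by rw [hd] at r1; linarith
    exact mul_left_cancel₀ hw1.ne' this
  have hcd : c * d = 4 := by
    have : (c * d) * T.m 0 = 4 * T.m 0 := by
      calc (c * d) * T.m 0 = c * (d * T.m 0) := by ring
        _ = 2 * (c * T.m 1) := by rw [← e1]; ring
        _ = 4 * T.m 0 := by rw [← e0]; ring
    exact mul_right_cancel₀ hm0.ne' this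
  have hc0 : 0 < c := by
    by_contra hcon
    have := mul_nonpos_of_nonpos_of_nonneg (not_lt.mp hcon) hm1.le
    linarith
  have hc4 : c ≤ 4 := by
    have hd0 : 0 < d := by
      by_contra hcon
      have := mul_nonpos_of_nonpos_of_nonneg (not_lt.mp hcon) hm0.le
      linarith
    nlinarith
  have h01 : (0 : Fin 2) ≠ 1 := by decide
  interval_cases c
  · exact aux T 1 0 h01.symm (h2 1) (h2 0) d 1 (by rw [a_symm T 1 0]; exact hd) (by rw [a_symm T 1 0]; exact hc) (by omega) (by rw [a_symm T 1 0]; linarith)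
  · exact aux T 0 1 h01 (h2 0) (h2 1) 2 d hc hd (by omega) r0
  · omega
  · exact aux T 0 1 h01 (h2 0) (h2 1) 4 d hc hd (by omega) r0


end Groth.Agent.S7362
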