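import Groth.Statements.S7363
import Groth.Agent.Lib.Helper11_NumType3
import Mathlib.Tactic.IntervalCases

set_option autoImplicit false
open Finset
open Models Models.NumericalType

namespace Groth.Agent.S7363
open Groth.Agent.H11NT

theorem aux (T : Models.NumericalType 3) (h2 : ∀ i, T.IsMinusTwo i) (i j k : Fin 3) (hij : i ≠ j) (hjk : j ≠ k) (hik : i ≠ k)
    (hz : T.a i k = 0) (h01 : T.a i j ≠ 0) (h12 : T.a j k ≠ 0) :
    ∃ (i j k : Fin 3) (m w : ℤ), i ≠ j ∧ j ≠ k ∧ i ≠ k ∧ T.g i = 0 ∧ T.g j = 0 ∧ T.g k = 0 ∧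
      ((T.m i = m ∧ T.m j = m ∧ T.m k = m ∧ T.a i i = -2 * w ∧ T.a j j = -2 * w ∧ T.a k k = -2 * w ∧
          T.a i j = w ∧ T.a i k = w ∧ T.a j k = w ∧ T.w i = w ∧ T.w j = w ∧ T.w k = w) ∨
        (T.m i = m ∧ T.m j = 2 * m ∧ T.m k = m ∧ T.a i i = -2 * w ∧ T.a i j = w ∧ T.a i k = 0 ∧ T.a j j = -2 * w ∧
          T.a j k = 3 * w ∧ T.a k k = -6 * w ∧ T.w i = w ∧ T.w j = w ∧ T.w k = 3 * w) ∨
        (T.m i = m ∧ T.m j = 2 * m ∧ T.m k = 3 * m ∧ T.a i i = -6 * w ∧ T.a i j = 3 * w ∧ T.a i k = 0 ∧ T.a j j = -6 * w ∧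
          T.a j k = 3 * w ∧ T.a k k = -2 * w ∧ T.w i = 3 * w ∧ T.w j = 3 * w ∧ T.w k = w) ∨
        (T.m i = 2 * m ∧ T.m j = 2 * m ∧ T.m k = m ∧ T.a i i = -2 * w ∧ T.a i j = 2 * w ∧ T.a i k = 0 ∧ T.a j j = -4 * w ∧
          T.a j k = 4 * w ∧ T.a k k = -8 * w ∧ T.w i = w ∧ T.w j = 2 * w ∧ T.w k = 4 * w) ∨
        (T.m i = m ∧ T.m j = m ∧ T.m k = m ∧ T.a i i = -2 * w ∧ T.a i j = 2 * w ∧ T.a i k = 0 ∧ T.a j j = -4 * w ∧
          T.a j k = 2 * w ∧ T.a k k = -2 * w ∧ T.w i = w ∧ T.w j = 2 * w ∧ T.w k = w) ∨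
        (T.m i = m ∧ T.m j = 2 * m ∧ T.m k = m ∧ T.a i i = -4 * w ∧ T.a i j = 2 * w ∧ T.a i k = 0 ∧ T.a j j = -2 * w ∧
          T.a j k = 2 * w ∧ T.a k k = -4 * w ∧ T.w i = 2 * w ∧ T.w j = w ∧ T.w k = 2 * w)) := by
  have hu : (univ : Finset (Fin 3)) = {i, j, k} := by
    symm; apply Finset.eq_univ_of_card; rw [Finset.card_insert_of_notMem (by simp [hij, hik]), Finset.card_insert_of_notMem (by simpa using hjk)]; rfl
  have hrow : ∀ p, T.a p i * T.m i + (T.a p j * T.m j + T.a p k * T.m k) = 0 := by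
    intro p
    have := row_sum T p
    rw [hu, Finset.sum_insert (by simp [hij, hik]), Finset.sum_insert (by simpa using hjk), Finset.sum_singleton] at this
    exact this
  have ri := hrow i
  have rj := hrow j
  have rk := hrow k
  rw [(h2 i).2, hz] at ri
  rw [(h2 j).2, a_symm T j i] at rj
  rw [(h2 k).2, a_symm T k i, hz, a_symm T k j] at rk
  have gi := (h2 i).1
  have gj := (h2 j).1
  have gk := (h2 k).1
  have ai := (h2 i).2
  have aj := (h2 j).2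
  have ak := (h2 k).2
  obtain ⟨c, hc⟩ := T.w_dvd i j
  obtain ⟨c', hc'⟩ := T.w_dvd j i
  obtain ⟨d, hd⟩ := T.w_dvd j k
  obtain ⟨d', hd'⟩ := T.w_dvd k j
  rw [a_symm T j i] at hc'
  rw [a_symm T k j] at hd'
  have hwi := T.w_pos i
  have hwj := T.w_pos j
  have hwk := T.w_pos k
  have hmi := T.m_pos i
  have hmj := T.m_pos j
  have hmk := T.m_pos k
  have p1 := pos_of_ne T hij h01
  have p2 := pos_of_ne T hjk h12
  have ei : 2 * T.m i = c * T.m j := by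
    have : T.w i * (2 * T.m i) = T.w i * (c * T.m j) := by rw [hc] at ri; linarith
    exact mul_left_cancel₀ hwi.ne' this
  have ek : 2 * T.m k = d' * T.m j := by
    have : T.w k * (2 * T.m k) = T.w k * (d' * T.m j) := by rw [hd'] at rk; linarith
    exact mul_left_cancel₀ hwk.ne' this
  have ej : 2 * T.m j = c' * T.m i + d * T.m k := by
    have : T.w j * (2 * T.m j) = T.w j * (c' * T.m i + d * T.m k) := by rw [hc', hd] at rj; linarith
    exact mul_left_cancel₀ hwj.ne' this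
  have posof : ∀ w c a : ℤ, 0 < w → a = w * c → 0 < a → 0 < c := by
    intro w c a h1 h2 h3
    by_contra hcon
    have := mul_nonpos_of_nonneg_of_nonpos h1.le (not_lt.mp hcon)
    omega
  have c0 := posof _ _ _ hwi hc p1
  have c0' := posof _ _ _ hwj hc' p1
  have d0 := posof _ _ _ hwj hd p2
  have d0' := posof _ _ _ hwk hd' p2
  have key : c' * c + d * d' = 4 := by
    have : (c' * c + d * d') * T.m j = 4 * T.m j := by
      calc (c' * c + d * d') * T.m j = c' * (c * T.m j) + d * (d' * T.m j) := by ring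
        _ = c' * (2 * T.m i) + d * (2 * T.m k) := by rw [ei, ek]
        _ = 2 * (c' * T.m i + d * T.m k) := by ring
        _ = 4 * T.m j := by rw [← ej]; ring
    exact mul_right_cancel₀ hmj.ne' this
  have s1 : 1 ≤ c' * c := by nlinarith
  have s2 : 1 ≤ d * d' := by nlinarith
  have b1 : c ≤ 3 := by nlinarith
  have b2 : c' ≤ 3 := by nlinarith
  have b3 : d ≤ 3 := by nlinarith
  have b4 : d' ≤ 3 := by nlinarith
  have hki : T.a k i = 0 := by rw [a_symm T]; exact hz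
  have sji : T.a j i = T.a i j := a_symm T _ _
  have skj : T.a k j = T.a j k := a_symm T _ _
  interval_cases c <;> interval_cases c' <;> interval_cases d <;> interval_cases d' <;> first | (exfalso; omega) | skip
  all_goals first
    | (refine ⟨i, j, k, T.m i, T.w i, hij, hjk, hik, gi, gj, gk, Or.inr (Or.inl ⟨?_, ?_, ?_, ?_, ?_, ?_, ?_, ?_, ?_, ?_, ?_, ?_⟩)⟩ <;> omega; done)
    | (refine ⟨i, j, k, T.m i, T.w k, hij, hjk, hik, gi, gj, gk, Or.inr (Or.inr (Or.inl ⟨?_, ?_, ?_, ?_, ?_, ?_, ?_, ?_, ?_, ?_, ?_, ?_⟩))⟩ <;> omega; done)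
    | (refine ⟨i, j, k, T.m k, T.w i, hij, hjk, hik, gi, gj, gk, Or.inr (Or.inr (Or.inr (Or.inl ⟨?_, ?_, ?_, ?_, ?_, ?_, ?_, ?_, ?_, ?_, ?_, ?_⟩)))⟩ <;> omega; done)
    | (refine ⟨i, j, k, T.m k, T.w i, hij, hjk, hik, gi, gj, gk, Or.inr (Or.inr (Or.inr (Or.inr (Or.inl ⟨?_, ?_, ?_, ?_, ?_, ?_, ?_, ?_, ?_, ?_, ?_, ?_⟩))))⟩ <;> omega; done)
    | (refine ⟨i, j, k, T.m k, T.w j, hij, hjk, hik, gi, gj, gk, Or.inr (Or.inr (Or.inr (Or.inr (Or.inr ⟨?_, ?_, ?_, ?_, ?_, ?_, ?_, ?_, ?_, ?_, ?_, ?_⟩))))⟩ <;> omega; done)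
    | (refine ⟨k, j, i, T.m k, T.w k, hjk.symm, hij.symm, hik.symm, gk, gj, gi, Or.inr (Or.inl ⟨?_, ?_, ?_, ?_, ?_, ?_, ?_, ?_, ?_, ?_, ?_, ?_⟩)⟩ <;> omega; done)
    | (refine ⟨k, j, i, T.m k, T.w i, hjk.symm, hij.symm, hik.symm, gk, gj, gi, Or.inr (Or.inr (Or.inl ⟨?_, ?_, ?_, ?_, ?_, ?_, ?_, ?_, ?_, ?_, ?_, ?_⟩))⟩ <;> omega; done)
    | (refine ⟨k, j, i, T.m i, T.w k, hjk.symm, hij.symm, hik.symm, gk, gj, gi, Or.inr (Or.inr (Or.inr (Or.inl ⟨?_, ?_, ?_, ?_, ?_, ?_, ?_, ?_, ?_, ?_, ?_, ?_⟩)))⟩ <;> omega; done)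

/-- Genus one classification: case n = 3: let T be a minimal numerical type of genus 1 on three indices.
Then all g = 0 and, for some ordering i, j, k of the indices and some integers m, w, the data (m; a;
w) is one of: (m,m,m; a_ii = a_jj = a_kk = -2w, a_ij = a_ik = a_jk = w; w,w,w); (m,2m,m; a_ii = -2w,
a_ij = w, a_ik = 0, a_jj = -2w, a_jk = 3w, a_kk = -6w; w,w,3w); (m,2m,3m; a_ii = -6w, a_ij = 3w,
a_ik = 0, a_jj = -6w, a_jk = 3w, a_kk = -2w; 3w,3w,w); (2m,2m,m; a_ii = -2w, a_ij = 2w, a_ik = 0,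
a_jj = -4w, a_jk = 4w, a_kk = -8w; w,2w,4w); (m,m,m; a_ii = -2w, a_ij = 2w, a_ik = 0, a_jj = -4w,
a_jk = 2w, a_kk = -2w; w,2w,w); (m,2m,m; a_ii = -4w, a_ij = 2w, a_ik = 0, a_jj = -2w, a_jk = 2w,
a_kk = -4w; 2w,w,2w). Only the classification direction is stated. -/
theorem result (T : Models.NumericalType 3) (hmin : T.IsMinimal) (hg : T.genus = 1) :
    ∃ (i j k : Fin 3) (m w : ℤ), i ≠ j ∧ j ≠ k ∧ i ≠ k ∧ T.g i = 0 ∧ T.g j = 0 ∧ T.g k = 0 ∧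
      ((T.m i = m ∧ T.m j = m ∧ T.m k = m ∧ T.a i i = -2 * w ∧ T.a j j = -2 * w ∧ T.a k k = -2 * w ∧
          T.a i j = w ∧ T.a i k = w ∧ T.a j k = w ∧ T.w i = w ∧ T.w j = w ∧ T.w k = w) ∨
        (T.m i = m ∧ T.m j = 2 * m ∧ T.m k = m ∧ T.a i i = -2 * w ∧ T.a i j = w ∧ T.a i k = 0 ∧ T.a j j = -2 * w ∧
          T.a j k = 3 * w ∧ T.a k k = -6 * w ∧ T.w i = w ∧ T.w j = w ∧ T.w k = 3 * w) ∨
        (T.m i = m ∧ T.m j = 2 * m ∧ T.m k = 3 * m ∧ T.a i i = -6 * w ∧ T.a i j = 3 * w ∧ T.a i k = 0 ∧ T.a j j = -6 * w ∧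
          T.a j k = 3 * w ∧ T.a k k = -2 * w ∧ T.w i = 3 * w ∧ T.w j = 3 * w ∧ T.w k = w) ∨
        (T.m i = 2 * m ∧ T.m j = 2 * m ∧ T.m k = m ∧ T.a i i = -2 * w ∧ T.a i j = 2 * w ∧ T.a i k = 0 ∧ T.a j j = -4 * w ∧
          T.a j k = 4 * w ∧ T.a k k = -8 * w ∧ T.w i = w ∧ T.w j = 2 * w ∧ T.w k = 4 * w) ∨
        (T.m i = m ∧ T.m j = m ∧ T.m k = m ∧ T.a i i = -2 * w ∧ T.a i j = 2 * w ∧ T.a i k = 0 ∧ T.a j j = -4 * w ∧
          T.a j k = 2 * w ∧ T.a k k = -2 * w ∧ T.w i = w ∧ T.w j = 2 * w ∧ T.w k = w) ∨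
        (T.m i = m ∧ T.m j = 2 * m ∧ T.m k = m ∧ T.a i i = -4 * w ∧ T.a i j = 2 * w ∧ T.a i k = 0 ∧ T.a j j = -2 * w ∧
          T.a j k = 2 * w ∧ T.a k k = -4 * w ∧ T.w i = 2 * w ∧ T.w j = w ∧ T.w k = 2 * w)) := by
  have h2 := all_minusTwo T (by norm_num) hmin hg
  have n01 : (0 : Fin 3) ≠ 1 := by decide
  have n12 : (1 : Fin 3) ≠ 2 := by decide
  have n02 : (0 : Fin 3) ≠ 2 := by decide
  -- connectivity: no isolated vertex
  have hconn : ∀ i j k : Fin 3, i ≠ j → j ≠ k → i ≠ k → ¬ (T.a i j = 0 ∧ T.a i k = 0) := by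
    rintro i j k hij hjk hik ⟨h1, h2⟩
    obtain ⟨p, hp, q, hq, hpq⟩ := T.connected {i} ⟨i, by simp⟩ (by
      intro h
      have : j ∈ ({i} : Finset (Fin 3)) := by rw [h]; exact mem_univ _
      exact hij (Finset.mem_singleton.1 this).symm)
    rw [Finset.mem_singleton] at hp hq
    subst hp
    have : q = j ∨ q = k := by
      have hq' := hq
      revert hq' hij hjk hik
      clear h1 h2 hpq
      fin_cases p <;> fin_cases j <;> fin_cases k <;> fin_cases q <;> simp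
    rcases this with rfl | rfl
    · exact hpq h1
    · exact hpq h2
  by_cases h01 : T.a 0 1 = 0
  · have h02 : T.a 0 2 ≠ 0 := fun h => hconn 0 1 2 n01 n12 n02 ⟨h01, h⟩
    have h12 : T.a 1 2 ≠ 0 := fun h => hconn 1 0 2 n01.symm n02 n12 ⟨by rw [a_symm T]; exact h01, h⟩
    exact aux T h2 0 2 1 n02 n12.symm n01 h01 h02 (by rw [a_symm T]; exact h12)
  by_cases h02 : T.a 0 2 = 0
  · have h12 : T.a 1 2 ≠ 0 := fun h => hconn 2 0 1 n02.symm n01 n12.symm ⟨by rw [a_symm T]; exact h02, by rw [a_symm T]; exact h⟩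
    exact aux T h2 0 1 2 n01 n12 n02 h02 h01 h12
  by_cases h12 : T.a 1 2 = 0
  · exact aux T h2 1 0 2 n01.symm n02 n12 h12 (by rw [a_symm T]; exact h01) h02
  · -- triangle
    have e01 := edge T n01 h01
    have e02 := edge T n02 h02
    have e12 := edge T n12 h12
    have s0 := row_sum T 0
    have s1 := row_sum T 1
    have s2 := row_sum T 2
    simp only [Fin.sum_univ_three] at s0 s1 s2
    rw [(h2 0).2] at s0
    rw [(h2 1).2, a_symm T 1 0] at s1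
    rw [(h2 2).2, a_symm T 2 0, a_symm T 2 1] at s2
    have m0 := T.m_pos 0
    have m1 := T.m_pos 1
    have m2 := T.m_pos 2
    have q0 : 0 ≤ T.m 0 * (-2 * T.w 0 + T.a 0 1 + T.a 0 2) := mul_nonneg m0.le (by omega)
    have q1 : 0 ≤ T.m 1 * (T.a 0 1 + -2 * T.w 1 + T.a 1 2) := mul_nonneg m1.le (by omega)
    have q2 : 0 ≤ T.m 2 * (T.a 0 2 + T.a 1 2 + -2 * T.w 2) := mul_nonneg m2.le (by omega)
    have z0 : T.m 0 * (-2 * T.w 0 + T.a 0 1 + T.a 0 2) = 0 := by linarith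
    have z1 : T.m 1 * (T.a 0 1 + -2 * T.w 1 + T.a 1 2) = 0 := by linarith
    have z2 : T.m 2 * (T.a 0 2 + T.a 1 2 + -2 * T.w 2) = 0 := by linarith
    have y0 := (mul_eq_zero.1 z0).resolve_left m0.ne'
    have y1 := (mul_eq_zero.1 z1).resolve_left m1.ne'
    have y2 := (mul_eq_zero.1 z2).resolve_left m2.ne'
    have a01 : T.a 0 1 = T.w 0 := by omega
    have a02 : T.a 0 2 = T.w 0 := by omega
    have a12 : T.a 1 2 = T.w 0 := by omega
    have w1 : T.w 1 = T.w 0 := by omega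
    have w2 : T.w 2 = T.w 0 := by omega
    have hw := T.w_pos 0
    rw [a01, a02] at s0
    rw [a01, a12, w1] at s1
    have t0 : 2 * T.m 0 = T.m 1 + T.m 2 := by
      have : T.w 0 * (2 * T.m 0) = T.w 0 * (T.m 1 + T.m 2) := by linarith
      exact mul_left_cancel₀ hw.ne' this
    have t1 : 2 * T.m 1 = T.m 0 + T.m 2 := by
      have : T.w 0 * (2 * T.m 1) = T.w 0 * (T.m 0 + T.m 2) := by linarith
      exact mul_left_cancel₀ hw.ne' this
    refine ⟨0, 1, 2, T.m 0, T.w 0, n01, n12, n02, (h2 0).1, (h2 1).1, (h2 2).1, Or.inl ⟨rfl, ?_, ?_, (h2 0).2, ?_, ?_, a01, a02, a12, rfl, w1, w2⟩⟩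
    · omega
    · omega
    · rw [(h2 1).2, w1]
    · rw [(h2 2).2, w2]


end Groth.Agent.S7363
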