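import Groth.Statements.S7397
import Mathlib.Tactic

set_option autoImplicit false
universe u
open Mor

namespace Groth.Agent.S7397


/-- Let `A ⊆ B` be a ring extension and `b ∈ B`, `b ∉ A`, with `b^n, b^(n+1) ∈ A` for some `n ≥ 2`. Then
some `b' ∈ B` with `b' ∉ A` has `b'^2 ∈ A` and `b'^3 ∈ A`. -/
theorem result {B : Type u} [CommRing B] (A : Subring B) (b : B) (hb : b ∉ A)
    (n : ℕ) (hn : 2 ≤ n) (h1 : b ^ n ∈ A) (h2 : b ^ (n + 1) ∈ A) :
    ∃ b' : B, b' ∉ A ∧ b' ^ 2 ∈ A ∧ b' ^ 3 ∈ A := by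
  classical
  have hbig : ∀ m, n * n ≤ m → b ^ m ∈ A := by
    intro m hm
    have hr : m % n < n := Nat.mod_lt _ (by omega)
    have hq : n ≤ m / n := (Nat.le_div_iff_mul_le (by omega)).2 hm
    obtain ⟨d, hd⟩ : ∃ d, m / n = m % n + d := ⟨m / n - m % n, by omega⟩
    have hm' : m = n * d + (n + 1) * (m % n) := by
      have := Nat.div_add_mod m n
      rw [hd] at this
      nlinarith
    rw [hm', pow_add, pow_mul, pow_mul]
    exact A.mul_mem (A.pow_mem h1 _) (A.pow_mem h2 _)
  have hex : ∃ k, ∀ m, k ≤ m → b ^ m ∈ A := ⟨n * n, hbig⟩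
  have hspec := Nat.find_spec hex
  have hk : 2 ≤ Nat.find hex := by
    by_contra hcon
    have : b ^ 1 ∈ A := hspec 1 (by omega)
    rw [pow_one] at this
    exact hb this
  have hmin := Nat.find_min hex (m := Nat.find hex - 1) (by omega)
  have hnot : b ^ (Nat.find hex - 1) ∉ A := by
    intro hmem
    apply hmin
    intro m hm
    rcases Nat.eq_or_lt_of_le hm with h | h
    · rw [← h]; exact hmem
    · exact hspec m (by omega)
  refine ⟨b ^ (Nat.find hex - 1), hnot, ?_, ?_⟩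
  · rw [← pow_mul]; exact hspec _ (by omega)
  · rw [← pow_mul]; exact hspec _ (by omega)


end Groth.Agent.S7397
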