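import Groth.Statements.S7402
import Groth.Agent.Lib.H21MG

set_option autoImplicit false
universe u
open CategoryTheory AlgebraicGeometry
open Polynomial
open Mor

namespace Groth.Agent.S7402

/-- Let `A` be a ring and `x, y ∈ A` with `x^3 = y^2`. Then `A → B = A[t]/(t^2 - x, t^3 - y)` induces a
universal homeomorphism on spectra and isomorphisms on residue fields. -/
theorem result (A : Type u) [CommRing A] (x y : A) (h : x ^ 3 = y ^ 2) :
    FlatMor.IsUnivHomeo (Spec.map (CommRingCat.ofHom (algebraMap A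
      (A[X] ⧸ Ideal.span ({X ^ 2 - C x, X ^ 3 - C y} : Set A[X]))))) ∧
    ∀ q : Spec (CommRingCat.of (A[X] ⧸ Ideal.span ({X ^ 2 - C x, X ^ 3 - C y} : Set A[X]))),
      Function.Surjective ((Spec.map (CommRingCat.ofHom (algebraMap A
        (A[X] ⧸ Ideal.span ({X ^ 2 - C x, X ^ 3 - C y} : Set A[X]))))).residueFieldMap q) := by
  obtain ⟨h1, h2⟩ := Groth.Agent.H21.s7402 A x y h
  exact ⟨h1, (Groth.Agent.H21.resSurj_iff _).2 h2⟩

end Groth.Agent.S7402
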