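import Groth.Statements.S7403
import Groth.Agent.Lib.H21MG2

set_option autoImplicit false
universe u
open CategoryTheory AlgebraicGeometry
open Polynomial
open Mor

namespace Groth.Agent.S7403

/-- Let `A` be a ring, `p` a prime number and `x, y ∈ A` with `p^p x = y^p`. Then `A → B = A[t]/(t^p -
x, p t - y)` induces a universal homeomorphism on spectra. -/
theorem result (A : Type u) [CommRing A] (p : ℕ) (hp : p.Prime) (x y : A)
    (h : (p : A) ^ p * x = y ^ p) :
    FlatMor.IsUnivHomeo (Spec.map (CommRingCat.ofHom (algebraMap A
      (A[X] ⧸ Ideal.span ({X ^ p - C x, C (p : A) * X - C y} : Set A[X]))))) := by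
  exact Groth.Agent.H21.s7403 A p hp x y h

end Groth.Agent.S7403
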