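import Groth.Statements.S7404
import Groth.Agent.Lib.H21REL2

set_option autoImplicit false
universe u
open CategoryTheory AlgebraicGeometry
open Mor

namespace Groth.Agent.S7404

/-- Let `A → B` be a ring map and `B' ⊆ B` an `A`-subalgebra, with `f : Spec B → Spec A` and `f' : Spec
B' → Spec A` the induced morphisms. Each of the following properties passes from `f` to `f'`: being
a universal homeomorphism; being a universal homeomorphism with trivial residue field extensions;
being universally closed; being both universally closed and universally injective. -/
theorem result {A B : Type u} [CommRing A] [CommRing B] [Algebra A B]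
    (B' : Subalgebra A B) :
    (FlatMor.IsUnivHomeo (Spec.map (CommRingCat.ofHom (algebraMap A B))) →
      FlatMor.IsUnivHomeo (Spec.map (CommRingCat.ofHom (algebraMap A B')))) ∧
    ((FlatMor.IsUnivHomeo (Spec.map (CommRingCat.ofHom (algebraMap A B))) ∧
      ∀ x : Spec (CommRingCat.of B),
        Function.Surjective ((Spec.map (CommRingCat.ofHom (algebraMap A B))).residueFieldMap x)) →
      FlatMor.IsUnivHomeo (Spec.map (CommRingCat.ofHom (algebraMap A B'))) ∧
      ∀ x : Spec (CommRingCat.of B'),
        Function.Surjective ((Spec.map (CommRingCat.ofHom (algebraMap A B'))).residueFieldMap x)) ∧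
    (UniversallyClosed (Spec.map (CommRingCat.ofHom (algebraMap A B))) →
      UniversallyClosed (Spec.map (CommRingCat.ofHom (algebraMap A B')))) ∧
    (UniversallyClosed (Spec.map (CommRingCat.ofHom (algebraMap A B))) →
      UniversallyInjective (Spec.map (CommRingCat.ofHom (algebraMap A B))) →
      UniversallyClosed (Spec.map (CommRingCat.ofHom (algebraMap A B'))) ∧
      UniversallyInjective (Spec.map (CommRingCat.ofHom (algebraMap A B')))) := by
  exact Groth.Agent.H21.sub_inherits B'

end Groth.Agent.S7404
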