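import Groth.Statements.S7405
import Groth.Agent.Lib.H21FC

set_option autoImplicit false
universe u
open CategoryTheory AlgebraicGeometry
open Mor

namespace Groth.Agent.S7405

/-- Let `A` be a ring and `B` the colimit of a filtered diagram `j ↦ B_j` of `A`-algebras. Each of the
following properties, when it holds for every `Spec B_j → Spec A`, holds for `Spec B → Spec A`:
being a universal homeomorphism; being a universal homeomorphism with trivial residue field
extensions; being universally closed; being both universally closed and universally injective. -/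
theorem result (A : CommRingCat.{u}) {J : Type u} [SmallCategory J]
    [IsFiltered J] (F : J ⥤ Under A) (c : Limits.Cocone F) (hc : Limits.IsColimit c) :
    ((∀ j, FlatMor.IsUnivHomeo (Spec.map (F.obj j).hom)) → FlatMor.IsUnivHomeo (Spec.map c.pt.hom)) ∧
    ((∀ j, FlatMor.IsUnivHomeo (Spec.map (F.obj j).hom) ∧
        ∀ x : Spec (F.obj j).right, Function.Surjective ((Spec.map (F.obj j).hom).residueFieldMap x)) →
      FlatMor.IsUnivHomeo (Spec.map c.pt.hom) ∧
        ∀ x : Spec c.pt.right, Function.Surjective ((Spec.map c.pt.hom).residueFieldMap x)) ∧
    ((∀ j, UniversallyClosed (Spec.map (F.obj j).hom)) → UniversallyClosed (Spec.map c.pt.hom)) ∧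
    ((∀ j, UniversallyClosed (Spec.map (F.obj j).hom) ∧ UniversallyInjective (Spec.map (F.obj j).hom)) →
      UniversallyClosed (Spec.map c.pt.hom) ∧ UniversallyInjective (Spec.map c.pt.hom)) := by
  exact Groth.Agent.H21.filtered_inherits A F c hc

end Groth.Agent.S7405
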