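import Groth.Statements.S7412
import Mathlib

set_option autoImplicit false
universe u
open Desc

namespace Groth.Agent.S7412
open CategoryTheory AlgebraicGeometry TensorProduct
theorem key_dual {R : Type u} [CommRing R] {M N : Type u}
    [AddCommGroup M] [Module R M] [AddCommGroup N] [Module R N] (f : M →ₗ[R] N)
    (P : Type u) [AddCommGroup P] [Module R P] (ψ : P →ₗ[R] CharacterModule N) :
    CharacterModule.dual (f.lTensor P) (CharacterModule.homEquiv ψ) =
      CharacterModule.homEquiv ((CharacterModule.dual f).comp ψ) := by
  refine DFunLike.ext _ _ fun z => ?_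
  refine z.induction_on ?_ ?_ ?_
  · rw [map_zero, map_zero]
  · intro p m; rfl
  · intro a b ha hb; rw [map_add, map_add, ha, hb]


/-- Let `R` be a ring and `f : M → N` a map of `R`-modules. Then `f` is universally injective (`f ⊗ 1_P`
is injective for every `R`-module `P`; here `P` ranges over modules in the same universe, which
suffices) if and only if the map of character modules `C(N) → C(M)`, `C(-) = Hom_ℤ(-, ℚ/ℤ)`, is a
split surjection of `R`-modules. -/
theorem result {R : Type u} [CommRing R] {M N : Type u}
    [AddCommGroup M] [Module R M] [AddCommGroup N] [Module R N] (f : M →ₗ[R] N) :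
    (∀ (P : Type u) [AddCommGroup P] [Module R P], Function.Injective (f.lTensor P)) ↔
      ∃ g : CharacterModule M →ₗ[R] CharacterModule N, (CharacterModule.dual f).comp g = LinearMap.id := by
  constructor
  · intro h
    have h1 := CharacterModule.dual_surjective_of_injective (f.lTensor (CharacterModule M)) (h (CharacterModule M))
    obtain ⟨c, hc⟩ := h1 (CharacterModule.homEquiv (LinearMap.id : CharacterModule M →ₗ[R] CharacterModule M))
    obtain ⟨g, rfl⟩ := (CharacterModule.homEquiv (R := R) (A := CharacterModule M) (B := N)).surjective c
    rw [key_dual] at hc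
    exact ⟨g, CharacterModule.homEquiv.injective hc⟩
  · rintro ⟨g, hg⟩ P _ _
    rw [← CharacterModule.dual_surjective_iff_injective]
    intro c
    obtain ⟨φ, rfl⟩ := (CharacterModule.homEquiv (R := R) (A := P) (B := M)).surjective c
    refine ⟨CharacterModule.homEquiv (g.comp φ), ?_⟩
    rw [key_dual, ← LinearMap.comp_assoc, hg, LinearMap.id_comp]

end Groth.Agent.S7412
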