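import Groth.Statements.S7421
import Mathlib

set_option autoImplicit false
universe u
open CategoryTheory AlgebraicGeometry
open HTop

namespace Groth.Agent.S7421
open CategoryTheory AlgebraicGeometry TensorProduct
theorem snr (A : Type u) [CommRing A] (h : HTop.IsSeminormalRing A) : _root_.IsReduced A := by
  rw [isReduced_iff_pow_one_lt 2 (by norm_num)]
  intro x hx
  obtain ⟨a, -, ha⟩ := h 0 0 (by simp)
  rw [ha x ⟨hx.symm, by rw [pow_succ, hx, zero_mul]⟩, ha 0 ⟨by simp, by simp⟩]


/-- A seminormal ring is reduced, and a seminormal scheme is reduced. -/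
theorem result :
    (∀ (A : Type u) [CommRing A], HTop.IsSeminormalRing A → IsReduced A) ∧
    ∀ (X : Scheme.{u}), HTop.IsSeminormal X → AlgebraicGeometry.IsReduced X := by
  refine ⟨fun A _ h => snr A h, fun X hX => ?_⟩
  refine @isReduced_of_isReduced_stalk X ?_
  intro x
  obtain ⟨⟨U, hU⟩, hxU, hr⟩ := hX x
  have hx2 : x ∈ Set.range hU.fromSpec := by rw [hU.range_fromSpec]; exact hxU
  obtain ⟨y, rfl⟩ := hx2
  haveI : _root_.IsReduced Γ(X, U) := snr _ hr
  haveI : AlgebraicGeometry.IsReduced (Spec Γ(X, U)) := inferInstance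
  haveI : _root_.IsReduced ((Spec Γ(X, U)).presheaf.stalk y) := inferInstance
  have hinj : Function.Injective (hU.fromSpec.stalkMap y).hom :=
    (ConcreteCategory.bijective_of_isIso (hU.fromSpec.stalkMap y)).1
  exact isReduced_of_injective (hU.fromSpec.stalkMap y).hom hinj

end Groth.Agent.S7421
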