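import Groth.Statements.S7422
import Groth.Agent.Lib.H21AWN

set_option autoImplicit false
universe u
open CategoryTheory AlgebraicGeometry
open HTop

namespace Groth.Agent.S7422

/-- Every ring `A` has an absolute weak normalization: a ring map `A → A^awn` which induces a universal
homeomorphism on spectra and is final among ring maps out of `A` with this property. -/
theorem result (A : Type u) [CommRing A] :
    ∃ (B : Type u) (_ : CommRing B) (φ : A →+* B), HTop.IsRingAWN φ := by
  exact Groth.Agent.H21.exists_ringAWN A

end Groth.Agent.S7422
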