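import Groth.Statements.S7427
import Groth.Agent.Lib.H21REL

set_option autoImplicit false
universe u
open CategoryTheory AlgebraicGeometry
open Mor

namespace Groth.Agent.S7427

/-- Let `A → B` be a ring map with `Spec B → Spec A` dominant. Then some `A`-subalgebra `B' ⊆ B` has
`Spec B' → Spec A` a universal homeomorphism and contains the image of `C → B` whenever `C` is an
`A`-algebra with an `A`-algebra map `C → B` whose structure map gives a universal homeomorphism
`Spec C → Spec A`. (The test algebras `C` range over the universe of `A` and `B`.) -/
theorem result {A B : Type u} [CommRing A] [CommRing B] [Algebra A B]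
    [IsDominant (Spec.map (CommRingCat.ofHom (algebraMap A B)))] :
    ∃ B' : Subalgebra A B, FlatMor.IsUnivHomeo (Spec.map (CommRingCat.ofHom (algebraMap A B'))) ∧
      ∀ (C : Type u) [CommRing C] [Algebra A C] (g : C →ₐ[A] B),
        FlatMor.IsUnivHomeo (Spec.map (CommRingCat.ofHom (algebraMap A C))) → g.range ≤ B' := by
  exact Groth.Agent.H21.rel_weak

end Groth.Agent.S7427
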