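import Groth.Statements.S7428
import Groth.Agent.Lib.H21REL2

set_option autoImplicit false
universe u
open CategoryTheory AlgebraicGeometry
open Mor

namespace Groth.Agent.S7428

/-- Let `A → B` be a ring map with `Spec B → Spec A` dominant. Then some `A`-subalgebra `B' ⊆ B` has
`Spec B' → Spec A` a universal homeomorphism with trivial residue field extensions and contains the
image of `C → B` for every `A`-algebra `C` with an `A`-algebra map `C → B` such that `Spec C → Spec
A` is a universal homeomorphism with trivial residue field extensions. (Trivial residue field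
extensions: every residue field map of the morphism of spectra is surjective. The test algebras `C`
range over the universe of `A` and `B`.) -/
theorem result {A B : Type u} [CommRing A] [CommRing B] [Algebra A B]
    [IsDominant (Spec.map (CommRingCat.ofHom (algebraMap A B)))] :
    ∃ B' : Subalgebra A B, (FlatMor.IsUnivHomeo (Spec.map (CommRingCat.ofHom (algebraMap A B'))) ∧
      ∀ x : Spec (CommRingCat.of B'),
        Function.Surjective ((Spec.map (CommRingCat.ofHom (algebraMap A B'))).residueFieldMap x)) ∧
      ∀ (C : Type u) [CommRing C] [Algebra A C] (g : C →ₐ[A] B),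
        FlatMor.IsUnivHomeo (Spec.map (CommRingCat.ofHom (algebraMap A C))) →
        (∀ x : Spec (CommRingCat.of C),
          Function.Surjective ((Spec.map (CommRingCat.ofHom (algebraMap A C))).residueFieldMap x)) →
        g.range ≤ B' := by
  obtain ⟨B', ⟨h1, h2⟩, h3⟩ := Groth.Agent.H21.rel_semi (A := A) (B := B)
  exact ⟨B', ⟨h1, (Groth.Agent.H21.resSurj_iff _).2 h2⟩,
    fun C _ _ g hC hr => h3 C g hC ((Groth.Agent.H21.resSurj_iff _).1 hr)⟩

end Groth.Agent.S7428
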