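import Groth.Statements.S7523
import Groth.Agent.Lib.Helper11_Spec

set_option autoImplicit false
universe u
open SpecSp

namespace Groth.Agent.S7523
open Groth.Agent.H11Spec Topology

/-- For a spectral map f : X → Y between spectral spaces, (1) f remains continuous once X and Y are both
given their constructible topologies, (2) every fibre of f is quasi-compact, and (3) f(X) is a
closed subset of Y for the constructible topology. -/
theorem result {X Y : Type u} [TopologicalSpace X] [TopologicalSpace Y]
    [SpectralSpace X] [SpectralSpace Y] (f : X → Y) (hf : IsSpectralMap f) :
    @Continuous X Y (constructibleTopology X) (constructibleTopology Y) f ∧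
    (∀ y : Y, IsCompact (f ⁻¹' {y})) ∧
    @IsClosed Y (constructibleTopology Y) (Set.range f) := by
  have _h := @cons_t2 Y _ _
  have hc := cons_continuous hf
  refine ⟨hc, ?_, ?_⟩
  · intro y
    apply isCompact_of_cons_closed
    have h1 : @T2Space Y (constructibleTopology Y) := cons_t2
    have h2 : IsClosed[constructibleTopology Y] {y} := @isClosed_singleton Y (constructibleTopology Y) (@T2Space.t1Space Y (constructibleTopology Y) h1) y
    exact @IsClosed.preimage X Y (constructibleTopology X) (constructibleTopology Y) _ hc _ h2
  · have h1 : @T2Space Y (constructibleTopology Y) := cons_t2
    have h3 := @IsCompact.image X Y (constructibleTopology X) (constructibleTopology Y) Set.univ f cons_isCompact_univ hc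
    rw [Set.image_univ] at h3
    exact @IsCompact.isClosed Y (constructibleTopology Y) h1 _ h3


end Groth.Agent.S7523
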