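import Groth.Statements.S7524
import Groth.Agent.Lib.Helper11_Spec

set_option autoImplicit false
universe u
open SpecSp

namespace Groth.Agent.S7524
open Groth.Agent.H11Spec Topology

/-- For spectral spaces X and Y and a continuous map f : X → Y, f is a spectral map exactly when f is
still continuous once X and Y both carry their constructible topologies. -/
theorem result {X Y : Type u} [TopologicalSpace X] [TopologicalSpace Y]
    [SpectralSpace X] [SpectralSpace Y] (f : X → Y) (hf : Continuous f) :
    IsSpectralMap f ↔ @Continuous X Y (constructibleTopology X) (constructibleTopology Y) f := by
  refine ⟨cons_continuous, fun h => ⟨hf, ?_⟩⟩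
  intro U hU hUc
  exact isCompact_of_cons_closed (@IsClosed.preimage X Y (constructibleTopology X) (constructibleTopology Y) _ h _ (cons_closed hU hUc))


end Groth.Agent.S7524
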