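import Groth.Statements.S7525
import Groth.Agent.Lib.Helper11_Spec

set_option autoImplicit false
universe u
open SpecSp

namespace Groth.Agent.S7525
open Groth.Agent.H11Spec Topology

/-- Let X be a spectral space and let E ⊆ X be closed in the constructible topology (for instance a
constructible or a closed subset). Then E, with the topology induced from X, is a spectral space. -/
theorem result {X : Type u} [TopologicalSpace X] [SpectralSpace X]
    (E : Set X) (hE : @IsClosed X (constructibleTopology X) E) :
    SpectralSpace E := by
  exact spectral_of_cons_closed E hE


end Groth.Agent.S7525
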