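import Groth.Statements.S7526
import Groth.Agent.Lib.Helper11_Spec

set_option autoImplicit false
universe u
open SpecSp

namespace Groth.Agent.S7526
open Groth.Agent.H11Spec Topology

/-- Let X be a spectral space. If E ⊆ X is closed in the constructible topology then (1) every point of
the closure of E is a specialization of some point of E, and (2) E is closed as soon as it is also
stable under specialization. (3) Any E' ⊆ X that is stable under generalization and constructibly
open is open. -/
theorem result {X : Type u} [TopologicalSpace X] [SpectralSpace X] :
    (∀ E : Set X, @IsClosed X (constructibleTopology X) E →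
      (∀ x ∈ closure E, ∃ e ∈ E, e ⤳ x) ∧ (StableUnderSpecialization E → IsClosed E)) ∧
    (∀ E' : Set X, @IsOpen X (constructibleTopology X) E' → StableUnderGeneralization E' → IsOpen E') := by
  have key : ∀ E : Set X, @IsClosed X (constructibleTopology X) E →
      (∀ x ∈ closure E, ∃ e ∈ E, e ⤳ x) ∧ (StableUnderSpecialization E → IsClosed E) := by
    intro E hE
    refine ⟨fun x hx => exists_specializes hE hx, fun hs => ?_⟩
    rw [← closure_subset_iff_isClosed]
    intro x hx
    obtain ⟨e, he, hex⟩ := exists_specializes hE hx
    exact hs hex he
  refine ⟨key, ?_⟩
  intro E' hE' hs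
  rw [← isClosed_compl_iff]
  exact (key E'ᶜ ((@isClosed_compl_iff X (constructibleTopology X) E').2 hE')).2 (by
    intro x y hxy hx hy
    exact hx (hs hxy hy))


end Groth.Agent.S7526
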