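import Groth.Statements.S7527
import Groth.Agent.Lib.Helper11_Spec

set_option autoImplicit false
universe u
open SpecSp

namespace Groth.Agent.S7527
open Groth.Agent.H11Spec Topology

/-- Let X be a spectral space and x, y ∈ X. Then either there is a point (possibly x or y itself)
specializing to both x and y, or there are disjoint open neighbourhoods of x and of y. -/
theorem result {X : Type u} [TopologicalSpace X] [SpectralSpace X] (x y : X) :
    (∃ z : X, z ⤳ x ∧ z ⤳ y) ∨
    (∃ U V : Set X, IsOpen U ∧ IsOpen V ∧ x ∈ U ∧ y ∈ V ∧ Disjoint U V) := by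
  classical
  by_cases h : ∃ U V : Set X, IsOpen U ∧ IsOpen V ∧ x ∈ U ∧ y ∈ V ∧ Disjoint U V
  · exact Or.inr h
  · left
    push Not at h
    have hfin : ∀ F : Finset {U : Set X // (IsOpen U ∧ IsCompact U) ∧ (x ∈ U ∨ y ∈ U)}, (Set.univ ∩ ⋂ U ∈ F, U.1).Nonempty := by
      intro F
      have h1 : IsOpen (⋂ U ∈ F.filter (fun U => x ∈ U.1), U.1) := isOpen_biInter_finset (fun U _ => U.2.1.1)
      have h2 : IsOpen (⋂ U ∈ F.filter (fun U => y ∈ U.1), U.1) := isOpen_biInter_finset (fun U _ => U.2.1.1)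
      have h3 : x ∈ (⋂ U ∈ F.filter (fun U => x ∈ U.1), U.1) := by
        simp only [Set.mem_iInter, Finset.mem_filter]; exact fun U hU => hU.2
      have h4 : y ∈ (⋂ U ∈ F.filter (fun U => y ∈ U.1), U.1) := by
        simp only [Set.mem_iInter, Finset.mem_filter]; exact fun U hU => hU.2
      have := h _ _ h1 h2 h3 h4
      rw [Set.not_disjoint_iff] at this
      obtain ⟨z, hz1, hz2⟩ := this
      refine ⟨z, Set.mem_univ _, ?_⟩
      simp only [Set.mem_iInter, Finset.mem_filter] at hz1 hz2 ⊢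
      intro U hU
      rcases U.2.2 with hh | hh
      · exact hz1 U ⟨hU, hh⟩
      · exact hz2 U ⟨hU, hh⟩
    obtain ⟨z, -, hz⟩ := @IsCompact.inter_iInter_nonempty X (constructibleTopology X) Set.univ _ cons_isCompact_univ
      (fun U : {U : Set X // (IsOpen U ∧ IsCompact U) ∧ (x ∈ U ∨ y ∈ U)} => U.1) (fun U => cons_closed U.2.1.1 U.2.1.2) hfin
    simp only [Set.mem_iInter] at hz
    refine ⟨z, ?_, ?_⟩
    · rw [specializes_iff_forall_open]
      intro U hU hxU
      obtain ⟨V, hV, hxV, hVU⟩ := prespectral_basis.exists_subset_of_mem_open hxU hU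
      exact hVU (hz ⟨V, hV, Or.inl hxV⟩)
    · rw [specializes_iff_forall_open]
      intro U hU hxU
      obtain ⟨V, hV, hxV, hVU⟩ := prespectral_basis.exists_subset_of_mem_open hxU hU
      exact hVU (hz ⟨V, hV, Or.inr hxV⟩)


end Groth.Agent.S7527
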