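import Groth.Statements.S7528
import Groth.Agent.Lib.Helper11_Spec2
import Mathlib

set_option autoImplicit false
universe u
open SpecSp

namespace Groth.Agent.S7528
open Groth.Agent.H11Spec Topology

/-- For a spectral space X the following are equivalent: (1) X is profinite, i.e. quasi-compact,
Hausdorff and totally disconnected (quasi-compactness being automatic); (2) Hausdorffness of X; (3)
total disconnectedness of X; (4) each open quasi-compact subset of X is closed; (5) whenever x
specializes to y one has x = y; (6) all points are closed; (7) every point is the generic point of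
an irreducible component; (8) the constructible topology coincides with the topology of X. -/
theorem result (X : Type u) [tX : TopologicalSpace X] [SpectralSpace X] :
    List.TFAE [
      T2Space X ∧ TotallyDisconnectedSpace X,
      T2Space X,
      TotallyDisconnectedSpace X,
      ∀ U : Set X, IsOpen U → IsCompact U → IsClosed U,
      ∀ x y : X, x ⤳ y → x = y,
      ∀ x : X, IsClosed ({x} : Set X),
      ∀ x : X, closure ({x} : Set X) ∈ irreducibleComponents X,
      constructibleTopology X = tX] := by
  have hle : constructibleTopology X ≤ tX := cons_le
  tfae_have 1 → 2 := fun h => h.1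
  tfae_have 2 → 4 := fun h U _ hUc => hUc.isClosed
  tfae_have 4 → 8 := by
    intro h
    apply le_antisymm hle
    apply le_generateFrom
    rintro s (⟨h1, h2⟩ | ⟨h1, h2⟩)
    · exact h1
    · rw [← isClosed_compl_iff]
      exact h sᶜ h1.isOpen_compl h2
  tfae_have 8 → 1 := by
    intro h
    have h1 : @T2Space X (constructibleTopology X) := cons_t2
    rw [h] at h1
    refine ⟨h1, ?_⟩
    have : TotallySeparatedSpace X := by
      rw [totallySeparatedSpace_iff_exists_isClopen]
      intro x y hxy
      obtain ⟨U, hU1, hU2, hh | hh⟩ := exists_separating hxy
      · have hcl : IsClosed[constructibleTopology X] U := cons_closed hU1 hU2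
        rw [h] at hcl
        exact ⟨U, ⟨hcl, hU1⟩, hh.1, hh.2⟩
      · have hcl : IsClosed[constructibleTopology X] U := cons_closed hU1 hU2
        rw [h] at hcl
        exact ⟨Uᶜ, IsClopen.compl ⟨hcl, hU1⟩, hh.2, fun k => k hh.1⟩
    infer_instance
  tfae_have 1 → 3 := fun h => h.2
  tfae_have 3 → 6 := by
    intro h x
    have h1 : IsPreconnected (closure {x}) := isPreconnected_singleton.closure
    have h2 := h.isTotallyDisconnected_univ _ (Set.subset_univ _) h1
    have h3 : closure {x} = {x} := h2.eq_singleton_of_mem (subset_closure rfl)
    rw [← h3]; exact isClosed_closure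
  tfae_have 6 → 5 := by
    intro h x y hxy
    have := hxy.mem_closed (h x) rfl
    exact this.symm
  tfae_have 5 → 4 := by
    intro h U hU hUc
    have hcl : IsClosed[constructibleTopology X] U := cons_closed hU hUc
    rw [← closure_subset_iff_isClosed]
    intro x hx
    obtain ⟨e, he, hex⟩ := exists_specializes hcl hx
    rw [← h e x hex]; exact he
  tfae_have 6 → 7 := by
    intro h x
    refine ⟨isIrreducible_singleton.closure, fun Z hZ hle => ?_⟩
    obtain ⟨z, hz⟩ := QuasiSober.sober hZ.closure isClosed_closure
    have hz' : closure {z} = closure Z := hz
    rw [(h z).closure_eq] at hz'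
    have hxz : x ∈ ({z} : Set X) := by
      rw [hz']; exact subset_closure (hle (subset_closure rfl))
    have hxz' : x = z := hxz
    intro w hw
    have : w ∈ ({z} : Set X) := by rw [hz']; exact subset_closure hw
    have hw' : w = z := this
    rw [hw', ← hxz']
    exact subset_closure rfl
  tfae_have 7 → 5 := by
    intro h x y hxy
    have h1 : closure {y} ⊆ closure {x} := specializes_iff_closure_subset.1 hxy
    have h2 := (h y).2 isIrreducible_singleton.closure h1
    exact (hxy.antisymm (specializes_iff_closure_subset.2 h2)).eq
  tfae_finish


end Groth.Agent.S7528
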