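import Groth.Statements.S7529
import Groth.Agent.Lib.Helper11_Spec

set_option autoImplicit false
universe u
open SpecSp

namespace Groth.Agent.S7529
open Groth.Agent.H11Spec Topology

/-- The product X × Y of two spectral spaces X and Y is a spectral space. -/
theorem result (X Y : Type u) [TopologicalSpace X] [TopologicalSpace Y]
    [SpectralSpace X] [SpectralSpace Y] : SpectralSpace (X × Y) := by
  have hcX := @cons_isCompact_univ X _ _
  have hcY := @cons_isCompact_univ Y _ _
  have hc : @IsCompact (X × Y) (@instTopologicalSpaceProd X Y (constructibleTopology X) (constructibleTopology Y)) Set.univ := by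
    have := @IsCompact.prod X Y (constructibleTopology X) (constructibleTopology Y) _ _ hcX hcY
    rwa [Set.univ_prod_univ] at this
  refine spectral_criterion (@instTopologicalSpaceProd X Y (constructibleTopology X) (constructibleTopology Y)) hc
    (Set.image2 (fun U V => U ×ˢ V) {U : Set X | IsOpen U ∧ IsCompact U} {U : Set Y | IsOpen U ∧ IsCompact U})
    (prespectral_basis.prod prespectral_basis) ?_ ?_
  · rintro _ ⟨U, ⟨hU1, hU2⟩, V, ⟨hV1, hV2⟩, rfl⟩
    exact @IsOpen.prod X Y (constructibleTopology X) (constructibleTopology Y) _ _ (cons_open hU1 hU2) (cons_open hV1 hV2)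
  · rintro _ ⟨U, ⟨hU1, hU2⟩, V, ⟨hV1, hV2⟩, rfl⟩
    exact @IsClosed.prod X Y (constructibleTopology X) (constructibleTopology Y) _ _ (cons_closed hU1 hU2) (cons_closed hV1 hV2)


end Groth.Agent.S7529
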