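import Groth.Statements.S7530
import Groth.Agent.Lib.Helper11_Spec

set_option autoImplicit false
universe u
open SpecSp

namespace Groth.Agent.S7530
open Groth.Agent.H11Spec Topology

/-- Let f : X → Y be a map of spectral spaces which is spectral and bijective, and assume that
generalizations lift along f or that specializations lift along f. Then f is a homeomorphism. -/
theorem result {X Y : Type u} [TopologicalSpace X] [TopologicalSpace Y]
    [SpectralSpace X] [SpectralSpace Y] (f : X → Y) (hf : IsSpectralMap f) (hb : Function.Bijective f)
    (hlift : GeneralizingMap f ∨ SpecializingMap f) :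
    IsHomeomorph f := by
  have hc := cons_continuous hf
  have h2 : @T2Space Y (constructibleTopology Y) := cons_t2
  -- f is a closed map for the constructible topologies
  have hcl : ∀ s : Set X, IsClosed[constructibleTopology X] s → IsClosed[constructibleTopology Y] (f '' s) := by
    intro s hs
    exact @IsCompact.isClosed Y (constructibleTopology Y) h2 _
      (@IsCompact.image X Y (constructibleTopology X) (constructibleTopology Y) s f (cons_isCompact hs) hc)
  have key : ∀ E : Set Y, @IsClosed Y (constructibleTopology Y) E → StableUnderSpecialization E → IsClosed E := by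
    intro E hE hs
    rw [← closure_subset_iff_isClosed]
    intro x hx
    obtain ⟨e, he, hex⟩ := exists_specializes hE hx
    exact hs hex he
  rcases hlift with hg | hs
  · -- open map
    refine ⟨hf.continuous, ?_, hb⟩
    intro U hU
    rw [← isClosed_compl_iff, ← Set.image_compl_eq hb]
    apply key _ (hcl _ (cons_closed_of_closed hU.isClosed_compl))
    rw [Set.image_compl_eq hb]
    intro y y' hyy hy hy'
    obtain ⟨x', hx', rfl⟩ := hy'
    obtain ⟨x, hx, rfl⟩ := hg hyy
    exact hy ⟨x, hx.mem_open hU hx', rfl⟩
  · refine (isHomeomorph_iff_continuous_isClosedMap_bijective).2 ⟨hf.continuous, ?_, hb⟩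
    intro Z hZ
    apply key _ (hcl _ (cons_closed_of_closed hZ))
    rintro y y' hyy ⟨x, hx, rfl⟩
    obtain ⟨x', hx', rfl⟩ := hs hyy
    exact ⟨x', hx'.mem_closed hZ hx, rfl⟩


end Groth.Agent.S7530
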