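import Groth.Statements.S7531
import Groth.Agent.Lib.Helper11_Spec2
import Mathlib

set_option autoImplicit false
universe u
open CategoryTheory CategoryTheory.Limits
open SpecSp

namespace Groth.Agent.S7531
open Groth.Agent.H11Spec Topology

/-- Let J be a nonempty directed preordered set and let (X_j) be an inverse system of finite sober
topological spaces indexed by J (a functor from the opposite of J to topological spaces). Then any
limit of this system in the category of topological spaces is a spectral space. -/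
theorem result {J : Type u} [Preorder J] [Nonempty J] [IsDirected J (· ≤ ·)]
    (F : Jᵒᵖ ⥤ TopCat.{u})
    (hF : ∀ j : Jᵒᵖ, Finite (F.obj j) ∧ T0Space (F.obj j) ∧ QuasiSober (F.obj j))
    (c : Cone F) (hc : IsLimit c) :
    SpectralSpace c.pt := by
  haveI : ∀ j, T0Space (F.obj j) := fun j => (hF j).2.1
  haveI : T0Space c.pt := lim_t0 F c (fun j => inferInstance) hc
  have hcpt := lim_compact F c (fun j => (⊥ : TopologicalSpace (F.obj j)))
    (fun j => by haveI := (hF j).1; exact @Finite.compactSpace _ ⊥ _)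
    (fun j => @DiscreteTopology.toT2Space _ ⊥ (@DiscreteTopology.mk _ ⊥ rfl))
    (fun a => continuous_bot) hc
  have hb : TopologicalSpace.IsTopologicalBasis {U : Set c.pt | ∃ (j : Jᵒᵖ) (V : Set (F.obj j)), V ∈ {V : Set (F.obj j) | IsOpen V} ∧ U = c.π.app j ⁻¹' V} :=
    TopCat.isTopologicalBasis_cofiltered_limit F c hc (fun j => {V : Set (F.obj j) | IsOpen V})
    (fun j => TopologicalSpace.isTopologicalBasis_opens) (fun j => isOpen_univ)
    (fun i U V hU hV => IsOpen.inter hU hV)
    (fun i j f V hV => IsOpen.preimage (F.map f).hom.continuous hV)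
  refine spectral_criterion (⨅ j, (⊥ : TopologicalSpace (F.obj j)).induced (c.π.app j)) hcpt _ hb ?_ ?_
  · rintro _ ⟨j, V, hV, rfl⟩
    exact @IsOpen.preimage _ _ (_) ⊥ _ (lim_cont F c (fun j => (⊥ : TopologicalSpace (F.obj j))) j) _ (@isOpen_discrete _ ⊥ (@DiscreteTopology.mk _ ⊥ rfl) V)
  · rintro _ ⟨j, V, hV, rfl⟩
    exact @IsClosed.preimage _ _ (_) ⊥ _ (lim_cont F c (fun j => (⊥ : TopologicalSpace (F.obj j))) j) _ (@isClosed_discrete _ ⊥ (@DiscreteTopology.mk _ ⊥ rfl) V)


end Groth.Agent.S7531
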