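import Groth.Statements.S7532
import Groth.Agent.Lib.Helper11_Spec2
import Mathlib

set_option autoImplicit false
universe u
open SpecSp

namespace Groth.Agent.S7532
open Groth.Agent.H11Spec Topology

/-- Let W be the two-point space with one closed and one non-closed point (here the Sierpiński topology
on Prop). A topological space X is spectral exactly when, for some index type I, X admits a
topological embedding into the power W^I whose image is a closed set for the constructible topology
on W^I. -/
theorem result (X : Type u) [TopologicalSpace X] :
    SpectralSpace X ↔ ∃ (I : Type u) (f : X → (I → Prop)),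
      Topology.IsEmbedding f ∧ @IsClosed (I → Prop) (constructibleTopology (I → Prop)) (Set.range f) := by
  have hT0 : T0Space (X) ∨ True := Or.inr trivial
  clear hT0
  -- the power of the Sierpinski space is spectral
  have hW : ∀ I : Type u, SpectralSpace (I → Prop) := by
    intro I
    have hcpt : @IsCompact (I → Prop) (@Pi.topologicalSpace I (fun _ => Prop) (fun _ => ⊥)) Set.univ := by
      have h1 : ∀ i : I, @CompactSpace Prop ⊥ := fun _ => @Finite.compactSpace Prop ⊥ _
      exact (@Pi.compactSpace I (fun _ => Prop) (fun _ => ⊥) h1).isCompact_univ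
    have hev : ∀ i : I, @Continuous (I → Prop) Prop (@Pi.topologicalSpace I (fun _ => Prop) (fun _ => ⊥)) ⊥ (fun f => f i) :=
      fun i => @continuous_apply I (fun _ => Prop) (fun _ => ⊥) i
    have hcl : ∀ (i : I) (s : Set Prop), @IsOpen (I → Prop) (@Pi.topologicalSpace I (fun _ => Prop) (fun _ => ⊥)) ((fun f => f i) ⁻¹' s) ∧
        @IsClosed (I → Prop) (@Pi.topologicalSpace I (fun _ => Prop) (fun _ => ⊥)) ((fun f => f i) ⁻¹' s) := by
      intro i s
      exact ⟨@IsOpen.preimage _ _ (_) ⊥ _ (hev i) _ (@isOpen_discrete _ ⊥ (@DiscreteTopology.mk _ ⊥ rfl) s),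
        @IsClosed.preimage _ _ (_) ⊥ _ (hev i) _ (@isClosed_discrete _ ⊥ (@DiscreteTopology.mk _ ⊥ rfl) s)⟩
    have hb := isTopologicalBasis_pi (X := fun _ : I => Prop) (T := fun _ => {s : Set Prop | IsOpen s})
      (fun _ => TopologicalSpace.isTopologicalBasis_opens)
    refine spectral_criterion (@Pi.topologicalSpace I (fun _ => Prop) (fun _ => ⊥)) hcpt _ hb ?_ ?_
    · rintro _ ⟨U, F, hU, rfl⟩
      rw [Set.pi_def]
      exact @isOpen_biInter_finset _ _ (_) F _ (fun i _ => (hcl i (U i)).1)
    · rintro _ ⟨U, F, hU, rfl⟩
      rw [Set.pi_def]
      exact @isClosed_biInter _ _ (_) _ _ (fun i _ => (hcl i (U i)).2)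
  constructor
  · intro hX
    let I := {U : Set X // IsOpen U ∧ IsCompact U}
    let f : X → (I → Prop) := fun x U => x ∈ U.1
    have hind : Topology.IsInducing f := by
      constructor
      rw [Pi.topologicalSpace, induced_iInf]
      apply le_antisymm
      · apply le_iInf
        intro U
        rw [induced_compose, ← continuous_iff_le_induced]
        exact continuous_Prop.2 U.2.1
      · rw [(prespectral_basis (X := X)).eq_generateFrom]
        apply le_generateFrom
        intro V hV
        apply (iInf_le (fun U : I => TopologicalSpace.induced f (TopologicalSpace.induced (fun g => g U) inferInstance)) ⟨V, hV⟩) V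
        rw [induced_compose]
        refine ⟨{True}, isOpen_singleton_true, ?_⟩
        ext x
        simp [f]
    have hinj : Function.Injective f := by
      intro x y hxy
      by_contra hne
      obtain ⟨U, hU1, hU2, h | h⟩ := exists_separating hne
      · have := congrFun hxy ⟨U, hU1, hU2⟩
        exact h.2 (cast this h.1)
      · have := congrFun hxy ⟨U, hU1, hU2⟩
        exact h.2 (cast this.symm h.1)
    refine ⟨I, f, ⟨hind, hinj⟩, ?_⟩
    haveI := hW I
    have hsp : IsSpectralMap f := by
      refine ⟨hind.continuous, ?_⟩
      intro V hV hVc
      have hb := isTopologicalBasis_pi (X := fun _ : I => Prop) (T := fun _ => {s : Set Prop | IsOpen s})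
        (fun _ => TopologicalSpace.isTopologicalBasis_opens)
      obtain ⟨S, hS, rfl⟩ := hb.open_eq_sUnion hV
      obtain ⟨T, hT⟩ := hVc.elim_finite_subcover (fun s : S => s.1) (fun s => hb.isOpen (hS s.2)) (by rw [Set.sUnion_eq_iUnion])
      have heq : ⋃₀ S = ⋃ i ∈ T, i.1 := by
        apply Set.Subset.antisymm hT
        intro x hx
        simp only [Set.mem_iUnion] at hx
        obtain ⟨i, -, hx⟩ := hx
        exact ⟨i.1, i.2, hx⟩
      rw [heq, Set.preimage_iUnion₂]
      apply T.isCompact_biUnion
      intro s _
      obtain ⟨U, F, hU, hs⟩ := hS s.2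
      rw [hs, Set.pi_def, Set.preimage_iInter₂]
      apply isCompact_of_cons_closed
      apply @isClosed_biInter X _ (constructibleTopology X)
      intro i hi
      have hUi : IsOpen (U i) := hU i hi
      by_cases hT1 : (False : Prop) ∈ U i
      · have : U i = Set.univ := by
          ext p
          simp only [Set.mem_univ, iff_true]
          by_cases hp : p
          · rw [eq_true hp]
            have h2 : (nhds False : Filter Prop) = ⊤ := nhds_false
            have h3 := hUi.mem_nhds hT1
            rw [h2, Filter.mem_top] at h3
            rw [h3]; trivial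
          · rw [eq_false hp]; exact hT1
        rw [this]
        exact @isClosed_univ X (constructibleTopology X)
      · by_cases hT2 : (True : Prop) ∈ U i
        · have : f ⁻¹' ((fun g => g i) ⁻¹' U i) = i.1 := by
            ext x
            simp only [Set.mem_preimage, f]
            by_cases hx : x ∈ i.1
            · simp [hx, hT2]
            · simp [hx, hT1]
          rw [show f ⁻¹' (Function.eval i ⁻¹' U i) = i.1 from this]
          exact cons_closed i.2.1 i.2.2
        · have : f ⁻¹' ((fun g => g i) ⁻¹' U i) = ∅ := by
            ext x
            simp only [Set.mem_preimage, f, Set.mem_empty_iff_false, iff_false]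
            by_cases hx : x ∈ i.1
            · simp [hx, hT2]
            · simp [hx, hT1]
          rw [show f ⁻¹' (Function.eval i ⁻¹' U i) = ∅ from this]
          exact @isClosed_empty X (constructibleTopology X)
    have h3 := @IsCompact.image X (I → Prop) (constructibleTopology X) (constructibleTopology (I → Prop)) Set.univ f cons_isCompact_univ (cons_continuous hsp)
    rw [Set.image_univ] at h3
    exact @IsCompact.isClosed (I → Prop) (constructibleTopology (I → Prop)) cons_t2 _ h3
  · rintro ⟨I, f, hf, hcl⟩
    haveI := hW I
    haveI := spectral_of_cons_closed (Set.range f) hcl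
    haveI : CompactSpace X := (hf.toHomeomorph).symm.compactSpace
    exact (hf.toHomeomorph).isOpenEmbedding.spectralSpace


end Groth.Agent.S7532
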