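import Groth.Statements.S7533
import Groth.Agent.Lib.Helper11_Spec2

set_option autoImplicit false
universe u
open CategoryTheory CategoryTheory.Limits
open SpecSp

namespace Groth.Agent.S7533
open Groth.Agent.H11Spec Topology

/-- Let j ↦ X_j be a diagram of spectral spaces, indexed by a category J, whose transition maps are
spectral, and let X be its limit in topological spaces with projections p_j. (1) If Z_j ⊆ X_j are
closed in the constructible topology and the transition maps carry Z_i into Z_j, then lim Z_j, i.e.
the subspace of X of points x with p_j(x) ∈ Z_j for all j, is quasi-compact. (2) X is quasi-compact. -/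
theorem result {J : Type u} [SmallCategory J] (F : J ⥤ TopCat.{u})
    (hF : ∀ j, SpectralSpace (F.obj j))
    (hFm : ∀ {i j : J} (a : i ⟶ j), IsSpectralMap (F.map a : F.obj i → F.obj j))
    (c : Cone F) (hc : IsLimit c) :
    (∀ Z : ∀ j, Set (F.obj j),
      (∀ j, @IsClosed (F.obj j) (constructibleTopology (F.obj j)) (Z j)) →
      (∀ {i j : J} (a : i ⟶ j), Set.MapsTo (F.map a) (Z i) (Z j)) →
      IsCompact {x : c.pt | ∀ j, c.π.app j x ∈ Z j}) ∧
    CompactSpace c.pt := by
  refine ⟨?_, ?_⟩
  · intro Z hZ _
    apply lim_closed_compact F c hF hFm hc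
    have : {x : c.pt | ∀ j, c.π.app j x ∈ Z j} = ⋂ j, c.π.app j ⁻¹' (Z j) := by
      ext x; simp
    rw [this]
    apply @isClosed_iInter _ _ (_)
    intro j
    exact @IsClosed.preimage _ _ (_) (constructibleTopology (F.obj j)) _ (lim_cont F c (fun j => constructibleTopology (F.obj j)) j) _ (hZ j)
  · exact ⟨lim_closed_compact F c hF hFm hc (@isClosed_univ _ (_))⟩


end Groth.Agent.S7533
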