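import Groth.Statements.S7534
import Groth.Agent.Lib.Helper11_Spec2

set_option autoImplicit false
universe u
open CategoryTheory CategoryTheory.Limits
open SpecSp

namespace Groth.Agent.S7534
open Groth.Agent.H11Spec Topology

open CategoryTheory.Limits in
theorem sec_exists {J : Type u} [SmallCategory J] [IsCofiltered J] (F : J ⥤ TopCat.{u})
    (hF : ∀ j, SpectralSpace (F.obj j))
    (hFm : ∀ {i j : J} (a : i ⟶ j), IsSpectralMap (F.map a : F.obj i → F.obj j))
    (Z : ∀ j, Set (F.obj j)) (hne : ∀ j, (Z j).Nonempty)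
      (hcl : ∀ j, @IsClosed (F.obj j) (constructibleTopology (F.obj j)) (Z j))
      (hm : ∀ {i j : J} (a : i ⟶ j), Set.MapsTo (F.map a) (Z i) (Z j)) :
      ∃ s : ∀ j, F.obj j, (∀ {i j : J} (a : i ⟶ j), F.map a (s i) = s j) ∧ ∀ j, s j ∈ Z j := by
  let tZ : ∀ j, TopologicalSpace (Z j) := fun j => TopologicalSpace.induced Subtype.val (constructibleTopology (F.obj j))
  let G : J ⥤ TopCat.{u} :=
    { obj := fun j => @TopCat.of (Z j) (tZ j)
      map := fun {i j} a => @TopCat.ofHom (Z i) (Z j) (tZ i) (tZ j) (@ContinuousMap.mk (Z i) (Z j) (tZ i) (tZ j)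
        (fun x => ⟨F.map a x.1, hm a x.2⟩) (by
          apply @Continuous.subtype_mk _ _ (constructibleTopology (F.obj j)) (tZ i) _ _ ?_ (fun x => hm a x.2)
          exact @Continuous.comp _ _ _ (tZ i) (constructibleTopology (F.obj i)) (constructibleTopology (F.obj j)) _ _
            (cons_continuous (hFm a)) (@continuous_subtype_val _ (constructibleTopology (F.obj i)) _)))
      map_id := by
        intro j
        ext x
        simp
      map_comp := by
        intro i j k a b
        ext x
        simp }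
  have h1 : ∀ j, Nonempty (G.obj j) := fun j => ⟨⟨(hne j).choose, (hne j).choose_spec⟩⟩
  have h2 : ∀ j, CompactSpace (G.obj j) := fun j =>
    (@isCompact_iff_compactSpace (F.obj j) (constructibleTopology (F.obj j)) (Z j)).1 (cons_isCompact (hcl j))
  have h3 : ∀ j, T2Space (G.obj j) := fun j =>
    @instT2SpaceSubtype (F.obj j) (constructibleTopology (F.obj j)) _ cons_t2
  obtain ⟨x⟩ := TopCat.nonempty_limitCone_of_compact_t2_cofiltered_system G
  refine ⟨fun j => (x.1 j).1, fun {i j} a => ?_, fun j => (x.1 j).2⟩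
  have := x.2 a
  exact congrArg Subtype.val this

/-- Let j ↦ X_j be a cofiltered diagram of spectral spaces with spectral transition maps, and X its
limit in topological spaces with projections p_j. (1) If Z_j ⊆ X_j are nonempty, closed in the
constructible topology, and carried into each other by the transition maps, then lim Z_j is
nonempty, i.e. some x ∈ X has p_j(x) ∈ Z_j for all j. (2) If every X_j is nonempty then X is
nonempty. -/
theorem result {J : Type u} [SmallCategory J] [IsCofiltered J] (F : J ⥤ TopCat.{u})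
    (hF : ∀ j, SpectralSpace (F.obj j))
    (hFm : ∀ {i j : J} (a : i ⟶ j), IsSpectralMap (F.map a : F.obj i → F.obj j))
    (c : Cone F) (hc : IsLimit c) :
    (∀ Z : ∀ j, Set (F.obj j),
      (∀ j, (Z j).Nonempty) →
      (∀ j, @IsClosed (F.obj j) (constructibleTopology (F.obj j)) (Z j)) →
      (∀ {i j : J} (a : i ⟶ j), Set.MapsTo (F.map a) (Z i) (Z j)) →
      ∃ x : c.pt, ∀ j, c.π.app j x ∈ Z j) ∧
    ((∀ j, Nonempty (F.obj j)) → Nonempty c.pt) := by
  have key : ∀ Z : ∀ j, Set (F.obj j),
      (∀ j, (Z j).Nonempty) →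
      (∀ j, @IsClosed (F.obj j) (constructibleTopology (F.obj j)) (Z j)) →
      (∀ {i j : J} (a : i ⟶ j), Set.MapsTo (F.map a) (Z i) (Z j)) →
      ∃ x : c.pt, ∀ j, c.π.app j x ∈ Z j := by
    intro Z hne hcl hm
    obtain ⟨s, hs, hsZ⟩ := sec_exists F hF hFm Z hne hcl hm
    obtain ⟨x, hx⟩ := lim_exists F c hc s (fun {i j} a => hs a)
    exact ⟨x, fun j => by rw [hx j]; exact hsZ j⟩
  refine ⟨key, fun hne => ?_⟩
  obtain ⟨x, -⟩ := key (fun j => Set.univ) (fun j => @Set.univ_nonempty _ (hne j)) (fun j => @isClosed_univ _ (constructibleTopology (F.obj j)))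
    (fun {i j} a x _ => Set.mem_univ _)
  exact ⟨x⟩


end Groth.Agent.S7534
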