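import Groth.Statements.S7535
import Groth.Agent.Lib.Helper11_Spec2

set_option autoImplicit false
universe u
open CategoryTheory CategoryTheory.Limits
open SpecSp

namespace Groth.Agent.S7535
open Groth.Agent.H11Spec Topology

open CategoryTheory.Limits in
theorem sec_exists {J : Type u} [SmallCategory J] [IsCofiltered J] (F : J ⥤ TopCat.{u})
    (hF : ∀ j, SpectralSpace (F.obj j))
    (hFm : ∀ {i j : J} (a : i ⟶ j), IsSpectralMap (F.map a : F.obj i → F.obj j))
    (Z : ∀ j, Set (F.obj j)) (hne : ∀ j, (Z j).Nonempty)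
      (hcl : ∀ j, @IsClosed (F.obj j) (constructibleTopology (F.obj j)) (Z j))
      (hm : ∀ {i j : J} (a : i ⟶ j), Set.MapsTo (F.map a) (Z i) (Z j)) :
      ∃ s : ∀ j, F.obj j, (∀ {i j : J} (a : i ⟶ j), F.map a (s i) = s j) ∧ ∀ j, s j ∈ Z j := by
  let tZ : ∀ j, TopologicalSpace (Z j) := fun j => TopologicalSpace.induced Subtype.val (constructibleTopology (F.obj j))
  let G : J ⥤ TopCat.{u} :=
    { obj := fun j => @TopCat.of (Z j) (tZ j)
      map := fun {i j} a => @TopCat.ofHom (Z i) (Z j) (tZ i) (tZ j) (@ContinuousMap.mk (Z i) (Z j) (tZ i) (tZ j)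
        (fun x => ⟨F.map a x.1, hm a x.2⟩) (by
          apply @Continuous.subtype_mk _ _ (constructibleTopology (F.obj j)) (tZ i) _ _ ?_ (fun x => hm a x.2)
          exact @Continuous.comp _ _ _ (tZ i) (constructibleTopology (F.obj i)) (constructibleTopology (F.obj j)) _ _
            (cons_continuous (hFm a)) (@continuous_subtype_val _ (constructibleTopology (F.obj i)) _)))
      map_id := by
        intro j
        ext x
        simp
      map_comp := by
        intro i j k a b
        ext x
        simp }
  have h1 : ∀ j, Nonempty (G.obj j) := fun j => ⟨⟨(hne j).choose, (hne j).choose_spec⟩⟩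
  have h2 : ∀ j, CompactSpace (G.obj j) := fun j =>
    (@isCompact_iff_compactSpace (F.obj j) (constructibleTopology (F.obj j)) (Z j)).1 (cons_isCompact (hcl j))
  have h3 : ∀ j, T2Space (G.obj j) := fun j =>
    @instT2SpaceSubtype (F.obj j) (constructibleTopology (F.obj j)) _ cons_t2
  obtain ⟨x⟩ := TopCat.nonempty_limitCone_of_compact_t2_cofiltered_system G
  refine ⟨fun j => (x.1 j).1, fun {i j} a => ?_, fun j => (x.1 j).2⟩
  have := x.2 a
  exact congrArg Subtype.val this

theorem cap_nonempty {J : Type u} [SmallCategory J] [IsCofiltered J] (F : J ⥤ TopCat.{u})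
    (hF : ∀ j, SpectralSpace (F.obj j))
    (hFm : ∀ {i j : J} (a : i ⟶ j), IsSpectralMap (F.map a : F.obj i → F.obj j))
    (i : J) (D : Set (F.obj i)) (hD : @IsClosed (F.obj i) (constructibleTopology (F.obj i)) D)
    (hne : ∀ (j : J) (a : j ⟶ i), (F.map a ⁻¹' D).Nonempty) :
    ∃ s : ∀ j, F.obj j, (∀ {i j : J} (a : i ⟶ j), F.map a (s i) = s j) ∧ s i ∈ D := by
  classical
  obtain ⟨s, hs, hsZ⟩ := sec_exists F hF hFm (fun j => ⋂ a : j ⟶ i, F.map a ⁻¹' D) (by
      intro j
      have hfin : ∀ T : Finset (j ⟶ i), ∃ (k : J) (e : k ⟶ j) (b : k ⟶ i), ∀ a ∈ T, e ≫ a = b := by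
        intro T
        induction T using Finset.induction_on with
        | empty => exact ⟨IsCofiltered.min j i, IsCofiltered.minToLeft j i, IsCofiltered.minToRight j i, by simp⟩
        | insert a T _ ih =>
          obtain ⟨k, e, b, h⟩ := ih
          refine ⟨IsCofiltered.eq (e ≫ a) b, IsCofiltered.eqHom (e ≫ a) b ≫ e, IsCofiltered.eqHom (e ≫ a) b ≫ b, ?_⟩
          intro a' ha'
          rw [Finset.mem_insert] at ha'
          rcases ha' with rfl | ha'
          · rw [Category.assoc]; exact IsCofiltered.eq_condition _ _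
          · rw [Category.assoc, h a' ha']
      have hcl : ∀ a : j ⟶ i, @IsClosed (F.obj j) (constructibleTopology (F.obj j)) (F.map a ⁻¹' D) := fun a =>
        @IsClosed.preimage _ _ (constructibleTopology (F.obj j)) (constructibleTopology (F.obj i)) _ (cons_continuous (hFm a)) _ hD
      have := @IsCompact.inter_iInter_nonempty (F.obj j) (constructibleTopology (F.obj j)) Set.univ (j ⟶ i) cons_isCompact_univ
        (fun a => F.map a ⁻¹' D) hcl (by
          intro T
          obtain ⟨k, e, b, h⟩ := hfin T
          obtain ⟨x, hx⟩ := hne k b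
          refine ⟨F.map e x, Set.mem_univ _, ?_⟩
          simp only [Set.mem_iInter]
          intro a ha
          have h2 : F.map b x = F.map a (F.map e x) := by
            rw [← h a ha, F.map_comp]; rfl
          show F.map a (F.map e x) ∈ D
          rw [← h2]; exact hx)
      rwa [Set.univ_inter] at this)
    (by
      intro j
      apply @isClosed_iInter _ _ (constructibleTopology (F.obj j))
      intro a
      exact @IsClosed.preimage _ _ (constructibleTopology (F.obj j)) (constructibleTopology (F.obj i)) _ (cons_continuous (hFm a)) _ hD)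
    (by
      intro j k a x hx
      simp only [Set.mem_iInter, Set.mem_preimage] at hx ⊢
      intro b
      have := hx (a ≫ b)
      rw [F.map_comp] at this
      exact this)
  refine ⟨s, hs, ?_⟩
  have := Set.mem_iInter.1 (hsZ i) (𝟙 i)
  rw [F.map_id] at this
  exact this

/-- Let j ↦ X_j be a cofiltered diagram of spectral spaces with spectral transition maps f_a, X its
limit with projections p_j, i an object, and E, F ⊆ X_i subsets, E constructibly closed and F
constructibly open in X_i. The inclusion p_i⁻¹(E) ⊆ p_i⁻¹(F) holds exactly when some morphism a : j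
→ i already gives f_a⁻¹(E) ⊆ f_a⁻¹(F). -/
theorem result {J : Type u} [SmallCategory J] [IsCofiltered J] (F : J ⥤ TopCat.{u})
    (hF : ∀ j, SpectralSpace (F.obj j))
    (hFm : ∀ {i j : J} (a : i ⟶ j), IsSpectralMap (F.map a : F.obj i → F.obj j))
    (c : Cone F) (hc : IsLimit c)
    (i : J) (E F' : Set (F.obj i)) (hE : @IsClosed (F.obj i) (constructibleTopology (F.obj i)) E)
    (hF' : @IsOpen (F.obj i) (constructibleTopology (F.obj i)) F') :
    (c.π.app i ⁻¹' E ⊆ c.π.app i ⁻¹' F') ↔ ∃ (j : J) (a : j ⟶ i), F.map a ⁻¹' E ⊆ F.map a ⁻¹' F' := by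
  constructor
  · intro h
    by_contra hcon
    push Not at hcon
    obtain ⟨s, hs, hsD⟩ := cap_nonempty F hF hFm i (E \ F') (by
        rw [Set.diff_eq]
        exact @IsClosed.inter _ _ _ (constructibleTopology (F.obj i)) hE ((@isClosed_compl_iff _ (constructibleTopology (F.obj i)) F').2 hF'))
      (fun j a => by
        obtain ⟨x, hx1, hx2⟩ := Set.not_subset.1 (hcon j a)
        exact ⟨x, hx1, hx2⟩)
    obtain ⟨x, hx⟩ := lim_exists F c hc s (fun {i j} a => hs a)
    have h1 : c.π.app i x ∈ E := by rw [hx i]; exact hsD.1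
    have h2 := h h1
    rw [Set.mem_preimage, hx i] at h2
    exact hsD.2 h2
  · rintro ⟨j, a, h⟩ x hx
    have hw : c.π.app i x = F.map a (c.π.app j x) := by rw [← c.w a]; rfl
    rw [Set.mem_preimage, hw] at hx ⊢
    exact h hx


end Groth.Agent.S7535
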