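import Groth.Statements.S7538
import Groth.Agent.Lib.Helper11_Spec2
import Groth.Agent.S7535

set_option autoImplicit false
universe u
open CategoryTheory CategoryTheory.Limits
open SpecSp

namespace Groth.Agent.S7538
open Groth.Agent.H11Spec Topology

section
variable {J : Type u} [SmallCategory J] [IsCofiltered J] (F : J ⥤ TopCat.{u})
    (hF : ∀ j, SpectralSpace (F.obj j))
    (hFm : ∀ {i j : J} (a : i ⟶ j), IsSpectralMap (F.map a : F.obj i → F.obj j))
    (c : Cone F) (hc : IsLimit c)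
include hF hFm hc

theorem descend_open {U : Set c.pt} (hU : IsOpen U) (hUc : IsCompact U) :
    ∃ (i : J) (Ui : Set (F.obj i)), IsOpen Ui ∧ IsCompact Ui ∧ c.π.app i ⁻¹' Ui = U := by
  classical
  have hb := lim_basis F c hF hFm hc
  obtain ⟨S, hS, rfl⟩ := hb.open_eq_sUnion hU
  obtain ⟨T, hT⟩ := hUc.elim_finite_subcover (fun s : S => s.1) (fun s => hb.isOpen (hS s.2)) (by rw [Set.sUnion_eq_iUnion])
  have heq : ⋃₀ S = ⋃ i ∈ T, i.1 := by
    apply Set.Subset.antisymm hT
    intro x hx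
    simp only [Set.mem_iUnion] at hx
    obtain ⟨i, -, hx⟩ := hx
    exact ⟨i.1, i.2, hx⟩
  rw [heq]
  clear hU hUc hT heq
  induction T using Finset.induction_on with
  | empty =>
    obtain ⟨i⟩ : Nonempty J := IsCofiltered.nonempty
    exact ⟨i, ∅, isOpen_empty, isCompact_empty, by simp⟩
  | insert a T _ ih =>
    obtain ⟨i, Ui, h1, h2, h3⟩ := ih
    obtain ⟨j, V, hV, hj⟩ := hS a.2
    refine ⟨IsCofiltered.min i j, F.map (IsCofiltered.minToLeft i j) ⁻¹' Ui ∪ F.map (IsCofiltered.minToRight i j) ⁻¹' V,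
      (h1.preimage (hFm _).continuous).union (hV.1.preimage (hFm _).continuous),
      ((hFm _).isCompact_preimage_of_isOpen h1 h2).union ((hFm _).isCompact_preimage_of_isOpen hV.1 hV.2), ?_⟩
    rw [Finset.set_biUnion_insert, hj, ← h3, Set.preimage_union, Set.union_comm]
    have w1 : ∀ x, c.π.app i x = F.map (IsCofiltered.minToLeft i j) (c.π.app (IsCofiltered.min i j) x) := fun x => by
      rw [← c.w (IsCofiltered.minToLeft i j)]; rfl
    have w2 : ∀ x, c.π.app j x = F.map (IsCofiltered.minToRight i j) (c.π.app (IsCofiltered.min i j) x) := fun x => by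
      rw [← c.w (IsCofiltered.minToRight i j)]; rfl
    ext x
    simp only [Set.mem_union, Set.mem_preimage, w1 x, w2 x]

theorem descend_sub (i : J) (A B : Set (F.obj i)) (hA : @IsClosed _ (constructibleTopology (F.obj i)) A)
    (hB : @IsOpen _ (constructibleTopology (F.obj i)) B) (h : c.π.app i ⁻¹' A ⊆ c.π.app i ⁻¹' B) :
    ∃ (j : J) (a : j ⟶ i), F.map a ⁻¹' A ⊆ F.map a ⁻¹' B :=
  (Groth.Agent.S7535.result F hF hFm c hc i A B hA hB).1 h

theorem descend_eq (i : J) (A B : Set (F.obj i)) (hA : @IsClosed _ (constructibleTopology (F.obj i)) A)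
    (hA' : @IsOpen _ (constructibleTopology (F.obj i)) A) (hB : @IsClosed _ (constructibleTopology (F.obj i)) B)
    (hB' : @IsOpen _ (constructibleTopology (F.obj i)) B) (h : c.π.app i ⁻¹' A = c.π.app i ⁻¹' B) :
    ∃ (j : J) (a : j ⟶ i), F.map a ⁻¹' A = F.map a ⁻¹' B := by
  obtain ⟨j1, a1, h1⟩ := descend_sub F hF hFm c hc i A B hA hB' h.le
  obtain ⟨j2, a2, h2⟩ := descend_sub F hF hFm c hc i B A hB hA' h.ge
  obtain ⟨W, e1, e2, he⟩ := IsCofiltered.cospan a1 a2
  refine ⟨W, e1 ≫ a1, Set.Subset.antisymm ?_ ?_⟩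
  · intro x hx
    have hx' : F.map a1 (F.map e1 x) ∈ A := by
      have : F.map (e1 ≫ a1) x = F.map a1 (F.map e1 x) := by rw [F.map_comp]; rfl
      rw [← this]; exact hx
    have := h1 hx'
    have h3 : F.map (e1 ≫ a1) x = F.map a1 (F.map e1 x) := by rw [F.map_comp]; rfl
    rw [Set.mem_preimage, h3]; exact this
  · intro x hx
    rw [he] at hx ⊢
    have hx' : F.map a2 (F.map e2 x) ∈ B := by
      have : F.map (e2 ≫ a2) x = F.map a2 (F.map e2 x) := by rw [F.map_comp]; rfl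
      rw [← this]; exact hx
    have := h2 hx'
    have h3 : F.map (e2 ≫ a2) x = F.map a2 (F.map e2 x) := by rw [F.map_comp]; rfl
    rw [Set.mem_preimage, h3]; exact this
end

/-- Let j ↦ X_j be a cofiltered diagram of spectral spaces with spectral transition maps f_a and X its
limit with projections p_j. (1) Any quasi-compact open U ⊆ X is p_i⁻¹(U_i) for some i and some
quasi-compact open U_i ⊆ X_i. (2) If U_i ⊆ X_i and U_j ⊆ X_j are quasi-compact opens with p_i⁻¹(U_i)
⊆ p_j⁻¹(U_j), there are k and a : k → i, b : k → j with f_a⁻¹(U_i) ⊆ f_b⁻¹(U_j). (3) If U_i and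
finitely many U_{l,i} are quasi-compact opens of X_i with p_i⁻¹(U_i) = ⋃_l p_i⁻¹(U_{l,i}), then
f_a⁻¹(U_i) = ⋃_l f_a⁻¹(U_{l,i}) for some a : j → i. (4) The same with intersections. -/
theorem result {J : Type u} [SmallCategory J] [IsCofiltered J] (F : J ⥤ TopCat.{u})
    (hF : ∀ j, SpectralSpace (F.obj j))
    (hFm : ∀ {i j : J} (a : i ⟶ j), IsSpectralMap (F.map a : F.obj i → F.obj j))
    (c : Cone F) (hc : IsLimit c) :
    (∀ U : Set c.pt, IsOpen U → IsCompact U →
      ∃ (i : J) (Ui : Set (F.obj i)), IsOpen Ui ∧ IsCompact Ui ∧ c.π.app i ⁻¹' Ui = U) ∧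
    (∀ (i j : J) (Ui : Set (F.obj i)) (Uj : Set (F.obj j)),
      IsOpen Ui → IsCompact Ui → IsOpen Uj → IsCompact Uj →
      c.π.app i ⁻¹' Ui ⊆ c.π.app j ⁻¹' Uj →
      ∃ (k : J) (a : k ⟶ i) (b : k ⟶ j), F.map a ⁻¹' Ui ⊆ F.map b ⁻¹' Uj) ∧
    (∀ (i : J) (n : ℕ) (Ui : Set (F.obj i)) (V : Fin n → Set (F.obj i)),
      IsOpen Ui → IsCompact Ui → (∀ l, IsOpen (V l) ∧ IsCompact (V l)) →
      (c.π.app i ⁻¹' Ui = ⋃ l, c.π.app i ⁻¹' V l →
        ∃ (j : J) (a : j ⟶ i), F.map a ⁻¹' Ui = ⋃ l, F.map a ⁻¹' V l) ∧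
      (c.π.app i ⁻¹' Ui = ⋂ l, c.π.app i ⁻¹' V l →
        ∃ (j : J) (a : j ⟶ i), F.map a ⁻¹' Ui = ⋂ l, F.map a ⁻¹' V l)) := by
  refine ⟨fun U hU hUc => descend_open F hF hFm c hc hU hUc, ?_, ?_⟩
  · intro i j Ui Uj h1 h2 h3 h4 h
    have w1 : ∀ x, c.π.app i x = F.map (IsCofiltered.minToLeft i j) (c.π.app (IsCofiltered.min i j) x) := fun x => by
      rw [← c.w (IsCofiltered.minToLeft i j)]; rfl
    have w2 : ∀ x, c.π.app j x = F.map (IsCofiltered.minToRight i j) (c.π.app (IsCofiltered.min i j) x) := fun x => by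
      rw [← c.w (IsCofiltered.minToRight i j)]; rfl
    obtain ⟨k, e, he⟩ := descend_sub F hF hFm c hc (IsCofiltered.min i j) (F.map (IsCofiltered.minToLeft i j) ⁻¹' Ui)
      (F.map (IsCofiltered.minToRight i j) ⁻¹' Uj)
      (cons_closed (h1.preimage (hFm _).continuous) ((hFm _).isCompact_preimage_of_isOpen h1 h2))
      (cons_open (h3.preimage (hFm _).continuous) ((hFm _).isCompact_preimage_of_isOpen h3 h4)) (by
        intro x hx
        have h5 : c.π.app i x ∈ Ui := by rw [w1]; exact hx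
        have h6 := h h5
        rw [Set.mem_preimage, w2] at h6
        exact h6)
    refine ⟨k, e ≫ IsCofiltered.minToLeft i j, e ≫ IsCofiltered.minToRight i j, ?_⟩
    intro x hx
    rw [F.map_comp] at hx ⊢
    exact he hx
  · intro i n Ui V h1 h2 hV
    have cU := cons_closed h1 h2
    have oU := cons_open h1 h2
    refine ⟨fun h => ?_, fun h => ?_⟩
    · obtain ⟨j, a, ha⟩ := descend_eq F hF hFm c hc i Ui (⋃ l, V l) cU oU
        (@isClosed_iUnion_of_finite _ _ (constructibleTopology (F.obj i)) _ _ (fun l => cons_closed (hV l).1 (hV l).2))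
        (@isOpen_iUnion _ _ (constructibleTopology (F.obj i)) _ (fun l => cons_open (hV l).1 (hV l).2))
        (by rw [h, Set.preimage_iUnion])
      exact ⟨j, a, by rw [ha, Set.preimage_iUnion]⟩
    · obtain ⟨j, a, ha⟩ := descend_eq F hF hFm c hc i Ui (⋂ l, V l) cU oU
        (@isClosed_iInter _ _ (constructibleTopology (F.obj i)) _ (fun l => cons_closed (hV l).1 (hV l).2))
        (@isOpen_iInter_of_finite _ _ (constructibleTopology (F.obj i)) _ _ (fun l => cons_open (hV l).1 (hV l).2))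
        (by rw [h, Set.preimage_iInter])
      exact ⟨j, a, by rw [ha, Set.preimage_iInter]⟩


end Groth.Agent.S7538
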