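import Groth.Statements.S7536
import Groth.Agent.Lib.Helper11_Spec2
import Groth.Agent.S7535
import Groth.Agent.S7538

set_option autoImplicit false
universe u
open CategoryTheory CategoryTheory.Limits
open SpecSp

namespace Groth.Agent.S7536
open Groth.Agent.H11Spec Topology

/-- Let j ↦ X_j be a cofiltered diagram of spectral spaces with spectral transition maps and X its limit
with projections p_j. For every constructible E ⊆ X there are an object i and a constructible E_i ⊆
X_i with p_i⁻¹(E_i) = E; if E is open, resp. closed, then E_i may be chosen open, resp. closed. -/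
theorem result {J : Type u} [SmallCategory J] [IsCofiltered J] (F : J ⥤ TopCat.{u})
    (hF : ∀ j, SpectralSpace (F.obj j))
    (hFm : ∀ {i j : J} (a : i ⟶ j), IsSpectralMap (F.map a : F.obj i → F.obj j))
    (c : Cone F) (hc : IsLimit c)
    (E : Set c.pt) (hE : Topology.IsConstructible E) :
    (∃ (i : J) (Ei : Set (F.obj i)), Topology.IsConstructible Ei ∧ c.π.app i ⁻¹' Ei = E) ∧
    (IsOpen E → ∃ (i : J) (Ei : Set (F.obj i)), Topology.IsConstructible Ei ∧ IsOpen Ei ∧ c.π.app i ⁻¹' Ei = E) ∧
    (IsClosed E → ∃ (i : J) (Ei : Set (F.obj i)), Topology.IsConstructible Ei ∧ IsClosed Ei ∧ c.π.app i ⁻¹' Ei = E) := by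
  have hco : ∀ (i : J) (U : Set (F.obj i)), IsOpen U → IsCompact U → Topology.IsConstructible U := by
    intro i U hU hUc
    refine IsRetrocompact.isConstructible hU ?_
    intro V hV hVo
    exact QuasiSeparatedSpace.inter_isCompact _ _ hU hUc hVo hV
  haveI := lim_spectral F c hF hFm hc
  have hpre : ∀ {i j : J} (a : i ⟶ j) (E : Set (F.obj j)), Topology.IsConstructible E → Topology.IsConstructible (F.map a ⁻¹' E) := by
    intro i j a E hE
    apply hE.preimage (hFm a).continuous
    intro s hs hsr
    have hsc : IsCompact s := by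
      have := hsr isCompact_univ isOpen_univ
      simpa using this
    intro V hV hVo
    exact QuasiSeparatedSpace.inter_isCompact _ _ (hs.preimage (hFm a).continuous) ((hFm a).isCompact_preimage_of_isOpen hs hsc) hVo hV
  refine ⟨?_, ?_, ?_⟩
  · induction hE using Topology.IsConstructible.empty_union_induction with
    | open_retrocompact U hUo hU =>
      have hc' : IsCompact U := by
        have := hU isCompact_univ isOpen_univ
        simpa using this
      obtain ⟨i, Ui, h1, h2, h3⟩ := Groth.Agent.S7538.descend_open F hF hFm c hc hUo hc'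
      exact ⟨i, Ui, hco i Ui h1 h2, h3⟩
    | union s hs t ht hs' ht' =>
      obtain ⟨i, Ui, h1, rfl⟩ := hs'
      obtain ⟨j, Uj, h2, rfl⟩ := ht'
      have w1 : ∀ x, c.π.app i x = F.map (IsCofiltered.minToLeft i j) (c.π.app (IsCofiltered.min i j) x) := fun x => by
        rw [← c.w (IsCofiltered.minToLeft i j)]; rfl
      have w2 : ∀ x, c.π.app j x = F.map (IsCofiltered.minToRight i j) (c.π.app (IsCofiltered.min i j) x) := fun x => by
        rw [← c.w (IsCofiltered.minToRight i j)]; rfl
      refine ⟨IsCofiltered.min i j, _, (hpre (IsCofiltered.minToLeft i j) _ h1).union (hpre (IsCofiltered.minToRight i j) _ h2), ?_⟩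
      ext x
      simp only [Set.mem_union, Set.mem_preimage, w1 x, w2 x]
    | compl s hs hs' =>
      obtain ⟨i, Ui, h1, rfl⟩ := hs'
      exact ⟨i, Uiᶜ, h1.compl, by rw [Set.preimage_compl]⟩
  · intro hEo
    have hEc : IsCompact E := isCompact_of_cons_closed (constructible_cons hE).2
    obtain ⟨i, Ui, h1, h2, h3⟩ := Groth.Agent.S7538.descend_open F hF hFm c hc hEo hEc
    exact ⟨i, Ui, hco i Ui h1 h2, h1, h3⟩
  · intro hEcl
    have hEc : IsCompact Eᶜ := isCompact_of_cons_closed (constructible_cons hE.compl).2
    obtain ⟨i, Ui, h1, h2, h3⟩ := Groth.Agent.S7538.descend_open F hF hFm c hc hEcl.isOpen_compl hEc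
    exact ⟨i, Uiᶜ, (hco i Ui h1 h2).compl, h1.isClosed_compl, by rw [Set.preimage_compl, h3, compl_compl]⟩


end Groth.Agent.S7536
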