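import Groth.Statements.S7537
import Groth.Agent.Lib.Helper11_Spec2

set_option autoImplicit false
universe u
open CategoryTheory CategoryTheory.Limits
open SpecSp

namespace Groth.Agent.S7537
open Groth.Agent.H11Spec Topology

/-- Let j ↦ X_j be a cofiltered diagram of spectral spaces with spectral transition maps. Then the limit
X in topological spaces is a spectral space and every projection p_j : X → X_j is spectral. -/
theorem result {J : Type u} [SmallCategory J] [IsCofiltered J] (F : J ⥤ TopCat.{u})
    (hF : ∀ j, SpectralSpace (F.obj j))
    (hFm : ∀ {i j : J} (a : i ⟶ j), IsSpectralMap (F.map a : F.obj i → F.obj j))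
    (c : Cone F) (hc : IsLimit c) :
    SpectralSpace c.pt ∧ ∀ j, IsSpectralMap (c.π.app j : c.pt → F.obj j) := by
  exact ⟨lim_spectral F c hF hFm hc, fun j => lim_proj_spectral F c hF hFm hc j⟩


end Groth.Agent.S7537
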