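import Groth.Statements.S7539
import Groth.Agent.Lib.Helper11_Spec2

set_option autoImplicit false
universe u
open SpecSp

namespace Groth.Agent.S7539
open Groth.Agent.H11Spec Topology

/-- For a subset W of a spectral space X, these five conditions coincide: (1) W can be written as an
intersection of constructible subsets and is stable under generalization; (2) W is quasi-compact and
stable under generalization; (3) for some quasi-compact E ⊆ X, W consists exactly of the points that
specialize to a point of E; (4) W is the intersection of some family of quasi-compact opens; (5)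
there are a nonempty index set I and quasi-compact opens U_i with W = ⋂ U_i such that for all i, j
some U_k is contained in U_i ∩ U_j. -/
theorem result {X : Type u} [TopologicalSpace X] [SpectralSpace X] (W : Set X) :
    List.TFAE [
      (∃ S : Set (Set X), (∀ s ∈ S, Topology.IsConstructible s) ∧ W = ⋂₀ S) ∧ StableUnderGeneralization W,
      IsCompact W ∧ StableUnderGeneralization W,
      ∃ E : Set X, IsCompact E ∧ W = {x | ∃ e ∈ E, x ⤳ e},
      ∃ S : Set (Set X), (∀ s ∈ S, IsOpen s ∧ IsCompact s) ∧ W = ⋂₀ S,
      ∃ (I : Type u) (_ : Nonempty I) (U : I → Set X), (∀ i, IsOpen (U i) ∧ IsCompact (U i)) ∧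
        W = ⋂ i, U i ∧ ∀ i j, ∃ k, U k ⊆ U i ∩ U j] := by
  tfae_have 1 → 2 := by
    rintro ⟨⟨S, hS, rfl⟩, hW⟩
    refine ⟨isCompact_of_cons_closed ?_, hW⟩
    exact @isClosed_sInter X (constructibleTopology X) _ (fun s hs => (constructible_cons (hS s hs)).2)
  tfae_have 2 → 3 := by
    rintro ⟨h1, h2⟩
    refine ⟨W, h1, ?_⟩
    ext x
    exact ⟨fun hx => ⟨x, hx, specializes_rfl⟩, fun ⟨e, he, hxe⟩ => h2 hxe he⟩
  tfae_have 3 → 4 := by
    rintro ⟨E, hE, rfl⟩
    exact ⟨_, fun s hs => hs.1, generalizations_eq hE⟩
  tfae_have 4 → 5 := by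
    rintro ⟨S, hS, rfl⟩
    refine ⟨Finset S, ⟨∅⟩, fun T => ⋂ i ∈ T, i.1, ?_, ?_, ?_⟩
    · intro T
      classical
      induction T using Finset.induction_on with
      | empty =>
        have : (⋂ i ∈ (∅ : Finset S), (i.1 : Set X)) = Set.univ := by simp
        beta_reduce
        rw [this]
        exact ⟨isOpen_univ, isCompact_univ⟩
      | insert a T _ ih =>
        beta_reduce at ih ⊢
        rw [Finset.set_biInter_insert]
        have ha := hS a.1 a.2
        exact ⟨ha.1.inter ih.1, QuasiSeparatedSpace.inter_isCompact _ _ ha.1 ha.2 ih.1 ih.2⟩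
    · ext x
      simp only [Set.mem_sInter, Set.mem_iInter]
      constructor
      · intro h T i _
        exact h i.1 i.2
      · intro h s hs
        exact h {⟨s, hs⟩} ⟨s, hs⟩ (Finset.mem_singleton_self _)
    · intro T T'
      classical
      refine ⟨T ∪ T', fun x hx => ?_⟩
      simp only [Set.mem_iInter, Finset.mem_union, Set.mem_inter_iff] at hx ⊢
      exact ⟨fun i hi => hx i (Or.inl hi), fun i hi => hx i (Or.inr hi)⟩
  tfae_have 5 → 1 := by
    rintro ⟨I, _, U, hU, rfl, -⟩
    refine ⟨⟨Set.range U, ?_, by rw [Set.sInter_range]⟩, ?_⟩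
    · rintro _ ⟨i, rfl⟩
      refine IsRetrocompact.isConstructible (hU i).1 ?_
      intro V hV hVo
      exact QuasiSeparatedSpace.inter_isCompact _ _ (hU i).1 (hU i).2 hVo hV
    · intro x y hxy hy
      simp only [Set.mem_iInter] at hy ⊢
      exact fun i => hxy.mem_open (hU i).1 (hy i)
  tfae_finish


end Groth.Agent.S7539
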