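import Groth.Statements.S7540
import Groth.Agent.Lib.Helper11_Spec

set_option autoImplicit false
universe u
open SpecSp

namespace Groth.Agent.S7540
open Groth.Agent.H11Spec Topology

/-- Let X be a spectral space, I a nonempty index set and U_i ⊆ X quasi-compact opens such that for all
i, j some U_k lies in U_i ∩ U_j; put W = ⋂ U_i. Then every open subset of X containing W contains
some U_i. The published statement also asserts that W is spectral and is the limit of the U_i; this
row states the neighbourhood property. -/
theorem result {X : Type u} [TopologicalSpace X] [SpectralSpace X]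
    {I : Type u} [Nonempty I] (U : I → Set X) (hU : ∀ i, IsOpen (U i) ∧ IsCompact (U i))
    (hdir : ∀ i j, ∃ k, U k ⊆ U i ∩ U j) :
    ∀ V : Set X, IsOpen V → (⋂ i, U i) ⊆ V → ∃ i, U i ⊆ V := by
  intro V hV hWV
  have hcl : IsClosed[constructibleTopology X] Vᶜ := cons_closed_of_closed hV.isClosed_compl
  have hempty : (Vᶜ ∩ ⋂ i, U i) = ∅ := by
    ext x
    simp only [Set.mem_inter_iff, Set.mem_compl_iff, Set.mem_empty_iff_false, iff_false, not_and]
    exact fun h h' => h (hWV h')
  obtain ⟨i, hi⟩ := @IsCompact.elim_directed_family_closed X (constructibleTopology X) Vᶜ I _ (cons_isCompact hcl) U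
    (fun i => cons_closed (hU i).1 (hU i).2) hempty (fun i j => by
      obtain ⟨k, hk⟩ := hdir i j
      exact ⟨k, fun x hx => (hk hx).1, fun x hx => (hk hx).2⟩)
  refine ⟨i, fun x hx => ?_⟩
  by_contra hxV
  have : x ∈ Vᶜ ∩ U i := ⟨hxV, hx⟩
  rw [hi] at this
  exact this


end Groth.Agent.S7540
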