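import Groth.Statements.S7541
import Groth.Agent.Lib.Helper11_Spec2

set_option autoImplicit false
universe u
open SpecSp

namespace Groth.Agent.S7541
open Groth.Agent.H11Spec Topology

/-- Let X be a spectral space, E ⊆ X a constructible subset and W the set of points of X that specialize
to a point of E. Then the subspace W minus E is a spectral space. (The description of W minus E as a
limit of the U_i minus E is not recorded here.) -/
theorem result {X : Type u} [TopologicalSpace X] [SpectralSpace X]
    (E : Set X) (hE : Topology.IsConstructible E) :
    SpectralSpace ↥({x : X | ∃ e ∈ E, x ⤳ e} \ E) := by
  obtain ⟨h1, h2⟩ := constructible_cons hE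
  have hW := generalizations_cons_closed (isCompact_of_cons_closed h2)
  apply spectral_of_cons_closed
  rw [Set.diff_eq]
  exact @IsClosed.inter X _ _ (constructibleTopology X) hW ((@isClosed_compl_iff X (constructibleTopology X) E).2 h1)


end Groth.Agent.S7541
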