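import Groth.Statements.S7542
import Mathlib

set_option autoImplicit false
universe u
open ConstrTop

namespace Groth.Agent.S7542
open Topology

theorem between {X : Type u} [TopologicalSpace X] [PrespectralSpace X] {K U : Set X} (hK : IsCompact K) (hU : IsOpen U) (hKU : K ⊆ U) :
    ∃ V : Set X, IsOpen V ∧ IsCompact V ∧ K ⊆ V ∧ V ⊆ U := by
  have h1 : ∀ x : K, ∃ V : Set X, (IsOpen V ∧ IsCompact V) ∧ x.1 ∈ V ∧ V ⊆ U := fun x =>
    (PrespectralSpace.isTopologicalBasis (X := X)).exists_subset_of_mem_open (hKU x.2) hU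
  choose V hV hxV hVU using h1
  obtain ⟨T, hT⟩ := hK.elim_finite_subcover V (fun e => (hV e).1) (fun e he => Set.mem_iUnion.2 ⟨⟨e, he⟩, hxV ⟨e, he⟩⟩)
  exact ⟨⋃ i ∈ T, V i, isOpen_biUnion (fun i _ => (hV i).1), T.isCompact_biUnion (fun i _ => (hV i).2), hT,
    Set.iUnion₂_subset (fun i _ => hVU i)⟩



/-- Let X be a topological space in which the quasi-compact open subsets form a basis of its topology,
and let T ⊆ X be retrocompact in X. Then for any constructible subset E ⊆ X, the intersection E ∩ T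
is constructible in T (with the induced topology). -/
theorem result {X : Type u} [TopologicalSpace X] [PrespectralSpace X]
    (T : Set X) (hT : IsRetrocompact T) (E : Set X) (hE : Topology.IsConstructible E) :
    Topology.IsConstructible ((Subtype.val : T → X) ⁻¹' E) := by
  apply hE.preimage continuous_subtype_val
  intro U hU hUr V hVc hVo
  obtain ⟨W, hW, rfl⟩ := isOpen_induced_iff.1 hVo
  have hK : IsCompact (Subtype.val '' ((Subtype.val : T → X) ⁻¹' W)) := hVc.image continuous_subtype_val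
  obtain ⟨W', h1, h2, h3, h4⟩ := between hK hW (by rintro _ ⟨x, hx, rfl⟩; exact hx)
  have h5 : IsCompact (T ∩ (U ∩ W')) := hT (hUr h2 h1) (hU.inter h1)
  rw [IsInducing.subtypeVal.isCompact_iff]
  convert h5 using 1
  ext x
  constructor
  · rintro ⟨y, ⟨hy1, hy2⟩, rfl⟩
    exact ⟨y.2, hy1, h3 ⟨y, hy2, rfl⟩⟩
  · rintro ⟨hx1, hx2, hx3⟩
    exact ⟨⟨x, hx1⟩, ⟨hx2, h4 hx3⟩, rfl⟩


end Groth.Agent.S7542
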