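import Groth.Statements.S7544
import Mathlib

set_option autoImplicit false
universe u
open ConstrTop

namespace Groth.Agent.S7544
open Topology

theorem between {X : Type u} [TopologicalSpace X] [PrespectralSpace X] {K U : Set X} (hK : IsCompact K) (hU : IsOpen U) (hKU : K ⊆ U) :
    ∃ V : Set X, IsOpen V ∧ IsCompact V ∧ K ⊆ V ∧ V ⊆ U := by
  have h1 : ∀ x : K, ∃ V : Set X, (IsOpen V ∧ IsCompact V) ∧ x.1 ∈ V ∧ V ⊆ U := fun x =>
    (PrespectralSpace.isTopologicalBasis (X := X)).exists_subset_of_mem_open (hKU x.2) hU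
  choose V hV hxV hVU using h1
  obtain ⟨T, hT⟩ := hK.elim_finite_subcover V (fun e => (hV e).1) (fun e he => Set.mem_iUnion.2 ⟨⟨e, he⟩, hxV ⟨e, he⟩⟩)
  exact ⟨⋃ i ∈ T, V i, isOpen_biUnion (fun i _ => (hV i).1), T.isCompact_biUnion (fun i _ => (hV i).2), hT,
    Set.iUnion₂_subset (fun i _ => hVU i)⟩



/-- Let X be a quasi-compact topological space whose quasi-compact opens form a basis and are closed
under pairwise intersection. Take T ⊆ X to be locally closed, quasi-compact, and with retrocompact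
complement. Then T is constructible in X. -/
theorem result {X : Type u} [TopologicalSpace X]
    [CompactSpace X] [PrespectralSpace X] [QuasiSeparatedSpace X]
    (T : Set X) (hT : IsLocallyClosed T) (hTc : IsCompact T) (hTr : IsRetrocompact Tᶜ) :
    Topology.IsConstructible T := by
  obtain ⟨U, Z, hU, hZ, rfl⟩ := hT
  obtain ⟨V, h1, h2, h3, h4⟩ := between hTc hU Set.inter_subset_left
  have hVT : V \ (U ∩ Z) = Zᶜ ∩ V := by
    ext x
    constructor
    · rintro ⟨hx, hx'⟩
      exact ⟨fun hz => hx' ⟨h4 hx, hz⟩, hx⟩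
    · rintro ⟨hx, hx'⟩
      exact ⟨hx', fun hz => hx hz.2⟩
  have hW : IsCompact (V \ (U ∩ Z)) := by
    rw [Set.diff_eq, Set.inter_comm]
    exact hTr h2 h1
  have hWo : IsOpen (V \ (U ∩ Z)) := by rw [hVT]; exact hZ.isOpen_compl.inter h1
  have hco : ∀ U : Set X, IsOpen U → IsCompact U → Topology.IsConstructible U := by
    intro U hU hUc
    refine IsRetrocompact.isConstructible hU ?_
    intro V hV hVo
    exact QuasiSeparatedSpace.inter_isCompact _ _ hU hUc hVo hV
  have : U ∩ Z = V \ (V \ (U ∩ Z)) := by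
    rw [Set.sdiff_sdiff_cancel_left h3]
  rw [this]
  exact (hco V h1 h2).sdiff (hco _ hWo hW)


end Groth.Agent.S7544
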