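import Groth.Statements.S7546
import Mathlib

set_option autoImplicit false
universe u
open ConstrTop

namespace Groth.Agent.S7546
open Topology

/-- Let X be a topological space, Z ⊆ X irreducible and E ⊆ X a finite union of locally closed subsets
(for instance a constructible set). Then E ∩ Z is dense in Z if and only if E ∩ Z contains a subset
of the form U ∩ Z, U open in X, which is dense in Z. If moreover ξ ∈ Z is a generic point of Z,
these conditions are equivalent to ξ ∈ E. -/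
theorem result {X : Type u} [TopologicalSpace X] (Z : Set X) (hZ : IsIrreducible Z)
    {n : ℕ} (L : Fin n → Set X) (hL : ∀ i, IsLocallyClosed (L i)) (E : Set X) (hE : E = ⋃ i, L i) :
    (Z ⊆ closure (E ∩ Z) ↔ ∃ U : Set X, IsOpen U ∧ U ∩ Z ⊆ E ∧ Z ⊆ closure (U ∩ Z)) ∧
    (∀ ξ : X, ξ ∈ Z → Z ⊆ closure {ξ} → (Z ⊆ closure (E ∩ Z) ↔ ξ ∈ E)) := by
  have key : Z ⊆ closure (E ∩ Z) ↔ ∃ U : Set X, IsOpen U ∧ U ∩ Z ⊆ E ∧ (U ∩ Z).Nonempty := by
    constructor
    · intro h
      subst hE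
      have h1 : Z ⊆ ⋃ i, closure (L i ∩ Z) := by
        intro x hx
        have := h hx
        rw [Set.iUnion_inter, closure_iUnion_of_finite] at this
        exact this
      have h2 := (isIrreducible_iff_sUnion_isClosed.1 hZ) (Finset.univ.image (fun i => closure (L i ∩ Z))) (by
        intro z hz
        obtain ⟨i, -, rfl⟩ := Finset.mem_image.1 hz
        exact isClosed_closure) (by
        intro x hx
        obtain ⟨i, hi⟩ := Set.mem_iUnion.1 (h1 hx)
        exact ⟨closure (L i ∩ Z), by simp, hi⟩)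
      obtain ⟨z, hz, hzZ⟩ := h2
      obtain ⟨i, -, rfl⟩ := Finset.mem_image.1 hz
      obtain ⟨U, C, hU, hC, hUC⟩ := hL i
      have hZC : Z ⊆ C := by
        refine hzZ.trans ((closure_minimal ?_ hC))
        rw [hUC]; exact fun x hx => hx.1.2
      refine ⟨U, hU, ?_, ?_⟩
      · rintro x ⟨hxU, hxZ⟩
        exact Set.mem_iUnion.2 ⟨i, by rw [hUC]; exact ⟨hxU, hZC hxZ⟩⟩
      · obtain ⟨x, hx⟩ := hZ.nonempty
        have : (L i ∩ Z).Nonempty := by
          rw [← closure_nonempty_iff]; exact ⟨x, hzZ hx⟩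
        obtain ⟨y, hy, hyZ⟩ := this
        rw [hUC] at hy
        exact ⟨y, hy.1, hyZ⟩
    · rintro ⟨U, hU, hUE, x, hxU, hxZ⟩
      have h1 : Z ⊆ closure (U ∩ Z) := by
        rw [Set.inter_comm]
        exact subset_closure_inter_of_isPreirreducible_of_isOpen hZ.isPreirreducible hU ⟨x, hxZ, hxU⟩
      exact h1.trans (closure_mono (fun y hy => ⟨hUE hy, hy.2⟩))
  refine ⟨?_, ?_⟩
  · rw [key]
    constructor
    · rintro ⟨U, hU, hUE, x, hxU, hxZ⟩
      refine ⟨U, hU, hUE, ?_⟩
      rw [Set.inter_comm]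
      exact subset_closure_inter_of_isPreirreducible_of_isOpen hZ.isPreirreducible hU ⟨x, hxZ, hxU⟩
    · rintro ⟨U, hU, hUE, h⟩
      refine ⟨U, hU, hUE, ?_⟩
      obtain ⟨x, hx⟩ := hZ.nonempty
      rw [← closure_nonempty_iff]; exact ⟨x, h hx⟩
  · intro ξ hξ hgen
    constructor
    · intro h
      obtain ⟨U, hU, hUE, x, hxU, hxZ⟩ := key.1 h
      have : ξ ⤳ x := specializes_iff_mem_closure.2 (hgen hxZ)
      exact hUE ⟨this.mem_open hU hxU, hξ⟩
    · intro h
      exact hgen.trans (closure_mono (Set.singleton_subset_iff.2 ⟨h, hξ⟩))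


end Groth.Agent.S7546
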