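import Groth.Statements.S7547
import Mathlib

set_option autoImplicit false
universe u
open PtTop

namespace Groth.Agent.S7547
open TopologicalSpace Set

/-- Let X be a Kolmogorov topological space in which the quasi-compact open subsets give a basis of open
sets. If X is not Jacobson, there is a point x ∈ X which is not closed but such that {x} is locally
closed. -/
theorem result {X : Type u} [TopologicalSpace X]
    [T0Space X] [PrespectralSpace X] (hX : ¬ JacobsonSpace X) :
    ∃ x : X, ¬ IsClosed ({x} : Set X) ∧ IsLocallyClosed ({x} : Set X) := by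
  rw [jacobsonSpace_iff_locallyClosed] at hX
  push Not at hX
  obtain ⟨Z, hne, hZ, hemp⟩ := hX
  obtain ⟨O, C, hO, hC, rfl⟩ := hZ
  obtain ⟨x, hxO, hxC⟩ := hne
  obtain ⟨U, ⟨hUo, hUc⟩, hxU, hUO⟩ := (PrespectralSpace.isTopologicalBasis (X := X)).exists_subset_of_mem_open hxO hO
  haveI : CompactSpace U := isCompact_iff_compactSpace.1 hUc
  have hcl : IsClosed (((↑) : U → X) ⁻¹' C) := hC.preimage continuous_subtype_val
  obtain ⟨y, hyC, hy⟩ := hcl.exists_closed_singleton ⟨⟨x, hxU⟩, hxC⟩
  refine ⟨y.1, fun hcy => ?_, ?_⟩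
  · have : y.1 ∈ (O ∩ C) ∩ closedPoints X := ⟨⟨hUO y.2, hyC⟩, hcy⟩
    rw [hemp] at this
    exact this
  · obtain ⟨D, hD, hDy⟩ := isClosed_induced_iff.1 hy
    refine ⟨U, D, hUo, hD, ?_⟩
    ext z
    constructor
    · rintro rfl
      refine ⟨y.2, ?_⟩
      have : y ∈ ((↑) : U → X) ⁻¹' D := by rw [hDy]; rfl
      exact this
    · rintro ⟨hzU, hzD⟩
      have : (⟨z, hzU⟩ : U) ∈ ((↑) : U → X) ⁻¹' D := hzD
      rw [hDy] at this
      exact congrArg Subtype.val this

end Groth.Agent.S7547
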