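import Groth.Statements.S7548
import Mathlib

set_option autoImplicit false
universe u
open PtTop

namespace Groth.Agent.S7548
open TopologicalSpace Set

/-- Let X be a Jacobson space and let T = ⋃ T_i be a union of subsets T_i ⊆ X each locally closed in X
(open, closed, locally closed and constructible subsets are of this form). Then T is Jacobson and
every point of T closed in T is closed in X. -/
theorem result {X : Type u} [TopologicalSpace X] [JacobsonSpace X]
    {ι : Type u} (T : ι → Set X) (hT : ∀ i, IsLocallyClosed (T i)) :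
    JacobsonSpace ↥(⋃ i, T i) ∧
      closedPoints ↥(⋃ i, T i) ⊆ (Subtype.val : ↥(⋃ i, T i) → X) ⁻¹' closedPoints X := by
  constructor
  · rw [jacobsonSpace_iff_locallyClosed]
    rintro Z ⟨z, hz⟩ ⟨O, C, hO, hC, rfl⟩
    obtain ⟨O', hO', rfl⟩ := isOpen_induced_iff.1 hO
    obtain ⟨C', hC', rfl⟩ := isClosed_induced_iff.1 hC
    obtain ⟨i, hi⟩ := Set.mem_iUnion.1 z.2
    obtain ⟨y, ⟨hyT, hyO, hyC⟩, hy⟩ := nonempty_inter_closedPoints (Z := T i ∩ (O' ∩ C')) ⟨z.1, hi, hz.1, hz.2⟩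
      ((hT i).inter ⟨O', C', hO', hC', rfl⟩)
    refine ⟨⟨y, Set.mem_iUnion.2 ⟨i, hyT⟩⟩, ⟨hyO, hyC⟩, ?_⟩
    rw [mem_closedPoints_iff] at hy ⊢
    have : ({⟨y, Set.mem_iUnion.2 ⟨i, hyT⟩⟩} : Set ↥(⋃ i, T i)) = (Subtype.val : ↥(⋃ i, T i) → X) ⁻¹' {y} := by
      ext w
      exact ⟨fun h => congrArg Subtype.val h, fun h => Subtype.ext h⟩
    rw [this]
    exact hy.preimage continuous_subtype_val
  · rintro ⟨t, ht⟩ hc
    obtain ⟨i, hi⟩ := Set.mem_iUnion.1 ht
    rw [mem_closedPoints_iff] at hc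
    obtain ⟨C, hC, hCt⟩ := isClosed_induced_iff.1 hc
    show IsClosed ({t} : Set X)
    apply isClosed_singleton_of_isLocallyClosed_singleton
    have htC : t ∈ C := by
      have : (⟨t, ht⟩ : ↥(⋃ i, T i)) ∈ (Subtype.val : ↥(⋃ i, T i) → X) ⁻¹' C := by rw [hCt]; rfl
      exact this
    have : ({t} : Set X) = T i ∩ C := by
      ext w
      constructor
      · rintro rfl; exact ⟨hi, htC⟩
      · rintro ⟨h1, h2⟩
        have h3 : (⟨w, Set.mem_iUnion.2 ⟨i, h1⟩⟩ : ↥(⋃ i, T i)) ∈ (Subtype.val : ↥(⋃ i, T i) → X) ⁻¹' C := h2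
        rw [hCt] at h3
        exact congrArg Subtype.val h3
    rw [this]
    exact (hT i).inter hC.isLocallyClosed

end Groth.Agent.S7548
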