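import Groth.Statements.S7550
import Mathlib

set_option autoImplicit false
universe u
open PtTop

namespace Groth.Agent.S7550
open Topology

/-- Let f : X → Y be a continuous and open map of topological spaces, with X Noetherian, every
irreducible closed subset of X having a generic point, and Y Kolmogorov. Then generalizations lift
along f. (Part (1), closed maps are specializing, is a library fact.) -/
theorem result {X Y : Type u} [TopologicalSpace X] [TopologicalSpace Y]
    [TopologicalSpace.NoetherianSpace X] [QuasiSober X] [T0Space Y]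
    (f : X → Y) (hf : Continuous f) (hfo : IsOpenMap f) :
    GeneralizingMap f := by
  intro x y hyx
  have hcl : x ∈ closure (f ⁻¹' {y}) := by
    rw [mem_closure_iff]
    intro U hU hxU
    have : y ∈ f '' U := hyx.mem_open (hfo U hU) ⟨x, hxU, rfl⟩
    obtain ⟨x', hx', hy⟩ := this
    exact ⟨x', hx', hy⟩
  have hfin := TopologicalSpace.NoetherianSpace.finite_irreducibleComponents (α := f ⁻¹' {y})
  have hF : f ⁻¹' {y} = ⋃ W ∈ irreducibleComponents (f ⁻¹' {y}), Subtype.val '' W := by
    ext z
    simp only [Set.mem_iUnion]
    constructor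
    · intro hz
      exact ⟨irreducibleComponent ⟨z, hz⟩, irreducibleComponent_mem_irreducibleComponents _, ⟨z, hz⟩, mem_irreducibleComponent, rfl⟩
    · rintro ⟨W, _, w, _, rfl⟩
      exact w.2
  rw [hF, hfin.closure_biUnion] at hcl
  simp only [Set.mem_iUnion] at hcl
  obtain ⟨W, hW, hxW⟩ := hcl
  have hWi : IsIrreducible (Subtype.val '' W) := hW.1.image _ continuous_subtype_val.continuousOn
  obtain ⟨z, hz⟩ := QuasiSober.sober hWi.closure isClosed_closure
  have hzx : z ⤳ x := hz.specializes hxW
  refine ⟨z, hzx, ?_⟩
  obtain ⟨w, hw⟩ := hW.1.nonempty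
  have h1 : f z ⤳ y := by
    have := (hz.specializes (subset_closure ⟨w, hw, rfl⟩)).map hf
    have hwy : f w.1 = y := w.2
    rwa [hwy] at this
  have h2 : y ⤳ f z := by
    rw [specializes_iff_mem_closure]
    have hzc : z ∈ closure (f ⁻¹' {y}) := closure_mono (by rintro _ ⟨w, _, rfl⟩; exact w.2) hz.mem
    have := map_mem_closure hf hzc (Set.mapsTo_preimage f {y})
    exact this
  exact (h1.antisymm h2).eq


end Groth.Agent.S7550
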