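import Groth.Statements.S7553
import Groth.Agent.Lib.Helper11_Spec2
import Mathlib

set_option autoImplicit false
universe u
open ConstrTop

namespace Groth.Agent.S7553
open Topology

/-- Let X be a Noetherian sober topological space and E ⊆ X. (1) A constructible E that is closed under
specialization is a closed subset. (2) A constructible E that is closed under generalization is an
open subset. -/
theorem result {X : Type u} [TopologicalSpace X]
    [TopologicalSpace.NoetherianSpace X] [QuasiSober X] [T0Space X] (E : Set X) (hE : Topology.IsConstructible E) :
    (StableUnderSpecialization E → IsClosed E) ∧ (StableUnderGeneralization E → IsOpen E) := by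
  haveI : PrespectralSpace X := PrespectralSpace.of_isTopologicalBasis (TopologicalSpace.isTopologicalBasis_opens)
    (fun U _ => TopologicalSpace.NoetherianSpace.isCompact U)
  haveI : QuasiSeparatedSpace X := ⟨fun U V _ _ _ _ => TopologicalSpace.NoetherianSpace.isCompact _⟩
  haveI : SpectralSpace X := {}
  obtain ⟨h1, h2⟩ := Groth.Agent.H11Spec.constructible_cons hE
  have key : ∀ E : Set X, @IsClosed X (constructibleTopology X) E → StableUnderSpecialization E → IsClosed E := by
    intro E hE hs
    rw [← closure_subset_iff_isClosed]
    intro x hx
    obtain ⟨e, he, hex⟩ := Groth.Agent.H11Spec.exists_specializes hE hx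
    exact hs hex he
  refine ⟨key E h2, fun hs => ?_⟩
  rw [← isClosed_compl_iff]
  exact key Eᶜ ((@isClosed_compl_iff X (constructibleTopology X) E).2 h1) (fun x y hxy hx hy => hx (hs hxy hy))


end Groth.Agent.S7553
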