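import Groth.Statements.S7555
import Mathlib

set_option autoImplicit false
universe u
open PtTop

namespace Groth.Agent.S7555
open TopologicalSpace Set

/-- Let f : X → X be a surjective continuous self-map of a Hausdorff topological space with f ≠ id. Then
there is a closed subset E ⊊ X such that X = E ∪ f(E). -/
theorem result {X : Type u} [TopologicalSpace X] [T2Space X]
    (f : X → X) (hf : Continuous f) (hsurj : Function.Surjective f) (hne : f ≠ id) :
    ∃ E : Set X, IsClosed E ∧ E ≠ Set.univ ∧ E ∪ f '' E = Set.univ := by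
  obtain ⟨x, hx⟩ := Function.ne_iff.1 hne
  obtain ⟨U, V, hU, hV, hxU, hxV, hd⟩ := t2_separation (show x ≠ f x from fun h => hx h.symm)
  refine ⟨(U ∩ f ⁻¹' V)ᶜ, (hU.inter (hV.preimage hf)).isClosed_compl, ?_, ?_⟩
  · intro h
    have : x ∈ (U ∩ f ⁻¹' V)ᶜ := by rw [h]; trivial
    exact this ⟨hxU, hxV⟩
  · rw [Set.eq_univ_iff_forall]
    intro w
    by_cases hw : w ∈ U ∩ f ⁻¹' V
    · right
      obtain ⟨z, rfl⟩ := hsurj w
      refine ⟨z, fun hz => ?_, rfl⟩
      exact Set.disjoint_left.1 hd hw.1 hz.2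
    · left; exact hw

end Groth.Agent.S7555
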