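import Groth.Statements.S7562
import Mathlib

set_option autoImplicit false
universe u
open PtTop

namespace Groth.Agent.S7562
open Topology

/-- Let f : X → Y be a surjective closed continuous map of topological spaces and T ⊆ Y. Then the
closure of T equals f applied to the closure of f⁻¹(T), and T is locally closed in Y if and only if
f⁻¹(T) is locally closed in X. The published statement also asserts that Y carries the quotient
topology of X; this row states the closure formula and the locally-closed equivalence only. -/
theorem result {X Y : Type u} [TopologicalSpace X] [TopologicalSpace Y]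
    (f : X → Y) (hf : Continuous f) (hc : IsClosedMap f) (hs : Function.Surjective f) (T : Set Y) :
    closure T = f '' closure (f ⁻¹' T) ∧ (IsLocallyClosed T ↔ IsLocallyClosed (f ⁻¹' T)) := by
  have h1 : closure T = f '' closure (f ⁻¹' T) := by
    apply Set.Subset.antisymm
    · apply closure_minimal _ (hc _ isClosed_closure)
      intro y hy
      obtain ⟨x, rfl⟩ := hs y
      exact ⟨x, subset_closure hy, rfl⟩
    · refine (image_closure_subset_closure_image hf).trans (closure_mono ?_)
      exact Set.image_preimage_subset f T
  refine ⟨h1, fun h => h.preimage hf, fun h => ?_⟩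
  have h2 : IsClosed (closure (f ⁻¹' T) \ (f ⁻¹' T)) := by
    have := h.isOpen_coborder
    rwa [coborder, isOpen_compl_iff] at this
  have h3 : closure T \ T = f '' (closure (f ⁻¹' T) \ (f ⁻¹' T)) := by
    rw [h1]
    ext y
    constructor
    · rintro ⟨⟨x, hx, rfl⟩, hy⟩
      exact ⟨x, ⟨hx, hy⟩, rfl⟩
    · rintro ⟨x, ⟨hx, hx'⟩, rfl⟩
      exact ⟨⟨x, hx, rfl⟩, hx'⟩
  rw [isLocallyClosed_iff_isOpen_coborder]
  rw [coborder, isOpen_compl_iff, h3]
  exact hc _ h2


end Groth.Agent.S7562
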