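import Groth.Statements.S7563
import Mathlib

set_option autoImplicit false
universe u
open PtTop

namespace Groth.Agent.S7563
open Topology

theorem irr_subset {X : Type u} [TopologicalSpace X] {W : Set X} (hW : IsIrreducible W) {n : ℕ} (Z : Fin n → Set X)
    (hZ : ∀ i, IsClosed (Z i)) (h : W ⊆ ⋃ i, Z i) : ∃ i, W ⊆ Z i := by
  classical
  have := (isIrreducible_iff_sUnion_isClosed.1 hW) (Finset.univ.image Z) (by
    intro z hz
    obtain ⟨i, -, rfl⟩ := Finset.mem_image.1 hz
    exact hZ i) (by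
    intro x hx
    obtain ⟨i, hi⟩ := Set.mem_iUnion.1 (h hx)
    exact ⟨Z i, by simp, hi⟩)
  obtain ⟨z, hz, hWz⟩ := this
  obtain ⟨i, -, rfl⟩ := Finset.mem_image.1 hz
  exact ⟨i, hWz⟩



/-- Let X be a topological space and X = X_1 ∪ … ∪ X_n with each X_i irreducible and closed and no X_i
contained in the union of the others. Then the irreducible components of X are precisely the sets
X_1, …, X_n. -/
theorem result {X : Type u} [TopologicalSpace X]
    {n : ℕ} (Z : Fin n → Set X) (hZ : ∀ i, IsIrreducible (Z i) ∧ IsClosed (Z i))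
    (hcov : ⋃ i, Z i = Set.univ) (hirr : ∀ i, ¬ Z i ⊆ ⋃ j ∈ ({i}ᶜ : Set (Fin n)), Z j) :
    irreducibleComponents X = Set.range Z := by
  ext W
  constructor
  · intro hW
    obtain ⟨i, hi⟩ := irr_subset hW.1 Z (fun i => (hZ i).2) (by rw [hcov]; exact Set.subset_univ _)
    exact ⟨i, Set.Subset.antisymm (hW.2 (hZ i).1 hi) hi⟩
  · rintro ⟨i, rfl⟩
    refine ⟨(hZ i).1, fun W hW hle => ?_⟩
    obtain ⟨j, hj⟩ := irr_subset hW Z (fun i => (hZ i).2) (by rw [hcov]; exact Set.subset_univ _)
    by_cases hij : j = i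
    · rw [hij] at hj; exact hj
    · exfalso
      apply hirr i
      exact (hle.trans hj).trans (Set.subset_biUnion_of_mem (u := Z) (show j ∈ ({i}ᶜ : Set (Fin n)) from hij))


end Groth.Agent.S7563
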