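import Groth.Statements.S7564
import Mathlib

set_option autoImplicit false
universe u
open PtTop

namespace Groth.Agent.S7564
open Topology

/-- For a continuous surjection f : X → Y, if X has finitely many irreducible components, say n of them,
then Y has at most n irreducible components. -/
theorem result {X Y : Type u} [TopologicalSpace X] [TopologicalSpace Y]
    (f : X → Y) (hf : Continuous f) (hs : Function.Surjective f) (hfin : (irreducibleComponents X).Finite) :
    (irreducibleComponents Y).Finite ∧ (irreducibleComponents Y).ncard ≤ (irreducibleComponents X).ncard := by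
  have hsub : irreducibleComponents Y ⊆ (fun Z => closure (f '' Z)) '' irreducibleComponents X := by
    intro W hW
    have := (isIrreducible_iff_sUnion_isClosed.1 hW.1) ((hfin.image (fun Z => closure (f '' Z))).toFinset) (by
      intro z hz
      rw [Set.Finite.mem_toFinset] at hz
      obtain ⟨Z, -, rfl⟩ := hz
      exact isClosed_closure) (by
      intro y _
      obtain ⟨x, rfl⟩ := hs y
      refine ⟨closure (f '' irreducibleComponent x), ?_, subset_closure ⟨x, mem_irreducibleComponent, rfl⟩⟩
      rw [Set.Finite.coe_toFinset]
      exact ⟨_, irreducibleComponent_mem_irreducibleComponents x, rfl⟩)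
    obtain ⟨z, hz, hWz⟩ := this
    rw [Set.Finite.mem_toFinset] at hz
    obtain ⟨Z, hZ, rfl⟩ := hz
    refine ⟨Z, hZ, ?_⟩
    have hi : IsIrreducible (closure (f '' Z)) := (hZ.1.image f hf.continuousOn).closure
    exact Set.Subset.antisymm (hW.2 hi hWz) hWz
  refine ⟨(hfin.image _).subset hsub, ?_⟩
  exact (Set.ncard_le_ncard hsub (hfin.image _)).trans (Set.ncard_image_le hfin)


end Groth.Agent.S7564
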