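import Groth.Statements.S7565
import Mathlib

set_option autoImplicit false
universe u
open PtTop

namespace Groth.Agent.S7565
open Topology

/-- Let f : X → Y be a continuous open map of topological spaces and assume every point of X has a
Noetherian neighbourhood. Then every point of f(X) (with the induced topology) has a Noetherian
neighbourhood. The published statement also asserts that a continuous image of a Noetherian space is
Noetherian; this row states the part about open maps and locally Noetherian spaces. -/
theorem result {X Y : Type u} [TopologicalSpace X] [TopologicalSpace Y]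
    (f : X → Y) (hf : Continuous f) (hfo : IsOpenMap f)
    (hX : ∀ x : X, ∃ E ∈ nhds x, TopologicalSpace.NoetherianSpace E) :
    ∀ y : Set.range f, ∃ E : Set (Set.range f), E ∈ nhds y ∧ TopologicalSpace.NoetherianSpace E := by
  rintro ⟨_, x, rfl⟩
  obtain ⟨E, hE, hN⟩ := hX x
  have hg : Continuous (Set.rangeFactorization f) := hf.subtype_mk _
  have hgo : IsOpenMap (Set.rangeFactorization f) := by
    intro U hU
    refine isOpen_induced_iff.2 ⟨f '' U, hfo U hU, ?_⟩
    ext ⟨z, hz⟩
    constructor
    · rintro ⟨u, hu, h⟩
      exact ⟨u, hu, Subtype.ext h⟩
    · rintro ⟨u, hu, h⟩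
      exact ⟨u, hu, congrArg Subtype.val h⟩
  refine ⟨Set.rangeFactorization f '' E, hgo.image_mem_nhds hE, ?_⟩
  have h1 : Set.range (fun e : E => Set.rangeFactorization f e.1) = Set.rangeFactorization f '' E := by
    ext z; simp
  rw [← h1]
  exact TopologicalSpace.NoetherianSpace.range _ (hg.comp continuous_subtype_val)


end Groth.Agent.S7565
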