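import Groth.Statements.S7566
import Mathlib

set_option autoImplicit false
universe u
open PtTop

namespace Groth.Agent.S7566
open TopologicalSpace Set

/-- Let X be a quasi-compact topological space whose quasi-compact opens form a basis, any two of them
meeting in a quasi-compact set. Then for every x ∈ X the connected component of x equals the
intersection of every clopen subset of X that contains x. -/
theorem result {X : Type u} [TopologicalSpace X]
    [CompactSpace X] [PrespectralSpace X] [QuasiSeparatedSpace X] (x : X) :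
    connectedComponent x = ⋂₀ {Z : Set X | IsClopen Z ∧ x ∈ Z} := by
  apply Set.Subset.antisymm
  · exact Set.subset_sInter fun Z hZ => hZ.1.connectedComponent_subset hZ.2
  set S : Set X := ⋂₀ {Z : Set X | IsClopen Z ∧ x ∈ Z} with hS
  have hxS : x ∈ S := fun Z hZ => hZ.2
  have hSc : IsClosed S := isClosed_sInter fun Z hZ => hZ.1.1
  refine IsPreconnected.subset_connectedComponent ?_ hxS
  rw [isPreconnected_iff_subset_of_disjoint]
  intro u v hu hv huv hdis
  have e1 : S ∩ u = S ∩ vᶜ := by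
    ext z
    constructor
    · rintro ⟨h1, h2⟩
      refine ⟨h1, fun h3 => ?_⟩
      have : z ∈ S ∩ (u ∩ v) := ⟨h1, h2, h3⟩
      rw [hdis] at this; exact this
    · rintro ⟨h1, h2⟩
      rcases huv h1 with h3 | h3
      · exact ⟨h1, h3⟩
      · exact absurd h3 h2
  have e2 : S ∩ v = S ∩ uᶜ := by
    ext z
    constructor
    · rintro ⟨h1, h2⟩
      refine ⟨h1, fun h3 => ?_⟩
      have : z ∈ S ∩ (u ∩ v) := ⟨h1, h3, h2⟩
      rw [hdis] at this; exact this
    · rintro ⟨h1, h2⟩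
      rcases huv h1 with h3 | h3
      · exact absurd h3 h2
      · exact ⟨h1, h3⟩
  have c1 : IsCompact (S ∩ u) := by rw [e1]; exact (hSc.inter hv.isClosed_compl).isCompact
  have c2 : IsCompact (S ∩ v) := by rw [e2]; exact (hSc.inter hu.isClosed_compl).isCompact
  obtain ⟨U, hUc, hUo, hSU, hUu⟩ := PrespectralSpace.exists_isCompact_and_isOpen_between c1 hu Set.inter_subset_right
  obtain ⟨V, hVc, hVo, hSV, hVv⟩ := PrespectralSpace.exists_isCompact_and_isOpen_between c2 hv Set.inter_subset_right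
  have hK : IsCompact ((U ∪ V)ᶜ ∪ (U ∩ V)) :=
    (hUo.union hVo).isClosed_compl.isCompact.union (QuasiSeparatedSpace.inter_isCompact U V hUo hUc hVo hVc)
  have hKS : ((U ∪ V)ᶜ ∪ (U ∩ V)) ∩ ⋂ s : {Z : Set X // IsClopen Z ∧ x ∈ Z}, (s : Set X) = ∅ := by
    rw [Set.eq_empty_iff_forall_notMem]
    rintro z ⟨h1, h2⟩
    have hzS : z ∈ S := fun Z hZ => Set.mem_iInter.1 h2 ⟨Z, hZ⟩
    rcases h1 with h1 | ⟨h1, h3⟩
    · rcases huv hzS with h4 | h4
      · exact h1 (Or.inl (hSU ⟨hzS, h4⟩))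
      · exact h1 (Or.inr (hSV ⟨hzS, h4⟩))
    · have : z ∈ S ∩ (u ∩ v) := ⟨hzS, hUu h1, hVv h3⟩
      rw [hdis] at this; exact this
  obtain ⟨F, hF⟩ := hK.elim_finite_subfamily_closed (fun s : {Z : Set X // IsClopen Z ∧ x ∈ Z} => (s : Set X))
    (fun s => s.2.1.1) hKS
  set W : Set X := ⋂ i ∈ F, (i : Set X) with hW
  have hWc : IsClopen W := isClopen_biInter_finset fun i _ => i.2.1
  have hxW : x ∈ W := Set.mem_iInter₂.2 fun i _ => i.2.2
  have hWUV : W ⊆ U ∪ V := by
    intro z hz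
    by_contra hcon
    have : z ∈ ((U ∪ V)ᶜ ∪ (U ∩ V)) ∩ W := ⟨Or.inl hcon, hz⟩
    rw [hF] at this; exact this
  have hWd : ∀ z ∈ W, z ∈ U → z ∈ V → False := by
    intro z hz h1 h2
    have : z ∈ ((U ∪ V)ᶜ ∪ (U ∩ V)) ∩ W := ⟨Or.inr ⟨h1, h2⟩, hz⟩
    rw [hF] at this; exact this
  have hWU : (W ∩ U)ᶜ = Wᶜ ∪ (W ∩ V) := by
    ext z
    constructor
    · intro h
      by_cases hz : z ∈ W
      · rcases hWUV hz with h1 | h1
        · exact absurd ⟨hz, h1⟩ h
        · exact Or.inr ⟨hz, h1⟩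
      · exact Or.inl hz
    · rintro (h | ⟨h1, h2⟩) ⟨h3, h4⟩
      · exact h h3
      · exact hWd z h1 h4 h2
  have hWV : (W ∩ V)ᶜ = Wᶜ ∪ (W ∩ U) := by
    ext z
    constructor
    · intro h
      by_cases hz : z ∈ W
      · rcases hWUV hz with h1 | h1
        · exact Or.inr ⟨hz, h1⟩
        · exact absurd ⟨hz, h1⟩ h
      · exact Or.inl hz
    · rintro (h | ⟨h1, h2⟩) ⟨h3, h4⟩
      · exact h h3
      · exact hWd z h1 h2 h4
  have k1 : IsClopen (W ∩ U) :=
    ⟨by rw [← isOpen_compl_iff, hWU]; exact hWc.compl.isOpen.union (hWc.isOpen.inter hVo), hWc.isOpen.inter hUo⟩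
  have k2 : IsClopen (W ∩ V) :=
    ⟨by rw [← isOpen_compl_iff, hWV]; exact hWc.compl.isOpen.union (hWc.isOpen.inter hUo), hWc.isOpen.inter hVo⟩
  rcases hWUV hxW with hxU | hxV
  · left
    intro z hz
    exact hUu (hz _ ⟨k1, hxW, hxU⟩).2
  · right
    intro z hz
    exact hVv (hz _ ⟨k2, hxW, hxV⟩).2

end Groth.Agent.S7566
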