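import Groth.Statements.S7567
import Mathlib
import Groth.Agent.S7566

set_option autoImplicit false
universe u
open PtTop

namespace Groth.Agent.S7567
open TopologicalSpace Set

/-- Let X be a quasi-compact topological space whose quasi-compact opens form a basis, any two of them
meeting in a quasi-compact set. For a subset T ⊆ X these two conditions are equivalent: (a) T can be
written as an intersection of clopen subsets of X; (b) T is closed and is a union of connected
components of X. -/
theorem result {X : Type u} [TopologicalSpace X]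
    [CompactSpace X] [PrespectralSpace X] [QuasiSeparatedSpace X] (T : Set X) :
    (∃ S : Set (Set X), (∀ Z ∈ S, IsClopen Z) ∧ T = ⋂₀ S) ↔
      (IsClosed T ∧ ∀ x ∈ T, connectedComponent x ⊆ T) := by
  have h66 : ∀ x : X, connectedComponent x = ⋂₀ {Z : Set X | IsClopen Z ∧ x ∈ Z} := fun x => Groth.Agent.S7566.result x
  constructor
  · rintro ⟨S, hS, rfl⟩
    refine ⟨isClosed_sInter fun Z hZ => (hS Z hZ).1, fun x hx => ?_⟩
    exact Set.subset_sInter fun Z hZ => (hS Z hZ).connectedComponent_subset (hx Z hZ)
  · rintro ⟨hT, hc⟩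
    refine ⟨{Z | IsClopen Z ∧ T ⊆ Z}, fun Z hZ => hZ.1, ?_⟩
    apply Set.Subset.antisymm
    · exact Set.subset_sInter fun Z hZ => hZ.2
    · intro y hy
      by_contra hyT
      have hemp : T ∩ ⋂ s : {Z : Set X // IsClopen Z ∧ y ∈ Z}, (s : Set X) = ∅ := by
        rw [Set.eq_empty_iff_forall_notMem]
        rintro z ⟨hzT, hz⟩
        have hz' : z ∈ connectedComponent y := by
          rw [h66 y]
          exact fun Z hZ => Set.mem_iInter.1 hz ⟨Z, hZ⟩
        have := connectedComponent_eq hz'
        exact hyT (hc z hzT (by rw [← this]; exact mem_connectedComponent))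
      obtain ⟨F, hF⟩ := hT.isCompact.elim_finite_subfamily_closed (fun s : {Z : Set X // IsClopen Z ∧ y ∈ Z} => (s : Set X))
        (fun s => s.2.1.1) hemp
      set W : Set X := ⋂ i ∈ F, (i : Set X) with hW
      have hWc : IsClopen W := isClopen_biInter_finset fun i _ => i.2.1
      have hyW : y ∈ W := Set.mem_iInter₂.2 fun i _ => i.2.2
      refine hy Wᶜ ⟨hWc.compl, fun t ht htW => ?_⟩ hyW
      have : t ∈ T ∩ W := ⟨ht, htW⟩
      rw [hF] at this; exact this

end Groth.Agent.S7567
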