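import Groth.Statements.S7576
import Mathlib

set_option autoImplicit false
universe u
open CategoryTheory CategoryTheory.Limits
open ShSp

namespace Groth.Agent.S7576
open CategoryTheory CategoryTheory.Limits TensorProduct

/-- Let (C, F) be a type of algebraic structure, i.e. C is a category with limits and filtered colimits
and F : C → Sets is a faithful functor commuting with both and reflecting isomorphisms. Let f : A →
B and g : C' → B be morphisms of C such that F(g) is injective and the image of F(f) is contained in
the image of F(g). Then f = g ∘ t for some morphism t : A → C'. -/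
theorem result {C : Type (u + 1)} [LargeCategory C]
    [HasLimits C] [HasFilteredColimitsOfSize.{u, u} C]
    (F : C ⥤ Type u) [F.Faithful] [F.ReflectsIsomorphisms] [PreservesLimits F] [PreservesFilteredColimits F]
    {A B C' : C} (f : A ⟶ B) (g : C' ⟶ B) (hg : Function.Injective (F.map g))
    (hfg : Set.range (F.map f) ⊆ Set.range (F.map g)) :
    ∃ t : A ⟶ C', t ≫ g = f := by
  have hp := (IsPullback.of_hasPullback f g).map F
  have hmono : Mono (F.map g) := (mono_iff_injective _).2 hg
  have hm : Mono (F.map (pullback.fst f g)) := by
    constructor
    intro Z a b hab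
    apply hp.hom_ext hab
    rw [← cancel_mono (F.map g), Category.assoc, Category.assoc, ← hp.w, ← Category.assoc, ← Category.assoc, hab]
  have hiso : IsIso (F.map (pullback.fst f g)) := by
    rw [isIso_iff_bijective]
    refine ⟨(mono_iff_injective _).1 hm, fun a => ?_⟩
    obtain ⟨c, hc⟩ := hfg ⟨a, rfl⟩
    obtain ⟨z, hz, -⟩ := Types.exists_of_isPullback hp a c hc.symm
    exact ⟨z, hz⟩
  have : IsIso (pullback.fst f g) := isIso_of_reflects_iso _ F
  exact ⟨inv (pullback.fst f g) ≫ pullback.snd f g, by rw [Category.assoc, ← pullback.condition, IsIso.inv_hom_id_assoc]⟩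

end Groth.Agent.S7576
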