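import Groth.Statements.S7579
import Groth.Agent.Lib.Helper11_Spec
import Mathlib

set_option autoImplicit false
universe u
open SpecSp

namespace Groth.Agent.S7579
open Groth.Agent.H11Spec Topology

/-- Let X be a spectral space. Then X with its constructible topology is Hausdorff and totally
disconnected. The published statement also asserts that the constructible topology is quasi-compact;
this row states the Hausdorff and totally disconnected parts. -/
theorem result (X : Type u) [TopologicalSpace X] [SpectralSpace X] :
    T2Space (WithConstructibleTopology X) ∧ TotallyDisconnectedSpace (WithConstructibleTopology X) := by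
  have ho : ∀ s : Set X, IsOpen[constructibleTopology X] s → IsOpen ((WithTopology.ofTopology : WithConstructibleTopology X → X) ⁻¹' s) :=
    fun s hs => WithConstructibleTopology.isOpen_iff.2 hs
  have hoc : ∀ s : Set X, IsClosed[constructibleTopology X] s → IsOpen ((WithTopology.ofTopology : WithConstructibleTopology X → X) ⁻¹' s)ᶜ :=
    fun s hs => ho sᶜ ((@isOpen_compl_iff _ _ (constructibleTopology X)).2 hs)
  have hne : ∀ {x y : WithConstructibleTopology X}, x ≠ y → x.ofTopology ≠ y.ofTopology := by
    rintro ⟨x⟩ ⟨y⟩ h h'
    exact h (congrArg _ h')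
  haveI : TotallySeparatedSpace (WithConstructibleTopology X) := by
    rw [totallySeparatedSpace_iff_exists_isClopen]
    intro x y hxy
    obtain ⟨U, hU1, hU2, h | h⟩ := exists_separating (hne hxy)
    · exact ⟨_, ⟨⟨hoc _ (cons_closed hU1 hU2)⟩, ho _ (cons_open hU1 hU2)⟩, h.1, h.2⟩
    · refine ⟨_, (IsClopen.compl ⟨⟨hoc _ (cons_closed hU1 hU2)⟩, ho _ (cons_open hU1 hU2)⟩), h.2, fun hh => hh h.1⟩
  exact ⟨inferInstance, inferInstance⟩


end Groth.Agent.S7579
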