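import Groth.Statements.S7580
import Mathlib

set_option autoImplicit false
universe u
open PtTop

namespace Groth.Agent.S7580
open TopologicalSpace Set

/-- Let f : X → Y be a continuous map of topological spaces with f(X) dense in Y and Y Hausdorff. Then Y
has no more points than the double power set of X. -/
theorem result {X Y : Type u} [TopologicalSpace X] [TopologicalSpace Y] [T2Space Y]
    (f : X → Y) (hf : Continuous f) (hd : DenseRange f) :
    Cardinal.mk Y ≤ (2 : Cardinal.{u}) ^ ((2 : Cardinal.{u}) ^ Cardinal.mk X) := by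
  rw [← Cardinal.mk_set, ← Cardinal.mk_set]
  refine Cardinal.mk_le_of_injective (f := fun y : Y => {A : Set X | ∃ U : Set Y, IsOpen U ∧ y ∈ U ∧ f ⁻¹' U = A}) ?_
  intro y y' hyy
  by_contra hne
  obtain ⟨U, U', hU, hU', hyU, hyU', hdis⟩ := t2_separation hne
  have h1 : f ⁻¹' U ∈ {A : Set X | ∃ U : Set Y, IsOpen U ∧ y ∈ U ∧ f ⁻¹' U = A} := ⟨U, hU, hyU, rfl⟩
  have h2 : f ⁻¹' U ∈ {A : Set X | ∃ U : Set Y, IsOpen U ∧ y' ∈ U ∧ f ⁻¹' U = A} := by
    have := hyy
    simp only at this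
    rw [← this]; exact h1
  obtain ⟨W, hW, hyW, hWU⟩ := h2
  obtain ⟨z, hz⟩ := hd.exists_mem_open (hW.inter hU') ⟨y', hyW, hyU'⟩
  have hzU : z ∈ f ⁻¹' U := by rw [← hWU]; exact hz.1
  exact Set.disjoint_left.1 hdis hzU hz.2

end Groth.Agent.S7580
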