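import Groth.Statements.S7584
import Mathlib

set_option autoImplicit false
universe u
open PtTop

namespace Groth.Agent.S7584
open TopologicalSpace Set

/-- Let X be a quasi-compact topological space in which each connected component equals the intersection
of all clopen sets that contain it. Then π₀(X), the set of connected components with the quotient
topology, is Hausdorff. The published statement concludes that π₀(X) is profinite; this row records
the Hausdorff property, quasi-compactness and total disconnectedness of the quotient being
automatic. -/
theorem result (X : Type u) [TopologicalSpace X] [CompactSpace X]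
    (h : ∀ x : X, connectedComponent x = ⋂₀ {Z : Set X | IsClopen Z ∧ x ∈ Z}) :
    T2Space (ConnectedComponents X) := by
  refine ⟨ConnectedComponents.surjective_coe.forall₂.2 fun a b ne => ?_⟩
  rw [ConnectedComponents.coe_ne_coe] at ne
  have hab : a ∉ connectedComponent b := fun hh => ne (connectedComponent_eq hh).symm
  rw [h b, Set.mem_sInter] at hab
  push Not at hab
  obtain ⟨U, ⟨hU, hbU⟩, haU⟩ := hab
  have hpre : ((↑) : X → ConnectedComponents X) ⁻¹' (((↑) : X → ConnectedComponents X) '' U) = U :=
    (connectedComponents_preimage_image U).symm ▸ hU.biUnion_connectedComponent_eq
  have hV : IsClopen (((↑) : X → ConnectedComponents X) '' U) := by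
    rw [← ConnectedComponents.isQuotientMap_coe.isClopen_preimage, hpre]; exact hU
  refine ⟨_, _, hV.compl.isOpen, hV.isOpen, ?_, ⟨b, hbU, rfl⟩, disjoint_compl_left⟩
  intro hh
  exact haU (by rw [← hpre]; exact hh)

end Groth.Agent.S7584
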