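import Groth.Statements.S7659
import Groth.Agent.Lib.Lead_Spread4
-- import your own Groth.Agent.* helpers here

set_option autoImplicit false
universe u
open CategoryTheory CategoryTheory.Limits AlgebraicGeometry
open Variety

namespace Groth.Agent.S7659

/-- Let f : X → S be a morphism of schemes and x a point with image s such that O_{S,s} → O_{X,x} is an
isomorphism, S is reduced with finitely many irreducible components, and f is locally of finite
type. Then f restricted to some open neighbourhood of x is an open immersion. (The published
statement assumes f of finite type; this row assumes only that f is locally of finite type.) -/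
theorem result {X S : Scheme.{u}} (f : X ⟶ S)
    [LocallyOfFiniteType f] [IsReduced S] (hS : (irreducibleComponents (S : Type u)).Finite)
    (x : X) (hx : IsIso (f.stalkMap x)) :
    ∃ U : X.Opens, x ∈ U ∧ IsOpenImmersion (U.ι ≫ f) := by
  have := Groth.Agent.LeadSpread.germInj_of_reduced hS (f x)
  exact Groth.Agent.LeadSpread.local_iso_germInj f x

end Groth.Agent.S7659
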