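import Groth.Statements.S8353
import Mathlib

set_option autoImplicit false
universe u
open HomAlg3

namespace Groth.Agent.S8353

section
variable {S : Type u} [CommRing S] (J : Ideal S) {M : Type u} [AddCommGroup M] [Module S M]
    (F : ℤ → Submodule S M)

theorem rep [IsAdicComplete J S] (hF : Antitone F)
    (hJ : ∀ p : ℤ, J • F p ≤ F (p + 1)) (hsep : ⨅ p : ℤ, F p = ⊥) (q : ℤ) (n : ℕ) (x : Fin n → M)
    (hx : ∀ i, x i ∈ F q) (m₀ : ℕ) (hm₀ : m₀ ≤ 1)
    (hstep : ∀ m : ℕ, F (q + m) ≤ J ^ m • Submodule.span S (Set.range x) ⊔ F (q + m + 1))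
    (y : M) (hy : y ∈ F (q + m₀)) : ∃ a : Fin n → S, (∀ i, a i ∈ J ^ m₀) ∧ y = ∑ i, a i • x i := by
  classical
  have hJm : ∀ m : ℕ, ∀ s ∈ J ^ m, ∀ z ∈ F q, s • z ∈ F (q + m) := by
    intro m
    have h1 : J ^ m • F q ≤ F (q + m) := by
      induction m with
      | zero => simp
      | succ m ih =>
        rw [pow_succ', mul_smul]
        refine (Submodule.smul_mono le_rfl ih).trans ?_
        refine (hJ _).trans (le_of_eq ?_)
        congr 1; push_cast; ring
    intro s hs z hz
    exact h1 (Submodule.smul_mem_smul hs hz)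
  have hst : ∀ (m : ℕ) (z : M), z ∈ F (q + ((m₀ + m : ℕ) : ℤ)) →
      ∃ b : Fin n → S, (∀ i, b i ∈ J ^ (m₀ + m)) ∧ z - ∑ i, b i • x i ∈ F (q + ((m₀ + (m + 1) : ℕ) : ℤ)) := by
    intro m z hz
    obtain ⟨u, hu, z', hz', rfl⟩ := Submodule.mem_sup.1 (hstep (m₀ + m) hz)
    obtain ⟨b, hb, rfl⟩ := (Submodule.mem_ideal_smul_span_iff_exists_sum _ _ _).1 hu
    refine ⟨b, hb, ?_⟩
    rw [Finsupp.sum_fintype _ _ (by simp), add_sub_cancel_left]
    convert hz' using 2
    push_cast; ring
  choose! B hB1 hB2 using hst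
  let ys : ℕ → M := fun m => Nat.rec y (fun m ym => ym - ∑ i, B m ym i • x i) m
  have hys0 : ys 0 = y := rfl
  have hyss : ∀ m, ys (m + 1) = ys m - ∑ i, B m (ys m) i • x i := fun _ => rfl
  have hys : ∀ m, ys m ∈ F (q + ((m₀ + m : ℕ) : ℤ)) := by
    intro m
    induction m with
    | zero => rw [hys0]; exact hy
    | succ m ih => rw [hyss]; exact hB2 m _ ih
  let f : Fin n → ℕ → S := fun i m => ∑ m' ∈ Finset.range m, B m' (ys m') i
  have hf : ∀ m, y = ys m + ∑ i, f i m • x i := by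
    intro m
    induction m with
    | zero => simp [f, hys0]
    | succ m ih =>
      rw [hyss, ih]
      simp only [f, Finset.sum_range_succ, add_smul, Finset.sum_add_distrib]
      abel
  have hcauchy : ∀ i, ∀ {m n : ℕ}, m ≤ n → f i m ≡ f i n [SMOD (J ^ m • (⊤ : Submodule S S))] := by
    intro i m n hmn
    rw [SModEq.sub_mem]
    rw [smul_eq_mul, Ideal.mul_top]
    rw [← neg_mem_iff, neg_sub]
    change ∑ m' ∈ Finset.range n, B m' (ys m') i - ∑ m' ∈ Finset.range m, B m' (ys m') i ∈ J ^ m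
    rw [← Finset.sum_sdiff (Finset.range_mono hmn), add_sub_cancel_right]
    refine sum_mem fun l hl => ?_
    have hl' : m ≤ l := by simpa using (Finset.mem_sdiff.1 hl).2
    exact Ideal.pow_le_pow_right (by omega) (hB1 l _ (hys l) i)
  choose a ha using fun i => IsPrecomplete.prec (I := J) (M := S) inferInstance (hcauchy i)
  refine ⟨a, fun i => ?_, ?_⟩
  · have h1 := ha i 1
    rw [SModEq.sub_mem, smul_eq_mul, Ideal.mul_top] at h1
    have h2 : f i 1 ∈ J ^ m₀ := by
      simp only [f, Finset.sum_range_one]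
      exact hB1 0 _ (hys 0) i
    have h3 := sub_mem h2 (Ideal.pow_le_pow_right hm₀ h1)
    rwa [sub_sub_cancel] at h3
  · rw [← sub_eq_zero, ← Submodule.mem_bot S, ← hsep, Submodule.mem_iInf]
    intro l
    obtain ⟨m, hm⟩ : ∃ m : ℕ, l ≤ q + m := ⟨(l - q).toNat, by omega⟩
    refine hF hm ?_
    rw [hf m, add_sub_assoc, ← Finset.sum_sub_distrib]
    refine Submodule.add_mem _ (hF (by push_cast; omega) (hys m)) (Submodule.sum_mem _ fun i _ => ?_)
    rw [← sub_smul]
    have h1 := ha i m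
    rw [SModEq.sub_mem, smul_eq_mul, Ideal.mul_top] at h1
    exact hJm m _ h1 _ (hx i)

theorem exists_gen (q : ℤ) (hF : Antitone F) (hfg : (Submodule.map (F (q + 1)).mkQ (F q)).FG) :
    ∃ (n : ℕ) (x : Fin n → M), (∀ i, x i ∈ F q) ∧ F q ≤ Submodule.span S (Set.range x) ⊔ F (q + 1) := by
  obtain ⟨n, s, hs⟩ := Submodule.fg_iff_exists_fin_generating_family.1 hfg
  have h1 : ∀ i, ∃ x ∈ F q, (F (q + 1)).mkQ x = s i := by
    intro i
    have : s i ∈ Submodule.map (F (q + 1)).mkQ (F q) := by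
      rw [← hs]; exact Submodule.subset_span ⟨i, rfl⟩
    exact this
  choose x hx hxs using h1
  refine ⟨n, x, hx, ?_⟩
  intro y hy
  have h2 : (F (q + 1)).mkQ y ∈ Submodule.map (F (q + 1)).mkQ (Submodule.span S (Set.range x)) := by
    rw [Submodule.map_span, ← Set.range_comp]
    have : (F (q + 1)).mkQ ∘ x = s := funext hxs
    rw [this, hs]
    exact ⟨y, hy, rfl⟩
  obtain ⟨z, hz, hzy⟩ := h2
  rw [← sub_eq_zero, ← map_sub, Submodule.mkQ_apply, Submodule.Quotient.mk_eq_zero] at hzy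
  have := Submodule.add_mem_sup hz (neg_mem hzy)
  rwa [neg_sub, add_sub_cancel] at this

theorem good [IsAdicComplete J S] (hF : Antitone F)
    (hJ : ∀ p : ℤ, J • F p ≤ F (p + 1)) (hsep : ⨅ p : ℤ, F p = ⊥)
    (hfg : ∀ p : ℤ, (Submodule.map (F (p + 1)).mkQ (F p)).FG) (p₁ : ℤ)
    (hp₁ : ∀ p : ℤ, p₁ ≤ p → F (p + 1) = J • F p ⊔ F (p + 2)) (q : ℤ) (hq : p₁ ≤ q) :
    (F q).FG ∧ J • F q = F (q + 1) := by
  obtain ⟨n, x, hx, hgen⟩ := exists_gen F q hF (hfg q)
  have hspan : Submodule.span S (Set.range x) ≤ F q := by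
    rw [Submodule.span_le]; rintro _ ⟨i, rfl⟩; exact hx i
  have hstep : ∀ m : ℕ, F (q + m) ≤ J ^ m • Submodule.span S (Set.range x) ⊔ F (q + m + 1) := by
    intro m
    induction m with
    | zero => simpa using hgen
    | succ m ih =>
      have h1 := hp₁ (q + m) (by omega)
      have e1 : q + ((m + 1 : ℕ) : ℤ) = q + m + 1 := by push_cast; ring
      rw [e1, h1]
      refine sup_le ?_ ?_
      · refine (Submodule.smul_mono le_rfl ih).trans ?_
        rw [Submodule.smul_sup, pow_succ', mul_smul]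
        refine sup_le_sup le_rfl ?_
        exact hJ _
      · refine le_sup_of_le_right (le_of_eq ?_)
        congr 1; ring
  constructor
  · refine Submodule.fg_iff_exists_fin_generating_family.2 ⟨n, x, le_antisymm hspan ?_⟩
    intro y hy
    obtain ⟨a, _, rfl⟩ := rep J F hF hJ hsep q n x hx 0 (by omega) hstep y (by simpa using hy)
    exact Submodule.sum_mem _ fun i _ => Submodule.smul_mem _ _ (Submodule.subset_span ⟨i, rfl⟩)
  · refine le_antisymm (hJ q) ?_
    intro y hy
    obtain ⟨a, ha, rfl⟩ := rep J F hF hJ hsep q n x hx 1 le_rfl hstep y (by simpa using hy)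
    refine Submodule.sum_mem _ fun i _ => Submodule.smul_mem_smul ?_ (hx i)
    have := ha i
    rwa [pow_one] at this

end

/-- Let S be a Noetherian ring which is separated and complete for the adic topology of an ideal J, and
let M be an S-module with a decreasing filtration (F^p M)_{p ∈ ℤ} by submodules such that F^p M = M
for some p, J·F^p M ⊆ F^{p+1} M for all p, and ⋂_p F^p M = 0. Then the following are equivalent: (a)
M is a finitely generated S-module and J·F^p M = F^{p+1} M for all large p; (c) every F^p M /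
F^{p+1} M is a finitely generated S-module and, for all large p, the map J ⊗ (F^p M/F^{p+1} M) ⟶
F^{p+1} M/F^{p+2} M is surjective, that is F^{p+1} M = J·F^p M + F^{p+2} M. (The published statement
also lists a third equivalent condition, finite generation of the associated graded module over the
associated graded ring; this row states the equivalence of the other two.) -/
theorem result {S : Type u} [CommRing S] [IsNoetherianRing S]
    (J : Ideal S) [IsAdicComplete J S] {M : Type u} [AddCommGroup M] [Module S M]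
    (F : ℤ → Submodule S M) (hF : Antitone F) (hcod : ∃ p₀ : ℤ, F p₀ = ⊤)
    (hJ : ∀ p : ℤ, J • F p ≤ F (p + 1)) (hsep : ⨅ p : ℤ, F p = ⊥) :
    (Module.Finite S M ∧ ∃ p₁ : ℤ, ∀ p : ℤ, p₁ ≤ p → J • F p = F (p + 1)) ↔
      ((∀ p : ℤ, (Submodule.map (F (p + 1)).mkQ (F p)).FG) ∧
        ∃ p₁ : ℤ, ∀ p : ℤ, p₁ ≤ p → F (p + 1) = J • F p ⊔ F (p + 2)) := by
  constructor
  · rintro ⟨hfin, p₁, hp₁⟩
    haveI : IsNoetherian S M := isNoetherian_of_isNoetherianRing_of_finite S M
    refine ⟨fun p => (IsNoetherian.noetherian (F p)).map _, p₁, fun p hp => ?_⟩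
    rw [hp₁ p hp]
    exact (sup_eq_left.2 (hF (by omega))).symm
  · rintro ⟨hfg, p₁, hp₁⟩
    have hg := good J F hF hJ hsep hfg p₁ hp₁
    refine ⟨?_, p₁, fun p hp => (hg p hp).2⟩
    have hdown : ∀ m : ℕ, (F (p₁ - m)).FG := by
      intro m
      induction m with
      | zero => simpa using (hg p₁ le_rfl).1
      | succ m ih =>
        refine Submodule.fg_of_fg_map_of_fg_inf_ker (F (p₁ - ((m + 1 : ℕ) : ℤ) + 1)).mkQ (hfg _) ?_
        rw [Submodule.ker_mkQ, inf_eq_right.2 (hF (by omega))]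
        rw [show p₁ - ((m + 1 : ℕ) : ℤ) + 1 = p₁ - m by push_cast; ring]
        exact ih
    obtain ⟨p₀, hp₀⟩ := hcod
    have h1 := hdown (p₁ - p₀).toNat
    have h2 : F (p₁ - ((p₁ - p₀).toNat : ℤ)) = ⊤ := by
      rw [eq_top_iff, ← hp₀]
      exact hF (by omega)
    rw [h2] at h1
    exact ⟨h1⟩


end Groth.Agent.S8353
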