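import Groth.Statements.S8816
import Mathlib

set_option autoImplicit false
universe u
open CategoryTheory AlgebraicGeometry
open Algz

namespace Groth.Agent.S8816

theorem codim_le_one {Y : Type u} [TopologicalSpace Y] (w v : Y) (h : w ⤳ v)
    (him : ∀ z : Y, w ⤳ z → z ⤳ v → z = w ∨ z = v) : Algz.codimPt w v h ≤ 1 := by
  rw [Algz.codimPt]
  apply Order.height_le
  intro p hp
  by_contra hlen
  push Not at hlen
  have hlen' : 1 < p.length := by exact_mod_cast hlen
  set z := p ⟨1, by omega⟩ with hz
  have h1 : z < ⟨Specialization.toEquiv w, Specialization.toEquiv_le_toEquiv.mpr h⟩ := by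
    rw [← hp, hz]
    exact p.strictMono (by rw [Fin.lt_def]; simpa using hlen')
  have h2 : p ⟨0, by omega⟩ < z := by
    rw [hz]
    exact p.strictMono (by rw [Fin.lt_def]; simp)
  have h3 : w ⤳ Specialization.ofEquiv z.1 := by
    have : z.1 ≤ Specialization.toEquiv w := h1.le
    exact this
  have h4 : Specialization.ofEquiv z.1 ⤳ v := by
    have : Specialization.toEquiv v ≤ z.1 := z.2
    exact this
  rcases him _ h3 h4 with h5 | h5
  · apply (lt_iff_le_not_ge.1 h1).2
    change Specialization.toEquiv w ≤ z.1
    rw [← h5]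
    exact le_rfl
  · apply (lt_iff_le_not_ge.1 h2).2
    change z.1 ≤ (p ⟨0, by omega⟩).1
    have h6 : z.1 ≤ Specialization.toEquiv v := by
      change v ⤳ Specialization.ofEquiv z.1
      exact specializes_of_eq h5.symm
    exact h6.trans (p ⟨0, by omega⟩).2

theorem one_le_codim {Y : Type u} [TopologicalSpace Y] [T0Space Y] (w v : Y) (h : w ⤳ v)
    (hne : w ≠ v) : 1 ≤ Algz.codimPt w v h := by
  rw [ENat.one_le_iff_ne_zero, Algz.codimPt, Ne, Order.height_eq_zero]
  intro hmin
  have h1 : (⟨Specialization.toEquiv v, Set.self_mem_Ici⟩ : Set.Ici (Specialization.toEquiv v)) ≤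
      ⟨Specialization.toEquiv w, Specialization.toEquiv_le_toEquiv.mpr h⟩ :=
    Specialization.toEquiv_le_toEquiv.mpr h
  have h2 := hmin h1
  have h3 : v ⤳ w := h2
  exact hne (h.antisymm h3).eq

theorem codim_self {Y : Type u} [TopologicalSpace Y] (v : Y) (h : v ⤳ v) : Algz.codimPt v v h = 0 := by
  rw [Algz.codimPt, Order.height_eq_zero]
  intro z _
  exact z.2


/-- Let Y be a Noetherian scheme and Z ⊆ Y closed. Given points y_0, …, y_k and y'_0, …, y'_{k-1} of Y
with y_0 ∈ Z such that each y'_i specializes to y_{i+1} with y'_i ≠ y_{i+1}, and each y'_i ⤳ y_i is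
an immediate specialization (y'_i ≠ y_i and no point strictly between), one has δ_Z(y_k) ≤ k. (The
published statement also allows y'_i = y_{i+1}. In that generality the bound needs catenarity: for a
Noetherian local domain of dimension 3 having a saturated chain of primes (0) ⊂ 𝔭 ⊂ 𝔪 of length 2,
with Z the closed point and the pattern y_0 = 𝔪, y'_0 = y_1 = 𝔭, y'_1 = y_2 = (0), one has k = 2 but
δ_Z((0)) = 3. The published proof handles nontrivial specializations y'_i ⤳ y_{i+1}, for which the
closures of the y_i and y'_i form a system of value k, and reduces to that case by shortening the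
chain, which does not preserve immediacy; this row states the case the proof establishes.) -/
theorem result (Y : Scheme.{u}) [IsNoetherian Y] (Z : Set Y) (hZ : IsClosed Z) (k : ℕ) (y : Fin (k + 1) → Y) (y' : Fin k → Y) (h0 : y 0 ∈ Z) (hdown : ∀ i : Fin k, y' i ⤳ y i.castSucc ∧ y' i ≠ y i.castSucc ∧ ∀ z : Y, y' i ⤳ z → z ⤳ y i.castSucc → z = y' i ∨ z = y i.castSucc) (hup : ∀ i : Fin k, y' i ⤳ y i.succ ∧ y' i ≠ y i.succ) : Algz.deltaZ Z (y (Fin.last k)) ≤ k := by
  classical
  let S : Algz.DSystem Z (y (Fin.last k)) k :=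
    { v := y
      w := Fin.snoc (α := fun _ => Y) y' (y (Fin.last k))
      spec := by
        intro i
        refine Fin.lastCases ?_ (fun i => ?_) i
        · simp only [Fin.snoc_last]
          exact specializes_rfl
        · simpa using (hdown i).1
      spec_succ := by
        intro i
        simpa using (hup i).1
      start_mem := h0
      last_eq := by simp }
  have hw : ∀ i : Fin k, S.w i.castSucc = y' i := fun i => by simp [S]
  have hwl : S.w (Fin.last k) = y (Fin.last k) := by simp [S]
  have hc1 : ∀ i : Fin k, S.c i.castSucc ≤ 1 := by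
    intro i
    apply codim_le_one
    intro z hz1 hz2
    rw [hw] at hz1 ⊢
    exact (hdown i).2.2 z hz1 hz2
  have hcl : S.c (Fin.last k) = 0 := by
    rw [Algz.DSystem.c, Algz.codimPt, Order.height_eq_zero]
    intro z _
    have h2 := z.2
    change Specialization.toEquiv (S.w (Fin.last k)) ≤ z.1
    rw [hwl]
    exact h2
  have hb1 : ∀ i : Fin k, 1 ≤ S.b i := by
    intro i
    apply one_le_codim
    rw [hw]
    exact (hup i).2
  refine (iInf_le_of_le k (iInf_le_of_le S le_rfl)).trans ?_
  rw [Algz.DSystem.delta]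
  have hsup : (Finset.univ.sup fun i : Fin (k + 1) =>
    (∑ j ∈ Finset.univ.filter (fun j : Fin (k + 1) => i ≤ j), S.c j) -
      ∑ j ∈ Finset.univ.filter (fun j : Fin k => i.val ≤ j.val), S.b j) = 0 := by
    refine le_antisymm (Finset.sup_le fun i _ => ?_) zero_le
    rw [nonpos_iff_eq_zero]
    apply tsub_eq_zero_of_le
    rw [Finset.sum_filter, Finset.sum_filter, Fin.sum_univ_castSucc, hcl, ite_self, add_zero]
    refine Finset.sum_le_sum fun j _ => ?_
    by_cases hij : i ≤ j.castSucc
    · rw [if_pos hij, if_pos (by simpa [Fin.le_def] using hij)]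
      exact (hc1 j).trans (hb1 j)
    · rw [if_neg hij]
      exact zero_le
  rw [hsup, add_zero]


end Groth.Agent.S8816
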