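import Groth.Statements.S8812
import Groth.Agent.S8816

set_option autoImplicit false
universe u
open CategoryTheory AlgebraicGeometry
open Algz

namespace Groth.Agent.S8812

theorem codim_congr {Y : Type u} [TopologicalSpace Y] {w w' v v' : Y} (h : w ⤳ v) (h' : w' ⤳ v')
    (hw : w = w') (hv : v = v') : Algz.codimPt w v h = Algz.codimPt w' v' h' := by
  subst hw; subst hv; rfl

theorem codim_mono {Y : Type u} [TopologicalSpace Y] {w y y' : Y} (h : w ⤳ y) (h' : y ⤳ y') :
    Algz.codimPt w y h ≤ Algz.codimPt w y' (h.trans h') := by
  rw [Algz.codimPt, Algz.codimPt]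
  have hle : Specialization.toEquiv y' ≤ Specialization.toEquiv y := Specialization.toEquiv_le_toEquiv.mpr h'
  let f : Set.Ici (Specialization.toEquiv y) → Set.Ici (Specialization.toEquiv y') :=
    fun x => ⟨x.1, hle.trans x.2⟩
  have hf : StrictMono f := fun a b hab => hab
  exact Order.height_le_height_apply_of_strictMono f hf _

theorem exists_sys {Y : Type u} [TopologicalSpace Y] [T0Space Y] (Z : Set Y) (hZ : IsClosed Z) (y y' : Y)
    (h : y ⤳ y') (k : ℕ) (S : Algz.DSystem Z y k) :
    ∃ (k' : ℕ) (S' : Algz.DSystem Z y' k'), S'.delta ≤ S.delta := by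
  classical
  by_cases hyy : y = y'
  · subst hyy; exact ⟨k, S, le_rfl⟩
  set M : ℕ∞ := Finset.univ.sup fun i : Fin (k + 1) =>
    (∑ j ∈ Finset.univ.filter (fun j : Fin (k + 1) => i ≤ j), S.c j) -
      ∑ j ∈ Finset.univ.filter (fun j : Fin k => i.val ≤ j.val), S.b j with hM
  have hterm : ∀ i : Fin (k + 1), (∑ j ∈ Finset.univ.filter (fun j : Fin (k + 1) => i ≤ j), S.c j) -
      ∑ j ∈ Finset.univ.filter (fun j : Fin k => i.val ≤ j.val), S.b j ≤ M := by
    intro i
    rw [hM]
    exact Finset.le_sup (f := fun i : Fin (k + 1) =>
    (∑ j ∈ Finset.univ.filter (fun j : Fin (k + 1) => i ≤ j), S.c j) -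
      ∑ j ∈ Finset.univ.filter (fun j : Fin k => i.val ≤ j.val), S.b j) (Finset.mem_univ i)
  by_cases hM0 : M = 0
  · -- replace the last point
    have hlast := hterm (Fin.last k)
    rw [hM0, nonpos_iff_eq_zero] at hlast
    have h1 : (∑ j ∈ Finset.univ.filter (fun j : Fin (k + 1) => Fin.last k ≤ j), S.c j) = S.c (Fin.last k) := by
      rw [show Finset.univ.filter (fun j : Fin (k + 1) => Fin.last k ≤ j) = {Fin.last k} by
        ext j; simp [Fin.last_le_iff]]
      simp
    have h2 : (∑ j ∈ Finset.univ.filter (fun j : Fin k => (Fin.last k).val ≤ j.val), S.b j) = 0 := by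
      rw [show Finset.univ.filter (fun j : Fin k => (Fin.last k).val ≤ j.val) = ∅ by
        ext j; simp]
      simp
    rw [h1, h2, tsub_zero] at hlast
    have hwv : S.w (Fin.last k) = S.v (Fin.last k) := by
      by_contra hne
      have := Groth.Agent.S8816.one_le_codim _ _ (S.spec (Fin.last k)) hne
      change 1 ≤ S.c (Fin.last k) at this
      rw [hlast] at this
      exact absurd this (by simp)
    have hwy := S.last_eq
    let S' : Algz.DSystem Z y' k :=
      { v := Function.update S.v (Fin.last k) y'
        w := Function.update S.w (Fin.last k) y'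
        spec := by
          intro i
          by_cases hi : i = Fin.last k
          · subst hi; simp only [Function.update_self]; exact specializes_rfl
          · simp only [Function.update_of_ne hi]; exact S.spec i
        spec_succ := by
          intro i
          have hi : i.castSucc ≠ Fin.last k := (Fin.castSucc_lt_last i).ne
          rw [Function.update_of_ne hi]
          by_cases hi' : i.succ = Fin.last k
          · rw [hi', Function.update_self]
            have := S.spec_succ i
            rw [hi', ← hwv, hwy] at this
            exact this.trans h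
          · rw [Function.update_of_ne hi']
            exact S.spec_succ i
        start_mem := by
          by_cases hk : (0 : Fin (k + 1)) = Fin.last k
          · rw [hk, Function.update_self]
            have := S.start_mem
            rw [hk, ← hwv, hwy] at this
            exact h.mem_closed hZ this
          · rw [Function.update_of_ne hk]
            exact S.start_mem
        last_eq := by rw [Function.update_self] }
    have hc : ∀ i, S'.c i ≤ S.c i := by
      intro i
      by_cases hi : i = Fin.last k
      · subst hi
        have : S'.c (Fin.last k) = 0 := by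
          rw [Algz.DSystem.c, codim_congr (S'.spec _) (specializes_rfl : y' ⤳ y')
            (by simp [S']) (by simp [S'])]
          exact Groth.Agent.S8816.codim_self _ _
        rw [this]; exact zero_le
      · exact (codim_congr _ _ (by simp [S', Function.update_of_ne hi]) (by simp [S', Function.update_of_ne hi])).le
    have hb : ∀ i, S.b i ≤ S'.b i := by
      intro i
      have hi : i.castSucc ≠ Fin.last k := (Fin.castSucc_lt_last i).ne
      by_cases hi' : i.succ = Fin.last k
      · have h3 : S.v i.succ = y := by rw [hi', ← hwv, hwy]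
        have h4 : S.w i.castSucc ⤳ y := (S.spec_succ i).trans (specializes_of_eq h3)
        calc S.b i = Algz.codimPt (S.w i.castSucc) y h4 := codim_congr _ _ rfl h3
          _ ≤ Algz.codimPt (S.w i.castSucc) y' (h4.trans h) := codim_mono h4 h
          _ = S'.b i := codim_congr _ _ (by simp [S', Function.update_of_ne hi]) (by simp [S', hi'])
      · exact (codim_congr _ _ (by simp [S', Function.update_of_ne hi]) (by simp [S', Function.update_of_ne hi'])).le
    refine ⟨k, S', ?_⟩
    rw [Algz.DSystem.delta, Algz.DSystem.delta]
    refine add_le_add le_rfl (Finset.sup_mono_fun fun i _ => ?_)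
    exact tsub_le_tsub (Finset.sum_le_sum fun j _ => hc j) (Finset.sum_le_sum fun j _ => hb j)
  · have hM1 : 1 ≤ M := ENat.one_le_iff_ne_zero.2 hM0
    let S' : Algz.DSystem Z y' (k + 1) :=
      { v := Fin.snoc (α := fun _ => Y) S.v y'
        w := Fin.snoc (α := fun _ => Y) S.w y'
        spec := by
          intro i
          refine Fin.lastCases ?_ (fun i => ?_) i
          · simp only [Fin.snoc_last]; exact specializes_rfl
          · simp only [Fin.snoc_castSucc]; exact S.spec i
        spec_succ := by
          intro i
          refine Fin.lastCases ?_ (fun i => ?_) i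
          · rw [Fin.snoc_castSucc, Fin.succ_last, Fin.snoc_last, S.last_eq]; exact h
          · rw [Fin.snoc_castSucc, Fin.succ_castSucc, Fin.snoc_castSucc]; exact S.spec_succ i
        start_mem := by
          have : (0 : Fin (k + 2)) = (0 : Fin (k + 1)).castSucc := rfl
          rw [this, Fin.snoc_castSucc]; exact S.start_mem
        last_eq := by rw [Fin.snoc_last] }
    have hc : ∀ i : Fin (k + 1), S'.c i.castSucc = S.c i := fun i =>
      codim_congr _ _ (by simp [S']) (by simp [S'])
    have hcl : S'.c (Fin.last (k + 1)) = 0 := by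
      rw [Algz.DSystem.c, codim_congr (S'.spec _) (specializes_rfl : y' ⤳ y')
            (by simp [S']) (by simp [S'])]
      exact Groth.Agent.S8816.codim_self _ _
    have hb : ∀ i : Fin k, S'.b i.castSucc = S.b i := fun i =>
      codim_congr _ _ (by simp [S']) (by
        change Fin.snoc (α := fun _ => Y) S.v y' i.castSucc.succ = _
        rw [Fin.succ_castSucc, Fin.snoc_castSucc])
    have hbl : 1 ≤ S'.b (Fin.last k) := by
      refine Groth.Agent.S8816.one_le_codim _ _ _ ?_
      simp only [S', Fin.snoc_castSucc, Fin.succ_last, Fin.snoc_last, S.last_eq]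
      exact hyy
    refine ⟨k + 1, S', ?_⟩
    rw [Algz.DSystem.delta, Algz.DSystem.delta, ← hM]
    have hsup : (Finset.univ.sup fun i : Fin (k + 2) =>
      (∑ j ∈ Finset.univ.filter (fun j : Fin (k + 2) => i ≤ j), S'.c j) -
        ∑ j ∈ Finset.univ.filter (fun j : Fin (k + 1) => i.val ≤ j.val), S'.b j) ≤ M - 1 := by
      refine Finset.sup_le fun i _ => ?_
      refine Fin.lastCases ?_ (fun i => ?_) i
      · rw [show Finset.univ.filter (fun j : Fin (k + 2) => Fin.last (k + 1) ≤ j) = {Fin.last (k + 1)} by
          ext j; simp [Fin.last_le_iff]]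
        rw [Finset.sum_singleton, hcl, zero_tsub]
        exact zero_le
      · have h1 : (∑ j ∈ Finset.univ.filter (fun j : Fin (k + 2) => i.castSucc ≤ j), S'.c j) =
            ∑ j ∈ Finset.univ.filter (fun j : Fin (k + 1) => i ≤ j), S.c j := by
          rw [Finset.sum_filter, Finset.sum_filter, Fin.sum_univ_castSucc, hcl, ite_self, add_zero]
          simp only [hc, Fin.castSucc_le_castSucc_iff]
        have h2 : (∑ j ∈ Finset.univ.filter (fun j : Fin (k + 1) => i.castSucc.val ≤ j.val), S'.b j) =
            (∑ j ∈ Finset.univ.filter (fun j : Fin k => i.val ≤ j.val), S.b j) + S'.b (Fin.last k) := by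
          rw [Finset.sum_filter, Finset.sum_filter, Fin.sum_univ_castSucc]
          simp only [hb, Fin.val_castSucc, Fin.val_last]
          rw [if_pos (by have := i.2; omega)]
        rw [h1, h2, ← tsub_tsub]
        exact tsub_le_tsub (hterm i) hbl
    calc _ ≤ ((k + 1 : ℕ) : ℕ∞) + (M - 1) := add_le_add le_rfl hsup
      _ = (k : ℕ∞) + M := by
        rw [Nat.cast_add, Nat.cast_one, add_assoc, add_tsub_cancel_of_le hM1]

/-- Let Y be a Noetherian scheme and Z ⊆ Y a closed subset. If y specializes to y' then δ_Z(y') ≤
δ_Z(y); equivalently each set {y | δ_Z(y) ≤ k} is stable under specialization. -/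
theorem result (Y : Scheme.{u}) [IsNoetherian Y] (Z : Set Y) (hZ : IsClosed Z) (y y' : Y) (h : y ⤳ y') : Algz.deltaZ Z y' ≤ Algz.deltaZ Z y := by
  rw [Algz.deltaZ, Algz.deltaZ]
  refine le_iInf fun k => le_iInf fun S => ?_
  obtain ⟨k', S', hS'⟩ := exists_sys Z hZ y y' h k S
  exact (iInf_le_of_le k' (iInf_le_of_le S' le_rfl)).trans hS'


end Groth.Agent.S8812
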