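import Groth.Statements.S8813
import Mathlib

set_option autoImplicit false
universe u
open CategoryTheory AlgebraicGeometry
open Algz

namespace Groth.Agent.S8813

theorem codim_le_dim {Y : Type u} [TopologicalSpace Y] {R : Type u} [CommRing R] (e : PrimeSpectrum R → Y)
    (he : Topology.IsEmbedding e) (z : Y) (hr : ∀ x, x ⤳ z → ∃ Q, e Q = x) (P : PrimeSpectrum R) (h : e P ⤳ z) :
    ((Algz.codimPt (e P) z h : ℕ∞) : WithBot ℕ∞) ≤ ringKrullDim (R ⧸ P.asIdeal) := by
  have h1 : Algz.codimPt (e P) z h ≤ Order.coheight P := by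
    choose g hg using fun x : Set.Ici (Specialization.toEquiv z) => hr (Specialization.ofEquiv x.1) x.2
    have hsp : ∀ a b : PrimeSpectrum R, e a ⤳ e b ↔ a ≤ b := fun a b => by
      rw [he.isInducing.specializes_iff, PrimeSpectrum.le_iff_specializes]
    let G : Set.Ici (Specialization.toEquiv z) → (PrimeSpectrum R)ᵒᵈ := fun x => OrderDual.toDual (g x)
    have hG : StrictMono G := by
      intro a b hab
      rw [lt_iff_le_not_ge] at hab ⊢
      refine ⟨?_, fun hba => hab.2 ?_⟩
      · have h1 : Specialization.ofEquiv b.1 ⤳ Specialization.ofEquiv a.1 := hab.1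
        rw [← hg a, ← hg b, hsp] at h1
        exact h1
      · have h1 : g a ≤ g b := hba
        rw [← hsp, hg a, hg b] at h1
        exact h1
    rw [Algz.codimPt]
    refine (Order.height_le_height_apply_of_strictMono G hG _).trans (le_of_eq ?_)
    have : G ⟨Specialization.toEquiv (e P), Specialization.toEquiv_le_toEquiv.mpr h⟩ = OrderDual.toDual P := by
      exact congrArg OrderDual.toDual (he.injective (hg _))
    rw [this]
    rfl
  have h2 : ((Order.coheight P : ℕ∞) : WithBot ℕ∞) = ringKrullDim (R ⧸ P.asIdeal) := by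
    rw [ringKrullDim_quotient, Order.coheight_eq_krullDim_Ici]
    have : PrimeSpectrum.zeroLocus (P.asIdeal : Set R) = Set.Ici P := by
      ext Q; rfl
    rw [this]
  rw [← h2]
  exact_mod_cast h1

theorem deltaZ_le_codim {Y : Type u} [TopologicalSpace Y] (Z : Set Y) (y z : Y) (h : y ⤳ z) (hz : z ∈ Z) :
    Algz.deltaZ Z y ≤ Algz.codimPt y z h := by
  let S : Algz.DSystem Z y 0 :=
    { v := fun _ => z
      w := fun _ => y
      spec := fun _ => h
      spec_succ := fun i => i.elim0
      start_mem := hz
      last_eq := rfl }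
  rw [Algz.deltaZ]
  refine le_trans (iInf_le_of_le (0 : ℕ) (iInf_le_of_le S (le_refl S.delta))) ?_
  rw [Algz.DSystem.delta, Nat.cast_zero, zero_add]
  refine Finset.sup_le fun i _ => ?_
  refine tsub_le_self.trans ?_
  refine (Finset.sum_le_sum_of_subset (Finset.filter_subset _ _)).trans ?_
  rw [Fin.sum_univ_one]
  exact le_rfl

/-- Let Y be a Noetherian scheme, Z ⊆ Y a closed subset, y a point of Y and z a point of Z lying in the
closure of y. Then δ_Z(y) is at most the dimension of the local ring at z of the closure of y with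
its reduced structure, that is, the Krull dimension of O_{Y,z}/𝔭 where 𝔭 is the prime ideal of the
local ring O_{Y,z} given by the point of Spec O_{Y,z} that maps to y. -/
theorem result (Y : Scheme.{u}) [IsNoetherian Y] (Z : Set Y) (hZ : IsClosed Z) (y z : Y) (h : y ⤳ z) (hz : z ∈ Z) (P : PrimeSpectrum (Y.presheaf.stalk z)) (hP : (Y.fromSpecStalk z).base P = y) : ((Algz.deltaZ Z y : ℕ∞) : WithBot ℕ∞) ≤ ringKrullDim (↥(Y.presheaf.stalk z) ⧸ P.asIdeal) := by
  subst hP
  have h1 := deltaZ_le_codim Z _ z h hz
  refine le_trans (WithBot.coe_le_coe.2 h1) ?_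
  refine codim_le_dim (fun Q => (Y.fromSpecStalk z).base Q) (Y.fromSpecStalk z).isEmbedding z ?_ P h
  intro x hx
  have : x ∈ Set.range (Y.fromSpecStalk z) := by
    rw [Scheme.range_fromSpecStalk]; exact hx
  exact this


end Groth.Agent.S8813
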