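import Groth.Statements.S8814
import Groth.Agent.S8816

set_option autoImplicit false
universe u
open CategoryTheory AlgebraicGeometry
open Algz

namespace Groth.Agent.S8814

section
variable {Y : Scheme.{u}} (δ : Y → ℤ) (hδ : Cyc.IsDimFun Y δ)
include hδ

theorem delta_mono {w v : Y} (h : w ⤳ v) : δ v ≤ δ w := by
  by_cases hne : w = v
  · rw [hne]
  · exact (hδ w v h hne).1.le

theorem codim_le (w v : Y) (h : w ⤳ v) : Algz.codimPt w v h ≤ (((δ w - δ v).toNat : ℕ) : ℕ∞) := by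
  rw [Algz.codimPt]
  apply Order.height_le
  intro p hp
  have hstrict : ∀ a b : Set.Ici (Specialization.toEquiv v), a < b →
      δ (Specialization.ofEquiv a.1) < δ (Specialization.ofEquiv b.1) := by
    intro a b hab
    have h1 : Specialization.ofEquiv b.1 ⤳ Specialization.ofEquiv a.1 := hab.le
    refine (hδ _ _ h1 ?_).1
    intro h2
    refine (lt_iff_le_not_ge.1 hab).2 ?_
    change Specialization.ofEquiv a.1 ⤳ Specialization.ofEquiv b.1
    rw [h2]
  have key : ∀ i : ℕ, ∀ hi : i < p.length + 1, δ v + i ≤ δ (Specialization.ofEquiv (p ⟨i, hi⟩).1) := by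
    intro i
    induction i with
    | zero =>
      intro hi
      have : Specialization.ofEquiv (p ⟨0, hi⟩).1 ⤳ v := (p ⟨0, hi⟩).2
      simpa using delta_mono δ hδ this
    | succ i ih =>
      intro hi
      have h1 := ih (by omega)
      have h2 := hstrict _ _ (p.strictMono (show (⟨i, by omega⟩ : Fin (p.length + 1)) < ⟨i + 1, hi⟩ by
        rw [Fin.lt_def]; simp))
      push_cast
      omega
  have h3 := key p.length (by omega)
  have h4 : p ⟨p.length, by omega⟩ = ⟨Specialization.toEquiv w, Specialization.toEquiv_le_toEquiv.mpr h⟩ := hp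
  rw [h4] at h3
  change δ v + p.length ≤ δ w at h3
  exact_mod_cast (by omega : p.length ≤ (δ w - δ v).toNat)

theorem le_codim (v : Y) : ∀ (m : ℕ) (w : Y) (h : w ⤳ v), δ w - δ v = m → (m : ℕ∞) ≤ Algz.codimPt w v h := by
  intro m
  induction m with
  | zero => intro w h _; simp
  | succ m ih =>
    intro w h hm
    have hne : w ≠ v := by rintro rfl; simp at hm; omega
    obtain ⟨ub, ⟨z, ⟨hwz, hzv, hzw⟩, hz⟩, hub⟩ := Int.exists_greatest_of_bdd
      (P := fun n => ∃ z : Y, (w ⤳ z ∧ z ⤳ v ∧ z ≠ w) ∧ δ z = n)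
      ⟨δ w, by rintro n ⟨z, ⟨h1, _, _⟩, rfl⟩; exact delta_mono δ hδ h1⟩
      ⟨δ v, v, ⟨h, specializes_rfl, hne.symm⟩, rfl⟩
    have himm := (hδ w z hwz hzw.symm).2 (by
      intro z' h1 h2
      by_contra hcon
      push Not at hcon
      have h3 := hub _ ⟨z', ⟨h1, h2.trans hzv, hcon.1⟩, rfl⟩
      have h4 := (hδ z' z h2 hcon.2).1
      omega)
    have h5 := ih z hzv (by push_cast at hm; omega)
    have hlt : (⟨Specialization.toEquiv z, Specialization.toEquiv_le_toEquiv.mpr hzv⟩ : Set.Ici (Specialization.toEquiv v)) <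
        ⟨Specialization.toEquiv w, Specialization.toEquiv_le_toEquiv.mpr h⟩ := by
      rw [lt_iff_le_not_ge]
      refine ⟨Specialization.toEquiv_le_toEquiv.mpr hwz, fun hge => ?_⟩
      have h6 : z ⤳ w := hge
      exact hzw (h6.antisymm hwz).eq
    have h7 := Order.height_add_one_le hlt
    rw [Algz.codimPt] at h5 ⊢
    push_cast
    exact (add_le_add h5 le_rfl).trans h7

end

/-- Let Y be a Noetherian scheme, Z ⊆ Y a closed subset and δ a dimension function on Y. If δ_Z(y) is a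
natural number n, then δ(y) ≤ n + δ(z) for some z ∈ Z; in other words δ(y) ≤ δ_Z(y) + δ_max with
δ_max the maximum of δ on Z. -/
theorem result (Y : Scheme.{u}) [IsNoetherian Y] (Z : Set Y) (hZ : IsClosed Z) (δ : Y → ℤ) (hδ : Cyc.IsDimFun Y δ) (y : Y) (n : ℕ) (hn : Algz.deltaZ Z y = n) : ∃ z ∈ Z, δ y ≤ n + δ z := by
  classical
  have hlt : Algz.deltaZ Z y < (n : ℕ∞) + 1 := by
    rw [hn]; exact_mod_cast Nat.lt_succ_self n
  rw [Algz.deltaZ, iInf_lt_iff] at hlt
  obtain ⟨k, hlt⟩ := hlt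
  rw [iInf_lt_iff] at hlt
  obtain ⟨S, hlt⟩ := hlt
  have hS := Order.le_of_lt_add_one hlt
  refine ⟨S.v 0, S.start_mem, ?_⟩
  rw [Algz.DSystem.delta] at hS
  have h1 : (∑ j : Fin (k + 1), S.c j) - ∑ j : Fin k, S.b j ≤ (n : ℕ∞) := by
    refine le_trans ?_ ((le_add_self).trans hS)
    refine le_trans ?_ (Finset.le_sup (f := fun i : Fin (k + 1) =>
    (∑ j ∈ Finset.univ.filter (fun j : Fin (k + 1) => i ≤ j), S.c j) -
      ∑ j ∈ Finset.univ.filter (fun j : Fin k => i.val ≤ j.val), S.b j) (Finset.mem_univ (0 : Fin (k + 1))))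
    apply le_of_eq
    congr 1
    · refine Finset.sum_congr ?_ fun _ _ => rfl
      ext j; simp
    · refine Finset.sum_congr ?_ fun _ _ => rfl
      ext j; simp
  rw [tsub_le_iff_right] at h1
  have h2 : (((∑ j : Fin (k + 1), (δ (S.w j) - δ (S.v j)).toNat : ℕ)) : ℕ∞) ≤ ∑ j : Fin (k + 1), S.c j := by
    push_cast
    refine Finset.sum_le_sum fun j _ => ?_
    refine le_codim δ hδ (S.v j) _ (S.w j) (S.spec j) ?_
    rw [Int.toNat_of_nonneg]
    have := delta_mono δ hδ (S.spec j)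
    omega
  have h3 : (∑ j : Fin k, S.b j) ≤ (((∑ j : Fin k, (δ (S.w j.castSucc) - δ (S.v j.succ)).toNat : ℕ)) : ℕ∞) := by
    push_cast
    refine Finset.sum_le_sum fun j _ => ?_
    exact codim_le δ hδ _ _ (S.spec_succ j)
  have h4 := (h2.trans h1).trans (add_le_add le_rfl h3)
  have h5 : (∑ j : Fin (k + 1), (δ (S.w j) - δ (S.v j)).toNat) ≤
    n + ∑ j : Fin k, (δ (S.w j.castSucc) - δ (S.v j.succ)).toNat := by exact_mod_cast h4
  have h6 : ((∑ j : Fin (k + 1), (δ (S.w j) - δ (S.v j)).toNat : ℕ) : ℤ) ≤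
    ((n + ∑ j : Fin k, (δ (S.w j.castSucc) - δ (S.v j.succ)).toNat : ℕ) : ℤ) := by exact_mod_cast h5
  push_cast at h6
  have h7 : ∀ j : Fin (k + 1), max (δ (S.w j) - δ (S.v j)) 0 = δ (S.w j) - δ (S.v j) := by
    intro j
    exact max_eq_left (by have := delta_mono δ hδ (S.spec j); omega)
  have h8 : ∀ j : Fin k, max (δ (S.w j.castSucc) - δ (S.v j.succ)) 0 = δ (S.w j.castSucc) - δ (S.v j.succ) := by
    intro j
    exact max_eq_left (by have := delta_mono δ hδ (S.spec_succ j); omega)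
  simp only [Int.ofNat_toNat, h7, h8, Finset.sum_sub_distrib] at h6
  rw [Fin.sum_univ_castSucc (fun j => δ (S.w j)), Fin.sum_univ_succ (fun j => δ (S.v j)), S.last_eq] at h6
  omega


end Groth.Agent.S8814
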