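import Groth.Statements.S8815
import Mathlib
import Groth.Agent.S8813
import Groth.Agent.S8814

set_option autoImplicit false
universe u
open CategoryTheory AlgebraicGeometry
open Algz

namespace Groth.Agent.S8815

theorem cov (A : Type u) [CommRing A] [IsNoetherianRing A] [IsLocalRing A] (hA : CAlg.IsCatenary A)
    (hfin : ∀ x : PrimeSpectrum A, Order.coheight x ≠ ⊤) (x y : PrimeSpectrum A) (hxy : x ⋖ y) :
    Order.coheight x = Order.coheight y + 1 := by
  have hser : ∀ z : PrimeSpectrum A, ∃ s : LTSeries (PrimeSpectrum A), s.head = z ∧ (s.length : ℕ∞) = Order.coheight z ∧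
      s.last = IsLocalRing.closedPoint A ∧ ∀ i : Fin s.length, s (Fin.castSucc i) ⋖ s (Fin.succ i) := by
    intro z
    obtain ⟨n, hn⟩ := ENat.ne_top_iff_exists.1 (hfin z)
    obtain ⟨s, hs, hsn⟩ := Order.exists_series_of_coheight_eq_coe z hn.symm
    have hlen : (s.length : ℕ∞) = Order.coheight s.head := by rw [hs, hsn, hn]
    have hidx := Order.coheight_eq_index_of_length_eq_head_coheight hlen
    refine ⟨s, hs, by rw [hlen, hs], ?_, ?_⟩
    · have h1 := hidx (Fin.last _)
      rw [Fin.rev_last] at h1
      have h2 : Order.coheight (s (Fin.last _)) = 0 := by rw [h1]; simp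
      rw [Order.coheight_eq_zero] at h2
      have h3 : s (Fin.last _) ≤ IsLocalRing.closedPoint A := IsLocalRing.le_maximalIdeal (s (Fin.last _)).2.ne_top
      exact le_antisymm h3 (h2 h3)
    · intro i
      refine ⟨s.strictMono (Fin.castSucc_lt_succ), fun c hc1 hc2 => ?_⟩
      have h1 := Order.coheight_add_one_le hc1
      have h2 := Order.coheight_add_one_le hc2
      rw [hidx] at h1 h2
      have h3 : (((i.succ).rev : ℕ) : ℕ∞) + 1 + 1 ≤ (((i.castSucc).rev : ℕ) : ℕ∞) := (add_le_add h2 le_rfl).trans h1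
      have h4 : ((i.succ).rev : ℕ) + 1 + 1 ≤ ((i.castSucc).rev : ℕ) := by exact_mod_cast h3
      simp only [Fin.val_rev, Fin.val_succ, Fin.val_castSucc] at h4
      have := i.2
      omega
  obtain ⟨s, hs, hsl, hsm, hsc⟩ := hser x
  obtain ⟨t, ht, htl, htm, htc⟩ := hser y
  let t' : LTSeries (PrimeSpectrum A) :=
    { length := t.length + 1
      toFun := Fin.cons x t.toFun
      step := by
        intro i
        refine Fin.cases ?_ (fun j => ?_) i
        · change (Fin.cons x t.toFun : Fin (t.length + 2) → PrimeSpectrum A) 0 < (Fin.cons x t.toFun : Fin (t.length + 2) → PrimeSpectrum A) (Fin.succ 0)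
          rw [Fin.cons_zero, Fin.cons_succ]
          have : t.toFun 0 = y := ht
          rw [this]; exact hxy.lt
        · change (Fin.cons x t.toFun : Fin (t.length + 2) → PrimeSpectrum A) (Fin.castSucc j).succ < (Fin.cons x t.toFun : Fin (t.length + 2) → PrimeSpectrum A) (Fin.succ j).succ
          rw [Fin.cons_succ, Fin.cons_succ]
          exact t.step j }
  have h1 := hA.2 s t' (by rw [hs]; rfl) (by
    rw [hsm, ← htm]
    change t.toFun (Fin.last _) = (Fin.cons x t.toFun : Fin (t.length + 2) → PrimeSpectrum A) (Fin.last _)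
    rw [← Fin.succ_last, Fin.cons_succ]) hsc (by
    intro i
    refine Fin.cases ?_ (fun j => ?_) i
    · change (Fin.cons x t.toFun : Fin (t.length + 2) → PrimeSpectrum A) 0 ⋖ (Fin.cons x t.toFun : Fin (t.length + 2) → PrimeSpectrum A) (Fin.succ 0)
      rw [Fin.cons_zero, Fin.cons_succ]
      have : t.toFun 0 = y := ht
      rw [this]; exact hxy
    · change (Fin.cons x t.toFun : Fin (t.length + 2) → PrimeSpectrum A) (Fin.castSucc j).succ ⋖ (Fin.cons x t.toFun : Fin (t.length + 2) → PrimeSpectrum A) (Fin.succ j).succ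
      rw [Fin.cons_succ, Fin.cons_succ]
      exact htc j)
  rw [← hsl, ← htl, h1]
  rfl

/-- Let A be a catenary Noetherian local ring, Y = Spec A and Z the closed point. Then δ_Z(y) equals the
dimension of the closure of y, i.e. dim(A/p_y), for every point y. -/
theorem result (A : Type u) [CommRing A] [IsNoetherianRing A] [IsLocalRing A] (hA : CAlg.IsCatenary A) (y : Spec (CommRingCat.of A)) : ((Algz.deltaZ ({IsLocalRing.closedPoint A} : Set (Spec (CommRingCat.of A))) y : ℕ∞) : WithBot ℕ∞) = ringKrullDim (A ⧸ y.asIdeal) := by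
  have hfin : ∀ x : PrimeSpectrum A, Order.coheight x ≠ ⊤ := by
    intro x hx
    have h1 := Order.coheight_le_krullDim x
    rw [hx] at h1
    exact (ringKrullDim_ne_top (R := A)) (top_le_iff.1 h1)
  have hdim : ringKrullDim (A ⧸ y.asIdeal) = ((Order.coheight (α := PrimeSpectrum A) y : ℕ∞) : WithBot ℕ∞) := by
    rw [ringKrullDim_quotient, Order.coheight_eq_krullDim_Ici]
    have : PrimeSpectrum.zeroLocus (y.asIdeal : Set A) = Set.Ici (α := PrimeSpectrum A) y := by
      ext Q; rfl
    rw [this]
  have hym : y ⤳ (IsLocalRing.closedPoint A : Spec (CommRingCat.of A)) :=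
    (PrimeSpectrum.le_iff_specializes (R := A) y (IsLocalRing.closedPoint A)).1 (IsLocalRing.le_maximalIdeal y.2.ne_top)
  apply le_antisymm
  · have h1 := Groth.Agent.S8813.deltaZ_le_codim ({IsLocalRing.closedPoint A} : Set (Spec (CommRingCat.of A))) y
      (IsLocalRing.closedPoint A) hym rfl
    refine le_trans (WithBot.coe_le_coe.2 h1) ?_
    exact Groth.Agent.S8813.codim_le_dim (R := A) (fun Q : PrimeSpectrum A => (Q : Spec (CommRingCat.of A)))
      Topology.IsEmbedding.id (IsLocalRing.closedPoint A) (fun x _ => ⟨x, rfl⟩) y hym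
  · rw [hdim]
    refine WithBot.coe_le_coe.2 ?_
    by_cases htop : Algz.deltaZ ({IsLocalRing.closedPoint A} : Set (Spec (CommRingCat.of A))) y = ⊤
    · rw [htop]; exact le_top
    obtain ⟨n, hn⟩ := ENat.ne_top_iff_exists.1 htop
    have hδ : Cyc.IsDimFun (Spec (CommRingCat.of A)) (fun x => (((Order.coheight (α := PrimeSpectrum A) x).toNat : ℕ) : ℤ)) := by
      intro x z hxz hne
      have hle : @LE.le (PrimeSpectrum A) _ x z := (PrimeSpectrum.le_iff_specializes (R := A) x z).2 hxz
      have hlt : @LT.lt (PrimeSpectrum A) _ x z := lt_of_le_of_ne hle hne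
      constructor
      · have h1 := Order.coheight_add_one_le hlt
        obtain ⟨a, ha⟩ := ENat.ne_top_iff_exists.1 (hfin x)
        obtain ⟨b, hb⟩ := ENat.ne_top_iff_exists.1 (hfin z)
        rw [← ha, ← hb] at h1
        have h2 : b + 1 ≤ a := by exact_mod_cast h1
        change (((Order.coheight (α := PrimeSpectrum A) z).toNat : ℕ) : ℤ) < (((Order.coheight (α := PrimeSpectrum A) x).toNat : ℕ) : ℤ)
        rw [← ha, ← hb, ENat.toNat_coe, ENat.toNat_coe]
        omega
      · intro himm
        have hcov : @CovBy (PrimeSpectrum A) _ x z := by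
          refine ⟨hlt, fun c hc1 hc2 => ?_⟩
          rcases himm c ((PrimeSpectrum.le_iff_specializes (R := A) x c).1 hc1.le)
            ((PrimeSpectrum.le_iff_specializes (R := A) c z).1 hc2.le) with h | h
          · exact hc1.ne h.symm
          · exact hc2.ne h
        have h1 := cov A hA hfin x z hcov
        change (((Order.coheight (α := PrimeSpectrum A) x).toNat : ℕ) : ℤ) = (((Order.coheight (α := PrimeSpectrum A) z).toNat : ℕ) : ℤ) + 1
        obtain ⟨b, hb⟩ := ENat.ne_top_iff_exists.1 (hfin z)
        rw [h1, ← hb]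
        norm_cast
    have hcl : IsClosed ({IsLocalRing.closedPoint A} : Set (Spec (CommRingCat.of A))) :=
      IsLocalRing.isClosed_singleton_closedPoint A
    haveI : IsNoetherian (Spec (CommRingCat.of A)) := inferInstance
    obtain ⟨z, hz, hle⟩ := Groth.Agent.S8814.result (Spec (CommRingCat.of A)) _ hcl _ hδ y n hn.symm
    have hz' : z = (IsLocalRing.closedPoint A : PrimeSpectrum A) := hz
    subst hz'
    have h0 : Order.coheight (α := PrimeSpectrum A) (IsLocalRing.closedPoint A) = 0 := by
      rw [Order.coheight_eq_zero]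
      intro c _
      exact IsLocalRing.le_maximalIdeal c.2.ne_top
    change (((Order.coheight (α := PrimeSpectrum A) y).toNat : ℕ) : ℤ) ≤ n + (((Order.coheight (α := PrimeSpectrum A) (IsLocalRing.closedPoint A)).toNat : ℕ) : ℤ) at hle
    rw [h0] at hle
    obtain ⟨b, hb⟩ := ENat.ne_top_iff_exists.1 (hfin y)
    rw [← hn, ← hb]
    rw [← hb, ENat.toNat_coe] at hle
    have hle' : (b : ℤ) ≤ n + ((ENat.toNat 0 : ℕ) : ℤ) := hle
    have h00 : ENat.toNat 0 = 0 := rfl
    rw [h00] at hle'
    have hle2 : b ≤ n := by omega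
    exact_mod_cast hle2


end Groth.Agent.S8815
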