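import Groth.Statements.S8817


set_option autoImplicit false
universe u
open CategoryTheory AlgebraicGeometry
open Algz

namespace Groth.Agent.S8817

theorem codim_open {X Y : Type u} [TopologicalSpace X] [TopologicalSpace Y] (e : X → Y)
    (he : Topology.IsOpenEmbedding e) (w v : X) (h : w ⤳ v) (h' : e w ⤳ e v) :
    Algz.codimPt (e w) (e v) h' = Algz.codimPt w v h := by
  rw [Algz.codimPt, Algz.codimPt]
  apply le_antisymm
  · have hg : ∀ x : Set.Ici (Specialization.toEquiv (e v)), ∃ z : X, e z = Specialization.ofEquiv x.1 := by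
      intro x
      have h1 : Specialization.ofEquiv x.1 ⤳ e v := x.2
      exact h1.mem_open he.isOpen_range ⟨v, rfl⟩
    choose g hg using hg
    have hsp : ∀ a b : X, e a ⤳ e b ↔ a ⤳ b := fun a b => he.isInducing.specializes_iff
    let G : Set.Ici (Specialization.toEquiv (e v)) → Set.Ici (Specialization.toEquiv v) := fun x =>
      ⟨Specialization.toEquiv (g x), by
        have h1 : Specialization.ofEquiv x.1 ⤳ e v := x.2
        rw [← hg x, hsp] at h1
        exact h1⟩
    have hG : StrictMono G := by
      intro a b hab
      rw [lt_iff_le_not_ge] at hab ⊢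
      refine ⟨?_, fun hba => hab.2 ?_⟩
      · have h1 : Specialization.ofEquiv b.1 ⤳ Specialization.ofEquiv a.1 := hab.1
        rw [← hg a, ← hg b, hsp] at h1
        exact h1
      · have h1 : g a ⤳ g b := hba
        rw [← hsp, hg a, hg b] at h1
        exact h1
    refine (Order.height_le_height_apply_of_strictMono G hG _).trans (le_of_eq ?_)
    congr 1
    refine Subtype.ext ?_
    exact he.injective (hg _)
  · let f : Set.Ici (Specialization.toEquiv v) → Set.Ici (Specialization.toEquiv (e v)) := fun x =>
      ⟨Specialization.toEquiv (e (Specialization.ofEquiv x.1)), by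
        have h1 : Specialization.ofEquiv x.1 ⤳ v := x.2
        exact h1.map he.continuous⟩
    have hf : StrictMono f := by
      intro a b hab
      rw [lt_iff_le_not_ge] at hab ⊢
      refine ⟨?_, fun hba => hab.2 ?_⟩
      · have h1 : Specialization.ofEquiv b.1 ⤳ Specialization.ofEquiv a.1 := hab.1
        exact h1.map he.continuous
      · have h1 : e (Specialization.ofEquiv a.1) ⤳ e (Specialization.ofEquiv b.1) := hba
        rw [he.isInducing.specializes_iff] at h1
        exact h1
    exact Order.height_le_height_apply_of_strictMono f hf _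

theorem deltaZ_open {X Y : Type u} [TopologicalSpace X] [TopologicalSpace Y] (e : X → Y)
    (he : Topology.IsOpenEmbedding e) (Z : Set Y) (y : X) : Algz.deltaZ Z (e y) ≤ Algz.deltaZ (e ⁻¹' Z) y := by
  rw [Algz.deltaZ, Algz.deltaZ]
  refine le_iInf fun k => le_iInf fun S => ?_
  let S' : Algz.DSystem Z (e y) k :=
    { v := fun i => e (S.v i)
      w := fun i => e (S.w i)
      spec := fun i => (S.spec i).map he.continuous
      spec_succ := fun i => (S.spec_succ i).map he.continuous
      start_mem := S.start_mem
      last_eq := congrArg e S.last_eq }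
  refine (iInf_le_of_le k (iInf_le_of_le S' le_rfl)).trans (le_of_eq ?_)
  have hc : ∀ i, S'.c i = S.c i := fun i => codim_open e he _ _ _ _
  have hb : ∀ i, S'.b i = S.b i := fun i => codim_open e he _ _ _ _
  rw [Algz.DSystem.delta, Algz.DSystem.delta]
  simp only [hc, hb]

/-- Let Y be a Noetherian scheme, Z ⊆ Y a closed subset and Y' ⊆ Y an open subscheme. For a point y' of
Y' the distance function of Y' relative to Y' ∩ Z at y' is at least the distance function of Y
relative to Z at y'. -/
theorem result (Y : Scheme.{u}) [IsNoetherian Y] (Z : Set Y) (hZ : IsClosed Z) (Y' : Y.Opens) (y' : (↑Y' : Scheme.{u})) : Algz.deltaZ Z (Y'.ι.base y') ≤ Algz.deltaZ ((fun x : (↑Y' : Scheme.{u}) => Y'.ι.base x) ⁻¹' Z) y' := by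
  exact deltaZ_open (fun x : (↑Y' : Scheme.{u}) => Y'.ι.base x) Y'.ι.isOpenEmbedding Z y'


end Groth.Agent.S8817
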