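import Groth.Statements.S8854
import Mathlib

set_option autoImplicit false
universe u
open SDiv

namespace Groth.Agent.S8854

theorem aux (R : Type u) [CommRing R] [IsDomain R] [IsNoetherianRing R]
    [UniqueFactorizationMonoid R] (I : Ideal R) :
    (∀ p : Ideal R, p ∈ associatedPrimes R (R ⧸ I) → p.height = 1) → ∃ f : R, I = Ideal.span {f} := by
  induction I using IsNoetherian.induction with
  | hgt I ih =>
    intro h
    by_cases htop : I = ⊤
    · exact ⟨1, by rw [htop, Ideal.span_singleton_one]⟩
    by_cases hbot : I = ⊥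
    · exact ⟨0, by rw [hbot]; simp⟩
    have : Nontrivial (R ⧸ I) := Ideal.Quotient.nontrivial_iff.2 htop
    obtain ⟨p, hp⟩ := associatedPrimes.nonempty R (R ⧸ I)
    have hpp : p.IsPrime := IsAssociatedPrime.isPrime hp
    have hp1 := h p hp
    obtain ⟨π, hπ⟩ := (UniqueFactorizationMonoid.isPrincipal_of_height_eq_one hp1).principal
    have hIp : I ≤ p := by
      have h2 := IsAssociatedPrime.annihilator_le hp
      intro x hx
      apply h2
      rw [Submodule.mem_annihilator]
      rintro n -
      obtain ⟨r, rfl⟩ := Ideal.Quotient.mk_surjective n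
      rw [← Ideal.Quotient.mk_eq_mk, ← Submodule.Quotient.mk_smul]
      exact (Submodule.Quotient.mk_eq_zero _).2 (Ideal.mul_mem_right _ I hx)
    have hπ0 : π ≠ 0 := by
      rintro rfl
      have : p = ⊥ := by rw [hπ]; simp
      exact Ideal.ne_bot_of_height_eq_one hp1 this
    set J : Ideal R := Submodule.comap (LinearMap.mulLeft R π) I with hJ
    have hIJ : I ≤ J := fun x hx => by
      rw [hJ, Submodule.mem_comap, LinearMap.mulLeft_apply]
      exact Ideal.mul_mem_left I _ hx
    have hIπ : ∀ x ∈ I, ∃ y ∈ J, x = π * y := by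
      intro x hx
      have hx' := hIp hx
      rw [hπ] at hx'
      obtain ⟨y, rfl⟩ := Ideal.mem_span_singleton'.1 hx'
      exact ⟨y, by rw [hJ, Submodule.mem_comap, LinearMap.mulLeft_apply, mul_comm]; exact hx, mul_comm _ _⟩
    have hne : J ≠ I := by
      intro hJI
      apply hbot
      have h3 : ∀ n : ℕ, I ≤ (Ideal.span {π}) ^ n := by
        intro n
        induction n with
        | zero => simp
        | succ n ihn =>
          intro x hx
          obtain ⟨y, hy, rfl⟩ := hIπ x hx
          rw [hJI] at hy
          rw [pow_succ, mul_comm π y]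
          exact Ideal.mul_mem_mul (ihn hy) (Ideal.mem_span_singleton_self π)
      have h4 : I ≤ ⨅ n : ℕ, (Ideal.span {π}) ^ n := le_iInf h3
      rw [Ideal.iInf_pow_eq_bot_of_isDomain] at h4
      · exact le_bot_iff.1 h4
      · intro h5
        apply hpp.ne_top
        rw [hπ]; exact h5
    have hlt : I < J := lt_of_le_of_ne hIJ (Ne.symm hne)
    have hJass : ∀ q : Ideal R, q ∈ associatedPrimes R (R ⧸ J) → q.height = 1 := by
      intro q hq
      apply h q
      refine associatedPrimes.subset_of_injective (f := Submodule.mapQ J I (LinearMap.mulLeft R π) le_rfl) ?_ hq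
      rw [← LinearMap.ker_eq_bot, Submodule.mapQ, Submodule.ker_liftQ]
      rw [LinearMap.ker_comp, Submodule.ker_mkQ]
      rw [← hJ]
      exact Submodule.mkQ_map_self J
    obtain ⟨g, hg⟩ := ih J hlt hJass
    refine ⟨π * g, le_antisymm ?_ ?_⟩
    · intro x hx
      obtain ⟨y, hy, rfl⟩ := hIπ x hx
      rw [hg] at hy
      obtain ⟨z, rfl⟩ := Ideal.mem_span_singleton'.1 hy
      exact Ideal.mem_span_singleton'.2 ⟨z, by ring⟩
    · rw [Ideal.span_singleton_le_iff_mem]
      have : g ∈ J := by rw [hg]; exact Ideal.mem_span_singleton_self g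
      exact this


/-- Let R be a Noetherian unique factorisation domain and I ⊆ R an ideal such that every associated
prime of R/I is minimal over I (R/I has no embedded primes) and every prime minimal over I has
height 1. Then I is principal: it is generated by one element. -/
theorem result (R : Type u) [CommRing R] [IsDomain R] [IsNoetherianRing R]
    [UniqueFactorizationMonoid R] (I : Ideal R)
    (h1 : ∀ p : Ideal R, p ∈ associatedPrimes R (R ⧸ I) → p ∈ I.minimalPrimes)
    (h2 : ∀ p : Ideal R, p ∈ I.minimalPrimes → p.height = 1) :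
    ∃ f : R, I = Ideal.span {f} := by
  exact aux R I fun p hp => h2 p (h1 p hp)


end Groth.Agent.S8854
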