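import Groth.Statements.S8924
import Mathlib

set_option autoImplicit false
universe u v
open InjHull

namespace Groth.Agent.S8924

/-- For a submodule M of an R-module N, the inclusion of M into N is an essential injection if and only
if every nonzero element x of N has a multiple f • x which is a nonzero element of M. -/
theorem result (R : Type u) [CommRing R] (N : Type v) [AddCommGroup N] [Module R N] (M : Submodule R N) : InjHull.IsEssentialInj M.subtype ↔ ∀ x : N, x ≠ 0 → ∃ f : R, f • x ∈ M ∧ f • x ≠ 0 := by
  constructor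
  · intro h x hx
    have h1 := h.essential (Submodule.span R {x}) (by simpa using hx)
    obtain ⟨y, hy, hy0⟩ := (Submodule.ne_bot_iff _).1 h1
    obtain ⟨hy1, hy2⟩ := Submodule.mem_inf.1 hy
    obtain ⟨f, rfl⟩ := Submodule.mem_span_singleton.1 hy1
    refine ⟨f, ?_, hy0⟩
    simpa using hy2
  · intro h
    refine ⟨Submodule.injective_subtype M, fun N' hN' => ?_⟩
    obtain ⟨x, hx, hx0⟩ := (Submodule.ne_bot_iff _).1 hN'
    obtain ⟨f, hf1, hf2⟩ := h x hx0
    refine (Submodule.ne_bot_iff _).2 ⟨f • x, Submodule.mem_inf.2 ⟨N'.smul_mem f hx, by simpa using hf1⟩, hf2⟩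


end Groth.Agent.S8924
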