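import Groth.Statements.S8925
import Mathlib

set_option autoImplicit false
universe u
open InjHull

namespace Groth.Agent.S8925

/-- If S is a flat R-algebra and E is an injective S-module, then E, viewed as an R-module by
restriction of scalars, is an injective R-module. -/
theorem result (R S : Type u) [CommRing R] [CommRing S] [Algebra R S] [Module.Flat R S] (E : Type u) [AddCommGroup E] [Module S E] [Module R E] [IsScalarTower R S E] [Module.Injective S E] : Module.Injective R E := by
  refine ⟨fun X Y _ _ _ _ f hf g => ?_⟩
  have h1 : Function.Injective (f.baseChange S) := Module.Flat.lTensor_preserves_injective_linearMap (M := S) f hf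
  obtain ⟨h, hh⟩ := Module.Injective.out (R := S) (Q := E) (f.baseChange S) h1 (g.liftBaseChange S)
  refine ⟨(h.restrictScalars R) ∘ₗ (TensorProduct.mk R S Y 1), fun x => ?_⟩
  have h2 := hh (1 ⊗ₜ x)
  rw [LinearMap.baseChange_tmul, LinearMap.liftBaseChange_tmul, one_smul] at h2
  exact h2


end Groth.Agent.S8925
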