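import Groth.Statements.S8926
import Mathlib

set_option autoImplicit false
universe u
open InjHull

namespace Groth.Agent.S8926

/-- Suppose R → S is an epimorphism of rings and E is an S-module whose underlying R-module (via
restriction of scalars) is injective; then E is injective as an S-module as well. -/
theorem result (R S : Type u) [CommRing R] [CommRing S] [Algebra R S] [Algebra.IsEpi R S] (E : Type u) [AddCommGroup E] [Module S E] [Module R E] [IsScalarTower R S E] [Module.Injective R E] : Module.Injective S E := by
  refine ⟨fun X Y _ _ _ _ f hf g => ?_⟩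
  letI : Module R X := Module.compHom X (algebraMap R S)
  letI : Module R Y := Module.compHom Y (algebraMap R S)
  haveI : IsScalarTower R S X := ⟨fun r s x => by
    rw [Algebra.smul_def, mul_smul]; rfl⟩
  haveI : IsScalarTower R S Y := ⟨fun r s x => by
    rw [Algebra.smul_def, mul_smul]; rfl⟩
  haveI : SMulCommClass R S E := IsScalarTower.to_smulCommClass
  obtain ⟨h, hh⟩ := Module.Injective.out (R := R) (Q := E) (f.restrictScalars R) hf (g.restrictScalars R)
  have hlin : ∀ (s : S) (y : Y), h (s • y) = s • h y := by
    intro s y
    let B : S →ₗ[R] S →ₗ[R] E := LinearMap.mk₂ R (fun a b => a • h (b • y))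
      (fun a b c => add_smul _ _ _) (fun c a b => smul_assoc _ _ _)
      (fun a b c => by rw [add_smul, map_add, smul_add])
      (fun c a b => by rw [smul_assoc, map_smul, smul_comm])
    have h1 := (Algebra.isEpi_iff_forall_one_tmul_eq R S).1 inferInstance s
    have h2 := congrArg (TensorProduct.lift B) h1
    rw [TensorProduct.lift.tmul, TensorProduct.lift.tmul] at h2
    change (1 : S) • h (s • y) = s • h ((1 : S) • y) at h2
    rwa [one_smul, one_smul] at h2
  exact ⟨{ toFun := h, map_add' := map_add h, map_smul' := hlin }, hh⟩


end Groth.Agent.S8926
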