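import Groth.Statements.S8927
import Mathlib

set_option autoImplicit false
universe u
open Disc

namespace Groth.Agent.S8927

/-- For a map A → B of Noetherian rings such that the localization B_q is flat over A for every
associated prime q of B, every nonzerodivisor of A maps to a nonzerodivisor of B. -/
theorem result (A B : Type u) [CommRing A] [CommRing B] [IsNoetherianRing A] [IsNoetherianRing B] [Algebra A B] (h3 : ∀ (q : Ideal B) [q.IsPrime], IsAssociatedPrime q B → Module.Flat A (Localization.AtPrime q)) : nonZeroDivisors A ≤ (nonZeroDivisors B).comap (algebraMap A B) := by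
  intro a ha
  rw [Submonoid.mem_comap, mem_nonZeroDivisors_iff_right]
  intro b hb
  by_contra hb0
  obtain ⟨q, hq, hle⟩ := exists_le_isAssociatedPrime_of_isNoetherianRing B b hb0
  haveI := hq.isPrime
  haveI := h3 q hq
  have h1 : IsSMulRegular A a := fun x y hxy => by
    have h2 : a * x = a * y := hxy
    have h4 : (x - y) * a = 0 := by linear_combination h2
    exact sub_eq_zero.1 ((mem_nonZeroDivisors_iff_right.1 ha) _ h4)
  have h2 : IsSMulRegular (Localization.AtPrime q) (algebraMap A (Localization.AtPrime q) a) := h1.of_flat
  have h4 : algebraMap B (Localization.AtPrime q) b = 0 := by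
    apply h2
    change algebraMap A (Localization.AtPrime q) a • _ = algebraMap A (Localization.AtPrime q) a • _
    rw [smul_zero, smul_eq_mul, IsScalarTower.algebraMap_apply A B (Localization.AtPrime q), ← map_mul,
      mul_comm, hb, map_zero]
  rw [IsLocalization.map_eq_zero_iff q.primeCompl] at h4
  obtain ⟨s, hs⟩ := h4
  apply s.2
  apply hle
  rw [Submodule.mem_colon_singleton]
  simpa using hs


end Groth.Agent.S8927
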