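import Groth.Statements.S8936
import Mathlib

set_option autoImplicit false
universe u v
open InjHull

namespace Groth.Agent.S8936

/-- For a directed system (E_i) of R-modules over a nonempty directed preorder and a compatible family
of essential injections M → E_i, the induced map from M to the direct limit of the E_i is an
essential injection. -/
theorem result (R : Type u) [CommRing R] (ι : Type v) [Preorder ι] [IsDirectedOrder ι] [DecidableEq ι] (i₀ : ι) (E : ι → Type v) [∀ i, AddCommGroup (E i)] [∀ i, Module R (E i)] (f : ∀ i j, i ≤ j → E i →ₗ[R] E j) [DirectedSystem E fun i j h => f i j h] (M : Type v) [AddCommGroup M] [Module R M] (g : ∀ i, M →ₗ[R] E i) (hg : ∀ i j (h : i ≤ j), f i j h ∘ₗ g i = g j) (he : ∀ i, InjHull.IsEssentialInj (g i)) : InjHull.IsEssentialInj (Module.DirectLimit.of R ι E f i₀ ∘ₗ g i₀) := by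
  have hof : ∀ i (m : M), Module.DirectLimit.of R ι E f i (g i m) = Module.DirectLimit.of R ι E f i₀ (g i₀ m) := by
    intro i m
    obtain ⟨j, hij, hj⟩ := exists_ge_ge i i₀
    rw [← Module.DirectLimit.of_f (hij := hij), ← Module.DirectLimit.of_f (hij := hj)]
    have h1 := LinearMap.congr_fun (hg i j hij) m
    have h2 := LinearMap.congr_fun (hg i₀ j hj) m
    simp only [LinearMap.comp_apply] at h1 h2
    rw [h1, h2]
  have hinj : Function.Injective (Module.DirectLimit.of R ι E f i₀ ∘ₗ g i₀) := by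
    rw [← LinearMap.ker_eq_bot, LinearMap.ker_eq_bot']
    intro m hm
    obtain ⟨j, hj, hj'⟩ := Module.DirectLimit.of.zero_exact hm
    have h1 := LinearMap.congr_fun (hg i₀ j hj) m
    simp only [LinearMap.comp_apply] at h1
    rw [hj'] at h1
    exact (he j).injective (by rw [← h1, map_zero])
  refine ⟨hinj, fun N hN => ?_⟩
  obtain ⟨x, hx, hx0⟩ := (Submodule.ne_bot_iff _).1 hN
  haveI : Nonempty ι := ⟨i₀⟩
  obtain ⟨i, y, rfl⟩ := Module.DirectLimit.exists_of x
  have hN' : N.comap (Module.DirectLimit.of R ι E f i) ≠ ⊥ := by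
    refine (Submodule.ne_bot_iff _).2 ⟨y, hx, fun h => hx0 (by rw [h, map_zero])⟩
  obtain ⟨z, hz, hz0⟩ := (Submodule.ne_bot_iff _).1 ((he i).essential _ hN')
  obtain ⟨hz1, m, rfl⟩ := Submodule.mem_inf.1 hz
  refine (Submodule.ne_bot_iff _).2 ⟨Module.DirectLimit.of R ι E f i (g i m),
    Submodule.mem_inf.2 ⟨hz1, ⟨m, (hof i m).symm⟩⟩, ?_⟩
  rw [hof]
  intro h0
  have : m = 0 := hinj (by rw [map_zero]; exact h0)
  exact hz0 (by rw [this, map_zero])


end Groth.Agent.S8936
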