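import Groth.Statements.S8974
import Mathlib

set_option autoImplicit false
universe u
open Synt

namespace Groth.Agent.S8974

/-- Let R be a ring, n, d ≥ 1 and g_1, …, g_n ∈ R[y_1, …, y_n] of total degree at most d. Then there is
a ring map φ : A = ℤ[a_{i,E}] → R (E running over exponent vectors with |E| ≤ d) such that applying
φ to the coefficients of the universal polynomial f_i = Σ_E a_{i,E} x^E gives g_i for each i. (The
published statement is for a locally quasi-finite syntomic morphism of schemes and asserts, locally,
a cartesian square with the universal family; this row is its affine core: the coefficient map.) -/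
theorem result (R : Type u) [CommRing R] (n d : ℕ) (hn : 1 ≤ n) (hd : 1 ≤ d) (g : Fin n → MvPolynomial (Fin n) R) (hg : ∀ i, (g i).totalDegree ≤ d) : ∃ φ : Synt.UnivBase n d →+* R, ∀ i, MvPolynomial.map φ (Synt.univPoly n d i) = g i := by
  classical
  refine ⟨MvPolynomial.eval₂Hom (Int.castRingHom R) (fun iE => MvPolynomial.coeff iE.2.exponent (g iE.1)), fun i => ?_⟩
  rw [Synt.univPoly, map_sum]
  ext m
  rw [MvPolynomial.coeff_sum]
  simp only [MvPolynomial.map_monomial, MvPolynomial.coeff_monomial, MvPolynomial.eval₂Hom_X']
  by_cases hm : ∑ j, m j ≤ d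
  · have hmj : ∀ j, m j < d + 1 := fun j =>
      Nat.lt_succ_of_le ((Finset.single_le_sum (f := fun j => m j) (fun _ _ => Nat.zero_le _) (Finset.mem_univ j)).trans hm)
    let E₀ : Synt.UnivIdx n d := ⟨fun j => ⟨m j, hmj j⟩, by simpa using hm⟩
    have hE₀ : E₀.exponent = m := by
      ext j; rfl
    rw [Finset.sum_eq_single E₀]
    · rw [if_pos hE₀, hE₀]
    · intro E _ hE
      rw [if_neg]
      intro h
      apply hE
      refine Subtype.ext (funext fun j => Fin.ext ?_)
      have := DFunLike.congr_fun h j
      exact this
    · intro h; exact absurd (Finset.mem_univ _) h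
  · rw [MvPolynomial.coeff_eq_zero_of_totalDegree_lt]
    · refine Finset.sum_eq_zero fun E _ => ?_
      rw [if_neg]
      rintro rfl
      exact hm E.2
    · refine lt_of_le_of_lt (hg i) (lt_of_lt_of_le (not_le.1 hm) (le_of_eq ?_))
      exact (Finset.sum_subset (Finset.subset_univ _) (fun j _ hj => Finsupp.notMem_support_iff.1 hj)).symm


end Groth.Agent.S8974
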