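import Groth.Statements.S8992
import Mathlib

set_option autoImplicit false
universe u
open HTop

namespace Groth.Agent.S8992

/-- An algebra over the prime field with p elements is absolutely weakly normal exactly when its p-th
power map is bijective (the algebra is perfect). -/
theorem result (p : ℕ) [Fact p.Prime] (A : Type u) [CommRing A] [Algebra (ZMod p) A] : HTop.IsAWNRing A ↔ PerfectRing A p := by
  have hp := (Fact.out : p.Prime)
  have hp2 := hp.two_le
  have hpA : (p : A) = 0 := by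
    have := map_natCast (algebraMap (ZMod p) A) p
    rw [CharP.cast_eq_zero, map_zero] at this
    exact this.symm
  constructor
  · intro h
    have key := fun x => h.2 p hp x 0 (by rw [hpA, zero_pow hp.ne_zero, zero_mul])
    refine ⟨⟨fun a b hab => ?_, fun x => ?_⟩⟩
    · have hab' : a ^ p = b ^ p := hab
      exact (key (a ^ p)).unique ⟨rfl, by rw [hpA, zero_mul]⟩ ⟨hab', by rw [hpA, zero_mul]⟩
    · obtain ⟨a, ⟨ha, _⟩, _⟩ := key x
      exact ⟨a, ha.symm⟩
  · intro h
    have hinj : ∀ a b : A, a ^ p = b ^ p → a = b := fun a b hab => h.bijective_frobenius.1 hab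
    have hsurj : ∀ x : A, ∃ a : A, a ^ p = x := fun x => h.bijective_frobenius.2 x
    have hred : ∀ z : A, z ^ 3 = 0 → z = 0 := by
      intro z hz
      apply hinj
      apply hinj
      rw [zero_pow hp.ne_zero, zero_pow hp.ne_zero, ← pow_mul]
      have h4 : 3 ≤ p * p := by nlinarith
      rw [← Nat.add_sub_cancel' h4, pow_add, hz, zero_mul]
    refine ⟨fun x y hxy => ?_, fun l hl x y hxy => ?_⟩
    · obtain ⟨m, n, hmn⟩ : ∃ m n, 2 * m + 3 * n = p := by
        rcases hp.eq_two_or_odd with h2 | h2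
        · exact ⟨1, 0, by omega⟩
        · exact ⟨(p - 3) / 2, 1, by omega⟩
      obtain ⟨a, ha⟩ := hsurj (x ^ m * y ^ n)
      have h2 : a ^ 2 = x := hinj _ _ (by
        calc (a ^ 2) ^ p = (a ^ p) ^ 2 := by rw [← pow_mul, ← pow_mul, mul_comm]
          _ = x ^ (2 * m) * (y ^ 2) ^ n := by rw [ha]; ring
          _ = x ^ (2 * m + 3 * n) := by rw [← hxy]; ring
          _ = x ^ p := by rw [hmn])
      have h3 : a ^ 3 = y := hinj _ _ (by
        calc (a ^ 3) ^ p = (a ^ p) ^ 3 := by rw [← pow_mul, ← pow_mul, mul_comm]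
          _ = (x ^ 3) ^ m * y ^ (3 * n) := by rw [ha]; ring
          _ = y ^ (2 * m + 3 * n) := by rw [hxy]; ring
          _ = y ^ p := by rw [hmn])
      refine ⟨a, ⟨h2.symm, h3.symm⟩, ?_⟩
      rintro b ⟨hb2, hb3⟩
      have e1 : b ^ 2 = a ^ 2 := by rw [h2, ← hb2]
      have e2 : b ^ 3 = a ^ 3 := by rw [h3, ← hb3]
      have h5 : (b - a) ^ 3 = 0 := by linear_combination (-3 * a - 3 * b) * e1 + 4 * e2
      exact sub_eq_zero.1 (hred _ h5)
    · by_cases hlp : l = p
      · subst hlp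
        have hy : y = 0 := hinj _ _ (by rw [← hxy, hpA, zero_pow hp.ne_zero, zero_mul])
        obtain ⟨a, ha⟩ := hsurj x
        exact ⟨a, ⟨ha.symm, by rw [hy, hpA, zero_mul]⟩, fun b hb => hinj _ _ (by rw [← hb.1, ha])⟩
      · have hu0 : IsUnit ((l : ℕ) : ZMod p) := (ZMod.isUnit_iff_coprime l p).2 ((Nat.coprime_primes hl hp).2 hlp)
        have hu1 := hu0.map (algebraMap (ZMod p) A)
        rw [map_natCast] at hu1
        obtain ⟨u, hu⟩ := hu1
        refine ⟨(↑u⁻¹ : A) * y, ⟨?_, ?_⟩, ?_⟩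
        · rw [mul_pow, ← hxy, ← hu, ← mul_assoc, ← mul_pow, Units.inv_mul, one_pow, one_mul]
        · rw [← hu, ← mul_assoc, Units.mul_inv, one_mul]
        · rintro b ⟨_, hb⟩
          rw [hb, ← hu, ← mul_assoc, Units.inv_mul, one_mul]


end Groth.Agent.S8992
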