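import Groth.Statements.S9124
import Groth.Agent.Lib.Helper14_Cat

set_option autoImplicit false
universe u
open CAlg

namespace Groth.Agent.S9124

open Groth.Agent.H14

/-- A localization of a catenary ring is catenary. -/
theorem result (A : Type u) [CommRing A] (S : Submonoid A)
    (B : Type u) [CommRing B] [Algebra A B] [IsLocalization S B]
    (hA : CAlg.IsCatenary A) : CAlg.IsCatenary B := by
  exact catenary_localization A S B hA

end Groth.Agent.S9124
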