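import Groth.Statements.S9125
import Groth.Agent.Lib.Helper14_Cat

set_option autoImplicit false
universe u
open CAlg

namespace Groth.Agent.S9125

open Groth.Agent.H14

/-- A quotient of a catenary ring is catenary. -/
theorem result (A : Type u) [CommRing A] (I : Ideal A)
    (hA : CAlg.IsCatenary A) : CAlg.IsCatenary (A ⧸ I) := by
  exact catenary_quotient I hA

end Groth.Agent.S9125
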