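import Groth.Statements.S9126
import Groth.Agent.Lib.Helper14_Cat

set_option autoImplicit false
universe u
open CAlg

namespace Groth.Agent.S9126

open Groth.Agent.H14

/-- An algebra essentially of finite type over a Noetherian universally catenary ring is universally
catenary. -/
theorem result (A : Type u) [CommRing A] (B : Type u) [CommRing B]
    [Algebra A B] [Algebra.EssFiniteType A B]
    (hA : CAlg.IsUniversallyCatenary A) : CAlg.IsUniversallyCatenary B := by
  have hN : IsNoetherianRing A := hA.1
  refine ⟨Algebra.EssFiniteType.isNoetherianRing A B, ?_⟩
  intro S _ _ hS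
  letI : Algebra A S := ((algebraMap B S).comp (algebraMap A B)).toAlgebra
  have : IsScalarTower A B S := IsScalarTower.of_algebraMap_eq' rfl
  have : Algebra.EssFiniteType B S := inferInstance
  have : Algebra.EssFiniteType A S := Algebra.EssFiniteType.comp A B S
  have h1 : CAlg.IsCatenary (Algebra.EssFiniteType.subalgebra A S) := hA.2 _ inferInstance
  exact catenary_localization _ (Algebra.EssFiniteType.submonoid A S) S h1

end Groth.Agent.S9126
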