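import Groth.Statements.S9127
import Groth.Agent.Lib.Helper14_Cat

set_option autoImplicit false
universe u
open CAlg

namespace Groth.Agent.S9127

open Groth.Agent.H14

/-- A Noetherian ring is catenary if and only if its quotient by every minimal prime is catenary. -/
theorem result (R : Type u) [CommRing R] [IsNoetherianRing R] :
    CAlg.IsCatenary R ↔ ∀ p ∈ minimalPrimes R, CAlg.IsCatenary (R ⧸ p) := by
  constructor
  · intro h p _
    exact catenary_quotient p h
  · intro h
    have he : ∀ (I : Ideal R) (x y : PrimeSpectrum (R ⧸ I)), PrimeSpectrum.comap (Ideal.Quotient.mk I) x ≤ PrimeSpectrum.comap (Ideal.Quotient.mk I) y ↔ x ≤ y := by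
      intro I x y
      constructor
      · intro h z hz
        obtain ⟨z, rfl⟩ := Ideal.Quotient.mk_surjective z
        exact h (show z ∈ (PrimeSpectrum.comap (Ideal.Quotient.mk I) x).asIdeal from hz)
      · intro h z hz
        exact h hz
    have hinj : ∀ (I : Ideal R) (x y : PrimeSpectrum (R ⧸ I)), PrimeSpectrum.comap (Ideal.Quotient.mk I) x = PrimeSpectrum.comap (Ideal.Quotient.mk I) y → x = y := by
      intro I x y hxy
      exact le_antisymm ((he I x y).1 hxy.le) ((he I y x).1 hxy.ge)
    have hlt : ∀ (I : Ideal R) (x y : PrimeSpectrum (R ⧸ I)), PrimeSpectrum.comap (Ideal.Quotient.mk I) x < PrimeSpectrum.comap (Ideal.Quotient.mk I) y ↔ x < y := by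
      intro I x y
      rw [lt_iff_le_not_ge, lt_iff_le_not_ge, he, he]
    have hrange : ∀ (I : Ideal R) (z : PrimeSpectrum R), I ≤ z.asIdeal → ∃ w, PrimeSpectrum.comap (Ideal.Quotient.mk I) w = z := by
      intro I z hz
      have h3 : z ∈ Set.range (PrimeSpectrum.comap (Ideal.Quotient.mk I)) := by
        rw [_root_.range_comap_of_surjective _ _ Ideal.Quotient.mk_surjective, Ideal.mk_ker]
        exact hz
      exact h3
    have hlift : ∀ (I : Ideal R) (s : LTSeries (PrimeSpectrum R)), I ≤ s.head.asIdeal → ∃ s' : LTSeries (PrimeSpectrum (R ⧸ I)),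
        s'.length = s.length ∧ PrimeSpectrum.comap (Ideal.Quotient.mk I) s'.head = s.head ∧ PrimeSpectrum.comap (Ideal.Quotient.mk I) s'.last = s.last ∧
        ((∀ i : Fin s.length, s (Fin.castSucc i) ⋖ s (Fin.succ i)) → (∀ i : Fin s'.length, s' (Fin.castSucc i) ⋖ s' (Fin.succ i))) := by
      intro I s hs
      have hall : ∀ i : Fin (s.length + 1), ∃ w, PrimeSpectrum.comap (Ideal.Quotient.mk I) w = s i := by
        intro i
        apply hrange
        exact hs.trans (s.monotone (Fin.zero_le i))
      choose w hw using hall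
      refine ⟨LTSeries.mk s.length w ?_, rfl, hw _, hw _, ?_⟩
      · intro i j hij
        rw [← hlt I, hw, hw]
        exact s.strictMono hij
      · intro hcov i
        have h1 := hcov i
        refine ⟨?_, fun z hz1 hz2 => ?_⟩
        · show w _ < w _
          rw [← hlt I, hw, hw]
          exact h1.1
        · have hz1' : w (Fin.castSucc i) < z := hz1
          have hz2' : z < w (Fin.succ i) := hz2
          rw [← hlt I, hw] at hz1' hz2'
          exact h1.2 hz1' hz2'
    have hmin : ∀ p : PrimeSpectrum R, ∃ p0 ∈ minimalPrimes R, p0 ≤ p.asIdeal := by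
      intro p
      obtain ⟨p0, h1, h2⟩ := Ideal.exists_minimalPrimes_le (I := (⊥ : Ideal R)) (J := p.asIdeal) bot_le
      exact ⟨p0, h1, h2⟩
    constructor
    · intro p q hpq
      obtain ⟨p0, hp0, hp0p⟩ := hmin p
      obtain ⟨p', hp'⟩ := hrange p0 p hp0p
      obtain ⟨q', hq'⟩ := hrange p0 q (hp0p.trans hpq)
      obtain ⟨n, hn⟩ := (h p0 hp0).1 p' q' (by rw [← he, hp', hq']; exact hpq)
      refine ⟨n, fun s hs1 hs2 => ?_⟩
      obtain ⟨s', h1, h2, h3, -⟩ := hlift p0 s (by rw [hs1]; exact hp0p)
      rw [← h1]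
      apply hn s'
      · exact hinj p0 _ _ (by rw [h2, hs1, hp'])
      · exact hinj p0 _ _ (by rw [h3, hs2, hq'])
    · intro s t h1 h2 hs ht
      obtain ⟨p0, hp0, hp0p⟩ := hmin s.head
      obtain ⟨s', hs1, hs2, hs3, hs4⟩ := hlift p0 s hp0p
      obtain ⟨t', ht1, ht2, ht3, ht4⟩ := hlift p0 t (by rw [← h1]; exact hp0p)
      rw [← hs1, ← ht1]
      apply (h p0 hp0).2 s' t'
      · exact hinj p0 _ _ (by rw [hs2, ht2, h1])
      · exact hinj p0 _ _ (by rw [hs3, ht3, h2])
      · exact hs4 hs
      · exact ht4 ht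

end Groth.Agent.S9127
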