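import Groth.Statements.S9645
import Mathlib

set_option autoImplicit false
universe u
open CAlg

namespace Groth.Agent.S9645



/-- Integral closure commutes with localization. Let A → B be a ring map, S a multiplicative subset of
A, and A_S, B_S the localizations of A at S and of B at the image of S. Then an element x of B_S is
integral over A_S if and only if x·s = b for some s ∈ S and some b ∈ B integral over A (images taken
in B_S); that is, the integral closure of A_S in B_S is S⁻¹B' for B' the integral closure of A in B. -/
theorem result {A B As Bs : Type u} [CommRing A] [CommRing B] [CommRing As] [CommRing Bs] [Algebra A B] [Algebra A As] [Algebra B Bs] [Algebra As Bs] [Algebra A Bs] [IsScalarTower A B Bs] [IsScalarTower A As Bs]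
    (S : Submonoid A) [IsLocalization S As] [IsLocalization (Algebra.algebraMapSubmonoid B S) Bs] (x : Bs) :
    IsIntegral As x ↔ ∃ b : B, IsIntegral A b ∧ ∃ s ∈ S, x * algebraMap A Bs s = algebraMap B Bs b := by
  constructor
  · intro hx
    obtain ⟨⟨m, hm⟩, h1⟩ := IsIntegral.exists_multiple_integral_of_isLocalization S x hx
    obtain ⟨⟨b0, ⟨_, s0, hs0, rfl⟩⟩, hb0⟩ := IsLocalization.surj (Algebra.algebraMapSubmonoid B S) x
    have hb0' : x * algebraMap A Bs s0 = algebraMap B Bs b0 := by
      rw [IsScalarTower.algebraMap_apply A B Bs]; exact hb0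
    have h2 : IsIntegral A (algebraMap B Bs (algebraMap A B m * b0)) := by
      have h3 : algebraMap B Bs (algebraMap A B m * b0) = algebraMap A Bs s0 * ((⟨m, hm⟩ : S) • x) := by
        rw [map_mul, ← hb0', ← IsScalarTower.algebraMap_apply A B Bs]
        rw [Submonoid.smul_def, Algebra.smul_def]
        ring
      rw [h3]
      exact (isIntegral_algebraMap).mul h1
    obtain ⟨P, hP, h3⟩ := h2
    -- P * X
    have h4 : algebraMap B Bs (Polynomial.eval₂ (algebraMap A B) (algebraMap A B m * b0) (P * Polynomial.X)) = 0 := by
      rw [Polynomial.hom_eval₂, ← IsScalarTower.algebraMap_eq A B Bs, Polynomial.eval₂_mul, h3, zero_mul]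
    obtain ⟨⟨_, t, ht, rfl⟩, h5⟩ := (IsLocalization.map_eq_zero_iff (Algebra.algebraMapSubmonoid B S) Bs _).1 h4
    refine ⟨algebraMap A B t * (algebraMap A B m * b0), ?_, m * s0 * t, S.mul_mem (S.mul_mem hm hs0) ht, ?_⟩
    · refine ⟨(P * Polynomial.X).scaleRoots t, ?_, ?_⟩
      · rw [Polynomial.monic_scaleRoots_iff]
        exact hP.mul Polynomial.monic_X
      · rw [Polynomial.scaleRoots_eval₂_mul]
        by_cases hA : Nontrivial A
        · have hdeg : (P * Polynomial.X).natDegree = P.natDegree + 1 := by
            rw [hP.natDegree_mul Polynomial.monic_X, Polynomial.natDegree_X]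
          rw [hdeg, pow_succ, mul_assoc]
          have h6 : algebraMap A B t * Polynomial.eval₂ (algebraMap A B) (algebraMap A B m * b0) (P * Polynomial.X) = 0 := h5
          rw [h6, mul_zero]
        · rw [not_nontrivial_iff_subsingleton] at hA
          have : (1 : B) = 0 := by
            rw [← map_one (algebraMap A B), Subsingleton.elim (1 : A) 0, map_zero]
          exact (subsingleton_of_zero_eq_one this.symm).elim _ _
    · rw [map_mul, map_mul, map_mul, map_mul, ← hb0', ← IsScalarTower.algebraMap_apply A B Bs, ← IsScalarTower.algebraMap_apply A B Bs]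
      ring
  · rintro ⟨b, hb, s, hs, h⟩
    have h1 : IsIntegral As (algebraMap B Bs b) := by
      have : IsIntegral A (algebraMap B Bs b) := hb.map (IsScalarTower.toAlgHom A B Bs)
      exact this.tower_top
    have hu : IsUnit (algebraMap A As s) := IsLocalization.map_units As ⟨s, hs⟩
    obtain ⟨u, hu⟩ := hu
    have h2 : x = algebraMap As Bs (↑u⁻¹ : As) * algebraMap B Bs b := by
      rw [← h, IsScalarTower.algebraMap_apply A As Bs, ← hu]
      have : algebraMap As Bs (↑u⁻¹ : As) * algebraMap As Bs (↑u : As) = 1 := by
        rw [← map_mul, Units.inv_mul, map_one]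
      calc x = x * (algebraMap As Bs (↑u⁻¹ : As) * algebraMap As Bs (↑u : As)) := by rw [this, mul_one]
        _ = _ := by ring
    rw [h2]
    exact isIntegral_algebraMap.mul h1

end Groth.Agent.S9645
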