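import Groth.Statements.S9139
import Mathlib
import Groth.Agent.S9645

set_option autoImplicit false
universe u
open CAlg

namespace Groth.Agent.S9139



/-- Let I be a locally nilpotent ideal of a ring R (every element of I is nilpotent) and S → S' a map of
R-algebras with S' of finite type over R. If S → S'/IS' is surjective then so is S → S'. -/
theorem result (R S S' : Type u) [CommRing R] [CommRing S]
    [CommRing S'] [Algebra R S] [Algebra R S'] [Algebra.FiniteType R S'] (I : Ideal R)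
    (hI : ∀ x ∈ I, IsNilpotent x) (f : S →ₐ[R] S')
    (hf : Function.Surjective ((Ideal.Quotient.mk (I.map (algebraMap R S'))).comp f.toRingHom)) :
    Function.Surjective f := by
  classical
  have hfg : ∀ y ∈ I.map (algebraMap R S'), ∃ J : Ideal R, J ≤ I ∧ J.FG ∧ y ∈ J.map (algebraMap R S') := by
    intro y hy
    refine Submodule.span_induction (p := fun y _ => ∃ J : Ideal R, J ≤ I ∧ J.FG ∧ y ∈ J.map (algebraMap R S')) ?_ ?_ ?_ ?_ hy
    · rintro _ ⟨r, hr, rfl⟩
      exact ⟨Ideal.span {r}, (Ideal.span_singleton_le_iff_mem _).2 hr, ⟨{r}, by simp⟩, Ideal.mem_map_of_mem _ (Ideal.mem_span_singleton_self r)⟩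
    · exact ⟨⊥, bot_le, Submodule.fg_bot, Ideal.zero_mem _⟩
    · rintro a b _ _ ⟨J1, h1, h2, h3⟩ ⟨J2, h4, h5, h6⟩
      exact ⟨J1 ⊔ J2, sup_le h1 h4, Submodule.FG.sup h2 h5, Ideal.add_mem _ (Ideal.map_mono le_sup_left h3) (Ideal.map_mono le_sup_right h6)⟩
    · rintro c a _ ⟨J1, h1, h2, h3⟩
      exact ⟨J1, h1, h2, Ideal.mul_mem_left _ _ h3⟩
  obtain ⟨s, hs⟩ := (inferInstance : Algebra.FiniteType R S').out
  have h1 : ∀ x : S', ∃ (t : S) (J : Ideal R), J ≤ I ∧ J.FG ∧ x - f t ∈ J.map (algebraMap R S') := by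
    intro x
    obtain ⟨t, ht⟩ := hf (Ideal.Quotient.mk _ x)
    have h2 : x - f t ∈ I.map (algebraMap R S') := by
      rw [← Ideal.Quotient.eq_zero_iff_mem, map_sub, sub_eq_zero]
      exact ht.symm
    obtain ⟨J, h3⟩ := hfg _ h2
    exact ⟨t, J, h3⟩
  choose t J hJI hJfg hJ using h1
  let J0 : Ideal R := s.sup J
  have hJ0I : J0 ≤ I := Finset.sup_le fun x _ => hJI x
  have hJ0fg : J0.FG := Submodule.fg_finset_sup s J fun x _ => hJfg x
  have hnil : IsNilpotent J0 := (Ideal.FG.isNilpotent_iff_le_nilradical hJ0fg).2 fun x hx => hI x (hJ0I hx)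
  let 𝔍 : Ideal S' := J0.map (algebraMap R S')
  have h2 : ∀ x : S', ∃ t : S, x - f t ∈ 𝔍 := by
    intro x
    let B : Subalgebra R S' := Subalgebra.comap (Ideal.Quotient.mkₐ R 𝔍) (AlgHom.range ((Ideal.Quotient.mkₐ R 𝔍).comp f))
    have hB : (⊤ : Subalgebra R S') ≤ B := by
      rw [← hs, Algebra.adjoin_le_iff]
      intro x hx
      refine ⟨t x, ?_⟩
      have h3 : x - f (t x) ∈ 𝔍 := Ideal.map_mono (Finset.le_sup (f := J) hx) (hJ x)
      rw [← Ideal.Quotient.eq_zero_iff_mem, map_sub, sub_eq_zero] at h3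
      exact h3.symm
    obtain ⟨t, ht⟩ := hB (Algebra.mem_top : x ∈ _)
    refine ⟨t, ?_⟩
    rw [← Ideal.Quotient.eq_zero_iff_mem, map_sub, sub_eq_zero]
    exact ht.symm
  let A : Submodule R S' := (AlgHom.range f).toSubmodule
  have h3 : (⊤ : Submodule R S') ≤ A ⊔ J0 • ⊤ := by
    intro x _
    obtain ⟨t, ht⟩ := h2 x
    rw [Submodule.mem_sup]
    refine ⟨f t, ⟨t, rfl⟩, x - f t, ?_, by simp⟩
    rw [Ideal.smul_top_eq_map]
    exact ht
  have h4 : ∀ n : ℕ, (⊤ : Submodule R S') ≤ A ⊔ J0 ^ n • ⊤ := by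
    intro n
    induction n with
    | zero => rw [pow_zero, Ideal.one_eq_top, Submodule.top_smul]; exact le_sup_right
    | succ n ih =>
      calc (⊤ : Submodule R S') ≤ A ⊔ J0 ^ n • ⊤ := ih
        _ ≤ A ⊔ J0 ^ n • (A ⊔ J0 • ⊤) := sup_le_sup_left (Submodule.smul_mono le_rfl h3) _
        _ ≤ A ⊔ J0 ^ (n + 1) • ⊤ := by
          rw [Submodule.smul_sup, ← Submodule.mul_smul, ← pow_succ]
          exact sup_le le_sup_left (sup_le (le_trans Submodule.smul_le_right le_sup_left) le_sup_right)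
  obtain ⟨n, hn⟩ := hnil
  have h5 := h4 n
  rw [hn] at h5
  intro x
  have h6 := h5 (Submodule.mem_top : x ∈ _)
  simp only [Submodule.zero_eq_bot, Submodule.bot_smul, sup_bot_eq] at h6
  exact h6

end Groth.Agent.S9139
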