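import Groth.Statements.S9163
import Mathlib

set_option autoImplicit false
universe u
open CAlg

namespace Groth.Agent.S9163



/-- If S is integral over R, then any finitely many elements of R and of S lie in a pair R₀ ⊆ R, S₀ ⊆ S
with R₀ a finite type ℤ-subalgebra, S₀ an R₀-subalgebra of S, and S₀ finite as an R₀-module (whence
R → S is a directed colimit of finite maps between finite type ℤ-algebras, a reading not itself
stated). -/
theorem result (R S : Type u) [CommRing R] [CommRing S] [Algebra R S]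
    [Algebra.IsIntegral R S] (E : Finset R) (F : Finset S) :
    ∃ (R₀ : Subalgebra ℤ R) (S₀ : Subalgebra R₀ S), Algebra.FiniteType ℤ R₀ ∧ (E : Set R) ⊆ R₀ ∧
      (F : Set S) ⊆ S₀ ∧ Module.Finite R₀ S₀ := by
  classical
  have hint : ∀ x : S, ∃ p : Polynomial R, p.Monic ∧ Polynomial.eval₂ (algebraMap R S) x p = 0 :=
    fun x => Algebra.IsIntegral.isIntegral x
  choose p hp using hint
  let G : Finset R := E ∪ F.biUnion fun x => (p x).coeffs
  let R₀ : Subalgebra ℤ R := Algebra.adjoin ℤ (G : Set R)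
  have hcoef : ∀ x ∈ F, ∀ n, (p x).coeff n ∈ R₀ := by
    intro x hx n
    by_cases h0 : (p x).coeff n = 0
    · rw [h0]; exact R₀.zero_mem
    · refine Algebra.subset_adjoin ?_
      simp only [G, Finset.coe_union, Finset.coe_biUnion]
      refine Or.inr ?_
      simp only [Set.mem_iUnion]
      exact ⟨x, hx, Polynomial.coeff_mem_coeffs h0⟩
  have hintR₀ : ∀ x ∈ (F : Set S), IsIntegral R₀ x := by
    intro x hx
    have hlift : ∃ q : Polynomial R₀, q.map (algebraMap R₀ R) = p x ∧ q.Monic := by
      have h1 : p x ∈ Polynomial.lifts (algebraMap R₀ R) := by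
        rw [Polynomial.lifts_iff_coeff_lifts]
        intro n
        exact ⟨⟨_, hcoef x hx n⟩, rfl⟩
      obtain ⟨q, hq, -, hqm⟩ := Polynomial.lifts_and_natDegree_eq_and_monic h1 (hp x).1
      exact ⟨q, hq, hqm⟩
    obtain ⟨q, hq, hqm⟩ := hlift
    refine ⟨q, hqm, ?_⟩
    have h2 := (hp x).2
    rw [← hq, Polynomial.eval₂_map] at h2
    exact h2
  refine ⟨R₀, Algebra.adjoin R₀ (F : Set S), ?_, ?_, ?_, ?_⟩
  · exact (Subalgebra.fg_iff_finiteType R₀).mp ⟨G, rfl⟩
  · intro a ha
    exact Algebra.subset_adjoin (by simp only [G, Finset.coe_union]; exact Or.inl ha)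
  · exact Algebra.subset_adjoin
  · exact Module.Finite.iff_fg.mpr (fg_adjoin_of_finite F.finite_toSet hintR₀)

end Groth.Agent.S9163
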