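import Groth.Statements.S9278
import Mathlib
import Groth.Agent.S9277

set_option autoImplicit false
universe u
open CAlgX

namespace Groth.Agent.S9278

open CAlgX Groth.Agent.S9277
open CAlgX Groth.Agent.S9277

theorem ann_of_regular {R : Type u} [CommRing R] (I : Ideal R) (h : I = ⊤ ∨ ∃ a ∈ I, IsRegular a) : I.annihilator = ⊥ := by
  rw [eq_bot_iff]
  intro x hx
  rw [Submodule.mem_annihilator] at hx
  rcases h with h | ⟨a, ha, hr⟩
  · have := hx 1 (h ▸ Submodule.mem_top)
    simpa using this
  · have := hx a ha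
    rw [smul_eq_mul] at this
    exact hr.2 (by simpa using this)

theorem regular_of_ann {R : Type u} [CommRing R] [IsNoetherianRing R] (I : Ideal R) (h : I.annihilator = ⊥) : ∃ a ∈ I, IsRegular a := by
  by_contra hcon
  push Not at hcon
  have hsub : (I : Set R) ⊆ ⋃ q ∈ associatedPrimes R R, (q : Set R) := by
    intro x hx
    rw [biUnion_associatedPrimes_eq_compl_nonZeroDivisors]
    intro hx'
    exact hcon x hx (isRegular_iff_mem_nonZeroDivisors.2 hx')
  have hfin := associatedPrimes.finite R R
  obtain ⟨q, hq, hmq⟩ := (Ideal.subset_union_prime_finite hfin (f := fun p : Ideal R => p) ⊥ ⊥ (fun i hi _ _ => hi.1)).1 hsub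
  obtain ⟨hqp, x, hx⟩ := isAssociatedPrime_iff.1 (show IsAssociatedPrime q R from hq)
  have hxI : x ∈ I.annihilator := by
    rw [Submodule.mem_annihilator]
    intro a ha
    have h1 := hmq ha
    rw [hx, Submodule.mem_colon_singleton, Submodule.mem_bot] at h1
    rw [smul_eq_mul, mul_comm]
    exact h1
  rw [h, Submodule.mem_bot] at hxI
  apply hqp.ne_top
  rw [hx, hxI, Ideal.eq_top_iff_one, Submodule.mem_colon_singleton, smul_zero]
  exact Ideal.zero_mem _

/-- Let R be a Noetherian local ring and φ : R^m → R^n a map of finite free modules with matrix M. Then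
φ is injective if and only if the rank of M is m and the determinantal ideal I(M) is the unit ideal
or contains a nonzerodivisor. -/
theorem result (R : Type u) [CommRing R]
    [IsLocalRing R] [IsNoetherianRing R] (m n : ℕ) (M : Matrix (Fin n) (Fin m) R) :
    Function.Injective (Matrix.mulVecLin M) ↔
      CAlgX.matrixRank M = m ∧ (CAlgX.detIdeal M = ⊤ ∨ ∃ a ∈ CAlgX.detIdeal M, IsRegular a) := by
  rw [Groth.Agent.S9277.result]
  constructor
  · rintro ⟨h1, h2⟩
    exact ⟨h1, Or.inr (regular_of_ann _ h2)⟩
  · rintro ⟨h1, h2⟩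
    exact ⟨h1, ann_of_regular _ h2⟩

end Groth.Agent.S9278
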