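import Groth.Statements.S9284
import Groth.Agent.Lib.Helper14_PropP

set_option autoImplicit false
universe u
open CAlgX

namespace Groth.Agent.S9284

open Groth.Agent.H14
open TensorProduct in
theorem exists_fin {R : Type u} [CommRing R] {ι : Type u} (Q : Type u) [AddCommGroup Q] [Module R Q] (z : (ι →₀ R) ⊗[R] Q) :
    ∃ s : Finset ι, LinearMap.rTensor Q (inc s ∘ₗ prj s) z = z := by
  classical
  induction z using TensorProduct.induction_on with
  | zero => exact ⟨∅, by rw [map_zero]⟩
  | tmul f q =>
    refine ⟨f.support, ?_⟩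
    rw [LinearMap.rTensor_tmul, LinearMap.comp_apply, inc_prj _ _ subset_rfl]
  | add a b ha hb =>
    obtain ⟨s1, h1⟩ := ha
    obtain ⟨s2, h2⟩ := hb
    have hc : ∀ s s' : Finset ι, s' ⊆ s → (inc s ∘ₗ prj s) ∘ₗ (inc s' ∘ₗ prj s') = (inc s' ∘ₗ prj s' : (ι →₀ R) →ₗ[R] (ι →₀ R)) := by
      intro s s' hs
      apply LinearMap.ext
      intro f
      show inc s (prj s (inc s' (prj s' f))) = inc s' (prj s' f)
      apply inc_prj
      refine Finset.Subset.trans ?_ hs
      intro i hi
      by_contra his
      rw [Finsupp.mem_support_iff] at hi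
      apply hi
      simp only [inc, LinearMap.sum_apply, LinearMap.comp_apply, LinearMap.proj_apply, Finsupp.lsingle_apply, Finsupp.finset_sum_apply, Finsupp.single_apply]
      refine Finset.sum_eq_zero fun j _ => ?_
      rw [if_neg]
      intro h
      exact his (h ▸ j.2)
    refine ⟨s1 ∪ s2, ?_⟩
    rw [map_add]
    congr 1
    · conv_lhs => rw [← h1]
      rw [← LinearMap.comp_apply, ← LinearMap.rTensor_comp, hc _ _ Finset.subset_union_left, h1]
    · conv_lhs => rw [← h2]
      rw [← LinearMap.comp_apply, ← LinearMap.rTensor_comp, hc _ _ Finset.subset_union_right, h2]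

/-- Let R be a ring such that every proper finitely generated ideal of R has a nonzero annihilator, and
let u : N → M be an R-linear map between projective R-modules. Then u stays injective after
tensoring with every R-module exactly when u is injective. -/
theorem result (R : Type u) [CommRing R]
    (hP : (∀ I : Ideal R, I.FG → I ≠ ⊤ → I.annihilator ≠ ⊥))
    (N M : Type u) [AddCommGroup N] [Module R N] [Module.Projective R N] [AddCommGroup M]
    [Module R M] [Module.Projective R M] (u : N →ₗ[R] M) :
    CAlgX.UniversallyInjective R u ↔ Function.Injective u := by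
  classical
  constructor
  · intro h
    have h1 := h R
    intro x y hxy
    have h2 : (TensorProduct.rid R N).symm x = (TensorProduct.rid R N).symm y := by
      apply h1
      rw [TensorProduct.rid_symm_apply, TensorProduct.rid_symm_apply, LinearMap.rTensor_tmul, LinearMap.rTensor_tmul, hxy]
    exact (TensorProduct.rid R N).symm.injective h2
  · intro hu Q _ _
    obtain ⟨i, hi⟩ := Module.projective_def'.1 (inferInstance : Module.Projective R N)
    obtain ⟨h1, h2⟩ := aux_inj u hu i (Finsupp.linearCombination R id) hi
    rw [injective_iff_map_eq_zero]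
    intro x hx
    obtain ⟨s, hs⟩ := exists_fin Q (LinearMap.rTensor Q i x)
    let e : (Fin s.card → R) ≃ₗ[R] (s → R) := LinearEquiv.funCongrLeft R R s.equivFin
    let U := (LinearMap.prod (u ∘ₗ (Finsupp.linearCombination R id)) (LinearMap.id - i ∘ₗ (Finsupp.linearCombination R id)))
    let w : (Fin s.card → R) →ₗ[R] (M × (N →₀ R)) := U ∘ₗ inc s ∘ₗ e.toLinearMap
    have hw : Function.Injective w := by
      intro a b hab
      have h3 : inc s (e a) = inc s (e b) := h1 hab
      have h4 := congrArg (prj s) h3
      rw [prj_inc, prj_inc] at h4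
      exact e.injective h4
    obtain ⟨v, hv⟩ := lemB hP s.card _ w hw
    let z' := LinearMap.rTensor Q (e.symm.toLinearMap ∘ₗ prj s) (LinearMap.rTensor Q i x)
    have h5 : LinearMap.rTensor Q w z' = 0 := by
      show LinearMap.rTensor Q w (LinearMap.rTensor Q (e.symm.toLinearMap ∘ₗ prj s) (LinearMap.rTensor Q i x)) = 0
      rw [← LinearMap.comp_apply, ← LinearMap.rTensor_comp]
      have h6 : w ∘ₗ (e.symm.toLinearMap ∘ₗ prj s) = U ∘ₗ (inc s ∘ₗ prj s) := by
        apply LinearMap.ext
        intro f
        show U (inc s (e (e.symm (prj s f)))) = U (inc s (prj s f))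
        rw [LinearEquiv.apply_symm_apply]
      rw [h6, LinearMap.rTensor_comp, LinearMap.comp_apply, hs, ← LinearMap.comp_apply, ← LinearMap.rTensor_comp, h2, LinearMap.rTensor_comp, LinearMap.comp_apply, hx, map_zero]
    have h7 : z' = 0 := by
      have h8 := congrArg (LinearMap.rTensor Q v) h5
      rw [← LinearMap.comp_apply, ← LinearMap.rTensor_comp, hv, LinearMap.rTensor_id, LinearMap.id_apply, map_zero] at h8
      exact h8
    have h9 : LinearMap.rTensor Q i x = 0 := by
      have h10 := congrArg (LinearMap.rTensor Q (inc s ∘ₗ e.toLinearMap)) h7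
      have h11 : (inc s ∘ₗ e.toLinearMap) ∘ₗ (e.symm.toLinearMap ∘ₗ prj s) = (inc s ∘ₗ prj s : (N →₀ R) →ₗ[R] (N →₀ R)) := by
        apply LinearMap.ext
        intro f
        show inc s (e (e.symm (prj s f))) = inc s (prj s f)
        rw [LinearEquiv.apply_symm_apply]
      have h12 : LinearMap.rTensor Q (inc s ∘ₗ e.toLinearMap) z' = LinearMap.rTensor Q i x := by
        show LinearMap.rTensor Q (inc s ∘ₗ e.toLinearMap) (LinearMap.rTensor Q (e.symm.toLinearMap ∘ₗ prj s) (LinearMap.rTensor Q i x)) = _
        rw [← LinearMap.comp_apply, ← LinearMap.rTensor_comp, h11, hs]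
      rw [h12, map_zero] at h10
      exact h10
    have h13 := congrArg (LinearMap.rTensor Q (Finsupp.linearCombination R id)) h9
    rw [← LinearMap.comp_apply, ← LinearMap.rTensor_comp, hi, LinearMap.rTensor_id, LinearMap.id_apply, map_zero] at h13
    exact h13

end Groth.Agent.S9284
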