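import Groth.Statements.S9285
import Groth.Agent.Lib.Helper14_WeakAss

set_option autoImplicit false
universe u
open CAlg

namespace Groth.Agent.S9285

open Groth.Agent.H14

/-- A ring R has the property that every proper finitely generated ideal has a nonzero annihilator if
and only if every injective linear map R → R^n admits a retraction. -/
theorem result (R : Type u) [CommRing R] :
    (∀ I : Ideal R, I.FG → I ≠ ⊤ → I.annihilator ≠ ⊥) ↔
      ∀ (n : ℕ) (u : R →ₗ[R] (Fin n → R)), Function.Injective u →
        ∃ v : (Fin n → R) →ₗ[R] R, v.comp u = LinearMap.id := by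
  classical
  constructor
  · intro h n u hu
    let I : Ideal R := Ideal.span (Set.range (u 1))
    have hI : I = ⊤ := by
      by_contra hne
      apply h I ⟨Finset.univ.image (u 1), by simp [I]⟩ hne
      rw [eq_bot_iff]
      intro a ha
      rw [Submodule.mem_annihilator] at ha
      rw [Ideal.mem_bot]
      apply hu
      rw [map_zero]
      have : u a = a • u 1 := by rw [← map_smul, smul_eq_mul, mul_one]
      rw [this]
      funext i
      exact ha _ (Ideal.subset_span ⟨i, rfl⟩)
    have h1 : (1 : R) ∈ Submodule.span R (Set.range (u 1)) := (Ideal.eq_top_iff_one _).1 hI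
    obtain ⟨c, hc⟩ := (Submodule.mem_span_range_iff_exists_fun R).1 h1
    refine ⟨∑ i, c i • LinearMap.proj i, ?_⟩
    ext
    simpa using hc
  · intro h I hI hne hann
    obtain ⟨s, hs⟩ := hI
    let e := s.equivFin
    let u : R →ₗ[R] (Fin s.card → R) := LinearMap.toSpanSingleton R _ (fun i => (e.symm i : R))
    have hu : Function.Injective u := by
      rw [injective_iff_map_eq_zero]
      intro a ha
      have : a ∈ I.annihilator := by
        rw [← hs]
        rw [Submodule.mem_annihilator]
        intro n hn
        refine Submodule.span_induction (p := fun n _ => a • n = 0) ?_ (smul_zero _) ?_ ?_ hn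
        · intro x hx
          have := congrFun ha (e ⟨x, hx⟩)
          simpa [u] using this
        · intro x y _ _ hx hy
          rw [smul_add, hx, hy, add_zero]
        · intro b x _ hx
          rw [smul_comm, hx, smul_zero]
      rw [hann] at this
      exact this
    obtain ⟨v, hv⟩ := h _ u hu
    apply hne
    rw [Ideal.eq_top_iff_one]
    have h1 : v (u 1) = 1 := by
      have := LinearMap.congr_fun hv 1
      exact this
    have h2 : u 1 = ∑ i, (e.symm i : R) • Pi.single i (1 : R) := by
      funext j
      simp [u, Finset.sum_apply, Pi.single_apply]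
    rw [h2, map_sum] at h1
    rw [← h1]
    refine Ideal.sum_mem _ fun i _ => ?_
    rw [map_smul, smul_eq_mul]
    exact Ideal.mul_mem_right _ _ (hs ▸ Ideal.subset_span (e.symm i).2)

end Groth.Agent.S9285
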