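import Groth.Statements.S9286
import Groth.Agent.Lib.Helper14_PropP

set_option autoImplicit false
universe u
open CAlg

namespace Groth.Agent.S9286

open Groth.Agent.H14

/-- Let R be a ring in which every proper finitely generated ideal has a nonzero annihilator. Given an
injective R-linear map u : N → M, where both N and M are finite and projective over R, the quotient
Coker(u) = M/u(N) is again projective as an R-module. -/
theorem result (R : Type u) [CommRing R]
    (hP : (∀ I : Ideal R, I.FG → I ≠ ⊤ → I.annihilator ≠ ⊥))
    (N M : Type u) [AddCommGroup N] [Module R N] [Module.Finite R N] [Module.Projective R N]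
    [AddCommGroup M] [Module R M] [Module.Finite R M] [Module.Projective R M]
    (u : N →ₗ[R] M) (hu : Function.Injective u) :
    Module.Projective R (M ⧸ LinearMap.range u) := by
  obtain ⟨r, hr⟩ := lemC hP N M u hu
  let i : (M ⧸ LinearMap.range u) →ₗ[R] M := Submodule.liftQ (LinearMap.range u) (LinearMap.id - u ∘ₗ r) (by
    rintro _ ⟨x, rfl⟩
    rw [LinearMap.mem_ker]
    have h : r (u x) = x := LinearMap.congr_fun hr x
    show u x - u (r (u x)) = 0
    rw [h, sub_self])
  apply Module.Projective.of_split i (Submodule.mkQ (LinearMap.range u))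
  apply LinearMap.ext
  intro y
  obtain ⟨y, rfl⟩ := Submodule.mkQ_surjective _ y
  show Submodule.mkQ _ (y - u (r y)) = Submodule.mkQ _ y
  rw [map_sub, sub_eq_self]
  exact (Submodule.Quotient.mk_eq_zero _).2 ⟨r y, rfl⟩

end Groth.Agent.S9286
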