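import Groth.Statements.S9391


set_option autoImplicit false
universe u
open CAlg

namespace Groth.Agent.S9391



theorem fin_loc (R : Type u) [CommRing R] (M : Submonoid R)
    (S : Type u) [CommRing S] [Algebra R S] [IsLocalization M S]
    (L : Type u) [CommRing L] [Algebra R L] [Algebra S L] [IsScalarTower R S L]
    (h : Module.Finite R (integralClosure R L)) : Module.Finite S (integralClosure S L) := by
  classical
  let φ : integralClosure R L →ₗ[R] integralClosure S L :=
    { toFun := fun x => ⟨x.1, IsIntegral.tower_top x.2⟩
      map_add' := fun x y => rfl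
      map_smul' := fun r x => by
        apply Subtype.ext
        simp }
  obtain ⟨s, hs⟩ := h
  refine ⟨⟨s.image φ, ?_⟩⟩
  rw [eq_top_iff]
  rintro y -
  obtain ⟨m, hm⟩ := IsIntegral.exists_multiple_integral_of_isLocalization M (y : L) y.2
  have hz : ∀ z : integralClosure R L, φ z ∈ Submodule.span S ((s.image φ : Finset _) : Set (integralClosure S L)) := by
    intro z
    have hz : z ∈ Submodule.span R (s : Set (integralClosure R L)) := by rw [hs]; trivial
    have h1 : φ z ∈ (Submodule.span R (s : Set (integralClosure R L))).map φ := Submodule.mem_map_of_mem hz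
    rw [Submodule.map_span] at h1
    rw [Finset.coe_image]
    exact Submodule.span_le_restrictScalars R S _ h1
  have h2 := hz ⟨(m : R) • (y : L), hm⟩
  have h3 : φ ⟨(m : R) • (y : L), hm⟩ = algebraMap R S m • y := by
    apply Subtype.ext
    simp [φ]
  rw [h3] at h2
  have h4 : y = (IsLocalization.mk' S 1 m : S) • (algebraMap R S m • y) := by
    rw [smul_smul, IsLocalization.mk'_spec, map_one, one_smul]
  rw [h4]
  exact Submodule.smul_mem _ _ h2

theorem exists_e (R : Type u) [CommRing R] [IsDomain R] (M : Submonoid R)
    (S : Type u) [CommRing S] [IsDomain S] [Algebra R S] [IsLocalization M S] :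
    Nonempty (FractionRing R ≃ₐ[R] FractionRing S) := by
  have hM : ∀ y : M, IsUnit (algebraMap R (FractionRing R) y) := by
    intro y
    rw [isUnit_iff_ne_zero]
    intro h0
    have h1 : (y : R) = 0 := (IsFractionRing.injective R (FractionRing R)) (by rw [h0, map_zero])
    have := IsLocalization.map_units S y
    rw [h1, map_zero] at this
    exact not_isUnit_zero this
  letI : Algebra S (FractionRing R) := (IsLocalization.lift hM).toAlgebra
  haveI : IsScalarTower R S (FractionRing R) := .of_algebraMap_eq fun r => (IsLocalization.lift_eq hM r).symm
  haveI : IsFractionRing S (FractionRing R) :=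
    IsFractionRing.isFractionRing_of_isDomain_of_isLocalization M S (FractionRing R)
  exact ⟨((FractionRing.algEquiv S (FractionRing R)).symm.restrictScalars R)⟩

/-- A localization of an N-1 domain which is again a domain is N-1. -/
theorem result (R : Type u) [CommRing R] [IsDomain R] (M : Submonoid R)
    (S : Type u) [CommRing S] [IsDomain S] [Algebra R S] [IsLocalization M S]
    (h : CAlg.IsN1 R) : CAlg.IsN1 S := by
  obtain ⟨e⟩ := exists_e R M S
  refine fin_loc R M S (FractionRing S) ?_
  have h' : Module.Finite R (integralClosure R (FractionRing R)) := h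
  exact Module.Finite.equiv (e.mapIntegralClosure).toLinearEquiv

end Groth.Agent.S9391
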