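import Groth.Statements.S9392
import Groth.Agent.S9391


set_option autoImplicit false
universe u
open CAlg

namespace Groth.Agent.S9392



/-- A localization of an N-2 (Japanese) domain which is again a domain is N-2. -/
theorem result (R : Type u) [CommRing R] [IsDomain R] (M : Submonoid R)
    (S : Type u) [CommRing S] [IsDomain S] [Algebra R S] [IsLocalization M S]
    (h : CAlg.IsN2 R) : CAlg.IsN2 S := by
  intro L _ _ _ _ hfd
  obtain ⟨e⟩ := Groth.Agent.S9391.exists_e R M S
  letI : Algebra R L := ((algebraMap S L).comp (algebraMap R S)).toAlgebra
  haveI : IsScalarTower R S L := .of_algebraMap_eq fun _ => rfl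
  letI : Algebra (FractionRing R) (FractionRing S) := (e : FractionRing R →+* FractionRing S).toAlgebra
  letI : Algebra (FractionRing R) L := ((algebraMap (FractionRing S) L).comp (e : FractionRing R →+* FractionRing S)).toAlgebra
  haveI : IsScalarTower (FractionRing R) (FractionRing S) L := .of_algebraMap_eq fun _ => rfl
  haveI : IsScalarTower R (FractionRing R) L := .of_algebraMap_eq fun r => by
    change algebraMap S L (algebraMap R S r) = algebraMap (FractionRing S) L (e (algebraMap R (FractionRing R) r))
    rw [AlgEquiv.commutes, IsScalarTower.algebraMap_apply R S (FractionRing S), ← IsScalarTower.algebraMap_apply S (FractionRing S) L]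
  haveI : Module.Finite (FractionRing R) (FractionRing S) :=
    Module.Finite.of_surjective (Algebra.linearMap (FractionRing R) (FractionRing S)) e.surjective
  haveI : Module.Finite (FractionRing R) L := Module.Finite.trans (FractionRing S) L
  exact Groth.Agent.S9391.fin_loc R M S L (h L inferInstance)

end Groth.Agent.S9392
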