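import Groth.Statements.S9393


set_option autoImplicit false
universe u
open CAlg

namespace Groth.Agent.S9393



theorem fin_of_span (R : Type u) [CommRing R] {ι : Type u} [Finite ι] (f : ι → R) (hf : Ideal.span (Set.range f) = ⊤)
    (Rf : ι → Type u) [∀ i, CommRing (Rf i)] [∀ i, Algebra R (Rf i)]
    [∀ i, IsLocalization.Away (f i) (Rf i)] (K : Type u) [CommRing K] [Algebra R K] [∀ i, Algebra (Rf i) K]
    [∀ i, IsScalarTower R (Rf i) K]
    (h : ∀ i, Module.Finite (Rf i) (integralClosure (Rf i) K)) : Module.Finite R (integralClosure R K) := by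
  classical
  have h' : ∀ i, ∃ s : Finset (integralClosure (Rf i) K), Submodule.span (Rf i) (s : Set (integralClosure (Rf i) K)) = ⊤ :=
    fun i => (h i).1
  choose s hs using h'
  have hm : ∀ i, ∀ b : integralClosure (Rf i) K, ∃ m : Submonoid.powers (f i), IsIntegral R (m • (b : K)) :=
    fun i b => IsIntegral.exists_multiple_integral_of_isLocalization (Submonoid.powers (f i)) (b : K) b.2
  choose m hm using hm
  let g : ∀ i, integralClosure (Rf i) K → integralClosure R K := fun i b => ⟨(m i b : R) • (b : K), hm i b⟩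
  let N : Submodule R (integralClosure R K) := Submodule.span R (⋃ i, g i '' (s i : Set _))
  have hNfg : N.FG := Submodule.fg_span (Set.finite_iUnion fun i => (s i).finite_toSet.image _)
  have hclaim : ∀ i, ∀ z ∈ Submodule.span (Rf i) (s i : Set (integralClosure (Rf i) K)),
      ∃ n : ℕ, f i ^ n • (z : K) ∈ N.map (integralClosure R K).val.toLinearMap := by
    intro i z hz
    refine Submodule.span_induction (p := fun (z : integralClosure (Rf i) K) _ => ∃ n : ℕ, f i ^ n • (z : K) ∈ N.map (integralClosure R K).val.toLinearMap) ?_ ?_ ?_ ?_ hz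
    · intro b hb
      obtain ⟨n, hn⟩ := (m i b).2
      refine ⟨n, g i b, Submodule.subset_span (Set.mem_iUnion.mpr ⟨i, b, hb, rfl⟩), ?_⟩
      change (m i b : R) • (b : K) = f i ^ n • (b : K)
      rw [← hn]
    · exact ⟨0, by simp⟩
    · rintro a b _ _ ⟨n1, h1⟩ ⟨n2, h2⟩
      refine ⟨n1 + n2, ?_⟩
      have : f i ^ (n1 + n2) • ((a + b : integralClosure (Rf i) K) : K) = f i ^ n2 • (f i ^ n1 • (a : K)) + f i ^ n1 • (f i ^ n2 • (b : K)) := by
        rw [smul_smul, smul_smul, ← pow_add, ← pow_add, add_comm n2 n1]
        simp [smul_add]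
      rw [this]
      exact Submodule.add_mem _ (Submodule.smul_mem _ _ h1) (Submodule.smul_mem _ _ h2)
    · rintro c z _ ⟨n, hn⟩
      obtain ⟨⟨r, ⟨_, k, rfl⟩⟩, hr⟩ := IsLocalization.surj (Submonoid.powers (f i)) c
      refine ⟨k + n, ?_⟩
      have : f i ^ (k + n) • ((c • z : integralClosure (Rf i) K) : K) = r • (f i ^ n • (z : K)) := by
        have h3 : ((c • z : integralClosure (Rf i) K) : K) = algebraMap (Rf i) K c * (z : K) := by
          change c • (z : K) = _
          rw [Algebra.smul_def]
        have h4 : algebraMap (Rf i) K c * algebraMap R K (f i ^ k) = algebraMap R K r := by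
          rw [IsScalarTower.algebraMap_apply R (Rf i) K, IsScalarTower.algebraMap_apply R (Rf i) K, ← map_mul]
          exact congrArg _ hr
        rw [h3, Algebra.smul_def, Algebra.smul_def, Algebra.smul_def, ← h4, pow_add, map_mul]
        ring
      rw [this]
      exact Submodule.smul_mem _ _ hn
  refine ⟨?_⟩
  have hN : N = ⊤ := by
    rw [eq_top_iff]
    rintro y -
    refine Submodule.mem_of_span_eq_top_of_smul_pow_mem N (Set.range f) hf y ?_
    rintro ⟨_, i, rfl⟩
    obtain ⟨n, w, hw, hwe⟩ := hclaim i ⟨(y : K), IsIntegral.tower_top y.2⟩ (by rw [hs]; trivial)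
    refine ⟨n, ?_⟩
    have : f i ^ n • y = w := by
      apply Subtype.ext
      exact hwe.symm
    change f i ^ n • y ∈ N
    rw [this]
    exact hw
  rw [← hN]
  exact hNfg

/-- Being N-1 can be checked on a finite cover of Spec R by principal opens whose rings are N-1 domains. -/
theorem result (R : Type u) [CommRing R] [IsDomain R]
    {ι : Type u} [Finite ι] (f : ι → R) (hf : Ideal.span (Set.range f) = ⊤)
    (Rf : ι → Type u) [∀ i, CommRing (Rf i)] [∀ i, IsDomain (Rf i)] [∀ i, Algebra R (Rf i)]
    [∀ i, IsLocalization.Away (f i) (Rf i)] (h : ∀ i, CAlg.IsN1 (Rf i)) : CAlg.IsN1 R := by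
  have hM : ∀ i, ∀ y : Submonoid.powers (f i), IsUnit (algebraMap R (FractionRing R) y) := by
    intro i y
    rw [isUnit_iff_ne_zero]
    intro h0
    have h1 : (y : R) = 0 := (IsFractionRing.injective R (FractionRing R)) (by rw [h0, map_zero])
    have := IsLocalization.map_units (Rf i) y
    rw [h1, map_zero] at this
    exact not_isUnit_zero this
  letI : ∀ i, Algebra (Rf i) (FractionRing R) := fun i => (IsLocalization.lift (hM i)).toAlgebra
  haveI : ∀ i, IsScalarTower R (Rf i) (FractionRing R) := fun i =>
    .of_algebraMap_eq fun r => (IsLocalization.lift_eq (hM i) r).symm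
  haveI : ∀ i, IsFractionRing (Rf i) (FractionRing R) := fun i =>
    IsFractionRing.isFractionRing_of_isDomain_of_isLocalization (Submonoid.powers (f i)) (Rf i) (FractionRing R)
  refine fin_of_span R f hf Rf (FractionRing R) fun i => ?_
  have h' : Module.Finite (Rf i) (integralClosure (Rf i) (FractionRing (Rf i))) := h i
  exact Module.Finite.equiv ((FractionRing.algEquiv (Rf i) (FractionRing R)).mapIntegralClosure).toLinearEquiv

end Groth.Agent.S9393
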