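import Groth.Statements.S9394
import Groth.Agent.S9393

set_option autoImplicit false
universe u
open CAlg

namespace Groth.Agent.S9394



/-- Being N-2 (Japanese) can be checked on a finite cover of Spec R by principal opens whose rings are
N-2 domains. -/
theorem result (R : Type u) [CommRing R] [IsDomain R]
    {ι : Type u} [Finite ι] (f : ι → R) (hf : Ideal.span (Set.range f) = ⊤)
    (Rf : ι → Type u) [∀ i, CommRing (Rf i)] [∀ i, IsDomain (Rf i)] [∀ i, Algebra R (Rf i)]
    [∀ i, IsLocalization.Away (f i) (Rf i)] (h : ∀ i, CAlg.IsN2 (Rf i)) : CAlg.IsN2 R := by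
  intro L _ _ _ _ hfd
  have hM : ∀ i, ∀ y : Submonoid.powers (f i), IsUnit (algebraMap R (FractionRing R) y) := by
    intro i y
    rw [isUnit_iff_ne_zero]
    intro h0
    have h1 : (y : R) = 0 := (IsFractionRing.injective R (FractionRing R)) (by rw [h0, map_zero])
    have := IsLocalization.map_units (Rf i) y
    rw [h1, map_zero] at this
    exact not_isUnit_zero this
  letI : ∀ i, Algebra (Rf i) (FractionRing R) := fun i => (IsLocalization.lift (hM i)).toAlgebra
  haveI : ∀ i, IsScalarTower R (Rf i) (FractionRing R) := fun i =>
    .of_algebraMap_eq fun r => (IsLocalization.lift_eq (hM i) r).symm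
  haveI : ∀ i, IsFractionRing (Rf i) (FractionRing R) := fun i =>
    IsFractionRing.isFractionRing_of_isDomain_of_isLocalization (Submonoid.powers (f i)) (Rf i) (FractionRing R)
  letI : ∀ i, Algebra (Rf i) L := fun i =>
    ((algebraMap (FractionRing R) L).comp (algebraMap (Rf i) (FractionRing R))).toAlgebra
  haveI : ∀ i, IsScalarTower (Rf i) (FractionRing R) L := fun i => .of_algebraMap_eq fun _ => rfl
  haveI : ∀ i, IsScalarTower R (Rf i) L := fun i => .of_algebraMap_eq fun r => by
    rw [IsScalarTower.algebraMap_apply (Rf i) (FractionRing R) L, ← IsScalarTower.algebraMap_apply R (Rf i) (FractionRing R),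
      ← IsScalarTower.algebraMap_apply R (FractionRing R) L]
  refine Groth.Agent.S9393.fin_of_span R f hf Rf L fun i => ?_
  let e : FractionRing (Rf i) ≃ₐ[Rf i] FractionRing R := FractionRing.algEquiv (Rf i) (FractionRing R)
  letI : Algebra (FractionRing (Rf i)) (FractionRing R) := (e : FractionRing (Rf i) →+* FractionRing R).toAlgebra
  letI : Algebra (FractionRing (Rf i)) L := ((algebraMap (FractionRing R) L).comp (e : FractionRing (Rf i) →+* FractionRing R)).toAlgebra
  haveI : IsScalarTower (FractionRing (Rf i)) (FractionRing R) L := .of_algebraMap_eq fun _ => rfl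
  haveI : IsScalarTower (Rf i) (FractionRing (Rf i)) L := .of_algebraMap_eq fun r => by
    change algebraMap (FractionRing R) L (algebraMap (Rf i) (FractionRing R) r) = algebraMap (FractionRing R) L (e (algebraMap (Rf i) (FractionRing (Rf i)) r))
    rw [AlgEquiv.commutes]
  haveI : Module.Finite (FractionRing (Rf i)) (FractionRing R) :=
    Module.Finite.of_surjective (Algebra.linearMap (FractionRing (Rf i)) (FractionRing R)) e.surjective
  haveI : Module.Finite (FractionRing (Rf i)) L := Module.Finite.trans (FractionRing R) L
  exact h i L inferInstance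

end Groth.Agent.S9394
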