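import Groth.Statements.S9402
import Groth.Agent.Lib.Helper14_WeakAss

set_option autoImplicit false
universe u
open CAlg

namespace Groth.Agent.S9402

open Groth.Agent.H14

/-- Let R → S be a ring map with S a nonzero algebra over the rationals and f ∈ S such that some
S-linear form on the module of differentials of S over R sends df to 1 (that is, df spans a free
direct summand of rank one). Then f is not nilpotent. (The published statement asks only that S·df
be a direct summand of the module of differentials, which also holds for the rationals with a
square-zero element adjoined and for the zero ring, where f is nilpotent; this row asks for an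
S-linear form on the differentials sending df to 1, as the published proof uses, and S nonzero.) -/
theorem result (R : Type u) [CommRing R] (S : Type u)
    [CommRing S] [Nontrivial S] [Algebra R S] [Algebra ℚ S] (f : S)
    (θ : Ω[S⁄R] →ₗ[S] S) (hθ : θ (KaehlerDifferential.D R S f) = 1) : ¬ IsNilpotent f := by
  intro hf
  classical
  have h0 := Nat.find_spec hf
  have hmin := fun m (hm : m < Nat.find hf) => Nat.find_min hf hm
  rcases Nat.eq_zero_or_pos (Nat.find hf) with h1 | h1
  · rw [h1, pow_zero] at h0
    exact one_ne_zero h0
  · obtain ⟨n, hn⟩ := Nat.exists_eq_succ_of_ne_zero h1.ne'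
    apply hmin n (by omega)
    rw [hn] at h0
    have h2 : KaehlerDifferential.D R S (f ^ (n + 1)) = 0 := by rw [h0, map_zero]
    rw [Derivation.leibniz_pow] at h2
    have h3 := congrArg θ h2
    rw [map_zero, map_nsmul, map_smul, hθ, smul_eq_mul, mul_one, Nat.add_sub_cancel] at h3
    have h4 : ((n + 1 : ℕ) : ℚ) • f ^ n = 0 := by
      rw [Nat.cast_smul_eq_nsmul]; exact h3
    exact (smul_eq_zero_iff_right (by positivity)).1 h4

end Groth.Agent.S9402
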