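import Groth.Statements.S9403
import Groth.Agent.Lib.Helper14_WeakAss

set_option autoImplicit false
universe u
open CAlg

namespace Groth.Agent.S9403

open Groth.Agent.H14

/-- Let R → S be a ring map with S a Noetherian local ring which is an algebra over the rationals, and f
∈ S such that some S-linear form on the module of differentials of S over R sends df to 1 (df spans
a free direct summand of rank one). Then f is a nonzerodivisor of S. (The published statement asks
only that S·df be a direct summand of the module of differentials, which also holds for the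
rationals with a square-zero element adjoined, where f is a zero divisor; this row asks for an
S-linear form on the differentials sending df to 1, as the published proof uses.) -/
theorem result (R : Type u) [CommRing R]
    (S : Type u) [CommRing S] [IsLocalRing S] [IsNoetherianRing S] [Algebra R S] [Algebra ℚ S]
    (f : S) (θ : Ω[S⁄R] →ₗ[S] S) (hθ : θ (KaehlerDifferential.D R S f) = 1) : f ∈ nonZeroDivisors S := by
  have key : ∀ n : ℕ, ∀ h : S, f ^ (n + 1) * h = 0 → ∃ h' : S, f ^ n * h = f ^ (n + 1) * h' := by
    intro n h hfh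
    have h2 : KaehlerDifferential.D R S (f ^ (n + 1) * h) = 0 := by rw [hfh, map_zero]
    rw [Derivation.leibniz, Derivation.leibniz_pow] at h2
    have h3 := congrArg θ h2
    rw [map_zero, map_add, map_smul, map_smul, map_nsmul, map_smul, hθ, smul_eq_mul, smul_eq_mul, smul_eq_mul, mul_one, Nat.add_sub_cancel] at h3
    have h4 : ((n + 1 : ℕ) : ℚ) • (f ^ n * h) = - (f ^ (n + 1) * θ (KaehlerDifferential.D R S h)) := by
      rw [Nat.cast_smul_eq_nsmul, eq_neg_iff_add_eq_zero, ← h3, nsmul_eq_mul, nsmul_eq_mul]
      ring
    refine ⟨((n + 1 : ℕ) : ℚ)⁻¹ • (-θ (KaehlerDifferential.D R S h)), ?_⟩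
    rw [mul_smul_comm, mul_neg, ← h4, inv_smul_smul₀ (by positivity)]
  by_cases hu : IsUnit f
  · exact hu.mem_nonZeroDivisors
  rw [mem_nonZeroDivisors_iff_right]
  intro g hg
  have hall : ∀ n : ℕ, ∃ h : S, g = f ^ n * h := by
    intro n
    induction n with
    | zero => exact ⟨g, by simp⟩
    | succ n ih =>
      obtain ⟨h, hh⟩ := ih
      have h1 : f ^ (n + 1) * h = 0 := by
        rw [pow_succ, mul_assoc, mul_comm f h, ← mul_assoc, ← hh, hg]
      obtain ⟨h', hh'⟩ := key n h h1
      exact ⟨h', by rw [hh, hh']⟩
  have h1 : g ∈ ⨅ n : ℕ, (IsLocalRing.maximalIdeal S) ^ n := by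
    rw [Submodule.mem_iInf]
    intro n
    obtain ⟨h, hh⟩ := hall n
    rw [hh]
    exact Ideal.mul_mem_right _ _ (Ideal.pow_mem_pow ((IsLocalRing.mem_maximalIdeal f).2 hu) n)
  rw [Ideal.iInf_pow_eq_bot_of_isLocalRing _ (IsLocalRing.maximalIdeal.isMaximal S).ne_top] at h1
  exact h1

end Groth.Agent.S9403
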