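import Groth.Statements.S9424
import Mathlib

set_option autoImplicit false
universe u
open CAlg

namespace Groth.Agent.S9424



/-- A directed colimit of formally unramified R-algebras is formally unramified over R. The colimit is
encoded by compatible R-algebra maps S_i → S which are jointly surjective and whose kernels die
further along the system. -/
theorem result {ι : Type u} [Preorder ι] [IsDirected ι (· ≤ ·)] [Nonempty ι]
    (R : Type u) [CommRing R] (G : ι → Type u) [∀ i, CommRing (G i)] [∀ i, Algebra R (G i)]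
    (f : ∀ i j, i ≤ j → (G i →ₐ[R] G j)) (S : Type u) [CommRing S] [Algebra R S]
    (g : ∀ i, G i →ₐ[R] S) (hg : ∀ i j (h : i ≤ j), (g j).comp (f i j h) = g i)
    (hsurj : ∀ s : S, ∃ i, ∃ x : G i, g i x = s)
    (hker : ∀ i (x : G i), g i x = 0 → ∃ j, ∃ h : i ≤ j, f i j h x = 0)
    (h : ∀ i, Algebra.FormallyUnramified R (G i)) : Algebra.FormallyUnramified R S := by
  rw [Algebra.FormallyUnramified.iff_comp_injective]
  intro B _ _ I hI f1 f2 hf
  ext s
  obtain ⟨i, x, rfl⟩ := hsurj s
  have h1 := (Algebra.FormallyUnramified.iff_comp_injective (R := R) (A := G i)).1 (h i) I hI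
  have h2 : f1.comp (g i) = f2.comp (g i) := by
    apply h1
    have hf' : (Ideal.Quotient.mkₐ R I).comp f1 = (Ideal.Quotient.mkₐ R I).comp f2 := hf
    show (Ideal.Quotient.mkₐ R I).comp (f1.comp (g i)) = (Ideal.Quotient.mkₐ R I).comp (f2.comp (g i))
    rw [← AlgHom.comp_assoc, ← AlgHom.comp_assoc, hf']
  exact DFunLike.congr_fun h2 x

end Groth.Agent.S9424
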