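import Groth.Statements.S9425
import Mathlib

set_option autoImplicit false
universe u
open CAlg

namespace Groth.Agent.S9425



/-- A directed colimit of formally étale R-algebras is formally étale over R. The colimit is encoded by
compatible R-algebra maps S_i → S which are jointly surjective and whose kernels die further along
the system. -/
theorem result {ι : Type u} [Preorder ι] [IsDirected ι (· ≤ ·)] [Nonempty ι]
    (R : Type u) [CommRing R] (G : ι → Type u) [∀ i, CommRing (G i)] [∀ i, Algebra R (G i)]
    (f : ∀ i j, i ≤ j → (G i →ₐ[R] G j)) (S : Type u) [CommRing S] [Algebra R S]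
    (g : ∀ i, G i →ₐ[R] S) (hg : ∀ i j (h : i ≤ j), (g j).comp (f i j h) = g i)
    (hsurj : ∀ s : S, ∃ i, ∃ x : G i, g i x = s)
    (hker : ∀ i (x : G i), g i x = 0 → ∃ j, ∃ h : i ≤ j, f i j h x = 0)
    (h : ∀ i, Algebra.FormallyEtale R (G i)) : Algebra.FormallyEtale R S := by
  rw [Algebra.FormallyEtale.iff_comp_bijective]
  intro B _ _ I hI
  have hG := fun i => (Algebra.FormallyEtale.iff_comp_bijective (R := R) (A := G i)).1 (h i) I hI
  constructor
  · intro f1 f2 hf
    ext s
    obtain ⟨i, x, rfl⟩ := hsurj s
    have h2 : f1.comp (g i) = f2.comp (g i) := by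
      apply (hG i).1
      have hf' : (Ideal.Quotient.mkₐ R I).comp f1 = (Ideal.Quotient.mkₐ R I).comp f2 := hf
      show (Ideal.Quotient.mkₐ R I).comp (f1.comp (g i)) = (Ideal.Quotient.mkₐ R I).comp (f2.comp (g i))
      rw [← AlgHom.comp_assoc, ← AlgHom.comp_assoc, hf']
    exact DFunLike.congr_fun h2 x
  · intro ψ
    have h1 : ∀ i, ∃ χ : G i →ₐ[R] B, (Ideal.Quotient.mkₐ R I).comp χ = ψ.comp (g i) := fun i => (hG i).2 (ψ.comp (g i))
    choose χ hχ using h1
    have hcomp : ∀ i j (hij : i ≤ j), (χ j).comp (f i j hij) = χ i := by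
      intro i j hij
      apply (hG i).1
      show (Ideal.Quotient.mkₐ R I).comp ((χ j).comp (f i j hij)) = (Ideal.Quotient.mkₐ R I).comp (χ i)
      rw [← AlgHom.comp_assoc, hχ, hχ, AlgHom.comp_assoc, hg]
    have hcompx : ∀ i j (hij : i ≤ j) (x : G i), χ j (f i j hij x) = χ i x := fun i j hij x => DFunLike.congr_fun (hcomp i j hij) x
    have hgx : ∀ i j (hij : i ≤ j) (x : G i), g j (f i j hij x) = g i x := fun i j hij x => DFunLike.congr_fun (hg i j hij) x
    have hkey : ∀ i j (x : G i) (y : G j), g i x = g j y → χ i x = χ j y := by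
      intro i j x y hxy
      obtain ⟨k, hik, hjk⟩ := directed_of (· ≤ ·) i j
      have h2 : g k (f i k hik x - f j k hjk y) = 0 := by
        rw [map_sub, hgx, hgx, hxy, sub_self]
      obtain ⟨l, hkl, h3⟩ := hker k _ h2
      have h4 := congrArg (χ l) h3
      rw [map_zero, hcompx, map_sub, hcompx, hcompx, sub_eq_zero] at h4
      exact h4
    choose i x hx using hsurj
    have hF : ∀ j (y : G j), χ (i (g j y)) (x (g j y)) = χ j y := fun j y => hkey _ _ _ _ (hx _)
    have hcommon : ∀ s t : S, ∃ k, ∃ a b : G k, g k a = s ∧ g k b = t := by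
      intro s t
      obtain ⟨k, hik, hjk⟩ := directed_of (· ≤ ·) (i s) (i t)
      exact ⟨k, f _ k hik (x s), f _ k hjk (x t), by rw [hgx, hx], by rw [hgx, hx]⟩
    let F : S →ₐ[R] B :=
      { toFun := fun s => χ (i s) (x s)
        map_one' := by
          obtain ⟨k⟩ := (inferInstance : Nonempty ι)
          have := hF k 1
          rw [map_one, map_one] at this
          exact this
        map_mul' := by
          intro s t
          obtain ⟨k, a, b, rfl, rfl⟩ := hcommon s t
          rw [hF, hF]
          have := hF k (a * b)
          rw [map_mul, map_mul] at this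
          exact this
        map_zero' := by
          obtain ⟨k⟩ := (inferInstance : Nonempty ι)
          have := hF k 0
          rw [map_zero, map_zero] at this
          exact this
        map_add' := by
          intro s t
          obtain ⟨k, a, b, rfl, rfl⟩ := hcommon s t
          rw [hF, hF]
          have := hF k (a + b)
          rw [map_add, map_add] at this
          exact this
        commutes' := by
          intro r
          obtain ⟨k⟩ := (inferInstance : Nonempty ι)
          have := hF k (algebraMap R (G k) r)
          rw [AlgHom.commutes, AlgHom.commutes] at this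
          exact this }
    refine ⟨F, ?_⟩
    apply AlgHom.ext
    intro s
    obtain ⟨k, a, b, rfl, -⟩ := hcommon s s
    show Ideal.Quotient.mk I (χ (i (g k a)) (x (g k a))) = ψ (g k a)
    rw [hF]
    exact DFunLike.congr_fun (hχ k) a

end Groth.Agent.S9425
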