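import Groth.Statements.S9426
import Mathlib

set_option autoImplicit false
universe u
open OmegaSh

namespace Groth.Agent.S9426


open TensorProduct

theorem claim3 {R P A : Type u} [CommRing R] [CommRing P] [CommRing A] [Algebra R P] [Algebra R A] (J : Ideal P) (I : Ideal A) (hI : I ^ 2 = ⊥)
    (φ1 φ2 : P →ₐ[R] A) (e : (Ideal.Quotient.mkₐ R I).comp φ1 = (Ideal.Quotient.mkₐ R I).comp φ2) (hJ : ∀ j ∈ J, φ1 j ∈ I) (x y : P)
    (hxy : KaehlerDifferential.D R P x - KaehlerDifferential.D R P y ∈ J • (⊤ : Submodule P Ω[P⁄R])) : φ2 x - φ1 x = φ2 y - φ1 y := by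
  letI : Algebra P A := φ1.toRingHom.toAlgebra
  haveI : IsScalarTower R P A := IsScalarTower.of_algebraMap_eq' φ1.comp_algebraMap.symm
  have e' : (Ideal.Quotient.mkₐ R I).comp φ2 = IsScalarTower.toAlgHom R P (A ⧸ I) := by
    rw [← e]
    apply AlgHom.ext
    intro z
    rfl
  let d : Derivation R P I := derivationToSquareZeroOfLift I hI φ2 e'
  have hd : ∀ z, ((d z : I) : A) = φ2 z - φ1 z := fun z => rfl
  have h1 : d.liftKaehlerDifferential (KaehlerDifferential.D R P x - KaehlerDifferential.D R P y) = 0 := by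
    have h2 : (J • (⊤ : Submodule P Ω[P⁄R])) ≤ LinearMap.ker d.liftKaehlerDifferential := by
      rw [Submodule.smul_le]
      intro j hj ω _
      rw [LinearMap.mem_ker, map_smul]
      apply Subtype.ext
      show φ1 j * ((d.liftKaehlerDifferential ω : I) : A) = 0
      have h3 : φ1 j * ((d.liftKaehlerDifferential ω : I) : A) ∈ I ^ 2 := by
        rw [pow_two]
        exact Ideal.mul_mem_mul (hJ j hj) (d.liftKaehlerDifferential ω).2
      rw [hI] at h3
      exact h3
    exact h2 hxy
  rw [map_sub, Derivation.liftKaehlerDifferential_comp_D, Derivation.liftKaehlerDifferential_comp_D, sub_eq_zero] at h1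
  rw [← hd, ← hd, h1]

theorem claim12 {R P S : Type u} [CommRing R] [CommRing P] [CommRing S] [Algebra R P] [Algebra R S] [Algebra P S] [IsScalarTower R P S]
    (hs : Function.Surjective (algebraMap P S)) [Algebra.FormallyUnramified R S] (x : P) :
    ∃ j ∈ RingHom.ker (algebraMap P S), KaehlerDifferential.D R P j - KaehlerDifferential.D R P x ∈ (RingHom.ker (algebraMap P S)) • (⊤ : Submodule P Ω[P⁄R]) := by
  have hsub : Subsingleton Ω[S⁄R] := inferInstance
  have h1 : KaehlerDifferential.mapBaseChange R P S (1 ⊗ₜ KaehlerDifferential.D R P x) = 0 := Subsingleton.elim _ _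
  obtain ⟨c, hc⟩ := (KaehlerDifferential.exact_kerCotangentToTensor_mapBaseChange R P S hs _).1 h1
  obtain ⟨⟨j, hj⟩, rfl⟩ := Ideal.toCotangent_surjective _ c
  rw [KaehlerDifferential.kerCotangentToTensor_toCotangent] at hc
  refine ⟨j, hj, ?_⟩
  have h2 : (1 : S) ⊗ₜ[P] (KaehlerDifferential.D R P j - KaehlerDifferential.D R P x) = 0 := by
    rw [TensorProduct.tmul_sub, sub_eq_zero]
    exact hc
  have hex : Function.Exact (Submodule.subtype (RingHom.ker (algebraMap P S))) (Algebra.linearMap P S) := by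
    intro z
    constructor
    · intro hz; exact ⟨⟨z, hz⟩, rfl⟩
    · rintro ⟨z, rfl⟩; exact z.2
  have h3 := rTensor_exact Ω[P⁄R] hex hs
  have h4 : (LinearMap.rTensor Ω[P⁄R] (Algebra.linearMap P S)) ((1 : P) ⊗ₜ (KaehlerDifferential.D R P j - KaehlerDifferential.D R P x)) = 0 := by
    rw [LinearMap.rTensor_tmul, Algebra.linearMap_apply, map_one]
    exact h2
  obtain ⟨t, ht⟩ := (h3 _).1 h4
  have h5 : ∀ t : (RingHom.ker (algebraMap P S)) ⊗[P] Ω[P⁄R], TensorProduct.lid P Ω[P⁄R] (LinearMap.rTensor Ω[P⁄R] (Submodule.subtype (RingHom.ker (algebraMap P S))) t) ∈ (RingHom.ker (algebraMap P S)) • (⊤ : Submodule P Ω[P⁄R]) := by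
    intro t
    induction t using TensorProduct.induction_on with
    | zero => rw [map_zero, map_zero]; exact Submodule.zero_mem _
    | tmul a b =>
      rw [LinearMap.rTensor_tmul, TensorProduct.lid_tmul]
      exact Submodule.smul_mem_smul a.2 trivial
    | add a b ha hb => rw [map_add, map_add]; exact Submodule.add_mem _ ha hb
  have h6 := h5 t
  rw [ht, TensorProduct.lid_tmul, one_smul] at h6
  exact h6

/-- A formally unramified R-algebra S admits a universal first order thickening: an R-algebra surjection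
S' → S with square-zero kernel through which every R-algebra map from S into a square-zero quotient
A/I lifts uniquely to A. -/
theorem result (R : Type u) [CommRing R]
    (S : Type u) [CommRing S] [Algebra R S] [Algebra.FormallyUnramified R S] :
    ∃ (S' : Type u) (_ : CommRing S') (_ : Algebra R S') (π : S' →ₐ[R] S),
      OmegaSh.IsUnivThickeningRing R S S' π := by
  classical
  let P := MvPolynomial S R
  let π0 : P →ₐ[R] S := MvPolynomial.aeval (fun s : S => s)
  letI : Algebra P S := π0.toRingHom.toAlgebra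
  haveI : IsScalarTower R P S := IsScalarTower.of_algebraMap_eq' π0.comp_algebraMap.symm
  have hs : Function.Surjective (algebraMap P S) := fun s => ⟨MvPolynomial.X s, MvPolynomial.aeval_X _ s⟩
  let J : Ideal P := RingHom.ker (algebraMap P S)
  have h1 : ∀ s : S, ∃ j ∈ J, KaehlerDifferential.D R P j - KaehlerDifferential.D R P (MvPolynomial.X s) ∈ J • (⊤ : Submodule P Ω[P⁄R]) :=
    fun s => claim12 hs (MvPolynomial.X s)
  choose j hjJ hj using h1
  let K : Ideal P := J ^ 2 ⊔ Ideal.span (Set.range j)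
  have hKJ : K ≤ J := sup_le (Ideal.pow_le_self two_ne_zero) (Ideal.span_le.2 (by rintro _ ⟨s, rfl⟩; exact hjJ s))
  let π : (P ⧸ K) →ₐ[R] S := Ideal.Quotient.liftₐ K π0 (fun x hx => hKJ hx)
  have hπ : ∀ x, π (Ideal.Quotient.mk K x) = π0 x := fun x => rfl
  refine ⟨P ⧸ K, (inferInstance : CommRing (P ⧸ K)), (inferInstance : Algebra R (P ⧸ K)), π, ?_, ?_, ?_⟩
  · intro s
    refine ⟨Ideal.Quotient.mk K (MvPolynomial.X s), ?_⟩
    rw [hπ]
    exact MvPolynomial.aeval_X _ s
  · have h2 : RingHom.ker π.toRingHom ≤ J.map (Ideal.Quotient.mk K) := by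
      intro x hx
      obtain ⟨x, rfl⟩ := Ideal.Quotient.mk_surjective x
      exact Ideal.mem_map_of_mem _ (show x ∈ J from hx)
    have h3 := Ideal.pow_right_mono h2 2
    rw [← Ideal.map_pow] at h3
    refine le_bot_iff.1 (h3.trans ?_)
    rw [Ideal.map_le_iff_le_comap]
    intro x hx
    exact Ideal.Quotient.eq_zero_iff_mem.2 (Ideal.mem_sup_left hx)
  · intro A _ _ I hI a
    have hb : ∀ s : S, ∃ b : A, Ideal.Quotient.mk I b = a s := fun s => Ideal.Quotient.mk_surjective _
    choose b hb using hb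
    have hcomp : ∀ φ : P →ₐ[R] A, (∀ s, Ideal.Quotient.mk I (φ (MvPolynomial.X s)) = a s) → (Ideal.Quotient.mkₐ R I).comp φ = a.comp π0 := by
      intro φ hφ
      apply MvPolynomial.algHom_ext
      intro s
      show Ideal.Quotient.mk I (φ (MvPolynomial.X s)) = a (π0 (MvPolynomial.X s))
      rw [hφ]
      exact congrArg a (MvPolynomial.aeval_X (R := R) (fun s : S => s) s).symm
    have hJI : ∀ φ : P →ₐ[R] A, (Ideal.Quotient.mkₐ R I).comp φ = a.comp π0 → ∀ x ∈ J, φ x ∈ I := by
      intro φ hφ x hx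
      have h2 := DFunLike.congr_fun hφ x
      have h3 : π0 x = 0 := hx
      have h4 : Ideal.Quotient.mk I (φ x) = a (π0 x) := h2
      rw [h3, map_zero] at h4
      exact Ideal.Quotient.eq_zero_iff_mem.1 h4
    let φ : P →ₐ[R] A := MvPolynomial.aeval b
    have hφX : ∀ s, φ (MvPolynomial.X s) = b s := fun s => MvPolynomial.aeval_X _ s
    have hφ := hcomp φ (fun s => by rw [hφX, hb])
    let φ' : P →ₐ[R] A := MvPolynomial.aeval (fun s => b s - φ (j s))
    have hφ'X : ∀ s, φ' (MvPolynomial.X s) = b s - φ (j s) := fun s => MvPolynomial.aeval_X _ s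
    have hφ' := hcomp φ' (fun s => by
      rw [hφ'X, map_sub, hb, Ideal.Quotient.eq_zero_iff_mem.2 (hJI φ hφ (j s) (hjJ s)), sub_zero])
    have hkill : ∀ s, φ' (j s) = 0 := by
      intro s
      have h2 := claim3 J I hI φ φ' (hφ.trans hφ'.symm) (hJI φ hφ) (j s) (MvPolynomial.X s) (hj s)
      rw [hφX, hφ'X] at h2
      have h3 : φ' (j s) = φ (j s) + (b s - φ (j s) - b s) := by rw [← h2]; ring
      rw [h3]; ring
    have hK : ∀ x ∈ K, φ' x = 0 := by
      have h2 : K ≤ RingHom.ker φ'.toRingHom := by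
        refine sup_le ?_ (Ideal.span_le.2 (by rintro _ ⟨s, rfl⟩; exact hkill s))
        have h3 : J ≤ I.comap φ'.toRingHom := fun x hx => hJI φ' hφ' x hx
        have h4 := (Ideal.pow_right_mono h3 2).trans (Ideal.le_comap_pow _ 2)
        rw [hI] at h4
        exact h4
      exact fun x hx => h2 hx
    refine ⟨Ideal.Quotient.liftₐ K φ' hK, ?_, ?_⟩
    · apply Ideal.Quotient.algHom_ext
      exact hφ'
    · intro a'' ha''
      apply Ideal.Quotient.algHom_ext
      have hφ'' : (Ideal.Quotient.mkₐ R I).comp (a''.comp (Ideal.Quotient.mkₐ R K)) = a.comp π0 := by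
        have ha3 : (Ideal.Quotient.mkₐ R I).comp a'' = a.comp π := ha''
        rw [← AlgHom.comp_assoc, ha3]
        rfl
      apply MvPolynomial.algHom_ext
      intro s
      have h2 := claim3 J I hI φ' (a''.comp (Ideal.Quotient.mkₐ R K)) (hφ'.trans hφ''.symm) (hJI φ' hφ') (j s) (MvPolynomial.X s) (hj s)
      have hjK : j s ∈ K := Ideal.mem_sup_right (Ideal.subset_span (Set.mem_range_self s))
      have h3 : (a''.comp (Ideal.Quotient.mkₐ R K)) (j s) = 0 := by
        show a'' (Ideal.Quotient.mk K (j s)) = 0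
        rw [Ideal.Quotient.eq_zero_iff_mem.2 hjK, map_zero]
      rw [h3, hkill, sub_zero] at h2
      exact (sub_eq_zero.1 h2.symm)

end Groth.Agent.S9426
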