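import Groth.Statements.S9428
import Mathlib

set_option autoImplicit false
universe u
open CAlg

namespace Groth.Agent.S9428



/-- If R → S is formally étale and J ⊆ S is an ideal with R → S/J surjective, I ⊆ R its kernel (the
preimage of J), then R/I^n → S/J^n is bijective for all n. (The published statement adds that the
associated graded rings are then isomorphic, which follows from these bijections.) -/
theorem result (R : Type u) [CommRing R] (S : Type u)
    [CommRing S] [Algebra R S] [Algebra.FormallyEtale R S] (J : Ideal S)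
    (hJ : Function.Surjective (algebraMap R (S ⧸ J))) (n : ℕ) :
    Function.Bijective (Ideal.quotientMap (J ^ n) (algebraMap R S)
      (le_of_le_of_eq (Ideal.le_comap_pow (algebraMap R S) n) rfl :
        (J.comap (algebraMap R S)) ^ n ≤ (J ^ n).comap (algebraMap R S))) := by
  rcases Nat.eq_zero_or_pos n with rfl | hn
  · have h1 : Subsingleton (R ⧸ (J.comap (algebraMap R S)) ^ 0) := by
      rw [pow_zero, Ideal.one_eq_top]; exact Ideal.Quotient.subsingleton_iff.2 rfl
    have h2 : Subsingleton (S ⧸ J ^ 0) := by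
      rw [pow_zero, Ideal.one_eq_top]; exact Ideal.Quotient.subsingleton_iff.2 rfl
    exact ⟨fun _ _ _ => Subsingleton.elim _ _, fun y => ⟨0, Subsingleton.elim _ _⟩⟩
  · set I := J.comap (algebraMap R S) with hI
    let c : (R ⧸ I ^ n) →ₐ[R] (S ⧸ J ^ n) :=
      { Ideal.quotientMap (J ^ n) (algebraMap R S)
          (le_of_le_of_eq (Ideal.le_comap_pow (algebraMap R S) n) rfl : I ^ n ≤ (J ^ n).comap (algebraMap R S)) with
        commutes' := fun r => rfl }
    have hIJ : I ^ n ≤ RingHom.ker (Algebra.ofId R (S ⧸ J)).toRingHom := by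
      intro a ha
      have : a ∈ I := Ideal.pow_le_self hn.ne' ha
      exact Ideal.Quotient.eq_zero_iff_mem.2 this
    let g : (R ⧸ I ^ n) →ₐ[R] (S ⧸ J) := Ideal.Quotient.liftₐ (I ^ n) (Algebra.ofId R (S ⧸ J)) (fun a ha => hIJ ha)
    have hgs : Function.Surjective g := by
      intro y
      obtain ⟨r, hr⟩ := hJ y
      exact ⟨Ideal.Quotient.mk _ r, hr⟩
    have hgk : IsNilpotent (RingHom.ker (g : (R ⧸ I ^ n) →+* (S ⧸ J))) := by
      refine ⟨n, ?_⟩
      have h1 : RingHom.ker (g : (R ⧸ I ^ n) →+* (S ⧸ J)) ≤ I.map (Ideal.Quotient.mk (I ^ n)) := by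
        intro x hx
        obtain ⟨x, rfl⟩ := Ideal.Quotient.mk_surjective x
        have h2 : (Ideal.Quotient.mk J) (algebraMap R S x) = 0 := hx
        have h5 : algebraMap R S x ∈ J := Ideal.Quotient.eq_zero_iff_mem.1 h2
        exact Ideal.mem_map_of_mem _ (show x ∈ I from h5)
      have h3 := Ideal.pow_right_mono h1 n
      rw [← Ideal.map_pow, Ideal.map_quotient_self] at h3
      exact le_bot_iff.1 h3
    let σ : S →ₐ[R] (R ⧸ I ^ n) := Algebra.FormallySmooth.liftOfSurjective (Ideal.Quotient.mkₐ R J) g hgs hgk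
    have hσ : g.comp σ = Ideal.Quotient.mkₐ R J := Algebra.FormallySmooth.comp_liftOfSurjective _ g hgs hgk
    have hσJ : ∀ x ∈ J ^ n, σ x = 0 := by
      have h1 : J ≤ (I.map (Ideal.Quotient.mk (I ^ n))).comap (σ : S →+* (R ⧸ I ^ n)) := by
        intro x hx
        rw [Ideal.mem_comap]
        obtain ⟨y, hy⟩ := Ideal.Quotient.mk_surjective (σ x)
        have h2 : g (σ x) = 0 := by
          have := DFunLike.congr_fun hσ x
          rw [AlgHom.comp_apply] at this
          rw [this]
          exact Ideal.Quotient.eq_zero_iff_mem.2 hx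
        have h3 : (Ideal.Quotient.mk J) (algebraMap R S y) = 0 := by
          rw [← hy] at h2
          exact h2
        show σ x ∈ _
        rw [← hy]
        have h5 : algebraMap R S y ∈ J := Ideal.Quotient.eq_zero_iff_mem.1 h3
        exact Ideal.mem_map_of_mem _ (show y ∈ I from h5)
      intro x hx
      have h2 := (Ideal.pow_right_mono h1 n).trans (Ideal.le_comap_pow _ n)
      have h3 := h2 hx
      rw [Ideal.mem_comap, ← Ideal.map_pow, Ideal.map_quotient_self] at h3
      exact h3
    let σ' : (S ⧸ J ^ n) →ₐ[R] (R ⧸ I ^ n) := Ideal.Quotient.liftₐ (J ^ n) σ hσJ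
    have h1 : σ'.comp c = AlgHom.id R _ := by
      apply Ideal.Quotient.algHom_ext
      apply AlgHom.ext
      intro r
      exact (σ'.comp c).commutes r
    have h2 : (c.comp σ) = Ideal.Quotient.mkₐ R (J ^ n) := by
      have hnil : IsNilpotent (J.map (Ideal.Quotient.mk (J ^ n))) := by
        refine ⟨n, ?_⟩
        rw [← Ideal.map_pow, Ideal.map_quotient_self]
        rfl
      apply Algebra.FormallyUnramified.lift_unique (J.map (Ideal.Quotient.mk (J ^ n))) hnil
      apply AlgHom.ext
      intro x
      show Ideal.Quotient.mk _ (c (σ x)) = Ideal.Quotient.mk _ (Ideal.Quotient.mk (J ^ n) x)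
      obtain ⟨y, hy⟩ := Ideal.Quotient.mk_surjective (σ x)
      rw [← hy]
      have h3 : (Ideal.Quotient.mk J) (algebraMap R S y) = Ideal.Quotient.mk J x := by
        have := DFunLike.congr_fun hσ x
        rw [AlgHom.comp_apply, ← hy] at this
        exact this
      rw [Ideal.Quotient.eq] at h3 ⊢
      show Ideal.Quotient.mk (J ^ n) (algebraMap R S y) - _ ∈ _
      rw [← map_sub]
      exact Ideal.mem_map_of_mem _ h3
    constructor
    · intro a b hab
      have h3 : σ' (c a) = σ' (c b) := congrArg σ' hab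
      have h4 := DFunLike.congr_fun h1 a
      have h5 := DFunLike.congr_fun h1 b
      rw [AlgHom.comp_apply] at h4 h5
      rw [h4, h5] at h3
      exact h3
    · intro y
      obtain ⟨y, rfl⟩ := Ideal.Quotient.mk_surjective y
      exact ⟨σ y, DFunLike.congr_fun h2 y⟩

end Groth.Agent.S9428
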