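import Groth.Statements.S9581
import Groth.Agent.Lib.Helper14_WeakAss

set_option autoImplicit false
universe u
open CAlg

namespace Groth.Agent.S9581

open Groth.Agent.H14

/-- (1) ⇔ (3): for a ring R, an R-module M and a prime p of R, the prime p is weakly associated to M
(minimal among the primes containing the annihilator of some element of M) if and only if the
localization M_p contains an element whose annihilator in R_p has radical equal to the maximal ideal
p R_p. -/
theorem result {R : Type u} [CommRing R] (M : Type u) [AddCommGroup M] [Module R M] (p : Ideal R) [p.IsPrime] :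
    p ∈ FlatCA.weakAss R M ↔ IsAssociatedPrime (IsLocalRing.maximalIdeal (Localization.AtPrime p)) (LocalizedModule p.primeCompl M) := by
  have hpp : p.IsPrime := inferInstance
  have hmem : ∀ (a : R) (s : p.primeCompl), IsLocalization.mk' (Localization.AtPrime p) a s ∈ IsLocalRing.maximalIdeal (Localization.AtPrime p) ↔ a ∈ p :=
    fun a s => IsLocalization.AtPrime.mk'_mem_maximal_iff (Localization.AtPrime p) p a s
  have hact : ∀ (a : R) (s : p.primeCompl) (m : M) (t : p.primeCompl), IsLocalization.mk' (Localization.AtPrime p) a s • LocalizedModule.mk m t = 0 ↔ ∃ u, u ∉ p ∧ (u * a) • m = 0 := by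
    intro a s m t
    rw [← Localization.mk_eq_mk', LocalizedModule.mk_smul_mk, mk_eq_zero_iff]
    constructor
    · rintro ⟨u, hu⟩
      exact ⟨u, u.2, by rw [mul_smul]; exact hu⟩
    · rintro ⟨u, hu, h⟩
      exact ⟨⟨u, hu⟩, by rw [mul_smul] at h; exact h⟩
  rw [mem_weakAss_iff]
  constructor
  · rintro ⟨hp, m, h1, h2⟩
    refine ⟨inferInstance, LocalizedModule.mk m 1, ?_⟩
    ext z
    obtain ⟨a, s, rfl⟩ := IsLocalization.exists_mk'_eq p.primeCompl z
    rw [hmem]
    constructor
    · intro ha
      obtain ⟨u, hu, n, hn⟩ := h2 a ha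
      refine ⟨n, ?_⟩
      rw [Submodule.mem_colon_singleton, ← IsLocalization.mk'_pow, Submodule.mem_bot, hact]
      exact ⟨u, hu, hn⟩
    · rintro ⟨n, hn⟩
      rw [Submodule.mem_colon_singleton, ← IsLocalization.mk'_pow, Submodule.mem_bot, hact] at hn
      obtain ⟨u, hu, h⟩ := hn
      exact hp.mem_of_pow_mem _ ((hp.mem_or_mem (h1 _ h)).resolve_left hu)
  · rintro ⟨_, x, hx⟩
    obtain ⟨⟨m, t⟩, rfl⟩ : ∃ y : M × p.primeCompl, LocalizedModule.mk y.1 y.2 = x := by
      induction x using LocalizedModule.induction_on with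
      | h m s => exact ⟨⟨m, s⟩, rfl⟩
    refine ⟨hpp, m, fun a ha => ?_, fun a ha => ?_⟩
    · rw [← hmem a 1, hx]
      refine ⟨1, ?_⟩
      rw [pow_one, Submodule.mem_colon_singleton, Submodule.mem_bot, hact]
      exact ⟨1, (Ideal.ne_top_iff_one p).1 hpp.ne_top, by rw [one_mul, ha]⟩
    · rw [← hmem a 1, hx] at ha
      obtain ⟨n, hn⟩ := ha
      rw [Submodule.mem_colon_singleton, ← IsLocalization.mk'_pow, Submodule.mem_bot, hact] at hn
      obtain ⟨u, hu, h⟩ := hn
      exact ⟨u, hu, n, h⟩

end Groth.Agent.S9581
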