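import Groth.Statements.S9582
import Groth.Agent.Lib.Helper14_WeakAss

set_option autoImplicit false
universe u
open CAlg

namespace Groth.Agent.S9582

open Groth.Agent.H14

/-- For a reduced ring R, the primes weakly associated to the R-module R (primes minimal over the
annihilator of some element) are exactly the minimal primes of R. -/
theorem result {R : Type u} [CommRing R] [IsReduced R] :
    FlatCA.weakAss R R = minimalPrimes R := by
  ext p
  constructor
  · intro h
    obtain ⟨hp, m, h1, h2⟩ := mem_weakAss_iff.1 h
    refine ⟨⟨hp, bot_le⟩, ?_⟩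
    rintro q ⟨hq, -⟩ hqp a ha
    by_cases hm : m ∈ q
    · exfalso
      obtain ⟨s, hs, n, hn⟩ := h2 m (hqp hm)
      apply hs
      apply h1
      have : (s * m) ^ (n + 1) = 0 := by
        have h3 : (s * m ^ n) * m = 0 := hn
        calc (s * m) ^ (n + 1) = s ^ n * ((s * m ^ n) * m) := by ring
          _ = 0 := by rw [h3, mul_zero]
      exact eq_zero_of_pow_eq_zero this
    · obtain ⟨s, hs, n, hn⟩ := h2 a ha
      have h3 : (s * a ^ n) * m = 0 := hn
      have h4 : (s * a ^ n) * m ∈ q := by rw [h3]; exact q.zero_mem
      rcases hq.mem_or_mem h4 with h | h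
      · rcases hq.mem_or_mem h with h | h
        · exact absurd (hqp h) hs
        · exact hq.mem_of_pow_mem _ h
      · exact absurd h hm
  · intro h
    refine ⟨1, ?_⟩
    have : (Submodule.span R {(1 : R)}).annihilator = ⊥ := by
      ext a
      rw [mem_ann]
      simp
    rw [this]
    exact h

end Groth.Agent.S9582
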