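import Groth.Statements.S9583
import Groth.Agent.Lib.Helper14_WeakAss

set_option autoImplicit false
universe u
open CAlg

namespace Groth.Agent.S9583

open Groth.Agent.H14

/-- For a ring R and a short exact sequence 0 → M' → M → M'' → 0 of R-modules, every prime weakly
associated to M' is weakly associated to M, and every prime weakly associated to M is weakly
associated to M' or to M''. -/
theorem result {R : Type u} [CommRing R] {M' M M'' : Type u} [AddCommGroup M'] [Module R M'] [AddCommGroup M] [Module R M] [AddCommGroup M''] [Module R M''] (f : M' →ₗ[R] M) (g : M →ₗ[R] M'') (hf : Function.Injective f) (hg : Function.Surjective g) (hfg : Function.Exact f g) :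
    FlatCA.weakAss R M' ⊆ FlatCA.weakAss R M ∧ FlatCA.weakAss R M ⊆ FlatCA.weakAss R M' ∪ FlatCA.weakAss R M'' := by
  constructor
  · intro p hp
    obtain ⟨hp, m, h1, h2⟩ := mem_weakAss_iff.1 hp
    refine mem_weakAss_iff.2 ⟨hp, f m, fun a ha => h1 a ?_, fun a ha => ?_⟩
    · rw [← map_smul] at ha
      exact (map_eq_zero_iff f hf).1 ha
    · obtain ⟨s, hs, n, hn⟩ := h2 a ha
      refine ⟨s, hs, n, ?_⟩
      rw [← map_smul, hn, map_zero]
  · intro p hp
    obtain ⟨hp, m, h1, h2⟩ := mem_weakAss_iff.1 hp
    by_cases h : ∀ a : R, a • g m = 0 → a ∈ p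
    · right
      refine mem_weakAss_iff.2 ⟨hp, g m, h, fun a ha => ?_⟩
      obtain ⟨s, hs, n, hn⟩ := h2 a ha
      refine ⟨s, hs, n, ?_⟩
      rw [← map_smul, hn, map_zero]
    · left
      push Not at h
      obtain ⟨a, ha, hap⟩ := h
      rw [← map_smul] at ha
      obtain ⟨m', hm'⟩ := (hfg _).1 ha
      refine mem_weakAss_iff.2 ⟨hp, m', fun b hb => ?_, fun b hb => ?_⟩
      · have : b • f m' = 0 := by rw [← map_smul, hb, map_zero]
        rw [hm', smul_smul] at this
        exact (hp.mem_or_mem (h1 _ this)).resolve_right hap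
      · obtain ⟨s, hs, n, hn⟩ := h2 b hb
        refine ⟨s, hs, n, ?_⟩
        apply hf
        rw [map_smul, hm', map_zero, smul_comm, hn, smul_zero]

end Groth.Agent.S9583
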