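import Groth.Statements.S9584
import Groth.Agent.Lib.Helper14_WeakAss

set_option autoImplicit false
universe u
open CAlg

namespace Groth.Agent.S9584

open Groth.Agent.H14

/-- For a ring R and an R-module M, M has no weakly associated prime (no prime minimal over the
annihilator of an element) if and only if M = 0. -/
theorem result {R : Type u} [CommRing R] (M : Type u) [AddCommGroup M] [Module R M] :
    FlatCA.weakAss R M = ∅ ↔ Subsingleton M := by
  constructor
  · intro h
    refine subsingleton_of_forall_eq 0 fun m => ?_
    by_contra hm
    have : (Submodule.span R {m}).annihilator ≠ ⊤ := by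
      intro h
      have h1 : (1 : R) ∈ (Submodule.span R {m}).annihilator := by rw [h]; trivial
      rw [mem_ann, one_smul] at h1
      exact hm h1
    obtain ⟨p, hp⟩ := Ideal.nonempty_minimalPrimes this
    have h2 : p ∈ FlatCA.weakAss R M := ⟨m, hp⟩
    rw [h] at h2
    exact h2
  · intro h
    rw [Set.eq_empty_iff_forall_notMem]
    intro p hp
    obtain ⟨hp, m, h1, h2⟩ := mem_weakAss_iff.1 hp
    exact hp.ne_top ((Ideal.eq_top_iff_one _).2 (h1 1 (Subsingleton.elim _ _)))

end Groth.Agent.S9584
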