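import Groth.Statements.S9585
import Groth.Agent.Lib.Helper14_WeakAss

set_option autoImplicit false
universe u
open CAlg

namespace Groth.Agent.S9585

open Groth.Agent.H14

/-- For a ring R and an R-module M, an element of R lies in some weakly associated prime of M exactly
when multiplication by it on M is not injective; in other words the union of the weakly associated
primes of M equals the set of zerodivisors on M. -/
theorem result {R : Type u} [CommRing R] (M : Type u) [AddCommGroup M] [Module R M] :
    ⋃ q ∈ FlatCA.weakAss R M, (q : Set R) = {f : R | ¬ IsSMulRegular M f} := by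
  ext f
  simp only [Set.mem_iUnion, SetLike.mem_coe, exists_prop, Set.mem_setOf_eq]
  constructor
  · rintro ⟨p, hp, hf⟩ hreg
    obtain ⟨hp, m, h1, h2⟩ := mem_weakAss_iff.1 hp
    obtain ⟨s, hs, n, hn⟩ := h2 f hf
    apply hs
    apply h1
    have := hreg.pow n
    apply this
    show f ^ n • s • m = f ^ n • (0 : M)
    rw [smul_zero, smul_smul, mul_comm, hn]
  · intro hreg
    have : ∃ m : M, f • m = 0 ∧ m ≠ 0 := by
      by_contra hcon
      push Not at hcon
      apply hreg
      intro a b hab
      have : f • (a - b) = 0 := by
        rw [smul_sub]; exact sub_eq_zero.2 hab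
      exact sub_eq_zero.1 (hcon _ this)
    obtain ⟨m, hm, hm0⟩ := this
    have : (Submodule.span R {m}).annihilator ≠ ⊤ := by
      intro h
      have h1 : (1 : R) ∈ (Submodule.span R {m}).annihilator := by rw [h]; trivial
      rw [mem_ann, one_smul] at h1
      exact hm0 h1
    obtain ⟨p, hp⟩ := Ideal.nonempty_minimalPrimes this
    exact ⟨p, ⟨m, hp⟩, hp.1.2 (mem_ann.2 hm)⟩

end Groth.Agent.S9585
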