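import Groth.Statements.S9586
import Groth.Agent.Lib.Helper14_WeakAss

set_option autoImplicit false
universe u
open CAlg

namespace Groth.Agent.S9586

open Groth.Agent.H14

/-- For a ring R, an R-module M and a finitely generated prime ideal p of R, p is associated to M (equal
to the annihilator of an element) if and only if p is weakly associated to M (minimal over the
annihilator of an element). -/
theorem result {R : Type u} [CommRing R] (M : Type u) [AddCommGroup M] [Module R M] (p : Ideal R) [p.IsPrime] (hp : p.FG) :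
    p ∈ FlatCA.ass R M ↔ p ∈ FlatCA.weakAss R M := by
  constructor
  · rintro h
    obtain ⟨hp, m, h1⟩ := mem_ass_iff.1 h
    refine mem_weakAss_iff.2 ⟨hp, m, fun a ha => (h1 a).2 ha, fun a ha => ⟨1, ?_, 1, ?_⟩⟩
    · exact (Ideal.ne_top_iff_one p).1 hp.ne_top
    · rw [one_mul, pow_one]; exact (h1 a).1 ha
  · intro h
    obtain ⟨hp', m, h1, h2⟩ := mem_weakAss_iff.1 h
    let T : Ideal R :=
      { carrier := {y | ∃ t, t ∉ p ∧ (t * y) • m = 0}
        zero_mem' := ⟨1, (Ideal.ne_top_iff_one p).1 hp'.ne_top, by simp⟩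
        add_mem' := by
          rintro a b ⟨t, ht, hta⟩ ⟨s, hs, hsb⟩
          refine ⟨t * s, fun h => (hp'.mem_or_mem h).elim ht hs, ?_⟩
          have : t * s * (a + b) = s * (t * a) + t * (s * b) := by ring
          rw [this, add_smul, mul_smul, hta, mul_smul, hsb]; simp
        smul_mem' := by
          rintro c a ⟨t, ht, hta⟩
          refine ⟨t, ht, ?_⟩
          rw [smul_eq_mul, show t * (c * a) = c * (t * a) by ring, mul_smul, hta, smul_zero] }
    have hTp : T ≤ p := by
      rintro y ⟨t, ht, hy⟩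
      exact (hp'.mem_or_mem (h1 _ hy)).resolve_left ht
    have hrad : p ≤ T.radical := by
      intro a ha
      obtain ⟨s, hs, n, hn⟩ := h2 a ha
      exact ⟨n, s, hs, hn⟩
    obtain ⟨n, hn⟩ := Ideal.exists_pow_le_of_le_radical_of_fg hrad hp
    classical
    let N := Nat.find (⟨n, hn⟩ : ∃ n, p ^ n ≤ T)
    have hN : p ^ N ≤ T := Nat.find_spec (⟨n, hn⟩ : ∃ n, p ^ n ≤ T)
    have hN' : ∀ k < N, ¬ p ^ k ≤ T := fun k hk => Nat.find_min (⟨n, hn⟩ : ∃ n, p ^ n ≤ T) hk
    have hN0 : N ≠ 0 := by
      intro h0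
      rw [h0, pow_zero, Ideal.one_eq_top] at hN
      exact hp'.ne_top (top_le_iff.1 (hN.trans hTp))
    obtain ⟨k, hk⟩ := Nat.exists_eq_succ_of_ne_zero hN0
    have hk' := hN' k (by omega)
    obtain ⟨y, hy, hyT⟩ := SetLike.not_le_iff_exists.1 hk'
    obtain ⟨S, hS⟩ := hp
    have hfin : ∀ S' : Finset R, (∀ j ∈ S', j * y ∈ T) → ∃ t, t ∉ p ∧ ∀ j ∈ S', (t * (j * y)) • m = 0 := by
      intro S'
      induction S' using Finset.induction_on with
      | empty => intro _; exact ⟨1, (Ideal.ne_top_iff_one p).1 hp'.ne_top, by simp⟩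
      | insert a S' ha ih =>
        intro hall
        obtain ⟨t, ht, h3⟩ := ih (fun j hj => hall j (Finset.mem_insert_of_mem hj))
        obtain ⟨s, hs, h4⟩ := hall a (Finset.mem_insert_self _ _)
        refine ⟨t * s, fun h => (hp'.mem_or_mem h).elim ht hs, fun j hj => ?_⟩
        rcases Finset.mem_insert.1 hj with rfl | hj
        · rw [mul_assoc, mul_smul, h4, smul_zero]
        · rw [mul_comm t s, mul_assoc, mul_smul, h3 j hj, smul_zero]
    obtain ⟨t, ht, h3⟩ := hfin S (by
      intro j hj
      apply hN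
      rw [hk, pow_succ']
      exact Ideal.mul_mem_mul (hS ▸ Submodule.subset_span hj) hy)
    refine mem_ass_iff.2 ⟨hp', (t * y) • m, fun a => ⟨fun ha => ?_, fun ha => ?_⟩⟩
    · have : p ≤ (Submodule.span R {(t * y) • m}).annihilator := by
        rw [← hS]
        refine Ideal.span_le.2 fun j hj => ?_
        rw [SetLike.mem_coe, mem_ann, smul_smul]
        have := h3 j hj
        rwa [show j * (t * y) = t * (j * y) by ring]
      exact mem_ann.1 (this ha)
    · by_contra hap
      apply hyT
      refine ⟨a * t, fun h => (hp'.mem_or_mem h).elim hap ht, ?_⟩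
      rw [smul_smul] at ha
      rwa [mul_assoc]

end Groth.Agent.S9586
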