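import Groth.Statements.S9587
import Groth.Agent.Lib.Helper14_WeakAss

set_option autoImplicit false
universe u
open CAlg

namespace Groth.Agent.S9587

open Groth.Agent.H14

/-- For a ring R, an ideal I of R and an R/I-module M, regarded as an R-module through R → R/I, the
primes of R weakly associated to M are exactly the inverse images of the primes of R/I weakly
associated to M. -/
theorem result {R : Type u} [CommRing R] (I : Ideal R) (M : Type u) [AddCommGroup M] [Module (R ⧸ I) M] [Module R M] [IsScalarTower R (R ⧸ I) M] :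
    FlatCA.weakAss R M = Ideal.comap (Ideal.Quotient.mk I) '' FlatCA.weakAss (R ⧸ I) M := by
  have key : ∀ m : M, (Submodule.span R {m}).annihilator = ((Submodule.span (R ⧸ I) {m}).annihilator).comap (Ideal.Quotient.mk I) := by
    intro m
    ext a
    rw [mem_ann, Ideal.mem_comap, mem_ann, ← Ideal.Quotient.algebraMap_eq, algebraMap_smul]
  ext p
  constructor
  · rintro ⟨m, hm⟩
    rw [key, Ideal.comap_minimalPrimes_eq_of_surjective Ideal.Quotient.mk_surjective] at hm
    obtain ⟨q, hq, rfl⟩ := hm
    exact ⟨q, ⟨m, hq⟩, rfl⟩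
  · rintro ⟨q, ⟨m, hq⟩, rfl⟩
    refine ⟨m, ?_⟩
    rw [key, Ideal.comap_minimalPrimes_eq_of_surjective Ideal.Quotient.mk_surjective]
    exact ⟨q, hq, rfl⟩

end Groth.Agent.S9587
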