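import Groth.Statements.S9588
import Groth.Agent.Lib.Helper14_WeakAss

set_option autoImplicit false
universe u
open CAlg

namespace Groth.Agent.S9588

open Groth.Agent.H14

/-- For a ring R, an R-module M and a multiplicative subset S of R, the primes of R weakly associated to
S⁻¹M regarded as an R-module are exactly the inverse images under R → S⁻¹R of the primes of S⁻¹R
weakly associated to S⁻¹M. -/
theorem result {R : Type u} [CommRing R] (S : Submonoid R) (M : Type u) [AddCommGroup M] [Module R M] :
    FlatCA.weakAss R (LocalizedModule S M) = Ideal.comap (algebraMap R (Localization S)) '' FlatCA.weakAss (Localization S) (LocalizedModule S M) := by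
  have key : ∀ m : LocalizedModule S M, (Submodule.span R {m}).annihilator = ((Submodule.span (Localization S) {m}).annihilator).comap (algebraMap R (Localization S)) := by
    intro m
    ext a
    rw [mem_ann, Ideal.mem_comap, mem_ann, algebraMap_smul]
  ext p
  constructor
  · rintro ⟨m, hm⟩
    rw [key, IsLocalization.minimalPrimes_comap S] at hm
    obtain ⟨q, hq, rfl⟩ := hm
    exact ⟨q, ⟨m, hq⟩, rfl⟩
  · rintro ⟨q, ⟨m, hq⟩, rfl⟩
    refine ⟨m, ?_⟩
    rw [key, IsLocalization.minimalPrimes_comap S]
    exact ⟨q, hq, rfl⟩

end Groth.Agent.S9588
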