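import Groth.Statements.S9589
import Groth.Agent.Lib.Helper14_WeakAss

set_option autoImplicit false
universe u
open CAlg

namespace Groth.Agent.S9589

open Groth.Agent.H14

/-- For a ring R, an R-module M, a multiplicative subset S of R and a prime p of R not meeting S, p is
weakly associated to M if and only if the extended prime p S⁻¹R is weakly associated to the
S⁻¹R-module S⁻¹M. -/
theorem result {R : Type u} [CommRing R] (S : Submonoid R) (M : Type u) [AddCommGroup M] [Module R M] (p : Ideal R) [p.IsPrime] (hS : Disjoint (S : Set R) (p : Set R)) :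
    p ∈ FlatCA.weakAss R M ↔ Ideal.map (algebraMap R (Localization S)) p ∈ FlatCA.weakAss (Localization S) (LocalizedModule S M) := by
  have hpp : p.IsPrime := inferInstance
  have hprime : (Ideal.map (algebraMap R (Localization S)) p).IsPrime :=
    IsLocalization.isPrime_of_isPrime_disjoint S (Localization S) p hpp hS
  have hcomap : (Ideal.map (algebraMap R (Localization S)) p).comap (algebraMap R (Localization S)) = p :=
    IsLocalization.comap_map_of_isPrime_disjoint S (Localization S) hpp hS
  have hmem : ∀ (a : R) (s : S), IsLocalization.mk' (Localization S) a s ∈ Ideal.map (algebraMap R (Localization S)) p ↔ a ∈ p := by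
    intro a s
    rw [IsLocalization.mk'_mem_iff, ← Ideal.mem_comap, hcomap]
  have hact : ∀ (a : R) (s : S) (m : M) (t : S), IsLocalization.mk' (Localization S) a s • LocalizedModule.mk m t = 0 ↔ ∃ u ∈ S, (u * a) • m = 0 := by
    intro a s m t
    rw [← Localization.mk_eq_mk', LocalizedModule.mk_smul_mk, mk_eq_zero_iff]
    constructor
    · rintro ⟨u, hu⟩
      exact ⟨u, u.2, by rw [mul_smul]; exact hu⟩
    · rintro ⟨u, hu, h⟩
      exact ⟨⟨u, hu⟩, by rw [mul_smul] at h; exact h⟩
  have hSp : ∀ u ∈ S, u ∉ p := fun u hu hup => Set.disjoint_left.1 hS hu hup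
  rw [mem_weakAss_iff, mem_weakAss_iff]
  constructor
  · rintro ⟨hp, m, h1, h2⟩
    refine ⟨hprime, LocalizedModule.mk m 1, fun z hz => ?_, fun z hz => ?_⟩
    · obtain ⟨a, s, rfl⟩ := IsLocalization.exists_mk'_eq S z
      rw [hact] at hz
      obtain ⟨u, hu, h⟩ := hz
      rw [hmem]
      exact (hpp.mem_or_mem (h1 _ h)).resolve_left (hSp u hu)
    · obtain ⟨a, s, rfl⟩ := IsLocalization.exists_mk'_eq S z
      rw [hmem] at hz
      obtain ⟨u, hu, n, hn⟩ := h2 a hz
      refine ⟨IsLocalization.mk' (Localization S) u 1, by rw [hmem]; exact hu, n, ?_⟩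
      rw [← IsLocalization.mk'_pow, ← IsLocalization.mk'_mul, hact]
      exact ⟨1, S.one_mem, by rw [one_mul]; exact hn⟩
  · rintro ⟨_, x, h1, h2⟩
    obtain ⟨⟨m, t⟩, rfl⟩ : ∃ y : M × S, LocalizedModule.mk y.1 y.2 = x := by
      induction x using LocalizedModule.induction_on with
      | h m s => exact ⟨⟨m, s⟩, rfl⟩
    refine ⟨hpp, m, fun a ha => ?_, fun a ha => ?_⟩
    · rw [← hmem a 1]
      apply h1
      rw [hact]
      exact ⟨1, S.one_mem, by rw [one_mul, ha]⟩
    · obtain ⟨z, hz, n, hn⟩ := h2 (IsLocalization.mk' (Localization S) a 1) (by rw [hmem]; exact ha)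
      obtain ⟨b, s, rfl⟩ := IsLocalization.exists_mk'_eq S z
      rw [hmem] at hz
      rw [← IsLocalization.mk'_pow, ← IsLocalization.mk'_mul, hact] at hn
      obtain ⟨u, hu, h⟩ := hn
      exact ⟨u * b, fun h => (hpp.mem_or_mem h).elim (hSp u hu) hz, n, by rw [mul_assoc]; exact h⟩

end Groth.Agent.S9589
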