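import Groth.Statements.S9590
import Groth.Agent.Lib.Helper14_WeakAss

set_option autoImplicit false
universe u
open CAlg

namespace Groth.Agent.S9590

open Groth.Agent.H14

/-- For a ring R, an R-module M and a multiplicative subset S of R such that every element of S is a
nonzerodivisor on M, the primes of R weakly associated to M are the same as those weakly associated
to the R-module S⁻¹M. -/
theorem result {R : Type u} [CommRing R] (S : Submonoid R) (M : Type u) [AddCommGroup M] [Module R M] (hS : ∀ s ∈ S, IsSMulRegular M s) :
    FlatCA.weakAss R M = FlatCA.weakAss R (LocalizedModule S M) := by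
  have key : ∀ (a : R) (m : M) (t : S), a • LocalizedModule.mk m t = 0 ↔ a • m = 0 := by
    intro a m t
    rw [LocalizedModule.smul'_mk, mk_eq_zero_iff]
    constructor
    · rintro ⟨u, hu⟩
      apply hS u u.2
      show (u : R) • a • m = (u : R) • (0 : M)
      rw [smul_zero]; exact hu
    · intro h
      exact ⟨1, by rw [h, smul_zero]⟩
  have hann : ∀ (m : M) (t : S), (Submodule.span R {(LocalizedModule.mk m t : LocalizedModule S M)}).annihilator = (Submodule.span R {m}).annihilator := by
    intro m t
    ext a
    rw [mem_ann, mem_ann, key]
  ext p
  constructor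
  · rintro ⟨m, hm⟩
    exact ⟨LocalizedModule.mk m 1, by rw [hann]; exact hm⟩
  · rintro ⟨x, hx⟩
    induction x using LocalizedModule.induction_on with
    | h m s => exact ⟨m, by rw [hann] at hx; exact hx⟩

end Groth.Agent.S9590
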