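import Groth.Statements.S9591
import Groth.Agent.Lib.Helper14_WeakAss

set_option autoImplicit false
universe u
open CAlg

namespace Groth.Agent.S9591

open Groth.Agent.H14

/-- For a ring R and an R-module M, the map from M to the product of the localizations M_p over all
primes p weakly associated to M is injective: an element vanishing in every such M_p is zero. -/
theorem result {R : Type u} [CommRing R] {M : Type u} [AddCommGroup M] [Module R M] (x : M) (hx : ∀ (p : Ideal R) [p.IsPrime], p ∈ FlatCA.weakAss R M → LocalizedModule.mkLinearMap p.primeCompl M x = 0) :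
    x = 0 := by
  by_contra hx0
  have : (Submodule.span R {x}).annihilator ≠ ⊤ := by
    intro h
    have h1 : (1 : R) ∈ (Submodule.span R {x}).annihilator := by rw [h]; trivial
    rw [mem_ann, one_smul] at h1
    exact hx0 h1
  obtain ⟨p, hp⟩ := Ideal.nonempty_minimalPrimes this
  haveI : p.IsPrime := hp.1.1
  have h1 := hx p ⟨x, hp⟩
  rw [LocalizedModule.mkLinearMap_apply, mk_eq_zero_iff] at h1
  obtain ⟨u, hu⟩ := h1
  exact u.2 (hp.1.2 (mem_ann.2 hu))

end Groth.Agent.S9591
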