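import Groth.Statements.S9594
import Groth.Agent.Lib.Helper14_WeakAss

set_option autoImplicit false
universe u
open CAlg

namespace Groth.Agent.S9594

open Groth.Agent.H14

/-- For a ring R, an R-module M and a multiplicative subset S of R, (1) the primes of R associated to
the R-module S⁻¹M are the inverse images of the primes of S⁻¹R associated to S⁻¹M, and (2) a prime
of R associated to M which does not meet S is associated to the R-module S⁻¹M. Here a prime is
associated to a module when it equals the annihilator of some element. -/
theorem result {R : Type u} [CommRing R] (S : Submonoid R) (M : Type u) [AddCommGroup M] [Module R M] :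
    FlatCA.ass R (LocalizedModule S M) = Ideal.comap (algebraMap R (Localization S)) '' FlatCA.ass (Localization S) (LocalizedModule S M) ∧
      ∀ p ∈ FlatCA.ass R M, Disjoint (S : Set R) (p : Set R) → p ∈ FlatCA.ass R (LocalizedModule S M) := by
  constructor
  · apply Set.Subset.antisymm
    · intro p hp
      obtain ⟨hp, x, h⟩ := mem_ass_iff.1 hp
      have hdisj : Disjoint (S : Set R) (p : Set R) := by
        rw [Set.disjoint_left]
        intro s hs hsp
        have h1 : s • x = 0 := (h s).1 hsp
        have h2 : x = 0 := by
          have hu : IsUnit (algebraMap R (Localization S) s) := IsLocalization.map_units (Localization S) ⟨s, hs⟩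
          rw [← algebraMap_smul (Localization S) s x] at h1
          exact (hu.smul_eq_zero).1 h1
        apply hp.ne_top
        rw [Ideal.eq_top_iff_one, h, h2, smul_zero]
      refine ⟨(Submodule.span (Localization S) {x}).annihilator, ?_, ?_⟩
      · refine mem_ass_iff.2 ⟨?_, x, fun a => mem_ann⟩
        have hc : ((Submodule.span (Localization S) {x}).annihilator).comap (algebraMap R (Localization S)) = p := by
          ext a
          rw [Ideal.mem_comap, mem_ann, algebraMap_smul, h]
        rw [IsLocalization.isPrime_iff_isPrime_disjoint S (Localization S)]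
        have hc' : Ideal.under R (Submodule.span (Localization S) {x}).annihilator = p := hc
        rw [hc']
        exact ⟨hp, hdisj⟩
      · ext a
        rw [Ideal.mem_comap, mem_ann, algebraMap_smul, h]
    · rintro _ ⟨q, hq, rfl⟩
      obtain ⟨hq, m, h⟩ := mem_ass_iff.1 hq
      refine mem_ass_iff.2 ⟨Ideal.comap_isPrime _ _, m, fun a => ?_⟩
      rw [Ideal.mem_comap, h, algebraMap_smul]
  · intro p hp hd
    obtain ⟨hp, m, h⟩ := mem_ass_iff.1 hp
    refine mem_ass_iff.2 ⟨hp, LocalizedModule.mk m 1, fun a => ?_⟩
    rw [LocalizedModule.smul'_mk, mk_eq_zero_iff, h]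
    constructor
    · intro h1
      exact ⟨1, by rw [h1, smul_zero]⟩
    · rintro ⟨u, hu⟩
      have : (u : R) * a ∈ p := by rw [h, mul_smul]; exact hu
      rw [← h]
      exact (hp.mem_or_mem this).resolve_left (fun h => Set.disjoint_left.1 hd u.2 h)

end Groth.Agent.S9594
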