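import Groth.Statements.S9595
import Groth.Agent.Lib.Helper14_WeakAss

set_option autoImplicit false
universe u
open CAlg

namespace Groth.Agent.S9595

open Groth.Agent.H14

/-- For a ring R, an R-module M and a multiplicative subset S of R whose elements are all
nonzerodivisors on M, a prime of R is the annihilator of an element of M if and only if it is the
annihilator in R of an element of S⁻¹M. -/
theorem result {R : Type u} [CommRing R] (S : Submonoid R) (M : Type u) [AddCommGroup M] [Module R M] (hS : ∀ s ∈ S, IsSMulRegular M s) :
    FlatCA.ass R M = FlatCA.ass R (LocalizedModule S M) := by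
  have key : ∀ (a : R) (m : M) (t : S), a • LocalizedModule.mk m t = 0 ↔ a • m = 0 := by
    intro a m t
    rw [LocalizedModule.smul'_mk, mk_eq_zero_iff]
    constructor
    · rintro ⟨u, hu⟩
      apply hS u u.2
      show (u : R) • a • m = (u : R) • (0 : M)
      rw [smul_zero]; exact hu
    · intro h
      exact ⟨1, by rw [h, smul_zero]⟩
  ext p
  rw [mem_ass_iff, mem_ass_iff]
  constructor
  · rintro ⟨hp, m, h⟩
    exact ⟨hp, LocalizedModule.mk m 1, fun a => by rw [key, h]⟩
  · rintro ⟨hp, x, h⟩
    induction x using LocalizedModule.induction_on with
    | h m s => exact ⟨hp, m, fun a => by rw [h, key]⟩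

end Groth.Agent.S9595
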