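import Groth.Statements.S9596
import Groth.Agent.Lib.Helper14_WeakAss

set_option autoImplicit false
universe u
open CAlg

namespace Groth.Agent.S9596

open Groth.Agent.H14

/-- For a Noetherian ring R and any R-module M, every minimal element of Supp(M) (i.e. a prime p in the
support of M containing no strictly smaller prime of that support) is an associated prime of M. -/
theorem result {R : Type u} [CommRing R] [IsNoetherianRing R] (M : Type u) [AddCommGroup M] [Module R M] (p : PrimeSpectrum R) (hp : Minimal (fun q : PrimeSpectrum R => q ∈ Module.support R M) p) :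
    p.asIdeal ∈ associatedPrimes R M := by
  obtain ⟨m, hm⟩ := Module.mem_support_iff_exists_annihilator.1 hp.1
  have hmin : p.asIdeal ∈ (Submodule.span R {m}).annihilator.minimalPrimes := by
    refine ⟨⟨p.2, hm⟩, ?_⟩
    rintro q ⟨hq, hmq⟩ hqp
    exact hp.2 (y := ⟨q, hq⟩) (Module.mem_support_iff_exists_annihilator.2 ⟨m, hmq⟩) hqp
  have h2 : p.asIdeal ∈ (Module.annihilator R (Submodule.span R {m})).minimalPrimes := hmin
  have h3 := Module.associatedPrimes.minimalPrimes_annihilator_subset_associatedPrimes R (Submodule.span R {m}) h2
  exact associatedPrimes.subset_of_injective (Submodule.injective_subtype _) h3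

end Groth.Agent.S9596
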