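import Groth.Statements.S9597
import Mathlib

set_option autoImplicit false
universe u
open CAlg

namespace Groth.Agent.S9597



/-- Let R be a Noetherian ring, M a finite R-module whose associated primes are pairwise incomparable
under inclusion (M has no embedded associated primes), and I the annihilator of M. Then the
associated primes of R/I, viewed as a module over itself, are again pairwise incomparable: R/I has
no embedded primes either. -/
theorem result {R : Type u} [CommRing R] [IsNoetherianRing R] (M : Type u) [AddCommGroup M] [Module R M] [Module.Finite R M] (hM : ∀ p ∈ associatedPrimes R M, ∀ q ∈ associatedPrimes R M, p ≤ q → p = q) :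
    ∀ p ∈ associatedPrimes (R ⧸ Module.annihilator R M) (R ⧸ Module.annihilator R M), ∀ q ∈ associatedPrimes (R ⧸ Module.annihilator R M) (R ⧸ Module.annihilator R M), p ≤ q → p = q := by
  have key : ∀ p ∈ associatedPrimes (R ⧸ Module.annihilator R M) (R ⧸ Module.annihilator R M), p.comap (Ideal.Quotient.mk (Module.annihilator R M)) ∈ associatedPrimes R M := by
    intro p hp
    obtain ⟨hp, x, hx⟩ := isAssociatedPrime_iff.1 (show IsAssociatedPrime p _ from hp)
    obtain ⟨r, rfl⟩ := Ideal.Quotient.mk_surjective x
    let N : Submodule R M := LinearMap.range (LinearMap.lsmul R M r)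
    have hann : Module.annihilator R N = p.comap (Ideal.Quotient.mk (Module.annihilator R M)) := by
      ext a
      rw [Module.mem_annihilator, Ideal.mem_comap, hx, Submodule.mem_colon_singleton, smul_eq_mul, ← map_mul, Submodule.mem_bot, Ideal.Quotient.eq_zero_iff_mem, Module.mem_annihilator]
      constructor
      · intro h m
        have := h ⟨r • m, m, rfl⟩
        rw [mul_smul]
        exact congrArg Subtype.val this
      · rintro h ⟨_, m, rfl⟩
        apply Subtype.ext
        have := h m
        rw [mul_smul] at this
        exact this
    have h2 : p.comap (Ideal.Quotient.mk (Module.annihilator R M)) ∈ (Module.annihilator R N).minimalPrimes := by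
      rw [hann]
      exact ⟨⟨Ideal.comap_isPrime _ _, le_rfl⟩, fun q hq _ => hq.2⟩
    have h3 := Module.associatedPrimes.minimalPrimes_annihilator_subset_associatedPrimes R N h2
    exact associatedPrimes.subset_of_injective (Submodule.injective_subtype _) h3
  intro p hp q hq hpq
  have := hM _ (key p hp) _ (key q hq) (Ideal.comap_mono hpq)
  exact Ideal.comap_injective_of_surjective _ Ideal.Quotient.mk_surjective this

end Groth.Agent.S9597
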