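import Groth.Statements.S9598
import Mathlib

set_option autoImplicit false
universe u
open CAlg

namespace Groth.Agent.S9598


theorem jac_infinite {R : Type u} [CommRing R] [IsJacobsonRing R] (p : Ideal R) [p.IsPrime] (hp : ¬ p.IsMaximal) (f : R) (hf : f ∉ p) : {m : Ideal R | p ≤ m ∧ m.IsMaximal ∧ f ∉ m}.Infinite := by
  intro hfin
  have hpp : p.IsPrime := inferInstance
  have hch : ∀ m ∈ hfin.toFinset, ∃ a, a ∈ m ∧ a ∉ p := by
    intro m hm
    rw [Set.Finite.mem_toFinset] at hm
    obtain ⟨h1, h2, h3⟩ := hm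
    by_contra hcon
    push Not at hcon
    have : m = p := le_antisymm hcon h1
    exact hp (this ▸ h2)
  choose! a ha using hch
  have hnot : f * ∏ m ∈ hfin.toFinset, a m ∉ p := by
    intro h
    rcases hpp.mem_or_mem h with h | h
    · exact hf h
    · obtain ⟨m, hm, h⟩ := (hpp.prod_mem_iff).1 h
      exact (ha m hm).2 h
  have hj : p.jacobson = p := IsJacobsonRing.out inferInstance hpp.isRadical
  have : ∃ n, (p ≤ n ∧ n.IsMaximal) ∧ f * ∏ m ∈ hfin.toFinset, a m ∉ n := by
    by_contra hcon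
    push Not at hcon
    have h9 : f * ∏ m ∈ hfin.toFinset, a m ∈ p.jacobson := Submodule.mem_sInf.2 hcon
    exact hnot (hj.le h9)
  obtain ⟨n, ⟨hn1, hn2⟩, hn3⟩ := this
  have hfn : f ∉ n := fun h => hn3 (n.mul_mem_right _ h)
  have hn : n ∈ hfin.toFinset := by rw [Set.Finite.mem_toFinset]; exact ⟨hn1, hn2, hfn⟩
  exact hn3 (n.mul_mem_left _ (n.mem_of_dvd (Finset.dvd_prod_of_mem a hn) (ha n hn).1))

/-- For a field k and a finite type k-algebra S with dim S > 0, some element of S is a nonzerodivisor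
and a nonunit. -/
theorem result {k S : Type u} [Field k] [CommRing S] [Algebra k S] [Algebra.FiniteType k S] (hdim : 0 < ringKrullDim S) :
    ∃ f : S, f ∈ nonZeroDivisors S ∧ ¬ IsUnit f := by
  have hN : IsNoetherianRing S := Algebra.FiniteType.isNoetherianRing k S
  have hJ : IsJacobsonRing S := isJacobsonRing_of_finiteType (A := k) (B := S)
  -- a non maximal prime
  have h1 : ∃ p : Ideal S, p.IsPrime ∧ ¬ p.IsMaximal := by
    by_contra hcon
    push Not at hcon
    have : Ring.KrullDimLE 0 S := Ring.krullDimLE_zero_iff.2 (fun I hI => hcon I hI)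
    have h2 := (Ring.krullDimLE_iff (n := 0) (R := S)).1 this
    exact absurd (lt_of_lt_of_le hdim h2) (lt_irrefl _)
  obtain ⟨p, hp, hpm⟩ := h1
  have hinf := jac_infinite p hpm 1 ((Ideal.ne_top_iff_one p).1 hp.ne_top)
  have hfin := associatedPrimes.finite S S
  obtain ⟨m, hm, hmass⟩ := hinf.exists_notMem_finite hfin
  by_contra hcon
  push Not at hcon
  have hsub : (m : Set S) ⊆ ⋃ q ∈ associatedPrimes S S, (q : Set S) := by
    intro x hx
    rw [biUnion_associatedPrimes_eq_compl_nonZeroDivisors]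
    intro hx'
    exact hm.2.1.ne_top (Ideal.eq_top_of_isUnit_mem _ hx (hcon x hx'))
  obtain ⟨q, hq, hmq⟩ := (Ideal.subset_union_prime_finite hfin (f := fun p : Ideal S => p) ⊥ ⊥ (fun i hi _ _ => hi.1)).1 hsub
  have := hm.2.1.eq_of_le hq.1.ne_top hmq
  exact hmass (this ▸ hq)

end Groth.Agent.S9598
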