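import Groth.Statements.S9599
import Groth.Agent.Lib.Helper14_Adic

set_option autoImplicit false
universe u
open CAlg

namespace Groth.Agent.S9599

open Groth.Agent.H14

/-- For a ring R, an ideal I of R and a short exact sequence 0 → K → M → N → 0 of R-modules with N flat
over R, the induced sequence of I-adic completions 0 → K^ → M^ → N^ → 0 is again short exact. -/
theorem result {R : Type u} [CommRing R] (I : Ideal R) {K M N : Type u} [AddCommGroup K] [Module R K] [AddCommGroup M] [Module R M] [AddCommGroup N] [Module R N] [Module.Flat R N] (i : K →ₗ[R] M) (g : M →ₗ[R] N) (hi : Function.Injective i) (hg : Function.Surjective g) (hig : Function.Exact i g) :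
    Function.Injective (AdicCompletion.map I i) ∧ Function.Exact (AdicCompletion.map I i) (AdicCompletion.map I g) ∧ Function.Surjective (AdicCompletion.map I g) := by
  have hp : ∀ n, ∀ k : K, i k ∈ (I ^ (n + 0) • ⊤ : Submodule R M) → k ∈ (I ^ n • ⊤ : Submodule R K) :=
    fun n k hk => pure_of_flat (I ^ n) i g hi hg hig k hk
  exact ⟨map_injective_of I i 0 hp, map_exact_of I i g hg hig 0 hp, AdicCompletion.map_surjective I hg⟩

end Groth.Agent.S9599
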