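import Groth.Statements.S9600
import Groth.Agent.Lib.Helper14_Adic

set_option autoImplicit false
universe u
open CAlg

namespace Groth.Agent.S9600

open Groth.Agent.H14

/-- Let R be a ring, I an ideal of R and 0 → M → N → Q → 0 a short exact sequence of R-modules in which
Q is killed by some power I^c of I. Then on I-adic completions the map M^ → N^ is injective, N^ → Q^
is surjective with kernel equal to the image of M^, and the canonical map Q → Q^ is bijective; so 0
→ M^ → N^ → Q → 0 is again short exact. -/
theorem result {R : Type u} [CommRing R] (I : Ideal R) {M N Q : Type u} [AddCommGroup M] [Module R M] [AddCommGroup N] [Module R N] [AddCommGroup Q] [Module R Q] (i : M →ₗ[R] N) (g : N →ₗ[R] Q) (hi : Function.Injective i) (hg : Function.Surjective g) (hig : Function.Exact i g) (c : ℕ) (hc : ∀ x ∈ I ^ c, ∀ q : Q, x • q = 0) :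
    Function.Injective (AdicCompletion.map I i) ∧ Function.Exact (AdicCompletion.map I i) (AdicCompletion.map I g) ∧ Function.Surjective (AdicCompletion.map I g) ∧ Function.Bijective (AdicCompletion.of I Q) := by
  have hIc : (I ^ c • ⊤ : Submodule R N) ≤ LinearMap.range i := by
    rw [Submodule.smul_le]
    intro r hr n _
    apply (hig _).1
    rw [map_smul]
    exact hc r hr _
  have hp : ∀ n, ∀ k : M, i k ∈ (I ^ (n + c) • ⊤ : Submodule R N) → k ∈ (I ^ n • ⊤ : Submodule R M) := by
    intro n k hk
    have h1 : (I ^ (n + c) • ⊤ : Submodule R N) ≤ (I ^ n • ⊤ : Submodule R M).map i := by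
      rw [pow_add, Submodule.mul_smul, Submodule.map_smul'', Submodule.map_top]
      exact Submodule.smul_mono le_rfl hIc
    obtain ⟨k', hk', h2⟩ := h1 hk
    rwa [← hi h2]
  refine ⟨map_injective_of I i c hp, map_exact_of I i g hg hig c hp, AdicCompletion.map_surjective I hg, ?_⟩
  have hbot : (I ^ c • ⊤ : Submodule R Q) = ⊥ := by
    rw [eq_bot_iff, Submodule.smul_le]
    intro r hr n _
    exact (Submodule.mem_bot R).2 (hc r hr n)
  rw [AdicCompletion.of_bijective_iff]
  refine { haus' := ?_, prec' := ?_ }
  · intro x hx
    have := hx c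
    rw [hbot, SModEq.bot] at this
    exact this
  · intro f hf
    refine ⟨f c, fun n => ?_⟩
    rcases le_total n c with h | h
    · exact hf h
    · have := hf h
      rw [hbot, SModEq.bot] at this
      rw [this]

end Groth.Agent.S9600
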