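import Groth.Statements.S9601
import Groth.Agent.Lib.Helper14_Adic

set_option autoImplicit false
universe u
open CAlg

namespace Groth.Agent.S9601

open Groth.Agent.H14
open AdicCompletion in

/-- For a ring R, an ideal I of R and an R-module M, let M^ be the I-adic completion and K_n the kernel
of the projection M^ → M/IⁿM. The completion M^ is I-adically complete exactly when K_n = Iⁿ M^
holds for every n ≥ 1. -/
theorem result {R : Type u} [CommRing R] (I : Ideal R) (M : Type u) [AddCommGroup M] [Module R M] :
    IsAdicComplete I (AdicCompletion I M) ↔ ∀ n : ℕ, 1 ≤ n → LinearMap.ker (AdicCompletion.eval I M n) = I ^ n • (⊤ : Submodule R (AdicCompletion I M)) := by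
  constructor
  · intro h n hn
    have hP : IsPrecomplete I (AdicCompletion I M) := h.toIsPrecomplete
    refine le_antisymm ?_ (AdicCompletion.pow_smul_top_le_ker_eval (I := I) (M := M) n)
    intro x hx
    obtain ⟨a, rfl⟩ := AdicCompletion.mk_surjective I M x
    have hof : ∀ n (m : M), m ∈ (I ^ n • ⊤ : Submodule R M) → AdicCompletion.of I M m ∈ (I ^ n • ⊤ : Submodule R (AdicCompletion I M)) := by
      intro n m hm
      have h1 : (I ^ n • ⊤ : Submodule R M).map (AdicCompletion.of I M) ≤ (I ^ n • ⊤ : Submodule R (AdicCompletion I M)) := by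
        rw [Submodule.map_smul'']
        exact Submodule.smul_mono le_rfl le_top
      exact h1 ⟨m, hm, rfl⟩
    obtain ⟨L, hL⟩ := hP.prec' (fun k => AdicCompletion.of I M (a k)) (by
      intro m n hmn
      rw [SModEq.sub_mem, ← map_sub]
      apply hof
      exact SModEq.sub_mem.1 (a.2 hmn))
    have hLx : L = AdicCompletion.mk I M a := by
      ext k
      have h1 := AdicCompletion.pow_smul_top_le_ker_eval (I := I) (M := M) k (SModEq.sub_mem.1 (hL k))
      rw [LinearMap.mem_ker, map_sub, AdicCompletion.eval_of, sub_eq_zero] at h1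
      exact h1.symm
    have h2 := SModEq.sub_mem.1 (hL n)
    have h3 : a n ∈ (I ^ n • ⊤ : Submodule R M) := by
      rw [LinearMap.mem_ker] at hx
      exact (Submodule.Quotient.mk_eq_zero _).1 hx
    have h4 := Submodule.sub_mem _ (hof n _ h3) h2
    rw [sub_sub_cancel, hLx] at h4
    exact h4
  · intro h
    refine { haus' := (inferInstance : IsHausdorff I (AdicCompletion I M)).haus', prec' := ?_ }
    intro f hf
    have h1 : ∀ n, ∃ b : M, (f n).val n = Submodule.Quotient.mk b := fun n => by
      obtain ⟨b, hb⟩ := Submodule.Quotient.mk_surjective _ ((f n).val n)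
      exact ⟨b, hb.symm⟩
    choose b hb using h1
    let a : AdicCompletion.AdicCauchySequence I M := AdicCompletion.AdicCauchySequence.mk I M b (by
      intro n
      rw [SModEq.def, ← hb]
      have h2 := AdicCompletion.pow_smul_top_le_ker_eval (I := I) (M := M) n (SModEq.sub_mem.1 (hf (Nat.le_succ n)))
      rw [LinearMap.mem_ker, map_sub, sub_eq_zero] at h2
      have h3 : (f n).val n = (f (n + 1)).val n := h2
      rw [h3]
      have h4 := AdicCompletion.transitionMap_comp_eval_apply I M (Nat.le_succ n) (f (n + 1))
      have h5 : (f (n + 1)).val (n + 1) = Submodule.Quotient.mk (b (n + 1)) := hb (n + 1)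
      have h6 : AdicCompletion.transitionMap I M (Nat.le_succ n) ((f (n + 1)).val (n + 1)) = (f (n+1)).val n := h4
      rw [← h6, h5]
      rfl)
    refine ⟨AdicCompletion.mk I M a, fun n => ?_⟩
    rw [SModEq.sub_mem]
    rcases Nat.eq_zero_or_pos n with rfl | hn
    · rw [pow_zero, Ideal.one_eq_top, Submodule.top_smul]
      trivial
    · rw [← h n hn, LinearMap.mem_ker, map_sub, sub_eq_zero]
      exact hb n

end Groth.Agent.S9601
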