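import Groth.Statements.S9602
import Groth.Agent.Lib.Helper14_Adic

set_option autoImplicit false
universe u
open CAlg

namespace Groth.Agent.S9602

open Groth.Agent.H14

/-- Let R be a ring, I an ideal of R and R^ = lim R/Iⁿ the I-adic completion. An element of R^ whose
image in R/I is invertible is itself invertible in R^; and the kernel of R^ → R/I as well as the
extended ideal I R^ both lie inside the Jacobson radical of R^. -/
theorem result {R : Type u} [CommRing R] (I : Ideal R) :
    (∀ x : AdicCompletion I R, IsUnit (AdicCompletion.evalOneₐ I x) → IsUnit x) ∧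
      RingHom.ker (AdicCompletion.evalOneₐ I).toRingHom ≤ (⊥ : Ideal (AdicCompletion I R)).jacobson ∧
      I.map (algebraMap R (AdicCompletion I R)) ≤ (⊥ : Ideal (AdicCompletion I R)).jacobson := by
  have key : ∀ t : AdicCompletion I R, AdicCompletion.evalOneₐ I t = 0 → IsUnit (1 - t) := by
    intro t ht
    obtain ⟨a, rfl⟩ := AdicCompletion.mk_surjective I R t
    have ha1 : a 1 ∈ I := by
      have h := AdicCompletion.factorₐ_evalₐ_one I (AdicCompletion.mk I R a)
      rw [ht, AdicCompletion.evalₐ_mk, Ideal.Quotient.factor_mk] at h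
      exact Ideal.Quotient.eq_zero_iff_mem.1 h
    have han : ∀ n, 1 ≤ n → a n ∈ I := by
      intro n hn
      have h := SModEq.sub_mem.1 (a.2 hn)
      rw [pow_one, smul_eq_mul, Ideal.mul_top] at h
      have h2 := I.sub_mem ha1 h
      rwa [sub_sub_cancel] at h2
    let b : AdicCompletion.AdicCauchySequence I R := AdicCompletion.AdicCauchySequence.mk I R (fun n => ∑ k ∈ Finset.range n, (a n) ^ k) (by
      intro n
      rw [SModEq.sub_mem, smul_eq_mul, Ideal.mul_top, Finset.sum_range_succ, ← sub_sub, ← Finset.sum_sub_distrib]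
      refine Ideal.sub_mem _ (Ideal.sum_mem _ fun k _ => ?_) (Ideal.pow_mem_pow (han (n + 1) (Nat.le_add_left 1 n)) n)
      have h := SModEq.sub_mem.1 (a.2 (Nat.le_succ n))
      rw [smul_eq_mul, Ideal.mul_top] at h
      exact Ideal.mem_of_dvd _ (sub_dvd_pow_sub_pow _ _ k) h)
    refine IsUnit.of_mul_eq_one (AdicCompletion.mk I R b) ?_
    ext n
    rw [AdicCompletion.val_mul, AdicCompletion.val_one, AdicCompletion.val_sub_apply, AdicCompletion.val_one]
    show ((1 : R ⧸ (I ^ n • ⊤ : Ideal R)) - Ideal.Quotient.mk _ (a n)) * Ideal.Quotient.mk _ (∑ k ∈ Finset.range n, (a n) ^ k) = 1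
    rw [← map_one (Ideal.Quotient.mk (I ^ n • ⊤ : Ideal R)), ← map_sub, ← map_mul, mul_neg_geom_sum, map_sub, map_one, sub_eq_self, Ideal.Quotient.eq_zero_iff_mem]
    rw [smul_eq_mul, Ideal.mul_top]
    rcases Nat.eq_zero_or_pos n with rfl | hn
    · simp
    · exact Ideal.pow_mem_pow (han n hn) n
  have h1 : ∀ x : AdicCompletion I R, IsUnit (AdicCompletion.evalOneₐ I x) → IsUnit x := by
    intro x hx
    obtain ⟨v, hv⟩ := hx.exists_right_inv
    obtain ⟨y, rfl⟩ := AdicCompletion.evalOneₐ_surjective I v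
    have h2 : IsUnit (1 - (1 - x * y)) := by
      apply key
      rw [map_sub, map_one, map_mul, hv, sub_self]
    rw [sub_sub_cancel] at h2
    exact isUnit_of_mul_isUnit_left h2
  have h2 : RingHom.ker (AdicCompletion.evalOneₐ I).toRingHom ≤ (⊥ : Ideal (AdicCompletion I R)).jacobson := by
    intro x hx
    rw [Ideal.mem_jacobson_bot]
    intro y
    apply h1
    have : AdicCompletion.evalOneₐ I x = 0 := hx
    rw [map_add, map_mul, this, zero_mul, zero_add, map_one]
    exact isUnit_one
  refine ⟨h1, h2, le_trans ?_ h2⟩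
  rw [Ideal.map_le_iff_le_comap]
  intro r hr
  rw [Ideal.mem_comap]
  show AdicCompletion.evalOneₐ I (algebraMap R _ r) = 0
  rw [AlgHom.commutes]
  exact Ideal.Quotient.eq_zero_iff_mem.2 hr

end Groth.Agent.S9602
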