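import Groth.Statements.S9603
import Mathlib

set_option autoImplicit false
universe u
open CAlg

namespace Groth.Agent.S9603



theorem mem_sum {A : Type u} [CommRing A] {r : ℕ} (f : Fin r → A) (M : Type u) [AddCommGroup M] [Module A M] (n : ℕ) (x : M)
    (hx : x ∈ Ideal.span (Set.range fun i => f i ^ n) • (⊤ : Submodule A M)) :
    ∃ w : Fin r → M, x = ∑ i, f i ^ n • w i := by
  refine Submodule.smul_induction_on hx ?_ ?_
  · rintro a ha m -
    obtain ⟨c, rfl⟩ := Ideal.mem_span_range_iff_exists_fun.mp ha
    refine ⟨fun i => c i • m, ?_⟩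
    rw [Finset.sum_smul]
    refine Finset.sum_congr rfl fun i _ => ?_
    rw [smul_smul, mul_comm]
  · rintro a b ⟨w, rfl⟩ ⟨w', rfl⟩
    refine ⟨w + w', ?_⟩
    rw [← Finset.sum_add_distrib]
    refine Finset.sum_congr rfl fun i _ => ?_
    rw [Pi.add_apply, smul_add]

theorem exists_pow_le {A : Type u} [CommRing A] {r : ℕ} (f : Fin r → A) (n : ℕ) :
    ∃ k, Ideal.span (Set.range f) ^ k ≤ Ideal.span (Set.range fun i => f i ^ n) := by
  refine Ideal.exists_pow_le_of_le_radical_of_fg ?_ ?_
  · rw [Ideal.span_le]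
    rintro _ ⟨i, rfl⟩
    exact ⟨n, Ideal.subset_span ⟨i, rfl⟩⟩
  · exact ⟨(Set.finite_range f).toFinset, by simp⟩

/-- For a ring A, elements f_1, …, f_r generating an ideal I and an A-module M, if the canonical map
from M to its (f_i)-adic completion is surjective for every i, then the canonical map from M to its
I-adic completion is surjective. -/
theorem result {A : Type u} [CommRing A] {r : ℕ} (f : Fin r → A) (M : Type u) [AddCommGroup M] [Module A M] (h : ∀ i, Function.Surjective (AdicCompletion.of (Ideal.span {f i}) M)) :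
    Function.Surjective (AdicCompletion.of (Ideal.span (Set.range f)) M) := by
  rw [AdicCompletion.of_surjective_iff]
  simp only [AdicCompletion.of_surjective_iff] at h
  set I := Ideal.span (Set.range f) with hI
  refine ⟨fun y hy => ?_⟩
  choose k hk using fun n => exists_pow_le f n
  let K : ℕ → ℕ := fun n => (∑ j ∈ Finset.range (n + 1), k j) + n
  have hKk : ∀ n, k n ≤ K n := fun n => by
    have : k n ≤ ∑ j ∈ Finset.range (n + 1), k j :=
      Finset.single_le_sum (f := k) (fun _ _ => Nat.zero_le _) (Finset.self_mem_range_succ n)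
    simp only [K]; omega
  have hKn : ∀ n, n ≤ K n := fun n => by simp only [K]; omega
  have hKm : ∀ n, K n ≤ K (n + 1) := fun n => by
    simp only [K]
    rw [Finset.sum_range_succ _ (n + 1)]
    omega
  have hz : ∀ n, y (K (n + 1)) - y (K n) ∈ Ideal.span (Set.range fun i => f i ^ n) • (⊤ : Submodule A M) := by
    intro n
    have h1 := (hy (hKm n)).symm
    rw [SModEq.sub_mem] at h1
    refine Submodule.smul_mono_left ?_ h1
    exact (Ideal.pow_le_pow_right (hKk n)).trans (hk n)
  choose w hw using fun n => mem_sum f M n _ (hz n)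
  let s : Fin r → ℕ → M := fun i n => ∑ m ∈ Finset.range n, f i ^ m • w m i
  have hs : ∀ i, ∃ x : M, ∀ n, s i n ≡ x [SMOD (Ideal.span {f i} ^ n • ⊤ : Submodule A M)] := by
    intro i
    refine (h i).prec ?_
    intro m n hmn
    rw [SModEq.comm, SModEq.sub_mem]
    simp only [s]
    rw [← Finset.sum_range_add_sum_Ico _ hmn, add_sub_cancel_left]
    refine Submodule.sum_mem _ fun j hj => ?_
    refine Submodule.smul_mem_smul ?_ trivial
    rw [Ideal.span_singleton_pow, Ideal.mem_span_singleton]
    exact pow_dvd_pow _ (Finset.mem_Ico.mp hj).1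
  choose x hx using hs
  refine ⟨y (K 0) + ∑ i, x i, fun n => ?_⟩
  have hyz : y n ≡ y (K n) [SMOD (I ^ n • ⊤ : Submodule A M)] := hy (hKn n)
  refine hyz.trans ?_
  have htel : ∀ n, y (K n) = y (K 0) + ∑ i, s i n := by
    intro n
    induction n with
    | zero => simp [s]
    | succ n ih =>
      have h1 : y (K (n + 1)) = y (K n) + ∑ i, f i ^ n • w n i := by rw [← hw n]; abel
      rw [h1, ih, add_assoc, ← Finset.sum_add_distrib]
      simp only [s, Finset.sum_range_succ]
  rw [htel n]
  refine SModEq.add SModEq.rfl ?_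
  rw [SModEq.sub_mem, ← Finset.sum_sub_distrib]
  refine Submodule.sum_mem _ fun i _ => ?_
  have h2 := hx i n
  rw [SModEq.sub_mem] at h2
  refine Submodule.smul_mono_left ?_ h2
  refine Ideal.pow_right_mono ?_ n
  exact Ideal.span_mono (by rintro _ rfl; exact ⟨i, rfl⟩)

end Groth.Agent.S9603
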