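import Groth.Statements.S9604
import Mathlib

set_option autoImplicit false
universe u
open CAlg

namespace Groth.Agent.S9604


theorem aux {R : Type u} [CommRing R] (I J : Ideal R) (c d : ℕ) (hc : 0 < c) (hd : 0 < d) (hI : I ^ c ≤ J) (hJ : J ^ d ≤ I) (M : Type u) [AddCommGroup M] [Module R M] (h : IsAdicComplete I M) : IsAdicComplete J M := by
  have hJ' : ∀ n, J ^ (d * n) ≤ I ^ n := fun n => by rw [pow_mul]; exact Ideal.pow_right_mono hJ n
  have hI' : ∀ n, I ^ (c * n) ≤ J ^ n := fun n => by rw [pow_mul]; exact Ideal.pow_right_mono hI n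
  have hH : IsHausdorff I M := h.toIsHausdorff
  have hP : IsPrecomplete I M := h.toIsPrecomplete
  refine { haus' := ?_, prec' := ?_ }
  · intro x hx
    apply hH.haus' x
    intro n
    exact (hx (d * n)).mono (Submodule.smul_mono_left (hJ' n))
  · intro f hf
    obtain ⟨L, hL⟩ := hP.prec' (fun n => f (d * n)) (by
      intro m n hmn
      exact (hf (Nat.mul_le_mul_left d hmn)).mono (Submodule.smul_mono_left (hJ' m)))
    refine ⟨L, fun n => ?_⟩
    have h1 : n ≤ d * (c * n) := by
      calc n = 1 * (1 * n) := by ring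
        _ ≤ d * (c * n) := Nat.mul_le_mul hd (Nat.mul_le_mul_right n hc)
    exact (hf h1).trans ((hL (c * n)).mono (Submodule.smul_mono_left (hI' n)))

/-- Let R be a ring and I, J ideals of R with I^c ⊆ J and J^d ⊆ I for some integers c, d > 0. Then for
an R-module, being complete in the I-adic topology is equivalent to being complete in the J-adic
topology. -/
theorem result {R : Type u} [CommRing R] (I J : Ideal R) (c d : ℕ) (hc : 0 < c) (hd : 0 < d) (hI : I ^ c ≤ J) (hJ : J ^ d ≤ I) (M : Type u) [AddCommGroup M] [Module R M] :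
    IsAdicComplete I M ↔ IsAdicComplete J M := by
  exact ⟨aux I J c d hc hd hI hJ M, aux J I d c hd hc hJ hI M⟩

end Groth.Agent.S9604
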