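import Groth.Statements.S9605
import Groth.Agent.Lib.Helper14_Adic

set_option autoImplicit false
universe u
open CAlg

namespace Groth.Agent.S9605

open Groth.Agent.H14

/-- For a ring R, an ideal I of R, an I-adically complete R-module M and a submodule K of M, the
quotient M/K is I-adically complete if and only if K = ⋂ₙ (K + IⁿM). -/
theorem result {R : Type u} [CommRing R] (I : Ideal R) (M : Type u) [AddCommGroup M] [Module R M] [IsAdicComplete I M] (K : Submodule R M) :
    IsAdicComplete I (M ⧸ K) ↔ K = ⨅ n : ℕ, K ⊔ I ^ n • (⊤ : Submodule R M) := by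
  have hprec : IsPrecomplete I (M ⧸ K) := by
    rw [← AdicCompletion.of_surjective_iff]
    intro y
    obtain ⟨x, rfl⟩ := AdicCompletion.map_surjective I (Submodule.mkQ_surjective K) y
    obtain ⟨m, rfl⟩ := AdicCompletion.of_surjective I M x
    exact ⟨K.mkQ m, (AdicCompletion.map_of I K.mkQ m).symm⟩
  have hmem : ∀ n (m : M), K.mkQ m ∈ (I ^ n • ⊤ : Submodule R (M ⧸ K)) ↔ m ∈ K ⊔ I ^ n • (⊤ : Submodule R M) := by
    intro n m
    rw [← Submodule.comap_map_mkQ, Submodule.mem_comap, Submodule.map_smul'', Submodule.map_top, Submodule.range_mkQ]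
  constructor
  · intro h
    have hH : IsHausdorff I (M ⧸ K) := h.toIsHausdorff
    apply le_antisymm
    · exact le_iInf fun n => le_sup_left
    · intro m hm
      have : K.mkQ m = 0 := by
        apply hH.haus'
        intro n
        rw [SModEq.zero, hmem]
        exact (Submodule.mem_iInf _).1 hm n
      exact (Submodule.Quotient.mk_eq_zero K).1 this
  · intro h
    refine { haus' := ?_, prec' := hprec.prec' }
    intro x hx
    obtain ⟨m, rfl⟩ := K.mkQ_surjective x
    have : m ∈ K := by
      rw [h, Submodule.mem_iInf]
      intro n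
      rw [← hmem]
      exact SModEq.zero.1 (hx n)
    exact (Submodule.Quotient.mk_eq_zero K).2 this

end Groth.Agent.S9605
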