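import Groth.Statements.S9610
import Mathlib

set_option autoImplicit false
universe u
open CAlg

namespace Groth.Agent.S9610



/-- Let k be a field and V a nonzero k-vector space with dim_k V < #k as cardinals. Then every k-linear
endomorphism T of V admits a monic polynomial P over k for which P(T) is not invertible. -/
theorem result {k V : Type u} [Field k] [AddCommGroup V] [Module k V] [Nontrivial V] (hV : Module.rank k V < Cardinal.mk k) (T : Module.End k V) :
    ∃ P : Polynomial k, P.Monic ∧ ¬ IsUnit (Polynomial.aeval T P) := by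
  classical
  by_contra hcon
  push Not at hcon
  obtain ⟨v, hv⟩ := exists_ne (0 : V)
  have hinj : ∀ F : Polynomial k, F ≠ 0 → Polynomial.aeval T F v = 0 → False := by
    intro F hF h
    have hu : IsUnit (Polynomial.aeval T F) := by
      have h1 := hcon _ (Polynomial.monic_mul_leadingCoeff_inv hF)
      have h2 : F = (F * Polynomial.C (F.leadingCoeff)⁻¹) * Polynomial.C F.leadingCoeff := by
        rw [mul_assoc, ← Polynomial.C_mul, inv_mul_cancel₀ (Polynomial.leadingCoeff_ne_zero.2 hF), Polynomial.C_1, mul_one]
      rw [h2, map_mul]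
      refine h1.mul ?_
      exact ((Polynomial.isUnit_C.2 (isUnit_iff_ne_zero.2 (Polynomial.leadingCoeff_ne_zero.2 hF))).map (Polynomial.aeval T))
    have h3 := (Module.End.isUnit_iff _).1 hu
    apply hv
    apply h3.1
    rw [h, map_zero]
  have hw : ∀ c : k, ∃ w : V, (Polynomial.aeval T (Polynomial.X - Polynomial.C c)) w = v := by
    intro c
    have h3 := (Module.End.isUnit_iff _).1 (hcon _ (Polynomial.monic_X_sub_C c))
    exact h3.2 v
  choose w hw using hw
  have hli : LinearIndependent k w := by
    rw [linearIndependent_iff']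
    intro s g hsum i hi
    let Q : k → Polynomial k := fun i => ∏ j ∈ s.erase i, (Polynomial.X - Polynomial.C j)
    have h1 : ∀ i ∈ s, Polynomial.aeval T (∏ j ∈ s, (Polynomial.X - Polynomial.C j)) (w i) = Polynomial.aeval T (Q i) v := by
      intro i hi
      rw [← Finset.prod_erase_mul s _ hi, map_mul, Module.End.mul_apply, hw]
    have h2 : Polynomial.aeval T (∑ i ∈ s, Polynomial.C (g i) * Q i) v = 0 := by
      have h3 := congrArg (Polynomial.aeval T (∏ j ∈ s, (Polynomial.X - Polynomial.C j))) hsum
      rw [map_zero, map_sum] at h3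
      rw [map_sum, LinearMap.sum_apply, ← h3]
      refine Finset.sum_congr rfl fun i hi => ?_
      rw [map_smul, h1 i hi, map_mul, Polynomial.aeval_C, Module.End.mul_apply]
      rfl
    have h4 : ∑ i ∈ s, Polynomial.C (g i) * Q i = 0 := by
      by_contra h5
      exact hinj _ h5 h2
    have h5 := congrArg (Polynomial.eval i) h4
    rw [Polynomial.eval_finset_sum, Polynomial.eval_zero, Finset.sum_eq_single i] at h5
    · rw [Polynomial.eval_mul, Polynomial.eval_C, Polynomial.eval_prod] at h5
      refine (mul_eq_zero.1 h5).resolve_right ?_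
      refine Finset.prod_ne_zero_iff.2 ?_
      intro j hj
      rw [Polynomial.eval_sub, Polynomial.eval_X, Polynomial.eval_C]
      exact sub_ne_zero.2 (Finset.ne_of_mem_erase hj).symm
    · intro j hj hji
      rw [Polynomial.eval_mul, Polynomial.eval_prod]
      rw [Finset.prod_eq_zero (i := i), mul_zero]
      · exact Finset.mem_erase.2 ⟨hji.symm, hi⟩
      · simp
    · intro h; exact absurd hi h
  exact absurd hli.cardinal_le_rank (not_le.2 hV)

end Groth.Agent.S9610
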