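import Groth.Statements.S9611
import Mathlib

set_option autoImplicit false
universe u
open CAlg

namespace Groth.Agent.S9611


theorem jac_infinite {R : Type u} [CommRing R] [IsJacobsonRing R] (p : Ideal R) [p.IsPrime] (hp : ¬ p.IsMaximal) (f : R) (hf : f ∉ p) : {m : Ideal R | p ≤ m ∧ m.IsMaximal ∧ f ∉ m}.Infinite := by
  intro hfin
  have hpp : p.IsPrime := inferInstance
  have hch : ∀ m ∈ hfin.toFinset, ∃ a, a ∈ m ∧ a ∉ p := by
    intro m hm
    rw [Set.Finite.mem_toFinset] at hm
    obtain ⟨h1, h2, h3⟩ := hm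
    by_contra hcon
    push Not at hcon
    have : m = p := le_antisymm hcon h1
    exact hp (this ▸ h2)
  choose! a ha using hch
  have hnot : f * ∏ m ∈ hfin.toFinset, a m ∉ p := by
    intro h
    rcases hpp.mem_or_mem h with h | h
    · exact hf h
    · obtain ⟨m, hm, h⟩ := (hpp.prod_mem_iff).1 h
      exact (ha m hm).2 h
  have hj : p.jacobson = p := IsJacobsonRing.out inferInstance hpp.isRadical
  have : ∃ n, (p ≤ n ∧ n.IsMaximal) ∧ f * ∏ m ∈ hfin.toFinset, a m ∉ n := by
    by_contra hcon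
    push Not at hcon
    have h9 : f * ∏ m ∈ hfin.toFinset, a m ∈ p.jacobson := Submodule.mem_sInf.2 hcon
    exact hnot (hj.le h9)
  obtain ⟨n, ⟨hn1, hn2⟩, hn3⟩ := this
  have hfn : f ∉ n := fun h => hn3 (n.mul_mem_right _ h)
  have hn : n ∈ hfin.toFinset := by rw [Set.Finite.mem_toFinset]; exact ⟨hn1, hn2, hfn⟩
  exact hn3 (n.mul_mem_left _ (n.mem_of_dvd (Finset.dvd_prod_of_mem a hn) (ha n hn).1))

/-- Let R be a Jacobson ring, p a prime ideal of R which is not maximal, and f an element of R not in p.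
Then the set of primes of R containing p and not containing f is infinite. -/
theorem result {R : Type u} [CommRing R] [IsJacobsonRing R] (p : Ideal R) [p.IsPrime] (hp : ¬ p.IsMaximal) (f : R) (hf : f ∉ p) :
    {q : PrimeSpectrum R | p ≤ q.asIdeal ∧ f ∉ q.asIdeal}.Infinite := by
  intro hfin
  apply jac_infinite p hp f hf
  apply (hfin.image PrimeSpectrum.asIdeal).subset
  rintro m ⟨h1, h2, h3⟩
  exact ⟨⟨m, h2.isPrime⟩, ⟨h1, h3⟩, rfl⟩

end Groth.Agent.S9611
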