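import Groth.Statements.S9612
import Mathlib

set_option autoImplicit false
universe u
open CAlg

namespace Groth.Agent.S9612



/-- A finite type ℤ-algebra is a Jacobson ring. -/
theorem result {S : Type u} [CommRing S] [Algebra.FiniteType ℤ S] :
    IsJacobsonRing S := by
  have hZ : IsJacobsonRing ℤ := by
    rw [isJacobsonRing_iff_prime_eq]
    intro P hP
    by_cases h0 : P = ⊥
    · subst h0
      apply le_antisymm _ Ideal.le_jacobson
      intro n hn
      rw [Ideal.mem_bot]
      by_contra hn0
      obtain ⟨q, hq1, hq2⟩ := Nat.exists_infinite_primes (n.natAbs + 1)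
      have hmax : (Ideal.span {(q : ℤ)}).IsMaximal :=
        PrincipalIdealRing.isMaximal_of_irreducible (Nat.prime_iff_prime_int.1 hq2).irreducible
      have h1 : n ∈ Ideal.span {(q : ℤ)} := (Submodule.mem_sInf.1 hn) _ ⟨bot_le, hmax⟩
      rw [Ideal.mem_span_singleton] at h1
      have h2 := Nat.le_of_dvd (Int.natAbs_pos.2 hn0) (Int.natCast_dvd.1 h1)
      omega
    · have hm : P.IsMaximal := IsPrime.to_maximal_ideal h0
      exact Ideal.jacobson_eq_self_of_isMaximal
  exact isJacobsonRing_of_finiteType (A := ℤ) (B := S)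

end Groth.Agent.S9612
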