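import Groth.Statements.S9613
import Mathlib
import Groth.Agent.S9277

set_option autoImplicit false
universe u
open CAlg

namespace Groth.Agent.S9613

open CAlgX Groth.Agent.S9277

/-- Let R → K be an injective ring map into a field K which makes K an R-algebra of finite type. Then
for some nonzero f ∈ R the localization R_f is a field over which K is finite; here R_f is realised
as the R-subalgebra of K that is a localization of R away from f. -/
theorem result {R K : Type u} [CommRing R] [Field K] [Algebra R K] (hinj : Function.Injective (algebraMap R K)) [Algebra.FiniteType R K] :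
    ∃ f : R, f ≠ 0 ∧ ∃ Rf : Subalgebra R K, IsLocalization.Away f Rf ∧ IsField Rf ∧ Module.Finite Rf K := by
  classical
  have hdom : IsDomain R := hinj.isDomain (algebraMap R K)
  have hfs : FaithfulSMul R K := (faithfulSMul_iff_algebraMap_injective R K).2 hinj
  letI : Algebra (FractionRing R) K := FractionRing.liftAlgebra R K
  have hft : Algebra.FiniteType (FractionRing R) K := Algebra.FiniteType.of_restrictScalars_finiteType R (FractionRing R) K
  have hfin : Module.Finite (FractionRing R) K := finite_of_finite_type_of_isJacobsonRing _ _
  have halg : Algebra.IsAlgebraic R K := by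
    have h1 : Algebra.IsAlgebraic (FractionRing R) K := Algebra.IsAlgebraic.of_finite _ _
    exact (IsFractionRing.comap_isAlgebraic_iff (A := R) (K := FractionRing R) (C := K)).2 h1
  obtain ⟨s, hs⟩ := (inferInstance : Algebra.FiniteType R K).out
  have h1 : ∀ x : K, ∃ y : R, y ≠ 0 ∧ IsIntegral R (y • x) := fun x =>
    (halg.isAlgebraic x).exists_integral_multiple
  choose y hy0 hyint using h1
  let f : R := ∏ x ∈ s, y x
  have hf0 : f ≠ 0 := Finset.prod_ne_zero_iff.2 fun x _ => hy0 x
  have hle : Submonoid.powers f ≤ nonZeroDivisors R := powers_le_nonZeroDivisors_of_noZeroDivisors hf0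
  have hunit : ∀ z : Submonoid.powers f, IsUnit ((Algebra.ofId R K : R →ₐ[R] K) z) := by
    rintro ⟨_, n, rfl⟩
    refine isUnit_iff_ne_zero.2 ?_
    show algebraMap R K (f ^ n) ≠ 0
    intro h
    exact pow_ne_zero n hf0 (hinj (by rw [h, map_zero]))
  let φ : Localization.Away f →ₐ[R] K := IsLocalization.liftAlgHom (M := Submonoid.powers f) (S := Localization.Away f) (f := Algebra.ofId R K) hunit
  have hφ : Function.Injective φ := by
    rw [injective_iff_map_eq_zero]
    intro x hx
    obtain ⟨⟨a, s⟩, h⟩ := IsLocalization.surj (Submonoid.powers f) x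
    have h1 : algebraMap R K a = 0 := by
      have := congrArg φ h
      rw [map_mul, hx, zero_mul, AlgHom.commutes] at this
      exact this.symm
    have ha : a = 0 := hinj (by rw [h1, map_zero])
    rw [ha, map_zero] at h
    exact (IsLocalization.map_units (Localization.Away f) s).mul_left_eq_zero.1 h
  let Rf : Subalgebra R K := φ.range
  have hloc : IsLocalization.Away f Rf := IsLocalization.isLocalization_of_algEquiv (Submonoid.powers f) (AlgEquiv.ofInjective φ hφ)
  have hint : Algebra.IsIntegral Rf K := by
    have h2 : ∀ x ∈ s, IsIntegral Rf x := by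
      intro x hx
      have h3 : IsUnit (algebraMap R Rf (y x)) := by
        have h4 : IsUnit (algebraMap R Rf f) := IsLocalization.Away.algebraMap_isUnit f
        exact isUnit_of_dvd_unit (map_dvd _ (Finset.dvd_prod_of_mem y hx)) h4
      obtain ⟨u, hu⟩ := h3
      have h5 : IsIntegral Rf (y x • x) := (hyint x).tower_top
      have h6 : x = (↑u⁻¹ : Rf) • (y x • x) := by
        rw [← algebraMap_smul Rf (y x) x, ← hu, smul_smul, Units.inv_mul, one_smul]
      rw [h6]
      exact IsIntegral.smul _ h5
    refine ⟨fun x => ?_⟩
    have h7 : x ∈ Algebra.adjoin R (s : Set K) := by rw [hs]; trivial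
    have h8 : Algebra.adjoin R (s : Set K) ≤ (integralClosure Rf K).restrictScalars R := by
      rw [Algebra.adjoin_le_iff]
      intro z hz
      exact h2 z hz
    exact h8 h7
  refine ⟨f, hf0, Rf, hloc, ?_, ?_⟩
  · exact isField_of_isIntegral_of_isField (show Function.Injective (algebraMap Rf K) from Subtype.val_injective) (Field.toIsField K)
  · have : Algebra.FiniteType Rf K := Algebra.FiniteType.of_restrictScalars_finiteType R Rf K
    exact Algebra.IsIntegral.finite

end Groth.Agent.S9613
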