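import Groth.Statements.S9614
import Mathlib

set_option autoImplicit false
universe u
open CAlg

namespace Groth.Agent.S9614



open DirectSum in
theorem comp_smul_mem {R S : Type u} [CommRing R] [CommRing S] [Algebra R S] (𝒜 : ℕ → Submodule R S) [GradedAlgebra 𝒜]
    (M : Type u) [AddCommGroup M] [Module R M] [Module S M] [IsScalarTower R S M] (ℳ : ℕ → Submodule R M) [DirectSum.Decomposition ℳ] [SetLike.GradedSMul 𝒜 ℳ]
    (N : Submodule S M) (s : S) (m : M) (k : ℕ)
    (H : ∀ i l, i + l = k → (decompose 𝒜 s i : S) • (decompose ℳ m l : M) ∈ N) :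
    (decompose ℳ (s • m) k : M) ∈ N := by
  classical
  have h1 : s • m = ∑ i ∈ (decompose 𝒜 s).support, ∑ l ∈ (decompose ℳ m).support,
      (decompose 𝒜 s i : S) • (decompose ℳ m l : M) := by
    conv_lhs => rw [← sum_support_decompose 𝒜 s, ← sum_support_decompose ℳ m]
    rw [Finset.sum_smul_sum]
  rw [h1, decompose_sum, DirectSum.sum_apply, AddSubmonoidClass.coe_finset_sum]
  refine Submodule.sum_mem _ fun i _ => ?_
  rw [decompose_sum, DirectSum.sum_apply, AddSubmonoidClass.coe_finset_sum]
  refine Submodule.sum_mem _ fun l _ => ?_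
  have hmem : (decompose 𝒜 s i : S) • (decompose ℳ m l : M) ∈ ℳ (i + l) :=
    SetLike.GradedSMul.smul_mem (decompose 𝒜 s i).2 (decompose ℳ m l).2
  by_cases hk : i + l = k
  · subst hk
    rw [decompose_of_mem_same ℳ hmem]
    exact H i l rfl
  · rw [decompose_of_mem_ne ℳ hmem hk]
    exact N.zero_mem

open DirectSum in
theorem main_thm {R S : Type u} [CommRing R] [CommRing S] [Algebra R S] (𝒜 : ℕ → Submodule R S) [GradedAlgebra 𝒜]
    (M : Type u) [AddCommGroup M] [Module R M] [Module S M] [IsScalarTower R S M] [Module.Finite S M] (ℳ : ℕ → Submodule R M) [DirectSum.Decomposition ℳ] [SetLike.GradedSMul 𝒜 ℳ]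
    {n : ℕ} (x : Fin n → M) (hx : ∀ i, SetLike.IsHomogeneousElem ℳ (x i))
    (h : Submodule.span S (Set.range x) ⊔ (HomogeneousIdeal.irrelevant 𝒜).toIdeal • (⊤ : Submodule S M) = ⊤) :
    Submodule.span S (Set.range x) = ⊤ := by
  classical
  set N := Submodule.span S (Set.range x) with hN
  have hA : ∀ a ∈ N, ∀ k, (decompose ℳ a k : M) ∈ N := by
    intro a ha
    refine Submodule.span_induction (p := fun a _ => ∀ k, (decompose ℳ a k : M) ∈ N) ?_ ?_ ?_ ?_ ha
    · rintro _ ⟨i, rfl⟩ k
      obtain ⟨d, hd⟩ := hx i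
      by_cases hk : d = k
      · subst hk
        rw [decompose_of_mem_same ℳ hd]
        exact Submodule.subset_span ⟨i, rfl⟩
      · rw [decompose_of_mem_ne ℳ hd hk]
        exact N.zero_mem
    · intro k
      rw [decompose_zero]
      exact N.zero_mem
    · intro a b _ _ iha ihb k
      rw [decompose_add, DirectSum.add_apply]
      exact N.add_mem (iha k) (ihb k)
    · intro s a _ iha k
      exact comp_smul_mem 𝒜 M ℳ N s a k fun i l _ => N.smul_mem _ (iha l)
  have hmain : ∀ k, ∀ m ∈ ℳ k, m ∈ N := by
    intro k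
    induction k using Nat.strong_induction_on with
    | _ k ih =>
      have hB : ∀ b ∈ (HomogeneousIdeal.irrelevant 𝒜).toIdeal • (⊤ : Submodule S M), (decompose ℳ b k : M) ∈ N := by
        intro b hb
        refine Submodule.smul_induction_on hb ?_ ?_
        · rintro s hs m -
          refine comp_smul_mem 𝒜 M ℳ N s m k fun i l hil => ?_
          rcases Nat.eq_zero_or_pos i with hi | hi
          · subst hi
            have h0 : (decompose 𝒜 s 0 : S) = 0 := by
              have := (HomogeneousIdeal.mem_irrelevant_iff 𝒜 s).mp hs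
              simpa using this
            rw [h0, zero_smul]
            exact N.zero_mem
          · exact N.smul_mem _ (ih l (by omega) _ (decompose ℳ m l).2)
        · intro a b ha hb
          rw [decompose_add, DirectSum.add_apply]
          exact N.add_mem ha hb
      intro m hm
      have hm1 : m ∈ N ⊔ (HomogeneousIdeal.irrelevant 𝒜).toIdeal • (⊤ : Submodule S M) := by rw [h]; trivial
      obtain ⟨a, ha, b, hb, rfl⟩ := Submodule.mem_sup.mp hm1
      have h2 : (decompose ℳ (a + b) k : M) = a + b := decompose_of_mem_same ℳ hm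
      rw [← h2, decompose_add, DirectSum.add_apply]
      exact N.add_mem (hA a ha k) (hB b hb)
  rw [eq_top_iff]
  rintro m -
  rw [← sum_support_decompose ℳ m]
  exact Submodule.sum_mem _ fun i _ => hmain i _ (decompose ℳ m i).2

/-- Let S be an ℕ-graded ring and M a finitely generated graded S-module, graded in nonnegative degrees
(the source allows all integer degrees). If x_1, …, x_n are homogeneous elements of M which generate
M modulo S₊ M (S₊ the irrelevant ideal), then x_1, …, x_n generate M. -/
theorem result {R S : Type u} [CommRing R] [CommRing S] [Algebra R S] (𝒜 : ℕ → Submodule R S) [GradedAlgebra 𝒜]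
    (M : Type u) [AddCommGroup M] [Module R M] [Module S M] [IsScalarTower R S M] [Module.Finite S M] (ℳ : ℕ → Submodule R M) [DirectSum.Decomposition ℳ] [SetLike.GradedSMul 𝒜 ℳ]
    {n : ℕ} (x : Fin n → M) (hx : ∀ i, SetLike.IsHomogeneousElem ℳ (x i))
    (h : Submodule.span S (Set.range x) ⊔ (HomogeneousIdeal.irrelevant 𝒜).toIdeal • (⊤ : Submodule S M) = ⊤) :
    Submodule.span S (Set.range x) = ⊤ := by
  exact main_thm 𝒜 M ℳ x hx h

end Groth.Agent.S9614
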