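import Groth.Statements.S9616
import Mathlib

set_option autoImplicit false
universe u
open CAlg

namespace Groth.Agent.S9616



open DirectSum in
theorem exists_hom {R S : Type u} [CommRing R] [CommRing S] [Algebra R S] (𝒜 : ℕ → Submodule R S) [GradedAlgebra 𝒜]
    (J p : HomogeneousIdeal 𝒜) (h : ¬ J ≤ p) : ∃ z : S, ∃ d : ℕ, z ∈ 𝒜 d ∧ z ∈ J ∧ z ∉ p := by
  classical
  obtain ⟨z, hzJ, hzp⟩ := Set.not_subset.mp h
  by_contra hcon
  push Not at hcon
  apply hzp
  change z ∈ p.toIdeal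
  rw [← sum_support_decompose 𝒜 z]
  refine Ideal.sum_mem _ fun i _ => ?_
  exact hcon _ i (decompose 𝒜 z i).2 (J.isHomogeneous i hzJ)

theorem main_fs {R S : Type u} [CommRing R] [CommRing S] [Algebra R S] (𝒜 : ℕ → Submodule R S) [GradedAlgebra 𝒜]
    {r : ℕ} (p : Fin r → HomogeneousIdeal 𝒜) (hp : ∀ i, (p i).toIdeal.IsPrime) (I : HomogeneousIdeal 𝒜) (hI : I ≤ HomogeneousIdeal.irrelevant 𝒜) (h : ∀ i, ¬ I ≤ p i)
    (hpos : ∀ z ∈ I, ∀ d, z ∈ 𝒜 d → z ≠ 0 → 0 < d) :
    ∀ (n : ℕ) (T : Finset (Fin r)), T.card = n → T.Nonempty → ∃ x : S, ∃ d : ℕ, 0 < d ∧ x ∈ 𝒜 d ∧ x ∈ I ∧ ∀ i ∈ T, x ∉ p i := by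
  classical
  intro n
  induction n with
  | zero => intro T hT hne; exact absurd hne (by rw [Finset.card_eq_zero.mp hT]; simp)
  | succ n ih =>
    intro T hT hne
    have hneI : ∀ i, ∀ z : S, z ∉ p i → z ≠ 0 := fun i z hz h0 => hz (by rw [h0]; exact (p i).toIdeal.zero_mem)
    obtain ⟨a, ha⟩ := hne
    obtain ⟨z, e, hze, hzI, hzp⟩ := exists_hom 𝒜 I (p a) (h a)
    have he : 0 < e := hpos z hzI e hze (hneI a z hzp)
    by_cases hT' : (T.erase a).Nonempty
    swap
    · refine ⟨z, e, he, hze, hzI, fun i hi => ?_⟩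
      by_cases hia : i = a
      · rw [hia]; exact hzp
      · exact absurd ⟨i, Finset.mem_erase.mpr ⟨hia, hi⟩⟩ hT'
    by_cases hanti : ∃ i ∈ T.erase a, p i ≤ p a
    · obtain ⟨i, hi, hia⟩ := hanti
      have hi' := Finset.mem_erase.mp hi
      obtain ⟨x, d, hd, hxd, hxI, hx⟩ := ih (T.erase i) (by rw [Finset.card_erase_of_mem hi'.2, hT]; rfl)
        ⟨a, Finset.mem_erase.mpr ⟨Ne.symm hi'.1, ha⟩⟩
      refine ⟨x, d, hd, hxd, hxI, fun j hj => ?_⟩
      by_cases hji : j = i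
      · rw [hji]
        intro hxi
        exact hx a (Finset.mem_erase.mpr ⟨Ne.symm hi'.1, ha⟩) (hia hxi)
      · exact hx j (Finset.mem_erase.mpr ⟨hji, hj⟩)
    · push Not at hanti
      obtain ⟨x, d, hd, hxd, hxI, hx⟩ := ih (T.erase a) (by rw [Finset.card_erase_of_mem ha, hT]; rfl) hT'
      by_cases hxa : x ∈ p a
      swap
      · refine ⟨x, d, hd, hxd, hxI, fun j hj => ?_⟩
        by_cases hja : j = a
        · rw [hja]; exact hxa
        · exact hx j (Finset.mem_erase.mpr ⟨hja, hj⟩)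
      have hw : ∀ i : Fin r, ∃ w : S, ∃ c : ℕ, i ∈ T.erase a → (w ∈ 𝒜 c ∧ w ∈ p i ∧ w ∉ p a) := by
        intro i
        by_cases hi : i ∈ T.erase a
        · obtain ⟨w, c, hw⟩ := exists_hom 𝒜 (p i) (p a) (hanti i hi)
          exact ⟨w, c, fun _ => hw⟩
        · exact ⟨0, 0, fun h => absurd h hi⟩
      choose w c hw using hw
      set y := z * ∏ i ∈ T.erase a, w i with hy
      have hyc : y ∈ 𝒜 (e + ∑ i ∈ T.erase a, c i) :=
        SetLike.GradedMul.mul_mem hze (SetLike.prod_mem_graded _ _ _ fun i hi => (hw i hi).1)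
      have hyI : y ∈ I := I.toIdeal.mul_mem_right _ hzI
      haveI := hp a
      have hya : y ∉ p a := by
        intro hya
        rcases (hp a).mem_or_mem hya with h1 | h1
        · exact hzp h1
        · obtain ⟨i, hi, hi2⟩ := ((hp a).prod_mem_iff).mp h1
          exact (hw i hi).2.2 hi2
      have hyi : ∀ i ∈ T.erase a, y ∈ p i := by
        intro i hi
        refine (p i).toIdeal.mul_mem_left _ ?_
        rw [← Finset.mul_prod_erase _ _ hi]
        exact (p i).toIdeal.mul_mem_right _ (hw i hi).2.1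
      set f := e + ∑ i ∈ T.erase a, c i with hf
      have hfpos : 0 < f := by omega
      refine ⟨x ^ f + y ^ d, f * d, Nat.mul_pos hfpos hd, ?_, ?_, ?_⟩
      · refine Submodule.add_mem _ ?_ ?_
        · have := SetLike.pow_mem_graded f hxd
          simpa [smul_eq_mul] using this
        · have := SetLike.pow_mem_graded d hyc
          simpa [smul_eq_mul, mul_comm] using this
      · exact I.toIdeal.add_mem (I.toIdeal.pow_mem_of_mem hxI f hfpos) (I.toIdeal.pow_mem_of_mem hyI d hd)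
      · intro j hj hmem
        by_cases hja : j = a
        · subst hja
          have h1 : y ^ d ∈ (p j).toIdeal := by
            have h2 : x ^ f ∈ (p j).toIdeal := (p j).toIdeal.pow_mem_of_mem hxa f hfpos
            exact ((p j).toIdeal.add_mem_iff_right h2).mp hmem
          exact hya ((hp j).mem_of_pow_mem d h1)
        · have hj' := Finset.mem_erase.mpr ⟨hja, hj⟩
          have h1 : x ^ f ∈ (p j).toIdeal := by
            have h2 : y ^ d ∈ (p j).toIdeal := (p j).toIdeal.pow_mem_of_mem (hyi j hj') d hd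
            exact ((p j).toIdeal.add_mem_iff_left h2).mp hmem
          exact hx j hj' ((hp j).mem_of_pow_mem f h1)

/-- Let S be an ℕ-graded ring, p_1, …, p_r homogeneous prime ideals of S and I ⊆ S₊ a homogeneous ideal
not contained in any p_i. Then there is a homogeneous element x ∈ I of positive degree with x ∉ p_i
for all i. -/
theorem result {R S : Type u} [CommRing R] [CommRing S] [Algebra R S] (𝒜 : ℕ → Submodule R S) [GradedAlgebra 𝒜]
    {r : ℕ} (p : Fin r → HomogeneousIdeal 𝒜) (hp : ∀ i, (p i).toIdeal.IsPrime) (I : HomogeneousIdeal 𝒜) (hI : I ≤ HomogeneousIdeal.irrelevant 𝒜) (h : ∀ i, ¬ I ≤ p i) :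
    ∃ x : S, ∃ d : ℕ, 0 < d ∧ x ∈ 𝒜 d ∧ x ∈ I ∧ ∀ i, x ∉ p i := by
  classical
  have hpos : ∀ z ∈ I, ∀ d, z ∈ 𝒜 d → z ≠ 0 → 0 < d := by
    intro z hz d hzd hz0
    rcases Nat.eq_zero_or_pos d with rfl | hd
    · exfalso
      apply hz0
      have h1 := (HomogeneousIdeal.mem_irrelevant_iff 𝒜 z).mp (hI hz)
      have h2 : (DirectSum.decompose 𝒜 z 0 : S) = 0 := by simpa using h1
      rw [DirectSum.decompose_of_mem_same 𝒜 hzd] at h2
      exact h2
    · exact hd
  rcases Nat.eq_zero_or_pos r with hr | hr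
  · subst hr
    exact ⟨0, 1, one_pos, Submodule.zero_mem _, I.toIdeal.zero_mem, fun i => i.elim0⟩
  · obtain ⟨x, d, hd, hx, hxI, hxp⟩ := main_fs 𝒜 p hp I hI h hpos _ Finset.univ rfl ⟨⟨0, hr⟩, Finset.mem_univ _⟩
    exact ⟨x, d, hd, hx, hxI, fun i => hxp i (Finset.mem_univ i)⟩

end Groth.Agent.S9616
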