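import Groth.Statements.S9618
import Groth.Agent.Lib.Helper14_WeakAss
import Groth.Agent.Lib.Helper14_Idem

set_option autoImplicit false
universe u
open CAlg

namespace Groth.Agent.S9618

open Groth.Agent.H14

/-- For a ring R and a subset T of Spec R the following are equivalent: (1) T is closed and contains the
connected component of each of its points; (2) T can be written as an intersection of subsets of
Spec R that are both open and closed; (3) T is the common zero locus of some set of idempotent
elements of R (equivalently, of the ideal they generate). -/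
theorem result {R : Type u} [CommRing R] (T : Set (PrimeSpectrum R)) :
    [IsClosed T ∧ ∀ x ∈ T, connectedComponent x ⊆ T,
      ∃ U : Set (Set (PrimeSpectrum R)), (∀ u ∈ U, IsClopen u) ∧ T = ⋂₀ U,
      ∃ E : Set R, (∀ e ∈ E, IsIdempotentElem e) ∧ T = PrimeSpectrum.zeroLocus E].TFAE := by
  tfae_have 1 → 3 := by
    rintro ⟨hT, hc⟩
    refine ⟨{e | IsIdempotentElem e ∧ e ∈ PrimeSpectrum.vanishingIdeal T}, fun e he => he.1, ?_⟩
    apply Set.Subset.antisymm
    · intro x hx e he
      exact (PrimeSpectrum.mem_vanishingIdeal T e).1 he.2 x hx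
    · intro q hq
      by_contra hqT
      have h1 : PrimeSpectrum.zeroLocus ((Ideal.span {e : R | IsIdempotentElem e ∧ e ∈ q.asIdeal} ⊔ PrimeSpectrum.vanishingIdeal T : Ideal R) : Set R) = ∅ := by
        rw [PrimeSpectrum.zeroLocus_sup, PrimeSpectrum.zeroLocus_span, ← (connectedComponent_eq q).1, PrimeSpectrum.zeroLocus_vanishingIdeal_eq_closure, hT.closure_eq]
        rw [Set.eq_empty_iff_forall_notMem]
        rintro y ⟨hy1, hy2⟩
        have h2 := hc y hy2
        rw [← connectedComponent_eq_iff_mem] at hy1
        rw [hy1] at h2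
        exact hqT (h2 mem_connectedComponent)
      rw [PrimeSpectrum.zeroLocus_empty_iff_eq_top] at h1
      obtain ⟨a, ha, b, hb, hab⟩ := Submodule.mem_sup.1 ((Ideal.eq_top_iff_one _).1 h1)
      obtain ⟨f, hf, hfq, haf⟩ := exists_idem_of_mem_span ha
      have h3 : 1 - f = (1 - f) * b := by linear_combination (1 - f) * (-hab) + haf * (-1)
      have h4 : 1 - f ∈ PrimeSpectrum.vanishingIdeal T := by
        rw [h3]; exact Ideal.mul_mem_left _ _ hb
      have h5 : 1 - f ∈ q.asIdeal := hq ⟨hf.one_sub, h4⟩
      apply q.2.ne_top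
      rw [Ideal.eq_top_iff_one]
      have := q.asIdeal.add_mem h5 hfq
      rwa [sub_add_cancel] at this
  tfae_have 3 → 2 := by
    rintro ⟨E, hE, rfl⟩
    refine ⟨(fun e => PrimeSpectrum.zeroLocus {e}) '' E, ?_, ?_⟩
    · rintro _ ⟨e, he, rfl⟩
      exact PrimeSpectrum.isClopen_iff_zeroLocus.2 ⟨e, hE e he, rfl⟩
    · ext x
      simp only [Set.sInter_image, Set.mem_iInter, PrimeSpectrum.mem_zeroLocus, Set.singleton_subset_iff]
      rfl
  tfae_have 2 → 1 := by
    rintro ⟨U, hU, rfl⟩
    refine ⟨isClosed_sInter fun u hu => (hU u hu).1, fun x hx => ?_⟩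
    refine Set.subset_sInter fun u hu => ?_
    exact (hU u hu).connectedComponent_subset (hx u hu)
  tfae_finish

end Groth.Agent.S9618
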