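import Groth.Statements.S9620
import Groth.Agent.Lib.Helper14_WeakAss
import Groth.Agent.Lib.Helper14_Idem

set_option autoImplicit false
universe u
open CAlg

namespace Groth.Agent.S9620

open Groth.Agent.H14

/-- For a ring R and a point p of Spec R, the connected component of p is the zero locus of the ideal I
generated by the idempotents of R contained in p, and every idempotent e of R satisfies e ∈ I or 1 -
e ∈ I (e maps to 0 or 1 in R/I). -/
theorem result {R : Type u} [CommRing R] (p : PrimeSpectrum R) :
    connectedComponent p = PrimeSpectrum.zeroLocus {e : R | IsIdempotentElem e ∧ e ∈ p.asIdeal} ∧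
      ∀ e : R, IsIdempotentElem e → (e ∈ Ideal.span {e : R | IsIdempotentElem e ∧ e ∈ p.asIdeal} ∨ 1 - e ∈ Ideal.span {e : R | IsIdempotentElem e ∧ e ∈ p.asIdeal}) := by
  exact connectedComponent_eq p

end Groth.Agent.S9620
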