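import Groth.Statements.S9621
import Mathlib

set_option autoImplicit false
universe u
open CAlg

namespace Groth.Agent.S9621



/-- Let R be a ring, p a minimal prime of R and W a quasi-compact open subset of Spec R not containing
p. Then there is an f ∈ R, f ∉ p, whose basic open D(f) is disjoint from W. -/
theorem result {R : Type u} [CommRing R] (p : PrimeSpectrum R) (hp : p.asIdeal ∈ minimalPrimes R) (W : Set (PrimeSpectrum R)) (hWo : IsOpen W) (hWc : IsCompact W) (hpW : p ∉ W) :
    ∃ f : R, f ∉ p.asIdeal ∧ Disjoint (PrimeSpectrum.basicOpen f : Set (PrimeSpectrum R)) W := by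
  obtain ⟨s, hs⟩ := (PrimeSpectrum.isCompact_isOpen_iff (s := W)).1 ⟨hWc, hWo⟩
  -- each g in s is in p, so nilpotent in R_p
  have h1 : ∀ g ∈ s, ∃ t, t ∉ p.asIdeal ∧ IsNilpotent (t * g) := by
    intro g hg
    have hgp : g ∈ p.asIdeal := by
      by_contra hgp
      apply hpW
      rw [← hs]
      intro hz
      exact hgp (hz hg)
    have hp1 : p.asIdeal.IsPrime := p.2
    by_contra hcon
    push Not at hcon
    have hdisj : Disjoint ((⊥ : Ideal R) : Set R) ((p.asIdeal.primeCompl ⊔ Submonoid.powers g : Submonoid R) : Set R) := by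
      rw [Set.disjoint_left]
      rintro a ha hb
      obtain ⟨s, hs, y, hy, rfl⟩ := Submonoid.mem_sup.1 hb
      obtain ⟨n, rfl⟩ := Submonoid.mem_powers_iff _ _ |>.1 hy
      apply hcon s hs
      refine ⟨n + 1, ?_⟩
      have h0 : s * g ^ n = 0 := ha
      calc (s * g) ^ (n + 1) = s ^ n * g * (s * g ^ n) := by ring
        _ = 0 := by rw [h0, mul_zero]
    obtain ⟨q, hq, hIq, hqd⟩ := Ideal.exists_le_prime_disjoint ⊥ _ hdisj
    rw [Set.disjoint_left] at hqd
    have hqp : q ≤ p.asIdeal := by
      intro a ha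
      by_contra hap
      exact hqd ha (Submonoid.mem_sup_left (show a ∈ p.asIdeal.primeCompl from hap))
    have := hp.2 ⟨hq, hIq⟩ hqp
    exact hqd (this hgp) (Submonoid.mem_sup_right (Submonoid.mem_powers g))
  choose! t ht using h1
  refine ⟨∏ g ∈ s, t g, fun h => ?_, ?_⟩
  · obtain ⟨g, hg, h⟩ := (p.2.prod_mem_iff).1 h
    exact (ht g hg).1 h
  · rw [Set.disjoint_left]
    intro q hq hqW
    rw [← hs] at hqW
    apply hqW
    intro g hg
    have h2 : t g * g ∈ q.asIdeal := by
      obtain ⟨n, hn⟩ := (ht g hg).2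
      exact q.2.mem_of_pow_mem n (by rw [hn]; exact q.asIdeal.zero_mem)
    rcases q.2.mem_or_mem h2 with h | h
    · exfalso
      apply hq
      exact q.asIdeal.mem_of_dvd (Finset.dvd_prod_of_mem t hg) h
    · exact h

end Groth.Agent.S9621
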