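import Groth.Statements.S9622
import Mathlib
import Groth.Agent.S9645

set_option autoImplicit false
universe u
open CAlg

namespace Groth.Agent.S9622


theorem fin_aux {R S : Type u} [CommRing R] [CommRing S] [Algebra R S] [IsNoetherianRing S] (m : Ideal S) [Module.Finite R (S ⧸ m)] : ∀ (k : ℕ) (N : Type u) [AddCommGroup N] [Module S N] [Module R N] [IsScalarTower R S N] [Module.Finite S N], (m ^ k • ⊤ : Submodule S N) = ⊥ → Module.Finite R N := by
  intro k
  induction k with
  | zero =>
    intro N _ _ _ _ _ h
    rw [pow_zero, Ideal.one_eq_top, Submodule.top_smul] at h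
    have : Subsingleton N := (Submodule.subsingleton_iff S).1 (subsingleton_of_top_le_bot h.le)
    infer_instance
  | succ k ih =>
    intro N _ _ _ _ _ h
    let N' : Submodule S N := m • ⊤
    have h1 : Module.Finite R N' := by
      apply ih N'
      rw [eq_bot_iff]
      have : (m ^ k • ⊤ : Submodule S N').map N'.subtype ≤ ⊥ := by
        rw [Submodule.map_smul'', Submodule.map_top, Submodule.range_subtype]
        show m ^ k • (m • ⊤ : Submodule S N) ≤ ⊥
        rw [← Submodule.mul_smul, ← pow_succ, h]
      intro x hx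
      have h3 := this ⟨x, hx, rfl⟩
      rw [Submodule.mem_bot]
      exact Subtype.ext ((Submodule.mem_bot S).1 h3)
    have h2 : Module.Finite R (N ⧸ (m • ⊤ : Submodule S N)) := Module.Finite.trans (S ⧸ m) _
    have h3 : Module.Finite R (N'.restrictScalars R) := h1
    have h4 : Module.Finite R (N ⧸ N'.restrictScalars R) := h2
    exact Module.Finite.of_submodule_quotient (N'.restrictScalars R)

theorem fin_aux2 {R S : Type u} [CommRing R] [CommRing S] [Algebra R S] [IsArtinianRing S] [IsLocalRing S] [Module.Finite R (S ⧸ IsLocalRing.maximalIdeal S)] : Module.Finite R S := by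
  have hN : IsNoetherianRing S := inferInstance
  obtain ⟨k, hk⟩ := IsArtinianRing.isNilpotent_jacobson_bot (R := S)
  rw [IsLocalRing.jacobson_eq_maximalIdeal ⊥ bot_ne_top] at hk
  apply fin_aux (IsLocalRing.maximalIdeal S) k S
  rw [hk]
  simp

/-- Let R → S be a ring map whose target S is a local Artinian ring, and write m for the maximal ideal
of S. Then S is a finite R-module exactly when S/m is, and S is an R-algebra of finite type exactly
when S/m is. -/
theorem result {R S : Type u} [CommRing R] [CommRing S] [Algebra R S] [IsArtinianRing S] [IsLocalRing S] :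
    (Module.Finite R S ↔ Module.Finite R (S ⧸ IsLocalRing.maximalIdeal S)) ∧
      (Algebra.FiniteType R S ↔ Algebra.FiniteType R (S ⧸ IsLocalRing.maximalIdeal S)) := by
  refine ⟨⟨fun h => inferInstance, fun h => fin_aux2⟩, ⟨fun h => Algebra.FiniteType.of_surjective (Ideal.Quotient.mkₐ R _) (Ideal.Quotient.mkₐ_surjective R _), fun h => ?_⟩⟩
  obtain ⟨s, hs⟩ := h.out
  choose g hg using (Ideal.Quotient.mk_surjective (I := IsLocalRing.maximalIdeal S))
  classical
  let A : Subalgebra R S := Algebra.adjoin R ((s.image g : Finset S) : Set S)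
  have hA : Algebra.FiniteType R A := A.fg_iff_finiteType.1 ⟨_, rfl⟩
  have hsurj : Function.Surjective (algebraMap A (S ⧸ IsLocalRing.maximalIdeal S)) := by
    intro x
    have hx : x ∈ Algebra.adjoin R (s : Set (S ⧸ IsLocalRing.maximalIdeal S)) := by rw [hs]; trivial
    have h1 : Algebra.adjoin R (s : Set (S ⧸ IsLocalRing.maximalIdeal S)) ≤ A.map (Ideal.Quotient.mkₐ R (IsLocalRing.maximalIdeal S)) := by
      rw [Algebra.adjoin_le_iff]
      intro y hy
      exact ⟨g y, Algebra.subset_adjoin (Finset.mem_coe.2 (Finset.mem_image_of_mem g hy)), hg y⟩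
    obtain ⟨a, ha, hax⟩ := h1 hx
    exact ⟨⟨a, ha⟩, hax⟩
  have hfin : Module.Finite A (S ⧸ IsLocalRing.maximalIdeal S) := Module.Finite.of_surjective (Algebra.linearMap A (S ⧸ IsLocalRing.maximalIdeal S)) hsurj
  have hfin2 : Module.Finite A S := fin_aux2
  have : Algebra.FiniteType A S := inferInstance
  exact Algebra.FiniteType.trans hA this

end Groth.Agent.S9622
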