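import Groth.Statements.S9625
import Mathlib

set_option autoImplicit false
universe u
open CAlg

namespace Groth.Agent.S9625



open TensorProduct in
/-- Let k be a field and S a k-algebra such that Spec(k' ⊗_k S) is irreducible for every field extension
k'/k. Then every k-subalgebra of S has the same property. Here the test fields range over field
extensions in the universe of k; this is equivalent to the unrestricted notion, since an algebraic
closure of k suffices as a test. -/
theorem result {k S : Type u} [Field k] [CommRing S] [Algebra k S]
    (hS : ∀ (k' : Type u) [Field k'] [Algebra k k'], IrreducibleSpace (PrimeSpectrum (k' ⊗[k] S))) (S' : Subalgebra k S) :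
    ∀ (k' : Type u) [Field k'] [Algebra k k'], IrreducibleSpace (PrimeSpectrum (k' ⊗[k] S')) := by
  intro k' _ _
  have h := hS k'
  let φ := Algebra.TensorProduct.map (AlgHom.id k k') S'.val
  have hinj : Function.Injective φ :=
    Module.Flat.lTensor_preserves_injective_linearMap (M := k') S'.val.toLinearMap Subtype.val_injective
  rw [PrimeSpectrum.irreducibleSpace_iff_isPrime_nilradical] at h ⊢
  have h1 : nilradical (k' ⊗[k] S') = (nilradical (k' ⊗[k] S)).comap φ.toRingHom := by
    ext x
    rw [mem_nilradical, Ideal.mem_comap, mem_nilradical]
    exact (IsNilpotent.map_iff (f := φ) hinj).symm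
  rw [h1]
  exact Ideal.comap_isPrime _ _

end Groth.Agent.S9625
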