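import Groth.Statements.S9631
import Mathlib

set_option autoImplicit false
universe u
open CAlg

namespace Groth.Agent.S9631



/-- For a ring map φ : R → S the following are equivalent: (1) the induced map Spec(S) → Spec(R) is
surjective; (2) every ideal I of R satisfies φ⁻¹(√(IS)) = √I; (3) every radical ideal I of R
satisfies φ⁻¹(IS) = I; (4) every prime ideal p of R satisfies φ⁻¹(pS) = p. -/
theorem result {R S : Type u} [CommRing R] [CommRing S] (φ : R →+* S) :
    [Function.Surjective (PrimeSpectrum.comap φ),
      ∀ I : Ideal R, ((I.map φ).radical).comap φ = I.radical,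
      ∀ I : Ideal R, I.IsRadical → (I.map φ).comap φ = I,
      ∀ p : Ideal R, p.IsPrime → (p.map φ).comap φ = p].TFAE := by
  tfae_have 1 → 2 := by
    intro h I
    apply le_antisymm
    · rw [Ideal.radical_eq_sInf I]
      refine le_sInf ?_
      rintro p ⟨hIp, hp⟩
      obtain ⟨q, hq⟩ := h ⟨p, hp⟩
      have hqp : q.asIdeal.comap φ = p := congrArg PrimeSpectrum.asIdeal hq
      have h1 : (I.map φ).radical ≤ q.asIdeal := by
        rw [q.2.radical_le_iff]
        rw [Ideal.map_le_iff_le_comap, hqp]
        exact hIp
      exact (Ideal.comap_mono h1).trans hqp.le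
    · rw [Ideal.comap_radical]
      exact Ideal.radical_mono Ideal.le_comap_map
  tfae_have 2 → 3 := by
    intro h I hI
    apply le_antisymm _ Ideal.le_comap_map
    calc (I.map φ).comap φ ≤ ((I.map φ).radical).comap φ := Ideal.comap_mono Ideal.le_radical
      _ = I.radical := h I
      _ = I := hI.radical
  tfae_have 3 → 4 := fun h p hp => h p hp.isRadical
  tfae_have 4 → 1 := by
    rintro h ⟨p, hp⟩
    obtain ⟨q, hq, hqp⟩ := (Ideal.comap_map_eq_self_iff_of_isPrime p).1 (h p hp)
    exact ⟨⟨q, hq⟩, PrimeSpectrum.ext hqp⟩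
  tfae_finish

end Groth.Agent.S9631
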