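import Groth.Statements.S9632
import Groth.Agent.Lib.Helper14_WeakAss

set_option autoImplicit false
universe u
open CAlg

namespace Groth.Agent.S9632

open Groth.Agent.H14

open TensorProduct in
/-- Let R → A be a ring map making A a finite free R-module of rank n, let f ∈ A and let P(T) = Tⁿ +
r_{n-1}Tⁿ⁻¹ + ⋯ + r_0 be the characteristic polynomial of multiplication by f on A. Then for a prime
p of R, f acts nilpotently on κ(p) ⊗_R A if and only if p contains r_0, …, r_{n-1}. -/
theorem result {R A : Type u} [CommRing R] [CommRing A] [Algebra R A] [Module.Free R A] [Module.Finite R A] (f : A) (p : Ideal R) [p.IsPrime] :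
    IsNilpotent ((1 : p.ResidueField) ⊗ₜ[R] f : p.ResidueField ⊗[R] A) ↔
      ∀ i : ℕ, i < Module.finrank R A → (LinearMap.mulLeft R f).charpoly.coeff i ∈ p := by
  have h := isNilpotent_tensor_residueField_iff (R := R) (A := A) f p
  have h2 : IsNilpotent ((1 : p.ResidueField) ⊗ₜ[R] f : p.ResidueField ⊗[R] A) ↔ IsNilpotent (algebraMap A (A ⊗[R] p.ResidueField) f) := by
    rw [← IsNilpotent.map_iff (f := Algebra.TensorProduct.comm R p.ResidueField A) (Algebra.TensorProduct.comm R p.ResidueField A).injective]
    rfl
  rw [h2, h]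
  rfl

end Groth.Agent.S9632
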