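import Groth.Statements.S9633
import Groth.Agent.Lib.Helper14_WeakAss
import Groth.Agent.Lib.Helper14_Idem

set_option autoImplicit false
universe u
open CAlg

namespace Groth.Agent.S9633

open Groth.Agent.H14

/-- For a ring R with spectrum X the following are equivalent: (1) X is profinite, i.e. compact,
Hausdorff and totally disconnected; (2) Hausdorffness of X; (3) total disconnectedness of X; (4)
each open subset of X that is quasi-compact is also closed; (5) no prime ideal of R is strictly
contained in another; (6) every prime ideal of R is maximal; (7) every prime ideal of R is a minimal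
prime; (8) every standard open D(f) is closed. -/
theorem result {R : Type u} [CommRing R] :
    [CompactSpace (PrimeSpectrum R) ∧ T2Space (PrimeSpectrum R) ∧ TotallyDisconnectedSpace (PrimeSpectrum R),
      T2Space (PrimeSpectrum R),
      TotallyDisconnectedSpace (PrimeSpectrum R),
      ∀ W : Set (PrimeSpectrum R), IsOpen W → IsCompact W → IsClosed W,
      ∀ p q : PrimeSpectrum R, p ≤ q → p = q,
      ∀ p : Ideal R, p.IsPrime → p.IsMaximal,
      ∀ p : Ideal R, p.IsPrime → p ∈ minimalPrimes R,
      ∀ f : R, IsClosed (PrimeSpectrum.basicOpen f : Set (PrimeSpectrum R))].TFAE := by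
  tfae_have 1 → 2 := fun h => h.2.1
  tfae_have 1 → 3 := fun h => h.2.2
  tfae_have 2 → 4 := fun h W _ hW => hW.isClosed
  tfae_have 4 → 8 := fun h f => h _ (PrimeSpectrum.basicOpen f).2 (PrimeSpectrum.isCompact_basicOpen f)
  tfae_have 8 → 5 := by
    intro h p q hpq
    apply le_antisymm hpq
    intro f hf
    by_contra hfp
    have h1 : q ∈ closure ({p} : Set (PrimeSpectrum R)) := by
      rw [PrimeSpectrum.closure_singleton]
      exact hpq
    have h2 : closure ({p} : Set (PrimeSpectrum R)) ⊆ PrimeSpectrum.basicOpen f := by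
      apply closure_minimal _ (h f)
      rw [Set.singleton_subset_iff]
      exact hfp
    exact h2 h1 hf
  tfae_have 3 → 5 := by
    intro h p q hpq
    have h1 : q ∈ closure ({p} : Set (PrimeSpectrum R)) := by
      rw [PrimeSpectrum.closure_singleton]
      exact hpq
    have h2 : IsPreconnected (closure ({p} : Set (PrimeSpectrum R))) := isPreconnected_singleton.closure
    exact h2.subsingleton (subset_closure rfl) h1
  tfae_have 5 → 6 := by
    intro h p hp
    obtain ⟨m, hm, hpm⟩ := Ideal.exists_le_maximal p hp.ne_top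
    have := h ⟨p, hp⟩ ⟨m, hm.isPrime⟩ hpm
    have h2 : p = m := congrArg PrimeSpectrum.asIdeal this
    rw [h2]; exact hm
  tfae_have 6 → 7 := by
    intro h p hp
    refine ⟨⟨hp, bot_le⟩, ?_⟩
    rintro q ⟨hq, -⟩ hqp
    exact ((h q hq).eq_of_le hp.ne_top hqp).ge
  tfae_have 7 → 5 := by
    intro h p q hpq
    apply le_antisymm hpq
    exact (h q.asIdeal q.2).2 ⟨p.2, bot_le⟩ hpq
  tfae_have 7 → 8 := by
    intro h f
    rw [← isOpen_compl_iff, isOpen_iff_mem_nhds]
    intro q hq
    have hfq : f ∈ q.asIdeal := by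
      by_contra hf
      exact hq hf
    obtain ⟨s, hs, n, hn⟩ := exists_notMem_pow (h q.asIdeal q.2) hfq
    have hn' : s * f ^ n = 0 := hn
    refine Filter.mem_of_superset ((PrimeSpectrum.basicOpen s).2.mem_nhds hs) ?_
    intro x hx hfx
    have h3 : s * f ^ n ∈ x.asIdeal := by rw [hn']; exact x.asIdeal.zero_mem
    rcases x.2.mem_or_mem h3 with h | h
    · exact hx h
    · exact hfx (x.2.mem_of_pow_mem _ h)
  tfae_have 5 → 1 := by
    intro h5
    have h8 := tfae_7_to_8 (tfae_6_to_7 (tfae_5_to_6 h5))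
    have hsep : ∀ p q : PrimeSpectrum R, p ≠ q → ∃ U : Set (PrimeSpectrum R), IsClopen U ∧ p ∈ U ∧ q ∉ U := by
      intro p q hpq
      have : ¬ q.asIdeal ≤ p.asIdeal := fun h => hpq (h5 _ _ h).symm
      obtain ⟨f, hf, hfp⟩ := SetLike.not_le_iff_exists.1 this
      exact ⟨PrimeSpectrum.basicOpen f, ⟨h8 f, (PrimeSpectrum.basicOpen f).2⟩, hfp, fun h => h hf⟩
    refine ⟨inferInstance, ⟨fun p q hpq => ?_⟩, ⟨?_⟩⟩
    · obtain ⟨U, hU, hp, hq⟩ := hsep p q hpq
      exact ⟨U, Uᶜ, hU.2, hU.1.isOpen_compl, hp, hq, disjoint_compl_right⟩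
    · intro t _ ht p hp q hq
      by_contra hpq
      obtain ⟨U, hU, hpU, hqU⟩ := hsep p q hpq
      exact hqU (ht.subset_isClopen hU ⟨p, hp, hpU⟩ hq)
  tfae_finish

end Groth.Agent.S9633
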