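import Groth.Statements.S9637
import Groth.Agent.Lib.Helper14_WeakAss

set_option autoImplicit false
universe u
open CAlg

namespace Groth.Agent.S9637

open Groth.Agent.H14

/-- Let R be a local Noetherian ring, I an ideal contained in its maximal ideal, and M a finite
R-module. Then I contains an M-regular element (one acting injectively on M) if and only if no
associated prime of M contains I. -/
theorem result {R : Type u} [CommRing R] [IsNoetherianRing R] [IsLocalRing R] (I : Ideal R) (hI : I ≤ IsLocalRing.maximalIdeal R) (M : Type u) [AddCommGroup M] [Module R M] [Module.Finite R M] :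
    (∃ x ∈ I, IsSMulRegular M x) ↔ ∀ q ∈ associatedPrimes R M, ¬ I ≤ q := by
  constructor
  · rintro ⟨x, hx, hreg⟩ q hq hIq
    have h1 : x ∈ ⋃ p ∈ associatedPrimes R M, (p : Set R) := Set.mem_biUnion hq (hIq hx)
    rw [biUnion_associatedPrimes_eq_compl_regular] at h1
    exact h1 hreg
  · intro h
    by_contra hcon
    push Not at hcon
    have h1 : (I : Set R) ⊆ ⋃ p ∈ associatedPrimes R M, (p : Set R) := by
      intro x hx
      rw [biUnion_associatedPrimes_eq_compl_regular]
      exact hcon x hx
    have hfin := associatedPrimes.finite R M
    have h2 := (Ideal.subset_union_prime_finite hfin (f := fun p : Ideal R => p) ⊥ ⊥ (fun i hi _ _ => hi.1)).1 h1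
    obtain ⟨q, hq, hIq⟩ := h2
    exact h q hq hIq

end Groth.Agent.S9637
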