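import Groth.Statements.S9639
import Mathlib

set_option autoImplicit false
universe u
open CAlg

namespace Groth.Agent.S9639



open TensorProduct in
/-- Let k be a field and S a k-algebra such that Spec(k' ⊗_k S) is connected for every field extension
k'/k. Then every k-subalgebra of S has the same property. Here the test fields range over field
extensions in the universe of k; this is equivalent to the unrestricted notion, since an algebraic
closure of k suffices as a test. -/
theorem result {k S : Type u} [Field k] [CommRing S] [Algebra k S]
    (hS : ∀ (k' : Type u) [Field k'] [Algebra k k'], ConnectedSpace (PrimeSpectrum (k' ⊗[k] S))) (S' : Subalgebra k S) :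
    ∀ (k' : Type u) [Field k'] [Algebra k k'], ConnectedSpace (PrimeSpectrum (k' ⊗[k] S')) := by
  intro k' _ _
  have h := hS k'
  let φ := Algebra.TensorProduct.map (AlgHom.id k k') S'.val
  have hinj : Function.Injective φ :=
    Module.Flat.lTensor_preserves_injective_linearMap (M := k') S'.val.toLinearMap Subtype.val_injective
  have hd : DenseRange (PrimeSpectrum.comap φ.toRingHom) := by
    rw [PrimeSpectrum.denseRange_comap_iff_ker_le_nilRadical]
    rw [(RingHom.injective_iff_ker_eq_bot _).1 (show Function.Injective φ.toRingHom from hinj)]
    exact bot_le
  have hpre : IsPreconnected (Set.univ : Set (PrimeSpectrum (k' ⊗[k] S'))) := by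
    rw [← hd.closure_range]
    exact (isPreconnected_range (PrimeSpectrum.continuous_comap _)).closure
  have hne : Nonempty (PrimeSpectrum (k' ⊗[k] S')) := by
    obtain ⟨x⟩ := h.toNonempty
    exact ⟨PrimeSpectrum.comap φ.toRingHom x⟩
  exact { isPreconnected_univ := hpre, toNonempty := hne }

end Groth.Agent.S9639
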