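import Groth.Statements.S9640
import Groth.Agent.Lib.Helper14_Fiber
import Groth.Agent.S9594
import Groth.Agent.S9595
import Groth.Agent.S9590
import Groth.Agent.S9588

set_option autoImplicit false
universe u
open CAlg

namespace Groth.Agent.S9640

open Groth.Agent.H14

/-- Let R → S be a ring map with R a domain with fraction field K and N an S-module flat over R. Writing
T for the image in S of the nonzero elements of R, so that T⁻¹S = S ⊗_R K and T⁻¹N = N ⊗_R K, the
primes of S weakly associated to N are exactly the inverse images in S of the primes of T⁻¹S weakly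
associated to T⁻¹N. -/
theorem result {R S : Type u} [CommRing R] [IsDomain R] [CommRing S] [Algebra R S] (N : Type u) [AddCommGroup N] [Module S N] [Module R N] [IsScalarTower R S N] [Module.Flat R N] :
    FlatCA.weakAss S N = Ideal.comap (algebraMap S (Localization (Algebra.algebraMapSubmonoid S (nonZeroDivisors R)))) '' FlatCA.weakAss (Localization (Algebra.algebraMapSubmonoid S (nonZeroDivisors R))) (LocalizedModule (Algebra.algebraMapSubmonoid S (nonZeroDivisors R)) N) := by
  have hreg : ∀ s ∈ Algebra.algebraMapSubmonoid S (nonZeroDivisors R), IsSMulRegular N s := by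
    rintro _ ⟨r, hr, rfl⟩
    have h2 : IsSMulRegular N r := Module.Flat.isSMulRegular_of_nonZeroDivisors hr
    intro a b hab
    apply h2
    have hab' : algebraMap R S r • a = algebraMap R S r • b := hab
    rw [algebraMap_smul, algebraMap_smul] at hab'
    exact hab'
  rw [Groth.Agent.S9590.result (Algebra.algebraMapSubmonoid S (nonZeroDivisors R)) N hreg]
  exact Groth.Agent.S9588.result (Algebra.algebraMapSubmonoid S (nonZeroDivisors R)) N

end Groth.Agent.S9640
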