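import Groth.Statements.S9641
import Mathlib

set_option autoImplicit false
universe u
open CAlg

namespace Groth.Agent.S9641



open TensorProduct in
/-- Let k be a field and R, S two k-algebras. If R ⊗_k S is not reduced then there are finitely
generated k-subalgebras R' ⊆ R and S' ⊆ S such that R' ⊗_k S' is not reduced. -/
theorem result {k R S : Type u} [Field k] [CommRing R] [CommRing S] [Algebra k R] [Algebra k S] (h : ¬ IsReduced (R ⊗[k] S)) :
    ∃ (R' : Subalgebra k R) (S' : Subalgebra k S), R'.FG ∧ S'.FG ∧ ¬ IsReduced (R' ⊗[k] S') := by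
  have key : ∀ x : R ⊗[k] S, ∃ (R' : Subalgebra k R) (S' : Subalgebra k S), R'.FG ∧ S'.FG ∧ x ∈ (Algebra.TensorProduct.map R'.val S'.val).range := by
    intro x
    induction x using TensorProduct.induction_on with
    | zero => exact ⟨⊥, ⊥, Subalgebra.fg_bot, Subalgebra.fg_bot, Subalgebra.zero_mem _⟩
    | tmul r s =>
      refine ⟨Algebra.adjoin k {r}, Algebra.adjoin k {s}, ⟨{r}, by simp⟩, ⟨{s}, by simp⟩, ?_⟩
      exact ⟨(⟨r, Algebra.self_mem_adjoin_singleton k r⟩ : Algebra.adjoin k {r}) ⊗ₜ (⟨s, Algebra.self_mem_adjoin_singleton k s⟩ : Algebra.adjoin k {s}), rfl⟩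
    | add a b ha hb =>
      obtain ⟨R1, S1, h1, h2, y1, hy1⟩ := ha
      obtain ⟨R2, S2, h3, h4, y2, hy2⟩ := hb
      refine ⟨R1 ⊔ R2, S1 ⊔ S2, Subalgebra.FG.sup h1 h3, Subalgebra.FG.sup h2 h4, Subalgebra.add_mem _ ?_ ?_⟩
      · let φ : (R1 ⊗[k] S1) →ₐ[k] (↥(R1 ⊔ R2) ⊗[k] ↥(S1 ⊔ S2)) := Algebra.TensorProduct.map (Subalgebra.inclusion le_sup_left) (Subalgebra.inclusion le_sup_left)
        refine ⟨φ y1, ?_⟩
        rw [← hy1]
        show ((Algebra.TensorProduct.map (R1 ⊔ R2).val (S1 ⊔ S2).val).comp φ) y1 = _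
        rw [← Algebra.TensorProduct.map_comp]
        rfl
      · let φ : (R2 ⊗[k] S2) →ₐ[k] (↥(R1 ⊔ R2) ⊗[k] ↥(S1 ⊔ S2)) := Algebra.TensorProduct.map (Subalgebra.inclusion le_sup_right) (Subalgebra.inclusion le_sup_right)
        refine ⟨φ y2, ?_⟩
        rw [← hy2]
        show ((Algebra.TensorProduct.map (R1 ⊔ R2).val (S1 ⊔ S2).val).comp φ) y2 = _
        rw [← Algebra.TensorProduct.map_comp]
        rfl
  have h0 : ∃ x : R ⊗[k] S, IsNilpotent x ∧ x ≠ 0 := by
    by_contra hcon
    push Not at hcon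
    exact h ⟨hcon⟩
  obtain ⟨x, hx, hx0⟩ := h0
  obtain ⟨R', S', h1, h2, y, hy⟩ := key x
  refine ⟨R', S', h1, h2, fun hred => hx0 ?_⟩
  have hinj : Function.Injective (Algebra.TensorProduct.map R'.val S'.val) := by
    have h3 : Function.Injective (LinearMap.rTensor S R'.val.toLinearMap) := Module.Flat.rTensor_preserves_injective_linearMap (M := S) R'.val.toLinearMap Subtype.val_injective
    have h4 : Function.Injective (LinearMap.lTensor R' S'.val.toLinearMap) := Module.Flat.lTensor_preserves_injective_linearMap (M := R') S'.val.toLinearMap Subtype.val_injective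
    have h5 : ∀ z, Algebra.TensorProduct.map R'.val S'.val z = LinearMap.rTensor S R'.val.toLinearMap (LinearMap.lTensor R' S'.val.toLinearMap z) := by
      intro z
      induction z using TensorProduct.induction_on with
      | zero => simp
      | tmul a b => rfl
      | add a b ha hb => rw [map_add, map_add, map_add, ha, hb]
    intro a b hab
    rw [h5, h5] at hab
    exact h4 (h3 hab)
  have hy' : Algebra.TensorProduct.map R'.val S'.val y = x := hy
  have h6 : IsNilpotent y := by
    rw [← IsNilpotent.map_iff (f := Algebra.TensorProduct.map R'.val S'.val) hinj, hy']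
    exact hx
  rw [← hy', hred.eq_zero y h6, map_zero]

end Groth.Agent.S9641
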