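import Groth.Statements.S9642
import Mathlib

set_option autoImplicit false
universe u
open CAlg

namespace Groth.Agent.S9642



/-- In the general form stated there: let R → S be a ring map inducing an open map Spec(S) → Spec(R),
with Spec(R) irreducible, such that for a dense set of primes p of R the fibre ring κ(p) ⊗_R S has
irreducible spectrum. Then Spec(S) is irreducible. The flat and finitely presented case is the
special case in which the map on spectra is open by fppf-openness. -/
theorem result {R S : Type u} [CommRing R] [CommRing S] [Algebra R S]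
    (hopen : IsOpenMap (PrimeSpectrum.comap (algebraMap R S))) [IrreducibleSpace (PrimeSpectrum R)]
    (D : Set (PrimeSpectrum R)) (hD : Dense D) (hfib : ∀ p ∈ D, IrreducibleSpace (PrimeSpectrum (p.asIdeal.Fiber S))) :
    IrreducibleSpace (PrimeSpectrum S) := by
  have hfib2 : ∀ p ∈ D, IrreducibleSpace (PrimeSpectrum.comap (algebraMap R S) ⁻¹' {p}) := by
    intro p hp
    have := hfib p hp
    have e := (PrimeSpectrum.preimageHomeomorphFiber R S p).symm
    have h := (IrreducibleSpace.isIrreducible_univ (PrimeSpectrum (p.asIdeal.Fiber S))).image e e.continuous.continuousOn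
    rw [Set.image_univ, e.surjective.range_eq] at h
    exact (irreducibleSpace_def _).2 h
  have hne : Nonempty (PrimeSpectrum S) := by
    obtain ⟨p, hp⟩ := hD.nonempty
    obtain ⟨x⟩ := (hfib2 p hp).toNonempty
    exact ⟨x.1⟩
  have hpre : IsPreirreducible (Set.univ : Set (PrimeSpectrum S)) := by
    rintro U V hU hV ⟨x, -, hx⟩ ⟨y, -, hy⟩
    have h1 : ((PrimeSpectrum.comap (algebraMap R S) '' U) ∩ (PrimeSpectrum.comap (algebraMap R S) '' V)).Nonempty := by
      have := (PreirreducibleSpace.isPreirreducible_univ (X := PrimeSpectrum R)) _ _ (hopen U hU) (hopen V hV) ⟨_, trivial, ⟨x, hx, rfl⟩⟩ ⟨_, trivial, ⟨y, hy, rfl⟩⟩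
      obtain ⟨z, -, hz⟩ := this
      exact ⟨z, hz⟩
    obtain ⟨p, hp, hpD⟩ := hD.inter_open_nonempty _ ((hopen U hU).inter (hopen V hV)) h1
    obtain ⟨⟨a, haU, hap⟩, ⟨b, hbV, hbp⟩⟩ := hp
    have hirr := hfib2 p hpD
    have h2 := (PreirreducibleSpace.isPreirreducible_univ (X := PrimeSpectrum.comap (algebraMap R S) ⁻¹' {p})) (Subtype.val ⁻¹' U) (Subtype.val ⁻¹' V) (hU.preimage continuous_subtype_val) (hV.preimage continuous_subtype_val) ⟨⟨a, hap⟩, trivial, haU⟩ ⟨⟨b, hbp⟩, trivial, hbV⟩
    obtain ⟨z, -, hz⟩ := h2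
    exact ⟨z.1, trivial, hz⟩
  exact { isPreirreducible_univ := hpre, toNonempty := hne }

end Groth.Agent.S9642
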