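import Groth.Statements.S9643
import Mathlib

set_option autoImplicit false
universe u
open CAlg

namespace Groth.Agent.S9643



/-- Let R be a Noetherian ring, M a finite R-module and 0 = M_0 ⊆ M_1 ⊆ ⋯ ⊆ M_n = M a chain of
submodules whose successive quotients M_i/M_{i-1} are isomorphic to R/p_i for prime ideals p_i. Then
the primes minimal among p_1, …, p_n are exactly the primes minimal in the support of M. -/
theorem result {R : Type u} [CommRing R] [IsNoetherianRing R] (M : Type u) [AddCommGroup M] [Module R M] [Module.Finite R M]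
    {n : ℕ} (N : Fin (n + 1) → Submodule R M) (hN : Monotone N) (h0 : N 0 = ⊥) (hlast : N (Fin.last n) = ⊤)
    (p : Fin n → PrimeSpectrum R)
    (hquot : ∀ i : Fin n, Nonempty ((↥(N i.succ) ⧸ Submodule.comap (N i.succ).subtype (N i.castSucc)) ≃ₗ[R] (R ⧸ (p i).asIdeal))) :
    {q : PrimeSpectrum R | Minimal (fun x => x ∈ Set.range p) q} = {q : PrimeSpectrum R | Minimal (fun x => x ∈ Module.support R M) q} := by
  have hquotsupp : ∀ I : Ideal R, Module.support R (R ⧸ I) = PrimeSpectrum.zeroLocus (I : Set R) := by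
    intro I
    rw [Module.support_eq_zeroLocus, Ideal.annihilator_quotient]
  have hstep : ∀ i : Fin (n + 1), Module.support R (N i) = {x | ∃ k : Fin n, k.castSucc < i ∧ p k ≤ x} := by
    intro i
    induction i using Fin.induction with
    | zero =>
      rw [h0]
      ext x
      simp only [Set.mem_setOf_eq]
      constructor
      · intro hx
        exfalso
        rw [Module.support_eq_empty] at hx
        exact hx
      · rintro ⟨k, hk, -⟩
        exact absurd hk (Fin.not_lt_zero _)
    | succ i ih =>
      have hle : N i.castSucc ≤ N i.succ := hN (Fin.castSucc_lt_succ).le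
      have h1 := Module.support_of_exact (f := Submodule.inclusion hle) (g := Submodule.mkQ (Submodule.comap (N i.succ).subtype (N i.castSucc)))
        (by
          intro x
          rw [Submodule.mkQ_apply, Submodule.Quotient.mk_eq_zero, Submodule.mem_comap]
          constructor
          · intro hx; exact ⟨⟨x.1, hx⟩, rfl⟩
          · rintro ⟨y, rfl⟩; exact y.2) (Submodule.inclusion_injective hle) (Submodule.mkQ_surjective _)
      rw [h1, ih]
      obtain ⟨e⟩ := hquot i
      rw [e.support_eq, hquotsupp]
      ext x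
      simp only [Set.mem_union, Set.mem_setOf_eq, PrimeSpectrum.mem_zeroLocus]
      constructor
      · rintro (⟨k, hk, hkx⟩ | hx)
        · exact ⟨k, hk.trans (Fin.castSucc_lt_succ), hkx⟩
        · exact ⟨i, Fin.castSucc_lt_succ, hx⟩
      · rintro ⟨k, hk, hkx⟩
        rcases (Fin.le_castSucc_iff.2 hk).lt_or_eq with h | h
        · left; exact ⟨k, h, hkx⟩
        · right
          have : k = i := Fin.castSucc_injective _ h
          rw [← this]; exact hkx
  have hsupp : Module.support R M = {x | ∃ k : Fin n, p k ≤ x} := by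
    have h1 := hstep (Fin.last n)
    rw [hlast] at h1
    rw [(Submodule.topEquiv (R := R) (M := M)).support_eq] at h1
    rw [h1]
    ext x
    simp only [Set.mem_setOf_eq]
    constructor
    · rintro ⟨k, -, h⟩; exact ⟨k, h⟩
    · rintro ⟨k, h⟩; exact ⟨k, Fin.castSucc_lt_last k, h⟩
  ext q
  simp only [Set.mem_setOf_eq, hsupp]
  constructor
  · rintro ⟨⟨k, hk⟩, hmin⟩
    refine ⟨⟨k, hk.le⟩, ?_⟩
    rintro x ⟨l, hl⟩ hxq
    exact (hmin ⟨l, rfl⟩ (hl.trans hxq)).trans hl
  · rintro ⟨⟨k, hk⟩, hmin⟩
    have h1 : q ≤ p k := hmin ⟨k, le_rfl⟩ hk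
    have h2 : p k = q := le_antisymm hk h1
    refine ⟨⟨k, h2⟩, ?_⟩
    rintro _ ⟨l, rfl⟩ hlq
    exact hmin ⟨l, le_rfl⟩ hlq

end Groth.Agent.S9643
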