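import Groth.Statements.S9646
import Mathlib
import Groth.Agent.S9645

set_option autoImplicit false
universe u
open CAlg

namespace Groth.Agent.S9646



/-- (2) ⇒ (1): let R → S be a ring map and x ∈ S. If for every prime ideal p of R the image of x in S_p
(the localization of S at the image of R ∖ p) is integral over R_p, then x is integral over R. Here
R_p and S_p are any rings satisfying the localization universal properties. -/
theorem result {R S : Type u} [CommRing R] [CommRing S] [Algebra R S] (x : S)
    (h : ∀ (p : Ideal R) [p.IsPrime] (Rp Sp : Type u) [CommRing Rp] [CommRing Sp] [Algebra R Rp] [Algebra S Sp] [Algebra Rp Sp] [Algebra R Sp] [IsScalarTower R S Sp] [IsScalarTower R Rp Sp] [IsLocalization.AtPrime Rp p] [IsLocalization (Algebra.algebraMapSubmonoid S p.primeCompl) Sp], IsIntegral Rp (algebraMap S Sp x)) :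
    IsIntegral R x := by
  let I : Ideal R :=
    { carrier := {r | IsIntegral R (r • x)}
      zero_mem' := by show IsIntegral R ((0 : R) • x); rw [zero_smul]; exact isIntegral_zero
      add_mem' := by
        intro a b ha hb
        show IsIntegral R ((a + b) • x)
        rw [add_smul]; exact IsIntegral.add ha hb
      smul_mem' := by
        intro c a ha
        show IsIntegral R ((c • a) • x)
        rw [smul_assoc]; exact IsIntegral.smul c ha }
  have hI : I = ⊤ := by
    by_contra hne
    obtain ⟨m, hm, hIm⟩ := Ideal.exists_le_maximal I hne
    have hmp : m.IsPrime := hm.isPrime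
    letI : Algebra (Localization.AtPrime m) (Localization (Algebra.algebraMapSubmonoid S m.primeCompl)) := localizationAlgebra m.primeCompl S
    haveI : IsScalarTower R (Localization.AtPrime m) (Localization (Algebra.algebraMapSubmonoid S m.primeCompl)) := by
      refine IsScalarTower.of_algebraMap_eq' ?_
      exact (IsLocalization.map_comp _).symm
    have h1 := h m (Localization.AtPrime m) (Localization (Algebra.algebraMapSubmonoid S m.primeCompl))
    obtain ⟨b, hb, s, hs, hsb⟩ := (Groth.Agent.S9645.result (A := R) (B := S) m.primeCompl _).1 h1
    rw [IsScalarTower.algebraMap_apply R S, ← map_mul] at hsb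
    obtain ⟨⟨_, t, ht, rfl⟩, hc⟩ := (IsLocalization.eq_iff_exists (Algebra.algebraMapSubmonoid S m.primeCompl) _).1 hsb
    have h2 : t * s ∈ I := by
      show IsIntegral R ((t * s) • x)
      have h3 : (t * s) • x = t • b := by
        rw [Algebra.smul_def, Algebra.smul_def, map_mul]
        have hc' : algebraMap R S t * (x * algebraMap R S s) = algebraMap R S t * b := hc
        rw [← hc']; ring
      rw [h3]
      exact IsIntegral.smul t hb
    exact (m.primeCompl.mul_mem ht hs) (hIm h2)
  have h1 : IsIntegral R ((1 : R) • x) := (Ideal.eq_top_iff_one _).1 hI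
  rwa [one_smul] at h1

end Groth.Agent.S9646
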