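import Groth.Statements.S9648
import Groth.Agent.Lib.Helper14_Fiber

set_option autoImplicit false
universe u
open CAlg

namespace Groth.Agent.S9648

open Groth.Agent.H14

open TensorProduct in
/-- The inclusion, valid for any ring R: let R → S be a ring map, M an R-module and N an S-module which
is flat over R. For an associated prime p of M (a prime equal to the annihilator of an element) and
an associated prime Q of the fibre module N ⊗_R κ(p) over the fibre ring S ⊗_R κ(p), the inverse
image of Q in S is an associated prime of N ⊗_R M. -/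
theorem result {R S : Type u} [CommRing R] [CommRing S] [Algebra R S] (M : Type u) [AddCommGroup M] [Module R M] (N : Type u) [AddCommGroup N] [Module S N] [Module R N] [IsScalarTower R S N] [Module.Flat R N]
    (p : Ideal R) [p.IsPrime] (hp : p ∈ FlatCA.ass R M) (Q : Ideal (p.Fiber S)) (hQ : Q ∈ FlatCA.ass (p.Fiber S) (FlatCA.fiberMod p S N)) :
    Q.comap (Algebra.TensorProduct.includeRight (R := R) (A := p.ResidueField) (B := S)).toRingHom ∈ FlatCA.ass S (N ⊗[R] M) := by
  have hsm : ∀ (s : S) (x : FlatCA.fiberMod p S N), (Algebra.TensorProduct.includeRight (R := R) (A := p.ResidueField) (B := S)).toRingHom s • x = s • x := by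
    intro s x
    rfl
  have h1 : Q.comap (Algebra.TensorProduct.includeRight (R := R) (A := p.ResidueField) (B := S)).toRingHom ∈ FlatCA.ass S (FlatCA.fiberMod p S N) := by
    obtain ⟨hQ, x, hx⟩ := mem_ass_iff.1 hQ
    refine mem_ass_iff.2 ⟨inferInstance, x, fun a => ?_⟩
    rw [Ideal.mem_comap, hx, hsm]
  rw [← (flat_main N p).1, mem_ass_quot_iff] at h1
  obtain ⟨hq, n, hn⟩ := h1
  obtain ⟨hpp, m, hm⟩ := mem_ass_iff.1 hp
  let g : (R ⧸ p) →ₗ[R] M := Submodule.liftQ p (LinearMap.toSpanSingleton R M m) (by
    intro a ha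
    rw [LinearMap.mem_ker, LinearMap.toSpanSingleton_apply]
    exact (hm a).1 ha)
  have hg : Function.Injective g := by
    rw [injective_iff_map_eq_zero]
    intro x hx
    obtain ⟨x, rfl⟩ := Ideal.Quotient.mk_surjective x
    rw [Ideal.Quotient.eq_zero_iff_mem, hm]
    exact hx
  have hinj := Module.Flat.lTensor_preserves_injective_linearMap (M := N) g hg
  refine mem_ass_iff.2 ⟨hq, n ⊗ₜ m, fun a => ?_⟩
  rw [hn, ← tmul_one_eq_zero_iff, ← map_eq_zero_iff _ hinj, LinearMap.lTensor_tmul, TensorProduct.smul_tmul']
  have : g 1 = m := by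
    show (1 : R) • m = m
    rw [one_smul]
  rw [this]

end Groth.Agent.S9648
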