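import Groth.Statements.S9656
import Mathlib

set_option autoImplicit false
universe u
open CAlg

namespace Groth.Agent.S9656



/-- Let R_i → S_i be ring maps indexed by a finite type ι, with product map R = Π R_i → S = Π S_i. Then
an element (s_i) of S is integral over R exactly when s_i is integral over R_i for every i; so
integral closure in a finite product is computed factor by factor. -/
theorem result {ι : Type u} [Fintype ι] {R S : ι → Type u} [∀ i, CommRing (R i)] [∀ i, CommRing (S i)] (f : ∀ i, R i →+* S i) (s : ∀ i, S i) :
    (RingHom.pi fun i => (f i).comp (Pi.evalRingHom R i)).IsIntegralElem s ↔ ∀ i, (f i).IsIntegralElem (s i) := by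
  constructor
  · rintro ⟨P, hP, h⟩ i
    refine ⟨P.map (Pi.evalRingHom R i), hP.map _, ?_⟩
    rw [Polynomial.eval₂_map]
    have := congrArg (Pi.evalRingHom S i) h
    rw [Polynomial.hom_eval₂, map_zero] at this
    exact this
  · intro h
    choose Q hQ h using h
    let N := ∑ i, (Q i).natDegree
    have hN : ∀ i, (Q i).natDegree ≤ N := fun i => Finset.single_le_sum (f := fun i => (Q i).natDegree) (fun _ _ => Nat.zero_le _) (Finset.mem_univ i)
    let P' : ∀ i, Polynomial (R i) := fun i => Q i * Polynomial.X ^ (N - (Q i).natDegree)
    have hc : ∀ i, (P' i).coeff N = 1 := by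
      intro i
      have : N = (Q i).natDegree + (N - (Q i).natDegree) := by have := hN i; omega
      show (Q i * Polynomial.X ^ (N - (Q i).natDegree)).coeff N = 1
      conv_lhs => rw [this, Nat.add_sub_cancel_left]
      rw [Polynomial.coeff_mul_X_pow]
      exact hQ i
    have hd : ∀ i j, N < j → (P' i).coeff j = 0 := by
      intro i j hj
      apply Polynomial.coeff_eq_zero_of_natDegree_lt
      refine lt_of_le_of_lt ?_ hj
      refine (Polynomial.natDegree_mul_le).trans ?_
      have h1 := Polynomial.natDegree_X_pow_le (R := R i) (N - (Q i).natDegree)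
      have h2 := hN i
      omega
    let P : Polynomial (∀ i, R i) := Polynomial.X ^ N + ∑ j ∈ Finset.range N, Polynomial.C (fun i => (P' i).coeff j) * Polynomial.X ^ j
    have hPm : P.Monic := by
      apply Polynomial.monic_X_pow_add
      refine lt_of_le_of_lt (Polynomial.degree_sum_le _ _) ?_
      rw [Finset.sup_lt_iff (WithBot.bot_lt_coe _)]
      intro j hj
      refine lt_of_le_of_lt (Polynomial.degree_C_mul_X_pow_le _ _) ?_
      exact_mod_cast Finset.mem_range.1 hj
    have hmap : ∀ i, P.map (Pi.evalRingHom R i) = P' i := by
      intro i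
      ext j
      simp only [P, Polynomial.map_add, Polynomial.map_pow, Polynomial.map_X, Polynomial.map_sum, Polynomial.map_mul, Polynomial.map_C, Polynomial.coeff_add, Polynomial.finsetSum_coeff, Polynomial.coeff_X_pow, Polynomial.coeff_C_mul, Pi.evalRingHom_apply, mul_ite, mul_one, mul_zero]
      rw [Finset.sum_ite_eq]
      by_cases h1 : j = N
      · subst h1
        simp [hc]
      · by_cases h2 : j < N
        · simp [h1, h2]
        · simp [h1, h2]
          exact (hd i j (by omega)).symm
    refine ⟨P, hPm, ?_⟩
    funext i
    have h1 : Pi.evalRingHom S i (Polynomial.eval₂ (RingHom.pi fun i => (f i).comp (Pi.evalRingHom R i)) s P) = Polynomial.eval₂ (f i) (s i) (P.map (Pi.evalRingHom R i)) := by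
      rw [Polynomial.hom_eval₂, Polynomial.eval₂_map]
      rfl
    have h2 : Polynomial.eval₂ (f i) (s i) (P' i) = 0 := by
      show Polynomial.eval₂ (f i) (s i) (Q i * Polynomial.X ^ (N - (Q i).natDegree)) = 0
      rw [Polynomial.eval₂_mul, h i, zero_mul]
    rw [hmap, h2] at h1
    exact h1

end Groth.Agent.S9656
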