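import Groth.Statements.S9658
import Groth.Agent.Lib.Helper14_WeakAss
import Groth.Agent.Lib.Helper14_Idem

set_option autoImplicit false
universe u
open CAlg

namespace Groth.Agent.S9658

open Groth.Agent.H14

/-- Let R be a ring, f_1, …, f_n ∈ R generating the unit ideal and M an R-module. With M_i = M_{f_i},
M_ij = M_{f_i f_j} (any localizations, with the canonical compatible maps M → M_i → M_ij), the
sequence 0 → M → ⊕ M_i → ⊕ M_ij is exact: an element of M whose image vanishes in every M_i is zero,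
and every family (m_i ∈ M_i) such that m_i and m_j have the same image in M_ij for all i, j is the
image of an element of M. -/
theorem result {R : Type u} [CommRing R] {ι : Type u} [Fintype ι] (f : ι → R) (hf : Ideal.span (Set.range f) = ⊤)
    (M : Type u) [AddCommGroup M] [Module R M]
    (Mi : ι → Type u) [∀ i, AddCommGroup (Mi i)] [∀ i, Module R (Mi i)] (g : ∀ i, M →ₗ[R] Mi i) [∀ i, IsLocalizedModule (Submonoid.powers (f i)) (g i)]
    (Mij : ι → ι → Type u) [∀ i j, AddCommGroup (Mij i j)] [∀ i j, Module R (Mij i j)] (gij : ∀ i j, M →ₗ[R] Mij i j) [∀ i j, IsLocalizedModule (Submonoid.powers (f i * f j)) (gij i j)]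
    (ρ₁ : ∀ i j, Mi i →ₗ[R] Mij i j) (hρ₁ : ∀ i j, ρ₁ i j ∘ₗ g i = gij i j) (ρ₂ : ∀ i j, Mi j →ₗ[R] Mij i j) (hρ₂ : ∀ i j, ρ₂ i j ∘ₗ g j = gij i j) :
    (∀ m : M, (∀ i, g i m = 0) → m = 0) ∧
      ∀ s : ∀ i, Mi i, (∀ i j, ρ₁ i j (s i) = ρ₂ i j (s j)) → ∃ m : M, ∀ i, g i m = s i := by
  classical
  have hspan : ∀ n : ℕ, Ideal.span (Set.range fun i => f i ^ n) = ⊤ := by
    intro n
    rw [← Set.image_univ, ← Ideal.span_pow_eq_top _ (Set.image_univ (f := f) ▸ hf : Ideal.span (f '' Set.univ) = ⊤) n]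
    congr 1
    rw [Set.image_image]
  constructor
  · intro m hm
    have h1 : ∀ i, ∃ n : ℕ, f i ^ n • m = 0 := by
      intro i
      obtain ⟨⟨_, n, rfl⟩, hn⟩ := (IsLocalizedModule.eq_zero_iff (Submonoid.powers (f i)) (g i)).1 (hm i)
      exact ⟨n, hn⟩
    choose n hn using h1
    let N := ∑ i, n i
    have hN : ∀ i, f i ^ N • m = 0 := by
      intro i
      have : n i ≤ N := Finset.single_le_sum (f := n) (fun _ _ => Nat.zero_le _) (Finset.mem_univ i)
      rw [← Nat.sub_add_cancel this, pow_add, mul_smul, hn, smul_zero]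
    have h2 : Ideal.span (Set.range fun i => f i ^ N) ≤ (Submodule.span R {m}).annihilator := by
      rw [Ideal.span_le]
      rintro _ ⟨i, rfl⟩
      exact mem_ann.2 (hN i)
    rw [hspan N] at h2
    have := mem_ann.1 (h2 (Submodule.mem_top : (1 : R) ∈ _))
    rwa [one_smul] at this
  · intro s hs
    have h1 : ∀ i, ∃ (n : ℕ) (m : M), f i ^ n • s i = g i m := by
      intro i
      obtain ⟨⟨m, ⟨_, n, rfl⟩⟩, hn⟩ := IsLocalizedModule.surj (Submonoid.powers (f i)) (g i) (s i)
      exact ⟨n, m, hn⟩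
    choose n m hnm using h1
    let N := ∑ i, n i
    have hnN : ∀ i, n i ≤ N := fun i => Finset.single_le_sum (f := n) (fun _ _ => Nat.zero_le _) (Finset.mem_univ i)
    obtain ⟨m', hm'd⟩ : ∃ m' : ι → M, ∀ i, m' i = f i ^ (N - n i) • m i := ⟨_, fun _ => rfl⟩
    have hm' : ∀ i, f i ^ N • s i = g i (m' i) := by
      intro i
      rw [hm'd, map_smul, ← hnm, smul_smul, ← pow_add, Nat.sub_add_cancel (hnN i)]
    have h2 : ∀ i j, ∃ k : ℕ, (f i * f j) ^ k • (f j ^ N • m' i - f i ^ N • m' j) = 0 := by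
      intro i j
      have h3 : gij i j (f j ^ N • m' i - f i ^ N • m' j) = 0 := by
        rw [map_sub, map_smul, map_smul]
        have e1 : gij i j (m' i) = f i ^ N • ρ₁ i j (s i) := by
          rw [← hρ₁, LinearMap.comp_apply, ← hm', map_smul]
        have e2 : gij i j (m' j) = f j ^ N • ρ₂ i j (s j) := by
          rw [← hρ₂, LinearMap.comp_apply, ← hm', map_smul]
        rw [e1, e2, hs i j, smul_smul, smul_smul, mul_comm, sub_self]
      obtain ⟨⟨_, k, rfl⟩, hk⟩ := (IsLocalizedModule.eq_zero_iff (Submonoid.powers (f i * f j)) (gij i j)).1 h3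
      exact ⟨k, hk⟩
    choose k hk using h2
    let K := ∑ i, ∑ j, k i j
    have hkK : ∀ i j, k i j ≤ K := by
      intro i j
      exact (Finset.single_le_sum (f := fun j => k i j) (fun _ _ => Nat.zero_le _) (Finset.mem_univ j)).trans
        (Finset.single_le_sum (f := fun i => ∑ j, k i j) (fun _ _ => Nat.zero_le _) (Finset.mem_univ i))
    have hK : ∀ i j, (f i * f j) ^ K • (f j ^ N • m' i - f i ^ N • m' j) = 0 := by
      intro i j
      rw [← Nat.sub_add_cancel (hkK i j), pow_add, mul_smul, hk, smul_zero]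
    obtain ⟨m'', hm''d⟩ : ∃ m'' : ι → M, ∀ i, m'' i = f i ^ K • m' i := ⟨_, fun _ => rfl⟩
    have hm'' : ∀ i, f i ^ (K + N) • s i = g i (m'' i) := by
      intro i
      rw [hm''d, map_smul, ← hm', smul_smul, pow_add]
    have hc : ∀ i j, f j ^ (K + N) • m'' i = f i ^ (K + N) • m'' j := by
      intro i j
      have h3 := hK i j
      rw [smul_sub, sub_eq_zero] at h3
      rw [hm''d, hm''d]
      rw [smul_smul, smul_smul] at h3 ⊢
      rw [show f j ^ (K + N) * f i ^ K = (f i * f j) ^ K * f j ^ N by ring, h3]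
      congr 1
      ring
    obtain ⟨c, hc1⟩ : ∃ c : ι → R, ∑ i, c i * f i ^ (K + N) = 1 := by
      have := (Ideal.eq_top_iff_one _).1 (hspan (K + N))
      rw [Ideal.span, Submodule.mem_span_range_iff_exists_fun] at this
      exact this
    refine ⟨∑ j, c j • m'' j, fun i => ?_⟩
    have h4 : f i ^ (K + N) • (∑ j, c j • m'' j) = m'' i := by
      rw [Finset.smul_sum]
      calc ∑ j, f i ^ (K + N) • c j • m'' j = ∑ j, (c j * f j ^ (K + N)) • m'' i := by
            refine Finset.sum_congr rfl fun j _ => ?_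
            rw [smul_comm, ← hc i j, smul_smul]
        _ = m'' i := by rw [← Finset.sum_smul, hc1, one_smul]
    have h5 : f i ^ (K + N) • g i (∑ j, c j • m'' j) = f i ^ (K + N) • s i := by
      rw [← map_smul, h4, hm'']
    exact IsLocalizedModule.smul_injective (g i) (⟨f i ^ (K + N), K + N, rfl⟩ : Submonoid.powers (f i)) h5

end Groth.Agent.S9658
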