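import Groth.Statements.S9660
import Mathlib

set_option autoImplicit false
universe u
open CAlg

namespace Groth.Agent.S9660



/-- Let S be an ℕ-graded ring and I a homogeneous ideal of S. Then V₊(I) ⊆ Proj(S) is empty if and only
if S₊ ⊆ √I. -/
theorem result {R S : Type u} [CommRing R] [CommRing S] [Algebra R S] (𝒜 : ℕ → Submodule R S) [GradedAlgebra 𝒜] (I : HomogeneousIdeal 𝒜) :
    ProjectiveSpectrum.zeroLocus 𝒜 (I : Set S) = ∅ ↔ (HomogeneousIdeal.irrelevant 𝒜).toIdeal ≤ I.toIdeal.radical := by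
  constructor
  · intro h
    by_contra hcon
    obtain ⟨x, hx, hxI⟩ := SetLike.not_le_iff_exists.1 hcon
    rw [Ideal.radical_eq_sInf, Submodule.mem_sInf] at hxI
    push Not at hxI
    obtain ⟨P, ⟨hIP, hP⟩, hxP⟩ := hxI
    have hcore : (Ideal.homogeneousCore 𝒜 P).toIdeal ≤ P := Ideal.toIdeal_homogeneousCore_le 𝒜 P
    let p : ProjectiveSpectrum 𝒜 := ⟨Ideal.homogeneousCore 𝒜 P, hP.homogeneousCore, fun h => hxP (hcore (h hx))⟩
    have : p ∈ ProjectiveSpectrum.zeroLocus 𝒜 (I : Set S) := by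
      rw [ProjectiveSpectrum.mem_zeroLocus]
      intro y hy
      exact Ideal.homogeneousCore_mono 𝒜 hIP (by rw [HomogeneousIdeal.toIdeal_homogeneousCore_eq_self]; exact hy)
    rw [h] at this
    exact this
  · intro h
    rw [Set.eq_empty_iff_forall_notMem]
    intro p hp
    apply p.not_irrelevant_le
    rw [ProjectiveSpectrum.mem_zeroLocus] at hp
    intro x hx
    have := h hx
    exact (p.isPrime.radical_le_iff.2 hp) this

end Groth.Agent.S9660
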