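import Groth.Statements.S9664
import Groth.Agent.Lib.Helper14_Fiber
import Groth.Agent.S9594
import Groth.Agent.S9595
import Groth.Agent.S9590
import Groth.Agent.S9588

set_option autoImplicit false
universe u
open CAlg

namespace Groth.Agent.S9664

open Groth.Agent.H14

/-- Let R → S be a ring map, N an S-module, q a prime of S and p the prime of R below q; an associated
prime of a module is a prime ideal equal to the annihilator of some element. Then q is an associated
prime of the S-module N ⊗_R κ(p) (the fibre module of N over p, an S-module by restriction of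
scalars along S → S ⊗_R κ(p)) if and only if q is the inverse image in S of an associated prime of N
⊗_R κ(p) regarded as a module over the fibre ring S ⊗_R κ(p). -/
theorem result {R S : Type u} [CommRing R] [CommRing S] [Algebra R S] (N : Type u) [AddCommGroup N] [Module S N] [Module R N] [IsScalarTower R S N]
    (p : Ideal R) [p.IsPrime] (q : Ideal S) [q.IsPrime] (hq : q.comap (algebraMap R S) = p) :
    q ∈ FlatCA.ass S (FlatCA.fiberMod p S N) ↔
      ∃ Q ∈ FlatCA.ass (p.Fiber S) (FlatCA.fiberMod p S N),
        Q.comap (Algebra.TensorProduct.includeRight (R := R) (A := p.ResidueField) (B := S)).toRingHom = q := by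
  have hsm : ∀ (s : S) (x : FlatCA.fiberMod p S N), (Algebra.TensorProduct.includeRight (R := R) (A := p.ResidueField) (B := S)).toRingHom s • x = s • x := by
    intro s x
    rfl
  constructor
  · intro h
    obtain ⟨hqp, x, hx⟩ := mem_ass_iff.1 h
    have hcomap : ((Submodule.span (p.Fiber S) {x}).annihilator).comap (Algebra.TensorProduct.includeRight (R := R) (A := p.ResidueField) (B := S)).toRingHom = q := by
      ext a
      rw [Ideal.mem_comap, mem_ann, hsm, hx]
    refine ⟨(Submodule.span (p.Fiber S) {x}).annihilator, mem_ass_iff.2 ⟨?_, x, fun a => mem_ann⟩, hcomap⟩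
    have hunit : ∀ (r : R), r ∉ p → ∀ u : p.Fiber S, r • u ∈ (Submodule.span (p.Fiber S) {x}).annihilator → u ∈ (Submodule.span (p.Fiber S) {x}).annihilator := by
      intro r hr u hu
      have h1 : algebraMap R p.ResidueField r ≠ 0 := by
        rw [Ne, Ideal.algebraMap_residueField_eq_zero]
        exact hr
      have h2 : u = algebraMap p.ResidueField (p.Fiber S) (algebraMap R p.ResidueField r)⁻¹ * (r • u) := by
        rw [Algebra.smul_def, IsScalarTower.algebraMap_apply R p.ResidueField (p.Fiber S), ← mul_assoc, ← map_mul, inv_mul_cancel₀ h1, map_one, one_mul]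
      rw [h2]
      exact Ideal.mul_mem_left _ _ hu
    have hincl : ∀ s : S, (1 ⊗ₜ[R] s : p.Fiber S) ∈ (Submodule.span (p.Fiber S) {x}).annihilator ↔ s ∈ q := by
      intro s
      rw [← hcomap]
      rfl
    constructor
    · intro htop
      apply hqp.ne_top
      rw [← hcomap, htop, Ideal.comap_top]
    · intro u v huv
      obtain ⟨r, hr, s, hs⟩ := Ideal.Fiber.exists_smul_eq_one_tmul (p := p) u
      obtain ⟨r', hr', s', hs'⟩ := Ideal.Fiber.exists_smul_eq_one_tmul (p := p) v
      have h1 : (1 ⊗ₜ[R] (s * s') : p.Fiber S) ∈ (Submodule.span (p.Fiber S) {x}).annihilator := by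
        have h2 : (1 ⊗ₜ[R] (s * s') : p.Fiber S) = (r * r') • (u * v) := by
          have h3 : (1 ⊗ₜ[R] (s * s') : p.Fiber S) = (1 ⊗ₜ[R] s) * (1 ⊗ₜ[R] s') := by
            rw [Algebra.TensorProduct.tmul_mul_tmul, one_mul]
          rw [h3, ← hs, ← hs', smul_mul_smul_comm]
        rw [h2, Algebra.smul_def]
        exact Ideal.mul_mem_left _ _ huv
      rw [hincl] at h1
      rcases hqp.mem_or_mem h1 with h | h
      · left
        apply hunit r hr
        rw [hs, hincl]
        exact h
      · right
        apply hunit r' hr'
        rw [hs', hincl]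
        exact h
  · rintro ⟨Q, hQ, rfl⟩
    obtain ⟨hQ, x, hx⟩ := mem_ass_iff.1 hQ
    refine mem_ass_iff.2 ⟨inferInstance, x, fun a => ?_⟩
    rw [Ideal.mem_comap, hx, hsm]

end Groth.Agent.S9664
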