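import Groth.Statements.S9665
import Groth.Agent.Lib.Helper14_Fiber
import Groth.Agent.S9594
import Groth.Agent.S9595
import Groth.Agent.S9590
import Groth.Agent.S9588

set_option autoImplicit false
universe u
open CAlg

namespace Groth.Agent.S9665

open Groth.Agent.H14

/-- Part (2): (A_fin ⊆ A): let R → S be a ring map, N an S-module, q a prime of S and p the prime of R
below q; an associated prime of a module is a prime ideal equal to the annihilator of some element.
If q is an associated prime of the S-module N/pN, then q is an associated prime of the S-module N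
⊗_R κ(p) (the fibre module over p, an S-module by restriction of scalars). -/
theorem result {R S : Type u} [CommRing R] [CommRing S] [Algebra R S] (N : Type u) [AddCommGroup N] [Module S N] [Module R N] [IsScalarTower R S N]
    (p : Ideal R) [p.IsPrime] (q : Ideal S) [q.IsPrime] (hq : q.comap (algebraMap R S) = p)
    (h : q ∈ FlatCA.ass S (N ⧸ (p.map (algebraMap R S)) • (⊤ : Submodule S N))) :
    q ∈ FlatCA.ass S (FlatCA.fiberMod p S N) := by
  obtain ⟨hqp, n, hn⟩ := (mem_ass_quot_iff N p q).1 h
  refine (mem_ass_fiberMod_iff N p q).2 ⟨hqp, n, fun a => ?_⟩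
  constructor
  · intro ha
    exact ⟨1, (Ideal.ne_top_iff_one p).1 (Ideal.IsPrime.ne_top inferInstance), by rw [map_one, one_smul]; exact (hn a).1 ha⟩
  · rintro ⟨r, hr, h⟩
    rw [smul_smul, ← hn] at h
    refine (hqp.mem_or_mem h).resolve_left fun h1 => hr ?_
    rw [← hq]
    exact h1

end Groth.Agent.S9665
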