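import Groth.Statements.S9666
import Groth.Agent.Lib.Helper14_Fiber
import Groth.Agent.S9594
import Groth.Agent.S9595
import Groth.Agent.S9590
import Groth.Agent.S9588

set_option autoImplicit false
universe u
open CAlg

namespace Groth.Agent.S9666

open Groth.Agent.H14

/-- Part (3): (A ⊆ A_fin): let R → S be a ring map with S Noetherian, N an S-module, q a prime of S and
p the prime of R below q; an associated prime of a module is a prime ideal equal to the annihilator
of some element. If q is an associated prime of the S-module N ⊗_R κ(p) (the fibre module over p, an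
S-module by restriction of scalars), then q is an associated prime of the S-module N/pN. -/
theorem result {R S : Type u} [CommRing R] [CommRing S] [Algebra R S] (N : Type u) [AddCommGroup N] [Module S N] [Module R N] [IsScalarTower R S N] [IsNoetherianRing S]
    (p : Ideal R) [p.IsPrime] (q : Ideal S) [q.IsPrime] (hq : q.comap (algebraMap R S) = p)
    (h : q ∈ FlatCA.ass S (FlatCA.fiberMod p S N)) :
    q ∈ FlatCA.ass S (N ⧸ (p.map (algebraMap R S)) • (⊤ : Submodule S N)) := by
  classical
  have hpp : p.IsPrime := inferInstance
  obtain ⟨hqp, n, hn⟩ := (mem_ass_fiberMod_iff N p q).1 h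
  obtain ⟨s, hs⟩ := (isNoetherianRing_iff_ideal_fg S).1 inferInstance q
  have h1 : ∀ j ∈ s, ∃ r, r ∉ p ∧ algebraMap R S r • (j • n) ∈ ((p.map (algebraMap R S)) • (⊤ : Submodule S N)) := by
    intro j hj
    exact (hn j).1 (hs ▸ Ideal.subset_span hj)
  choose! r hr1 hr2 using h1
  let c := ∏ j ∈ s, r j
  have hc : c ∉ p := by
    intro h
    obtain ⟨j, hj, h⟩ := (hpp.prod_mem_iff).1 h
    exact hr1 j hj h
  refine (mem_ass_quot_iff N p q).2 ⟨hqp, algebraMap R S c • n, fun a => ?_⟩
  constructor
  · intro ha
    have h2 : q ≤ ((p.map (algebraMap R S)) • (⊤ : Submodule S N)).colon {algebraMap R S c • n} := by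
      rw [← hs, Ideal.span_le]
      intro j hj
      rw [SetLike.mem_coe, Submodule.mem_colon_singleton]
      obtain ⟨d, hd⟩ : r j ∣ c := Finset.dvd_prod_of_mem r hj
      have h3 : j • algebraMap R S c • n = algebraMap R S d • (algebraMap R S (r j) • (j • n)) := by
        rw [hd, map_mul, smul_smul, smul_smul, smul_smul]
        congr 1
        ring
      rw [h3]
      exact Submodule.smul_mem _ _ (hr2 j hj)
    exact Submodule.mem_colon_singleton.1 (h2 ha)
  · intro ha
    rw [hn]
    exact ⟨c, hc, by rw [smul_comm]; exact ha⟩

end Groth.Agent.S9666
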