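import Groth.Statements.S9668
import Groth.Agent.Lib.Helper14_Fiber

set_option autoImplicit false
universe u
open CAlg

namespace Groth.Agent.S9668

open Groth.Agent.H14
open TensorProduct

theorem exists_lift {R : Type u} [CommRing R] (N M : Type u) [AddCommGroup N] [Module R N] [AddCommGroup M] [Module R M] (z : N ⊗[R] M) :
    ∃ P : Submodule R M, P.FG ∧ ∃ z' : N ⊗[R] P, LinearMap.lTensor N P.subtype z' = z := by
  obtain ⟨P, hP, y, hy⟩ := TensorProduct.exists_of_fg (R := R) (u := TensorProduct.comm R N M z)
  refine ⟨P, hP, TensorProduct.comm R P N y, ?_⟩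
  have key : ∀ y, LinearMap.lTensor N P.subtype (TensorProduct.comm R P N y) = TensorProduct.comm R M N (LinearMap.rTensor N P.subtype y) := by
    intro y
    induction y using TensorProduct.induction_on with
    | zero => simp
    | tmul a b => rfl
    | add a b ha hb => rw [map_add, map_add, map_add, map_add, ha, hb]
  rw [key, hy]
  simp

open TensorProduct in
/-- Part (4): (B = B_fin): let R → S be a ring map, N an S-module flat over R, M an R-module and q a
prime of S; an associated prime of a module is a prime ideal equal to the annihilator of some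
element. If q is an associated prime of the S-module N ⊗_R M, then there is a finitely generated
R-submodule M' ⊆ M such that q is an associated prime of the S-module N ⊗_R M'. -/
theorem result {R S : Type u} [CommRing R] [CommRing S] [Algebra R S] (N : Type u) [AddCommGroup N] [Module S N] [Module R N] [IsScalarTower R S N] [Module.Flat R N]
    (M : Type u) [AddCommGroup M] [Module R M] (q : Ideal S) [q.IsPrime] (h : q ∈ FlatCA.ass S (N ⊗[R] M)) :
    ∃ M' : Submodule R M, M'.FG ∧ q ∈ FlatCA.ass S (N ⊗[R] ↥M') := by
  obtain ⟨hq, z, hz⟩ := mem_ass_iff.1 h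
  obtain ⟨P, hP, z', hz'⟩ := exists_lift N M z
  refine ⟨P, hP, mem_ass_iff.2 ⟨hq, z', fun a => ?_⟩⟩
  have hinj := Module.Flat.lTensor_preserves_injective_linearMap (M := N) P.subtype (Submodule.injective_subtype P)
  rw [hz, ← hz']
  have h1 : a • LinearMap.lTensor N P.subtype z' = LinearMap.lTensor N P.subtype (a • z') :=
    ((TensorProduct.AlgebraTensorModule.lTensor S N P.subtype).map_smul a z').symm
  rw [h1]
  exact map_eq_zero_iff _ hinj

end Groth.Agent.S9668
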