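import Groth.Statements.S9667
import Groth.Agent.Lib.Helper14_Fiber
import Groth.Agent.S9668

set_option autoImplicit false
universe u
open CAlg

namespace Groth.Agent.S9667

open Groth.Agent.H14
open TensorProduct

theorem comm_lTensor {R : Type u} [CommRing R] (N P M : Type u) [AddCommGroup N] [Module R N] [AddCommGroup M] [Module R M] [AddCommGroup P] [Module R P] (f : P →ₗ[R] M) (y : N ⊗[R] P) :
    TensorProduct.comm R N M (LinearMap.lTensor N f y) = LinearMap.rTensor N f (TensorProduct.comm R N P y) := by
  induction y using TensorProduct.induction_on with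
  | zero => simp
  | tmul a b => rfl
  | add a b ha hb => rw [map_add, map_add, map_add, map_add, ha, hb]

theorem lift_zero {R : Type u} [CommRing R] (N M : Type u) [AddCommGroup N] [Module R N] [AddCommGroup M] [Module R M] (P : Submodule R M) (hP : P.FG) (t : N ⊗[R] P) (ht : LinearMap.lTensor N P.subtype t = 0) :
    ∃ (Q : Submodule R M) (hPQ : P ≤ Q), Q.FG ∧ LinearMap.lTensor N (Submodule.inclusion hPQ) t = 0 := by
  have h1 : LinearMap.rTensor N P.subtype (TensorProduct.comm R N P t) = 0 := by
    rw [← comm_lTensor, ht, map_zero]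
  obtain ⟨Q, hPQ, hQ, h2⟩ := TensorProduct.eq_zero_of_fg_of_subtype_eq_zero hP h1
  refine ⟨Q, hPQ, hQ, ?_⟩
  rw [← comm_lTensor] at h2
  exact (TensorProduct.comm R N Q).map_eq_zero_iff.1 h2

open TensorProduct in
/-- Part (3): (B = B_fin): let R → S be a ring map with S Noetherian, N an S-module, M an R-module and q
a prime of S; an associated prime of a module is a prime ideal equal to the annihilator of some
element. If q is an associated prime of the S-module N ⊗_R M, then there is a finitely generated
R-submodule M' ⊆ M such that q is an associated prime of the S-module N ⊗_R M'. -/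
theorem result {R S : Type u} [CommRing R] [CommRing S] [Algebra R S] (N : Type u) [AddCommGroup N] [Module S N] [Module R N] [IsScalarTower R S N] [IsNoetherianRing S]
    (M : Type u) [AddCommGroup M] [Module R M] (q : Ideal S) [q.IsPrime] (h : q ∈ FlatCA.ass S (N ⊗[R] M)) :
    ∃ M' : Submodule R M, M'.FG ∧ q ∈ FlatCA.ass S (N ⊗[R] ↥M') := by
  classical
  obtain ⟨hq, z, hz⟩ := mem_ass_iff.1 h
  obtain ⟨P, hP, z', hz'⟩ := Groth.Agent.S9668.exists_lift N M z
  obtain ⟨s, hs⟩ := (isNoetherianRing_iff_ideal_fg S).1 inferInstance q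
  have hlin : ∀ (A B : Type u) [AddCommGroup A] [Module R A] [AddCommGroup B] [Module R B] (f : A →ₗ[R] B) (a : S) (y : N ⊗[R] A), LinearMap.lTensor N f (a • y) = a • LinearMap.lTensor N f y :=
    fun A B _ _ _ _ f a y => (TensorProduct.AlgebraTensorModule.lTensor S N f).map_smul a y
  have key : ∀ s' : Finset S, (∀ j ∈ s', j • z = 0) → ∃ Q : Submodule R M, Q.FG ∧ ∃ w : N ⊗[R] Q, LinearMap.lTensor N Q.subtype w = z ∧ ∀ j ∈ s', j • w = 0 := by
    intro s'
    induction s' using Finset.induction_on with
    | empty => intro _; exact ⟨P, hP, z', hz', by simp⟩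
    | insert a s' ha ih =>
      intro hall
      obtain ⟨Q, hQ, w, hw, hw2⟩ := ih (fun j hj => hall j (Finset.mem_insert_of_mem hj))
      have h1 : LinearMap.lTensor N Q.subtype (a • w) = 0 := by
        rw [hlin, hw]; exact hall a (Finset.mem_insert_self _ _)
      obtain ⟨Q', hQQ', hQ', h2⟩ := lift_zero N M Q hQ (a • w) h1
      refine ⟨Q', hQ', LinearMap.lTensor N (Submodule.inclusion hQQ') w, ?_, ?_⟩
      · rw [← LinearMap.comp_apply, ← LinearMap.lTensor_comp, Submodule.subtype_comp_inclusion, hw]
      · intro j hj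
        rw [← hlin]
        rcases Finset.mem_insert.1 hj with rfl | hj
        · exact h2
        · rw [hw2 j hj, map_zero]
  obtain ⟨Q, hQ, w, hw, hw2⟩ := key s (fun j hj => (hz j).1 (hs ▸ Ideal.subset_span hj))
  refine ⟨Q, hQ, mem_ass_iff.2 ⟨hq, w, fun a => ⟨fun ha => ?_, fun ha => ?_⟩⟩⟩
  · have h1 : q ≤ (Submodule.span S {w}).annihilator := by
      rw [← hs, Ideal.span_le]
      intro j hj
      exact mem_ann.2 (hw2 j hj)
    exact mem_ann.1 (h1 ha)
  · rw [hz, ← hw, ← hlin, ha, map_zero]

end Groth.Agent.S9667
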