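import Groth.Statements.S9669
import Groth.Agent.Lib.Helper14_Fiber
import Groth.Agent.S9594
import Groth.Agent.S9595
import Groth.Agent.S9590
import Groth.Agent.S9588

set_option autoImplicit false
universe u
open CAlg

namespace Groth.Agent.S9669

open Groth.Agent.H14

/-- Part (4): (A = A_fin = A'_fin): let R → S be a ring map, N an S-module flat over R and p a prime of
R; an associated prime of a module is a prime ideal equal to the annihilator of some element. Then
the set of associated primes of the S-module N/pN equals the set of associated primes of the
S-module N ⊗_R κ(p) (the fibre module over p, an S-module by restriction of scalars), and every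
prime in this set lies over p. -/
theorem result {R S : Type u} [CommRing R] [CommRing S] [Algebra R S] (N : Type u) [AddCommGroup N] [Module S N] [Module R N] [IsScalarTower R S N] [Module.Flat R N] (p : Ideal R) [p.IsPrime] :
    FlatCA.ass S (N ⧸ (p.map (algebraMap R S)) • (⊤ : Submodule S N)) = FlatCA.ass S (FlatCA.fiberMod p S N) ∧
      ∀ q ∈ FlatCA.ass S (N ⧸ (p.map (algebraMap R S)) • (⊤ : Submodule S N)), q.comap (algebraMap R S) = p := by
  exact flat_main N p

end Groth.Agent.S9669
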