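import Groth.Statements.S9670
import Groth.Agent.Lib.Helper14_Fiber

set_option autoImplicit false
universe u
open CAlg

namespace Groth.Agent.S9670

open Groth.Agent.H14

open TensorProduct in
/-- Part (5): (B_fin ⊆ A_fin): let R → S be a ring map with R Noetherian, N an S-module flat over R, M a
finite R-module, q a prime of S and p the prime of R below q; an associated prime of a module is a
prime ideal equal to the annihilator of some element. If q is an associated prime of the S-module N
⊗_R M, then q is an associated prime of the S-module N/pN. -/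
theorem result {R S : Type u} [CommRing R] [CommRing S] [Algebra R S] (N : Type u) [AddCommGroup N] [Module S N] [Module R N] [IsScalarTower R S N] [IsNoetherianRing R] [Module.Flat R N]
    (M : Type u) [AddCommGroup M] [Module R M] [Module.Finite R M] (p : Ideal R) [p.IsPrime] (q : Ideal S) [q.IsPrime] (hq : q.comap (algebraMap R S) = p)
    (h : q ∈ FlatCA.ass S (N ⊗[R] M)) :
    q ∈ FlatCA.ass S (N ⧸ (p.map (algebraMap R S)) • (⊤ : Submodule S N)) := by
  have hall : ∀ (M : Type u) [AddCommGroup M] [Module R M] [Module.Finite R M], q ∈ FlatCA.ass S (N ⊗[R] M) → ∃ p' : Ideal R, p'.IsPrime ∧ q ∈ FlatCA.ass S (N ⧸ (p'.map (algebraMap R S)) • (⊤ : Submodule S N)) := by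
    intro M _ _ hM
    refine IsNoetherianRing.induction_on_isQuotientEquivQuotientPrime R (M := M) hM (motive := fun M _ _ _ => q ∈ FlatCA.ass S (N ⊗[R] M) → ∃ p' : Ideal R, p'.IsPrime ∧ q ∈ FlatCA.ass S (N ⧸ (p'.map (algebraMap R S)) • (⊤ : Submodule S N))) ?_ ?_ ?_
    · intro M _ _ _ _ h
      exfalso
      obtain ⟨hq, z, hz⟩ := mem_ass_iff.1 h
      apply hq.ne_top
      rw [Ideal.eq_top_iff_one, hz]
      have : Subsingleton (N ⊗[R] M) := inferInstance
      exact Subsingleton.elim _ _
    · intro M _ _ _ p' e h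
      refine ⟨p'.1, p'.2, ?_⟩
      obtain ⟨hq, z, hz⟩ := mem_ass_iff.1 h
      have hp' : p'.1.IsPrime := p'.2
      let E : N ⊗[R] M ≃ₗ[S] N ⊗[R] (R ⧸ p'.1) := TensorProduct.AlgebraTensorModule.congr (LinearEquiv.refl S N) e
      obtain ⟨n, hn⟩ : ∃ n : N, n ⊗ₜ[R] (1 : R ⧸ p'.1) = E z := by
        obtain ⟨n, hn⟩ := Submodule.Quotient.mk_surjective _ (TensorProduct.tensorQuotEquivQuotSMul N p'.1 (E z))
        refine ⟨n, (TensorProduct.tensorQuotEquivQuotSMul N p'.1).injective ?_⟩
        have := TensorProduct.tensorQuotEquivQuotSMul_tmul_mk p'.1 n 1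
        rw [one_smul] at this
        rw [← hn]
        exact this
      refine (mem_ass_quot_iff N p'.1 q).2 ⟨hq, n, fun a => ?_⟩
      rw [hz, ← tmul_one_eq_zero_iff, ← E.map_eq_zero_iff, map_smul, ← hn, TensorProduct.smul_tmul']
    · intro M1 _ _ _ M2 _ _ _ M3 _ _ _ f g hf hg hfg ih1 ih3 h
      have hinj := Module.Flat.lTensor_preserves_injective_linearMap (M := N) f hf
      have hex := lTensor_exact N hfg hg
      obtain ⟨hq, z, hz⟩ := mem_ass_iff.1 h
      have hf1 : ∀ (a : S) (z : N ⊗[R] M1), LinearMap.lTensor N f (a • z) = a • LinearMap.lTensor N f z := fun a z =>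
        (TensorProduct.AlgebraTensorModule.lTensor S N f).map_smul a z
      have hg1 : ∀ (a : S) (z : N ⊗[R] M2), LinearMap.lTensor N g (a • z) = a • LinearMap.lTensor N g z := fun a z =>
        (TensorProduct.AlgebraTensorModule.lTensor S N g).map_smul a z
      by_cases hc : ∀ a : S, a • LinearMap.lTensor N g z = 0 → a ∈ q
      · apply ih3
        refine mem_ass_iff.2 ⟨hq, LinearMap.lTensor N g z, fun a => ⟨fun ha => ?_, hc a⟩⟩
        rw [← hg1, (hz a).1 ha, map_zero]
      · push Not at hc
        obtain ⟨a, ha, haq⟩ := hc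
        rw [← hg1] at ha
        obtain ⟨w, hw⟩ := (hex _).1 ha
        apply ih1
        refine mem_ass_iff.2 ⟨hq, w, fun b => ?_⟩
        rw [← map_eq_zero_iff _ hinj, hf1, hw, smul_smul, ← hz]
        constructor
        · intro hb; exact Ideal.mul_mem_right _ _ hb
        · intro hb; exact (hq.mem_or_mem hb).resolve_right haq
  obtain ⟨p', hp', h'⟩ := hall M h
  have := (flat_main N p').2 q h'
  rw [hq] at this
  subst this
  exact h'

end Groth.Agent.S9670
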