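import Groth.Statements.S9677
import Groth.Agent.Lib.Lead_Spread8
-- import your own Groth.Agent.* helpers here

set_option autoImplicit false
universe u
open CategoryTheory CategoryTheory.Limits AlgebraicGeometry
open Mor

namespace Groth.Agent.S9677

/-- Suppose X and Y have finitely many irreducible components and f : X ⟶ Y is birational, i.e. f
restricts to a bijection between the generic points of the irreducible components of X and those of
Y and induces an isomorphism of local rings at every generic point of an irreducible component of X.
Then for any generic point y of a component of Y, pulling f back along the canonical map Spec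
O_{Y,y} ⟶ Y gives an isomorphism onto Spec O_{Y,y}. -/
theorem result {X Y : Scheme.{u}} (f : X ⟶ Y)
    (hXfin : (irreducibleComponents ↥X).Finite) (hYfin : (irreducibleComponents ↥Y).Finite)
    (hbij : Set.BijOn (fun x : X => f.base x) {x : X | closure {x} ∈ irreducibleComponents ↥X}
      {y : Y | closure {y} ∈ irreducibleComponents ↥Y})
    (hiso : ∀ x : X, closure {x} ∈ irreducibleComponents ↥X → IsIso (f.stalkMap x))
    (y : Y) (hy : closure {y} ∈ irreducibleComponents ↥Y) :
    IsIso (pullback.snd f (Y.fromSpecStalk y)) := by
  exact Groth.Agent.LeadSpread.isIso_snd_generic f hbij hiso y hy

end Groth.Agent.S9677
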