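import Groth.Statements.S9678
import Groth.Agent.Lib.Lead_Spread5
-- import your own Groth.Agent.* helpers here

set_option autoImplicit false
universe u
open CategoryTheory CategoryTheory.Limits AlgebraicGeometry
open Mor

namespace Groth.Agent.S9678

/-- Suppose X and Y have finitely many irreducible components and f : X ⟶ Y is birational, i.e. f
restricts to a bijection between the generic points of the irreducible components of X and those of
Y and induces an isomorphism of local rings at every generic point of an irreducible component of X.
Suppose moreover that Y is reduced and f is locally of finite type, or alternatively that f is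
locally finitely presented. Then there are dense opens U ⊆ X and V ⊆ Y with f(U) ⊆ V such that the
restriction U ⟶ V of f is an isomorphism. -/
theorem result {X Y : Scheme.{u}} (f : X ⟶ Y)
    (hXfin : (irreducibleComponents ↥X).Finite) (hYfin : (irreducibleComponents ↥Y).Finite)
    (hbij : Set.BijOn (fun x : X => f.base x) {x : X | closure {x} ∈ irreducibleComponents ↥X}
      {y : Y | closure {y} ∈ irreducibleComponents ↥Y})
    (hiso : ∀ x : X, closure {x} ∈ irreducibleComponents ↥X → IsIso (f.stalkMap x))
    (hf : (LocallyOfFiniteType f ∧ IsReduced Y) ∨ LocallyOfFinitePresentation f) :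
    ∃ (U : X.Opens) (V : Y.Opens) (hUV : U ≤ f ⁻¹ᵁ V), Dense (U : Set ↥X) ∧ Dense (V : Set ↥Y) ∧
      IsIso (f.resLE V U hUV) := by
  exact Groth.Agent.LeadSpread.birational_opens f hYfin hbij hiso hf

end Groth.Agent.S9678
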