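import Groth.Statements.S9679
import Groth.Agent.Lib.Lead_Spread7
-- import your own Groth.Agent.* helpers here

set_option autoImplicit false
universe u
open CategoryTheory CategoryTheory.Limits AlgebraicGeometry
open Mor

namespace Groth.Agent.S9679

/-- Suppose X and Y have finitely many irreducible components and f : X ⟶ Y is birational, i.e. f
restricts to a bijection between the generic points of the irreducible components of X and those of
Y and induces an isomorphism of local rings at every generic point of an irreducible component of X.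
Assume that f is quasi-compact or separated, and moreover that f is locally of finite presentation,
or else Y is reduced and f is locally of finite type. Under these hypotheses, some dense open V ⊆ Y
has the property that the restriction f⁻¹(V) ⟶ V of f is an isomorphism. -/
theorem result {X Y : Scheme.{u}} (f : X ⟶ Y)
    (hXfin : (irreducibleComponents ↥X).Finite) (hYfin : (irreducibleComponents ↥Y).Finite)
    (hbij : Set.BijOn (fun x : X => f.base x) {x : X | closure {x} ∈ irreducibleComponents ↥X}
      {y : Y | closure {y} ∈ irreducibleComponents ↥Y})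
    (hiso : ∀ x : X, closure {x} ∈ irreducibleComponents ↥X → IsIso (f.stalkMap x))
    (hf₁ : QuasiCompact f ∨ IsSeparated f)
    (hf₂ : (LocallyOfFiniteType f ∧ IsReduced Y) ∨ LocallyOfFinitePresentation f) :
    ∃ V : Y.Opens, Dense (V : Set ↥Y) ∧ IsIso (f ∣_ V) := by
  obtain ⟨U, V, hUV, hUd, hVd, hiUV⟩ :=
    Groth.Agent.LeadSpread.birational_opens f hYfin hbij hiso hf₂
  have hcomp : f.resLE V U hUV ≫ V.ι = U.ι ≫ f := Scheme.Hom.resLE_comp_ι _ _
  have hop : IsOpenImmersion (U.ι ≫ f) := by rw [← hcomp]; infer_instance
  have hVr : V ≤ (U.ι ≫ f).opensRange := by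
    intro v hv
    obtain ⟨u, hu⟩ := (f.resLE V U hUV).homeomorph.surjective ⟨v, hv⟩
    have hu' : f.resLE V U hUV u = ⟨v, hv⟩ := hu
    refine ⟨u, ?_⟩
    show (U.ι ≫ f) u = v
    rw [← hcomp, Scheme.Hom.comp_apply, hu']
    rfl
  rcases hf₁ with hqc | hsep
  · let Z : Set X := (U : Set X)ᶜ
    have hZ : IsClosed Z := U.2.isClosed_compl
    let V' : Y.Opens := V ⊓ ⟨(closure (f '' Z))ᶜ, isClosed_closure.isOpen_compl⟩
    refine ⟨V', ?_, ?_⟩
    · intro q
      obtain ⟨y, hy, hq⟩ := Groth.Agent.LeadSpread.exists_generic q
      refine closure_mono (Set.singleton_subset_iff.2 ?_) hq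
      obtain ⟨x, hx, hxy⟩ := hbij.surjOn hy
      have hxU := Groth.Agent.LeadSpread.generic_mem_of_dense hXfin U hUd x hx
      refine ⟨?_, ?_⟩
      · rw [← hxy]
        exact hUV hxU
      · intro hcl
        obtain ⟨p, hpZ, hpy⟩ :=
          Groth.Agent.LeadSpread.mem_image_of_generic f Z hZ y hy hcl
        have hpg := Groth.Agent.LeadSpread.generic_fiber f hiso (p := p) (by rw [hpy]; exact hy)
        exact hpZ (Groth.Agent.LeadSpread.generic_mem_of_dense hXfin U hUd p hpg)
    · refine Groth.Agent.LeadSpread.isIso_restrict_of_le f U V' ?_ (inf_le_left.trans hVr)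
      intro p hp
      by_contra hpU
      exact hp.2 (subset_closure ⟨p, hpU, rfl⟩)
  · exact ⟨V, hVd, Groth.Agent.LeadSpread.isIso_restrict_of_le f U V
      (Groth.Agent.LeadSpread.preimage_le_of_separated f U hUd V hVr) hVr⟩

end Groth.Agent.S9679
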