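import Groth.Statements.S9680
import Groth.Agent.Lib.Lead_Spread3
-- import your own Groth.Agent.* helpers here

set_option autoImplicit false
universe u
open CategoryTheory CategoryTheory.Limits AlgebraicGeometry
open Mor

namespace Groth.Agent.S9680

/-- Suppose X and Y are irreducible S-schemes, each locally of finite presentation over S, with generic
points x and y. Then X and Y are S-birational (they admit S-isomorphic nonempty opens) if and only
if x and y have a common image s in S and the local rings of X at x and of Y at y are isomorphic as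
algebras over the local ring of S at s. -/
theorem result {S X Y : Scheme.{u}}
    [IrreducibleSpace ↥X] [IrreducibleSpace ↥Y] (sX : X ⟶ S) (sY : Y ⟶ S)
    [LocallyOfFinitePresentation sX] [LocallyOfFinitePresentation sY] :
    Scheme.BirationalOver sX sY ↔
      ∃ (hs : sX.base (genericPoint ↥X) = sY.base (genericPoint ↥Y))
        (e : X.presheaf.stalk (genericPoint ↥X) ≅ Y.presheaf.stalk (genericPoint ↥Y)),
        sX.stalkMap (genericPoint ↥X) ≫ e.hom =
          eqToHom (congrArg S.presheaf.stalk hs) ≫ sY.stalkMap (genericPoint ↥Y) := by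
  constructor
  · intro hb
    obtain ⟨W, j, l, _, _, h, w, hx, hy⟩ := Groth.Agent.LeadSpread.birational_data sX sY hb
    exact Groth.Agent.LeadSpread.fwd sX sY j l h w _ _ hx hy
  · rintro ⟨hs, e, he⟩
    have h : sY.stalkMap (genericPoint Y) ≫ e.inv =
        S.presheaf.stalkSpecializes (Inseparable.of_eq hs).specializes ≫
          sX.stalkMap (genericPoint X) := by
      rw [Iso.comp_inv_eq, Category.assoc, he]
      erw [Groth.Agent.LeadSpread.eqToHom_stalk S hs]
      rw [← Category.assoc, TopCat.Presheaf.stalkSpecializes_comp,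
        TopCat.Presheaf.stalkSpecializes_refl, Category.id_comp]
    obtain ⟨U₁, hx₁, f, hfφ, hf⟩ := Groth.Agent.LeadSpread.spread_out_lfp sX sY hs e.inv h
    have h' := Groth.Agent.LeadSpread.symm_compat sX sY hs e.inv h
    obtain ⟨V₁, hy₁, g, hgφ, hg⟩ :=
      Groth.Agent.LeadSpread.spread_out_lfp sY sX hs.symm (inv e.inv) h'
    obtain ⟨U, hxU, V, f', hf', -, hS⟩ :=
      Groth.Agent.LeadSpread.iso_spread sX sY e.inv hx₁ hy₁ f hf g hg hfφ hgφ
    exact Groth.Agent.LeadSpread.birational_of_open_iso sX sY hxU f' hS

end Groth.Agent.S9680
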