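import Groth.Statements.S9681
import Groth.Agent.Lib.Lead_Spread3
-- import your own Groth.Agent.* helpers here

set_option autoImplicit false
universe u
open CategoryTheory CategoryTheory.Limits AlgebraicGeometry
open Mor

namespace Groth.Agent.S9681

/-- Suppose X and Y are integral S-schemes, each locally of finite type over S, with generic points x
and y. Then X and Y are S-birational (they admit S-isomorphic nonempty opens) if and only if the
images of x and y in S are one and the same point s, and the residue fields of x and y are
isomorphic as extensions of the residue field of s. -/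
theorem result {S X Y : Scheme.{u}}
    [IsIntegral X] [IsIntegral Y] (sX : X ⟶ S) (sY : Y ⟶ S)
    [LocallyOfFiniteType sX] [LocallyOfFiniteType sY] :
    Scheme.BirationalOver sX sY ↔
      ∃ (hs : sX.base (genericPoint ↥X) = sY.base (genericPoint ↥Y))
        (e : X.residueField (genericPoint ↥X) ≅ Y.residueField (genericPoint ↥Y)),
        sX.residueFieldMap (genericPoint ↥X) ≫ e.hom =
          eqToHom (congrArg S.residueField hs) ≫ sY.residueFieldMap (genericPoint ↥Y) := by
  constructor
  · intro hb
    obtain ⟨W, j, l, _, _, h, w, hx, hy⟩ := Groth.Agent.LeadSpread.birational_data sX sY hb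
    exact Groth.Agent.LeadSpread.fwd_res sX sY j l h w _ _ hx hy
  · rintro ⟨hs, e, he⟩
    have hiX : IsIso (X.residue (genericPoint X)) := by
      rw [ConcreteCategory.isIso_iff_bijective]
      refine ⟨?_, X.residue_surjective _⟩
      have hF : IsField (X.presheaf.stalk (genericPoint X)) :=
        Field.toIsField X.functionField
      have hm := IsLocalRing.isField_iff_maximalIdeal_eq.1 hF
      refine (RingHom.injective_iff_ker_eq_bot (X.residue (genericPoint X)).hom).2 ?_
      exact IsLocalRing.ker_residue.trans hm
    have hiY : IsIso (Y.residue (genericPoint Y)) := by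
      rw [ConcreteCategory.isIso_iff_bijective]
      refine ⟨?_, Y.residue_surjective _⟩
      have hF : IsField (Y.presheaf.stalk (genericPoint Y)) :=
        Field.toIsField Y.functionField
      have hm := IsLocalRing.isField_iff_maximalIdeal_eq.1 hF
      refine (RingHom.injective_iff_ker_eq_bot (Y.residue (genericPoint Y)).hom).2 ?_
      exact IsLocalRing.ker_residue.trans hm
    let φ : Y.presheaf.stalk (genericPoint Y) ⟶ X.presheaf.stalk (genericPoint X) :=
      Y.residue _ ≫ e.inv ≫ inv (X.residue _)
    have hφ : IsIso φ := inferInstance
    have h1 : sY.residueFieldMap (genericPoint Y) ≫ e.inv =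
        eqToHom (congrArg S.residueField hs.symm) ≫ sX.residueFieldMap (genericPoint X) := by
      rw [Iso.comp_inv_eq, Category.assoc, he]
      simp
    have h : sY.stalkMap (genericPoint Y) ≫ φ =
        S.presheaf.stalkSpecializes (Inseparable.of_eq hs).specializes ≫
          sX.stalkMap (genericPoint X) := by
      show sY.stalkMap (genericPoint Y) ≫ Y.residue _ ≫ e.inv ≫ inv (X.residue _) = _
      rw [← Category.assoc, ← Scheme.residue_residueFieldMap, Category.assoc, ← Category.assoc _ e.inv,
        h1, ← Category.assoc, ← Category.assoc]
      have h2 := Groth.Agent.LeadSpread.residue_eqToHom S hs.symm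
      erw [h2]
      rw [IsIso.comp_inv_eq, Category.assoc, Category.assoc]
      erw [Scheme.residue_residueFieldMap]
    obtain ⟨U₁, hx₁, f, hfφ, hf⟩ := spread_out_of_isGermInjective sX sY hs φ h
    have h' := Groth.Agent.LeadSpread.symm_compat sX sY hs φ h
    obtain ⟨V₁, hy₁, g, hgφ, hg⟩ := spread_out_of_isGermInjective sY sX hs.symm (inv φ) h'
    obtain ⟨U, hxU, V, f', hf', -, hS⟩ :=
      Groth.Agent.LeadSpread.iso_spread sX sY φ hx₁ hy₁ f hf g hg hfφ hgφ
    exact Groth.Agent.LeadSpread.birational_of_open_iso sX sY hxU f' hS

end Groth.Agent.S9681
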