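import Groth.Statements.S9882
import Groth.Agent.Lib.Helper15AS

set_option autoImplicit false
universe u
open CategoryTheory CategoryTheory.Limits AlgebraicGeometry
open AlgSp

namespace Groth.Agent.S9882

/-- Let `X` be an algebraic space over `S` with diagonal `Δ : X ⟶ X × X` (representable by schemes).
Then, in the representable sense, `Δ` is locally of finite type, a monomorphism, separated, and
locally quasi-finite. (Mathlib's locally quasi-finite class has no finite-type clause; together with
the first conjunct this is the usual notion.) -/
theorem result (S : Scheme.{u}) (X : AlgSp.Space S) :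
    AlgSp.RepWith @LocallyOfFiniteType (Limits.diag X.obj) ∧
      AlgSp.RepWith (MorphismProperty.monomorphisms Scheme.{u}) (Limits.diag X.obj) ∧
      AlgSp.RepWith @IsSeparated (Limits.diag X.obj) ∧
      AlgSp.RepWith @LocallyQuasiFinite (Limits.diag X.obj) := by
  exact ⟨Groth.Agent.H15AS.diag_lft X.property, Groth.Agent.H15AS.diag_mono X.property, Groth.Agent.H15AS.sep_of_mono (Groth.Agent.H15AS.diag_mono X.property), Groth.Agent.H15AS.lqf_of_mono (Groth.Agent.H15AS.diag_mono X.property) (Groth.Agent.H15AS.diag_lft X.property)⟩

end Groth.Agent.S9882
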