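import Groth.Statements.S9883
import Groth.Agent.Lib.Helper15Pt16

set_option autoImplicit false
universe u
open CategoryTheory CategoryTheory.Limits AlgebraicGeometry
open AlgSp

namespace Groth.Agent.S9883

/-- Let `f : Y ⟶ X` be a morphism of algebraic spaces over `S` which is representable by schemes, let `q
: h_U ⟶ X` be representable etale and surjective with `U` a scheme over `S`, and let `h_V ⟶ Y`, `g :
V ⟶ U` be a base change of `f` along `q`. Let `P` be a property of morphisms of schemes which is
stable under base change and fppf local on the base. Then `f` has `P` (in the representable sense)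
if and only if `g` has `P`. -/
theorem result (S : Scheme.{u}) (X Y : AlgSp.Space S) (f : Y.obj ⟶ X.obj)
    (hf : AlgSp.Representable f) {U V : Over S} (q : (AlgSp.yon S).obj U ⟶ X.obj)
    (hqe : AlgSp.RepWith @Etale q) (hqs : AlgSp.RepWith @Surjective q)
    (fst : (AlgSp.yon S).obj V ⟶ Y.obj) (g : V ⟶ U) (sq : IsPullback fst ((AlgSp.yon S).map g) f q)
    (P : MorphismProperty Scheme.{u}) [P.IsStableUnderBaseChange] [P.IsLocalAtTarget Scheme.fppfPrecoverage] :
    AlgSp.RepWith P f ↔ P g.left := by
  exact ⟨fun h => h.2 q fst g sq, fun h => Groth.Agent.H15AS.descend (P := P) (Q := Groth.Agent.H15AS.Fppf)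
    (fun sq hq hp => Groth.Agent.H15Pt.fppf_local P sq hq hp) hf (Groth.Agent.H15AS.repWith_fppf hqe hqs) sq
    ((AlgSp.repWith_yon_map_iff P g).2 h)⟩

end Groth.Agent.S9883
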