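import Groth.Statements.S9888
import Groth.Agent.Lib.Helper15AS

set_option autoImplicit false
universe u
open CategoryTheory CategoryTheory.Limits AlgebraicGeometry
open AlgSp

namespace Groth.Agent.S9888

/-- Let `F` be an algebraic space over `S`, `f₂ : F₂ ⟶ F` a map of fppf sheaves which is representable
by immersions, `f₁ : F₁ ⟶ F` a map which is representable with property `P`, and `g : F₁ ⟶ F₂` with
`g ≫ f₂ = f₁`. Then `g` is representable and has `P`. (The published statement is the three cases
`P` = immersion, open immersion, closed immersion, i.e. a locally closed, open or closed subspace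
contained in a locally closed subspace is such a subspace of it; the same argument applies to any
`P` stable under base change, and the row is stated for such `P`.) -/
theorem result (S : Scheme.{u}) (F F₁ F₂ : AlgSp.Sp S) (hF : AlgSp.IsAlgSpace F)
    (f₁ : F₁ ⟶ F) (f₂ : F₂ ⟶ F) (P : MorphismProperty Scheme.{u}) [P.IsStableUnderBaseChange]
    (h₁ : AlgSp.RepWith P f₁) (h₂ : AlgSp.RepWith @IsImmersion f₂) (g : F₁ ⟶ F₂) (w : g ≫ f₂ = f₁) :
    AlgSp.RepWith P g := by
  haveI := Groth.Agent.H15AS.mono_of_immersion h₂
  exact Groth.Agent.H15AS.repWith_of_mono_base f₁ f₂ h₁ g w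

end Groth.Agent.S9888
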