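import Groth.Statements.S9900
import Groth.Agent.Lib.Helper15AS

set_option autoImplicit false
universe u
open CategoryTheory CategoryTheory.Limits AlgebraicGeometry
open AlgSp

namespace Groth.Agent.S9900

/-- For a morphism of algebraic spaces the relative diagonal is representable by schemes, locally of
finite type, a monomorphism, separated and locally quasi-finite (each in the representable sense). -/
theorem result {S : Scheme.{u}} {X Y : AlgSp.Space S} (f : X ⟶ Y) :
    AlgSp.Representable (pullback.diagonal f.hom) ∧
    AlgSp.RepWith @LocallyOfFiniteType (pullback.diagonal f.hom) ∧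
    AlgSp.RepWith (MorphismProperty.monomorphisms Scheme.{u}) (pullback.diagonal f.hom) ∧
    AlgSp.RepWith @IsSeparated (pullback.diagonal f.hom) ∧
    AlgSp.RepWith (@LocallyQuasiFinite ⊓ @LocallyOfFiniteType) (pullback.diagonal f.hom) := by
  have h := Groth.Agent.H15AS.dp_diagonal X.property f.hom
  exact ⟨h.rep, h.lft, h.mono, h.sep, h.lqf⟩

end Groth.Agent.S9900
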