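import Groth.Statements.S9901
import Groth.Agent.Lib.Helper15AS

set_option autoImplicit false
universe u
open CategoryTheory CategoryTheory.Limits AlgebraicGeometry
open AlgSp

namespace Groth.Agent.S9901

/-- For f : X -> Z, g : Y -> Z and h : Z -> T, the canonical map X x_Z Y -> X x_T Y is representable by
schemes and, in the representable sense, a separated monomorphism that is locally of finite type and
locally quasi-finite; it is a closed immersion when h is separated and quasi-compact when h is
quasi-separated. (The published lemma also shows that the map is an immersion when h is locally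
separated; this row omits that clause.) -/
theorem result {S : Scheme.{u}} {X Y Z T : AlgSp.Space S} (f : X ⟶ Z) (g : Y ⟶ Z)
    (h : Z ⟶ T) :
    AlgSp.Representable (pullback.mapDesc f.hom g.hom h.hom) ∧
    AlgSp.RepWith @LocallyOfFiniteType (pullback.mapDesc f.hom g.hom h.hom) ∧
    AlgSp.RepWith (@LocallyQuasiFinite ⊓ @LocallyOfFiniteType) (pullback.mapDesc f.hom g.hom h.hom) ∧
    AlgSp.RepWith @IsSeparated (pullback.mapDesc f.hom g.hom h.hom) ∧
    AlgSp.RepWith (MorphismProperty.monomorphisms Scheme.{u}) (pullback.mapDesc f.hom g.hom h.hom) ∧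
    (AlgSp.IsSeparatedMor h.hom → AlgSp.RepWith @IsClosedImmersion (pullback.mapDesc f.hom g.hom h.hom)) ∧
    (AlgSp.IsQuasiSeparatedMor h.hom → AlgSp.RepWith @QuasiCompact (pullback.mapDesc f.hom g.hom h.hom)) := by
  have sq := pullback_map_diagonal_isPullback f.hom g.hom h.hom
  have hd := (Groth.Agent.H15AS.dp_diagonal Z.property h.hom).of_isPullback sq
  exact ⟨hd.rep, hd.lft, hd.lqf, hd.sep, hd.mono,
    fun hs => (AlgSp.RepWith @IsClosedImmersion).of_isPullback sq hs,
    fun hs => (AlgSp.RepWith @QuasiCompact).of_isPullback sq hs⟩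

end Groth.Agent.S9901
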