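import Groth.Statements.S9902
import Groth.Agent.Lib.Helper15AS

set_option autoImplicit false
universe u
open CategoryTheory CategoryTheory.Limits AlgebraicGeometry
open AlgSp

namespace Groth.Agent.S9902

/-- Let s be a section of a morphism f : X -> T of algebraic spaces. Then s is representable by schemes
and, in the representable sense, a separated monomorphism that is locally of finite type and locally
quasi-finite; when f is separated s is a closed immersion, and when f is quasi-separated s is
quasi-compact. (The published lemma also shows that s is an immersion when f is locally separated;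
this row omits that clause.) -/
theorem result {S : Scheme.{u}} {X T : AlgSp.Space S} (f : X ⟶ T) (s : T ⟶ X)
    (hs : s ≫ f = 𝟙 T) :
    AlgSp.Representable s.hom ∧
    AlgSp.RepWith @LocallyOfFiniteType s.hom ∧
    AlgSp.RepWith (@LocallyQuasiFinite ⊓ @LocallyOfFiniteType) s.hom ∧
    AlgSp.RepWith @IsSeparated s.hom ∧
    AlgSp.RepWith (MorphismProperty.monomorphisms Scheme.{u}) s.hom ∧
    (AlgSp.IsSeparatedMor f.hom → AlgSp.RepWith @IsClosedImmersion s.hom) ∧
    (AlgSp.IsQuasiSeparatedMor f.hom → AlgSp.RepWith @QuasiCompact s.hom) := by
  have hs' : s.hom ≫ f.hom = 𝟙 T.obj := by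
    have := congrArg (fun g => g.hom) hs
    exact this
  have hd := Groth.Agent.H15AS.dp_of_section X.property f.hom s.hom hs'
  exact ⟨hd.rep, hd.lft, hd.lqf, hd.sep, hd.mono,
    fun h => Groth.Agent.H15AS.repWith_section f.hom s.hom hs' h,
    fun h => Groth.Agent.H15AS.repWith_section f.hom s.hom hs' h⟩

end Groth.Agent.S9902
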