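import Groth.Statements.S9903
import Groth.Agent.Lib.Helper15AS

set_option autoImplicit false
universe u
open CategoryTheory CategoryTheory.Limits AlgebraicGeometry
open AlgSp

namespace Groth.Agent.S9903

/-- (1) ⇔ (3): a morphism of algebraic spaces is separated (resp. quasi-separated) if and only if its
base change to every affine scheme over the target is. -/
theorem result {S : Scheme.{u}} {X Y : AlgSp.Space S} (f : X ⟶ Y) :
    (AlgSp.IsSeparatedMor f.hom ↔
      ∀ (Z : Over S), IsAffine Z.left → ∀ (g : (AlgSp.yon S).obj Z ⟶ Y.obj) (P : AlgSp.Sp S)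
        (fst : P ⟶ X.obj) (snd : P ⟶ (AlgSp.yon S).obj Z), IsPullback fst snd f.hom g →
        AlgSp.IsSeparatedMor snd) ∧
    (AlgSp.IsQuasiSeparatedMor f.hom ↔
      ∀ (Z : Over S), IsAffine Z.left → ∀ (g : (AlgSp.yon S).obj Z ⟶ Y.obj) (P : AlgSp.Sp S)
        (fst : P ⟶ X.obj) (snd : P ⟶ (AlgSp.yon S).obj Z), IsPullback fst snd f.hom g →
        AlgSp.IsQuasiSeparatedMor snd) := by
  have hd := Groth.Agent.H15AS.dp_diagonal X.property f.hom
  refine ⟨⟨fun h Z _ g P fst snd sq => Groth.Agent.H15AS.diag_baseChange sq h, fun h => ?_⟩,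
    ⟨fun h Z _ g P fst snd sq => Groth.Agent.H15AS.diag_baseChange sq h, fun h => ?_⟩⟩
  · exact Groth.Agent.H15AS.diag_of_affine @IsClosedImmersion hd.rep fun Z hZ g K fst snd sq => h Z hZ g K fst snd sq
  · exact Groth.Agent.H15AS.diag_of_affine @QuasiCompact hd.rep fun Z hZ g K fst snd sq => h Z hZ g K fst snd sq

end Groth.Agent.S9903
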