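import Groth.Statements.S9905
import Groth.Agent.Lib.Helper15Pt7

set_option autoImplicit false
universe u
open CategoryTheory CategoryTheory.Limits AlgebraicGeometry
open AlgSp

namespace Groth.Agent.S9905

/-- For a morphism of algebraic spaces representable by schemes, separated in the diagonal sense agrees
with separated in the representable sense, and likewise for quasi-separated. -/
theorem result {S : Scheme.{u}} {X Y : AlgSp.Space S} (f : X ⟶ Y)
    (hf : AlgSp.Representable f.hom) :
    (AlgSp.IsSeparatedMor f.hom ↔ AlgSp.RepWith @IsSeparated f.hom) ∧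
    (AlgSp.IsQuasiSeparatedMor f.hom ↔ AlgSp.RepWith @QuasiSeparated f.hom) := by
  exact ⟨Groth.Agent.H15Pt.diag_iff (P := @IsClosedImmersion) (Q := @IsSeparated) X.property hf fun g => AlgSp.isSeparatedMor_yon_map_iff g,
    Groth.Agent.H15Pt.diag_iff (P := @QuasiCompact) (Q := @QuasiSeparated) X.property hf fun g => AlgSp.isQuasiSeparatedMor_yon_map_iff g⟩

end Groth.Agent.S9905
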