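import Groth.Statements.S9907
import Groth.Agent.Lib.Helper15Pt

set_option autoImplicit false
universe u
open CategoryTheory CategoryTheory.Limits AlgebraicGeometry
open AlgSp

namespace Groth.Agent.S9907

/-- The base change of a surjective morphism of algebraic spaces is surjective. -/
theorem result {S : Scheme.{u}} {X Y Y' : AlgSp.Space S} (f : X ⟶ Y) (g : Y' ⟶ Y)
    {P : AlgSp.Sp S} (fst : P ⟶ X.obj) (snd : P ⟶ Y'.obj) (sq : IsPullback fst snd f.hom g.hom)
    (hf : AlgSp.IsSurjectiveMor f.hom) : AlgSp.IsSurjectiveMor snd := by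
  exact Groth.Agent.H15Pt.surj_of_isPullback sq hf

end Groth.Agent.S9907
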