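import Groth.Statements.S9908
import Groth.Agent.Lib.Helper15Pt3

set_option autoImplicit false
universe u
open CategoryTheory CategoryTheory.Limits AlgebraicGeometry
open AlgSp

namespace Groth.Agent.S9908

/-- For a morphism of algebraic spaces representable by schemes, representable universal openness is
equivalent to openness of |Z x_Y X| -> |Z| after every base change along a morphism of algebraic
spaces. -/
theorem result {S : Scheme.{u}} {X Y : AlgSp.Space S} (f : X ⟶ Y)
    (hf : AlgSp.Representable f.hom) :
    AlgSp.RepWith @UniversallyOpen f.hom ↔ AlgSp.IsUnivOpenMor f.hom := by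
  exact ⟨fun h => Groth.Agent.H15Pt.univOpen_of_repWith h, fun h => Groth.Agent.H15Pt.repWith_of_univOpen hf h⟩

end Groth.Agent.S9908
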