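import Groth.Statements.S9909
import Groth.Agent.Lib.Helper15Pt

set_option autoImplicit false
universe u
open CategoryTheory CategoryTheory.Limits AlgebraicGeometry
open AlgSp

namespace Groth.Agent.S9909

/-- (1) ⇔ (3): a morphism of algebraic spaces is universally open if and only if its base change to
every affine scheme over the target is open on points. -/
theorem result {S : Scheme.{u}} {X Y : AlgSp.Space S} (f : X ⟶ Y) :
    AlgSp.IsUnivOpenMor f.hom ↔
      ∀ (Z : Over S), IsAffine Z.left → ∀ (g : (AlgSp.yon S).obj Z ⟶ Y.obj) (P : AlgSp.Sp S)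
        (fst : P ⟶ X.obj) (snd : P ⟶ (AlgSp.yon S).obj Z), IsPullback fst snd f.hom g →
        IsOpenMap (AlgSp.Points.map snd) := by
  exact ⟨fun h Z _ g P fst snd sq => h (AlgSp.IsAlgSpace.yon_obj Z) g fst snd sq, fun h Z Z' _ g fst snd sq => Groth.Agent.H15Pt.open_of_affine_baseChange h g fst snd sq⟩

end Groth.Agent.S9909
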