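import Groth.Statements.S9910
import Groth.Agent.Lib.Helper15Pt

set_option autoImplicit false
universe u
open CategoryTheory CategoryTheory.Limits AlgebraicGeometry
open AlgSp

namespace Groth.Agent.S9910

/-- (4) ⇒ (1): universal openness of a morphism of algebraic spaces descends along a surjective etale
base change from a scheme. -/
theorem result {S : Scheme.{u}} {X Y : AlgSp.Space S} (f : X ⟶ Y) (V : Over S)
    (p : (AlgSp.yon S).obj V ⟶ Y.obj) (hp : AlgSp.RepWith @Etale p) (hps : AlgSp.RepWith @Surjective p)
    {P : AlgSp.Sp S} (fst : P ⟶ X.obj) (snd : P ⟶ (AlgSp.yon S).obj V) (sq : IsPullback fst snd f.hom p)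
    (h : AlgSp.IsUnivOpenMor snd) : AlgSp.IsUnivOpenMor f.hom := by
  exact Groth.Agent.H15Pt.univOpen_descend (Groth.Agent.H15AS.repWith_fppf hp hps) sq h

end Groth.Agent.S9910
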