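import Groth.Statements.S9912
import Groth.Agent.Lib.Helper15Pt9

set_option autoImplicit false
universe u
open CategoryTheory CategoryTheory.Limits AlgebraicGeometry
open AlgSp

namespace Groth.Agent.S9912

/-- For a morphism of algebraic spaces representable by schemes, representable quasi-compactness agrees
with the condition that base changes to quasi-compact algebraic spaces are quasi-compact. -/
theorem result {S : Scheme.{u}} {X Y : AlgSp.Space S} (f : X ⟶ Y)
    (hf : AlgSp.Representable f.hom) :
    AlgSp.RepWith @QuasiCompact f.hom ↔ AlgSp.IsQuasiCompactMor f.hom := by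
  exact ⟨fun h => Groth.Agent.H15Pt.qc_of_repWith h, fun h => Groth.Agent.H15Pt.repWith_of_qc hf h⟩

end Groth.Agent.S9912
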