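import Groth.Statements.S9913
import Groth.Agent.Lib.Helper15Pt12

set_option autoImplicit false
universe u
open CategoryTheory CategoryTheory.Limits AlgebraicGeometry
open AlgSp

namespace Groth.Agent.S9913

/-- For a quasi-compact morphism of algebraic spaces, the induced map on points pulls quasi-compact
opens back to quasi-compact subsets. -/
theorem result {S : Scheme.{u}} {X Y : AlgSp.Space S} (f : X ⟶ Y)
    (hf : AlgSp.IsQuasiCompactMor f.hom) (V : Set (AlgSp.Points Y.obj)) (hV : IsOpen V) (hVc : IsCompact V) :
    IsCompact (AlgSp.Points.map f.hom ⁻¹' V) := by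
  exact Groth.Agent.H15Pt.preimage_compact Y.property hf hV hVc

end Groth.Agent.S9913
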