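import Groth.Statements.S9914
import Groth.Agent.Lib.Helper15Pt9

set_option autoImplicit false
universe u
open CategoryTheory CategoryTheory.Limits AlgebraicGeometry
open AlgSp

namespace Groth.Agent.S9914

/-- The target of a surjective morphism of algebraic spaces with quasi-compact source is quasi-compact. -/
theorem result {S : Scheme.{u}} {X Y : AlgSp.Space S} (f : X ⟶ Y)
    (hf : AlgSp.IsSurjectiveMor f.hom) (hX : AlgSp.IsQuasiCompactSp X.obj) : AlgSp.IsQuasiCompactSp Y.obj := by
  have := Groth.Agent.H15Pt.compact_points hX
  refine Groth.Agent.H15Pt.qcSp_of_compact Y.property ⟨?_⟩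
  rw [← Function.Surjective.range_eq hf]
  exact isCompact_range (AlgSp.Points.continuous_map _)

end Groth.Agent.S9914
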