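import Groth.Statements.S9915
import Groth.Agent.Lib.Helper15Pt11

set_option autoImplicit false
universe u
open CategoryTheory CategoryTheory.Limits AlgebraicGeometry
open AlgSp

namespace Groth.Agent.S9915

/-- In a commutative triangle of algebraic spaces with f : X -> Y surjective, if X -> Z is quasi-compact
then Y -> Z is quasi-compact. -/
theorem result {S : Scheme.{u}} {X Y Z : AlgSp.Space S} (f : X ⟶ Y)
    (p : X ⟶ Z) (q : Y ⟶ Z) (comm : f ≫ q = p) (hf : AlgSp.IsSurjectiveMor f.hom)
    (hp : AlgSp.IsQuasiCompactMor p.hom) : AlgSp.IsQuasiCompactMor q.hom := by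
  refine Groth.Agent.H15Pt.qc_of_surj (f := f.hom) Y.property Z.property hf ?_
  have e : f.hom ≫ q.hom = p.hom := by rw [← comm]; rfl
  rw [e]
  exact hp

end Groth.Agent.S9915
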