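import Groth.Statements.S9916
import Groth.Agent.Lib.Helper15Pt11

set_option autoImplicit false
universe u
open CategoryTheory CategoryTheory.Limits AlgebraicGeometry
open AlgSp

namespace Groth.Agent.S9916

/-- Quasi-compactness of a morphism of algebraic spaces descends along a universally open surjective
base change. -/
theorem result {S : Scheme.{u}} {X Y Y' X' : AlgSp.Space S}
    (f : X ⟶ Y) (g : Y' ⟶ Y) (fst : X' ⟶ X) (f' : X' ⟶ Y') (sq : IsPullback fst.hom f'.hom f.hom g.hom)
    (hg : AlgSp.IsUnivOpenMor g.hom) (hgs : AlgSp.IsSurjectiveMor g.hom) (hf' : AlgSp.IsQuasiCompactMor f'.hom) :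
    AlgSp.IsQuasiCompactMor f.hom := by
  exact Groth.Agent.H15Pt.qc_descend X.property Y.property Y'.property sq hg hgs hf'

end Groth.Agent.S9916
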