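import Groth.Statements.S9919
import Groth.Agent.Lib.Helper15Pt12

set_option autoImplicit false
universe u
open CategoryTheory CategoryTheory.Limits AlgebraicGeometry
open AlgSp

namespace Groth.Agent.S9919

/-- For morphisms f : X -> Y and g : Y -> Z of algebraic spaces, quasi-compactness of the composite
together with quasi-separatedness of g forces f to be quasi-compact. -/
theorem result {S : Scheme.{u}} {X Y Z : AlgSp.Space S} (f : X ⟶ Y)
    (g : Y ⟶ Z) (hgf : AlgSp.IsQuasiCompactMor (f ≫ g).hom) (hg : AlgSp.IsQuasiSeparatedMor g.hom) :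
    AlgSp.IsQuasiCompactMor f.hom := by
  exact Groth.Agent.H15Pt.qc_of_comp X.property Y.property Z.property (f := f.hom) (g := g.hom) hgf hg

end Groth.Agent.S9919
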