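import Groth.Statements.S9920
import Groth.Agent.Lib.Helper15Pt13

set_option autoImplicit false
universe u
open CategoryTheory CategoryTheory.Limits AlgebraicGeometry
open AlgSp

namespace Groth.Agent.S9920

/-- Over a base scheme S with quasi-separated underlying space, a morphism from a quasi-compact
algebraic space to an algebraic space quasi-separated over S is quasi-compact. (The published
statement takes the target quasi-separated in the absolute sense; this row takes it quasi-separated
over S and S quasi-separated. With quasi-separatedness over S the hypothesis on S is needed: for S
quasi-compact but not quasi-separated, an affine chart of h_S is not quasi-compact over h_S.) -/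
theorem result {S : Scheme.{u}} [QuasiSeparatedSpace ↥S]
    {X Y : AlgSp.Space S} (f : X ⟶ Y) (hX : AlgSp.IsQuasiCompactSp X.obj) (hY : AlgSp.IsQuasiSeparatedSp Y.obj) :
    AlgSp.IsQuasiCompactMor f.hom := by
  exact Groth.Agent.H15Pt.qc_of_qs Y.property hX hY

end Groth.Agent.S9920
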