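import Groth.Statements.S9921
import Groth.Agent.Lib.Helper15Pt13

set_option autoImplicit false
universe u
open CategoryTheory CategoryTheory.Limits AlgebraicGeometry
open AlgSp

namespace Groth.Agent.S9921

/-- Over a base scheme with quasi-separated underlying space, a fibre product of algebraic spaces that
are each quasi-compact (absolutely: each has an etale surjective chart from a quasi-compact scheme)
and quasi-separated over S is again quasi-compact (absolutely) and quasi-separated over S. (The
published statement takes quasi-separatedness in the absolute sense; this row takes it over S and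
assumes S quasi-separated.) -/
theorem result {S : Scheme.{u}} [QuasiSeparatedSpace ↥S] {X Y Z P : AlgSp.Space S}
    (f : X ⟶ Y) (g : Z ⟶ Y) (fst : P ⟶ X) (snd : P ⟶ Z) (sq : IsPullback fst.hom snd.hom f.hom g.hom)
    (hX : AlgSp.IsQuasiCompactSp X.obj ∧ AlgSp.IsQuasiSeparatedSp X.obj)
    (hY : AlgSp.IsQuasiCompactSp Y.obj ∧ AlgSp.IsQuasiSeparatedSp Y.obj)
    (hZ : AlgSp.IsQuasiCompactSp Z.obj ∧ AlgSp.IsQuasiSeparatedSp Z.obj) :
    AlgSp.IsQuasiCompactSp P.obj ∧ AlgSp.IsQuasiSeparatedSp P.obj := by
  exact ⟨Groth.Agent.H15Pt.qcSp_of_mor Z.property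
      (Groth.Agent.H15Pt.qc_baseChange sq (Groth.Agent.H15Pt.qc_of_qs Y.property hX.1 hY.2)) hZ.1,
    Groth.Agent.H15Pt.qs_comp (f := snd.hom)
      (Groth.Agent.H15AS.diag_baseChange sq (Groth.Agent.H15AS.diagonal_repWith hX.2 f.hom)) hZ.2⟩

end Groth.Agent.S9921
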