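import Groth.Statements.S9933
import Groth.Agent.Lib.Helper15AS

set_option autoImplicit false
universe u
open CategoryTheory CategoryTheory.Limits AlgebraicGeometry
open AlgSp

namespace Groth.Agent.S9933

/-- Permanence for Z -> Y -> X: if Z -> X is a separated monomorphism that is representable, locally
quasi-finite and locally of finite type (all five together), then so is Z -> Y; and a closed
immersion Z -> X with Y -> X separated gives a closed immersion Z -> Y. -/
theorem result {S : Scheme.{u}} {Z Y X : AlgSp.Space S} (a : Z ⟶ Y) (b : Y ⟶ X) :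
    ((AlgSp.Representable (a ≫ b).hom ∧ AlgSp.RepWith @LocallyOfFiniteType (a ≫ b).hom ∧
        AlgSp.RepWith (@LocallyQuasiFinite ⊓ @LocallyOfFiniteType) (a ≫ b).hom ∧
        AlgSp.RepWith @IsSeparated (a ≫ b).hom ∧
        AlgSp.RepWith (MorphismProperty.monomorphisms Scheme.{u}) (a ≫ b).hom) →
      (AlgSp.Representable a.hom ∧ AlgSp.RepWith @LocallyOfFiniteType a.hom ∧
        AlgSp.RepWith (@LocallyQuasiFinite ⊓ @LocallyOfFiniteType) a.hom ∧
        AlgSp.RepWith @IsSeparated a.hom ∧
        AlgSp.RepWith (MorphismProperty.monomorphisms Scheme.{u}) a.hom)) ∧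
    (AlgSp.RepWith @IsClosedImmersion (a ≫ b).hom → AlgSp.IsSeparatedMor b.hom →
      AlgSp.RepWith @IsClosedImmersion a.hom) := by
  have hb := Groth.Agent.H15AS.dp_diagonal Y.property b.hom
  refine ⟨fun h => ?_, fun h hs => ?_⟩
  · have hd : Groth.Agent.H15AS.DP (a.hom ≫ b.hom) := ⟨h.1, h.2.1, h.2.2.2.2⟩
    have ha := Groth.Agent.H15AS.dp_of_comp a.hom b.hom hd hb
    exact ⟨ha.rep, ha.lft, ha.lqf, ha.sep, ha.mono⟩
  · exact Groth.Agent.H15AS.repWith_of_comp a.hom b.hom h hs

end Groth.Agent.S9933
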