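import Groth.Statements.S9934
import Groth.Agent.Lib.Helper15Pt4

set_option autoImplicit false
universe u
open CategoryTheory CategoryTheory.Limits AlgebraicGeometry
open AlgSp

namespace Groth.Agent.S9934

/-- An immersion of algebraic spaces is a closed immersion exactly when its image on points is closed. -/
theorem result {S : Scheme.{u}} {Z X : AlgSp.Space S} (i : Z ⟶ X)
    (hi : AlgSp.RepWith @IsImmersion i.hom) :
    AlgSp.RepWith @IsClosedImmersion i.hom ↔ IsClosed (Set.range (AlgSp.Points.map i.hom)) := by
  exact Groth.Agent.H15Pt.closedImm_iff i.hom hi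

end Groth.Agent.S9934
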