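import Groth.Statements.S9937
import Groth.Agent.Lib.Helper15Pt4

set_option autoImplicit false
universe u
open CategoryTheory CategoryTheory.Limits AlgebraicGeometry
open AlgSp

namespace Groth.Agent.S9937

/-- Closed immersions between algebraic spaces are separated morphisms. -/
theorem result {S : Scheme.{u}} {X Y : AlgSp.Space S} (f : X ⟶ Y)
    (hf : AlgSp.RepWith @IsClosedImmersion f.hom) : AlgSp.IsSeparatedMor f.hom := by
  have hm : Mono f.hom := Groth.Agent.H15AS.mono_of_immersion
    (Groth.Agent.H15AS.repWith_imp (fun f hf => by have : IsClosedImmersion f := hf; infer_instance) hf)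
  exact Groth.Agent.H15Pt.closedImm_sep hm _

end Groth.Agent.S9937
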