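import Groth.Statements.S9938
import Groth.Agent.Lib.Helper15Pt15

set_option autoImplicit false
universe u
open CategoryTheory CategoryTheory.Limits AlgebraicGeometry
open AlgSp

namespace Groth.Agent.S9938

/-- For a morphism of algebraic spaces, injectivity on field-valued points, universal injectivity, and
surjectivity of the diagonal are equivalent. -/
theorem result {S : Scheme.{u}} {X Y : AlgSp.Space S} (f : X ⟶ Y) :
    ((∀ (K : Type u) [Field K] (str : Spec (CommRingCat.of K) ⟶ S),
        Function.Injective (fun a : (AlgSp.yon S).obj (Over.mk str) ⟶ X.obj => a ≫ f.hom)) ↔ AlgSp.IsUnivInjectiveMor f.hom) ∧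
    (AlgSp.IsUnivInjectiveMor f.hom ↔ AlgSp.IsSurjectiveMor (pullback.diagonal f.hom)) := by
  have h1 : (∀ (K : Type u) [Field K] (str : Spec (CommRingCat.of K) ⟶ S),
      Function.Injective (fun a : (AlgSp.yon S).obj (Over.mk str) ⟶ X.obj => a ≫ f.hom)) → AlgSp.IsUnivInjectiveMor f.hom :=
    fun h => Groth.Agent.H15Pt.univInj_of_inj h
  have h2 : AlgSp.IsUnivInjectiveMor f.hom → AlgSp.IsSurjectiveMor (pullback.diagonal f.hom) :=
    fun h => Groth.Agent.H15Pt.diag_surj_of_univInj h
  have h3 : AlgSp.IsSurjectiveMor (pullback.diagonal f.hom) → (∀ (K : Type u) [Field K] (str : Spec (CommRingCat.of K) ⟶ S),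
      Function.Injective (fun a : (AlgSp.yon S).obj (Over.mk str) ⟶ X.obj => a ≫ f.hom)) :=
    fun h K _ str => Groth.Agent.H15Pt.inj_of_diag_surj X.property h K str
  exact ⟨⟨h1, fun h => h3 (h2 h)⟩, ⟨h2, fun h => h1 (h3 h)⟩⟩

end Groth.Agent.S9938
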