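import Groth.Statements.S9939
import Groth.Agent.Lib.Helper15Pt14

set_option autoImplicit false
universe u
open CategoryTheory CategoryTheory.Limits AlgebraicGeometry
open AlgSp

namespace Groth.Agent.S9939

/-- For a morphism of algebraic spaces representable by schemes, representable universal injectivity is
equivalent to injectivity on K-valued points for every field K. -/
theorem result {S : Scheme.{u}} {X Y : AlgSp.Space S} (f : X ⟶ Y)
    (hf : AlgSp.Representable f.hom) :
    AlgSp.RepWith @UniversallyInjective f.hom ↔
      ∀ (K : Type u) [Field K] (str : Spec (CommRingCat.of K) ⟶ S),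
        Function.Injective (fun a : (AlgSp.yon S).obj (Over.mk str) ⟶ X.obj => a ≫ f.hom) := by
  exact Groth.Agent.H15Pt.univInj_iff hf

end Groth.Agent.S9939
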