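import Groth.Statements.S9940
import Groth.Agent.Lib.Helper15Pt4

set_option autoImplicit false
universe u
open CategoryTheory CategoryTheory.Limits AlgebraicGeometry
open AlgSp

namespace Groth.Agent.S9940

/-- (4) ⇒ (1): universal injectivity of a morphism of algebraic spaces descends along a surjective base
change from a scheme. -/
theorem result {S : Scheme.{u}} {X Y : AlgSp.Space S} (f : X ⟶ Y)
    (Z : Over S) (g : (AlgSp.yon S).obj Z ⟶ Y.obj) (hg : AlgSp.IsSurjectiveMor g) {P : AlgSp.Sp S}
    (fst : P ⟶ X.obj) (snd : P ⟶ (AlgSp.yon S).obj Z) (sq : IsPullback fst snd f.hom g)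
    (h : AlgSp.IsUnivInjectiveMor snd) : AlgSp.IsUnivInjectiveMor f.hom := by
  exact Groth.Agent.H15Pt.univInj_descend hg sq h

end Groth.Agent.S9940
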