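import Groth.Statements.S9944
import Groth.Agent.Lib.Helper15Pt17

set_option autoImplicit false
universe u
open CategoryTheory CategoryTheory.Limits AlgebraicGeometry
open AlgSp

namespace Groth.Agent.S9944

/-- Let g : X -> Y be a morphism over a base algebraic space B with X affine over B. Then g is affine as
soon as the diagonal of Y over B is affine, and in particular as soon as Y is B-separated. (The
published lemma also has two versions with the absolute diagonal of Y; this row states the versions
over B.) -/
theorem result {S : Scheme.{u}} {X Y B : AlgSp.Space S} (g : X ⟶ Y) (p : X ⟶ B)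
    (q : Y ⟶ B) (comm : g ≫ q = p) (hp : AlgSp.IsAffineMor p.hom) :
    (AlgSp.IsAffineMor (pullback.diagonal q.hom) → AlgSp.IsAffineMor g.hom) ∧
    (AlgSp.IsSeparatedMor q.hom → AlgSp.IsAffineMor g.hom) := by
  have e : g.hom ≫ q.hom = p.hom := by rw [← comm]; rfl
  rw [← e] at hp
  exact ⟨fun h => Groth.Agent.H15Pt.aff_of_comp hp h,
    fun h => Groth.Agent.H15Pt.aff_of_comp hp (Groth.Agent.H15Pt.aff_closed h)⟩

end Groth.Agent.S9944
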