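import Groth.Statements.S9951
import Groth.Agent.Lib.Helper15Pt6

set_option autoImplicit false
universe u
open CategoryTheory CategoryTheory.Limits AlgebraicGeometry
open AlgSp

namespace Groth.Agent.S9951

/-- The source of a morphism locally of finite type with locally Noetherian target is locally
Noetherian. -/
theorem result {S : Scheme.{u}} {X Y : AlgSp.Space S} (f : X ⟶ Y)
    (hf : AlgSp.LocP @LocallyOfFiniteType f.hom) (hY : AlgSp.IsLocNoethSp Y.obj) : AlgSp.IsLocNoethSp X.obj := by
  obtain ⟨W, w, he, hs, hW⟩ := hY
  obtain ⟨U, p, α, h1, h2, h3⟩ := Groth.Agent.H15Pt.exists_chart X.property f.hom w he hs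
  have h4 : LocallyOfFiniteType α.left := hf p w α h1 he h3
  have : IsLocallyNoetherian W.left := hW
  exact ⟨U, p, h1, h2, LocallyOfFiniteType.isLocallyNoetherian α.left⟩

end Groth.Agent.S9951
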