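import Groth.Statements.S9952
import Groth.Agent.Lib.Helper15Pt6

set_option autoImplicit false
universe u
open CategoryTheory CategoryTheory.Limits AlgebraicGeometry
open AlgSp

namespace Groth.Agent.S9952

/-- If g ∘ f is locally of finite type then f is locally of finite type. -/
theorem result {S : Scheme.{u}} {X Y Z : AlgSp.Space S} (f : X ⟶ Y) (g : Y ⟶ Z)
    (h : AlgSp.LocP @LocallyOfFiniteType (f ≫ g).hom) : AlgSp.LocP @LocallyOfFiniteType f.hom := by
  obtain ⟨W, w, he, hs⟩ := Z.property.atlas
  refine Groth.Agent.H15Pt.locP_aux (g := g.hom) he hs fun a b k l ha hb c1 c2 => ?_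
  have h1 : LocallyOfFiniteType (k ≫ l).left := h a w (k ≫ l) ha he (by
    change a ≫ f.hom ≫ g.hom = _
    rw [← Category.assoc, c1, Category.assoc, c2, Functor.map_comp, Category.assoc])
  have h2 : LocallyOfFiniteType (k.left ≫ l.left) := h1
  exact AlgebraicGeometry.locallyOfFiniteType_of_comp k.left l.left

end Groth.Agent.S9952
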