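import Groth.Statements.S9953
import Groth.Agent.Lib.Helper15Pt6

set_option autoImplicit false
universe u
open CategoryTheory CategoryTheory.Limits AlgebraicGeometry
open AlgSp

namespace Groth.Agent.S9953

/-- If a morphism of algebraic spaces is an immersion, then it is locally of finite type. -/
theorem result {S : Scheme.{u}} {X Y : AlgSp.Space S} (f : X ⟶ Y)
    (hf : AlgSp.RepWith @IsImmersion f.hom) : AlgSp.LocP @LocallyOfFiniteType f.hom := by
  exact Groth.Agent.H15Pt.locP_of_repWith (P := @LocallyOfFiniteType)
    (fun f g h1 h2 => by have : Etale f := h1; have : LocallyOfFiniteType g := h2; infer_instance)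
    (Groth.Agent.H15AS.repWith_imp (fun f hf => by have : IsImmersion f := hf; infer_instance) hf)

end Groth.Agent.S9953
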