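import Groth.Statements.S9957
import Groth.Agent.Lib.Helper15Pt13

set_option autoImplicit false
universe u
open CategoryTheory CategoryTheory.Limits AlgebraicGeometry
open AlgSp

namespace Groth.Agent.S9957

/-- The source of a morphism of finite presentation whose target is Noetherian is itself Noetherian,
Noetherian meaning quasi-compact, quasi-separated over S and locally Noetherian. (The published
statement uses quasi-separatedness in the absolute sense; this row uses quasi-separatedness over S
in hypothesis and conclusion.) -/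
theorem result {S : Scheme.{u}} {X Y : AlgSp.Space S} (f : X ⟶ Y)
    (hf : AlgSp.IsFinitePresentationMor f.hom)
    (hY : AlgSp.IsQuasiCompactSp Y.obj ∧ AlgSp.IsQuasiSeparatedSp Y.obj ∧ AlgSp.IsLocNoethSp Y.obj) :
    AlgSp.IsQuasiCompactSp X.obj ∧ AlgSp.IsQuasiSeparatedSp X.obj ∧ AlgSp.IsLocNoethSp X.obj := by
  refine ⟨Groth.Agent.H15Pt.qcSp_of_mor Y.property hf.2.1 hY.1, Groth.Agent.H15Pt.qs_comp hf.2.2 hY.2.1, ?_⟩
  obtain ⟨W, w, he, hs, hW⟩ := hY.2.2
  obtain ⟨U, p, α, h1, h2, h3⟩ := Groth.Agent.H15Pt.exists_chart X.property f.hom w he hs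
  have h4 : LocallyOfFinitePresentation α.left := hf.1 p w α h1 he h3
  have : IsLocallyNoetherian W.left := hW
  exact ⟨U, p, h1, h2, LocallyOfFiniteType.isLocallyNoetherian α.left⟩

end Groth.Agent.S9957
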