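import Groth.Statements.S9958
import Groth.Agent.Lib.Helper15Pt6

set_option autoImplicit false
universe u
open CategoryTheory CategoryTheory.Limits AlgebraicGeometry
open AlgSp

namespace Groth.Agent.S9958

/-- Over a locally Noetherian algebraic space, locally of finite type implies locally of finite
presentation. -/
theorem result {S : Scheme.{u}} {X Y : AlgSp.Space S} (f : X ⟶ Y)
    (hY : AlgSp.IsLocNoethSp Y.obj) (hf : AlgSp.LocP @LocallyOfFiniteType f.hom) :
    AlgSp.LocP @LocallyOfFinitePresentation f.hom := by
  obtain ⟨W, w, he, hs, hW⟩ := hY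
  refine Groth.Agent.H15Pt.locP_aux (g := 𝟙 Y.obj) he hs fun {U V} a b k l ha hb c1 c2 => ?_
  have h1 : LocallyOfFiniteType k.left := hf a b k ha hb c1
  have hb' : AlgSp.RepWith @Etale ((AlgSp.yon S).map l ≫ w) := by rw [← c2, Category.comp_id]; exact hb
  have h2 : Etale l.left := Groth.Agent.H15Pt.etale_of_comp w l he hb'
  have : IsLocallyNoetherian W.left := hW
  have : IsLocallyNoetherian V.left := LocallyOfFiniteType.isLocallyNoetherian l.left
  infer_instance

end Groth.Agent.S9958
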