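import Groth.Statements.S9961
import Groth.Agent.Lib.Helper15Pt7

set_option autoImplicit false
universe u
open CategoryTheory CategoryTheory.Limits AlgebraicGeometry
open AlgSp

namespace Groth.Agent.S9961

/-- Open immersions between algebraic spaces are locally finitely presented (etale locally on source and
target). -/
theorem result {S : Scheme.{u}} {X Y : AlgSp.Space S} (f : X ⟶ Y)
    (hf : AlgSp.RepWith @IsOpenImmersion f.hom) : AlgSp.LocP @LocallyOfFinitePresentation f.hom := by
  exact Groth.Agent.H15Pt.locP_of_repWith (P := @LocallyOfFinitePresentation)
    (fun f g h1 h2 => by have : Etale f := h1; have : LocallyOfFinitePresentation g := h2; infer_instance)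
    (Groth.Agent.H15AS.repWith_imp (fun f hf => by have : IsOpenImmersion f := hf; infer_instance) hf)

end Groth.Agent.S9961
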