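import Groth.Statements.S9962
import Groth.Agent.Lib.Helper15Pt7

set_option autoImplicit false
universe u
open CategoryTheory CategoryTheory.Limits AlgebraicGeometry
open AlgSp

namespace Groth.Agent.S9962

/-- A flat morphism locally of finite presentation between algebraic spaces is universally open. -/
theorem result {S : Scheme.{u}} {X Y : AlgSp.Space S} (f : X ⟶ Y)
    (hfl : AlgSp.LocP @Flat f.hom) (hfp : AlgSp.LocP @LocallyOfFinitePresentation f.hom) :
    AlgSp.IsUnivOpenMor f.hom := by
  obtain ⟨V, v, hve, hvs⟩ := Y.property.atlas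
  obtain ⟨U, p, α, h1, h2, h3⟩ := Groth.Agent.H15Pt.exists_chart X.property f.hom v hve hvs
  have sq := IsPullback.of_hasPullback f.hom v
  refine Groth.Agent.H15Pt.univOpen_descend (Groth.Agent.H15AS.repWith_fppf hve hvs) sq ?_
  have sqU := IsPullback.of_hasPullback p (pullback.fst f.hom v)
  have hs1 : AlgSp.RepWith @Surjective (pullback.snd p (pullback.fst f.hom v)) :=
    MorphismProperty.of_isPullback sqU h2
  have he1 : AlgSp.RepWith @Etale (pullback.snd p (pullback.fst f.hom v)) :=
    MorphismProperty.of_isPullback sqU h1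
  refine Groth.Agent.H15Pt.univOpen_of_cover hs1 ?_
  have sq3 := sqU.paste_vert sq
  rw [h3] at sq3
  obtain ⟨W, s, r, sqW⟩ := hve.1 ((AlgSp.yon S).map α ≫ v)
  obtain ⟨r, rfl⟩ := (AlgSp.yon S).map_surjective r
  have hs : Etale s.left := hve.2 _ _ _ sqW
  let e := sqW.flip.isoIsPullback _ _ sq3
  have e1 : e.hom ≫ (pullback.snd p (pullback.fst f.hom v) ≫ pullback.snd f.hom v) = (AlgSp.yon S).map r :=
    sqW.flip.isoIsPullback_hom_snd _ _ sq3
  have e2 : e.hom ≫ (pullback.fst p (pullback.fst f.hom v)) = (AlgSp.yon S).map s :=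
    sqW.flip.isoIsPullback_hom_fst _ _ sq3
  have e3 : pullback.snd p (pullback.fst f.hom v) ≫ pullback.snd f.hom v = e.inv ≫ (AlgSp.yon S).map r := by
    rw [← e1, Iso.inv_hom_id_assoc]
  have c : ((AlgSp.yon S).map s ≫ p) ≫ f.hom = (AlgSp.yon S).map r ≫ v := by
    rw [Category.assoc, h3, ← sqW.w]
  have hch : AlgSp.RepWith @Etale ((AlgSp.yon S).map s ≫ p) :=
    MorphismProperty.comp_mem _ _ _ ((AlgSp.repWith_yon_map_iff _ _).2 hs) h1
  have f1 : Flat r.left := hfl _ _ _ hch hve c
  have f2 : LocallyOfFinitePresentation r.left := hfp _ _ _ hch hve c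
  have hi : AlgSp.RepWith @UniversallyOpen e.inv := MorphismProperty.of_isIso _ _
  have f3 : UniversallyOpen r.left := inferInstance
  rw [e3]
  exact Groth.Agent.H15Pt.univOpen_of_repWith (MorphismProperty.comp_mem _ _ _ hi ((AlgSp.repWith_yon_map_iff _ _).2 f3))

end Groth.Agent.S9962
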